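import Cfsg.Statements.S0547
import Mathlib
import Cfsg.Agent.H16.RegNormal

set_option autoImplicit false
open Cfsg

namespace Cfsg.Agent.S0547

theorem comm_of_minNormal {G : Type*} [Group G] [Group.IsSolvable G] (M : Subgroup G) [M.Normal]
    (hM : M ≠ ⊥) (hmin : ∀ K : Subgroup G, K.Normal → K ≤ M → K = ⊥ ∨ K = M) :
    IsMulCommutative M := by
  have h := (hmin ⁅M, M⁆ inferInstance (Subgroup.commutator_le_left M M)).resolve_right
    (IsSolvable.commutator_lt_of_ne_bot hM).ne
  rw [Subgroup.commutator_eq_bot_iff_le_centralizer] at h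
  exact ⟨⟨fun a b => Subtype.ext (h b.2 a a.2)⟩⟩

/-- Let a finite solvable group G act faithfully and primitively on a set, and let M be a minimal normal subgroup of G. Then M is transitive with trivial point stabilizers, and the number of points equals the order of M, which is a prime power p ^ d with d ≥ 1. -/
theorem result {G : Type*} [Group G] [Finite G] [Group.IsSolvable G] {Ω : Type*} [Nonempty Ω] [MulAction G Ω] [FaithfulSMul G Ω] (hprim : MulAction.IsPreprimitive G Ω) (M : Subgroup G) [M.Normal] (hM : M ≠ ⊥) (hmin : ∀ K : Subgroup G, K.Normal → K ≤ M → K = ⊥ ∨ K = M) : MulAction.IsPretransitive M Ω ∧ (∀ ω : Ω, MulAction.stabilizer M ω = ⊥) ∧ ∃ p d : ℕ, p.Prime ∧ 0 < d ∧ Nat.card Ω = p ^ d ∧ Nat.card M = p ^ d := by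
  have ht := H16.normal_trans (α := Ω) M hM
  have hc := comm_of_minNormal M hM hmin
  have hreg := H16.stabilizer_eq_bot_of_comm (α := Ω) M hc
  obtain ⟨p, hp, h⟩ := H16.minNormal_comm_exponent M hM hmin hc
  obtain ⟨d, hd⟩ := H16.card_eq_pow_of_exponent hp h
  obtain ⟨a⟩ := ‹Nonempty Ω›
  refine ⟨ht, hreg, p, d, hp, ?_, by rw [← H16.card_eq_of_regular a (hreg a), hd], hd⟩
  rcases Nat.eq_zero_or_pos d with rfl | h
  · exact absurd (Subgroup.eq_bot_of_card_eq M hd) hM
  · exact h

end Cfsg.Agent.S0547
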