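import Cfsg.Statements.S3784
import Mathlib
import Cfsg.Agent.FT.Card

set_option autoImplicit false
open Cfsg

namespace Cfsg.Agent.S3784

theorem aux (x : ℤ) (hx : Odd x) {n k : ℕ} (hn : Odd n) (h : x ^ n - 1 ∣ 2 ^ k) :
    (x ^ n - 1).natAbs = (x - 1).natAbs := by
  have hS : Odd (∑ i ∈ Finset.range n, x ^ i) := by
    clear h
    obtain ⟨m, rfl⟩ := hn
    induction m with
    | zero => simp
    | succ m ih =>
      rw [show 2 * (m + 1) + 1 = 2 * m + 1 + 1 + 1 by ring, Finset.sum_range_succ, Finset.sum_range_succ,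
        add_assoc]
      exact ih.add_even (hx.pow.add_odd hx.pow)
  rw [← geom_sum_mul] at h ⊢
  have h1 : IsUnit (∑ i ∈ Finset.range n, x ^ i) :=
    (Int.isCoprime_two_right.2 hS).pow_right.isUnit_of_dvd ((dvd_mul_right _ _).trans h)
  rw [Int.natAbs_mul, Int.isUnit_iff_natAbs_eq.1 h1, one_mul]

/-- Let p, q be primes and a, b positive integers with p^a = q^b + 1. Then either p = 2, b = 1, a is prime and q = 2^a − 1; or q = 2, a = 1, b is a power of 2 and p = 2^b + 1; or p^a = 9 and q^b = 8. -/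
theorem result (p q a b : ℕ) (hp : p.Prime) (hq : q.Prime) (ha : 1 ≤ a) (hb : 1 ≤ b) (h : p ^ a = q ^ b + 1) : (p = 2 ∧ b = 1 ∧ a.Prime ∧ q + 1 = 2 ^ a) ∨ (q = 2 ∧ a = 1 ∧ (∃ m : ℕ, b = 2 ^ m) ∧ p = 2 ^ b + 1) ∨ (p ^ a = 9 ∧ q ^ b = 8) := by
  rcases hp.eq_two_or_odd' with rfl | hp2
  · left
    have hq2 : Odd q := by
      rcases hq.eq_two_or_odd' with rfl | h2
      · have h1 : Even (2 ^ a) := (Nat.even_pow' (by omega)).2 even_two
        have h2 : Even (2 ^ b) := (Nat.even_pow' (by omega)).2 even_two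
        rw [h, Nat.even_add_one] at h1
        exact absurd h2 h1
      · exact h2
    have h1 := Nat.one_lt_pow (by omega : b ≠ 0) hq.one_lt
    have ha1 : a ≠ 1 := by rintro rfl; omega
    have hb1 : b = 1 := by
      rcases Nat.even_or_odd b with ⟨c, rfl⟩ | hb2
      · obtain ⟨d, hd⟩ := hq2.pow (n := c)
        obtain ⟨e, rfl⟩ := Nat.exists_eq_add_of_le (by omega : 2 ≤ a)
        rw [pow_add, pow_add, hd] at h
        ring_nf at h
        omega
      · have h' : (-q : ℤ) ^ b - 1 = -2 ^ a := by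
          rw [hb2.neg_pow]
          have : (2 : ℤ) ^ a = q ^ b + 1 := by exact_mod_cast h
          linarith
        have := aux (-q) (Odd.neg (by exact_mod_cast hq2)) hb2 (k := a) (by rw [h']; exact neg_dvd.2 dvd_rfl)
        rw [h', Int.natAbs_neg, Int.natAbs_pow] at this
        have h3 : q ^ b = q ^ 1 := by
          change 2 ^ a = _ at this
          rw [pow_one]
          omega
        exact Nat.pow_right_injective hq.two_le h3
    subst hb1
    rw [pow_one] at h
    exact ⟨rfl, rfl, (Nat.prime_of_pow_sub_one_prime (a := 2) ha1 (by rw [h]; exact hq)).2, h.symm⟩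
  have hq2 : q = 2 := by
    rcases hq.eq_two_or_odd' with rfl | h2
    · rfl
    · have := hp2.pow (n := a)
      rw [h, Nat.odd_add_one] at this
      exact absurd h2.pow this
  subst hq2
  right
  rcases Nat.even_or_odd a with ⟨c, rfl⟩ | ha2
  · right
    have h1 := Nat.one_lt_pow (by omega : c ≠ 0) hp.one_lt
    obtain ⟨d, hd⟩ := hp2.pow (n := c)
    rw [pow_add, hd] at h ⊢
    have e : (2 * d) * (2 * d + 2) = 2 ^ b := by nlinarith
    obtain ⟨i, -, hi⟩ := (Nat.dvd_prime_pow Nat.prime_two).1 (e ▸ ((dvd_mul_left d 2).mul_right _ : d ∣ _))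
    obtain ⟨j, -, hj⟩ := (Nat.dvd_prime_pow Nat.prime_two).1
      (e ▸ ((Dvd.intro_left 2 (by ring) : d + 1 ∣ 2 * d + 2).mul_left _ : d + 1 ∣ _))
    have hd1 : d = 1 := by
      rcases i with _ | i
      · simpa using hi
      · rcases j with _ | j
        · omega
        · rw [pow_succ] at hi hj; omega
    subst hd1
    omega
  · left
    have h' : (p : ℤ) ^ a - 1 = 2 ^ b := by
      have : (p : ℤ) ^ a = 2 ^ b + 1 := by exact_mod_cast h
      linarith
    have := aux p (by exact_mod_cast hp2) ha2 (k := b) (by rw [h'])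
    rw [h', Int.natAbs_pow] at this
    have h3 : p ^ a = p ^ 1 := by
      change 2 ^ b = _ at this
      have := hp.one_lt
      rw [pow_one]
      omega
    have ha1 := Nat.pow_right_injective hp.two_le h3
    subst ha1
    rw [pow_one] at h
    exact ⟨rfl, rfl, Nat.pow_of_pow_add_prime (a := 2) one_lt_two (by omega) (h ▸ hp), h⟩

end Cfsg.Agent.S3784
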