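import Cfsg.Statements.S3335
import Mathlib
import Cfsg.Agent.H20.Moore

set_option autoImplicit false
open Cfsg

namespace Cfsg.Agent.S3335

open Cfsg.Agent.H20.Moore

/-- A presentation of the alternating group of degree n ≥ 3 on generators x_1, …, x_{n−2} (indexed here by 0, …, n−3): the first generator cubes to 1, every other generator squares to 1, the product of two consecutive generators has order dividing 3, and the product of two generators at distance at least 2 has order dividing 2. The group so presented is isomorphic to the alternating group of degree n. -/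
theorem result (n : ℕ) (hn : 3 ≤ n) :
    Nonempty (PresentedGroup
      ({g : FreeGroup (Fin (n - 2)) | ∃ i : Fin (n - 2), i.val = 0 ∧ g = FreeGroup.of i ^ 3} ∪
       {g | ∃ i : Fin (n - 2), 1 ≤ i.val ∧ g = FreeGroup.of i ^ 2} ∪
       {g | ∃ i j : Fin (n - 2), j.val = i.val + 1 ∧ g = (FreeGroup.of i * FreeGroup.of j) ^ 3} ∪
       {g | ∃ i j : Fin (n - 2), i.val + 1 < j.val ∧ g = (FreeGroup.of i * FreeGroup.of j) ^ 2})
      ≃* alternatingGroup (Fin n)) := by
  obtain ⟨k, rfl⟩ : ∃ k, n = k + 1 + 1 := ⟨n - 2, by omega⟩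
  change Nonempty (PresentedGroup
      ({g : FreeGroup (Fin k) | ∃ i : Fin k, i.val = 0 ∧ g = FreeGroup.of i ^ 3} ∪
       {g | ∃ i : Fin k, 1 ≤ i.val ∧ g = FreeGroup.of i ^ 2} ∪
       {g | ∃ i j : Fin k, j.val = i.val + 1 ∧ g = (FreeGroup.of i * FreeGroup.of j) ^ 3} ∪
       {g | ∃ i j : Fin k, i.val + 1 < j.val ∧ g = (FreeGroup.of i * FreeGroup.of j) ^ 2})
      ≃* alternatingGroup (Fin (k + 1 + 1)))
  set R : Set (FreeGroup (Fin k)) :=
      ({g : FreeGroup (Fin k) | ∃ i : Fin k, i.val = 0 ∧ g = FreeGroup.of i ^ 3} ∪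
       {g | ∃ i : Fin k, 1 ≤ i.val ∧ g = FreeGroup.of i ^ 2} ∪
       {g | ∃ i j : Fin k, j.val = i.val + 1 ∧ g = (FreeGroup.of i * FreeGroup.of j) ^ 3} ∪
       {g | ∃ i j : Fin k, i.val + 1 < j.val ∧ g = (FreeGroup.of i * FreeGroup.of j) ^ 2}) with hR
  have hf : ∀ r ∈ R, FreeGroup.lift (fun i : Fin k => mg k i) r = 1 := by
    rintro r (((⟨i, hi, rfl⟩ | ⟨i, hi, rfl⟩) | ⟨i, j, hi, rfl⟩) | ⟨i, j, hi, rfl⟩)
    · simp only [map_pow, FreeGroup.lift_apply_of, hi]; exact mg_rel0 (hi ▸ i.2)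
    · simp only [map_pow, FreeGroup.lift_apply_of]; exact mg_rel1 hi i.2
    · simp only [map_pow, map_mul, FreeGroup.lift_apply_of, hi]; exact mg_rel2 (hi ▸ j.2)
    · simp only [map_pow, map_mul, FreeGroup.lift_apply_of]; exact mg_rel3 hi j.2
  let f := PresentedGroup.toGroup hf
  let x : ℕ → PresentedGroup R := fun i => if h : i < k then PresentedGroup.of ⟨i, h⟩ else 1
  have hx : ∀ i (h : i < k), x i = PresentedGroup.mk R (FreeGroup.of ⟨i, h⟩) := fun i h => by
    simp only [x, dif_pos h]; rfl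
  obtain ⟨Φ, hΦ⟩ := moore k x
    (fun h => by
      rw [hx 0 h, ← map_pow]
      exact PresentedGroup.one_of_mem (Or.inl (Or.inl (Or.inl ⟨⟨0, h⟩, rfl, rfl⟩))))
    (fun i a h => by
      rw [hx i h, ← map_pow]
      exact PresentedGroup.one_of_mem (Or.inl (Or.inl (Or.inr ⟨⟨i, h⟩, a, rfl⟩))))
    (fun i h => by
      rw [hx i (by omega), hx _ h, ← map_mul, ← map_pow]
      exact PresentedGroup.one_of_mem (Or.inl (Or.inr ⟨⟨i, by omega⟩, ⟨i + 1, h⟩, rfl, rfl⟩)))
    (fun i j a h => by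
      rw [hx i (by omega), hx _ h, ← map_mul, ← map_pow]
      exact PresentedGroup.one_of_mem (Or.inr ⟨⟨i, by omega⟩, ⟨j, h⟩, a, rfl⟩))
  have e : Φ.comp f = MonoidHom.id _ := by
    refine PresentedGroup.ext fun i => ?_
    simp only [MonoidHom.comp_apply, f, PresentedGroup.toGroup.of, hΦ i i.2, MonoidHom.id_apply, x,
      dif_pos i.2]
  refine ⟨MulEquiv.ofBijective f ⟨?_, ?_⟩⟩
  · exact Function.LeftInverse.injective (g := Φ) fun a => DFunLike.congr_fun e a
  · rw [← MonoidHom.range_eq_top, eq_top_iff, ← mg_gen k, Subgroup.closure_le]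
    rintro _ ⟨i, hi, rfl⟩
    exact ⟨PresentedGroup.of ⟨i, hi⟩, by simp [f]⟩

end Cfsg.Agent.S3335
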