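import Cfsg.Statements.S2677
import Mathlib
import Cfsg.Agent.H11.ULang
import Cfsg.Agent.S0277

set_option autoImplicit false
open Cfsg

namespace Cfsg.Agent.S2677

open Matrix H10 H11

theorem msm {F K ι : Type*} [Field F] [Field K] (f : F →+* K) (c : F) (M : Matrix ι ι F) :
    (c • M).map f = f c • M.map f := by
  ext i j; simp

theorem mem_GU_iff {F : Type*} [Field F] {τ : F →+* F} {q n : ℕ} (hq : ∀ x, τ x = x ^ q)
    {g : GL (Fin n) F} : g ∈ GU n F q ↔ g.1ᵀ * g.1.map τ = 1 := by
  have key : ∀ u v : Fin n → F, hermForm n F q u v = u ⬝ᵥ (τ ∘ v) := fun u v => by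
    simp [hermForm, dotProduct, hq]
  have key2 : ∀ u v : Fin n → F, hermForm n F q (g.1 *ᵥ u) (g.1 *ᵥ v) =
      u ⬝ᵥ ((g.1ᵀ * g.1.map τ) *ᵥ (τ ∘ v)) := fun u v => by
    have e : τ ∘ (g.1 *ᵥ v) = g.1.map τ *ᵥ (τ ∘ v) := funext fun i => RingHom.map_mulVec τ g.1 v i
    rw [key, e, ← mulVec_mulVec, dotProduct_mulVec u, vecMul_transpose]
  constructor
  · intro h
    ext i j
    have := h (Pi.single i 1) (Pi.single j 1)
    have e : τ ∘ (Pi.single j (1 : F) : Fin n → F) = Pi.single j 1 := by
      ext k; by_cases hk : k = j <;> simp [hk]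
    rw [show (Units.coeHom (Matrix (Fin n) (Fin n) F)) g = g.1 from rfl, key2, key, e] at this
    simpa [one_apply, Pi.single_apply, eq_comm] using this
  · intro h u v
    rw [show (Units.coeHom (Matrix (Fin n) (Fin n) F)) g = g.1 from rfl, key2, key, h, one_mulVec]

/-- Centraliser of a field automorphism of odd prime order in PGU_n(q): let q = q₀^r with r an odd prime, K the field with q² elements and σ a field automorphism of K of order r (fixed field of order q₀²). The elements g of GU_n(q) whose entrywise image under σ is a scalar multiple of g — those whose coset modulo the q + 1 unitary scalars is fixed by σ — number (q + 1)/(q₀ + 1) · |GU_n(q₀)|; equivalently the centraliser in PGU_n(q) of the induced automorphism has the order of PGU_n(q₀). -/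
theorem result {K : Type*} [Field K] [Fintype K] {q₀ q r n : ℕ} (hr : r.Prime) (hr2 : r ≠ 2) (hn : 1 ≤ n) (hq : q = q₀ ^ r) (hK : Fintype.card K = q ^ 2) (σ : K ≃+* K) (hσ : orderOf σ = r) : (Nat.card {g : ↥(Cfsg.GU n K q) // ∃ c : K, c ≠ 0 ∧ ((g : GL (Fin n) K) : Matrix (Fin n) (Fin n) K).map σ = c • ((g : GL (Fin n) K) : Matrix (Fin n) (Fin n) K)} : ℤ) = ((q + 1) / (q₀ + 1) : ℕ) * ((q₀ : ℤ) ^ (n * (n - 1) / 2) * ∏ i : Fin n, ((q₀ : ℤ) ^ ((i : ℕ) + 1) - (-1) ^ ((i : ℕ) + 1))) := by
  have hodd : Odd r := hr.odd_of_ne_two hr2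
  let F₀ := fixS σ
  have : Fintype F₀ := Fintype.ofFinite _
  have hF₀ : Fintype.card F₀ = q₀ ^ 2 := by
    have h1 := card_fixS_pow (F := K) σ
    rw [hσ, Nat.card_eq_fintype_card, Nat.card_eq_fintype_card, hK, hq, ← pow_mul, mul_comm,
      pow_mul] at h1
    exact Nat.pow_left_injective hr.ne_zero h1
  have hτ := qConj_conjQ hK
  have hτ₀ := qConj_conjQ hF₀
  set τ := conjQ hK
  set τ₀ := conjQ hF₀
  let j : F₀ →+* K := F₀.subtype
  have hj : ∀ a, j (τ₀ a) = τ (j a) := hτ.map_conj hτ₀ hq hodd j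
  have hjσ : ∀ a, σ (j a) = j a := fun a => mem_fixS.1 a.2
  have hmem : ∀ (d : normOne τ) (h : GU n F₀ q₀),
      GeneralLinearGroup.scalar (Fin n) d.1 * GeneralLinearGroup.map j h.1 ∈ GU n K q := by
    intro d h
    have h1 := (mem_GU_iff (τ := τ₀) (conjQ_apply hF₀)).1 h.2
    have h2 : τ d.1 * d.1 = 1 := mem_normOne.1 d.2
    rw [mem_GU_iff (τ := τ) (conjQ_apply hK), Units.val_mul, scalar_val]
    have h3 : (GeneralLinearGroup.map j h.1).1 = h.1.1.map j := rfl
    have h4 : (h.1.1.map j).map τ = (h.1.1.map τ₀).map j := by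
      ext a b; simp [hj]
    rw [h3, Matrix.smul_mul, Matrix.one_mul, transpose_smul, msm τ,
      h4, Matrix.smul_mul, Matrix.mul_smul, smul_smul, mul_comm, h2, one_smul, ← transpose_map,
      ← Matrix.map_mul, h1, Matrix.map_one _ (map_zero j) (map_one j)]
  let ψ : normOne τ × GU n F₀ q₀ →* GU n K q := MonoidHom.mk' (fun x => ⟨_, hmem x.1 x.2⟩)
    fun x y => Subtype.ext (by
      show GeneralLinearGroup.scalar (Fin n) (x.1.1 * y.1.1) *
        GeneralLinearGroup.map j (x.2.1 * y.2.1) = _ * _ * (_ * _)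
      rw [map_mul, map_mul, mul_assoc, mul_assoc, ← mul_assoc (GeneralLinearGroup.map j x.2.1),
        Subgroup.mem_center_iff.1 (scalar_mem_center y.1.1), mul_assoc])
  have hψ : ∀ x, (ψ x).1.1 = x.1.1.1 • x.2.1.1.map j := fun x => by
    show (GeneralLinearGroup.scalar (Fin n) x.1.1 * GeneralLinearGroup.map j x.2.1).1 = _
    rw [Units.val_mul, scalar_val, Matrix.smul_mul, Matrix.one_mul]
    rfl
  let i0 : Fin n := ⟨0, hn⟩
  have hrange : ∀ g : GU n K q, (∃ c : K, c ≠ 0 ∧ g.1.1.map σ = c • g.1.1) ↔ g ∈ ψ.range := by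
    intro g
    constructor
    · rintro ⟨c, -, hc⟩
      have hg := (mem_GU_iff (τ := τ) (conjQ_apply hK)).1 g.2
      obtain ⟨k, hk⟩ : ∃ k, g.1.1 k i0 ≠ 0 := by
        by_contra h
        push Not at h
        have := congrFun (congrFun hg i0) i0
        simp [Matrix.mul_apply, h] at this
      set a := g.1.1 k i0 with ha
      have hσg : ∀ x y, σ (g.1.1 x y) = c * g.1.1 x y := fun x y => congrFun (congrFun hc x) y
      have hσa : σ a = c * a := hσg k i0
      have hc0 : c ≠ 0 := by
        rintro rfl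
        rw [zero_mul, map_eq_zero] at hσa
        exact hk hσa
      have hfix : ∀ x y, g.1.1 x y / a ∈ F₀ := fun x y => mem_fixS.2 (by
        rw [map_div₀, hσg, hσa, mul_div_mul_left _ _ hc0])
      let M : Matrix (Fin n) (Fin n) F₀ := Matrix.of fun x y => ⟨_, hfix x y⟩
      have hM : g.1.1 = a • M.map j := by
        ext x y
        show g.1.1 x y = a * (g.1.1 x y / a)
        rw [mul_div_cancel₀ _ hk]
      have h4 : (M.map j).map τ = (M.map τ₀).map j := by
        ext a b; simp [hj]
      have h5 : (τ a * a) • (Mᵀ * M.map τ₀).map j = 1 := by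
        rw [hM, transpose_smul, msm τ, h4, Matrix.smul_mul,
          Matrix.mul_smul, smul_smul, mul_comm, ← transpose_map, ← Matrix.map_mul] at hg
        exact hg
      set l : F₀ := (Mᵀ * M.map τ₀) i0 i0 with hl
      have h6 : τ a * a * j l = 1 := by
        have := congrFun (congrFun h5 i0) i0
        rw [one_apply_eq] at this
        exact this
      have hl0 : l ≠ 0 := by
        rintro h; rw [h] at h6; simp at h6
      have h7 : τ₀ l⁻¹ = l⁻¹ := by
        apply j.injective
        have : j l⁻¹ = τ a * a := by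
          rw [map_inv₀]; exact (eq_inv_of_mul_eq_one_left h6).symm
        rw [hj, this, map_mul, hτ.invol, mul_comm]
      obtain ⟨b, hb⟩ := H11.exists_norm_eq hτ₀.ne_id hτ₀.invol h7
      have hb0 : b ≠ 0 := by
        rintro rfl; rw [mul_zero] at hb; exact inv_ne_zero hl0 hb.symm
      have hjb : j b ≠ 0 := by simpa using hb0
      have h8 : τ (j b) * j b = τ a * a := by
        rw [← hj, ← map_mul, hb, map_inv₀]; exact (eq_inv_of_mul_eq_one_left h6).symm
      have h9 : (b • M)ᵀ * (b • M).map τ₀ = 1 := by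
        apply Matrix.map_injective j.injective
        show ((b • M)ᵀ * (b • M).map τ₀).map j = (1 : Matrix (Fin n) (Fin n) F₀).map j
        rw [transpose_smul, msm τ₀, Matrix.smul_mul,
          Matrix.mul_smul, smul_smul, msm j, map_mul, hj, mul_comm,
          h8, h5, Matrix.map_one _ (map_zero j) (map_one j)]
      let h : GL (Fin n) F₀ := ⟨b • M, _, mul_eq_one_comm.1 (by
        have := congrArg transpose h9
        rw [transpose_mul, transpose_transpose, transpose_one] at this
        exact this), by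
        have := congrArg transpose h9
        rw [transpose_mul, transpose_transpose, transpose_one] at this
        exact this⟩
      refine ⟨(⟨Units.mk0 (a / j b) (div_ne_zero hk hjb), mem_normOne.2 ?_⟩,
        ⟨h, (mem_GU_iff (τ := τ₀) (conjQ_apply hF₀)).2 h9⟩), Subtype.ext (Units.ext ?_)⟩
      · rw [Units.val_mk0, map_div₀, div_mul_div_comm, h8, div_self]
        exact mul_ne_zero (by simpa using hk) hk
      · rw [hψ, hM]
        show (a / j b) • (b • M).map j = _
        rw [msm j, smul_smul, div_mul_cancel₀ _ hjb]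
    · rintro ⟨x, rfl⟩
      have hd : (x.1.1 : K) ≠ 0 := x.1.1.ne_zero
      refine ⟨σ x.1.1.1 / x.1.1.1, div_ne_zero (by simpa using hd) hd, ?_⟩
      rw [hψ, smul_smul, div_mul_cancel₀ _ hd]
      ext a b
      simp [hjσ]
  have hker : Nat.card ψ.ker = q₀ + 1 := by
    rw [← hτ₀.card_normOne]
    symm
    have hm1 : ∀ d : normOne τ₀, Units.map (j : F₀ →* K) d.1 ∈ normOne τ := fun d =>
      mem_normOne.2 (by
        show τ (j d.1.1) * j d.1.1 = 1
        rw [← hj, ← map_mul, mem_normOne.1 d.2, map_one])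
    have hm2 : ∀ d : normOne τ₀, GeneralLinearGroup.scalar (Fin n) (d⁻¹).1 ∈ GU n F₀ q₀ :=
      fun d => (mem_GU_iff (τ := τ₀) (conjQ_apply hF₀)).2 (by
        rw [scalar_val, transpose_smul, msm τ₀, transpose_one,
          Matrix.map_one _ (map_zero _) (map_one _), Matrix.smul_mul, Matrix.one_mul, smul_smul,
          mul_comm, mem_normOne.1 (d⁻¹).2, one_smul])
    refine Nat.card_eq_of_bijective (fun d => ⟨(⟨_, hm1 d⟩, ⟨_, hm2 d⟩), ?_⟩) ⟨?_, ?_⟩
    · rw [MonoidHom.mem_ker]
      refine Subtype.ext (Units.ext ?_)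
      rw [hψ, scalar_val, msm j,
        Matrix.map_one _ (map_zero _) (map_one _), smul_smul]
      simp
    · intro d e h
      have := congrArg (fun x => x.1.1.1.1) h
      exact Subtype.ext (Units.ext (j.injective this))
    · rintro ⟨⟨d, h⟩, hx⟩
      have h1 : d.1.1 • h.1.1.map j = 1 := by
        rw [← hψ (d, h), MonoidHom.mem_ker.1 hx]; rfl
      have h2 : d.1.1 * j (h.1.1 i0 i0) = 1 := by
        simpa using congrFun (congrFun h1 i0) i0
      have h3 : h.1.1 i0 i0 ≠ 0 := by
        intro e; rw [e] at h2; simp at h2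
      have h4 : j (h.1.1 i0 i0)⁻¹ = d.1.1 := by
        rw [map_inv₀]; exact (eq_inv_of_mul_eq_one_left h2).symm
      refine ⟨⟨Units.mk0 _ (inv_ne_zero h3), mem_normOne.2 (j.injective ?_)⟩, Subtype.ext
        (Prod.ext (Subtype.ext (Units.ext h4)) (Subtype.ext (Units.ext ?_)))⟩
      · rw [Units.val_mk0, map_mul, hj, h4, map_one]
        exact mem_normOne.1 d.2
      · show (GeneralLinearGroup.scalar (Fin n) _).1 = h.1.1
        rw [scalar_val]
        apply Matrix.map_injective j.injective
        show (_ • (1 : Matrix (Fin n) (Fin n) F₀)).map j = h.1.1.map j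
        have h5 : h.1.1.map j = j (h.1.1 i0 i0) • (1 : Matrix (Fin n) (Fin n) K) := by
          rw [← h1, smul_smul, mul_comm, h2, one_smul]
        rw [msm j, Matrix.map_one _ (map_zero _) (map_one _), h5]
        simp
  have hcard := Subgroup.card_mul_index ψ.ker
  rw [hker, Subgroup.index_ker, Nat.card_prod, hτ.card_normOne, S0277.result hF₀] at hcard
  rw [Nat.card_congr (Equiv.subtypeEquivRight hrange)]
  obtain ⟨m, hm⟩ : q₀ + 1 ∣ q + 1 := by
    rw [hq]
    simpa using hodd.nat_add_dvd_pow_add_pow q₀ 1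
  rw [hm, mul_assoc] at hcard
  have h1 := Nat.eq_of_mul_eq_mul_left (Nat.succ_pos _) hcard
  rw [hm, Nat.mul_div_cancel_left _ (Nat.succ_pos _)]
  have h2 : Nat.card {g : GU n K q // g ∈ ψ.range} = Nat.card ψ.range := rfl
  rw [h2, h1]
  push_cast
  congr 2
  rw [Finset.prod_range]
  refine Finset.prod_congr rfl fun i _ => ?_
  have h3 : 1 ≤ q₀ ^ (i.val + 1) := Nat.one_le_pow _ _ (by have := two_le_of_card_eq_sq hF₀; omega)
  split_ifs with h
  · rw [h.add_one.neg_one_pow]; push_cast; ring
  · rw [(Nat.not_even_iff_odd.1 h).add_one.neg_one_pow]; push_cast [h3]; ring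

end Cfsg.Agent.S2677
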