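import Cfsg.Statements.S2402
import Mathlib
import Cfsg.Agent.H17.Gen2

set_option autoImplicit false
open Cfsg

namespace Cfsg.Agent.S2402

open Cfsg.Agent.H17
open scoped commutatorElement


/-- Explicit two-element generation of `PSL_{n+1}(K)` for a finite field `K` with more than three elements: let `k` generate the multiplicative group of `K`, `h = diag(k, k⁻¹, 1, …, 1)`, `x = 1 + E₁₂` (the elementary transvection) and `w` the monomial matrix with entries `1` in positions `(i, i+1)` and `(−1)^n` in position `(n+1, 1)`. Then `h` and `x·w` generate `SL_{n+1}(K)` modulo its centre: the subgroup they generate together with the centre is everything. -/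
theorem result {K : Type*} [Field K] [Fintype K] (hK : 3 < Fintype.card K) (n : ℕ) (hn : 1 ≤ n)
    (k : Kˣ) (hk : ∀ u : Kˣ, u ∈ Subgroup.zpowers k)
    (h x w : Matrix.SpecialLinearGroup (Fin (n + 1)) K)
    (hh : (h : Matrix (Fin (n + 1)) (Fin (n + 1)) K) =
      Matrix.diagonal (fun i => if i.val = 0 then (k : K) else if i.val = 1 then ((k⁻¹ : Kˣ) : K) else 1))
    (hx : (x : Matrix (Fin (n + 1)) (Fin (n + 1)) K) = Matrix.transvection (0 : Fin (n + 1)) (1 : Fin (n + 1)) 1)
    (hw : (w : Matrix (Fin (n + 1)) (Fin (n + 1)) K) =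
      Matrix.of (fun i j => if j.val = i.val + 1 then 1 else if i.val = n ∧ j.val = 0 then (-1) ^ n else 0)) :
    Subgroup.closure ({h, x * w} : Set (Matrix.SpecialLinearGroup (Fin (n + 1)) K)) ⊔
      Subgroup.center (Matrix.SpecialLinearGroup (Fin (n + 1)) K) = ⊤ := by
  have h01 : (0 : Fin (n + 1)) ≠ 1 := by
    obtain ⟨m, rfl⟩ : ∃ m, n = m + 1 := ⟨n - 1, by omega⟩
    exact Fin.zero_ne_one
  have v1 : (1 : Fin (n + 1)).val = 1 := by
    obtain ⟨m, rfl⟩ : ∃ m, n = m + 1 := ⟨n - 1, by omega⟩
    rfl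
  have ex : x = Matrix.SpecialLinearGroup.transvection h01 1 := Subtype.ext hx
  set H := Subgroup.closure ({h, x * w} : Set (Matrix.SpecialLinearGroup (Fin (n + 1)) K)) with hH
  have m1 : h ∈ H := Subgroup.subset_closure (by simp)
  have m2 : x * w ∈ H := Subgroup.subset_closure (by simp)
  have hk2 : (k : K) ^ 2 ≠ 1 := fun e => by
    classical
    have a := Fintype.card_units K
    have b : orderOf k = Nat.card Kˣ := orderOf_eq_card_of_forall_mem_zpowers hk
    have c : orderOf k ∣ 2 := orderOf_dvd_of_pow_eq_one (Units.ext (by simpa using e))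
    have := Nat.le_of_dvd two_pos c
    rw [b, Nat.card_eq_fintype_card] at this
    omega
  have hk0 : (k : K) ≠ 0 := k.ne_zero
  have c1 : ∀ t, h * Matrix.SpecialLinearGroup.transvection h01 t * h⁻¹ =
      Matrix.SpecialLinearGroup.transvection h01 ((k : K) ^ 2 * t) := fun t => by
    rw [G2.diag_conj hh h01 (by simp only [v1]; simp)]
    simp only [v1]; simp [sq]
  have hw' := G2.w_diag (G2.w_eq hw) hh
  obtain ⟨β, hβ, c2⟩ : ∃ β : K, β ≠ 1 ∧ ∀ t, w * h * w⁻¹ * Matrix.SpecialLinearGroup.transvection h01 t *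
      (w * h * w⁻¹)⁻¹ = Matrix.SpecialLinearGroup.transvection h01 (β * t) := by
    refine ⟨_, ?_, G2.diag_conj hw' h01 (by split_ifs <;> simp)⟩
    have k1 : (k : K) ≠ 1 := fun e => hk2 (by rw [e, one_pow])
    have v2 : (1 + 1 : Fin (n + 1)).val = 2 % (n + 1) := by rw [Fin.val_add, v1]
    simp only [zero_add, v1, v2]
    rcases hn.eq_or_lt with rfl | hn
    · simp only [one_ne_zero, if_false, if_true, Units.val_inv_eq_inv_val]
      intro e; apply hk2; field_simp at e; exact e.symm
    · rw [Nat.mod_eq_of_lt (by omega)]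
      simpa using k1
  have cm : Commute h (w * h * w⁻¹) := Subtype.ext (by
    rw [Matrix.SpecialLinearGroup.coe_mul h, Matrix.SpecialLinearGroup.coe_mul _ h]
    erw [hw', hh]
    rw [Matrix.diagonal_mul_diagonal, Matrix.diagonal_mul_diagonal]
    simp only [mul_comm])
  have key : Matrix.SpecialLinearGroup.transvection h01 (((k : K) ^ 2 - 1) * (1 - β)) ∈ H := by
    have m3 := H.mul_mem (H.mul_mem m2 m1) (H.inv_mem m2)
    have m4 := H.mul_mem (H.mul_mem (H.mul_mem m1 m3) (H.inv_mem m1)) (H.inv_mem m3)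
    have e : h * (x * w * h * (x * w)⁻¹) * h⁻¹ * (x * w * h * (x * w)⁻¹)⁻¹ =
        h * x * h⁻¹ * (h * (w * h * w⁻¹) * h⁻¹ * ((h * x * h⁻¹)⁻¹ * x) * (w * h * w⁻¹)⁻¹) * x⁻¹ := by group
    rw [e, cm.eq, mul_inv_cancel_right, ex, c1, Matrix.SpecialLinearGroup.transvection_inv,
      Matrix.SpecialLinearGroup.transvection_inv, ← Matrix.SpecialLinearGroup.transvection_add, c2,
      ← Matrix.SpecialLinearGroup.transvection_add, ← Matrix.SpecialLinearGroup.transvection_add] at m4
    convert m4 using 2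
    ring
  have all : ∀ t, Matrix.SpecialLinearGroup.transvection h01 t ∈ H :=
    all_of_sq_stable hk (P := fun t => Matrix.SpecialLinearGroup.transvection h01 t ∈ H)
      (by rw [Matrix.SpecialLinearGroup.transvection_coeff_zero]; exact H.one_mem)
      (fun a b ha hb => by rw [Matrix.SpecialLinearGroup.transvection_add]; exact H.mul_mem ha hb)
      (fun a ha => by rw [← c1]; exact H.mul_mem (H.mul_mem m1 ha) (H.inv_mem m1))
      (mul_ne_zero (sub_ne_zero.2 hk2) (sub_ne_zero.2 hβ.symm)) key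
  have m5 : w ∈ H := by
    have := H.mul_mem (H.inv_mem (ex ▸ all 1 : x ∈ H)) m2
    rwa [inv_mul_cancel_left] at this
  rw [G2.top_of (G2.w_eq hw) m5 h01 all, top_sup_eq]

end Cfsg.Agent.S2402
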