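import Cfsg.Statements.S2403
import Mathlib
import Cfsg.Agent.H17.Gen2

set_option autoImplicit false
open Cfsg

namespace Cfsg.Agent.S2403

open Cfsg.Agent.H17
open scoped commutatorElement


/-- Explicit two-element generation of `PSL_{n+1}(K)` over the fields with two or three elements: with `x = 1 + E₁₂` and `w` the monomial matrix with entries `1` in positions `(i, i+1)` and `(−1)^n` in position `(n+1, 1)`, the elements `x` and `w` generate `SL_{n+1}(K)` modulo its centre. -/
theorem result {K : Type*} [Field K] [Fintype K] (hK : Fintype.card K ≤ 3) (n : ℕ) (hn : 1 ≤ n)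
    (x w : Matrix.SpecialLinearGroup (Fin (n + 1)) K)
    (hx : (x : Matrix (Fin (n + 1)) (Fin (n + 1)) K) = Matrix.transvection (0 : Fin (n + 1)) (1 : Fin (n + 1)) 1)
    (hw : (w : Matrix (Fin (n + 1)) (Fin (n + 1)) K) =
      Matrix.of (fun i j => if j.val = i.val + 1 then 1 else if i.val = n ∧ j.val = 0 then (-1) ^ n else 0)) :
    Subgroup.closure ({x, w} : Set (Matrix.SpecialLinearGroup (Fin (n + 1)) K)) ⊔
      Subgroup.center (Matrix.SpecialLinearGroup (Fin (n + 1)) K) = ⊤ := by
  have h01 : (0 : Fin (n + 1)) ≠ 1 := by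
    obtain ⟨m, rfl⟩ : ∃ m, n = m + 1 := ⟨n - 1, by omega⟩
    exact Fin.zero_ne_one
  have ex : x = Matrix.SpecialLinearGroup.transvection h01 1 := Subtype.ext hx
  rw [eq_top_iff]
  refine le_sup_of_le_left (G2.top_of (G2.w_eq hw) (Subgroup.subset_closure (by simp)) h01 fun t => ?_).ge
  have hx1 : Matrix.SpecialLinearGroup.transvection h01 (1 : K) ∈ Subgroup.closure {x, w} :=
    ex ▸ Subgroup.subset_closure (by simp)
  classical
  by_cases h0 : t = 0
  · rw [h0, Matrix.SpecialLinearGroup.transvection_coeff_zero]; exact Subgroup.one_mem _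
  by_cases h1 : t = 1
  · rw [h1]; exact hx1
  have : t = -1 := by
    have hu : Fintype.card Kˣ = 2 := by
      have a := Fintype.card_units K
      have b : 1 < Fintype.card Kˣ := Fintype.one_lt_card_iff.2 ⟨Units.mk0 t h0, 1, fun e => h1 (congrArg Units.val e)⟩
      omega
    have := congrArg Units.val (pow_card_eq_one (x := Units.mk0 t h0))
    rw [hu] at this
    simp only [Units.val_pow_eq_pow_val, Units.val_mk0, Units.val_one] at this
    exact (sq_eq_one_iff.1 this).resolve_left h1
  rw [this, ← Matrix.SpecialLinearGroup.transvection_inv]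
  exact Subgroup.inv_mem _ hx1

end Cfsg.Agent.S2403
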