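import Cfsg.Statements.S0744
import Mathlib
import Cfsg.Agent.H16.Gleason

set_option autoImplicit false
open Cfsg

namespace Cfsg.Agent.S0744

/-- If for some `k > 1` the pointwise stabilisers of all `(k-1)`-subsets have the same order `> 1` and those of all `k`-subsets have the same order, then the group is `(k-1)`-transitive. -/
theorem result {α : Type*} [Fintype α] [DecidableEq α] (G : Subgroup (Equiv.Perm α)) {k : ℕ} (hk : 1 < k) (hkn : k ≤ Fintype.card α) (l m : ℕ) (hl : 1 < l) (hkm1 : ∀ s : Finset α, s.card = k - 1 → Nat.card (fixingSubgroup G (s : Set α)) = l) (hkm : ∀ s : Finset α, s.card = k → Nat.card (fixingSubgroup G (s : Set α)) = m) : MulAction.IsMultiplyPretransitive G α (k - 1) := by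
  have hle : ∀ (s : Finset α) (x : α), fixingSubgroup G ((insert x s : Finset α) : Set α) ≤
      fixingSubgroup G (s : Set α) := fun s x => fixingSubgroup_antitone _ _ (by simp)
  obtain ⟨s0, -, hs0⟩ := Finset.exists_subset_card_eq (s := (Finset.univ : Finset α)) (n := k - 1)
    (by simp; omega)
  obtain ⟨x0, hx0⟩ := H16.exists_notMem_of_card_lt s0 (by rw [Nat.card_eq_fintype_card]; omega)
  have hc : ∀ (s : Finset α) (x : α), s.card = k - 1 → x ∉ s → (insert x s).card = k := by
    intro s x hs hx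
    rw [Finset.card_insert_of_notMem hx]; omega
  have hml : m ∣ l := by
    rw [← hkm1 s0 hs0, ← hkm _ (hc s0 x0 hs0 hx0)]
    exact Subgroup.card_dvd_of_le (hle _ _)
  obtain ⟨r, hr⟩ := hml
  have hr1 : r ≠ 1 := by
    rintro rfl
    have : fixingSubgroup G (s0 : Set α) = ⊥ := by
      rw [eq_bot_iff]
      intro g hg
      apply H16.eq_one_of_smul_eq (α := α)
      intro x
      by_cases hx : x ∈ s0
      · exact H16.mem_fixing.1 hg x hx
      · have := Subgroup.eq_of_le_of_card_ge (hle s0 x)
          (by rw [hkm1 s0 hs0, hkm _ (hc s0 x hs0 hx), hr, mul_one])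
        rw [← this] at hg
        exact H16.mem_fixing.1 hg x (by simp)
    have h2 := hkm1 s0 hs0
    rw [this, Subgroup.card_bot] at h2
    omega
  obtain ⟨p, hp, hpr⟩ := Nat.exists_prime_and_dvd hr1
  apply H16.gleason hp (by rw [Nat.card_eq_fintype_card]; omega)
  intro s hs
  obtain ⟨x1, hx1⟩ := H16.exists_notMem_of_card_lt s (by rw [Nat.card_eq_fintype_card]; omega)
  have hm0 : 0 < m := by rw [← hkm _ (hc s x1 hs hx1)]; exact Nat.card_pos
  obtain ⟨Q, hQ, hQp, hQn⟩ := H16.exists_pgroup_not_dvd hp (hle s x1) (by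
    have h1 := (Subgroup.subgroupOf (fixingSubgroup G ((insert x1 s : Finset α) : Set α))
      (fixingSubgroup G (s : Set α))).index_mul_card.trans
      (hkm1 s hs)
    rw [Nat.card_congr (Subgroup.subgroupOfEquivOfLe (hle s x1)).toEquiv, hkm _ (hc s x1 hs hx1),
      hr, mul_comm] at h1
    rw [← Nat.eq_of_mul_eq_mul_left hm0 h1] at hpr
    exact hpr)
  refine ⟨Q, hQp, fun x => ⟨fun hx => ?_, fun hx g hg => H16.mem_fixing.1 (hQ hg) x hx⟩⟩
  by_contra hxs
  apply hQn
  rw [hkm _ (hc s x1 hs hx1), ← hkm _ (hc s x hs hxs)]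
  apply Subgroup.card_dvd_of_le
  intro g hg
  rw [H16.mem_fixing]
  intro y hy
  rcases Finset.mem_insert.1 hy with rfl | hy
  · exact hx g hg
  · exact H16.mem_fixing.1 (hQ hg) y hy

end Cfsg.Agent.S0744
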