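import Cfsg.Statements.S0745
import Mathlib
import Cfsg.Agent.H16.LW
import Cfsg.Agent.H16.SemiReg
import Cfsg.Agent.S0744

set_option autoImplicit false
open Cfsg

namespace Cfsg.Agent.S0745

open MulAction Subgroup Equiv Cfsg.Agent.H16 Cfsg.Agent.GW
open scoped Pointwise

set_option maxHeartbeats 1000000

section
variable {G α : Type*} [Group G] [MulAction G α] [Finite G] [Finite α] [DecidableEq α] {j : ℕ}

theorem card_fixing_homog (hh : IsPretransitive G (Set.powersetCard α j)) (s t : Finset α)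
    (hs : s.card = j) (ht : t.card = j) :
    Nat.card (fixingSubgroup G (s : Set α)) ≤ Nat.card (fixingSubgroup G (t : Set α)) := by
  obtain ⟨g, rfl⟩ := homog_iff.1 hh s t hs ht
  refine Nat.card_le_card_of_injective (fun x => ⟨g * x * g⁻¹, mem_fixing.2 fun y hy => ?_⟩)
    fun x y e => Subtype.ext (by simpa using e)
  obtain ⟨y, hy', rfl⟩ := Finset.mem_smul_finset.1 hy
  exact mem_stabilizer_conj.2 (mem_fixing.1 x.2 y hy')

theorem stab (hh : IsPretransitive G (Set.powersetCard α j)) (hj : j ≤ Nat.card α)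
    (tr : ∀ s : Finset α, s.card = j → ∀ g : G, (∀ x ∈ s, g • x = x) → g = 1) :
    ∃ a r, Nat.card G = (Nat.card α).choose j * a ∧ j.factorial = a * r ∧
      (r = 1 → IsMultiplyPretransitive G α j) ∧
      ∀ s : Finset α, s.card = j → ∀ g : G, g • s = s → orderOf g ∣ a := by
  have := Fintype.ofFinite α
  obtain ⟨s, -, hs⟩ := Finset.exists_subset_card_eq (s := Finset.univ) (n := j) (by simpa using hj)
  have c : ∀ s : Finset α, s.card = j →
      Nat.card G = (Nat.card α).choose j * Nat.card (stabilizer G (s : Set α)) := fun s hs => by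
    rw [card_eq_card_mul_stabilizer (G := G) (⟨s, hs⟩ : Set.powersetCard α j), Set.powersetCard.card,
      stabilizer_coe_finset]
    exact congrArg (fun H : Subgroup G => _ * Nat.card H) (Subgroup.ext fun g => Subtype.ext_iff)
  let φ := toPermHom (stabilizer G (s : Set α)) (s : Set α)
  have inj : Function.Injective φ := (injective_iff_map_eq_one _).2 fun g hg =>
    Subtype.ext (tr s hs g fun x hx => (congrArg Subtype.val (DFunLike.congr_fun hg ⟨x, hx⟩) :))
  have cp : Nat.card (Perm (s : Set α)) = j.factorial := by rw [Nat.card_perm]; simp [hs]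
  obtain ⟨r, hr⟩ := card_dvd_of_injective φ inj
  refine ⟨_, r, c s hs, cp ▸ hr, fun h => Sw.mtrans (D := s) (fun u hu v hv huv => ?_) hs hh,
    fun t ht g hg => ?_⟩
  · obtain ⟨g, hg⟩ := (inj.bijective_of_nat_card_le (by rw [hr, h, mul_one])).2
      (swap ⟨u, hu⟩ ⟨v, hv⟩)
    exact ⟨g, fun x hx => ((congrArg Subtype.val (DFunLike.congr_fun hg ⟨x, hx⟩)).trans
      (Subtype.val_injective.map_swap _ _ _) :)⟩
  · rw [← Nat.eq_of_mul_eq_mul_left (Nat.choose_pos hj) ((c t ht).symm.trans (c s hs)),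
      stabilizer_coe_finset]
    exact orderOf_dvd_natCard (⟨g, hg⟩ : stabilizer G t) |> (orderOf_mk g _ ▸ ·)

theorem cyc [FaithfulSMul G α] {g : G} {p : ℕ} (hp : p.Prime) (hg : orderOf g = p) {s : Finset α}
    (hs : ∀ x ∈ s, g • x = x) {i : ℕ} (hi : i ≤ s.card) :
    ∃ t : Finset α, t.card = i + p ∧ g • t = t := by
  obtain ⟨y, hy⟩ := exists_smul_ne (α := α) (g := g) (by rintro rfl; exact hp.ne_one (by simp [← hg]))
  obtain ⟨r, hr, rfl⟩ := Finset.exists_subset_card_eq hi
  have h1 := ncard_orbit_dvd (G := zpowers g) y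
  rw [Nat.card_zpowers, hg, Nat.dvd_prime hp] at h1
  have m : g • y ∈ orbit (zpowers g) y := ⟨⟨g, mem_zpowers g⟩, rfl⟩
  replace h1 := h1.resolve_left fun e => hy ((Set.ncard_le_one (Set.toFinite _)).1 e.le _ m _
    (mem_orbit_self y))
  refine ⟨r ∪ (Set.toFinite (orbit (zpowers g) y)).toFinset, ?_,
    Finset.eq_of_subset_of_card_le (fun x hx => ?_) (by simp)⟩
  · rw [Finset.card_union_of_disjoint (Finset.disjoint_left.2 fun x hx hx' => ?_),
      ← Set.ncard_eq_toFinset_card, h1]
    obtain ⟨⟨l, hl⟩, rfl⟩ := (Set.Finite.mem_toFinset _).1 hx'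
    obtain ⟨n, rfl⟩ := hl
    have : g • (g ^ n • y) = g ^ n • y := hs _ (hr hx)
    rw [← mul_smul, (Commute.self_zpow g n).eq, mul_smul] at this
    exact hy (smul_left_cancel _ this)
  · obtain ⟨x, hx', rfl⟩ := Finset.mem_smul_finset.1 hx
    rcases Finset.mem_union.1 hx' with hx | hx
    · exact Finset.mem_union_left _ ((hs x (hr hx)).symm ▸ hx)
    · exact Finset.mem_union_right _ ((Set.Finite.mem_toFinset _).2
        (mem_orbit_of_mem_orbit (⟨g, mem_zpowers g⟩ : zpowers g) ((Set.Finite.mem_toFinset _).1 hx)))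

theorem no7 [FaithfulSMul G α] (h3 : IsMultiplyPretransitive G α 3) (hn : Nat.card α = 7)
    (hG : Nat.card G = 210) : False := by
  have := IsZGroup.of_squarefree (G := G) (by rw [hG]; decide +kernel)
  have := prim_of_mtrans h3 (by omega) (by omega)
  have : Nontrivial α := Finite.one_lt_card_iff_nontrivial.1 (by omega)
  obtain ⟨a⟩ : Nonempty α := inferInstance
  have key : ∀ N : Subgroup G, N.Normal → N ≠ ⊥ → IsMulCommutative N → Nat.card N = 7 :=
    fun N _ h0 hc => by
      have := normal_trans (α := α) N h0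
      rw [card_eq_of_regular a (stabilizer_eq_bot_of_comm N hc a), hn]
  have h0 : commutator G ≠ ⊥ := fun e => by
    have := key ⊤ inferInstance (fun e => by simp [← card_top (G := G), e] at hG)
      ⟨⟨fun x y => Subtype.ext (commutatorElement_eq_one_iff_mul_comm.1
        (mem_bot.1 (e ▸ commutator_mem_commutator x.2 y.2)))⟩⟩
    rw [card_top] at this; omega
  have := IsZGroup.isCyclic_commutator G
  have c7 := key _ inferInstance h0 inferInstance
  rcases jordan_normal 1 G α (by omega) h3 (commutator G) h0 with h | ⟨-, -, h⟩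
  · have := descFactorial_dvd_card h (by omega)
    rw [c7, hn] at this
    exact absurd this (by decide)
  · obtain ⟨m, hm⟩ := card_eq_pow_of_exponent Nat.prime_two h
    rw [c7] at hm
    rcases m with _ | m <;> omega

theorem comm154 {H : Type*} [Group H] [Finite H] (h : Nat.card H = 154) {x : H}
    (hx : orderOf x = 7) : ∃ c : H, orderOf c = 11 ∧ x * c = c * x := by
  have : Fact (Nat.Prime 11) := ⟨by norm_num⟩
  obtain ⟨P⟩ : Nonempty (Sylow 11 H) := inferInstance
  have cP : Nat.card P = 11 := by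
    rw [P.card_eq_multiplicity, h, show 154 = 11 * 14 from rfl,
      Nat.factorization_mul_apply_of_coprime (by norm_num), Nat.Prime.factorization_self this.out,
      Nat.factorization_eq_zero_of_not_dvd (by norm_num)]
    rfl
  have h1 := card_sylow_modEq_one 11 H
  have h2 := P.card_dvd_index
  have h3 := (P : Subgroup H).card_mul_index
  rw [cP, h] at h3
  rw [show (P : Subgroup H).index = 14 by omega] at h2
  have h4 := Nat.le_of_dvd (by norm_num) h2
  have : Nat.card (Sylow 11 H) = 1 := by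
    generalize Nat.card (Sylow 11 H) = n at *
    rw [Nat.ModEq] at h1
    interval_cases n <;> omega
  have := (Nat.card_eq_one_iff_unique.1 this).1
  have nP := P.normal_of_subsingleton
  obtain ⟨c, hc⟩ := exists_prime_orderOf_dvd_card' (G := P) 11 (by rw [cP])
  have oc : orderOf (c : H) = 11 := by rw [Subgroup.orderOf_coe, hc]
  have e : zpowers (c : H) = P :=
    eq_of_le_of_card_ge (zpowers_le.2 c.2) (by rw [cP, Nat.card_zpowers, oc])
  exact ⟨c, oc, comm_of_pow_comm (m := 11 - 1) (by rw [hx]; norm_num)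
    (pow_comm_of_normalizer_prime (by norm_num) oc (by rw [e, normalizer_eq_top]; trivial))⟩

end

/-- Let `G` have degree `n` and `3 ≤ k ≤ n`; suppose `G` is `(k-2)`-transitive but not `(k-1)`-transitive, and is `(k-1)`-homogeneous and `k`-homogeneous. Then `k = n` and `G` is the alternating group, or `n = 5, k = 4, |G| = 20`, or `n = 6, k = 5, |G| = 120`, or `n = 9, k = 5, |G| ∈ {504, 1512}`. -/
theorem result {α : Type*} [Fintype α] [DecidableEq α] (G : Subgroup (Equiv.Perm α)) {k : ℕ} (hk : 3 ≤ k) (hkn : k ≤ Fintype.card α) (ht : MulAction.IsMultiplyPretransitive G α (k - 2)) (hnt : ¬ MulAction.IsMultiplyPretransitive G α (k - 1)) (hh1 : MulAction.IsPretransitive G (Set.powersetCard α (k - 1))) (hh : MulAction.IsPretransitive G (Set.powersetCard α k)) : (k = Fintype.card α ∧ G = alternatingGroup α) ∨ (Fintype.card α = 5 ∧ k = 4 ∧ Nat.card G = 20) ∨ (Fintype.card α = 6 ∧ k = 5 ∧ Nat.card G = 120) ∨ (Fintype.card α = 9 ∧ k = 5 ∧ (Nat.card G = 504 ∨ Nat.card G = 1512)) := by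
  have cn := Nat.card_eq_fintype_card (α := α)
  have : Nontrivial α := Fintype.one_lt_card_iff_nontrivial.1 (by omega)
  by_cases hkn' : k = Fintype.card α
  · exact .inl ⟨hkn', eq_alt_of_le (IsMultiplyPretransitive.alternatingGroup_le α G
      (by rwa [cn, ← hkn'])) (by
      rintro rfl
      exact hnt ((mtrans_iff.2 fun x y hx hy => (mtrans_iff.1 (Perm.isMultiplyPretransitive α _)
        x y hx hy).elim fun g hg => ⟨⟨g, trivial⟩, hg⟩)))⟩
  by_cases h6 : 6 ≤ k
  · have e : k - 1 = k - 2 + 1 := by omega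
    have := deg_of_homog (by omega) (by omega) ht (e ▸ hh1) (e ▸ hnt)
    omega
  right
  obtain ⟨s0, -, hs0⟩ := Finset.exists_subset_card_eq (s := (Finset.univ : Finset α)) (n := k - 1)
    (by rw [Finset.card_univ]; omega)
  obtain ⟨s1, -, hs1⟩ := Finset.exists_subset_card_eq (s := (Finset.univ : Finset α)) (n := k) hkn
  have tr : ∀ s : Finset α, k - 1 ≤ s.card → ∀ g : G, (∀ x ∈ s, g • x = x) → g = 1 := by
    intro s hs g hg
    obtain ⟨t, hts, e⟩ := Finset.exists_subset_card_eq hs
    have : Nat.card (fixingSubgroup G (t : Set α)) ≤ 1 := by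
      by_contra! hl
      exact hnt (S0744.result G (by omega) hkn _ (Nat.card (fixingSubgroup G (s1 : Set α))) hl
        (fun s hs => (card_fixing_homog hh1 s t hs e).antisymm (card_fixing_homog hh1 t s e hs))
        fun s hs => (card_fixing_homog hh s s1 hs hs1).antisymm (card_fixing_homog hh s1 s hs1 hs))
    exact mem_bot.1 (eq_bot_of_card_le _ this ▸ mem_fixing.2 fun x hx => hg x (hts hx))
  obtain ⟨a, r, ca, ea, r1, oa⟩ := stab hh1 (by omega) fun s hs => tr s hs.ge
  obtain ⟨b, r', cb, eb, -⟩ := stab hh (by omega) fun s hs => tr s (by omega)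
  replace r1 := mt r1 hnt
  obtain ⟨x⟩ : Nonempty (Fin (k - 2) ↪ α) := Function.Embedding.nonempty_of_card_le (by simp; omega)
  have cd := card_eq_descFactorial_mul ht x
  obtain ⟨d, hd⟩ : ∃ d, Nat.card (stabilizer G x) = d := ⟨_, rfl⟩
  have ex : ∀ p, p.Prime → p ∣ d → ∃ g : G, orderOf g = p ∧ ∀ y ∈ Finset.univ.map x, g • y = y :=
    fun p hp h => by
      have := Fact.mk hp
      obtain ⟨g, hg⟩ := exists_prime_orderOf_dvd_card' (G := stabilizer G x) p (hd ▸ h)
      refine ⟨g, by rw [Subgroup.orderOf_coe, hg], fun y hy => ?_⟩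
      obtain ⟨i, -, rfl⟩ := Finset.mem_map.1 hy
      exact congrArg (fun f : Fin (k - 2) ↪ α => f i) g.2
  have pa : ∀ p, p.Prime → p ∣ d → p ≤ k - 1 → p ∣ a := fun p hp h hle => by
    obtain ⟨g, hg, fx⟩ := ex p hp h
    obtain ⟨t, e, h⟩ := cyc hp hg fx (i := k - 1 - p) (by have := hp.two_le; simp; omega)
    exact hg ▸ oa t (by omega) g h
  have p2 := pa 2 Nat.prime_two
  have p3 := pa 3 Nat.prime_three
  replace cd : Nat.card G = (Nat.card α).descFactorial (k - 2) * d := cd.trans (congrArg _ hd)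
  obtain ⟨m, hm⟩ : ∃ m, Nat.card α = m + k := ⟨Nat.card α - k, by omega⟩
  have e0 : 0 < (Nat.card α).descFactorial (k - 2) := Nat.descFactorial_pos.2 (by omega)
  have a0 : 0 < a := Nat.pos_of_ne_zero fun e => (Nat.factorial_ne_zero _) (by rw [ea, e, zero_mul])
  have d0 : 0 < d := hd ▸ Nat.card_pos
  have s1 : (Nat.card α).descFactorial (k - 1) = (m + 2) * (Nat.card α).descFactorial (k - 2) := by
    rw [show k - 1 = k - 2 + 1 by omega, Nat.descFactorial_succ]; congr 1; omega
  have s2 : (Nat.card α).descFactorial k = (m + 1) * (Nat.card α).descFactorial (k - 1) := by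
    nth_rw 1 [show k = k - 1 + 1 by omega]
    rw [Nat.descFactorial_succ]; congr 1; omega
  have q1 : m + 2 = r * d := by
    have := Nat.descFactorial_eq_factorial_mul_choose (Nat.card α) (k - 1)
    rw [s1, ea] at this
    refine Nat.eq_of_mul_eq_mul_right e0 ?_
    rw [this, mul_assoc r, mul_comm d, ← cd, ca]; ring
  have q2 : (m + 1) * r * b = k.factorial := by
    have := Nat.descFactorial_eq_factorial_mul_choose (Nat.card α) k
    rw [s2, s1, q1] at this
    refine Nat.eq_of_mul_eq_mul_right (Nat.mul_pos e0 d0) ?_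
    nth_rw 2 [← cd]
    rw [cb, ← mul_assoc k.factorial, ← this]; ring
  have m1 : 1 ≤ m := by omega
  have dm : m + 1 ∈ k.factorial.divisors :=
    Nat.mem_divisors.2 ⟨⟨r * b, by rw [← q2, mul_assoc]⟩, Nat.factorial_ne_zero _⟩
  have dr : r ∈ (k - 1).factorial.divisors :=
    Nat.mem_divisors.2 ⟨⟨a, by rw [ea, mul_comm]⟩, Nat.factorial_ne_zero _⟩
  rw [← cn, hm]
  rw [hm] at cd
  obtain rfl | rfl | rfl : k = 3 ∨ k = 4 ∨ k = 5 := by omega
  · exfalso
    rw [show (Nat.factorial 3).divisors = {1, 2, 3, 6} by decide] at dm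
    rw [show (Nat.factorial (3 - 1)).divisors = {1, 2} by decide] at dr
    simp only [Finset.mem_insert, Finset.mem_singleton, Nat.factorial] at dm dr q2 ea
    obtain rfl : r = 2 := by omega
    omega
  · rw [show (Nat.factorial 4).divisors = {1, 2, 3, 4, 6, 8, 12, 24} by decide] at dm
    rw [show (Nat.factorial (4 - 1)).divisors = {1, 2, 3, 6} by decide] at dr
    simp only [Finset.mem_insert, Finset.mem_singleton, Nat.factorial] at dm dr q2 ea
    obtain ⟨rfl, rfl⟩ : m = 1 ∧ d = 1 := by
      rcases dr with rfl | rfl | rfl | rfl <;>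
        rcases dm with e | e | e | e | e | e | e | e <;> rw [e] at q2 <;> omega
    exact .inl ⟨rfl, rfl, cd⟩
  · right
    have d2 : ¬ 2 ∣ d := fun h => by
      obtain ⟨g, hg, fx⟩ := ex 2 Nat.prime_two h
      obtain ⟨D, hD, h⟩ := sw_of_nf (G := G) (α := α) le_rfl (by omega) (fun t ht => by
        by_contra! hlt
        obtain ⟨s, hs, e⟩ := Set.exists_subset_card_eq hlt
        lift s to Finset α using Set.toFinite s
        exact ht.ne (tr s (by rw [← Set.ncard_coe_finset, e]) t hs))
        (even_fixing ht hg (le_trans (by rw [Set.ncard_coe_finset]; simp)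
          (Set.ncard_le_ncard (s := ↑(Finset.univ.map x)) (t := {y | g • y = y})
            fun y hy => fx y hy)))
      obtain ⟨E, hE, e⟩ := Finset.exists_subset_card_eq (s := D) (n := 4) (by omega)
      exact hnt ((h.mono hE).mtrans e hh1)
    rw [show (Nat.factorial 5).divisors = {1, 2, 3, 4, 5, 6, 8, 10, 12, 15, 20, 24, 30, 40, 60, 120}
      by decide] at dm
    rw [show (Nat.factorial (5 - 1)).divisors = {1, 2, 3, 4, 6, 8, 12, 24} by decide] at dr
    simp only [Finset.mem_insert, Finset.mem_singleton, Nat.factorial] at dm dr q2 ea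
    obtain ⟨rfl, rfl⟩ | ⟨rfl, rfl⟩ | ⟨rfl, rfl⟩ | ⟨rfl, rfl⟩ | ⟨rfl, rfl⟩ : m = 1 ∧ d = 1 ∨
        m = 4 ∧ d = 1 ∨ m = 4 ∧ d = 3 ∨ m = 2 ∧ d = 1 ∨ m = 19 ∧ d = 7 := by
      rcases dr with rfl | rfl | rfl | rfl | rfl | rfl | rfl | rfl <;>
        rcases dm with e | e | e | e | e | e | e | e | e | e | e | e | e | e | e | e <;>
        rw [e] at q2 <;> omega
    · exact .inl ⟨rfl, rfl, cd⟩
    · exact .inr ⟨rfl, rfl, .inl cd⟩
    · exact .inr ⟨rfl, rfl, .inr cd⟩
    · exact (no7 ht hm cd).elim
    exfalso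
    obtain ⟨g, hg, fx⟩ := ex 7 (by norm_num) dvd_rfl
    let y : Fin 2 ↪ α := (Fin.castLEEmb (by omega)).trans x
    have cy := card_eq_descFactorial_mul (mtrans_mono ht (by omega : 2 ≤ 5 - 2) (by omega)) y
    rw [cd, hm] at cy
    have my : ∀ l : G, (∀ i, l • y i = y i) → l ∈ stabilizer G y :=
      fun l h => Function.Embedding.ext h
    obtain ⟨c, oc, e⟩ := comm154 (H := stabilizer G y) 
      (Nat.eq_of_mul_eq_mul_left (show 0 < 552 by omega) (cy.symm :)) (x := ⟨g, my g fun i => fx _ (by simp [y])⟩)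
      (by rw [orderOf_mk, hg])
    have fc : ∀ i, (c : G) • y i = y i := fun i => congrArg (fun f : Fin 2 ↪ α => f i) c.2
    have hc : (c : G) • x 2 = x 2 := by
      have h1 : (c : G) • x 2 ∈ Finset.univ.map x := by
        by_contra hn
        have g1 : g ≠ 1 := by rintro rfl; simp at hg
        refine g1 (tr (insert _ (Finset.univ.map x))
          (by rw [Finset.card_insert_of_notMem hn]; simp) g fun z hz => ?_)
        rcases Finset.mem_insert.1 hz with rfl | hz
        exacts [smul_fix (congrArg Subtype.val e).symm (fx _ (by simp)), fx z hz]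
      obtain ⟨i, -, hi⟩ := Finset.mem_map.1 h1
      fin_cases i
      · exact absurd (x.injective (smul_left_cancel _ ((fc 0).trans hi))) (by simp [Fin.ext_iff])
      · exact absurd (x.injective (smul_left_cancel _ ((fc 1).trans hi))) (by simp [Fin.ext_iff])
      · exact hi.symm
    have : (c : G) ∈ stabilizer G x := Function.Embedding.ext fun i => by
      fin_cases i
      exacts [fc 0, fc 1, hc]
    have := orderOf_dvd_natCard (⟨_, this⟩ : stabilizer G x)
    rw [orderOf_mk, Subgroup.orderOf_coe, oc, hd] at this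
    omega

end Cfsg.Agent.S0745
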