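import Cfsg.Statements.S0678
import Mathlib
import Cfsg.Agent.S0745
import Cfsg.Agent.S0675
import Cfsg.Agent.S0676
import Cfsg.Agent.H16.PrimeDeg2
import Cfsg.Agent.H16.Derang

set_option autoImplicit false
open Cfsg

namespace Cfsg.Agent.S0678

open MulAction Subgroup Equiv Cfsg.Agent.H16 Cfsg.Agent.GW

set_option maxHeartbeats 1000000

/-- A non-solvable transitive permutation group on 7 points that does not contain the alternating group is a simple group of order 168. -/
theorem result {α : Type*} [Fintype α] [DecidableEq α] (hα : Fintype.card α = 7) (G : Subgroup (Equiv.Perm α)) [MulAction.IsPretransitive G α] (hG : ¬ Group.IsSolvable G) (hA : ¬ alternatingGroup α ≤ G) : Nat.card G = 168 ∧ IsSimpleGroup G := by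
  have : Fact (Nat.Prime 7) := ⟨by norm_num⟩
  have cn : Nat.card α = 7 := by rw [Nat.card_eq_fintype_card, hα]
  have h2 := (S0675.result (hα ▸ this.out) G).resolve_left hG
  have pr := prim_of_mtrans h2 le_rfl (by omega)
  have sm : ∀ g : G, g ≠ 1 → nfix α g ≤ 3 := fun g g1 => by
    by_contra! h
    have e := ncard_fix (g : Perm α)
    rw [nfix_eq_ncard] at h
    change 3 < {y | (g : Perm α) y = y}.ncard at h
    exact hA (alt_le_of_support_le_three pr g.2 (fun e => g1 (Subtype.ext e)) (by omega))
  obtain ⟨P⟩ : Nonempty (Sylow 7 G) := inferInstance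
  have c := card_eq_prime_deg cn P
  have de := relIndex_normalizer_dvd_prime_deg cn P
  have m7 := card_sylow_modEq_one 7 G
  have cP := card_sylow_prime_deg cn P
  have cN := H4.card_mul_relIndex (le_normalizer (H := (P : Subgroup G)))
  have sp := simple_of_prime_deg cn P
  have e1 := fun h => eq_top_of_normalizer_le_prime_deg cn P (relIndex_eq_one.1 h)
  have h3 := S0676.result hα G hG P
  obtain ⟨x⟩ : Nonempty (Fin 3 ↪ α) := Function.Embedding.nonempty_of_card_le (by simp; omega)
  let y : Fin 2 ↪ α := (Fin.castLEEmb (by omega)).trans x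
  have cy := card_eq_descFactorial_mul h2 y
  have d3 : ¬ 3 ∣ Nat.card (stabilizer G y) := fun h => by
    obtain ⟨g, hg⟩ := exists_prime_orderOf_dvd_card' (G := stabilizer G y) 3 h
    rw [← Subgroup.orderOf_coe] at hg
    have h1 := nfix_modEq_of_orderOf (α := α) Nat.prime_three hg
    have h2 := two_le_nfix (g := (g : G)) (y.injective.ne (show 0 ≠ 1 by decide))
      (congrArg (fun f : Fin 2 ↪ α => f 0) g.2) (congrArg (fun f : Fin 2 ↪ α => f 1) g.2)
    have := sm g fun e => by simp [e] at hg
    rw [Nat.ModEq] at h1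
    omega
  have dG := card_subgroup_dvd_card G
  rw [Nat.card_perm, cn] at dG
  obtain ⟨t, ht⟩ : ∃ t, Nat.card (stabilizer G y) = t := ⟨_, rfl⟩
  replace cy : Nat.card G = 42 * t := cy.trans (by rw [cn]; exact congrArg _ ht)
  rw [ht] at d3
  have dt : t ∈ Nat.divisors 120 := Nat.mem_divisors.2
    ⟨Nat.dvd_of_mul_dvd_mul_left (show 0 < 42 by omega) (cy ▸ dG), by omega⟩
  have h3' : IsMultiplyPretransitive G α 3 → t ≠ 5 ∧ t ≠ 40 ∧ 5 ∣ t := fun h => by
    have cx := card_eq_descFactorial_mul h x
    obtain ⟨d, hd⟩ : ∃ d, Nat.card (stabilizer G x) = d := ⟨_, rfl⟩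
    replace cx : Nat.card G = 210 * d := cx.trans (by rw [cn]; exact congrArg _ hd)
    refine ⟨fun e => S0745.no7 h cn (by omega), fun e => ?_, by omega⟩
    obtain ⟨z, hz⟩ := exists_notMem_of_card_lt (Finset.univ.map x) (by simp; omega)
    have fx : ∀ g : stabilizer G x, ∀ i, (g : G) • x i = x i :=
      fun g i => congrArg (fun f : Fin 3 ↪ α => f i) g.2
    have o := card_eq_orbit_mul_stabilizer (G := stabilizer G x) z
    have o4 := Set.ncard_le_ncard (s := orbit (stabilizer G x) z) (t := (↑(Finset.univ.map x))ᶜ) (by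
      rintro _ ⟨g, rfl⟩ h
      obtain ⟨i, -, hi⟩ := Finset.mem_map.1 h
      exact hz (Finset.mem_map.2 ⟨i, by simp, smul_left_cancel (g : G) ((fx g i).trans hi)⟩))
    rw [Set.ncard_compl, Set.ncard_coe_finset, Finset.card_map, cn, Finset.card_fin] at o4
    obtain ⟨g, hg⟩ := exists_prime_orderOf_dvd_card' (G := stabilizer (stabilizer G x) z) 2 (by
      rw [hd, show d = 8 by omega] at o
      generalize (orbit (stabilizer G x) z).ncard = i at *
      interval_cases i <;> omega)
    have := sm g (fun e => by
      rw [← Subgroup.orderOf_coe, ← Subgroup.orderOf_coe, e] at hg; simp at hg)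
    rw [nfix_eq_ncard] at this
    have := (Set.ncard_le_ncard (s := ↑(insert z (Finset.univ.map x))) (fun w hw => by
      rcases Finset.mem_insert.1 hw with rfl | hw
      · exact g.2
      · obtain ⟨i, -, rfl⟩ := Finset.mem_map.1 hw
        exact fx g i)).trans this
    rw [Set.ncard_coe_finset, Finset.card_insert_of_notMem hz] at this
    simp at this
  rw [← cN, cP] at h3
  have e1' : (P : Subgroup G).relIndex (normalizer ((P : Subgroup G) : Set G)) ≠ 1 := fun h => by
    rw [e1 h, card_top] at cP; omega
  generalize (P : Subgroup G).relIndex (normalizer ((P : Subgroup G) : Set G)) = e at *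
  generalize Nat.card (Sylow 7 G) = n at *
  rw [show Nat.divisors 120 = {1, 2, 3, 4, 5, 6, 8, 10, 12, 15, 20, 24, 30, 40, 60, 120}
    by decide] at dt
  simp only [Finset.mem_insert, Finset.mem_singleton] at dt
  rw [Nat.ModEq] at m7
  have := Nat.le_of_dvd (by omega) de
  interval_cases e
  · omega
  · omega
  · have := h3' (h3 (by norm_num)); omega
  · exact ⟨by omega, sp (by omega) Nat.prime_three⟩
  · omega
  · omega
  · have := h3' (h3 (by norm_num)); omega

end Cfsg.Agent.S0678
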