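import Cfsg.Statements.S2384
import Mathlib
import Cfsg.Agent.L0.GLn4
-- import your own Cfsg.Agent.* helpers here

set_option autoImplicit false
open Cfsg

namespace Cfsg.Agent.S2384

open Cfsg.Agent.L0

/-- In `SL_n(q)`, `q` a power of the prime `p`, the number of conjugacy classes of elements of order prime to `p` (the semisimple classes) is `q^(n-1)`. -/
theorem result {F : Type*} [Field F] [Fintype F] {q : ℕ} (hq : Fintype.card F = q) (p : ℕ) [Fact p.Prime] [CharP F p] (n : ℕ) (hn : 1 ≤ n) :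
    Nat.card {c : ConjClasses (Matrix.SpecialLinearGroup (Fin n) F) //
      ∃ g : Matrix.SpecialLinearGroup (Fin n) F, ConjClasses.mk g = c ∧ (orderOf g).Coprime p} = q ^ (n - 1) := by
  obtain ⟨n, rfl⟩ : ∃ m, n = m + 1 := ⟨n - 1, by omega⟩
  have key : ∀ g : Matrix.SpecialLinearGroup (Fin (n + 1)) F, (orderOf g).Coprime p ↔
      ∀ u ∈ ty (g : Matrix (Fin (n + 1)) (Fin (n + 1)) F), Irreducible u := fun g => by
    rw [← orderOf_injective _ Matrix.SpecialLinearGroup.toGL_injective]
    exact coprime_orderOf_iff p (Matrix.SpecialLinearGroup.toGL g)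
  have hs : ((-1 : F) ^ (n + 1)) * (-1) ^ (n + 1) = 1 := by rw [← mul_pow]; simp
  rw [Nat.add_sub_cancel, ← hq, ← Nat.card_eq_fintype_card, ← card_monic_coeff n ((-1 : F) ^ (n + 1))]
  refine Nat.card_congr (Equiv.ofBijective (fun C => ⟨(C.2.choose : Matrix (Fin (n + 1)) (Fin (n + 1)) F).charpoly,
    Matrix.charpoly_monic _, by simp, ?_⟩) ⟨?_, ?_⟩)
  · have := C.2.choose.2
    rw [Matrix.det_eq_sign_charpoly_coeff, Fintype.card_fin] at this
    linear_combination (-1) ^ (n + 1) * this -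
      (C.2.choose : Matrix (Fin (n + 1)) (Fin (n + 1)) F).charpoly.coeff 0 * hs
  · intro C D h
    apply Subtype.ext
    rw [← C.2.choose_spec.1, ← D.2.choose_spec.1, ConjClasses.mk_eq_mk_iff_isConj]
    have h1 := (key _).1 C.2.choose_spec.2
    exact isConj_sl_of_ty (fun c _ => exists_commute_det_semis h1 c)
      (ty_eq_of_charpoly h1 ((key _).1 D.2.choose_spec.2) (congrArg Subtype.val h))
  · rintro ⟨f, h1, h2, h3⟩
    obtain ⟨A, h4, rfl⟩ := exists_semis_of_monic (n := Fin (n + 1)) h1 (by simpa using h2)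
    let g : Matrix.SpecialLinearGroup (Fin (n + 1)) F := ⟨A, by
      rw [Matrix.det_eq_sign_charpoly_coeff, Fintype.card_fin, h3, hs]⟩
    let C : {c : ConjClasses (Matrix.SpecialLinearGroup (Fin (n + 1)) F) //
      ∃ g : Matrix.SpecialLinearGroup (Fin (n + 1)) F, ConjClasses.mk g = c ∧ (orderOf g).Coprime p} :=
        ⟨_, g, rfl, (key g).2 h4⟩
    refine ⟨C, Subtype.ext ?_⟩
    have := ty_eq_of_isConj_sl (ConjClasses.mk_eq_mk_iff_isConj.1 C.2.choose_spec.1)
    exact (charpoly_eq_prod_ty _).trans (this ▸ (charpoly_eq_prod_ty A).symm)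

end Cfsg.Agent.S2384
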