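import Cfsg.Statements.S2387
import Mathlib
import Cfsg.Agent.L0.GLn3
-- import your own Cfsg.Agent.* helpers here

set_option autoImplicit false
open scoped MatrixGroups
open Cfsg

namespace Cfsg.Agent.S2387

open Cfsg.Agent.L0

/-- In `GL_n(q)` with `n ≥ 1`, `q` a power of the prime `p`, the number of conjugacy classes of elements of order prime to `p` (diagonalisable over the algebraic closure; determined by the characteristic polynomial) is `(q - 1) q^(n-1)`. -/
theorem result {F : Type*} [Field F] [Fintype F] {q : ℕ} (hq : Fintype.card F = q) (p : ℕ) [Fact p.Prime] [CharP F p] (n : ℕ) (hn : 1 ≤ n) :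
    Nat.card {c : ConjClasses (GL (Fin n) F) // ∃ g : GL (Fin n) F, ConjClasses.mk g = c ∧ (orderOf g).Coprime p} = (q - 1) * q ^ (n - 1) := by
  classical
  obtain ⟨n, rfl⟩ : ∃ m, n = m + 1 := ⟨n - 1, by omega⟩
  rw [card_classes_gl _ (fun s => ∀ u ∈ s, Irreducible u) (coprime_orderOf_iff p)]
  have h1 : Nat.card {s : Multiset (Polynomial F) // (∀ u ∈ s, Prim u) ∧ (∀ u ∈ s, ¬ Polynomial.X ∣ u) ∧
      (s.map Polynomial.natDegree).sum = Fintype.card (Fin (n + 1)) ∧ ∀ u ∈ s, Irreducible u} =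
      Nat.card (Σ c : Fˣ, {f : Polynomial F // f.Monic ∧ f.natDegree = n + 1 ∧ f.coeff 0 = c}) := by
    have hne : ∀ s : Multiset (Polynomial F), (∀ u ∈ s, ¬ Polynomial.X ∣ u) → s.prod.coeff 0 ≠ 0 := by
      intro s hs h
      obtain ⟨u, hu, hd⟩ := Prime.exists_mem_multiset_dvd Polynomial.prime_X (Polynomial.X_dvd_iff.2 h)
      exact hs u hu hd
    refine Nat.card_congr (Equiv.ofBijective (fun s => ⟨Units.mk0 _ (hne s.1 s.2.2.1), s.1.prod,
      by simpa using Polynomial.monic_multiset_prod_of_monic s.1 id (fun u hu => (s.2.1 u hu).monic), by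
        rw [Polynomial.natDegree_multiset_prod_of_monic _ fun u hu => (s.2.1 u hu).monic, s.2.2.2.1]; simp,
        rfl⟩) ⟨?_, ?_⟩)
    · intro s t h
      exact Subtype.ext (multiset_eq_of_prod_eq (fun u hu => ⟨s.2.2.2.2 u hu, (s.2.1 u hu).monic⟩)
        (fun u hu => ⟨t.2.2.2.2 u hu, (t.2.1 u hu).monic⟩) (congrArg (fun z => z.2.1) h))
    · rintro ⟨c, f, h1, h2, h3⟩
      obtain ⟨s, hs, rfl⟩ := exists_multiset_prod_eq h1
      refine ⟨⟨s, fun u hu => Prim.of_irreducible (hs u hu).1 (hs u hu).2, fun u hu hd => ?_, ?_,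
        fun u hu => (hs u hu).1⟩, ?_⟩
      · exact c.ne_zero (h3 ▸ Polynomial.X_dvd_iff.1 (hd.trans (Multiset.dvd_prod hu)))
      · rw [← Polynomial.natDegree_multiset_prod_of_monic _ fun u hu => (hs u hu).2, h2]; simp
      · exact Sigma.subtype_ext (Units.ext h3) rfl
  haveI : ∀ c : Fˣ, Finite {f : Polynomial F // f.Monic ∧ f.natDegree = n + 1 ∧ f.coeff 0 = c} := fun c =>
    Nat.finite_of_card_ne_zero (by rw [card_monic_coeff]; exact pow_ne_zero _ Nat.card_pos.ne')
  rw [h1, Nat.card_sigma]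
  simp only [card_monic_coeff]
  simp [Fintype.card_units, hq]

end Cfsg.Agent.S2387
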