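import Mathlib
import Cfsg.Agent.H28.ClassCount
-- Template for statement S4200 (row 4200; see /opt/grader/pristine/manifest.json for weights).
-- Copy to Cfsg/Agent/S4200.lean and replace the sorry. The statement below is byte-identical to the frozen
-- statement Cfsg.CfsgFrozen.S4200 (Cfsg/Statements/S4200.lean; the theorem Cfsg.class_number_subgroup_index_bounds);
-- the grader kernel-checks Cfsg.Agent.S4200.result against that frozen type. Keep the theorem IN THIS FILE
-- (a `result` declared elsewhere and merely imported here is not credited); helpers may live anywhere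
-- under Cfsg/Agent/.
import Cfsg.Statements.S4200
-- import your own Cfsg.Agent.* helpers here

set_option autoImplicit false
open Cfsg

namespace Cfsg.Agent.S4200

/-- Let Y be a subgroup of the finite group X, of index m. Then the numbers of conjugacy classes satisfy k(Y) ≤ m·k(X) and k(X) ≤ m·k(Y), and the second inequality is strict unless Y is normal in X. -/
theorem result {X : Type*} [Group X] [Finite X] (Y : Subgroup X) : Nat.card (ConjClasses Y) ≤ Y.index * Nat.card (ConjClasses X) ∧ Nat.card (ConjClasses X) ≤ Y.index * Nat.card (ConjClasses Y) ∧ (¬ Y.Normal → Nat.card (ConjClasses X) < Y.index * Nat.card (ConjClasses Y)) := by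
  open Subgroup Cfsg.Agent.FT Cfsg.Agent.H28 in
  open scoped commutatorElement Pointwise in
  have hX := card_conjClasses_mul_card (G := X)
  have hY := card_conjClasses_subgroup_mul_card Y
  have hc : Nat.card X = Nat.card Y * Y.index := (card_mul_index Y).symm
  have hp : 0 < Nat.card X := Nat.card_pos
  have hi : 0 < Y.index := Nat.pos_of_ne_zero FiniteIndex.index_ne_zero
  have h1 : ∀ x : X, ((Set.univ : Set X) ∩ C[x]).ncard ≤ Y.index * ((Y : Set X) ∩ C[x]).ncard := by
    intro x
    rw [ncard_univ_inter, ncard_inter_coe]
    exact card_le_index_mul _ _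
  have h2 : (cpairs (Set.univ : Set X) Set.univ).ncard ≤
      Y.index * (cpairs (Y : Set X) Set.univ).ncard := by
    rw [ncard_cpairs_swap (Y : Set X)]
    exact ncard_cpairs_le fun x _ => h1 x
  have e : Y.index * Nat.card (ConjClasses Y) * Nat.card X =
      Y.index * (Y.index * (cpairs (Y : Set X) Y).ncard) := by
    rw [← hY, hc]; ring
  refine ⟨?_, ?_, fun hn => ?_⟩
  · refine Nat.le_of_mul_le_mul_right ?_ (card_pos Y)
    rw [hY]
    refine le_trans (ncard_cpairs_mono (Set.subset_univ _) (Set.subset_univ _)) ?_
    rw [← hX, hc]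
    exact le_of_eq (by ring)
  · refine Nat.le_of_mul_le_mul_right ?_ hp
    rw [hX, e]
    exact le_trans h2 (Nat.mul_le_mul_left _ (ncard_cpairs_le fun x _ => h1 x))
  · refine Nat.lt_of_mul_lt_mul_right (a := Nat.card X) ?_
    rw [hX, e]
    refine lt_of_le_of_lt h2 (Nat.mul_lt_mul_of_pos_left (ncard_cpairs_lt (fun x _ => h1 x) ?_) hi)
    by_contra hcon
    push Not at hcon
    refine hn ⟨fun y hy g => ?_⟩
    have h3 := hcon y hy
    rw [ncard_univ_inter, ncard_inter_coe] at h3
    have h4 : MulEq Y C[y] ⊤ := by
      refine mulEq_of_card le_top le_top ?_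
      rw [card_top', hc, mul_assoc]
      exact Nat.mul_le_mul_left _ h3
    obtain ⟨a, ha, b, hb, rfl⟩ := h4.mul g (mem_top g)
    have : a * b * y * (a * b)⁻¹ = a * y * a⁻¹ := by
      rw [mul_assoc a b y, mem_cen1.1 hb]; group
    rw [this]
    exact Y.mul_mem (Y.mul_mem ha hy) (Y.inv_mem ha)

end Cfsg.Agent.S4200
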