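import Cfsg.Statements.S0824
import Mathlib
import Cfsg.Agent.H10.Cox

set_option autoImplicit false
open Cfsg

namespace Cfsg.Agent.S0824

open H10 H11

/-- O⁻_4(2) ≅ S_5: the isometry group of the form x y + z_1² + z_1 z_2 + z_2² over the field with 2 elements is isomorphic to the symmetric group on 5 letters. -/
theorem result {F : Type*} [Field F] [Fintype F] (hF : Fintype.card F = 2) : Nonempty (↥(Cfsg.isometryGroup F (Cfsg.quadFormMinus 1 F 1 1)) ≃* Equiv.Perm (Fin 5)) := by
  have h2 := two_eq_zero_of_card hF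
  have hm : (-1 : F) = 1 := by linear_combination -h2
  have h11 : (1 + 1 : F) = 0 := by linear_combination h2
  have h := isQuad_minus 1 F 1 1
  have hab : ∀ z₁ z₂ : F, z₁ ^ 2 + 1 * z₁ * z₂ + 1 * z₂ ^ 2 = 0 → z₁ = 0 ∧ z₂ = 0 := fun a b => by
    rcases eq_zero_or_one_of_card hF a with rfl | rfl <;>
      rcases eq_zero_or_one_of_card hF b with rfl | rfl <;> simp [h11]
  have hc := IsQuad.card_isom_minus 1 h (bMinus_sep 1 hab) (wittIdx_minus 1 hab) (by simp)
  rw [Nat.card_eq_fintype_card (α := F), hF] at hc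
  obtain ⟨e⟩ := nonempty_isom_equiv_perm h (n := 4) (by norm_num)
    ![Sum.elim (Sum.elim ![0] ![0]) ![0, 1], Sum.elim (Sum.elim ![0] ![0]) ![1, 0],
      Sum.elim (Sum.elim ![0] ![1]) ![0, 1], Sum.elim (Sum.elim ![1] ![1]) ![0, 0]]
    (fun i => by fin_cases i <;> simp [quadFormMinus])
    (fun i j => by fin_cases i <;> fin_cases j <;> simp [bMinus_apply, h2])
    (fun i j => by fin_cases i <;> fin_cases j <;> simp [bMinus_apply, hm, h2])
    (by
      have : ((Nat.card (Isom (bMinus 1 F 1 1) (quadFormMinus 1 F 1 1)) : ℕ) : ℤ) =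
          ((120 : ℕ) : ℤ) := by
        rw [hc]; decide
      exact_mod_cast this)
  exact ⟨(oEquiv h).trans e⟩

end Cfsg.Agent.S0824
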