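import Cfsg.Statements.S4127
import Mathlib
import Cfsg.Agent.H4.Small

set_option autoImplicit false
open Cfsg

namespace Cfsg.Agent.S4127

/-- Let G be a finite group, p a prime and p^a the largest power of p dividing the size of any conjugacy class of G. If some element of p-power order has a conjugacy class of size exactly p^a, then G has a normal p-complement. -/
theorem result {G : Type*} [Group G] [Finite G] (p : ℕ) [Fact p.Prime]
    (a : ℕ) (hmax : ∀ y : G, ¬ p ^ (a + 1) ∣ (Subgroup.centralizer ({y} : Set G)).index)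
    (hx : ∃ x : G, (∃ k : ℕ, orderOf x = p ^ k) ∧ (Subgroup.centralizer ({x} : Set G)).index = p ^ a) :
    Cfsg.HasNormalPComplement p G := by
  obtain ⟨x, ⟨k, hk⟩, hx⟩ := hx
  have hp : p.Prime := Fact.out
  have hxp : x ^ p ^ k = 1 := by rw [← hk, pow_orderOf_eq_one]
  set H := Subgroup.centralizer ({x} : Set G) with hH
  obtain ⟨P₀⟩ : Nonempty (Sylow p H) := inferInstance
  have h1 : ∀ y : H, (orderOf y).Coprime p → ¬ p ∣ (Subgroup.centralizer ({y} : Set H)).index := by
    intro y hy hd
    have hc : Commute x y := (Subgroup.mem_centralizer_singleton_iff.mp y.2).symm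
    have hco : (orderOf x).Coprime (orderOf (y : G)) := by
      rw [hk, Subgroup.orderOf_coe]; exact Nat.Coprime.pow_left _ hy.symm
    have e1 : Subgroup.centralizer ({x * y} : Set G) ≤ Subgroup.centralizer ({(y : G)} : Set G) ⊓ H := by
      intro z hz
      have hz' : Commute z (x * y) := Subgroup.mem_centralizer_singleton_iff.mp hz
      constructor
      · obtain ⟨m, hm⟩ : (y : G) ∈ Subgroup.zpowers (x * y) := by
          refine H4.mem_of_pow_mem_of_coprime hco ?_
          have := pow_mem (Subgroup.mem_zpowers (x * y)) (orderOf x)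
          rwa [hc.mul_pow, pow_orderOf_eq_one, one_mul] at this
        exact Subgroup.mem_centralizer_singleton_iff.mpr (hm ▸ hz'.zpow_right m)
      · obtain ⟨m, hm⟩ : x ∈ Subgroup.zpowers (x * y) := by
          refine H4.mem_of_pow_mem_of_coprime hco.symm ?_
          have := pow_mem (Subgroup.mem_zpowers (x * y)) (orderOf (y : G))
          rwa [hc.mul_pow, pow_orderOf_eq_one, mul_one] at this
        exact Subgroup.mem_centralizer_singleton_iff.mpr (hm ▸ hz'.zpow_right m)
    have e2 : Subgroup.centralizer ({y} : Set H) =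
        (Subgroup.centralizer ({(y : G)} : Set G)).subgroupOf H := by
      ext z
      simp [Subgroup.mem_subgroupOf, Subgroup.mem_centralizer_singleton_iff, Subtype.ext_iff]
    refine hmax (x * y) (dvd_trans ?_ (Subgroup.index_dvd_of_le e1))
    rw [← Subgroup.relIndex_mul_index inf_le_right, Subgroup.inf_relIndex_right, hx, pow_succ']
    rw [e2] at hd
    exact Nat.mul_dvd_mul_right hd _
  obtain ⟨-, h2, h3⟩ := H4.hasNPC_of_sylow_sup_centralizer P₀ (H4.sylow_sup_centralizer_eq_top P₀ h1)
  have hS := H4.IsSylowIn.of_sylow_map P₀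
  have hn := Cfsg.pCore_normal p G
  have hxO : x ∈ Cfsg.pCore p G := by
    rw [H2.pCore_eq_iInf_sylow, Subgroup.mem_iInf]
    exact H4.mem_sylow_of_index_centralizer hxp hx
  have hSK : (P₀ : Subgroup H).map H.subtype ≤
      Subgroup.centralizer (((Cfsg.pResidual p H).map H.subtype : Subgroup G) : Set G) := by
    rintro _ ⟨s, hs, rfl⟩ _ ⟨k, hk, rfl⟩
    exact congrArg Subtype.val (Subgroup.mem_centralizer_iff.mp (h3 hk) s hs).symm
  have hxS : x ∈ (P₀ : Subgroup H).map H.subtype :=
    hS.le_of_normal (H4.isPGroup_zpowers_of_pow_eq_one hxp)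
      (Subgroup.zpowers_le.mpr (Subgroup.mem_centralizer_singleton_iff.mpr rfl))
      (by rw [hH, ← H1.centralizer_zpowers]; exact H4.centralizer_le_normalizer' _)
      (Subgroup.mem_zpowers x)
  have h4 := H1.p_times_q p _ ((Cfsg.pResidual p H).map H.subtype) (Cfsg.pCore p G) hS.isPGroup
    (by rw [H1.card_map_subtype]; exact H4.hasNPC_iff_pResidual.mp h2) H2.pCore_isPGroup hSK
    Subgroup.le_normalizer_of_normal Subgroup.le_normalizer_of_normal (by
      refine le_trans ?_ hSK
      refine le_trans ?_ (hS.le_of_normal (Q := Cfsg.pCore p G ⊓ H) (H2.pCore_isPGroup.to_le inf_le_left)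
        inf_le_right (H1.le_normalizer_inf Subgroup.le_normalizer_of_normal Subgroup.le_normalizer))
      exact inf_le_inf_left _ (Subgroup.centralizer_le (Set.singleton_subset_iff.mpr hxS)))
  refine H4.hasNPC_of_normal_isPGroup_quotient (Subgroup.centralizer (Cfsg.pCore p G : Set G)) ?_
    (H4.hasNPC_of_le (Subgroup.centralizer_le (Set.singleton_subset_iff.mpr hxO)) h2)
  obtain ⟨n, hn⟩ := IsPGroup.iff_card.mp (H4.isPGroup_quotient_pResidual (G := H) p)
  refine IsPGroup.of_card_dvd_pow (n := n + a) (dvd_trans (Subgroup.index_dvd_of_le h4) ?_)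
  rw [← Subgroup.relIndex_mul_index (Subgroup.map_subtype_le _), hx, pow_add, ← hn,
    Subgroup.relIndex, Subgroup.subgroupOf,
    Subgroup.comap_map_eq_self_of_injective H.subtype_injective]
  rfl

end Cfsg.Agent.S4127
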