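import Cfsg.Statements.S1220
import Mathlib
import Cfsg.Agent.BS.BInd
import Cfsg.Agent.BS.BInd1

set_option autoImplicit false
open Cfsg

namespace Cfsg.Agent.S1220

/-- Let H be a strongly embedded subgroup of the finite group G. Then either G acts doubly transitively on the cosets of H (H permutes transitively the cosets gH with g ∉ H), or every Sylow 2-subgroup of G is cyclic or generalized quaternion and G = O(G)H. -/
theorem result {G : Type*} [Group G] [Finite G] (H : Subgroup G) (hH : Cfsg.IsStronglyEmbedded H) : (∀ g₁ g₂ : G, g₁ ∉ H → g₂ ∉ H → ∃ h ∈ H, g₂⁻¹ * (h * g₁) ∈ H) ∨ ((∀ S : Sylow 2 G, IsCyclic S ∨ ∃ m : ℕ, 1 ≤ m ∧ Nonempty ((S : Subgroup G) ≃* QuaternionGroup (2 ^ m))) ∧ Cfsg.oddCore G ⊔ H = ⊤) := by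
  have h := BS.SE.of_se hH
  by_cases h2 : H13.R1.Rank2 G
  · obtain ⟨G', Ω', _, _, _, ⟨M⟩⟩ := h.exists_mod h2 ((1 : G) : G ⧸ H)
    refine Or.inl fun g₁ g₂ h₁ h₂ => ?_
    obtain ⟨g, e1, e2⟩ := M.two_trans h (c := ((1 : G) : G ⧸ H)) (d := (g₁ : G ⧸ H)) (c' := ((1 : G) : G ⧸ H))
      (d' := (g₂ : G ⧸ H)) (fun e => h₁ (by simpa using QuotientGroup.eq.1 e))
      (fun e => h₂ (by simpa using QuotientGroup.eq.1 e))
    exact ⟨g, by simpa using QuotientGroup.eq.1 e1.symm, QuotientGroup.eq.1 e2.symm⟩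
  · exact Or.inr ⟨BS.sylow_cyclic_or_quaternion h2, BS.oddCore_sup_se h2 hH⟩

end Cfsg.Agent.S1220
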