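import Cfsg.Statements.S5945
import Mathlib
import Cfsg.Agent.H10.Sym3

set_option autoImplicit false
open Cfsg

namespace Cfsg.Agent.S5945

/-- The symmetric group S_6 has exactly 12 subgroups of index 6; each of them is isomorphic to S_5, and at least one of them is not the stabilizer of any point. -/
theorem result : Nat.card {H : Subgroup (Equiv.Perm (Fin 6)) // H.index = 6} = 12 ∧ (∀ H : Subgroup (Equiv.Perm (Fin 6)), H.index = 6 → Nonempty (H ≃* Equiv.Perm (Fin 5))) ∧ ∃ H : Subgroup (Equiv.Perm (Fin 6)), H.index = 6 ∧ ∀ a : Fin 6, H ≠ MulAction.stabilizer (Equiv.Perm (Fin 6)) a := by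
  obtain ⟨ψ, h1, h2⟩ := H10.exists_outer_six (Ω := Fin 6) rfl
  have i1 : ∀ a : Fin 6, (MulAction.stabilizer (Equiv.Perm (Fin 6)) a).index = 6 :=
    H10.index_stabilizer_perm
  have i2 : ∀ a : Fin 6, ((MulAction.stabilizer (Equiv.Perm (Fin 6)) a).map ψ.toMonoidHom).index = 6 :=
    fun a => (Subgroup.index_map_equiv _ ψ).trans (i1 a)
  have inj := H10.stabilizer_perm_injective (Ω := Fin 6) (by simp)
  refine ⟨?_, fun H hH => ?_, _, i2 0, h1 0⟩
  · let f : Fin 6 ⊕ Fin 6 → {H : Subgroup (Equiv.Perm (Fin 6)) // H.index = 6} :=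
      Sum.elim (fun a => ⟨_, i1 a⟩) (fun a => ⟨_, i2 a⟩)
    rw [← Nat.card_eq_of_bijective f ⟨?_, fun H => ?_⟩]
    · simp
    · rintro (a | a) (b | b) h
      · exact congrArg _ (inj (congrArg Subtype.val h))
      · exact absurd (congrArg Subtype.val h).symm (h1 _ _)
      · exact absurd (congrArg Subtype.val h) (h1 _ _)
      · exact congrArg _ (inj (Subgroup.map_injective ψ.injective (congrArg Subtype.val h)))
    · obtain ⟨a, h | h⟩ := h2 H.1 H.2
      exacts [⟨Sum.inl a, Subtype.ext h.symm⟩, ⟨Sum.inr a, Subtype.ext h.symm⟩]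
  · obtain ⟨a, rfl | rfl⟩ := h2 H hH
    · exact H10.nonempty_stabilizer_equiv a rfl
    · obtain ⟨e⟩ := H10.nonempty_stabilizer_equiv (m := 5) a rfl
      exact ⟨(ψ.subgroupMap _).symm.trans e⟩

end Cfsg.Agent.S5945
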