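import Cfsg.Statements.S0609
import Mathlib
import Cfsg.Agent.H22.Hol
import Cfsg.Agent.H2.Cores

set_option autoImplicit false
open Cfsg

namespace Cfsg.Agent.S0609

/-- Thompson factorizability passes to and from the quotient by the largest normal subgroup of order prime to p. -/
theorem result {G : Type*} [Group G] [Finite G] {p : ℕ} [Fact p.Prime] : Cfsg.IsThompsonFactorizable p G ↔ Cfsg.IsThompsonFactorizable p (G ⧸ Cfsg.pPrimeCore p G) := by
  open Subgroup Cfsg.Agent.FT Cfsg.Agent.P22 in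
  open scoped commutatorElement Pointwise in
  have hp : p.Prime := Fact.out
  set O := pPrimeCore p G with hOd
  set f := QuotientGroup.mk' O with hf
  have hs := QuotientGroup.mk'_surjective O
  have pO : PiGrp {p}ᶜ O := by
    rw [hOd, ← piCore_compl_singleton hp, ← pcore_top]; exact pcore_pi _ _
  have nO : ∀ X : Subgroup G, X ≤ N(O) := fun X => le_top.trans (nml_top_iff.2 inferInstance).nrm
  have hker : f.ker = O := QuotientGroup.ker_mk' O
  have hS : ∀ S : Sylow p G, (S : Subgroup G) ⊓ f.ker = ⊥ := fun S => by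
    rw [hker]; exact (syl_top hp S).pi.inf_eq_bot pO
  have hk1 : ∀ x ∈ O, f x = 1 := fun x hx => (QuotientGroup.eq_one_iff x).2 hx
  have eZ : ∀ S : Sylow p G, Ω[p](Z((S : Subgroup G))).map f = Ω[p](Z((S : Subgroup G).map f)) := fun S =>
    ((H5b.isFn_omegaOne p).comp H5b.isFn_center).map_of_inf_ker f (hS S)
  have eJ : ∀ S : Sylow p G, (H5b.Jn p (S : Subgroup G)).map f = H5b.Jn p ((S : Subgroup G).map f) := fun S =>
    (H5b.isFn_Jn p).map_of_inf_ker f (hS S)
  have lift : ∀ (P : Subgroup G), PGrp p P → ∀ n ∈ N(P.map f), ∃ m ∈ N(P), f m = n := fun P hP n hn => by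
    obtain ⟨m, rfl⟩ := hs n
    have h1 : ⟪m⟫ ≤ N(O ⊔ P) := by
      have := comap_norms f (zpowers_le.2 hn)
      rw [comap_map_eq, hker, sup_comm] at this
      exact (zpowers_le.2 (mem_comap.2 (mem_zpowers _))).trans this
    obtain ⟨o, ho, k, hk, e⟩ := (coprime_norm_sup (M := (O ⊔ P) ⊔ ⟪m⟫) ⟨le_sup_left.trans le_sup_left, nO _⟩
      (le_sup_right.trans le_sup_left) (sup_le (le_nrm _) h1) (pO.cop' hP) (.inr hP.sol)).mul m
      (mem_sup_right (mem_zpowers m))
    refine ⟨k, hk.2, ?_⟩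
    change f k = f m
    rw [e, map_mul, hk1 o ho, one_mul]
  have liftc : ∀ (P : Subgroup G), PGrp p P → ∀ n ∈ C(P.map f), ∃ m ∈ C(P), f m = n := fun P hP n hn => by
    obtain ⟨m, hm, rfl⟩ := lift P hP n (cen_le_nrm _ hn)
    refine ⟨m, mem_cen.2 fun x hx => ?_, rfl⟩
    have h1 : ⁅x, m⁆ ∈ O := by
      rw [← hker, MonoidHom.mem_ker, map_commutatorElement, commutatorElement_eq_one_iff_mul_comm]
      exact mem_cen.1 hn _ (mem_map_of_mem f hx)
    exact commutatorElement_eq_one_iff_mul_comm.1 (eq_one_of_mem_inf (hP.inf_eq_bot pO)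
      (comm_le_left (zpowers_le.2 hm) (comm_mem hx (mem_zpowers m))) h1)
  have hO' : pPrimeCore p (G ⧸ O) = ⊥ := H2.pPrimeCore_quotient_self
  constructor
  · intro h S' g'
    obtain ⟨S, rfl⟩ := Sylow.mapSurjective_surjective hs p S'
    obtain ⟨g, rfl⟩ := hs g'
    obtain ⟨x, hx, c, hc, n, hn, rfl⟩ := h S g
    refine ⟨1, one_mem _, f c, ?_, f n, ?_, ?_⟩
    · rw [Sylow.coe_mapSurjective, ← eZ]
      exact map_cents f le_rfl (mem_map_of_mem f hc)
    · rw [Sylow.coe_mapSurjective, H5b.thompsonOf_eq_Jn, ← eJ]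
      rw [H5b.thompsonOf_eq_Jn] at hn
      exact map_norms f le_rfl (mem_map_of_mem f hn)
    · change f _ = _
      rw [map_mul, map_mul, hk1 x hx]
  · intro h S g
    obtain ⟨x, hx, c, hc, n, hn, e⟩ := h (S.mapSurjective hs) (f g)
    rw [hO', mem_bot] at hx
    rw [Sylow.coe_mapSurjective, ← eZ] at hc
    rw [Sylow.coe_mapSurjective, H5b.thompsonOf_eq_Jn, ← eJ] at hn
    have pS := (syl_top hp S).pi
    obtain ⟨c, hc', rfl⟩ := liftc _ (pS.mono ((Ohm_le _ _).trans inf_le_left)) c hc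
    obtain ⟨n, hn', rfl⟩ := lift _ (pS.mono (H5b.Jn_le p _)) n hn
    refine ⟨g * n⁻¹ * c⁻¹, ?_, c, hc', n, H5b.thompsonOf_eq_Jn (n := p) (S : Subgroup G) ▸ hn', by group⟩
    rw [← hOd, ← hker, MonoidHom.mem_ker, map_mul, map_mul, e, hx, map_inv, map_inv]
    group

end Cfsg.Agent.S0609
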