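import Cfsg.Statements.S0608
import Mathlib
import Cfsg.Agent.H22.Hol
import Cfsg.Agent.H2.Cores

set_option autoImplicit false
open Cfsg

namespace Cfsg.Agent.S0608

/-- With trivial p'-core, Thompson factorizability is equivalent to J(G) centralizing the subgroup generated by all Ω₁(Z(S)), S Sylow. -/
theorem result {G : Type*} [Group G] [Finite G] {p : ℕ} [Fact p.Prime] (hO : Cfsg.pPrimeCore p G = ⊥) : Cfsg.IsThompsonFactorizable p G ↔ Cfsg.thompsonSubgroup p G ≤ Subgroup.centralizer ((⨆ S : Sylow p G, Cfsg.omegaOne p (((S : Subgroup G)) ⊓ Subgroup.centralizer ((S : Subgroup G) : Set G)) : Subgroup G) : Set G) := by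
  open Subgroup Cfsg.Agent.FT Cfsg.Agent.P22 in
  open scoped commutatorElement Pointwise in
  have hp : p.Prime := Fact.out
  rw [← Vz_top, ← H5b.Jn_top]
  constructor
  · intro h
    have key : ∀ S : Sylow p G, H5b.Jn p (S : Subgroup G) ≤ C(Vz p ⊤) := fun S => by
      refine centsC (Vz_le_iff.2 fun T hT => ?_)
      obtain ⟨g, -, rfl⟩ := (syl_top hp S).syl_trans hT
      obtain ⟨x, hx, c, hc, n, hn, e⟩ := h S g⁻¹
      rw [hO, mem_bot] at hx
      rw [H5b.thompsonOf_eq_Jn] at hn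
      have : g = n⁻¹ * c⁻¹ := by rw [← inv_inv g, e, hx]; group
      rw [← cj_center, ← cj_Ohm, this, ← cj_cj, cj_of_mem_cen (inv_mem hc)]
      exact cj_le_of_nrm (norms_cent le_rfl (inv_mem hn))
        ((Ohm_center_le_Jn p _).trans ((Ohm_le _ _).trans inf_le_right))
    refine H5b.Jn_le_iff.2 fun A hA => ?_
    obtain ⟨S, hS, hAS⟩ := (Abelem.pGrp hA.ab hp).exists_syl le_top
    obtain ⟨T, rfl⟩ := (syl_top_iff hp).1 hS
    exact (hA.mono le_top hAS).le_Jn.trans (key T)
  · intro h S g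
    have hS := syl_top hp S
    obtain ⟨j, hj, n, hn, e⟩ := (Jn_frattini hS (Jn_nml p ⊤) (Jn_syl_le hp hS)).mul g trivial
    refine ⟨1, one_mem _, j, cen_anti (le_Vz hS) (h hj), n, ?_, by rw [e, one_mul]⟩
    rw [H5b.thompsonOf_eq_Jn]
    exact hn.2

end Cfsg.Agent.S0608
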