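import Cfsg.Statements.S0618
import Mathlib
import Cfsg.Agent.H22.Hol
import Cfsg.Agent.H2.Cores
import Cfsg.Agent.S0608

set_option autoImplicit false
open Cfsg

namespace Cfsg.Agent.S0618

/-- A p-separable group with trivial p'-core in which the Thompson factorization fails has p = 2 or 3, and J(G) induces on the normal closure of Ω₁(Z(S)) a group containing a normal SL(2, p). -/
theorem result {G : Type*} [Group G] [Finite G] {p : ℕ} [Fact p.Prime] (hsep : Cfsg.IsPSolvable p G) (hO : Cfsg.pPrimeCore p G = ⊥) (hnf : ¬ Cfsg.IsThompsonFactorizable p G) : (p = 2 ∨ p = 3) ∧ ∃ E : Subgroup G, Subgroup.centralizer ((⨆ S : Sylow p G, Cfsg.omegaOne p ((S : Subgroup G) ⊓ Subgroup.centralizer ((S : Subgroup G) : Set G))) : Set G) ≤ E ∧ E ≤ Cfsg.thompsonSubgroup p G ⊔ Subgroup.centralizer ((⨆ S : Sylow p G, Cfsg.omegaOne p ((S : Subgroup G) ⊓ Subgroup.centralizer ((S : Subgroup G) : Set G))) : Set G) ∧ Cfsg.thompsonSubgroup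 p G ⊔ Subgroup.centralizer ((⨆ S : Sylow p G, Cfsg.omegaOne p ((S : Subgroup G) ⊓ Subgroup.centralizer ((S : Subgroup G) : Set G))) : Set G) ≤ Subgroup.normalizer (E : Set G) ∧ ∃ hn : ((Subgroup.centralizer ((⨆ S : Sylow p G, Cfsg.omegaOne p ((S : Subgroup G) ⊓ Subgroup.centralizer ((S : Subgroup G) : Set G))) : Set G)).subgroupOf E).Normal, Nonempty ((↥E ⧸ (Subgroup.centralizer ((⨆ S : Sylow p G, Cfsg.omegaOne p ((S : Subgroup G) ⊓ Subgroup.centralizer ((S : Subgroup G) : Set G))) : Set G)).subgroupOf E) ≃* Matrix.SpecialLinearGroup (Fin 2) (ZMod p)) := by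
  open Subgroup Cfsg.Agent.FT Cfsg.Agent.P22 in
  open scoped commutatorElement Pointwise in
  have hp : p.Prime := Fact.out
  have eC : centralizer (⨆ S : Sylow p G, (Ω[p](Z((S : Subgroup G))) : Set G)) = C(Vz p (⊤ : Subgroup G)) := by
    ext g
    rw [← zpowers_le, ← zpowers_le, cen_comm, Vz_top, iSup_le_iff, zpowers_le, mem_centralizer_iff]
    simp only [Set.iSup_eq_iUnion, Set.mem_iUnion, cen_zpowers]
    exact ⟨fun h S x hx => mem_cen1.2 (h x ⟨S, hx⟩), fun h x ⟨S, hx⟩ => mem_cen1.1 (h S hx)⟩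
  rw [eC, ← H5b.Jn_top]
  rw [S0608.result hO, ← Vz_top, ← H5b.Jn_top] at hnf
  have hO' : O[{p}ᶜ]((⊤ : Subgroup G)) = ⊥ := by rw [pcore_top, piCore_compl_singleton hp, hO]
  have hs := H1.isPSolvable_subgroup hp hsep ⊤
  have h := ffs_Vz hp hs hO'
  have hV := abelem_Vz (cen_pcore_le hp hs hO')
  have hn := (Vz_nml p (⊤ : Subgroup G)).nrm
  set V := Vz p (⊤ : Subgroup G)
  obtain ⟨B, hB, tB⟩ := h.exists_trv_J hV hn le_rfl le_top hnf
  have hBH : B ≤ bar V ⊤ := hB.trans (pmap_mono _ le_top)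
  have nJ := (Jn_nml p (⊤ : Subgroup G)).pmap (act V)
  have hE : ⁅O[{p}ᶜ](bar V ⊤), B⁆ ⊔ B ≤ bar V (H5b.Jn p ⊤) :=
    sup_le ((commSS (pcore_le _ _) hB).trans (comm_le_right nJ.nrm)) hB
  refine ⟨h.two_or_three hBH tB, ppre (act V) (⁅O[{p}ᶜ](bar V ⊤), B⁆ ⊔ B), pker_act V ▸ pker_le_ppre _ _, ?_, ?_, ?_⟩
  · refine (ppre_mono _ hE).trans ?_
    rw [ppre_pmap _ (le_top.trans hn), pker_act, sup_comm]
  · refine norms_ppre (le_top.trans hn) ?_
    rw [sup_comm, ← pker_act, pmap_ker_sup _ (le_top.trans hn)]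
    exact h.barJ_le hV hn le_rfl le_top fun A hA tA => h.trv_norm hBH tB (hA.trans (pmap_mono _ le_top)) tA
  · obtain ⟨hn', ⟨e⟩⟩ := quot_equiv_pmap (K := C(V)) (act V) (ppre_le _ (⁅O[{p}ᶜ](bar V ⊤), B⁆ ⊔ B))
      (by rw [pker_act])
    exact ⟨hn', ⟨e.trans ((MulEquiv.subgroupCongr (pmap_ppre_of_le hE)).trans (h.E_iso hBH tB).some)⟩⟩

end Cfsg.Agent.S0618
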