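import Cfsg.Statements.S0972
import Mathlib
import Cfsg.Agent.H9.Misc

set_option autoImplicit false
open Cfsg

namespace Cfsg.Agent.S0972

/-- Let B be a block of the finite group G (relative to a maximal ideal M of the algebraic integers containing the prime p) with a defect group P that is normal in G. Then P is commutative if and only if every member of B has height zero. -/
theorem result {G : Type*} [Group G] [Finite G] (p : ℕ) [Fact p.Prime] (M : Ideal Cfsg.AlgInt) (hM : Cfsg.IsPModular p M) (B : Set (Cfsg.IrrCharacter G)) (hB : Cfsg.IsPBlock M B) (P : Subgroup G) [P.Normal] (hP : Cfsg.IsDefectGroup p M B P) : (∀ a ∈ P, ∀ c ∈ P, a * c = c * a) ↔ ∀ χ ∈ B, Cfsg.blockHeight p B (χ : G → ℂ) = 0 := by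
  haveI := hM.2.1; haveI : H9.PMod M p := ⟨hM⟩
  have hG := H9.subgroupOf_sup_centralizer (P := P) le_sup_left le_rfl
  have hPp := ((H9.isDefectGroup_iff hB).1 hP).isP
  have := Fintype.ofFinite (P ⊔ Subgroup.centralizer (P : Set G) : Subgroup G)
  refine ⟨fun h χ hχ => ?_, fun h a ha c hc => ?_⟩
  · obtain ⟨ψ, hψ, h1⟩ := H7.exists_irr_under (P ⊔ Subgroup.centralizer (P : Set G)).subtype χ.2
    obtain ⟨h2, h3⟩ := H9.height_of_normal hB hP hχ (ψ := ⟨ψ, hψ⟩) h1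
    obtain ⟨ζ, h4⟩ := (H9.height_eq_of_mul hG (H8.isPBlock_blockOf _) h2).1 _ (H8.mem_blockOf_self _)
    rw [h3, h4, H7.comm_iff_deg.1 (fun a b => Subtype.ext (Subtype.ext (h _ a.2 _ b.2))) _ ζ.2]
    simp
  · obtain ⟨χ, hχ⟩ := H8.block_nonempty hB
    obtain ⟨ψ, hψ, h1⟩ := H7.exists_irr_under (P ⊔ Subgroup.centralizer (P : Set G)).subtype χ.2
    have hb := H8.isPBlock_blockOf (M := M) ⟨ψ, hψ⟩
    have h2 := (H9.height_of_normal hB hP hχ (ψ := ⟨ψ, hψ⟩) h1).1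
    have key := (H7.comm_iff_deg (G := P.subgroupOf (P ⊔ Subgroup.centralizer (P : Set G)))).2
      (fun ζ hζ => ?_) ⟨⟨a, Subgroup.mem_sup_left ha⟩, ha⟩ ⟨⟨c, Subgroup.mem_sup_left hc⟩, hc⟩
    · exact congrArg (fun x => x.1.1) key
    obtain ⟨θ, hθ, h3⟩ := (H9.height_eq_of_mul hG hb h2).2 ⟨ζ, hζ⟩
    obtain ⟨χ', h4, h5⟩ := H9.exists_over_of_covers hB hb
      (H9.covers_of_constituent hB hχ (ψ := ⟨ψ, hψ⟩) (by rwa [← H7.ip_eq_classInner])) hθ
    have h6 := (H9.height_of_normal hB hP h4 (by rwa [H7.ip_eq_classInner])).2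
    rw [h χ' h4, ← H8.block_eq_blockOf hb hθ, h3] at h6
    obtain ⟨n, hn⟩ := (H18.isPGroup_subgroupOf (H := P ⊔ Subgroup.centralizer (P : Set G)) hPp).exists_card_eq
    obtain ⟨k, -, hk⟩ := (Nat.dvd_prime_pow Fact.out).1 (hn ▸ H8.charDegree_dvd_card ⟨ζ, hζ⟩)
    rw [hk, Nat.factorization_pow_self Fact.out] at h6
    exact hk.trans (by rw [← h6, pow_zero])

end Cfsg.Agent.S0972
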