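import Cfsg.Statements.S3053
import Mathlib
import Cfsg.Agent.H4.AG
import Cfsg.Agent.H3.Aut

set_option autoImplicit false
open Cfsg

namespace Cfsg.Agent.S3053

open Subgroup Cfsg.Agent.H18 Cfsg.Agent.H22 Cfsg.Agent.H4 in
open scoped commutatorElement in
theorem exists_conj {G : Type*} [Group G] [Finite G] {p : ℕ} [Fact p.Prime] {P : Subgroup G}
    (h1 : ⁅P, P⁆ ≤ C[P]) (h2 : Nat.card ↥(P ⊓ C[P]) = p) {y z : G} (hy : y ∈ P) (hn : y ∉ C[P])
    (hz : z ∈ P ⊓ C[P]) : ∃ u ∈ P, u * y * u⁻¹ = z * y := by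
  let K : Subgroup G :=
    { carrier := {z | z ∈ P ⊓ C[P] ∧ ∃ u ∈ P, u * y * u⁻¹ = z * y}
      one_mem' := ⟨one_mem _, 1, one_mem _, by simp⟩
      mul_mem' := by
        rintro a b ⟨ha, u, hu, e1⟩ ⟨hb, v, hv, e2⟩
        refine ⟨mul_mem ha hb, v * u, mul_mem hv hu, ?_⟩
        calc v * u * y * (v * u)⁻¹ = v * (u * y * u⁻¹) * v⁻¹ := by group
          _ = a * (v * y * v⁻¹) := by rw [e1, ← mul_assoc, mem_C.1 ha.2 v hv]; group
          _ = _ := by rw [e2, mul_assoc]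
      inv_mem' := by
        rintro a ⟨ha, u, hu, e1⟩
        refine ⟨inv_mem ha, u⁻¹, inv_mem hu, ?_⟩
        have : y = u⁻¹ * (a * y) * u := by rw [← e1]; group
        rw [eq_inv_mul_iff_mul_eq, inv_inv]
        conv_rhs => rw [this, ← mul_assoc, mem_C.1 ha.2 _ (inv_mem hu)]
        group }
  have hK : K ≤ P ⊓ C[P] := fun z hz => hz.1
  have h3 := card_dvd_of_le hK
  rw [h2, Nat.dvd_prime Fact.out] at h3
  rcases h3 with h3 | h3
  · refine absurd (mem_C.2 fun u hu => ?_) hn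
    have h4 : ⁅u, y⁆ ∈ K := ⟨⟨P.mul_mem (P.mul_mem (P.mul_mem hu hy) (P.inv_mem hu)) (P.inv_mem hy),
      h1 (commutator_mem_commutator hu hy)⟩, u, hu, by rw [commutatorElement_def]; group⟩
    rw [card_eq_one.1 h3, mem_bot] at h4
    exact commutatorElement_eq_one_iff_mul_comm.1 h4
  · exact ((eq_of_le_of_card_ge hK (by rw [h2, h3])).ge hz).2

/-- Let p be an odd prime and G a finite group with a Sylow p-subgroup P that is extraspecial of order p³ and exponent p². Then the centre of P is strongly closed in P with respect to G: a G-conjugate of an element of Z(P) that lies in P already lies in Z(P). In particular a nontrivial central element of P is conjugate in G to no noncentral element of P. -/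
theorem result {G : Type*} [Group G] [Finite G]
    {p : ℕ} [Fact p.Prime] (hp : p ≠ 2) (P : Sylow p G) (hE : Cfsg.IsExtraspecial p ↥P)
    (hcard : Nat.card P = p ^ 3) (hexp : Monoid.exponent ↥P = p ^ 2) :
    Cfsg.IsStronglyClosed ((Subgroup.center ↥P).map (P : Subgroup G).subtype) (P : Subgroup G) := by
  open Subgroup Cfsg.Agent.H18 Cfsg.Agent.H22 Cfsg.Agent.H4 in
  have hpp : p.Prime := Fact.out
  obtain ⟨⟨hPp, hΦ, hD⟩, hZ⟩ := hE
  have hSyl : SylIn p (P : Subgroup G) ⊤ := sylIn_top P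
  change Nat.card (center (P : Subgroup G)) = p at hZ
  change IsPGroup p (P : Subgroup G) at hPp
  change frattini (P : Subgroup G) = center (P : Subgroup G) at hΦ
  change _root_.commutator (P : Subgroup G) = center (P : Subgroup G) at hD
  change Monoid.exponent (P : Subgroup G) = _ at hexp
  change IsStronglyClosed ((center (P : Subgroup G)).map (P : Subgroup G).subtype) _
  generalize (P : Subgroup G) = S at *
  rw [card_center_eq] at hZ
  rw [H22.map_center_subtype]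
  have h1 : ⁅S, S⁆ ≤ C[S] := by
    have := congrArg (Subgroup.map S.subtype) hD
    rw [H22.map_center_subtype, map_subtype_commutator] at this
    exact this.le.trans inf_le_right
  have h2 : ∀ x ∈ S, x ^ p ∈ C[S] := by
    intro x hx
    have h3 : (⟨x, hx⟩ : S) ^ p ∈ center S := hΦ ▸ H3.pow_mem_frattini hPp _
    exact (H22.map_center_subtype S).le ⟨_, h3, rfl⟩ |>.2
  have hZp : ∀ z ∈ S ⊓ C[S], z ^ p = 1 := fun z hz => by
    have := pow_card_eq_one' (G := ↥(S ⊓ C[S])) (x := ⟨z, hz⟩)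
    rw [hZ] at this
    exact congrArg Subtype.val this
  refine ⟨inf_le_left, fun z hz g hg => ?_⟩
  by_contra hn
  have hn' : g * z * g⁻¹ ∉ C[S] := fun h => hn ⟨hg, h⟩
  have hz1 : z ≠ 1 := by rintro rfl; exact hn (by simp)
  set y := g * z * g⁻¹ with hy
  have hyp : y ^ p = 1 := by rw [hy, conj_pow, hZp z hz]; group
  have hzo : zpowers z = S ⊓ C[S] := eq_of_le_of_card_ge (zpowers_le.2 hz) (by
    rw [hZ, Nat.card_zpowers, orderOf_eq_prime (hZp z hz) hz1])
  set E := (S ⊓ C[S]) ⊔ zpowers y with hE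
  have hEe : IsElementaryAbelian p E := by
    rw [hE, ← hzo]
    exact H3.elemAb_sup_zpowers (H3.elemAb_zpowers (hZp z hz)) hyp (by
      change _ ∈ C[zpowers z]
      rw [C_zpowers]; exact mem_centralizer_singleton_iff.2 (mem_C.1 hz.2 y hg))
  have hEc : Nat.card E = p * p := by
    rw [hE, H3.card_sup_zpowers_of_elemAb hyp (C_anti inf_le_right (le_C_C S hg)) hn, hZ]
  have hES : E ≤ S := sup_le inf_le_left (zpowers_le.2 hg)
  have hEC : E ≤ C[E] := le_centralizer_self_of_comm hEe.1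
  have hyE : y ∈ E := mem_sup_right (mem_zpowers y)
  have hzE : z ∈ E := mem_sup_left hz
  have hCE : S ⊓ centralizer {y} = E := by
    refine (eq_of_le_of_card_ge (le_inf hES (hEC.trans ?_)) ?_).symm
    · rw [← C_zpowers]; exact C_anti le_sup_right
    · have h3 : S ⊓ centralizer {y} < S := lt_of_le_of_ne inf_le_left fun e => hn' (mem_C.2 fun s hs =>
        mem_centralizer_singleton_iff.1 (e.ge hs).2)
      have := pgrp_mul_card_le hSyl.isP h3
      rw [hcard] at this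
      rw [hEc]
      exact Nat.le_of_mul_le_mul_left (this.trans (by ring_nf; rfl)) hpp.pos
  -- a second Sylow subgroup containing `E`, with centre `⟨y⟩`
  have hT0 : SylIn p (cj g S) (centralizer {y}) := (sylIn_cj_mem hSyl (mem_top g)).mono (by
    rw [hy, ← cj_centralizer_singleton]
    exact cj_mono g fun s hs => mem_centralizer_singleton_iff.2 (mem_C.1 hz.2 s hs)) le_top
  obtain ⟨c, hc, hET⟩ := syl_exists_le_cj hT0 (hCE.ge.trans inf_le_right) (hSyl.isP.to_le hES)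
  rw [← cj_mul] at hET
  have hyc : c * g * z * (c * g)⁻¹ = y := by
    rw [← mem_C1.1 hc, hy]; group
  generalize c * g = k at hET hyc
  have hT1 : ⁅cj k S, cj k S⁆ ≤ C[cj k S] := by rw [← cj_commutator, ← cj_C]; exact cj_mono k h1
  have hT2 : Nat.card ↥(cj k S ⊓ C[cj k S]) = p := by rw [← cj_C, ← cj_inf, card_cj, hZ]
  have hT3 : cj k S ⊓ C[cj k S] = zpowers y := by rw [← cj_C, ← cj_inf, ← hzo, cj_zpowers, hyc]
  have hzT : z ∉ C[cj k S] := by
    intro h
    have h3 : zpowers z ≤ zpowers y := hT3 ▸ zpowers_le.2 ⟨hET hzE, h⟩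
    have h4 := eq_of_le_of_card_ge h3 (by rw [hzo, hZ, ← hT3, hT2])
    exact hn (hzo ▸ h4 ▸ mem_zpowers y)
  obtain ⟨u, hu, e1⟩ := exists_conj h1 hZ hg hn' hz
  obtain ⟨v, hv, e2⟩ := exists_conj hT1 hT2 (hET hzE) hzT (hT3.ge (inv_mem (mem_zpowers y)))
  have e3 : u * z * u⁻¹ = z := by rw [mem_C.1 hz.2 u hu]; group
  have e4 : v * y * v⁻¹ = y := by rw [mem_C.1 (hT3.ge (mem_zpowers y)).2 v hv]; group
  have hzy : z * y = y * z := (mem_C.1 hz.2 y hg).symm
  set w := u * v * u with hw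
  have e5 : w * z * w⁻¹ = y⁻¹ := by
    calc w * z * w⁻¹ = u * (v * (u * z * u⁻¹) * v⁻¹) * u⁻¹ := by rw [hw]; group
      _ = u * (y⁻¹ * z) * u⁻¹ := by rw [e3, e2]
      _ = (u * y * u⁻¹)⁻¹ * (u * z * u⁻¹) := by group
      _ = y⁻¹ := by rw [e1, e3]; group
  have e6 : w * y * w⁻¹ = z := by
    calc w * y * w⁻¹ = u * (v * (u * y * u⁻¹) * v⁻¹) * u⁻¹ := by rw [hw]; group
      _ = u * ((v * z * v⁻¹) * (v * y * v⁻¹)) * u⁻¹ := by rw [e1]; group
      _ = u * z * u⁻¹ := by rw [e2, e4, mul_assoc y⁻¹, hzy]; group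
      _ = z := e3
  set h := w * w with hh
  have e7 : h * z * h⁻¹ = z⁻¹ := by
    calc h * z * h⁻¹ = w * (w * z * w⁻¹) * w⁻¹ := by rw [hh]; group
      _ = (w * y * w⁻¹)⁻¹ := by rw [e5]; group
      _ = _ := by rw [e6]
  have e8 : h * y * h⁻¹ = y⁻¹ := by
    calc h * y * h⁻¹ = w * (w * y * w⁻¹) * w⁻¹ := by rw [hh]; group
      _ = _ := by rw [e6, e5]
  have hinv : ∀ e ∈ E, h * e * h⁻¹ = e⁻¹ := by
    intro e he
    rw [hE, ← hzo, zpowers_eq_closure, zpowers_eq_closure, ← Subgroup.closure_union] at he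
    induction he using closure_induction with
    | mem x hx => rcases hx with rfl | rfl <;> assumption
    | one => simp
    | mul a b ha hb h1 h2 =>
      have hab : a * b = b * a := by
        refine mem_C.1 (hEC ?_) a ?_ <;>
          rwa [hE, ← hzo, zpowers_eq_closure, zpowers_eq_closure, ← Subgroup.closure_union]
      calc h * (a * b) * h⁻¹ = (h * a * h⁻¹) * (h * b * h⁻¹) := by group
        _ = (b * a)⁻¹ := by rw [h1, h2, mul_inv_rev b]
        _ = _ := by rw [hab]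
    | inv a ha h1 =>
      calc h * a⁻¹ * h⁻¹ = (h * a * h⁻¹)⁻¹ := by group
        _ = _ := by rw [h1]
  have hSE : S ≤ N[E] := le_N_of_comm_le ((commutator_mono hES le_rfl).trans
    ((le_inf (comm_le_of_le_N le_normalizer) h1).trans le_sup_left))
  -- `h` centralizes `S C(E) / C(E)`
  have hcomm : ∀ x ∈ N[E], h * x * h⁻¹ * x⁻¹ ∈ C[E] := by
    intro x hx
    refine mem_C.2 fun e he => ?_
    have a1 := hinv _ (conj_mem_of_N' hx he)
    have a2 := hinv _ he
    have a3 : h⁻¹ * (x⁻¹ * e * x) * h = (x⁻¹ * e * x)⁻¹ := by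
      have := hinv _ (inv_mem (conj_mem_of_N' hx he))
      rw [inv_inv] at this
      calc _ = h⁻¹ * (h * (x⁻¹ * e * x)⁻¹ * h⁻¹) * h := by rw [this]
        _ = _ := by group
    have a4 : h * e⁻¹ * h⁻¹ = e := by rw [hinv _ (inv_mem he), inv_inv]
    symm
    calc h * x * h⁻¹ * x⁻¹ * e = h * x * (h⁻¹ * (x⁻¹ * e * x) * h) * h⁻¹ * x⁻¹ := by group
      _ = (h * e⁻¹ * h⁻¹) * (h * x * h⁻¹ * x⁻¹) := by rw [a3]; group
      _ = _ := by rw [a4]
  have hhE : h ∈ N[E] := mem_N_of_cj_le (cj_le_iff'.2 fun e he => by rw [hinv e he]; exact inv_mem he)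
  have hKN : S ⊔ C[E] ≤ N[E] := sup_le hSE (C_le_N E)
  have hhK : h ∈ N[S ⊔ C[E]] := mem_N_of_comm_mem fun r hr => mem_sup_right (hcomm r (hKN hr))
  obtain ⟨a, ha, n, hn2, e9⟩ := syl_frattini (hSyl.mono le_sup_left le_top) hhK
  obtain ⟨s, hs, d, hd, rfl⟩ := (mem_sup_of_le_N (le_N_C hSE)).1 ha
  obtain ⟨x, hx⟩ : ∃ x : S, x ^ p ≠ 1 := by
    by_contra hcon
    push Not at hcon
    have := Nat.le_of_dvd hpp.pos (Monoid.exponent_dvd_of_forall_pow_eq_one hcon)
    rw [hexp] at this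
    exact absurd this H3.p_lt_sq.not_ge
  have hx' : (x : G) ^ p ≠ 1 := fun e => hx (Subtype.ext e)
  have en : n = d⁻¹ * s⁻¹ * h := by rw [← e9]; group
  have hCN : N[E] ≤ N[C[E]] := N_le_N_C E
  have b1 : n * x * n⁻¹ * (x : G)⁻¹ ∈ E := by
    rw [← hCE]
    refine ⟨S.mul_mem (conj_mem_of_N hn2 x.2) (S.inv_mem x.2), ?_⟩
    rw [← C_zpowers]
    refine C_anti (le_sup_right : zpowers y ≤ E) ?_
    have : n * x * n⁻¹ * (x : G)⁻¹ = d⁻¹ * (s⁻¹ * (h * x * h⁻¹ * (x : G)⁻¹) * s) *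
        (s⁻¹ * x * s⁻¹⁻¹ * (x : G)⁻¹) * (x * d * (x : G)⁻¹) := by rw [en]; group
    rw [this]
    exact mul_mem (mul_mem (mul_mem (inv_mem hd) (conj_mem_of_N' (hCN (hSE hs)) (hcomm _ (hSE x.2))))
      (C_anti hES (h1 (commutator_mem_commutator (inv_mem hs) x.2))))
      (conj_mem_of_N (hCN (hSE x.2)) hd)
  have b2 := H3.mul_pow_of_critical h2 h1 (q := p) (hpp.dvd_choose_self two_ne_zero
    (lt_of_le_of_ne hpp.two_le (Ne.symm hp))) (hES b1) x.2
  rw [hEe.2 _ b1, one_mul, inv_mul_cancel_right, conj_pow] at b2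
  have b3 : (x : G) ^ p ∈ S ⊓ C[S] := ⟨pow_mem x.2 p, h2 _ x.2⟩
  have b4 := hinv _ (mem_sup_left b3)
  have b5 : ((x : G) ^ p)⁻¹ = x ^ p := by
    rw [← b4, ← e9]
    calc s * d * n * (x : G) ^ p * (s * d * n)⁻¹ = s * (d * (n * x ^ p * n⁻¹) * d⁻¹) * s⁻¹ := by group
      _ = _ := by
        rw [b2, ← mem_C.1 hd _ (mem_sup_left b3), mul_inv_cancel_right, mem_C.1 b3.2 s hs,
          mul_inv_cancel_right]
  have b6 : ((x : G) ^ p) ^ 2 = 1 := by rw [sq]; nth_rw 1 [← b5]; group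
  have b7 := orderOf_eq_prime (hZp _ b3) hx'
  exact hp ((Nat.prime_dvd_prime_iff_eq hpp Nat.prime_two).1 (b7 ▸ orderOf_dvd_of_pow_eq_one b6))

end Cfsg.Agent.S3053
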