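import Cfsg.Statements.S3968
import Mathlib
import Cfsg.Agent.H6.Central

set_option autoImplicit false
open Cfsg

namespace Cfsg.Agent.S3968

open Cfsg.Agent.H6
open scoped commutatorElement

/-- Let `p` be a prime and `G` a finite group with a faithful irreducible complex character of degree `p` (so `G` is an irreducible linear group in `p` variables). If `p ^ 2` divides the order of `G`, then the centre of `G` is nontrivial. -/
theorem result {G : Type*} [Group G] [Finite G] (p : ℕ) (hp : p.Prime) (χ : Cfsg.IrrCharacter G) (hdeg : χ.1 1 = p) (hfaith : ∀ g : G, χ.1 g = χ.1 1 → g = 1) (hdiv : p ^ 2 ∣ Nat.card G) : Subgroup.center G ≠ ⊥ := by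
  classical
  intro hZ
  have : Fact p.Prime := ⟨hp⟩
  have hχ := χ.2
  have hker : charKer χ.1 = ⊥ := by
    rw [eq_bot_iff]; intro g hg
    exact hfaith g (apply_eq_of_mem_charKer hg)
  have hcc : charCenter χ.1 = ⊥ := by rw [charCenter_eq_center hχ hker, hZ]
  obtain ⟨P⟩ : Nonempty (Sylow p G) := inferInstance
  have hP2 : p ^ 2 ∣ Nat.card (P : Subgroup G) := by
    rw [Sylow.card_eq_multiplicity]
    exact pow_dvd_pow _ ((hp.pow_dvd_iff_le_factorization Nat.card_pos.ne').1 hdiv)
  have hvan : ∀ z : (P : Subgroup G), z ∈ Subgroup.center (P : Subgroup G) → z ≠ 1 → χ.1 z = 0 := by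
    intro z hz h1
    have hle : (P : Subgroup G) ≤ Subgroup.centralizer ({(z : G)} : Set G) := by
      intro x hx
      rw [Subgroup.mem_centralizer_iff]
      rintro y rfl
      exact (congrArg Subtype.val (Subgroup.mem_center_iff.1 hz ⟨x, hx⟩)).symm
    have hc : p.Coprime (Subgroup.centralizer ({(z : G)} : Set G)).index :=
      (hp.coprime_iff_not_dvd).2 fun h => P.not_dvd_index (h.trans (Subgroup.index_dvd_of_le hle))
    rcases eq_zero_or_mem_charCenter_of_coprime hχ hdeg hc with h | h
    · exact h
    · rw [hcc, Subgroup.mem_bot] at h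
      exact absurd (Subtype.ext h) h1
  haveI : Fintype (P : Subgroup G) := Fintype.ofFinite _
  have hres := isCharacter_restrict (P : Subgroup G) (isCharacter_of_irr hχ)
  have hp1 : (1 : ℕ) < p := hp.one_lt
  by_cases hab : ∀ a b : (P : Subgroup G), a * b = b * a
  · obtain ⟨n, hn⟩ := classInner_nat hres (isCharacter_one (G := (P : Subgroup G)))
    rw [classInner_one_right, Finset.sum_eq_single (1 : (P : Subgroup G))] at hn
    · have h1 : ((Nat.card (P : Subgroup G) * n : ℕ) : ℂ) = (p : ℕ) := by
        have := card_ne_zero_complex (P : Subgroup G)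
        push_cast
        rw [← hn, ← mul_assoc, mul_inv_cancel₀ this, one_mul]
        simpa using hdeg
      have h2 : Nat.card (P : Subgroup G) * n = p := by exact_mod_cast h1
      have h3 : p ^ 2 ∣ p := hP2.trans ⟨n, h2.symm⟩
      have := Nat.le_of_dvd hp.pos h3
      nlinarith
    · intro b _ hb
      exact hvan b (Subgroup.mem_center_iff.2 fun g => hab g b) hb
    · simp
  · have hex : ∃ ψ, IsIrrCharacter (P : Subgroup G) ψ ∧
        classInner (fun x : (P : Subgroup G) => χ.1 x) ψ ≠ 0 ∧ ψ 1 ≠ 1 := by
      by_contra hne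
      push Not at hne
      apply hab
      intro a b
      have : ⁅a, b⁆ ∈ charKer (fun x : (P : Subgroup G) => χ.1 x) := by
        apply mem_charKer_of_forall_constituent (isClassFunction_of_isCharacter hres)
        intro ψ hψ h
        exact (degree_eq_one_iff_commutator_le hψ).1 (hne ψ hψ h)
          (Subgroup.commutator_mem_commutator (Subgroup.mem_top a) (Subgroup.mem_top b))
      rw [charKer_restrict _ (isCharacter_of_irr hχ), hker, Subgroup.mem_subgroupOf,
        Subgroup.mem_bot] at this
      exact commutatorElement_eq_one_iff_mul_comm.1 (Subtype.ext this)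
    obtain ⟨ψ, hψ, hin, h1⟩ := hex
    obtain ⟨d, hd0, hd⟩ := isIrr_degree hψ
    have hsub := isCharacter_sub_irr hres hψ hin
    obtain ⟨e, he⟩ := isCharacter_degree hsub
    have hde : d + e = p := by
      have : ((d + e : ℕ) : ℂ) = p := by
        push_cast
        rw [← hd, ← he]
        simp [hdeg]
      exact_mod_cast this
    have hdvd := degree_dvd_card hψ hd
    obtain ⟨k, hk⟩ := IsPGroup.iff_card.1 P.isPGroup'
    rw [hk] at hdvd
    obtain ⟨j, hj, rfl⟩ := (Nat.dvd_prime_pow hp).1 hdvd
    have hj0 : j ≠ 0 := by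
      rintro rfl
      exact h1 (by simpa using hd)
    have hpj : p ≤ p ^ j := Nat.le_self_pow hj0 p
    have he0 : e = 0 := by omega
    have hz := isCharacter_eq_zero_of_degree hsub (by rw [he, he0]; simp)
    have heq : (fun x : (P : Subgroup G) => χ.1 x) = ψ := sub_eq_zero.1 hz
    have : Nontrivial (P : Subgroup G) := by
      rw [← Finite.one_lt_card_iff_nontrivial]
      have := Nat.le_of_dvd Nat.card_pos hP2
      nlinarith
    have := P.isPGroup'.center_nontrivial
    obtain ⟨z, hz1⟩ := exists_ne (1 : Subgroup.center (P : Subgroup G))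
    have hz0 := hvan z.1 z.2 (fun h => hz1 (Subtype.ext h))
    have hm := center_le_charCenter hψ z.2
    rw [mem_charCenter_iff (isCharacter_of_irr hψ), ← heq] at hm
    simp only [hz0, norm_zero, OneMemClass.coe_one, hdeg] at hm
    have : (p : ℂ) = 0 := norm_eq_zero.1 hm.symm
    exact hp.ne_zero (by exact_mod_cast this)

end Cfsg.Agent.S3968
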