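import Cfsg.Statements.S0016
import Mathlib
import Cfsg.Agent.H8.Rank1

set_option autoImplicit false
open Cfsg

namespace Cfsg.Agent.S0016

/-- A finite p-group in which only one subgroup has order p is either cyclic or (with p = 2) isomorphic to a generalized quaternion group. -/
theorem result {G : Type*} [Group G] [Finite G] (p : ℕ) [Fact p.Prime]
    (hG : IsPGroup p G) (huniq : ∀ H K : Subgroup G, Nat.card H = p → Nat.card K = p → H = K) :
    IsCyclic G ∨ (p = 2 ∧ ∃ n : ℕ, Nonempty (G ≃* QuaternionGroup (2 ^ n))) := by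
  by_cases h2 : p = 2
  · subst h2
    refine (H8.cyclic_or_quaternion hG fun s t hs ht => ?_).imp_right fun ⟨n, e⟩ => ⟨rfl, _, e⟩
    have h1 := huniq (Subgroup.zpowers s) (Subgroup.zpowers t) (by rwa [Nat.card_zpowers])
      (by rwa [Nat.card_zpowers])
    obtain ⟨k, hk⟩ : s ∈ Subgroup.zpowers t := h1 ▸ Subgroup.mem_zpowers s
    simp only at hk
    have h3 : t ^ (2 : ℤ) = 1 := by rw [zpow_two, H20.mul_self_of_orderOf_two ht]
    rcases Int.even_or_odd' k with ⟨j, rfl | rfl⟩
    · rw [zpow_mul, h3, one_zpow] at hk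
      exact (H20.ne_one_of_orderOf_two hs hk.symm).elim
    · rw [zpow_add, zpow_mul, h3, one_zpow, one_mul, zpow_one] at hk
      exact hk.symm
  · left
    by_cases h0 : (⊤ : Subgroup G) = ⊥
    · exact H3.isCyclic_top_iff.1 (h0 ▸ inferInstance)
    obtain ⟨z, -, hz1, hz⟩ := H3.exists_order_p_mem hG h0
    refine H3.isCyclic_top_iff.1 (H3.isCyclic_of_forall_mem h2 (hG.to_subgroup ⊤)
      (H3.isCyclic_zpowers' z) fun x _ hx => ?_)
    by_cases hx1 : x = 1
    · exact hx1 ▸ one_mem _
    · exact huniq _ _ (H3.card_zpowers_of_pow_prime hx hx1) (H3.card_zpowers_of_pow_prime hz hz1) ▸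
        Subgroup.mem_zpowers x

end Cfsg.Agent.S0016
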