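import Cfsg.Statements.S0089
import Mathlib
import Cfsg.Agent.H4.Transfer2

set_option autoImplicit false
open Cfsg

namespace Cfsg.Agent.S0089

/-- When all Sylow subgroups are abelian, the derived subgroup meets the centre trivially. -/
theorem result {G : Type*} [Group G] [Finite G] (h : ∀ p : ℕ, p.Prime → ∀ P : Sylow p G, IsMulCommutative P) : commutator G ⊓ Subgroup.center G = ⊥ := by
  by_contra hne
  obtain ⟨p, hp, hd⟩ := Nat.exists_prime_and_dvd (fun h1 => hne (Subgroup.card_eq_one.mp h1))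
  have := Fact.mk hp
  obtain ⟨w, hw⟩ := exists_prime_orderOf_dvd_card' p hd
  rw [← Subgroup.orderOf_coe] at hw
  obtain ⟨P, hP⟩ := (H4.isPGroup_zpowers_of_orderOf (k := 1) (hw.trans (pow_one p).symm)).exists_le_sylow
  have h1 := H4.inf_commutator_inf_center_eq_bot (h p hp P) P.card_coprime_index
  have h2 : (w : G) ∈ (P : Subgroup G) ⊓ commutator G ⊓ Subgroup.center G :=
    ⟨⟨hP (Subgroup.mem_zpowers _), w.2.1⟩, w.2.2⟩
  rw [h1, Subgroup.mem_bot] at h2
  rw [h2, orderOf_one] at hw
  exact hp.one_lt.ne hw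

end Cfsg.Agent.S0089
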