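import Cfsg.Statements.S0200
import Mathlib
import Cfsg.Agent.H2.Zipper
import Cfsg.Agent.H20.SE

set_option autoImplicit false
open Cfsg

namespace Cfsg.Agent.S0200

open Cfsg.Agent.H20

/-- An involution lying in no normal 2-subgroup of a finite group inverts a nontrivial element of odd order (a consequence of the Baer–Suzuki Theorem). -/
theorem result {G : Type*} [Group G] [Finite G] (t : G) (ht : orderOf t = 2) (hO : ∀ N : Subgroup G, N.Normal → IsPGroup 2 N → t ∉ N) : ∃ h : G, h ≠ 1 ∧ Odd (orderOf h) ∧ t * h * t⁻¹ = h⁻¹ := by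
  by_contra hne
  push Not at hne
  have ht2 := mul_self_of_orderOf_two ht
  refine hO (pCore 2 G) inferInstance H2.pCore_isPGroup
    (H2.le_pCore_of_forall_isPGroup_sup_conj (Subgroup.zpowers t) (fun g => ?_)
      (Subgroup.mem_zpowers t))
  have hs2 : (g * t * g⁻¹) * (g * t * g⁻¹) = 1 :=
    mul_self_of_orderOf_two (by rw [orderOf_conj, ht])
  have e : Subgroup.zpowers t ⊔ H22.cj g (Subgroup.zpowers t) =
      Subgroup.closure {t, g * t * g⁻¹} := by
    rw [H22.cj_zpowers, Subgroup.zpowers_eq_closure, Subgroup.zpowers_eq_closure,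
      ← Subgroup.closure_union]
    rfl
  change IsPGroup 2 ↥(Subgroup.zpowers t ⊔ H22.cj g (Subgroup.zpowers t))
  rw [e]
  have hinv := inverts_mul_left ht2 hs2
  obtain ⟨k, m, hm, hkm⟩ := Nat.exists_eq_two_pow_mul_odd (orderOf_pos (t * (g * t * g⁻¹))).ne'
  have h1 : (t * (g * t * g⁻¹)) ^ 2 ^ k = 1 := by
    by_contra h
    refine hne _ h ?_ (conj_pow_of_inverts hinv _)
    apply hm.of_dvd_nat
    apply orderOf_dvd_of_pow_eq_one
    rw [← pow_mul, ← hkm, pow_orderOf_eq_one]
  rintro ⟨d, hd⟩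
  obtain ⟨n, rfl | rfl⟩ := (mem_closure_pair_iff ht2 hs2 d).mp hd
  · refine ⟨k, Subtype.ext ?_⟩
    simp only [SubgroupClass.coe_pow, OneMemClass.coe_one]
    rw [← zpow_natCast, ← zpow_mul, mul_comm n, zpow_mul, zpow_natCast, h1, one_zpow]
  · refine ⟨1, Subtype.ext ?_⟩
    simp only [SubgroupClass.coe_pow, OneMemClass.coe_one, pow_one]
    rw [pow_two]
    exact mul_zpow_mul_self ht2 hinv n

end Cfsg.Agent.S0200
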