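import Cfsg.Statements.S0336
import Mathlib
import Cfsg.Agent.H5.HS1

set_option autoImplicit false
open Cfsg

namespace Cfsg.Agent.S0336

open Subgroup Cfsg.Agent.H22 Cfsg.Agent.H5b
open Cfsg.Agent.H18 hiding cj mem_cj conj_mem_cj conj_mem_cj_iff cj_le_iff cj_cj cj_one cj_inv_cj
  cj_cj_inv cj_mono cj_inf cj_sup cj_eq_iff cj_eq_of_mem cj_eq_of_normal cj_top card_cj isPGroup_cj
open scoped commutatorElement

/-- A finite non-abelian simple group of order prime to `3` has the order of a Suzuki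
group `q²(q²+1)(q-1)`, `q = 2^(2m+1)`, `m ≥ 1` (stated with the order-level predicate `IsSuzuki`). -/
theorem result {G : Type*} [Group G] [Finite G] [IsSimpleGroup G]
    (hG : ∃ a b : G, a * b ≠ b * a) (h3 : ¬ 3 ∣ Nat.card G) : Cfsg.IsSuzuki G := by
  exact BS.isSuzuki_of_iso (H5c.three'_sz (fun h => let ⟨a, b, e⟩ := hG; e (h.is_comm.comm a b)) h3)

end Cfsg.Agent.S0336
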