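import Cfsg.Statements.S0462
import Cfsg.Agent.H15.HeSp

set_option autoImplicit false
open Cfsg

namespace Cfsg.Agent.S0462
open Cfsg.Agent.H15 Cfsg.Agent.H14

/-- The Held group exists as a transitive permutation group of degree 2058: simple of order 4030387200, with point stabiliser containing, with index 2, a copy of the 4-dimensional symplectic group over the field with four elements. -/
theorem result : ∃ H : Subgroup (Equiv.Perm (Fin 2058)), Cfsg.IsHe H ∧ MulAction.IsPretransitive H (Fin 2058) ∧ ∃ (F : Type) (_ : Field F) (_ : Fintype F), Fintype.card F = 4 ∧ ∃ N : Subgroup (MulAction.stabilizer H (0 : Fin 2058)), N.index = 2 ∧ Nonempty (N ≃* Matrix.symplecticGroup (Fin 2) F) := by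
  have := He.simple
  let e := MonoidHom.ofInjective He.φ_inj
  obtain ⟨N, a, ⟨b⟩⟩ := HeSp.main
  have h : (gp He.E He.hs).map e.toMonoidHom = MulAction.stabilizer He.φ.range (0 : Fin 2058) := by
    rw [He.stab0.1]
    ext g
    obtain ⟨g, rfl⟩ := e.surjective g
    exact Subgroup.mem_map_iff_mem e.injective
  let f := ((gp He.E He.hs).equivMapOfInjective _ e.injective).trans (MulEquiv.subgroupCongr h)
  refine ⟨He.φ.range, ⟨e.symm.isSimpleGroup, (Nat.card_congr e.symm.toEquiv).trans He.card⟩, ⟨fun x y => ?_⟩,
    F4, inferInstance, inferInstance, F4.card, N.map f.toMonoidHom, (Subgroup.index_map_equiv N f).trans a,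
    ⟨(N.equivMapOfInjective _ f.injective).symm.trans b⟩⟩
  obtain ⟨g, hg⟩ := (He.A0.isPretransitive He.pok.full He.trans0).exists_smul_eq x y
  exact ⟨e g, hg⟩

end Cfsg.Agent.S0462
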