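import Cfsg.Statements.S0463
import Cfsg.Agent.H15.Hn.G
-- import your own Cfsg.Agent.* helpers here

set_option autoImplicit false
open Cfsg

namespace Cfsg.Agent.S0463
open Cfsg.Agent.H15 Cfsg.Agent.H14

/-- The Harada–Norton group exists as a transitive permutation group of degree 1140000: simple of order 273030912000000 with point stabiliser isomorphic to the alternating group of degree 12. -/
theorem result : ∃ H : Subgroup (Equiv.Perm (Fin 1140000)), Cfsg.IsHN H ∧ MulAction.IsPretransitive H (Fin 1140000) ∧ Nonempty (MulAction.stabilizer H (0 : Fin 1140000) ≃* alternatingGroup (Fin 12)) := by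
  have := Hn.simple
  obtain ⟨f, h1, h2⟩ := Hn.al
  obtain ⟨H, ⟨e⟩, h⟩ := real_of_sub (n := 1140000) Hn.ψ_inj Hn.all h1 h2 (by norm_num) (by rw [Hn.fin.2.1, Alt12.card])
  exact ⟨H, ⟨e.symm.isSimpleGroup, (Nat.card_congr e.symm.toEquiv).trans Hn.fin.2.1⟩, h⟩

end Cfsg.Agent.S0463
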