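import Cfsg.Statements.S0477
import Cfsg.Agent.H15.Ly.Z
-- import your own Cfsg.Agent.* helpers here

set_option autoImplicit false
open Cfsg

namespace Cfsg.Agent.S0477
open Cfsg.Agent.H15 Cfsg.Agent.H14

/-- In some simple group of the Lyons group's order there is an element of order 3 whose centraliser has centre of order 3 with quotient by the centre simple of order 898128000 (a triple cover of a group of McLaughlin's order). -/
theorem result : ∃ (G : Type) (_ : Group G) (_ : Finite G), Cfsg.IsLy G ∧ ∃ x : G, orderOf x = 3 ∧ Nat.card (Subgroup.center (Subgroup.centralizer ({x} : Set G))) = 3 ∧ Cfsg.IsMcL ((Subgroup.centralizer ({x} : Set G)) ⧸ Subgroup.center (Subgroup.centralizer ({x} : Set G))) := by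
  have := McP.simple
  obtain ⟨h1, ⟨e⟩⟩ := cen_cover Ly.ψ_inj Ly.mcl Ly.mce Ly.mc Ly.cenM
    (center_eq_bot_of_simple (by rw [McP.card]; norm_num))
  exact ⟨Ly.G, inferInstance, inferInstance, Ly.isLy, _, (orderOf_injective _ Ly.fin.2.2.2.2.1 _).trans Ly.mco.2,
    h1.trans Ly.mco.1, e.isSimpleGroup, (Nat.card_congr e.toEquiv).trans McP.card⟩

end Cfsg.Agent.S0477
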