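import Cfsg.Statements.S0514
import Mathlib
import Cfsg.Agent.H4.Cyc2

set_option autoImplicit false
open Cfsg

namespace Cfsg.Agent.S0514

/-- In a finite group whose Sylow 2-subgroups are dihedral of order at least 4, the centralizer of any involution has a
normal subgroup of odd order whose index in the centralizer is a power of 2. -/
theorem result {X : Type*} [Group X] [Finite X]
    (S : Sylow 2 X) (n : ℕ) (hn : 2 ≤ n) (hS : Nonempty ((S : Subgroup X) ≃* DihedralGroup n)) (t : X)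
    (ht : orderOf t = 2) :
    ∃ N : Subgroup (Subgroup.centralizer ({t} : Set X)), N.Normal ∧ Odd (Nat.card N) ∧ ∃ k : ℕ, N.index = 2 ^ k := by
  open Subgroup Cfsg.Agent.H22 Cfsg.Agent.H4 in
  obtain ⟨e⟩ := hS
  obtain ⟨a, ha, hi, hd⟩ := exists_dih hn e
  have key : HasNormalPComplement 2 (centralizer ({t} : Set X)) := by
    refine hasNPC_iff_forall_isPGroup.2 fun Q hQ _ g hg ho => ?_
    have hQ' : IsPGroup 2 (Q.map (centralizer ({t} : Set X)).subtype) := hQ.map _
    have ht2 : t ^ 2 = 1 := by rw [← ht, pow_orderOf_eq_one]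
    have h1 : IsPGroup 2 ↥(Q.map (centralizer ({t} : Set X)).subtype ⊔ zpowers t) :=
      pgrp_sup hQ' (pgrp_zpowers (k := 1) ht2) ((map_subtype_le _).trans (C_zpowers t ▸ C_le_N _))
    obtain ⟨y, -, hy⟩ := syl_exists_cj_le (H18.sylIn_top S) le_top h1
    have hgt : (g : X) * t * (g : X)⁻¹ = t := mem_C1.1 g.2
    have h2 : (g : X) ∈ N[Q.map (centralizer ({t} : Set X)).subtype ⊔ zpowers t] :=
      mem_N_sup (map_N_le _ _ ⟨g, hg, rfl⟩) (mem_N_iff_cj.2 (by rw [cj_zpowers, hgt]))
    have ho' : (orderOf (y * g * y⁻¹)).Coprime 2 := by rwa [orderOf_conj', orderOf_coe]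
    have h3 : (g : X) ∈ C[Q.map (centralizer ({t} : Set X)).subtype ⊔ zpowers t] := by
      by_contra hc
      obtain ⟨u, h4, h5, -, h6⟩ := cyc2' S.isPGroup' (a := a) hi.dvd hy (g := y * g * y⁻¹)
        (by rw [← cj_N]; exact conj_mem_cj h2) ho' (by rwa [← cj_C, conj_mem_cj_iff])
      have := h6.fix ho' (h6.sq.symm.trans (hd _ (hy h6.v_mem) h5))
        (conj_mem_cj (mem_sup_right (mem_zpowers t))) (by
          calc _ = y * ((g : X) * t * (g : X)⁻¹) * y⁻¹ := by group
            _ = _ := by rw [hgt])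
      exact ne_one_of_orderOf_eq ht (conj_eq_one_iff.1 this)
    exact mem_C.2 fun x hx => Subtype.ext (mem_C.1 h3 x (mem_sup_left ⟨x, hx, rfl⟩))
  exact ⟨pResidual 2 _, inferInstance, Nat.coprime_two_right.1 (hasNPC_iff_pResidual.1 key),
    IsPGroup.iff_card.1 (isPGroup_quotient_pResidual 2)⟩

end Cfsg.Agent.S0514
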