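import Cfsg.Statements.S0722
import Mathlib
import Cfsg.Agent.H16.Prim

set_option autoImplicit false
open Cfsg

namespace Cfsg.Agent.S0722

/-- In a primitive group `H`, with `N` a minimal normal subgroup and `K` a point stabiliser, `K ⊓ N` is maximal among proper `K`-invariant subgroups of `N`. -/
theorem result {α : Type*} [Finite α] (H : Subgroup (Equiv.Perm α)) [MulAction.IsPreprimitive H α] (N : Subgroup H) [N.Normal] (hN : N ≠ ⊥) (hmin : ∀ M : Subgroup H, M.Normal → M ≤ N → M = ⊥ ∨ M = N) (a : α) (X : Subgroup H) (hX : X ≤ N) (hKX : MulAction.stabilizer H a ⊓ N ≤ X) (hinv : MulAction.stabilizer H a ≤ Subgroup.normalizer (X : Set H)) : X = MulAction.stabilizer H a ⊓ N ∨ X = N := by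
  have ht : MulAction.IsPretransitive N α := H16.normal_trans N hN
  have : Nontrivial α := by
    by_contra hn
    rw [not_nontrivial_iff_subsingleton] at hn
    exact hN (Subsingleton.elim _ _)
  have hc := MulAction.IsPreprimitive.isCoatom_stabilizer_of_isPreprimitive H a
  by_cases hXK : X ≤ MulAction.stabilizer H a
  · left; exact le_antisymm (le_inf hXK hX) hKX
  · right
    have h1 : MulAction.stabilizer H a ⊔ X = ⊤ := hc.2 _ (left_lt_sup.2 hXK)
    have h2 : Subgroup.normalizer (X : Set H) = ⊤ := by
      rw [eq_top_iff, ← h1]; exact sup_le hinv Subgroup.le_normalizer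
    have h3 : X.Normal := Subgroup.normalizer_eq_top_iff.1 h2
    refine (hmin X h3 hX).resolve_left ?_
    rintro rfl
    exact hXK bot_le

end Cfsg.Agent.S0722
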