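import Cfsg.Statements.S0775
import Mathlib
import Cfsg.Agent.H10.Geo1

set_option autoImplicit false
open Cfsg

namespace Cfsg.Agent.S0775

/-- Maximal parabolics of the symplectic group: if W is a k-dimensional subspace of F^(2m) on which the symplectic form vanishes identically, its stabiliser in Sp_2m(q) has order q^(k(k+1)/2 + 2k(m−k)) · |Sp_(2m−2k)(q)| · |GL_k(q)|. -/
theorem result {F : Type*} [Field F] [Fintype F] {q : ℕ} (hF : Fintype.card F = q) (m k : ℕ) (hk : k ≤ m) (W : Submodule F (Fin m ⊕ Fin m → F)) (hWk : Module.finrank F W = k) (hW : ∀ u ∈ W, ∀ v ∈ W, Cfsg.sympForm m F u v = 0) : Nat.card ↥(Cfsg.stabilizing (Cfsg.spToMat m F) (W : Set (Fin m ⊕ Fin m → F))) = q ^ (k * (k + 1) / 2 + 2 * k * (m - k)) * (q ^ ((m - k) ^ 2) * ∏ i ∈ Finset.range (m - k), (q ^ (2 * (i + 1)) - 1)) * ∏ i : Fin k, (q ^ k - q ^ (i : ℕ)) := by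
  have h := H11.isForm_alt (H10.spBilin_isAlt (l := Fin m) (F := F))
  have hB := (H10.spBilin_nondegenerate (l := Fin m) (F := F)).1
  have ts : H11.TotSing (σ := RingHom.id F) (H10.spBilin (Fin m) F) (fun _ => 0) W :=
    ⟨fun _ _ => rfl, fun u hu v hv => by rw [← H10.sympForm_eq_spBilin]; exact hW u hu v hv⟩
  obtain ⟨e, f, hs, rfl⟩ := h.exists_hypSys_of_totSing hB ts hWk
  have hd := hs.finrank_perp h hB
  rw [H10.finrank_sp_space, Fintype.card_fin, Fintype.card_fin] at hd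
  obtain ⟨e2⟩ := H10.nonempty_isom_restrict H10.spBilin_isAlt
    (h.nondegOn_perp hB (hs.nondegOn h)) (k := m - k) (by omega)
  rw [H10.stabilizing_sp_eq, Nat.card_congr (H10.comapEquiv _ _).toEquiv,
    h.card_stabSub_hypSys hB hs, ← Nat.card_congr e2.toEquiv, H10.card_sp, H10.finrank_sp_space]
  have h1 : Nat.card (0 : F →+ F).ker = q := by
    rw [← hF, ← Nat.card_eq_fintype_card, AddMonoidHom.ker_zero]; simp
  rw [h1, Nat.card_eq_fintype_card, hF, Fintype.card_fin, mul_comm, ← pow_add]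
  congr 3
  have h2 : k * (k + 1) / 2 = k + k * (k - 1) / 2 := by
    rcases k with _ | k
    · rfl
    · rw [show (k + 1) * (k + 1 + 1) = (k + 1) * k + 2 * (k + 1) by ring, Nat.add_mul_div_left _ _ two_pos]
      simp [add_comm]
  rw [h2, ← Nat.mul_sub, add_assoc, add_comm (k * (k - 1) / 2)]
  congr 2; ring

end Cfsg.Agent.S0775
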