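import Cfsg.Statements.S0983
import Cfsg.Agent.S0976
import Cfsg.Agent.S0977
import Cfsg.Agent.S0980
import Cfsg.Agent.H20.TB0
-- import your own Cfsg.Agent.* helpers here

set_option autoImplicit false
open Cfsg

namespace Cfsg.Agent.S0983

open Subgroup H20

theorem range2 : (List.range' 3641 2592).all (fun n => H23.Sv.kill n ||
    [4032, 4080, 4320, 5400, 5616, 5760, 6048, 6072].contains n) = true := by decide +kernel

theorem sylow_count {G : Type*} [Group G] [Finite G] {p : ℕ} [Fact p.Prime] {P R Q : Sylow p G}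
    (hne : P ≠ R) {H L : Subgroup G} (hP : P ≤ H) (hR : R ≤ H) (hQ : Q ≤ H) (hL : L ≤ H)
    (hN : L ≤ normalizer (Q : Set G)) : ∃ k, k ≡ 1 [MOD p] ∧ k ≠ 1 ∧ k * Nat.card L ∣ Nat.card H := by
  refine ⟨_, card_sylow_modEq_one p H, fun e1 => ?_, ?_⟩
  · have := (Nat.card_eq_one_iff_unique.1 e1).1
    exact hne (Sylow.subtype_injective (Subsingleton.elim (P.subtype hP) (R.subtype hR)))
  · rw [(Q.subtype hQ).card_eq_index_normalizer,
      ← (normalizer ((Q.subtype hQ : Subgroup H) : Set H)).index_mul_card,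
      ← Nat.card_congr (subgroupOfEquivOfLe hL).toEquiv]
    refine Nat.mul_dvd_mul_left _ (card_dvd_of_le fun g hg => ?_)
    rw [mem_normalizer_iff]
    exact fun h => (mem_normalizer_iff.1 (hN hg)) h

theorem ne_5400 {G : Type*} [Group G] [Finite G] [IsSimpleGroup G] : Nat.card G ≠ 5400 := by
  intro e
  have hG := simple_not_comm_of_not_prime (G := G) (by rw [e]; norm_num)
  have : Fact (Nat.Prime 5) := ⟨by norm_num⟩
  have idx : ∀ H : Subgroup G, H ≠ ⊤ → 10 ≤ H.index := fun H hH => by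
    by_contra hh
    have := (simple_two_mul_card_dvd_factorial hG hH).trans
      (Nat.factorial_dvd_factorial (show H.index ≤ 9 by omega))
    rw [e] at this
    revert this; decide
  have c25 : ∀ P : Sylow 5 G, Nat.card P = 5 ^ 2 := fun P => by
    rw [P.card_eq_multiplicity, e, show 5400 = 5 ^ 2 * 216 from rfl,
      Nat.factorization_mul (by norm_num) (by norm_num), Finsupp.add_apply,
      Nat.factorization_eq_zero_of_not_dvd (n := 216) (by norm_num),
      Nat.Prime.factorization_pow this.out]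
    simp
  have cm : ∀ P : Sylow 5 G, ∀ a ∈ (P : Subgroup G), (P : Subgroup G) ≤ centralizer {a} :=
    fun P a ha b hb => by
    let _ := IsPGroup.commGroupOfCardEqPrimeSq (c25 P)
    exact mem_centralizer_singleton_iff.2 (congrArg Subtype.val (mul_comm (⟨b, hb⟩ : P) ⟨a, ha⟩))
  obtain ⟨P⟩ := Sylow.nonempty (p := 5) (G := G)
  obtain ⟨R, hne, hR⟩ := exists_sylow_index_le 5 2 (fun h => by
    have h1 := P.card_dvd_index
    have h2 := (P : Subgroup G).card_mul_index
    have h3 := idx _ (simple_sylow_normalizer_ne_top hG P (by rw [e]; norm_num))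
    rw [← P.card_eq_index_normalizer] at h3
    rw [c25, e] at h2
    rw [show (P : Subgroup G).index = 216 by omega] at h1
    have h4 := Nat.le_of_dvd (by norm_num) h1
    unfold Nat.ModEq at h
    generalize Nat.card (Sylow 5 G) = k at *
    obtain ⟨j, rfl⟩ : ∃ j, k = 25 * j + 1 := ⟨k / 25, by omega⟩
    have : j < 9 := by omega
    interval_cases j <;> omega) P
  obtain ⟨d, hd⟩ : ∃ d ∈ (R : Subgroup G) ⊓ P, d ≠ 1 := by
    by_contra! hh
    have : (R : Subgroup G).subgroupOf P = ⊥ := eq_bot_iff.2 fun x hx =>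
      Subtype.ext (hh x ⟨hx, x.2⟩)
    rw [this, index_bot, c25] at hR
    omega
  obtain ⟨⟨hdR, hdP⟩, hd1⟩ := hd
  have hd5 : orderOf d = 5 := by
    obtain ⟨i, hi, h1⟩ := (Nat.dvd_prime_pow this.out).1 (c25 P ▸ orderOf_dvd_natCard _ hdP)
    interval_cases i
    · exact absurd (orderOf_eq_one_iff.1 h1) hd1
    · exact h1
    · have a : ∀ S : Sylow 5 G, d ∈ (S : Subgroup G) → zpowers d = S := fun S hS =>
        eq_of_le_of_card_ge (zpowers_le.2 hS) (by rw [c25, Nat.card_zpowers, h1])
      exact absurd (Sylow.ext ((a P hdP).symm.trans (a R hdR))) hne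
  set C := centralizer ({d} : Set G) with hC
  have hC1 : C ≠ ⊤ := simple_cent_ne_top hG hd1
  have hPC : (P : Subgroup G) ≤ C := cm P d hdP
  have hRC : (R : Subgroup G) ≤ C := cm R d hdR
  have hi := C.card_mul_index
  have hi' := idx C hC1
  have c300 : Nat.card C = 300 := by
    obtain ⟨k, k1, k2, k3⟩ := sylow_count hne hPC hRC hPC hPC le_normalizer
    rw [c25] at k3
    rw [e] at hi
    have h1 : Nat.card C ≤ 540 := by nlinarith
    have h2 := Nat.le_of_dvd Nat.card_pos k3
    have h3 : k * 5 ^ 2 ∣ 216 * 5 ^ 2 := k3.trans (Dvd.intro _ hi)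
    have h4 := Nat.dvd_of_mul_dvd_mul_right (by norm_num) h3
    obtain rfl : k = 6 := by
      unfold Nat.ModEq at k1
      have : k ≤ 21 := by omega
      interval_cases k <;> omega
    by_contra h5
    obtain ⟨T⟩ := Sylow.nonempty (p := 2) (G := C)
    obtain ⟨H, hH⟩ := exists_index_two_of_cyclic_sylow (even_iff_two_dvd.2 (by omega)) T
      (isCyclic_of_prime_card (H24.D1.card_sylow_eq (by omega) (by omega) T))
    have a : ∀ S : Sylow 5 G, (S : Subgroup G) ≤ C → (S : Subgroup G) ≤ H.map C.subtype :=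
      fun S hS x hx => by
      have h6 : x ^ 25 = 1 := orderOf_dvd_iff_pow_eq_one.1
        ((orderOf_dvd_natCard _ hx).trans (c25 S).dvd)
      refine ⟨_, sq_mem_of_index_two hH (⟨x, hS hx⟩ ^ 13), ?_⟩
      rw [← pow_mul, map_pow, show 13 * 2 = 25 + 1 from rfl, pow_succ]
      simp [h6]
    obtain ⟨k, k1, k2, k4⟩ := sylow_count hne (a P hPC) (a R hRC) (a P hPC) (a P hPC) le_normalizer
    have h7 := H.card_mul_index
    rw [card_map_of_injective C.subtype_injective, c25] at k4
    have h8 : k * 5 ^ 2 ∣ 9 * 5 ^ 2 := k4.trans (by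
      rw [hH] at h7
      rcases (by omega : Nat.card H = 75 ∨ Nat.card H = 225) with h | h <;> rw [h] <;> norm_num)
    have h9 := Nat.dvd_of_mul_dvd_mul_right (by norm_num) h8
    have := Nat.le_of_dvd (by norm_num) h9
    unfold Nat.ModEq at k1
    interval_cases k <;> omega
  have i18 : C.index = 18 := by rw [c300, e] at hi; omega
  have hmax : ∀ H : Subgroup G, C ≤ H → H ≠ ⊤ → H ≤ C := fun H h1 h2 => by
    have a := relIndex_mul_index h1
    have b := idx H h2
    rw [i18] at a
    rw [← relIndex_eq_one]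
    generalize C.relIndex H = r at a
    have : r < 2 := by nlinarith
    interval_cases r <;> omega
  have hdC : d ∈ C := mem_centralizer_singleton_iff.2 rfl
  have hzC : zpowers d ≤ C := zpowers_le.2 hdC
  have zc : ∀ a ∈ zpowers d, ∀ c ∈ C, a * c = c * a := fun a ha c hc =>
    H24.D1.comm_of_zp ha hc
  have hX : (cls ⊤ d).ncard = 18 := by rw [ncard_cls, relIndex_top_right, i18]
  have f1 : ∀ a ∈ zpowers d, ∀ y ∉ C, a * y = y * a → a = 1 := fun a ha y hy h => by
    by_contra h1
    have : zpowers d = zpowers a := le_antisymm (zpowers_le.2 (mem_zpowers_of_prime_card (G := zpowers d) (g := ⟨a, ha⟩) (g' := ⟨d, mem_zpowers d⟩) (by rw [Nat.card_zpowers, hd5]) (fun e => h1 (congrArg Subtype.val e)) |> fun ⟨k, hk⟩ => ⟨k, congrArg Subtype.val hk⟩)) (zpowers_le.2 ha)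
    exact hy (mem_centralizer_singleton_iff.2 (H24.D1.comm_of_zp (this ▸ mem_zpowers d)
      (mem_centralizer_singleton_iff.2 h.symm)).symm)
  have cC : ∀ c ∈ C, ∀ y, c * y * c⁻¹ ∈ C → y ∈ C := fun c hc y h => by
    simpa [mul_assoc] using C.mul_mem (C.mul_mem (C.inv_mem hc) h) hc
  have h5 := card_dvd_ncard (zpowers d) (cls ⊤ d \ C) (fun a ha y hy =>
    ⟨conj_mem_cls trivial hy.1, fun h => hy.2 (cC a (hzC ha) y h)⟩) fun a ha y hy => f1 a ha y hy.2
  obtain ⟨t, ht⟩ := exists_prime_orderOf_dvd_card' (G := C) 3 (by rw [c300]; norm_num)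
  have h3 := card_dvd_ncard (zpowers (t : G)) ((cls ⊤ d ∩ C) \ {d}) (fun a ha y hy => by
    have haC := zpowers_le.2 t.2 ha
    refine ⟨⟨conj_mem_cls trivial hy.1.1, C.mul_mem (C.mul_mem haC hy.1.2) (C.inv_mem haC)⟩,
      fun h => hy.2 ?_⟩
    have := mem_centralizer_singleton_iff.1 haC
    rw [Set.mem_singleton_iff, mul_inv_eq_iff_eq_mul, ← this] at h
    exact mul_left_cancel h) fun a ha y hy h => by
    by_contra h1
    obtain ⟨⟨⟨g, -, hg⟩, hyC⟩, hyd⟩ := hy
    have haC := zpowers_le.2 t.2 ha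
    have y5 : orderOf y = 5 := by
      rw [← hg, show g * d * g⁻¹ = MulAut.conj g d from rfl, MulEquiv.orderOf_eq, hd5]
    have hy' : y ∉ zpowers d := fun hh => by
      have h2 := hmax (normalizer (zpowers d : Set G)) (H24.D1.CC_le_NN d)
        (simple_normalizer_ne_top (by simpa using hd1) fun e => hC1 (top_le_iff.1 (e ▸ hzC)))
      have : g ∈ normalizer (zpowers d : Set G) := mem_normalizer_fintype fun n ⟨k, hk⟩ => by
        rw [← hk, ← conj_zpow, hg]; exact zpow_mem hh k
      apply hyd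
      rw [← hg, mem_centralizer_singleton_iff.1 (h2 this)]; simp
    have hp : IsPGroup 5 (zpowers y ⊔ zpowers d : Subgroup G) := IsPGroup.to_sup_of_normal_right'
      (IsPGroup.of_card (n := 1) (by rw [Nat.card_zpowers, y5, pow_one]))
      (IsPGroup.of_card (n := 1) (by rw [Nat.card_zpowers, hd5, pow_one]))
      (zpowers_le.2 (H24.D1.CC_le_NN d hyC))
    obtain ⟨Q, hQ⟩ := hp.exists_le_sylow
    have hE : zpowers y ⊔ zpowers d = Q := eq_of_le_of_card_ge hQ (by
      obtain ⟨i, hi, h2⟩ := (Nat.dvd_prime_pow this.out).1 (c25 Q ▸ card_dvd_of_le hQ)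
      rw [c25, h2]
      refine Nat.pow_le_pow_right (by norm_num) (not_lt.1 fun hh => hy' ?_)
      rw [eq_of_le_of_card_ge (le_sup_right : zpowers d ≤ zpowers y ⊔ zpowers d) (by
        rw [h2, Nat.card_zpowers, hd5]
        exact (Nat.pow_le_pow_right (by norm_num) (Nat.le_of_lt_succ hh)))]
      exact mem_sup_left (mem_zpowers y))
    have hQC : (Q : Subgroup G) ≤ C := hE ▸ sup_le (zpowers_le.2 hyC) hzC
    have haQ : a ∈ centralizer ((Q : Subgroup G) : Set G) := fun x hx => by
      have : zpowers y ⊔ zpowers d ≤ centralizer {a} := sup_le (zpowers_le.2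
        (mem_centralizer_singleton_iff.2 h.symm)) (zpowers_le.2
        (mem_centralizer_singleton_iff.2 (mem_centralizer_singleton_iff.1 haC).symm))
      exact mem_centralizer_singleton_iff.1 (this (hE ▸ hx))
    obtain ⟨k, k1, k2, k3⟩ := sylow_count (L := (Q : Subgroup G) ⊔ zpowers a) hne hPC hRC hQC
      (sup_le hQC (zpowers_le.2 haC))
      (sup_le le_normalizer (zpowers_le.2 (centralizer_le_normalizer _ haQ)))
    have a1 := card_dvd_of_le (le_sup_left : (Q : Subgroup G) ≤ (Q : Subgroup G) ⊔ zpowers a)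
    have a2 := card_dvd_of_le (le_sup_right : zpowers a ≤ (Q : Subgroup G) ⊔ zpowers a)
    have a3 : orderOf a = 3 := ((Nat.dvd_prime Nat.prime_three).1 (by
      rw [← ht, ← orderOf_coe]; exact orderOf_dvd_of_mem_zpowers ha)).resolve_left
        (mt orderOf_eq_one_iff.1 h1)
    rw [c25] at a1
    rw [Nat.card_zpowers, a3] at a2
    rw [c300] at k3
    have a4 : k * 75 ∣ 4 * 75 := (Nat.mul_dvd_mul_left k (by omega)).trans k3
    have a5 := Nat.le_of_dvd (by norm_num) (Nat.dvd_of_mul_dvd_mul_right (by norm_num) a4)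
    have a6 : k ≠ 0 := by rintro rfl; simp at k3
    unfold Nat.ModEq at k1
    omega
  rw [Nat.card_zpowers, hd5] at h5
  rw [Nat.card_zpowers, orderOf_coe, ht] at h3
  have s1 := Set.ncard_inter_add_ncard_sdiff_eq_ncard (cls ⊤ d) C
  have s2 := Set.ncard_sdiff_singleton_add_one (s := cls ⊤ d ∩ C) ⟨self_mem_cls _ d, hdC⟩
  have z5 : (cls ⊤ d \ C).ncard = 5 := by omega
  obtain ⟨y, hy⟩ := Set.nonempty_of_ncard_ne_zero (s := cls ⊤ d \ C) (by omega)
  have s3 : (cls C y).ncard ≤ 5 := z5 ▸ Set.ncard_le_ncard (by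
    rintro _ ⟨c, hc, rfl⟩
    exact ⟨conj_mem_cls trivial hy.1, fun h => hy.2 (cC c hc y h)⟩)
  have s4 := card_mul_ncard_cls (zpowers d) y
  rw [show centralizer {y} ⊓ zpowers d = ⊥ from eq_bot_iff.2 fun a ha =>
    f1 a ha.2 y hy.2 (mem_centralizer_singleton_iff.1 ha.1), card_bot, one_mul, Nat.card_zpowers,
    hd5] at s4
  have s5 : cls (zpowers d) y = cls C y := Set.eq_of_subset_of_ncard_le
    (fun _ ⟨a, ha, h⟩ => ⟨a, hzC ha, h⟩) (s4 ▸ s3)
  have s6 := card_mul_ncard_cls C y
  set K := centralizer {y} ⊓ C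
  refine hy.2 (hmax (normalizer (K : Set G)) (fun c hc => ?_) (simple_normalizer_ne_top
    (fun e => ?_) fun e => hC1 (top_le_iff.1 (e ▸ inf_le_right))) (centralizer_le_normalizer _
      fun k hk => mem_centralizer_singleton_iff.1 hk.1))
  · obtain ⟨a, ha, h⟩ := s5.ge ⟨c, hc, rfl⟩
    have : a⁻¹ * c ∈ K := ⟨mem_centralizer_singleton_iff.2 (by
      rw [← mul_inv_eq_iff_eq_mul, mul_inv_rev, inv_inv, mul_assoc a⁻¹, mul_assoc a⁻¹,
        ← mul_assoc (c * y), ← h]; group), C.mul_mem (C.inv_mem (hzC ha)) hc⟩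
    simpa using mul_mem (centralizer_le_normalizer _ fun k (hk : k ∈ K) => (zc a ha k hk.2).symm)
      (le_normalizer this)
  · rw [e, card_bot, c300] at s6
    omega

/-- A non-abelian finite simple group of order greater than 3640 and at most 6232 has order 4080, 5616, 6048 or 6072. -/
theorem result {G : Type*} [Group G] [Finite G] [IsSimpleGroup G] (hG : ¬ IsMulCommutative G) (h1 : 3640 < Nat.card G) (h2 : Nat.card G ≤ 6232) : Nat.card G = 4080 ∨ Nat.card G = 5616 ∨ Nat.card G = 6048 ∨ Nat.card G = 6072 := by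
  have := H23.Sv.mem_of_range hG range2 h1 (by omega)
  have a := S0976.result (G := G)
  have b := S0977.result (G := G)
  have c := S0980.result (G := G)
  have d := ne_5400 (G := G)
  simp only [List.mem_cons, List.not_mem_nil, or_false] at this
  omega

end Cfsg.Agent.S0983
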