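import Cfsg.Statements.S1011
import Mathlib
import Cfsg.Agent.H23.SCd
-- import your own Cfsg.Agent.* helpers here

set_option autoImplicit false
open Cfsg

namespace Cfsg.Agent.S1011

/-- A simple group of order 504 is isomorphic to the projective special linear group of dimension 2 over the field with 8 elements. -/
theorem result {G : Type*} [Group G] [Finite G] [IsSimpleGroup G] (h : Nat.card G = 504) {F : Type*} [Field F] [Fintype F] (hF : Fintype.card F = 8) : Nonempty (G ≃* Matrix.ProjectiveSpecialLinearGroup (Fin 2) F) := by
  have : Fact (Nat.Prime 7) := ⟨by norm_num⟩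
  obtain ⟨x, hx⟩ := exists_prime_orderOf_dvd_card' (G := G) 7 (by rw [h]; norm_num)
  obtain ⟨hs, -, he⟩ := H23.sc_of_kev (p := 7) (B := 23) (k := 36) (e := 2) h (by norm_num)
    (by norm_num) (by norm_num) (by norm_num) (by norm_num) (by decide +kernel) hx
  refine H23.psl_of_two (H20.simple_not_comm_of_not_prime (by rw [h]; norm_num)) hs (by norm_num)
    he (a := 3) (c := 9) h (by norm_num) (fun d hd => ?_) hF
  have : d ≤ 72 := hd
  interval_cases d <;> simp

end Cfsg.Agent.S1011
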