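import Cfsg.Statements.S1057
import Mathlib
import Cfsg.Agent.H28.J2Q
import Cfsg.Agent.H12.Stein
import Cfsg.Agent.H12.Orders
import Cfsg.Agent.S1059

set_option autoImplicit false
open Cfsg

namespace Cfsg.Agent.S1057

open scoped commutatorElement

open H12 H14 H28.J2P Cfsg.Lie

theorem lt_chk : ∀ r < 12, ∀ s < 12, ∀ c ∈ chevG2.commTerms r s, c.1 < 12 ∧ c.2.2.1 ≠ 0 ∧ c.2.2.2 ≠ 0 := by
  decide +kernel

theorem lift {F G : Type*} [Field F] [Finite F] [Group G] (h : ∀ t : F, t = 0 ∨ t = 1) (h2 : (2 : F) = 0)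
    (pm : ℕ → G) (sq : ∀ r < 12, pm r * pm r = 1) (cm : ∀ r < 12, ∀ s < 12, s ≠ r → s ≠ chevG2.neg r →
      pm s * pm r = pm r * pm s *
        (((chevG2.commTerms r s).filter fun c => c.2.1 % 2 != 0).map fun c => pm c.1).prod) :
    ∃ f : chevG2.group F →* G, ∀ r : Fin chevG2.nroots, f ((grpSt chevG2 F).x r 1) = pm r := by
  classical
  let S : StSys (cdOf chevG2) F G :=
    { x := fun r t => if t = 0 then 1 else pm r
      add := fun r t u => by
        rcases h t with rfl | rfl <;> rcases h u with rfl | rfl <;>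
          simp [one_add_one_eq_two, h2, sq r r.2]
      comm := fun r s h1 h3 t u => by
        have e : ((cdOf chevG2).terms r s).map (fun c => if (c.2.1 : F) * (-t) ^ c.2.2.1 * u ^ c.2.2.2 = 0
            then 1 else pm c.1) = (chevG2.commTerms r s).map fun c =>
              if (c.2.1 : F) * (-t) ^ c.2.2.1 * u ^ c.2.2.2 = 0 then 1 else pm c.1 := by
          simp only [cdOf, List.map_map]
          exact List.map_congr_left fun c hc => by
            simp only [Function.comp, finR_val r (mem_commTerms r.2 s.2 hc).1]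
        rw [e]
        have z : ∀ (P : ℕ × ℤ × ℕ × ℕ → Prop) [DecidablePred P], (∀ c ∈ chevG2.commTerms r s, P c) →
            ((chevG2.commTerms r s).map fun c => if P c then 1 else pm c.1).prod = 1 := fun P _ H =>
          List.prod_eq_one fun g hg => by
            obtain ⟨c, hc, rfl⟩ := List.mem_map.1 hg
            rw [if_pos (H c hc)]
        rcases h t with rfl | rfl
        · rw [z _ fun c hc => by simp [(lt_chk r r.2 s s.2 c hc).2.1]]; simp
        rcases h u with rfl | rfl
        · rw [z _ fun c hc => by simp [(lt_chk r r.2 s s.2 c hc).2.2]]; simp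
        rw [if_neg one_ne_zero, if_neg one_ne_zero, cm r r.2 s s.2 (fun e => h1 (Fin.ext e))
          (fun e => h3 (Fin.ext e))]
        congr 1
        haveI : CharP F 2 := CharTwo.of_one_ne_zero_of_two_eq_zero one_ne_zero h2
        induction chevG2.commTerms r s with
        | nil => rfl
        | cons c l ih =>
          rw [List.map_cons, List.prod_cons, ← ih, List.filter_cons]
          simp only [one_pow, mul_one, mul_eq_zero, pow_eq_zero_iff', neg_eq_zero, one_ne_zero, false_and,
            or_false, CharP.intCast_eq_zero_iff F 2, bne_iff_ne]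
          by_cases hc : c.2.1 % 2 = 0
          · rw [if_neg (not_not.2 hc), if_pos (by omega), one_mul]
          · rw [if_pos hc, if_neg (by omega), List.map_cons, List.prod_cons] }
  obtain ⟨θ, hθ⟩ := stSt_lift (grpSt_r3 (D := chevG2) (K := F))
  obtain ⟨f, hf⟩ := stSt_lift (chev_nc S).r3_of_finite
  have h1 := hom_grp_ker stSt_top hθ
  rw [center_eq_map stSt_nm stSt_top stSt_r3, hT_ker_G2, Subgroup.map_bot, MonoidHom.ker_eq_bot_iff] at h1
  let e := MulEquiv.ofBijective θ ⟨h1, hθ.surjective grpSt_top⟩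
  refine ⟨f.comp e.symm.toMonoidHom, fun r => ?_⟩
  rw [← hθ, show pm r = S.x r 1 from (if_neg one_ne_zero).symm, ← hf]
  exact congrArg f (e.symm_apply_apply _)

/-- the root involutions on 100 points -/
def YL : List ℕ := [nat_lit 0x6988fe0762275c2eb140caf31347a63d13781751d6626cf41a8362a9866244f42f9ebcbee5d24a0d896366ae5ad2c4d85a64aa2590f552b89b45f94c324e9c9468ac2b6bcca05cd410ea4423580a284de4e045830844300,
  nat_lit 0x6988243bf78caa5f22b0daf64822a67a3cd9e56828621c7daa2312bac00564042f9ebc77114ad46d896366ca5a4b651c415771ccc363a2b06f51f930748d1c4e76e862c5e72e40d45d5929ac46222848894601613e16100,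
  nat_lit 0x6988a606579ba522354487d32a55132474e8140ad6421e9584cb150686e464f635deb35662138ba71ae3797dfb016116c677140d9371ee24324259f403cd364e751ba04166e1064ada23d46d415e2a9889510b2e265d480,
  nat_lit 0x6b89ce07700ac54cb125812c0b917d282cd106682d63493c1051ae03868245e7f4de9cbe7f0a846cf1926cca5d61c1a65a5694238936d5596e2d0c2741cd3c1e76714aa42e9802d2a1636bc68c442abcf3cba8a9891c980,
  nat_lit 0x2588f9a57786aa448c79939248af66a0bc1811961e62c2b372d3a2ba3b0a84f7ed9e8965114a790f9a35a6ee5caa880dcdbf71cd27009287b56d0aec3321d75b82c18a31c613298ea8bb216e952029e0848187030898080,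
  nat_lit 0x9ef68e0964a85c036ac8ca731704af2b0ddc6dcad6bf483c1071a282865a434562713c622c2b89cd84406685dad315582c7ea88a83c4d2a4327d910449cd1c1e751af0d0a68e4d794a036506d87429f35925dcd48f12d80,
  nat_lit 0x3428a12bf791311a447af6d25199a730aa6811c752541eb0b9c590ba6b0814f4a71ebc7711cb8215e19d66cae24b011685572d49e4f41fb0ab7628326a1a3e378ea06191a8e13f82d37b336d979188488946162e4104080,
  nat_lit 0x2a74fe00f3843606b1c41af30886a6ad1359b7a7d692fe58c0319993870ac239424d2a4e145d925728198a3cf305ea56daa4f17247608e288144d90c2c712542f5a18085b18e88deaa064506c87229f5dbf51d17b69a380,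
  nat_lit 0x5d3cea0797a4286e650d5aefec11772cacdc51e82aa41d2dd9d18798270828aac71edfa61949bb6d8f9464ccf30478d3821331cdc5a3a4a45e2ece06ac70be7012d442e5a8b4860ea0d8a9880c450158894ea09a24b0080,
  nat_lit 0xba16c60137b1a4b70e2e13d26a554f2864fa11c3077d4ab0b9d1ac82b509d267f2dcbc5b05eb306a0893706d8312811d8a5670436a7012dc32687903b5cfaa648918e2a58baf6849aa042606d190b2fa9993712e6f10080,
  nat_lit 0x5d602e0920425c24b2ce260267d05b29cd4ab1c8be0f4af9a9d1a2a31508e9357306254e7e8b806d832666c8f57318e9da7e70aa876d1e24882d0a074c60aa372012f105948e816e6901e506bd450eb1796d70dd6e66f00,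
  nat_lit 0x441888d1378d282452cb56124f9da6a8ac175382cb9872b048f1a2c05f0a8444a1c42b773d4b80692c1966c8f57862d68e7949cdc4e09fb6278d090aac6a4a3775a0a185a8da476f0a01eb30175c62fbd7d8a6c86e98080]

/-- the value of a word -/
noncomputable def wd (l : List ℕ) : ℕ :=
  List.rec (motive := fun _ => ℕ) A.one (fun r _ ih => A.mul (nth YL (r % 12)) ih) l

theorem ok (r : ℕ) : A.ok (nth YL (r % 12)) := A.okb_ok _
  ((by decide +kernel : ∀ r < 12, A.okb (nth YL r) = true) _ (Nat.mod_lt _ (by norm_num)))

theorem wd_spec (l : List ℕ) : A.ok (wd l) ∧ A.el (wd l) = (l.map fun r => A.el (nth YL (r % 12))).prod := by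
  induction l with
  | nil => exact ⟨A.ok_one, A.el_one⟩
  | cons r l ih => exact ⟨A.ok_mul _ _ (ok r) ih.1, (A.el_mul _ _ (ok r) ih.1).trans (by rw [ih.2]; rfl)⟩

theorem wd_eq {l l' : List ℕ} (h : Nat.beq (wd l) (wd l') = true) :
    (l.map fun r => A.el (nth YL (r % 12))).prod = (l'.map fun r => A.el (nth YL (r % 12))).prod := by
  rw [← (wd_spec l).2, ← (wd_spec l').2, nbeq_iff.1 h]

theorem cm_chk : ∀ r < 12, ∀ s < 12, s ≠ r → s ≠ chevG2.neg r → Nat.beq (wd [s, r]) (wd (r :: s ::
    ((chevG2.commTerms r s).filter fun c => c.2.1 % 2 != 0).map fun c => c.1)) = true := by decide +kernel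

theorem gen_chk : ∀ T ∈ S2.gens, ∃ p ∈ [([0, 8], [0, 1, 8, 7]), ([0, 9], [5, 1, 6]), ([1], [0, 11]), ([3], [1, 9])],
    Nat.beq (A.mul T (wd (p.2 ++ p.1))) (wd (p.1 ++ p.2)) = true := by decide +kernel

/-- G₂(2)′ ≅ PSU₃(3). -/
theorem result {F K : Type*} [Field F] [Fintype F] [Field K] [Fintype K] (hF : Fintype.card F = 2) (hK : Fintype.card K = 9) :
    Nonempty (↥(commutator ↥(Cfsg.Lie.chevG2.group F)) ≃* Cfsg.PSU 3 K 3) := by
  classical
  have h : ∀ t : F, t = 0 ∨ t = 1 := fun t => by
    by_contra hc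
    push Not at hc
    have : ({0, 1, t} : Finset F).card ≤ 2 := hF ▸ Finset.card_le_univ _
    rw [Finset.card_eq_three.2 ⟨0, 1, t, zero_ne_one, hc.1.symm, hc.2.symm, rfl⟩] at this
    omega
  have h2 : (2 : F) = 0 := by simpa [hF] using FiniteField.cast_card_eq_zero F
  obtain ⟨f, hf⟩ := lift h h2 (fun r => A.el (nth YL (r % 12))) (fun r hr => by
      simpa using wd_eq ((by decide +kernel : ∀ r < 12, Nat.beq (wd [r, r]) (wd []) = true) r hr))
    fun r hr s hs a b => by simpa [List.map_map, mul_assoc, Function.comp_def] using wd_eq (cm_chk r hr s hs a b)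
  obtain ⟨σ, hσ⟩ := lift h h2 (fun r => if r ∈ [2, 3, 4, 7, 8, 9] then (-1 : ℤˣ) else 1) (by decide +kernel)
    (by decide +kernel)
  have c1 : Nat.card (chevG2.group F) = 12096 := S1059.result hF
  haveI : Finite (chevG2.group F) := Nat.finite_of_card_ne_zero (by omega)
  have c2 : Nat.card (commutator (chevG2.group F)) ≤ 6048 := by
    have e := (commutator (chevG2.group F)).card_mul_index
    have i1 : (commutator (chevG2.group F)).index ≠ 1 := fun i => by
      have := Abelianization.commutator_subset_ker σ ((Subgroup.index_eq_one.1 i).ge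
        (Subgroup.mem_top ((grpSt chevG2 F).x ⟨7, by decide⟩ 1)))
      rw [MonoidHom.mem_ker, hσ] at this
      exact absurd this (by decide)
    have i0 : (commutator (chevG2.group F)).index ≠ 0 := Subgroup.index_ne_zero_of_finite
    have := Nat.mul_le_mul_left (Nat.card (commutator (chevG2.group F)))
      (show 2 ≤ (commutator (chevG2.group F)).index by omega)
    omega
  have hw : ∀ l : List ℕ, ∃ g, f g = A.el (wd l) := fun l => by
    rw [(wd_spec l).2]
    refine (f.range.list_prod_mem fun x hx => ?_ :)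
    obtain ⟨r, -, rfl⟩ := List.mem_map.1 hx
    exact ⟨_, (hf ⟨r % 12, Nat.mod_lt r (by norm_num : 12 > 0)⟩).trans (by simp only [Nat.mod_mod])⟩
  have le : S2.K ≤ (commutator (chevG2.group F)).map f := S2.le_iff.2 fun T hT => by
    obtain ⟨p, -, hp⟩ := gen_chk T hT
    obtain ⟨u, hu⟩ := hw p.1
    obtain ⟨v, hv⟩ := hw p.2
    refine ⟨⁅u, v⁆, Subgroup.commutator_mem_commutator (Subgroup.mem_top _) (Subgroup.mem_top _), ?_⟩
    have := congrArg A.el (nbeq_iff.1 hp)
    rw [A.el_mul _ _ (S2.gens_ok T hT) (wd_spec _).1, (wd_spec _).2, (wd_spec _).2, List.map_append,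
      List.map_append, List.prod_append, List.prod_append, ← (wd_spec _).2, ← (wd_spec _).2, ← hu, ← hv] at this
    rw [map_commutatorElement, commutatorElement_def, ← this]
    group
  have c3 : Nat.card S2.K = 6048 := S2.card_eq
  have hs := f.subgroupMap_surjective (commutator (chevG2.group F))
  have c4 := Nat.card_le_card_of_surjective _ hs
  have c5 := Subgroup.card_le_of_le le
  obtain ⟨e⟩ := iso_psu hK
  exact ⟨((MulEquiv.ofBijective _ (hs.bijective_of_nat_card_le (by omega))).trans
    (MulEquiv.subgroupCongr (Subgroup.eq_of_le_of_card_ge le (by omega)).symm)).trans e⟩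

end Cfsg.Agent.S1057
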