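import Cfsg.Statements.S1173
import Mathlib
import Cfsg.Agent.G75.Fin

set_option autoImplicit false
open Cfsg

namespace Cfsg.Agent.S1173

/-- Let G be a finite group with no nontrivial normal subgroup of odd order, S a Sylow 2-subgroup and T a subgroup of S strongly closed in S. Then the intersection of the derived series of C_G(T) (its perfect core), viewed in G, is a normal subgroup of G. -/
theorem result {G : Type*} [Group G] [Finite G] (hO : Cfsg.oddCore G = ⊥) (S : Sylow 2 G) (T : Subgroup G) (hT : Cfsg.IsStronglyClosed T (S : Subgroup G)) : ((⨅ n : ℕ, derivedSeries ↥(Subgroup.centralizer (T : Set G)) n).map (Subgroup.centralizer (T : Set G)).subtype).Normal := by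
  obtain ⟨n, hn⟩ := WellFoundedLT.antitone_chain_condition
    (derivedSeries_antitone (Subgroup.centralizer (T : Set G)))
  have h1 : ⨅ n : ℕ, derivedSeries ↥(Subgroup.centralizer (T : Set G)) n = derivedSeries _ n :=
    le_antisymm (iInf_le _ n) (le_iInf fun m => (le_total n m).elim (fun e => (hn m e).le)
      fun e => derivedSeries_antitone _ e)
  rw [h1]
  set K := (derivedSeries ↥(Subgroup.centralizer (T : Set G)) n).map (Subgroup.centralizer (T : Set G)).subtype
  have h2 : ⁅K, K⁆ = K := by rw [← Subgroup.map_commutator, ← derivedSeries_succ, ← hn _ (Nat.le_succ n)]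
  refine FT.nml_top_iff.1 ⟨le_top, fun g _ => FT.mem_nrm_of_cj_le ?_⟩
  have h3 := G75.perf_cen ((FT.p'core_top Nat.prime_two).trans hO) (FT.syl_top Nat.prime_two S) hT h2
    (Subgroup.map_subtype_le _) g
  rw [← Subgroup.map_subgroupOf_eq_of_le h3]
  refine Subgroup.map_mono (H2.le_derivedSeries_of_perfect ?_ n)
  apply Subgroup.map_injective (Subgroup.centralizer (T : Set G)).subtype_injective
  rw [Subgroup.map_commutator, Subgroup.map_subgroupOf_eq_of_le h3, ← FT.cj_comm, h2]

end Cfsg.Agent.S1173
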