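import Cfsg.Statements.S1243
import Mathlib
import Cfsg.Agent.H20.SE

set_option autoImplicit false
open Cfsg

namespace Cfsg.Agent.S1243

open Cfsg.Agent.H20

/-- Let T be a Sylow p-subgroup of the finite group G and W ≤ T a subgroup weakly closed in T. If d and g d g⁻¹ both centralize W, then g d g⁻¹ = h d h⁻¹ for some h ∈ N_G(W). -/
theorem result {G : Type*} [Group G] [Finite G] {p : ℕ} [Fact p.Prime] (T : Sylow p G) (W : Subgroup G) (hW : Cfsg.IsWeaklyClosed W (T : Subgroup G)) (d g : G) (hd : d ∈ Subgroup.centralizer (W : Set G)) (hgd : g * d * g⁻¹ ∈ Subgroup.centralizer (W : Set G)) : ∃ h ∈ Subgroup.normalizer (W : Set G), h * d * h⁻¹ = g * d * g⁻¹ := by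
  have hWp : IsPGroup p W := T.2.to_le hW.1
  have h1 : W ≤ Subgroup.centralizer {d} := fun w hw => mem_cent_iff.mpr (hd w hw)
  have h2 : H22.cj g⁻¹ W ≤ Subgroup.centralizer {d} := by
    rw [H22.cj_le_iff, inv_inv, H22.cj_centralizer_singleton]
    exact fun w hw => mem_cent_iff.mpr (hgd w hw)
  obtain ⟨R, hR, hWR⟩ := H18.exists_sylIn_ge hWp h1
  obtain ⟨c, hc, hc'⟩ := hR.exists_conj_mem h2 (H22.isPGroup_cj _ hWp)
  obtain ⟨h, hh⟩ := exists_conj_mem_sylow hR.isP T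
  have h3 : H22.cj h W = W := hW.2 h (H22.cj_le_iff'.mpr fun x hx => hh x (hWR hx))
  have h4 : H22.cj (h * (c * g⁻¹)) W = W := hW.2 _ (by
    rw [H22.cj_def, H22.cj_mul, H22.cj_mul]
    exact H22.cj_le_iff'.mpr fun x hx => hh x (H22.cj_le_iff'.mpr hc' hx))
  rw [H22.cj_mul] at h4
  have h5 := H22.mem_N_iff_cj.mpr (H22.cj_injective h (h4.trans h3.symm))
  refine ⟨(c * g⁻¹)⁻¹, inv_mem h5, ?_⟩
  calc (c * g⁻¹)⁻¹ * d * (c * g⁻¹)⁻¹⁻¹ = g * (c⁻¹ * d * c⁻¹⁻¹) * g⁻¹ := by group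
    _ = _ := by rw [mem_cent_iff_conj.mp (inv_mem hc)]

end Cfsg.Agent.S1243
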