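import Cfsg.Statements.S1248
import Cfsg.Agent.GO.Su2

set_option autoImplicit false
open Cfsg

namespace Cfsg.Agent.S1248

/-- Let F be a field with 16 elements and S a Sylow 2-subgroup of PSU(3) over F (the unitary group U₃(4)). Then |S| = 64; the centre Z(S) is a Klein four-group and coincides with the subgroup generated by the involutions of S and with the derived subgroup; and every element of S ⧸ Z(S) squares to the identity, S ⧸ Z(S) having order 16. -/
theorem result {F : Type*} [Field F] [Fintype F] (hF : Fintype.card F = 16) (S : Sylow 2 (Cfsg.PSU 3 F 4)) : Nat.card S = 64 ∧ IsKleinFour (Subgroup.center (S : Subgroup (Cfsg.PSU 3 F 4))) ∧ Subgroup.center (S : Subgroup (Cfsg.PSU 3 F 4)) = Subgroup.closure {x : (S : Subgroup (Cfsg.PSU 3 F 4)) | orderOf x = 2} ∧ Subgroup.center (S : Subgroup (Cfsg.PSU 3 F 4)) = commutator (S : Subgroup (Cfsg.PSU 3 F 4)) ∧ Nat.card ((S : Subgroup (Cfsg.PSU 3 F 4)) ⧸ Subgroup.center (S : Subgroup (Cfsg.PSU 3 F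 4))) = 16 ∧ ∀ x : (S : Subgroup (Cfsg.PSU 3 F 4)) ⧸ Subgroup.center (S : Subgroup (Cfsg.PSU 3 F 4)), x ^ 2 = 1 := by
  obtain ⟨_, _, _, h⟩ := GO.uh_psu (n := 2) le_rfl hF S (MulEquiv.refl _)
  have hq := H11.qConj_conjQ (q := 4) hF
  refine ⟨h.card hq, ⟨h.card_cen hq, ?_⟩, le_antisymm (fun x hx => ?_) ((Subgroup.closure_le _).2 fun x hx =>
    (h.cen_iff hq).2 (GW.Invo.sq hx)), h.der hq, h.card_quo hq, fun x => ?_⟩
  · haveI : Nontrivial (Subgroup.center (S : Subgroup (Cfsg.PSU 3 F 4))) :=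
      Finite.one_lt_card_iff_nontrivial.1 ((h.card_cen hq).symm ▸ by norm_num)
    haveI := Fact.mk Nat.prime_two
    exact Monoid.exponent_eq_prime_iff Nat.prime_two |>.2 fun g g1 =>
      orderOf_eq_prime (Subtype.ext ((sq _).trans ((h.cen_iff hq).1 g.2))) g1
  · by_cases c : x = 1
    · exact c ▸ one_mem _
    exact Subgroup.subset_closure (GW.invo_of ((h.cen_iff hq).1 hx) c)
  · obtain ⟨x, rfl⟩ := QuotientGroup.mk_surjective x
    exact (QuotientGroup.eq_one_iff (x ^ 2)).2 (h.cen (sq x ▸ h.x2 x))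

end Cfsg.Agent.S1248
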