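import Mathlib
import Cfsg.Agent.H28.Dih
import Cfsg.Agent.H10.SmallId
-- Template for statement S1349 (row 1349; see /opt/grader/pristine/manifest.json for weights).
-- Copy to Cfsg/Agent/S1349.lean and replace the sorry. The statement below is byte-identical to the frozen
-- statement Cfsg.CfsgFrozen.S1349 (Cfsg/Statements/S1349.lean; the theorem Cfsg.thompson_dihedral_lemma);
-- the grader kernel-checks Cfsg.Agent.S1349.result against that frozen type. Keep the theorem IN THIS FILE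
-- (a `result` declared elsewhere and merely imported here is not credited); helpers may live anywhere
-- under Cfsg/Agent/.
import Cfsg.Statements.S1349
-- import your own Cfsg.Agent.* helpers here

set_option autoImplicit false
open Cfsg

namespace Cfsg.Agent.S1349

/-- Let G be finite, L ≤ G solvable of odd order, and A an elementary abelian 2-subgroup of order 2^d (d ≥ 1) normalizing L with C_A(L) = 1. Then there are subgroups A_1, …, A_d of A of order 2 generating A and subgroups L_1, …, L_d of L such that each A_i ⊔ L_i is dihedral of order 2 n_i with n_i odd and at least 3, and A_i ⊔ L_i commutes elementwise with A_j ⊔ L_j for i ≠ j. -/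
theorem result {G : Type*} [Group G] [Finite G] (L A : Subgroup G) (hLs : Group.IsSolvable ↥L) (hLodd : Odd (Nat.card ↥L)) (hA : Cfsg.IsElementaryAbelian 2 A) (d : ℕ) (hd : 1 ≤ d) (hAd : Nat.card ↥A = 2 ^ d) (hAL : A ≤ Subgroup.normalizer (L : Set G)) (hfaith : A ⊓ Subgroup.centralizer (L : Set G) = ⊥) : ∃ (Ai : Fin d → Subgroup G) (Li : Fin d → Subgroup G) (n : Fin d → ℕ), (∀ i, Ai i ≤ A ∧ Nat.card ↥(Ai i) = 2 ∧ Li i ≤ L ∧ Odd (n i) ∧ 3 ≤ n i ∧ Nonempty (↥(Ai i ⊔ Li i) ≃* DihedralGroup (n i))) ∧ (⨆ i, Ai i) = A ∧ ∀ i j, i ≠ j → ∀ x ∈ Ai i ⊔ Li i, ∀ y ∈ Ai j ⊔ Li j, x * y = y * x := by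
  open Subgroup Cfsg.Agent.FT Cfsg.Agent.H28 in
  open scoped commutatorElement Pointwise in
  · obtain ⟨f, a, h1, -, -, h4⟩ := dihedral_lemma (fitting_nil L) (odd_of_le (fitting_le L) hLodd) hA (norms_fitting hAL)
      (coprime_trivg_cent_Fitting hAL ((two'_of_odd hLodd).cop' (Abelem.pGrp hA Nat.prime_two)) hLs hfaith) hAd
    have ha1 : ∀ i, a i ≠ 1 := fun i e => (h1 i).2.2.2.2.1 (e ▸ one_mem _)
    have hc : ∀ i, #⟪a i⟫ = 2 := fun i => Abelem.card_zpowers hA Nat.prime_two (h1 i).2.2.2.1 (ha1 i)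
    have ho : ∀ i, Odd #(f i) := fun i => odd_of_le ((h1 i).2.1.trans (fitting_le L)) hLodd
    refine ⟨fun i => ⟪a i⟫, f, fun i => #(f i), fun i => ⟨zpowers_le.2 (h1 i).2.2.2.1, hc i, (h1 i).2.1.trans (fitting_le L), ho i,
      two_lt_of_odd (h1 i).1 dvd_rfl (ho i), ?_⟩, h4, fun i j hij x hx y hy => (mem_cen.1 (?_ : x ∈ C(⟪a j⟫ ⊔ f j)) y hy).symm⟩
    · obtain ⟨x, hx, e, hxo⟩ := (cyc_of_prime (h1 i).1).exists_gen
      have hn := (h1 i).2.2.1 (h1 i).2.2.2.1
      have hi := ((pGrp_of_card_prime Nat.prime_two (hc i)).inf_eq_bot (two'_of_odd (ho i)))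
      have := H10.nonempty_equiv_dihedral (G := ↥(⟪a i⟫ ⊔ f i)) (c := ⟨x, mem_sup_right hx⟩) (s := ⟨a i, mem_sup_left (mem_zpowers _)⟩)
        (Subtype.ext (by simpa [sq] using Abelem.pow hA (h1 i).2.2.2.1))
        (Subtype.ext ((cent_or_inv hA (minNml_of_prime (h1 i).1 (h1 i).2.2.1) (h1 i).2.2.2.1).resolve_left (h1 i).2.2.2.2.1 x hx))
        (fun ⟨k, hk⟩ => ha1 i (eq_one_of_mem_inf hi (mem_zpowers _) ((show x ^ k = a i from congrArg Subtype.val hk) ▸ zpow_mem hx k)))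
        (by rw [orderOf_mk, hxo, sup_comm, card_sup_of_inf (zpowers_le.2 hn) (inf_comm (f i) _ ▸ hi), hc, mul_comm])
      rwa [orderOf_mk, hxo] at this
    · refine (sup_le (zpowers_le.2 ?_) (centsY (centsC (zpowers_le.2 (((h1 j).2.2.2.2.2 i).2 hij))) ((h1 i).2.2.2.2.2 j).1)) hx
      rw [cen_sup, cen_zpowers]
      exact ⟨mem_cen1.2 ((Abelem.ab hA).comm (h1 i).2.2.2.1 (h1 j).2.2.2.1), ((h1 i).2.2.2.2.2 j).2 hij.symm⟩

end Cfsg.Agent.S1349
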