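import Cfsg.Statements.S1612
import Mathlib
import Cfsg.Agent.H19.Tr5

set_option autoImplicit false
open Cfsg

namespace Cfsg.Agent.S1612

open Cfsg.Agent.H19


/-- In a 3-transposition group (no solvable normal subgroup, perfect derived group), the normaliser of a commuting set of transpositions of maximum size contains a Sylow 2-subgroup and is doubly transitive on the set. -/
theorem result {G : Type*} [Group G] [Finite G] (hsol : ∀ N : Subgroup G, N.Normal → Group.IsSolvable ↥N → N = ⊥) (hperf : ⁅commutator G, commutator G⁆ = commutator G) {D : Set G} (hD : Cfsg.IsThreeTranspositionClass D) {E : Set G} (hE : E ⊆ D) (hc : ∀ a ∈ E, ∀ b ∈ E, Commute a b) (hmax : ∀ E' : Set G, E' ⊆ D → (∀ a ∈ E', ∀ b ∈ E', Commute a b) → E'.ncard ≤ E.ncard) : (∃ P : Sylow 2 G, (P : Subgroup G) ≤ Subgroup.normalizer E) ∧ ∀ a ∈ E, ∀ b ∈ E, ∀ c ∈ E, ∀ d ∈ E, a ≠ b → c ≠ d → ∃ g ∈ Subgroup.normalizer E, g * a * g⁻¹ = c ∧ g * b *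 g⁻¹ = d := by
  obtain ⟨h, t, ne⟩ := tclass_iff.1 hD
  have p := h.pg_of_fischer t ne hsol hperf
  have mx : ∀ (E : Set G) (T : Subgroup G), IsPGroup 2 T → E ⊆ D → E ⊆ T →
      (∀ E' : Set G, E' ⊆ D → (∀ a ∈ E', ∀ b ∈ E', Commute a b) → E'.ncard ≤ E.ncard) →
      E = D ∩ T := fun E T hT h1 h2 hm => Set.eq_of_subset_of_ncard_le (Set.subset_inter h1 h2)
        (hm _ Set.inter_subset_left fun a ha b hb => h.commute_of_pgroup2 hT ha.1 hb.1 ha.2 hb.2)
  constructor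
  · obtain ⟨P, hP⟩ := h.exists_sylow hE hc
    refine ⟨P, fun g hg => ?_⟩
    rw [mx E P P.isPGroup' hE hP hmax]
    intro n
    refine ⟨fun hn => ⟨h.conj g n hn.1, J_mem hg hn.2⟩, fun hn => ⟨?_, ?_⟩⟩
    · simpa using h.conj g⁻¹ (J g n) hn.1
    · have := J_mem (inv_mem hg) (show J g n ∈ (P : Subgroup G) from hn.2)
      rwa [J_inv_J] at this
  · intro a ha b hb c hc' d hd ab cd
    obtain ⟨g, rfl, rfl⟩ := p.pairD (hE ha) (hE hc') ⟨hE hb, ab.symm, hc a ha b hb⟩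
      ⟨hE hd, cd.symm, hc c hc' d hd⟩
    let C := Subgroup.centralizer ({J g a, J g b} : Set G)
    have syl : ∀ E : Set G, E ⊆ D → (∀ a ∈ E, ∀ b ∈ E, Commute a b) → J g a ∈ E → J g b ∈ E →
        (∀ E' : Set G, E' ⊆ D → (∀ a ∈ E', ∀ b ∈ E', Commute a b) → E'.ncard ≤ E.ncard) →
        ∃ S : Sylow 2 C, E = D ∩ (S : Subgroup C).map C.subtype := fun E hE hc h1 h2 hm => by
      have hle : Subgroup.closure E ≤ C := by
        rw [Subgroup.closure_le]
        rintro x hx _ (rfl | rfl)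
        exacts [(hc _ h1 x hx).eq, (hc _ h2 x hx).eq]
      obtain ⟨S, hS⟩ := ((isPGroup_closure_of_commute (fun s hs => h.sq s (hE hs)) hc).comap_subtype
        (K := C)).exists_le_sylow
      exact ⟨S, mx E _ (S.isPGroup'.map _) hE (fun x hx =>
        ⟨⟨x, hle (Subgroup.subset_closure hx)⟩, hS (Subgroup.subset_closure hx), rfl⟩) hm⟩
    obtain ⟨S1, e1⟩ := syl E hE hc hc' hd hmax
    obtain ⟨S2, e2⟩ := syl (J g '' E) (by rintro _ ⟨x, hx, rfl⟩; exact h.conj g x (hE hx))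
      (by rintro _ ⟨x, hx, rfl⟩ _ ⟨y, hy, rfl⟩; exact commute_J.2 (hc x hx y hy))
      ⟨a, ha, rfl⟩ ⟨b, hb, rfl⟩ (by rwa [Set.ncard_image_of_injective _ (J_injective g)])
    obtain ⟨k, rfl⟩ := MulAction.exists_smul_eq C S2 S1
    have sub : J (k * g) '' E ⊆ E := by
      rintro _ ⟨x, hx, rfl⟩
      obtain ⟨h1, y, hy, e⟩ : J g x ∈ D ∩ ((S2 : Subgroup C).map C.subtype : Set G) :=
        e2 ▸ ⟨x, hx, rfl⟩
      rw [e1, J_mul]
      exact ⟨h.conj _ _ h1, k * y * k⁻¹, Subgroup.smul_mem_pointwise_smul _ _ _ hy, by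
        rw [← e]; rfl⟩
    have eq := Set.eq_of_subset_of_ncard_le sub
      (Set.ncard_image_of_injective _ (J_injective _)).ge
    refine ⟨k * g, fun n => ⟨fun hn => sub ⟨n, hn, rfl⟩, fun hn => ?_⟩, ?_, ?_⟩
    · rw [← eq] at hn
      obtain ⟨x, hx, e⟩ := hn
      exact (J_inj.1 e) ▸ hx
    · rw [← J_def, J_mul]; exact J_of_commute (k.2 _ (by simp)).symm
    · rw [← J_def, J_mul]; exact J_of_commute (k.2 _ (by simp)).symm

end Cfsg.Agent.S1612
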