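import Cfsg.Statements.S1614
import Mathlib
import Cfsg.Agent.H21.Fs6

set_option autoImplicit false
open Cfsg

namespace Cfsg.Agent.S1614

/-- If the commuting transpositions of one transposition generate a solvable group, a Fischer 3-transposition group is S5, S6, PSU(4, 2) or PSU(5, 2). -/
theorem result {G : Type*} [Group G] [Finite G] (hsol : ∀ N : Subgroup G, N.Normal → Group.IsSolvable ↥N → N = ⊥) (hperf : ⁅commutator G, commutator G⁆ = commutator G) {D : Set G} (hD : Cfsg.IsThreeTranspositionClass D) (x : G) (hx : x ∈ D) (hs : Group.IsSolvable ↥(Subgroup.closure {y : G | y ∈ D ∧ y ≠ x ∧ Commute x y})) : Nonempty (G ≃* Equiv.Perm (Fin 5)) ∨ Nonempty (G ≃* Equiv.Perm (Fin 6)) ∨ ∃ (F : Type) (_ : Field F) (_ : Fintype F), Fintype.card F = 4 ∧ (Nonempty (G ≃* Cfsg.PSU 4 F 2) ∨ Nonempty (G ≃* Cfsg.PSU 5 F 2)) := by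
  obtain ⟨g, t, ne⟩ := Cfsg.Agent.H19.tclass_iff.1 hD
  letI := Fintype.ofFinite (GaloisField 2 2)
  have hF : Fintype.card (GaloisField 2 2) = 4 :=
    Nat.card_eq_fintype_card.symm.trans (GaloisField.card 2 2 two_ne_zero)
  rcases Cfsg.Agent.H21.FS.solv_main (g.pg_of_fischer t ne hsol hperf)
    (hsol _ inferInstance (Group.isSolvable_of_comm fun a b => Subtype.ext (Subgroup.mem_center_iff.1 b.2 a))) hx hs (F := GaloisField 2 2) hF with e | e | e
  · exact .inl e
  · exact .inr (.inl e)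
  · exact .inr (.inr ⟨_, _, _, hF, e⟩)

end Cfsg.Agent.S1614
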