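import Cfsg.Statements.S1616
import Mathlib
import Cfsg.Agent.H21.Fs6

set_option autoImplicit false
open Cfsg

namespace Cfsg.Agent.S1616

/-- If O₂(⟨D_x⟩) is not central in ⟨D_x⟩ for some transposition x, the 3-transposition group is some Sp(2n, 2) or PSU(n, 2). -/
theorem result {G : Type*} [Group G] [Finite G] (hsol : ∀ N : Subgroup G, N.Normal → Group.IsSolvable ↥N → N = ⊥) (hperf : ⁅commutator G, commutator G⁆ = commutator G) {D : Set G} (hD : Cfsg.IsThreeTranspositionClass D) (x : G) (hx : x ∈ D) (h : ¬ Cfsg.pCore 2 ↥(Subgroup.closure {y : G | y ∈ D ∧ y ≠ x ∧ Commute x y}) ≤ Subgroup.center ↥(Subgroup.closure {y : G | y ∈ D ∧ y ≠ x ∧ Commute x y})) : (∃ n : ℕ, Nonempty (G ≃* Matrix.symplecticGroup (Fin n) (ZMod 2))) ∨ ∃ (F : Type) (_ : Field F) (_ : Fintype F) (n : ℕ), Fintype.card F = 4 ∧ Nonempty (G ≃* Cfsg.PSU n F 2) := by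
  obtain ⟨g, t, ne⟩ := Cfsg.Agent.H19.tclass_iff.1 hD
  letI := Fintype.ofFinite (GaloisField 2 2)
  have hF : Fintype.card (GaloisField 2 2) = 4 :=
    Nat.card_eq_fintype_card.symm.trans (GaloisField.card 2 2 two_ne_zero)
  rcases Cfsg.Agent.H21.FS.main (g.pg_of_fischer t ne hsol hperf)
    (hsol _ inferInstance (Group.isSolvable_of_comm fun a b => Subtype.ext (Subgroup.mem_center_iff.1 b.2 a))) hx h (F := GaloisField 2 2) hF with ⟨n, -, e, -⟩ | ⟨n, -, e, -⟩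
  · exact .inl ⟨n, e⟩
  · exact .inr ⟨_, _, _, n, hF, e⟩

end Cfsg.Agent.S1616
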