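import Cfsg.Statements.S1618
import Mathlib
import Cfsg.Agent.H19.Tr2

set_option autoImplicit false
open Cfsg

namespace Cfsg.Agent.S1618

open Cfsg.Agent.H19


/-- A group generated by a class of involutions whose pairwise products (of distinct members) have p-power order for a fixed odd prime p has nilpotent derived subgroup. -/
theorem result {G : Type*} [Group G] [Finite G] (p : ℕ) (hp : p.Prime) (hodd : p ≠ 2) {D : Set G} (hinv : ∀ d ∈ D, orderOf d = 2) (hconj : ∃ d ∈ D, D = conjugatesOf d) (hgen : Subgroup.closure D = ⊤) (hprod : ∀ x ∈ D, ∀ y ∈ D, x ≠ y → ∃ k : ℕ, orderOf (x * y) = p ^ k) : Group.IsNilpotent ↥(commutator G) := by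
  haveI := Fact.mk hp
  obtain ⟨d, hd, rfl⟩ := hconj
  have key := Cfsg.Agent.S5560.result hp hodd d (hinv d hd) (fun a ha b hb => by
    by_cases e : a = b
    · subst e
      exact ⟨0, by rw [← pow_two, ← hinv a ha, pow_orderOf_eq_one, orderOf_one, pow_zero]⟩
    · exact hprod a ha b hb e)
  have d2 : d * d = 1 := by rw [← pow_two, ← hinv d hd, pow_orderOf_eq_one]
  have hle : commutator G ≤ Cfsg.pCore p G := by
    refine commutator_le_of_sup (d := d) ?_
    rw [eq_top_iff, ← hgen, Subgroup.closure_le]
    intro a ha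
    have : a = d * (d * a) := by rw [← mul_assoc, d2, one_mul]
    rw [this]
    exact mul_mem (Subgroup.mem_sup_left (Subgroup.mem_zpowers d))
      (Subgroup.mem_sup_right (key d hd a ha))
  exact (H2.pCore_isPGroup.to_le hle).isNilpotent

end Cfsg.Agent.S1618
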