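import Cfsg.Statements.S1624
import Mathlib
import Cfsg.Agent.H28.J2Q

set_option autoImplicit false
open Quaternion
open Cfsg

namespace Cfsg.Agent.S1624

open Cfsg.Agent.H28.J2P MulAction

/-- The Hall–Janko group contains PSU(3, 3) with index 100 and acts on the 100 cosets with rank 3 and subdegrees 1, 36, 63. -/
theorem result : ∃ H : Subgroup Cfsg.Spor.J2, H.index = 100 ∧ (∃ (F : Type) (_ : Field F) (_ : Fintype F), Fintype.card F = 9 ∧ Nonempty (↥H ≃* Cfsg.PSU 3 F 3)) ∧ ∃ c₁ c₂ : Cfsg.Spor.J2 ⧸ H, (MulAction.orbit ↥H c₁).ncard = 36 ∧ (MulAction.orbit ↥H c₂).ncard = 63 := by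
  let ψ : Spor.J2 →* Equiv.Perm (Fin 100) := KJ.K.subtype.comp e.toMonoidHom
  letI := MulAction.compHom (Fin 100) ψ
  let x := A.dec 0
  have hs : Function.Surjective (ofQuotientStabilizer Spor.J2 x) := fun y => by
    obtain ⟨k, rfl⟩ := trans y
    exact ⟨(e.symm k : Spor.J2), show (e (e.symm k) : Equiv.Perm (Fin 100)) • x = _ by rw [e.apply_symm_apply]; rfl⟩
  have hm : ∀ g : Spor.J2, g ∈ stabilizer Spor.J2 x ↔ ψ g ∈ S2.K := fun g =>
    ⟨fun h => st2.ge ⟨(e g).2, h⟩, fun h => (st2.le h).2⟩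
  have hr : ∀ k ∈ S2.K, ∃ g : stabilizer Spor.J2 x, ψ g = k := fun k hk => by
    have h : ψ (e.symm ⟨k, (st2.le hk).1⟩) = k := congrArg Subtype.val (e.apply_symm_apply _)
    exact ⟨⟨_, (hm _).2 (h.symm ▸ hk)⟩, h⟩
  have ho : ∀ y, ∃ c : Spor.J2 ⧸ stabilizer Spor.J2 x,
      (orbit (stabilizer Spor.J2 x) c).ncard = (orbit S2.K y).ncard := fun y => by
    obtain ⟨c, rfl⟩ := hs y
    refine ⟨c, (Set.ncard_image_of_injective _ (injective_ofQuotientStabilizer Spor.J2 x)).symm.trans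
      (congrArg _ (subset_antisymm ?_ ?_))⟩
    · rintro _ ⟨_, ⟨g, rfl⟩, rfl⟩
      exact ⟨⟨_, (hm _).1 g.2⟩, (ofQuotientStabilizer_smul Spor.J2 x g.1 c).symm⟩
    · rintro _ ⟨k, rfl⟩
      obtain ⟨g, h⟩ := hr k k.2
      exact ⟨_, ⟨g, rfl⟩, (ofQuotientStabilizer_smul Spor.J2 x g.1 c).trans 
        (congrArg (fun k : Equiv.Perm (Fin 100) => k • ofQuotientStabilizer Spor.J2 x c) h)⟩
  letI : Fintype (GaloisField 3 2) := Fintype.ofFinite _
  have hF : Fintype.card (GaloisField 3 2) = 9 := by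
    rw [← Nat.card_eq_fintype_card, GaloisField.card 3 2 (by norm_num)]; rfl
  obtain ⟨f⟩ := iso_psu hF
  obtain ⟨c1, h1⟩ := ho (A.dec 9)
  obtain ⟨c2, h2⟩ := ho (A.dec 1)
  refine ⟨stabilizer Spor.J2 x, (Nat.card_eq_of_bijective _ ⟨injective_ofQuotientStabilizer Spor.J2 x, hs⟩).trans
    (Nat.card_fin _), ⟨_, _, _, hF, ⟨.trans (MulEquiv.ofBijective (N := S2.K) ((ψ.comp (Subgroup.subtype _)).codRestrict S2.K
      fun g => (hm _).1 g.2) ⟨fun a b h => Subtype.ext (e.injective (Subtype.ext (congrArg (fun k : S2.K => k.1) h))),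
        fun k => (hr k k.2).imp fun g h => Subtype.ext h⟩) f⟩⟩, c1, c2, h1.trans orbs.2.1, h2.trans orbs.1⟩

end Cfsg.Agent.S1624
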