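import Cfsg.Statements.S1631
import Mathlib
import Cfsg.Agent.H19.Mod1

set_option autoImplicit false
open scoped MatrixGroups
open Cfsg

namespace Cfsg.Agent.S1631

open Cfsg.Agent.H19


/-- The unitary transvections of SU(n, 2), n ≥ 4, form a generating conjugacy class of 3-transpositions. -/
theorem result (F : Type) [Field F] [Fintype F] [DecidableEq F] (hF : Fintype.card F = 4) (n : ℕ) (hn : 4 ≤ n) : Cfsg.IsThreeTranspositionClass {g : ↥(Cfsg.SU n F 2) | (((g : Matrix.SpecialLinearGroup (Fin n) F) : Matrix (Fin n) (Fin n) F) - 1).rank = 1} := by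
  have q := H11.qConj_conjQ (q := 2) hF
  refine tclass_equiv (H11.suEquiv q n) (fun g => ?_)
    (u_class q (q.isHerm _) (H11.hermB_sep _) (by simpa using hn))
  rw [mem_UD q (q.isHerm _) (H11.hermB_sep _), ← rank_eq_finrank _ _ (H11.suEquiv_apply q g)]
  rfl

end Cfsg.Agent.S1631
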