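import Cfsg.Statements.S1668
import Cfsg.Agent.H15.R3.I
import Cfsg.Agent.H15.SzG2
import Cfsg.Agent.H12.Aut0
import Cfsg.Agent.H12.DataG2

set_option autoImplicit false
open Cfsg

namespace Cfsg.Agent.S1668
open Cfsg.Agent.H15 Cfsg.Agent.H15.R3 MulAction

/-- Recognition of the sporadic Suzuki group as a rank 3 permutation group: a transitive permutation group on 1782 points in which the stabiliser of a point is isomorphic to the Chevalley group G₂(4) and has two further orbits, of sizes 416 and 1365, is isomorphic to the sporadic Suzuki group. -/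
theorem result {Ω : Type*} [Fintype Ω] [DecidableEq Ω] (hΩ : Fintype.card Ω = 1782) (G : Subgroup (Equiv.Perm Ω)) [MulAction.IsPretransitive G Ω] (a : Ω) (K : Type) [Field K] [Fintype K] (hK : Fintype.card K = 4) (e : MulAction.stabilizer G a ≃* Cfsg.Lie.chevG2.group K) (b c : Ω) (hb : (MulAction.orbit (MulAction.stabilizer G a) b).ncard = 416) (hc : (MulAction.orbit (MulAction.stabilizer G a) c).ncard = 1365) : Cfsg.Spor.IsoSuz G := by
  obtain ⟨i1⟩ := SzG2.iso
  let σ : F4 ≃+* K := FiniteField.ringEquivOfCardEq (F4.card.trans hK.symm)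
  have : Finite (Lie.chevG2.group K) := Nat.finite_of_card_ne_zero (by rw [S1059.result hK]; norm_num)
  let ε : H ≃* stabilizer G a := i1.trans ((MulEquiv.ofBijective (H12.fieldHom Lie.chevG2 σ.toRingHom)
    ((Nat.bijective_iff_injective_and_card _).mpr ⟨H12.fieldHom_injective _, by rw [S1059.result F4.card, S1059.result hK]; norm_num⟩)).trans e.symm)
  let _ : MulAction H Ω := MulAction.compHom Ω ε.toMonoidHom
  have sm : ∀ (g : H) (x : Ω), g • x = ε g • x := fun _ _ => rfl
  have ob : ∀ x : Ω, orbit (stabilizer G a) x = orbit H x := fun x => Set.ext fun y => by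
    rw [mem_orbit_iff, mem_orbit_iff]
    exact ⟨fun ⟨g, h⟩ => ⟨ε.symm g, by rw [sm, ε.apply_symm_apply, h]⟩, fun ⟨g, h⟩ => ⟨ε g, by rw [← sm, h]⟩⟩
  obtain ⟨Γ, _, lam, mu, h, hg, h1, h2⟩ := H3.r3 a b c (k := 416) (l := 1365) hΩ hb hc (by norm_num) (by norm_num) (by norm_num)
  rw [ob] at h1 h2 hc
  obtain ⟨z, ω, s⟩ := main h (fun g => hg (ε g)) (fun g => (ε g).2) h1 h2 hc
  obtain ⟨Δ, _, z', ω', o, t, m1, m2, m3, m4, m5⟩ := model
  obtain ⟨β, hβ⟩ := s.iso t m1 m2 m3
  let A : Subgroup (Equiv.Perm (Via Suz.φ)) := ⟨⟨⟨{g | ∀ x y, Δ.Adj (g x) (g y) ↔ Δ.Adj x y}, fun u v x y => (u _ _).trans (v x y)⟩,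
    fun _ _ => Iff.rfl⟩, fun {g} u x y => by rw [← u]; simp⟩
  let ρ : G →* Equiv.Perm (Via Suz.φ) := β.symm.permCongrHom.toMonoidHom.comp G.subtype
  have i2 : Function.Injective ρ := β.symm.permCongrHom.injective.comp Subtype.val_injective
  let ψ : Suz.G →* Equiv.Perm (Via Suz.φ) := Suz.φ
  have i3 : Function.Injective ψ := Suz.φ_inj
  have := Suz.simple
  have := (MonoidHom.ofInjective i3).symm.isSimpleGroup
  have c1 : Nat.card ψ.range = 448345497600 := by rw [← Nat.card_congr (MonoidHom.ofInjective i3).toEquiv, Suz.card]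
  have c2 : Nat.card ρ.range = 448345497600 := by
    rw [← Nat.card_congr (MonoidHom.ofInjective i2).toEquiv, ← Nat.card_congr (orbitProdStabilizerEquivGroup G a), Nat.card_prod,
      ← Nat.card_congr ε.toEquiv, Suz.card_hs, orbit_eq_univ, Nat.card_coe_set_eq, Set.ncard_univ, Nat.card_eq_fintype_card, hΩ]
  have k : ρ.range = ψ.range := fin (A := A) (by
    rintro _ ⟨g, rfl⟩ x y
    rw [← hβ, ← hβ x, ← hg g (β x)]
    exact Iff.of_eq (congrArg₂ _ (β.apply_symm_apply _) (β.apply_symm_apply _))) (by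
    rintro _ ⟨g, rfl⟩
    exact m4 g) (c2.trans c1.symm) (by rw [c1]; exact m5 A fun _ u => u) (by rw [c1]; norm_num)
  exact ⟨(MonoidHom.ofInjective i2).trans ((MulEquiv.subgroupCongr k).trans (MonoidHom.ofInjective i3).symm)⟩

end Cfsg.Agent.S1668
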