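import Cfsg.Statements.S1892
import Cfsg.Agent.H23.Trans

set_option autoImplicit false
open Cfsg

namespace Cfsg.Agent.S1892

/-- Let S be a finite p-solvable group with no nontrivial normal subgroup of order prime to p, A a p-subgroup of S, and Q a nontrivial A-invariant subgroup of order prime to p with [A, Q] = Q. Then the commutator [O_p(S), A, Q] is nontrivial. -/
theorem result {S : Type*} [Group S] [Finite S] {p : ℕ} [Fact p.Prime]
    (hS : Cfsg.IsPSolvable p S) (hred : Cfsg.pPrimeCore p S = ⊥)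
    (A Q : Subgroup S) (hA : IsPGroup p A) (hQ : ¬ p ∣ Nat.card Q) (hQ1 : Q ≠ ⊥)
    (hinv : ∀ a ∈ A, ∀ x ∈ Q, a * x * a⁻¹ ∈ Q) (hAQ : ⁅A, Q⁆ = Q) :
    ⁅⁅Cfsg.pCore p S, A⁆, Q⁆ ≠ ⊥ := by
  have hp : p.Prime := Fact.out
  intro h
  have hQ' := FT.p'grp_of_not_dvd hQ
  have h1 := H23.comm_cents_of_comm_cents (H23.le_nrm_pCore p A) (H23.le_nrm_pCore p Q) (FT.le_nrm_iff.2 hinv)
    ((H23.pCore_pGrp hp).cop hQ') (FT.comm_eq_bot'.1 h)
  rw [FT.commC, hAQ] at h1
  exact hQ1 (((H23.pCore_pGrp hp).mono (h1.trans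
    ((H5b.isPConstrained_iff_of_bot hred).1 (H5b.isPConstrained_of_pSolvable hS)))).eq_bot hQ')

end Cfsg.Agent.S1892
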