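import Cfsg.Statements.S1893
import Mathlib
import Cfsg.Agent.FT.BG01
import Cfsg.Agent.H5.Quadratic
-- import your own Cfsg.Agent.* helpers here

set_option autoImplicit false
open Cfsg

namespace Cfsg.Agent.S1893


open Subgroup Cfsg.Agent.FT
open scoped commutatorElement

theorem le_fitting_of_quad {G : Type*} [Group G] [Finite G] (hs : Sol (⊤ : Subgroup G)) {π : Set ℕ} (h2 : 2 ∉ π)
    (h3 : 3 ∉ π) (hF : PiGrp π F((⊤ : Subgroup G))) {X : Subgroup G}
    (hq : ⁅⁅F((⊤ : Subgroup G)), X⁆, X⁆ = ⊥) : X ≤ F((⊤ : Subgroup G)) := by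
  have hcF : C(F((⊤ : Subgroup G))) ≤ F((⊤ : Subgroup G)) := by
    have := cent_sub_Fitting hs
    rwa [top_inf_eq] at this
  apply le_of_forall_pElt
  intro p hp x hx hpx
  haveI : Fact p.Prime := ⟨hp⟩
  have hx' : ⟪x⟫ ≤ X := zpowers_le.mpr hx
  have hT : O[{p}ᶜ](F((⊤ : Subgroup G))) ⊴ ⊤ := pcore_fitting_nml _ _
  set T := O[{p}ᶜ](F((⊤ : Subgroup G))) with hTdef
  have hTF : T ≤ F((⊤ : Subgroup G)) := pcore_le _ _
  have hxT : ⟪x⟫ ≤ C(T) := coprime_commGG1P (le_top.trans hT.nrm) ((pcore_pi _ _).cop' hpx.zpowers)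
    (eq_bot_iff.mpr (hq ▸ commSS (commSS hTF hx') hx'))
  have hdp := fitting_dp p (⊤ : Subgroup G)
  by_cases hpπ : p ∈ π
  · have hG : Group.IsSolvable G := by
      haveI := hs
      exact solvable_of_surjective (f := (⊤ : Subgroup G).subtype) fun g => ⟨⟨g, trivial⟩, rfl⟩
    have hqf : H5b.QF p G := H5b.qf_of_pSolvable (by rintro rfl; exact h2 hpπ) (H1.isPSolvable_of_isSolvable hp hG)
      (by rintro rfl; exact absurd hpπ h3)
    haveI : O[{p}]((⊤ : Subgroup G)).Normal := nml_top_iff.mp (pcore_nml _ _)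
    have hL : normalClosure ({x} : Set G) ⊴ ⊤ := nml_top_iff.mpr normalClosure_normal
    set L := normalClosure ({x} : Set G) with hLdef
    have hLT : L ≤ C(T) := by
      haveI : C(T).Normal := nml_top_iff.mp ⟨le_top, norms_cent hT.nrm⟩
      exact normalClosure_le_normal (by simpa using hxT (mem_zpowers x))
    have hnil : Nil L := by
      refine nil_of_quo_center (K := L ⊓ T) (le_inf inf_le_left (inf_le_right.trans (centsC hLT))) (PiGrp.nil (p := p) ?_)
      have hn : L ≤ N(L ⊓ T) := normsI (le_nrm L) (cents_norm hLT)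
      rw [PGrp, piGrp_iff_forall]
      intro u hu
      obtain ⟨y, hy, hyN, rfl⟩ := mem_quo.mp hu
      obtain ⟨k, hk⟩ := hqf.pow_mem_C O[{p}]((⊤ : Subgroup G)) (pcore_pi _ _).isPGroup
        (eq_bot_iff.mpr (hq ▸ commSS (commSS (pcore_le_fitting _ _) hx') hx')) hy
      have h1 : y ^ p ^ k ∈ F((⊤ : Subgroup G)) := by
        apply hcF
        rw [← hdp.sup, cen_sup]
        exact ⟨hk, hLT (pow_mem hy _)⟩
      obtain ⟨m, hm⟩ := (piElt_constt {p} (y ^ p ^ k)).exists_pow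
      have h4 : (y ^ p ^ k) ^ p ^ m ∈ T := by
        rw [← constt_mul_compl {p} (y ^ p ^ k), Commute.mul_pow (constt_comm _ _ _), hm, one_mul]
        exact pow_mem ((fitting_nil _).mem_pcore (constt_mem _ h1) (piElt_constt _ _)) _
      rw [pElt_iff hp]
      refine ⟨k + m, ?_⟩
      rw [← coset_pow hyN, pow_add, pow_mul]
      exact coset_of_mem ⟨pow_mem (pow_mem hy _) _, h4⟩
    exact fitting_max hL hnil (subset_normalClosure rfl)
  · have : O[{p}]((⊤ : Subgroup G)) = ⊥ := (pcore_pi _ _).eq_bot ((hF.mono (pcore_le_fitting _ _)).p'_of_not_mem hpπ)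
    apply hcF
    rw [← hdp.sup, this, bot_sup_eq]
    exact hxT (mem_zpowers x)

theorem core {G : Type*} [Group G] [Finite G] (hs : Sol (⊤ : Subgroup G)) {π : Set ℕ} (h2 : 2 ∉ π)
    (h3 : 3 ∉ π) (hF : PiGrp π F((⊤ : Subgroup G))) {A : Subgroup G} (hA : Ab A) (hn : F((⊤ : Subgroup G)) ≤ N(A))
    (hc : F((⊤ : Subgroup G)) ⊓ C(A) ≤ A) : C(A) ≤ A := by
  have hFn : ∀ X : Subgroup G, X ≤ N(F((⊤ : Subgroup G))) := fun X => le_top.trans (fitting_nrm _)
  have h1 : ⁅⁅C(A), F((⊤ : Subgroup G))⁆, A⁆ = ⊥ := by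
    apply three_subgroup
    · rw [commC, comm_eq_bot]
      exact centsC ((comm_le_right hn).trans (le_cen_cen A))
    · rw [comm_eq_bot'.mpr le_rfl, commutator_bot_left]
  have h4 : ⁅F((⊤ : Subgroup G)), C(A)⁆ ≤ A := by
    refine le_trans (le_inf (comm_le_left (hFn _)) ?_) hc
    rw [commC]; exact comm_eq_bot.mp h1
  have h5 : C(A) ≤ F((⊤ : Subgroup G)) := le_fitting_of_quad hs h2 h3 hF
    (comm_eq_bot.mpr (h4.trans (le_cen_cen A)))
  exact (le_inf h5 le_rfl).trans hc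


/-- Let S be a finite solvable group, π a set of primes containing neither 2 nor 3, H a Hall π-subgroup of S, and A a self-centralizing normal subgroup of the Fitting subgroup F(H). Then C_S(A) = A × D for a normal subgroup D of C_S(A) whose order has no prime divisor in π. -/
theorem result {S : Type*} [Group S] [Finite S] [Group.IsSolvable S]
    (π : Set ℕ) (h2 : 2 ∉ π) (h3 : 3 ∉ π) (H : Subgroup S) (hH : Cfsg.IsPiHall π H)
    (A : Subgroup S) (hA : Cfsg.IsSCN ((Cfsg.fittingSubgroup H).map H.subtype) A) :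
    ∃ D : Subgroup S, D ≤ Subgroup.centralizer (A : Set S) ∧
      (∀ c ∈ Subgroup.centralizer (A : Set S), ∀ d ∈ D, c * d * c⁻¹ ∈ D) ∧
      A ⊓ D = ⊥ ∧ A ⊔ D = Subgroup.centralizer (A : Set S) ∧
      ∀ q : ℕ, q.Prime → q ∣ Nat.card D → q ∉ π := by
  obtain ⟨hA1, hA2, hA3⟩ := hA
  change A ≤ F(H) at hA1
  change F(H) ≤ N(A) at hA2
  change F(H) ⊓ C(A) = A at hA3
  have hH' : Hall π H ⊤ := hall_iff.mpr ⟨le_top, hH.1, by simpa using hH.2⟩
  have hK : O[πᶜ]((⊤ : Subgroup S)) ⊴ ⊤ := pcore_nml _ _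
  set K := O[πᶜ]((⊤ : Subgroup S)) with hKdef
  have hKπ : PiGrp πᶜ K := pcore_pi _ _
  have hn : ∀ X : Subgroup S, X ≤ N(K) := fun X => le_top.trans hK.nrm
  have hKH : K ⊓ H = ⊥ := hKπ.inf_eq_bot' hH'.pi
  have hAab : Ab A := ab_iff.mpr (hA3.symm.le.trans inf_le_right)
  have hAH : A ≤ H := hA1.trans (fitting_le H)
  have htop : (⊤ : Subgroup S) /ₛ K = ⊤ := by rw [← quo_nrm K, ← quo_inf_nrm, inf_top_eq]
  have hsol : Sol (⊤ : Subgroup (Quo K)) := htop ▸ Sol.quo inferInstance K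
  have hF : PiGrp π F((⊤ : Subgroup (Quo K))) := fitting_pi (by rw [← htop]; exact pcore_quo_pcore _ _)
  have hF1 : F((⊤ : Subgroup (Quo K))) ≤ F(H) /ₛ K := by
    have h1 : F((⊤ : Subgroup (Quo K))) ≤ H /ₛ K := (htop ▸ hH'.quo (hn ⊤)).ge_of_nml hF (fitting_nml _)
    have h4 := quo_inf_qpre_of_le h1
    rw [← h4]
    apply quo_mono
    refine fitting_max (nml_inf_of_norms (norms_qpre (hn H) (le_top.trans (fitting_nrm _)))) ?_
    exact Nil.of_quo (K := K) (h4.symm ▸ fitting_nil _) (hn _) (inf_eq_bot_mono hKH le_rfl inf_le_left)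
  have hcore := core hsol h2 h3 hF (hAab.quo K) (hF1.trans (quo_norms K hA2)) (by
    have h4 := quo_inf_qpre_of_le (inf_le_left.trans hF1 : F((⊤ : Subgroup (Quo K))) ⊓ C(A /ₛ K) ≤ F(H) /ₛ K)
    rw [← h4]
    apply quo_mono
    refine le_trans (le_inf inf_le_left ?_) hA3.le
    have h5 := (quo_cents_iff (hn _) (hn A)).mp (h4.le.trans inf_le_right)
    rw [← comm_eq_bot, eq_bot_iff, ← hKH]
    exact le_inf h5 (comm_le_of_le (inf_le_left.trans (fitting_le H)) hAH))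
  have hC : C(A) ≤ K ⊔ A := (quo_le_quo (hn _) (hn _)).mp ((quo_cents K le_rfl).trans hcore)
  refine ⟨C(A) ⊓ K, inf_le_left, fun c hc d hd => ⟨C(A).mul_mem (C(A).mul_mem hc hd.1) (C(A).inv_mem hc), conj_mem (hn ⊤ trivial) hd.2⟩,
    ?_, ?_, fun q hq hd => (hKπ.mono inf_le_right).mem hq hd⟩
  · rw [inf_comm]; exact inf_eq_bot_mono hKH inf_le_right hAH
  · rw [sup_comm, ← inf_sup_right (hn A) hAab.le_cen, inf_eq_left.mpr hC]

end Cfsg.Agent.S1893
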