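import Cfsg.Statements.S1897
import Mathlib
import Cfsg.Agent.H19.SL2
import Cfsg.Agent.H10.SL
import Cfsg.Agent.H10.Congr
import Cfsg.Agent.H10.SmallIso2

set_option autoImplicit false
open Cfsg

namespace Cfsg.Agent.S1897

open Cfsg.Agent.H19

abbrev F9 := QuadraticAlgebra (ZMod 3) (-1) 0
instance : Fact (∀ r : ZMod 3, r ^ 2 ≠ -1 + 0 * r) := ⟨by decide⟩

instance : Fintype F9 := .ofEquiv _ (QuadraticAlgebra.equivProd _ _).symm

def X : Matrix.SpecialLinearGroup (Fin 3) F9 :=
  ⟨!![0, 0, ⟨0, 1⟩; ⟨1, 1⟩, ⟨1, 1⟩, 0; ⟨1, 1⟩, ⟨2, 2⟩, 0], by decide +kernel⟩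
def Y : Matrix.SpecialLinearGroup (Fin 3) F9 :=
  ⟨!![⟨0, 1⟩, ⟨0, 1⟩, ⟨2, 2⟩; ⟨0, 2⟩, ⟨1, 2⟩, 1; ⟨2, 2⟩, 2, ⟨0, 2⟩], by decide +kernel⟩

theorem mem_su {F : Type*} [Field F] [CharP F 3] {A : Matrix.SpecialLinearGroup (Fin 3) F}
    (h : ∀ j k, ∑ i, A i j * A i k ^ 3 = if j = k then 1 else 0) : A ∈ SU 3 F 3 := fun u v => by
  have := Fact.mk Nat.prime_three
  change ∑ i, (∑ j, A i j * u j) * (∑ k, A i k * v k) ^ 3 = ∑ j, u j * v j ^ 3
  simp only [sum_pow_char, Finset.sum_mul_sum]
  rw [Finset.sum_comm]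
  refine Finset.sum_congr rfl fun j _ => ?_
  rw [Finset.sum_comm]
  simp only [show ∀ i k, A i j * u j * (A i k * v k) ^ 3 = u j * v k ^ 3 * (A i j * A i k ^ 3) by intros; ring,
    ← Finset.mul_sum, h]
  simp

theorem rel : St.Rel (fun t : ZMod 7 => X ^ t.val) fun t => Y ^ t.val := by
  refine ⟨by decide +kernel, by decide +kernel, fun t ht u => ?_⟩
  have : t⁻¹ = t ^ 5 := inv_eq_of_mul_eq_one_left (by rw [← pow_succ]; exact ZMod.pow_card_sub_one_eq_one ht)
  rw [div_eq_mul_inv, ← inv_pow, this]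
  revert t u
  decide +kernel

/-- The projective special unitary group PSU₃(3) (realised over the field with 9 elements) has a subgroup isomorphic to PSL₂(7). -/
theorem result {F : Type*} [Field F] [Fintype F] (hF : Fintype.card F = 9)
    {K : Type*} [Field K] [Fintype K] (hK : Fintype.card K = 7) :
    ∃ H : Subgroup (Cfsg.PSU 3 F 3), Nonempty (H ≃* Matrix.ProjectiveSpecialLinearGroup (Fin 2) K) := by
  obtain ⟨e⟩ := H10.nonempty_ringEquiv_zmod (K := K) 7 (by simpa)
  let φ : F9 ≃+* F := FiniteField.ringEquivOfCardEq (by rw [hF]; decide +kernel)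
  have : CharP F 3 := charP_of_injective_ringHom (f := φ.toRingHom.comp (algebraMap (ZMod 3) F9)) (RingHom.injective _) 3
  obtain ⟨f, fx, fy⟩ := St.exists_hom_of_finite rel
  let m := Matrix.SpecialLinearGroup.map (n := Fin 3) φ.toRingHom
  have ms : ∀ A : Matrix.SpecialLinearGroup (Fin 3) F9, (∀ j k, ∑ i, A i j * A i k ^ 3 = if j = k then 1 else 0) →
      m A ∈ SU 3 F 3 := fun A h => mem_su fun j k => by
    simpa [m, apply_ite φ] using congrArg φ (h j k)
  let ψ := (m.comp f).codRestrict (SU 3 F 3) (St.sl_induction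
    (fun t => by simpa [fx] using pow_mem (ms X (by decide +kernel)) _)
    (fun t => by simpa [fy] using pow_mem (ms Y (by decide +kernel)) _) fun a b h k => by simpa using mul_mem h k)
  let π := (QuotientGroup.mk' (Subgroup.center _)).comp ψ
  have : π.ker = Subgroup.center _ := le_antisymm ((H10.normal_SL_le_center_or π.ker).resolve_right
    fun r => ?_) fun g hg => ?_
  · exact ⟨π.range, ⟨((QuotientGroup.quotientKerEquivRange π).symm.trans (QuotientGroup.quotientMulEquivOfEq this)).trans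
      (H10.pslCongr e).symm⟩⟩
  · have := congrArg Subtype.val (Subgroup.mem_center_iff.1
      ((QuotientGroup.eq_one_iff _).1 (r ((H10.commutator_SL_fin_eq_top le_rfl (by simp)).ge (Subgroup.mem_top (St.xx 1))))) (ψ (St.yy 1)))
    have : f (St.yy 1) * f (St.xx 1) = f (St.xx 1) * f (St.yy 1) := (H10.slCongr φ).injective (by
      rw [map_mul, map_mul]; exact this)
    rw [fx, fy] at this
    revert this
    decide +kernel
  · rcases St.mem_center_iff.1 hg with rfl | rfl
    · exact one_mem _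
    · have : f (-1) = 1 := by
        rw [show (-1 : Matrix.SpecialLinearGroup (Fin 2) (ZMod 7)) = (St.xx 1 * St.yy (-1) * St.xx 1) ^ 2 by
          decide +kernel]
        simp only [map_pow, map_mul, fx, fy]
        decide +kernel
      have : ψ (-1) = 1 := Subtype.ext (by simp [ψ, this])
      simp [π, this]

end Cfsg.Agent.S1897
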