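import Cfsg.Statements.S1898
import Mathlib
import Cfsg.Agent.H3.Aut

set_option autoImplicit false
open Cfsg

namespace Cfsg.Agent.S1898

open scoped commutatorElement

/-- Let X be a finite 2-group whose derived subgroup is elementary abelian and central. Then the subgroup generated by the elements of order dividing 4 has exponent dividing 4, and every automorphism of X fixing each element of order dividing 4 has 2-power order. -/
theorem result {X : Type*} [Group X] [Finite X] (hX : IsPGroup 2 X)
    (hel : Cfsg.IsElementaryAbelian 2 (commutator X)) (hcen : commutator X ≤ Subgroup.center X) :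
    (∀ x ∈ Subgroup.closure {g : X | g ^ 4 = 1}, x ^ 4 = 1) ∧
      ∀ φ : MulAut X, (∀ g : X, g ^ 4 = 1 → φ g = g) → ∃ k : ℕ, φ ^ (2 ^ k) = 1 := by
  constructor
  · have h1 : ∀ x ∈ (⊤ : Subgroup X), x ^ 2 ∈ Subgroup.centralizer ((⊤ : Subgroup X) : Set X) := by
      intro x _ y _
      have hm : ⁅x, y⁆ ∈ commutator X := Subgroup.commutator_mem_commutator (Subgroup.mem_top x) (Subgroup.mem_top y)
      rw [eq_comm, ← commutatorElement_eq_one_iff_mul_comm,
        H3.comm_pow_left (H3.commute_of_mem_center (hcen hm) x), hel.2 _ hm]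
    have h2 : ⁅(⊤ : Subgroup X), (⊤ : Subgroup X)⁆ ≤ Subgroup.centralizer ((⊤ : Subgroup X) : Set X) := by
      rw [Subgroup.coe_top, Subgroup.centralizer_univ]; exact hcen
    intro x hx
    rw [← H3.omegaOne_top] at hx
    exact ((H3.mem_omega_iff_of_critical h1 h2 (by decide)).mp hx).2
  · intro φ hφ
    obtain ⟨k, hk⟩ := H3.exists_orderOf_eq_pow (p := 2) (x := φ) fun k hk =>
      H3.aut_eq_one_of_fix_omega hX (n := 2) two_ne_zero (by norm_num) hk
        fun x hx => H3.aut_pow_apply_eq (hφ x hx) k
    exact ⟨k, by rw [← hk, pow_orderOf_eq_one]⟩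

end Cfsg.Agent.S1898
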