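import Cfsg.Statements.S1899
import Mathlib
import Cfsg.Agent.H2.Sig2

set_option autoImplicit false
open Cfsg

namespace Cfsg.Agent.S1899

open Cfsg.Agent.FT Subgroup
open scoped commutatorElement

/-- Let a dihedral group of order 2n, n odd and n > 1, act on a finite abelian 2-group A through automorphisms d and t with d^n = 1, t² = 1 and t d t⁻¹ = d⁻¹, and suppose that d fixes only the identity. Then A is the internal direct product of C_A(t) and its image under d. -/
theorem result {A : Type*} [CommGroup A] [Finite A] (hA : IsPGroup 2 A)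
    {n : ℕ} (hn : Odd n) (hn1 : 1 < n) (d t : MulAut A) (hd : d ^ n = 1) (ht : t ^ 2 = 1) (hdt : t * d * t⁻¹ = d⁻¹)
    (hfix : ∀ a : A, d a = a → a = 1) :
    (MulEquiv.toMonoidHom t).eqLocus (MonoidHom.id A) ⊓ ((MulEquiv.toMonoidHom t).eqLocus (MonoidHom.id A)).map d.toMonoidHom = ⊥ ∧
      (MulEquiv.toMonoidHom t).eqLocus (MonoidHom.id A) ⊔ ((MulEquiv.toMonoidHom t).eqLocus (MonoidHom.id A)).map d.toMonoidHom = ⊤ := by
  have mem : ∀ a : A, a ∈ (MulEquiv.toMonoidHom t).eqLocus (MonoidHom.id A) ↔ t a = a := fun a => Iff.rfl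
  have h2 : ∀ b : A, d (d b) = b → b = 1 := by
    intro b hb
    obtain ⟨k, rfl⟩ := hn
    have : ∀ j : ℕ, (d ^ (2 * j)) b = b := by
      intro j
      induction j with
      | zero => simp
      | succ j ih => rw [Nat.mul_succ, pow_add, MulAut.mul_apply, pow_two, MulAut.mul_apply, hb, ih]
    apply hfix
    have h3 := DFunLike.congr_fun hd b
    rwa [pow_succ', MulAut.mul_apply, this, MulAut.one_apply] at h3
  have tt : ∀ a, t (t a) = a := fun a => by
    have := DFunLike.congr_fun ht a
    rwa [pow_two, MulAut.mul_apply, MulAut.one_apply] at this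
  have td : ∀ a, d (t (d a)) = t a := fun a => by
    have e : d * t * d = t := by
      have : t * d = d⁻¹ * t := by rw [← hdt]; group
      rw [mul_assoc, this]; group
    exact DFunLike.congr_fun e a
  refine ⟨eq_bot_iff.2 ?_, eq_top_iff.2 fun a _ => ?_⟩
  · rintro _ ⟨h3, b, hb, rfl⟩
    have h4 : t (d b) = d b := h3
    have h5 : t b = b := hb
    have := td b
    rw [h4, h5] at this
    rw [h2 b this]; simp
  · have inj : Function.Injective fun w : A => w * (d (d w))⁻¹ := by
      intro w w' e
      have e' : w * (d (d w))⁻¹ = w' * (d (d w'))⁻¹ := e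
      have := h2 (w * w'⁻¹) (by
        rw [map_mul, map_mul, map_inv, map_inv]
        calc d (d w) * (d (d w'))⁻¹ = d (d w) * (w' * (d (d w'))⁻¹) * w'⁻¹ := by
              rw [mul_comm w', mul_assoc, mul_assoc, mul_inv_cancel, mul_one]
          _ = w * w'⁻¹ := by rw [← e', mul_comm w, mul_inv_cancel_left])
      exact mul_inv_eq_one.1 this
    obtain ⟨w, rfl⟩ := Finite.injective_iff_surjective.1 inj a
    have e : w * (d (d w))⁻¹ = (w * t w) * d ((d w)⁻¹ * t (d w)⁻¹) := by
      rw [map_mul, map_inv t, map_inv d (t _), td, map_inv]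
      rw [mul_comm (d (d w))⁻¹, mul_assoc, ← mul_assoc (t w), mul_inv_cancel, one_mul]
    show w * (d (d w))⁻¹ ∈ _
    rw [e]
    refine mul_mem (mem_sup_left ((mem _).2 ?_)) (mem_sup_right ⟨_, (mem _).2 ?_, rfl⟩)
    · rw [map_mul, tt, mul_comm]
    · rw [map_mul, tt, mul_comm]

end Cfsg.Agent.S1899
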