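import Cfsg.Statements.S1900
import Mathlib
import Cfsg.Agent.H2.Sig2

set_option autoImplicit false
open Cfsg

namespace Cfsg.Agent.S1900

open Cfsg.Agent.FT Subgroup
open scoped commutatorElement

theorem step {G : Type*} [Group G] [Finite G] {P X Y U V : Subgroup G} (hV : V ⊴ ⊤) (nY : X ≤ C(Y)) (nP : X ≤ N(P))
    (hc : Cop P X) (hs : Sol P) (h0 : P ⊓ C(Y) ⊓ C(X) = ⊥) (h1 : ⁅U, X⁆ ≤ V)
    (h2 : ⁅P ⊓ C(X), P ⊓ C(Y)⁆ ≤ U) : ⁅P ⊓ C(X), P ⊓ C(Y)⁆ ≤ V := by
  have e := coprime_comm_eq_of_cent_bot (normsI nP (norms_cent (cents_norm nY))) (hc.mono_left inf_le_left)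
    (Or.inl (hs.mono inf_le_left)) h0
  rw [commC, ← e]
  refine three_subgroup_mod (le_top.trans hV.nrm) (le_top.trans hV.nrm) (le_top.trans hV.nrm) ?_
    ((commSS h2 le_rfl).trans h1)
  rw [comm_eq_bot'.2 inf_le_right, commutator_bot_left]; exact bot_le

/-- Let S = PQ be a finite group with P a normal Sylow p-subgroup and Q elementary abelian of order q², q a prime different from p. If exactly two subgroups X₁, X₂ of order q in Q have a nontrivial centralizer in P, then P is the internal direct product of C_P(X₁) and C_P(X₂): they commute elementwise, meet trivially and generate P. -/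
theorem result {S : Type*} [Group S] [Finite S] {p q : ℕ} [Fact p.Prime] [Fact q.Prime] (hpq : p ≠ q)
    (P : Sylow p S) [(P : Subgroup S).Normal] (Q : Subgroup S) (hQ : Cfsg.IsElementaryAbelian q Q) (hQc : Nat.card Q = q ^ 2)
    (hS : (P : Subgroup S) ⊔ Q = ⊤)
    (X₁ X₂ : Subgroup S) (h₁ : X₁ ≤ Q) (h₂ : X₂ ≤ Q) (h₁₂ : X₁ ≠ X₂) (hc₁ : Nat.card X₁ = q) (hc₂ : Nat.card X₂ = q)
    (hf₁ : (P : Subgroup S) ⊓ Subgroup.centralizer (X₁ : Set S) ≠ ⊥)
    (hf₂ : (P : Subgroup S) ⊓ Subgroup.centralizer (X₂ : Set S) ≠ ⊥)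
    (honly : ∀ X : Subgroup S, X ≤ Q → Nat.card X = q →
      (P : Subgroup S) ⊓ Subgroup.centralizer (X : Set S) ≠ ⊥ → X = X₁ ∨ X = X₂) :
    ⁅(P : Subgroup S) ⊓ Subgroup.centralizer (X₁ : Set S), (P : Subgroup S) ⊓ Subgroup.centralizer (X₂ : Set S)⁆ = ⊥ ∧
      ((P : Subgroup S) ⊓ Subgroup.centralizer (X₁ : Set S)) ⊓ ((P : Subgroup S) ⊓ Subgroup.centralizer (X₂ : Set S)) = ⊥ ∧
      ((P : Subgroup S) ⊓ Subgroup.centralizer (X₁ : Set S)) ⊔ ((P : Subgroup S) ⊓ Subgroup.centralizer (X₂ : Set S)) = P := by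
  have hp : p.Prime := Fact.out
  have hq : q.Prime := Fact.out
  have pP := (syl_top hp P).pi
  have hQ' : PnElem q 2 Q Q := ⟨hq, le_rfl, hQ, hQc⟩
  have e1 := pnElem_one hq h₁ hc₁
  have e2 := pnElem_one hq h₂ hc₂
  have dp := hQ'.dp_two e1 e2 h₁₂
  have nP : (P : Subgroup S) ⊴ ⊤ := nml_top_iff.2 inferInstance
  have hc : Cop (P : Subgroup S) Q := pP.cop_of_ne hQ'.pGrp hpq
  have h0 : (P : Subgroup S) ⊓ C(X₁) ⊓ C(X₂) = ⊥ := by
    by_contra hn
    obtain ⟨x, hx, x1⟩ := exists_ne_one e1.ne_bot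
    obtain ⟨y, hy, y1⟩ := exists_ne_one e2.ne_bot
    have hxy : x * y ∈ Q := mul_mem (h₁ hx) (h₂ hy)
    have n1 : x * y ∉ X₁ := fun h => y1 (eq_one_of_mem_inf dp.inf ((mul_mem_cancel_left hx).1 h) hy)
    have n2 : x * y ∉ X₂ := fun h => x1 (eq_one_of_mem_inf dp.inf hx ((mul_mem_cancel_right hy).1 h))
    rcases honly ⟪x * y⟫ (zpowers_le.2 hxy) (hQ'.abelem.card_zpowers hq hxy fun e => n1 (e ▸ one_mem _))
      (ne_bot_of_le (by
        rw [inf_assoc, ← cen_sup, dp.sup]; exact inf_le_inf_left _ (cen_anti (zpowers_le.2 hxy))) hn) with h | h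
    · exact n1 (h ▸ mem_zpowers _)
    · exact n2 (h ▸ mem_zpowers _)
  have gen : ∀ U L : Subgroup S, U ≤ P → Q ≤ N(U) → U ⊓ C(X₁) ≤ L → U ⊓ C(X₂) ≤ L → U ≤ L := by
    intro U L hU nU a1 a2
    refine hQ'.gen_cent_one nU (hc.mono_left hU) fun X hX => ?_
    by_cases h : (P : Subgroup S) ⊓ C(X) = ⊥
    · exact (inf_le_inf_right _ hU).trans (h.le.trans bot_le)
    · rcases honly X hX.le hX.card_one h with rfl | rfl
      exacts [a1, a2]
  refine ⟨le_bot_iff.1 (chief_ind_down (P := fun V => ⁅(P : Subgroup S) ⊓ C(X₁), (P : Subgroup S) ⊓ C(X₂)⁆ ≤ V)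
    (nml_bot ⊤) nP bot_le (comm_le_of_le inf_le_left inf_le_left) fun V U ch _ hU h => ?_), ?_,
    le_antisymm (sup_le inf_le_left inf_le_left) (gen _ _ le_rfl (le_top.trans nP.nrm) le_sup_left le_sup_right)⟩
  · have c := ch.comm_nil_le pP.nil nP
    have key : ∀ X, X ≤ Q → U ⊓ C(X) ≤ V ∨ ⁅U, X⁆ ≤ V := by
      intro X hX
      rcases ch.eq_or_eq (W := V ⊔ U ⊓ C(X)) le_sup_left (sup_le ch.lt.le inf_le_left) (hS.ge.trans (sup_le
        (norms_of_comm_le ((commSS (sup_le ch.lt.le inf_le_left) le_rfl).trans (c.trans le_sup_left)))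
        (normsY (le_top.trans ch.nmlV.nrm) (normsI (le_top.trans ch.nmlU.nrm)
          (norms_cent (hQ'.ab.norms hX)))))) with h | h
      · exact Or.inl (le_sup_right.trans h.le)
      · refine Or.inr ((commSS h.ge le_rfl).trans (comm_sup_le (le_top.trans ch.nmlV.nrm)
          (comm_le_left (le_top.trans ch.nmlV.nrm)) ?_))
        rw [comm_eq_bot.2 inf_le_right]; exact bot_le
    rcases key X₁ h₁ with a1 | a1
    · rcases key X₂ h₂ with a2 | a2
      · exact absurd (gen U V hU (le_top.trans ch.nmlU.nrm) a1 a2) (not_le_of_gt ch.lt)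
      · rw [commC] at h ⊢
        exact step ch.nmlV dp.cen (le_top.trans nP.nrm) (hc.mono_right h₂) pP.sol h0 a2 h
    · exact step ch.nmlV (centsC dp.cen) (le_top.trans nP.nrm) (hc.mono_right h₁) pP.sol
        (by rw [inf_right_comm]; exact h0) a1 h
  · rw [← h0]; exact le_antisymm (inf_le_inf_left _ inf_le_right) (le_inf inf_le_left
      (inf_le_inf_right _ inf_le_left))

end Cfsg.Agent.S1900
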