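import Cfsg.Statements.S1901
import Mathlib
import Cfsg.Agent.H2.Sig2

set_option autoImplicit false
open Cfsg

namespace Cfsg.Agent.S1901

open Cfsg.Agent.FT Subgroup
open scoped commutatorElement

theorem step {G : Type*} [Group G] [Finite G] {p : ℕ} {P Q R U V : Subgroup G} (hp : p.Prime) (hV : V ⊴ ⊤)
    (hU : U ⊴ ⊤) (hP : Syl p P ⊤) (hQ : PiGrp {p}ᶜ Q) (hR : PGrp p R) (n1 : Q ≤ N(P)) (n2 : R ≤ N(Q))
    (h : (∃ m : ℕ, V.relIndex U = p ^ m) ∨ (V.relIndex U).Coprime p) (h1 : ⁅Q, R⁆ ≤ U) : ⁅Q, R⁆ ≤ V := by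
  have nV : ∀ X : Subgroup G, X ≤ N(V) := fun X => le_top.trans hV.nrm
  have h2 : ⁅Q, R⁆ ≤ Q := comm_le_left n2
  rcases h with ⟨m, h⟩ | h
  · exact (hQ.mono h2).le_of_relIndex h1 (nV _) (piNat_compl_compl.2 (h ▸ piNat_self_pow hp m))
  · have pU : PiGrp {p}ᶜ (U /ₛ V) := (piGrp_quo_iff (nV _)).2 ((p'nat_iff_coprime hp).2 h)
    have hP' := hP.quo (nV _)
    have c1 : P /ₛ V ≤ C(⁅Q, R⁆ /ₛ V) := by
      refine comm_eq_bot.1 (le_bot_iff.1 ?_)
      rw [← hP'.pi.inf_eq_bot pU]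
      exact le_inf (comm_le_left (quo_norms V (h2.trans n1))) ((commSS le_rfl (quo_mono V h1)).trans
        (comm_le_right (quo_norms V (le_top.trans hU.nrm))))
    have c2 : R /ₛ V ≤ C(⁅Q, R⁆ /ₛ V) :=
      (hP'.subl_inf (cents_norm c1)).le_of_syl_le (inf_le_right.trans (cen_nml_nrm _).nrm) c1 (hR.quo V)
        (le_inf (quo_mono V le_top) (quo_norms V (norm_comm_right _ _)))
    rw [← coprime_commGid n2 (hQ.cop' hR), commC]
    exact (quo_cents_iff (nV _) (nV _)).1 c2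

/-- Let G be a finite p-solvable group and Q a subgroup of order prime to p such that p divides the index of C_G(Q) in N_G(Q). Then Q normalizes no Sylow p-subgroup of G. -/
theorem result {G : Type*} [Group G] [Finite G] {p : ℕ} [Fact p.Prime]
    (hG : Cfsg.IsPSolvable p G) (Q : Subgroup G) (hQ : ¬ p ∣ Nat.card Q)
    (hA : p ∣ (Subgroup.centralizer (Q : Set G)).relIndex (Subgroup.normalizer (Q : Set G)))
    (P : Sylow p G) : ¬ Q ≤ Subgroup.normalizer ((P : Subgroup G) : Set G) := by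
  have hp : p.Prime := Fact.out
  intro hn
  obtain ⟨R, hR⟩ := exists_syl p N(Q)
  obtain ⟨n, H, h0, h1, -, h2, h3⟩ := hG
  have : ∀ i, ⁅Q, R⁆ ≤ H i := fun i => Fin.reverseInduction (h1 ▸ le_top) (fun i ih =>
    step hp (nml_top_iff.2 (h2 _)) (nml_top_iff.2 (h2 _)) (syl_top hp P) (p'grp_of_not_dvd hQ) hR.pi hn hR.le
      (h3 i) ih) i
  exact (p'nat_iff hp).1 (hR.relIndex_of_le (comm_eq_bot'.1 (le_bot_iff.1 (h0 ▸ this 0)))) hA

end Cfsg.Agent.S1901
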