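import Cfsg.Statements.S1902
import Cfsg.Agent.H23.Trans

set_option autoImplicit false
open Cfsg

namespace Cfsg.Agent.S1902

/-- Let p be an odd prime, G a finite p-solvable group, and B an elementary abelian subgroup of order p² such that B is the subgroup generated by the elements of order p of some Sylow p-subgroup of C_G(b₀), for some nontrivial b₀ ∈ B. Then every B-invariant subgroup of G of order prime to p lies in O_{p'}(G). -/
theorem result {G : Type*} [Group G] [Finite G] {p : ℕ} [Fact p.Prime] (hp : p ≠ 2)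
    (hG : Cfsg.IsPSolvable p G) (B : Subgroup G) (hB : Cfsg.IsElementaryAbelian p B) (hBc : Nat.card B = p ^ 2)
    (b₀ : G) (hb₀ : b₀ ∈ B) (hb₁ : b₀ ≠ 1) (P : Sylow p ↥(Subgroup.centralizer ({b₀} : Set G)))
    (hBP : B = Subgroup.closure {x : G | x ∈ ((P : Subgroup ↥(Subgroup.centralizer ({b₀} : Set G))).map
      (Subgroup.centralizer ({b₀} : Set G)).subtype : Subgroup G) ∧ orderOf x = p})
    (Q : Subgroup G) (hQ : ¬ p ∣ Nat.card Q) (hinv : ∀ b ∈ B, ∀ x ∈ Q, b * x * b⁻¹ ∈ Q) :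
    Q ≤ Cfsg.pPrimeCore p G := by
  have hp' : p.Prime := Fact.out
  have hX' : Cfsg.IsPConstrained p (⊤ : Subgroup G) := by
    rw [← FT.nrm_bot]
    exact (H5b.IsPConstrained.normalizer (H5b.isPConstrained_of_pSolvable hG) (P := ⊥) IsPGroup.of_bot).1
  have := H23.thompson_bender hp' hp hX' le_top (FT.Abelem.pGrp hB hp') (fun x hx e => by
    have h1 := FT.Abelem.sup_zpowers hB hx.2 e
    obtain ⟨g, -, hg⟩ := (FT.syl_map_subtype hp' P).syl_Jsub (h1.pGrp hp')
      (sup_le ((FT.Abelem.ab hB).le_cen1 hb₀) (Subgroup.zpowers_le.2 (FT.cen_le_cen1 hb₀ hx.2)))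
    have h2 : FT.cj g (B ⊔ Subgroup.zpowers x) ≤ B := fun y hy => by
      by_cases h0 : y = 1
      · exact h0 ▸ one_mem B
      · rw [hBP]; exact Subgroup.subset_closure ⟨hg hy, (h1.cj g).orderOf hp' hy h0⟩
    have h3 : B = B ⊔ Subgroup.zpowers x :=
      Subgroup.eq_of_le_of_card_ge le_sup_left (FT.card_cj g _ ▸ Subgroup.card_le_of_le h2)
    rw [h3]; exact Subgroup.mem_sup_right (Subgroup.mem_zpowers x)) le_top (FT.p'grp_of_not_dvd hQ)
    (FT.le_nrm_iff.2 hinv)
  rwa [FT.pcore_top, FT.piCore_compl_singleton hp'] at this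

end Cfsg.Agent.S1902
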