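import Cfsg.Statements.S1905
import Mathlib
import Cfsg.Agent.H20.SEc
-- import your own Cfsg.Agent.* helpers here

set_option autoImplicit false
open Cfsg

namespace Cfsg.Agent.S1905

open Cfsg.Agent.H20 Cfsg.Agent.FT Subgroup

/-- Let M be a subgroup of even order of a finite group S such that M contains the centralizer in S of each of its involutions and the normal core of M in S has odd order. Then all involutions of S are conjugate. If moreover N_S(X) ≤ M for a Sylow 2-subgroup X of M and I is an involution in the centre of X, then all involutions of M are conjugate in M and M = M₀ C_M(I) for some subgroup M₀ of M of odd order. -/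
theorem result {S : Type*} [Group S] [Finite S] (M : Subgroup S) (hM : Even (Nat.card M))
    (hC : ∀ i ∈ M, orderOf i = 2 → Subgroup.centralizer ({i} : Set S) ≤ M) (hcore : Odd (Nat.card M.normalCore)) :
    (∀ x y : S, orderOf x = 2 → orderOf y = 2 → IsConj x y) ∧
      ∀ (X : Sylow 2 M) (I : M), I ∈ (Subgroup.center ↥(X : Subgroup ↥M)).map (X : Subgroup ↥M).subtype → orderOf I = 2 →
        Subgroup.normalizer (((X : Subgroup M).map M.subtype : Subgroup S) : Set S) ≤ M →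
        (∀ x y : M, orderOf x = 2 → orderOf y = 2 → IsConj x y) ∧
          ∃ M₀ : Subgroup M, Odd (Nat.card M₀) ∧
            ∀ m : M, ∃ a ∈ M₀, ∃ c ∈ Subgroup.centralizer ({I} : Set M), m = a * c := by
  have h2 := Nat.prime_two
  have out : ∀ i ∈ M, orderOf i = 2 → ∃ j, orderOf j = 2 ∧ j ∉ M := fun i hi i2 => by_contra fun e => by
    push Not at e
    exact odd_card_iff.1 hcore i (fun g => e _ ((H20.orderOf_conj g i).trans i2)) i2
  have cj1 : ∀ i ∈ M, ∀ j ∉ M, orderOf i = 2 → orderOf j = 2 → IsConj i j := fun i hi j hj i2 j2 =>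
    isConj_of_odd_orderOf_mul (mul_self_of_orderOf_two i2) (mul_self_of_orderOf_two j2) (Nat.not_even_iff_odd.1 fun e => by
      obtain ⟨k1, k2, k3⟩ := half_pow_spec (mul_self_of_orderOf_two i2) (mul_self_of_orderOf_two j2) e
      exact hj (hC _ (hC i hi i2 (mem_cen1.2 k2)) k1 (mem_cen1.2 k3.symm)))
  obtain ⟨i, hi, i2⟩ := exists_involution_mem_of_even hM
  obtain ⟨u, u2, hu⟩ := out i hi i2
  refine ⟨fun x y hx hy => ?_, fun X I hI I2 hN => ?_⟩
  · by_cases h : x ∈ M <;> by_cases h' : y ∈ M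
    exacts [(cj1 x h u hu hx u2).trans (cj1 y h' u hu hy u2).symm, cj1 x h y h' hx hy, (cj1 y h' x h hy hx).symm,
      (cj1 i hi x h i2 hx).symm.trans (cj1 i hi y h' i2 hy)]
  have hX : Syl 2 ((X : Subgroup M).map M.subtype) M := hall_map_subtype.2 (hall_top_iff.1 (syl_top h2 X))
  have se : IsStronglyEmbedded M := H20.SEc.se_of_invol (fun e => hu (e.ge (mem_top u))) hM.two_dvd fun g t t2 ht ht' => by
    have hC' : ∀ i ∈ cj g M, orderOf i = 2 → C[i] ≤ cj g M := fun i hi i2 => by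
      obtain ⟨r, hr, rfl⟩ := mem_cj'.1 hi
      rw [← cj_cen1]
      exact cj_mono g (hC r hr ((H20.orderOf_conj g r).symm.trans i2))
    obtain ⟨T, hT, tT⟩ := (pElt_of_pow_eq_one h2 (t2 ▸ pow_orderOf_eq_one t)).zpowers.exists_syl (zpowers_le.2 ht)
    have tT := tT (mem_zpowers t)
    obtain ⟨z, hz, z2⟩ := (hT.pi.mono (inf_le_left : Z(T) ≤ T)).exists_elt
      (hT.pi.center_ne_bot fun e => ne_one_of_orderOf_two t2 (e.le tT))
    have k : T ≤ cj g M := (le_cen1.2 hz.2).trans (hC' z (hC' t ht' t2 (mem_cen1.2 (mem_cen.1 hz.2 t tT).symm)) z2)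
    obtain ⟨a, ha, e1⟩ := hX.syl_trans hT
    have k' := ((hX.cj g).of_card_eq k (by rw [card_cj, hT.card_eq hX])).cj g⁻¹
    rw [cj_inv_cj] at k'
    obtain ⟨b, hb, e2⟩ := hX.syl_trans k'
    have : b⁻¹ * g⁻¹ * a ∈ M := hN (cj_eq_self.1 (by rw [← cj_cj, ← cj_cj, ← e1, e2, cj_inv_cj]))
    exact inv_mem_iff.1 ((mul_mem_cancel_left (inv_mem hb)).1 ((mul_mem_cancel_right ha).1 this))
  have o : ∀ x : M, orderOf x = 2 → orderOf (x : S) = 2 := fun x h => (orderOf_coe x).trans h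
  refine ⟨fun x y hx hy => ?_, (M ⊓ cj u M).subgroupOf M, ?_, fun m => ?_⟩
  · obtain ⟨d, hd, e⟩ := se_exists_conj_mem se x.2 (o x hx) y.2 (o y hy)
    exact isConj_iff.2 ⟨⟨d, hd⟩, Subtype.ext e⟩
  · refine odd_card_iff.2 fun t ht t2 => hu ?_
    simpa using inv_mem (se_mem se t.2 (o t t2) (g := u⁻¹) (by simpa using mem_cj.1 ht.2))
  · obtain ⟨d, hd, e1, e2⟩ := se_exists_conj_inverted se u2 hu I.2 (o I I2) (m * I * m⁻¹).2
      (o _ ((H20.orderOf_conj m I).trans I2))
    refine ⟨⟨d, hd⟩, ⟨hd, mem_cj'.2 ⟨d⁻¹, inv_mem hd, by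
      change d = _
      rw [← inv_inv (u * d⁻¹ * u⁻¹), show (u * d⁻¹ * u⁻¹)⁻¹ = u * d * u⁻¹ by group, e1, inv_inv]⟩⟩, ⟨d, hd⟩⁻¹ * m,
      mem_cent_iff_conj.2 (Subtype.ext ?_), by simp⟩
    calc _ = d⁻¹ * ((m * I * m⁻¹ : M) : S) * d := by simp [mul_assoc]
      _ = _ := by rw [← e2]; group

end Cfsg.Agent.S1905
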