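import Cfsg.Statements.S1906
import Mathlib
import Cfsg.Agent.FT.BG01
import Cfsg.Agent.H12.CT5
import Cfsg.Agent.H18.Transfer
import Cfsg.Agent.H4.Transfer2
-- import your own Cfsg.Agent.* helpers here

set_option autoImplicit false
open Cfsg

namespace Cfsg.Agent.S1906


open Subgroup Cfsg.Agent.FT Cfsg.Agent.H18 Cfsg.Agent.H17 Matrix
open scoped commutatorElement MatrixGroups

theorem exists_ker {X F : Type*} [Group X] [Finite X] [Field F] {E : Subgroup X} (hE : ∀ x ∈ E, x * x = 1)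
    (h8 : Nat.card E = 8) (d : X →* F) (z : X) : ∃ b ∈ E, d b = 1 ∧ b ≠ 1 ∧ b ≠ z := by
  classical
  by_contra h
  push Not at h
  let φ := d.toHomUnits.comp E.subtype
  have h1 := Subgroup.card_eq_card_quotient_mul_card_subgroup φ.ker
  rw [Nat.card_congr (QuotientGroup.quotientKerEquivRange φ).toEquiv, h8] at h1
  have h2 : Nat.card φ.range ≤ 2 := by
    refine (Set.ncard_le_ncard (t := {1, -1}) ?_).trans (Set.ncard_insert_le _ _ |>.trans (by simp))
    rintro _ ⟨x, rfl⟩
    have : d x * d x = 1 := by rw [← map_mul, hE x x.2, map_one]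
    rcases mul_self_eq_one_iff.1 this with e | e
    · exact Or.inl (Units.ext e)
    · exact Or.inr (Units.ext e)
  have h3 : Nat.card φ.ker ≤ 2 := by
    rw [← card_map_inj E.subtype_injective]
    refine (Set.ncard_le_ncard (t := {1, z}) ?_).trans (Set.ncard_insert_le _ _ |>.trans (by simp))
    rintro _ ⟨x, hx, rfl⟩
    by_cases h4 : (x : X) = 1
    · exact Or.inl h4
    · exact Or.inr (h x x.2 (congrArg Units.val hx) h4)
  nlinarith

theorem two_sq {F : Type*} [Field F] {N : Matrix (Fin 2) (Fin 2) F} (h : N * N = 1) (hd : N.det = 1)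
    (h2 : (2 : F) ≠ 0) : N = 1 ∨ N = -1 := by
  have e := fun i j => congrFun (congrFun h i) j
  have e0 := e 0 0
  have e1 := e 0 1
  have e2 := e 1 0
  simp [Matrix.mul_apply] at e0 e1 e2
  rw [det_fin_two] at hd
  have ht : N 0 0 + N 1 1 ≠ 0 := fun h3 => h2 (by linear_combination (N 0 0) * h3 - e0 - hd)
  have b : N 0 1 = 0 := (mul_eq_zero.1 (by linear_combination e1 : N 0 1 * (N 0 0 + N 1 1) = 0)).resolve_right ht
  have c : N 1 0 = 0 := (mul_eq_zero.1 (by linear_combination e2 : N 1 0 * (N 0 0 + N 1 1) = 0)).resolve_right ht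
  rw [b] at e0 hd
  rcases mul_self_eq_one_iff.1 (by linear_combination e0 : N 0 0 * N 0 0 = 1) with a | a
  · left
    have : N 1 1 = 1 := by rw [a] at hd; linear_combination hd
    ext i j; fin_cases i <;> fin_cases j <;> simp [*]
  · right
    have : N 1 1 = -1 := by rw [a] at hd; linear_combination -hd
    ext i j; fin_cases i <;> fin_cases j <;> simp [*]

theorem two_comm {F : Type*} [Field F] {N A B : Matrix (Fin 2) (Fin 2) F} (h : N * N = 1) (h1 : N ≠ 1) (h2 : N ≠ -1)
    (hA : N * A = A * N) (hB : N * B = B * N) : A * B = B * A := by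
  have e := fun i j => congrFun (congrFun hA i) j
  have e' := fun i j => congrFun (congrFun hB i) j
  have a0 := e 0 0
  have a1 := e 0 1
  have a2 := e 1 0
  have b0 := e' 0 0
  have b1 := e' 0 1
  have b2 := e' 1 0
  simp only [Matrix.mul_apply, Fin.sum_univ_two] at a0 a1 a2 b0 b1 b2
  have key : ∀ t : F, t = N 0 1 ∨ t = N 1 0 ∨ t = N 0 0 - N 1 1 → t • (A * B) = t • (B * A) := by
    rintro t (rfl | rfl | rfl) <;> ext i j <;> fin_cases i <;> fin_cases j <;>
      simp [Matrix.mul_apply, Fin.sum_univ_two] <;> grind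
  by_contra h3
  have k : ∀ t : F, t = N 0 1 ∨ t = N 1 0 ∨ t = N 0 0 - N 1 1 → t = 0 := fun t ht => by
    by_contra h4
    exact h3 (smul_right_injective _ h4 (key t ht))
  have c1 := k _ (Or.inl rfl)
  have c2 := k _ (Or.inr (Or.inl rfl))
  have c3 := (sub_eq_zero.1 (k _ (Or.inr (Or.inr rfl)))).symm
  have e0 := congrFun (congrFun h 0) 0
  simp [Matrix.mul_apply, c1] at e0
  rcases mul_self_eq_one_iff.1 e0 with a | a
  · exact h1 (by ext i j; fin_cases i <;> fin_cases j <;> simp [*])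
  · exact h2 (by ext i j; fin_cases i <;> fin_cases j <;> simp [*])

theorem core {X F : Type*} [Group X] [Finite X] [Field F] (h2 : (2 : F) ≠ 0) (f : X →* GL (Fin 3) F)
    (hf : Function.Injective f) {E : Subgroup X} (hE : ∀ x ∈ E, x * x = 1) (h8 : Nat.card E = 8) {z : X}
    (hz : z * z = 1) (hz1 : z ≠ 1) (hzc : ∀ x, z * x = x * z) (hzd : (f z).1.det = 1) (hna : ¬ IsMulCommutative X) :
    ∃ (l : X →* F) (u : X), u * u = 1 ∧ (∀ x, u * x = x * u) ∧ l u = -1 ∧
      ∀ c, c * c = 1 → (∀ x, c * x = x * c) → l c = 1 → c = 1 ∨ c = z := by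
  let f₀ : X →* Matrix (Fin 3) (Fin 3) F := (Units.coeHom _).comp f
  have hf₀ : Function.Injective f₀ := Units.val_injective.comp hf
  obtain ⟨b, hb, b1, b2, b3⟩ := exists_ker hE h8 (detMonoidHom.comp f₀) z
  obtain ⟨g, hg, -⟩ := H12.exists_conj_pair h2 (a := ⟨f₀ z, hzd⟩) (b := ⟨f₀ b, b1⟩)
    (Subtype.ext (show f₀ z * f₀ z = 1 by rw [← map_mul, hz, map_one]))
    (Subtype.ext (show f₀ b * f₀ b = 1 by rw [← map_mul, hE b hb, map_one]))
    (Subtype.ext (show f₀ z * f₀ b = f₀ b * f₀ z by rw [← map_mul, hzc b, map_mul])) (fun e => hz1 (hf₀ ((congrArg Subtype.val e).trans (map_one f₀).symm)))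
    (fun e => b2 (hf₀ ((congrArg Subtype.val e).trans (map_one f₀).symm))) fun e => b3 (hf₀ (congrArg Subtype.val e)).symm
  have g1 : g.1 * (g⁻¹).1 = 1 := congrArg Subtype.val (mul_inv_cancel g)
  have g2 : (g⁻¹).1 * g.1 = 1 := congrArg Subtype.val (inv_mul_cancel g)
  let φ : X →* Matrix (Fin 3) (Fin 3) F :=
    { toFun x := (g⁻¹).1 * f₀ x * g.1
      map_one' := by rw [map_one, mul_one, g2]
      map_mul' x y := by
        rw [map_mul]
        simp only [mul_assoc]
        rw [← mul_assoc g.1, g1, one_mul] }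
  have hφ : Function.Injective φ := fun x y e => hf₀ (by
    have : g.1 * ((g⁻¹).1 * f₀ x * g.1) * (g⁻¹).1 = g.1 * ((g⁻¹).1 * f₀ y * g.1) * (g⁻¹).1 := congrArg (g.1 * · * (g⁻¹).1) e
    simpa only [← mul_assoc, g1, one_mul, mul_assoc _ g.1, mul_one] using this)
  have hD : φ z = !![-1, 0, 0; 0, -1, 0; 0, 0, 1] := by
    have : g.1 * (H12.i1 (-1 : SL(2, F))).1 * (g⁻¹).1 = f₀ z := congrArg Subtype.val hg
    change (g⁻¹).1 * f₀ z * g.1 = _
    rw [← this]
    simp only [← mul_assoc, g2, one_mul, mul_assoc _ (g⁻¹).1, mul_one]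
    simp [H12.i1_val]
  have h0 : ∀ x, φ x 0 2 = 0 ∧ φ x 1 2 = 0 ∧ φ x 2 0 = 0 ∧ φ x 2 1 = 0 := fun x => by
    have e := congrArg φ (hzc x)
    rw [map_mul, map_mul, hD] at e
    have e := fun i j => congrFun (congrFun e i) j
    have a := e 0 2
    have b := e 1 2
    have c := e 2 0
    have d := e 2 1
    simp [Matrix.mul_apply, Fin.sum_univ_three] at a b c d
    refine ⟨?_, ?_, ?_, ?_⟩ <;> refine (mul_eq_zero.1 (?_ : (2 : F) * _ = 0)).resolve_left h2
    · linear_combination -a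
    · linear_combination -b
    · linear_combination c
    · linear_combination d
  let l : X →* F :=
    { toFun x := φ x 2 2
      map_one' := by simp
      map_mul' x y := by simp [Matrix.mul_apply, Fin.sum_univ_three, h0] }
  let ρ : X →* Matrix (Fin 2) (Fin 2) F :=
    { toFun x := !![φ x 0 0, φ x 0 1; φ x 1 0, φ x 1 1]
      map_one' := by ext i j; fin_cases i <;> fin_cases j <;> simp
      map_mul' x y := by simp [Matrix.mul_apply, Fin.sum_univ_three, h0] }
  have inj : ∀ x y, ρ x = ρ y → l x = l y → x = y := fun x y e1 e2 => hφ (by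
    have e := fun i j => congrFun (congrFun e1 i) j
    have a := e 0 0
    have b := e 0 1
    have c := e 1 0
    have d := e 1 1
    have e3 : φ x 2 2 = φ y 2 2 := e2
    simp [ρ] at a b c d
    ext i j; fin_cases i <;> fin_cases j <;> simp [*])
  have ρz : ρ z = -1 := by ext i j; fin_cases i <;> fin_cases j <;> simp [ρ, hD]
  have lz : l z = 1 := by simp [l, hD]
  obtain ⟨u, u1, u2, u3⟩ : ∃ u, u * u = 1 ∧ ρ u = 1 ∧ u ≠ 1 := by
    obtain ⟨b, hb, b1, b2, b3⟩ := exists_ker hE h8 (detMonoidHom.comp ρ) z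
    rcases two_sq (N := ρ b) (by rw [← map_mul, hE b hb, map_one]) b1 h2 with e | e
    · exact ⟨b, hE b hb, e, b2⟩
    · refine ⟨b * z, ?_, by simp [e, ρz], fun e => b3 ?_⟩
      · rw [mul_assoc, ← mul_assoc z, hzc b, mul_assoc, hz, mul_one, hE b hb]
      · rw [← mul_one b, ← hz, ← mul_assoc, e, one_mul]
  refine ⟨l, u, u1, fun x => inj _ _ (by simp [u2]) (by rw [map_mul, map_mul, mul_comm]), ?_, fun c c1 c2 c3 => ?_⟩
  · refine (mul_self_eq_one_iff.1 (by rw [← map_mul, u1, map_one])).resolve_left fun e => u3 (inj _ _ ?_ ?_)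
    · rw [u2, map_one]
    · rw [e, map_one]
  by_contra h
  push Not at h
  refine hna ⟨⟨fun x y => inj _ _ ?_ (by rw [map_mul, map_mul, mul_comm])⟩⟩
  rw [map_mul, map_mul]
  exact two_comm (N := ρ c) (by rw [← map_mul, c1, map_one]) (fun e => h.1 (inj _ _ (by simp [e]) (by simp [c3])))
    (fun e => h.2 (inj _ _ (by rw [e, ρz]) (by rw [c3, lz]))) (by rw [← map_mul, c2, map_mul])
    (by rw [← map_mul, c2, map_mul])

theorem transfer_eq {G A : Type*} [Group G] [Finite G] [CommGroup A] {P : Subgroup G} (μ : P →* A) {a : A}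
    (ha : ∀ b : A, b ^ 2 = 1 → b = 1 ∨ b = a) (ha1 : a ≠ 1) {u : G} (hu : u ^ 2 = 1) :
    MonoidHom.transfer μ u = a ^ ucount μ u a := by
  classical
  have := Fintype.ofFinite (Quotient (MulAction.orbitRel (Subgroup.zpowers u) (G ⧸ P)))
  have h0 := ucount_pow μ u 1 a
  rw [pow_one] at h0
  rw [transfer_eq_prod_tval, h0, ← Finset.prod_pow_eq_pow_sum]
  refine Finset.prod_congr rfl fun o _ => ?_
  have h2 : oper P u o ∣ 2 := MulAction.pow_smul_eq_iff_minimalPeriod_dvd.1 (by rw [hu, one_smul])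
  rcases (Nat.dvd_prime Nat.prime_two).1 h2 with h | h
  · have h3 : u ^ 1 • o.out = o.out := MulAction.pow_smul_eq_iff_minimalPeriod_dvd.2 (h ▸ dvd_rfl)
    rw [h]
    rcases ha (tval μ (u ^ 1) o.out) (by rw [← tval_pow μ h3, pow_one, hu, tval, mul_one, inv_mul_cancel,
      (homOn_extF μ).map_one]) with h1 | h1 <;> rw [h1] <;> simp [ha1.symm]
  · rw [h, hu, if_neg (by simp), tval, mul_one, inv_mul_cancel, (homOn_extF μ).map_one, pow_zero]

/-- Let G be a finite group with no subgroup of index 2 whose Sylow 2-subgroup X embeds in GL₃(F) for a finite field F of odd order. If X contains an elementary abelian subgroup of order 8, then X is abelian. -/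
theorem result {G : Type*} [Group G] [Finite G] (hG : ∀ H : Subgroup G, H.index ≠ 2) (X : Sylow 2 G)
    {F : Type*} [Field F] [Fintype F] (hF : Odd (Fintype.card F))
    (f : ↥(X : Subgroup G) →* GL (Fin 3) F) (hf : Function.Injective f)
    (E : Subgroup G) (hE : E ≤ (X : Subgroup G)) (hEa : Cfsg.IsElementaryAbelian 2 E) (hE8 : Nat.card E = 8) :
    IsMulCommutative (X : Subgroup G) := by
  by_contra hna
  have h2 : (2 : F) ≠ 0 := fun e => by
    have := FiniteField.even_card_of_char_two (F := F) (by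
      haveI : CharP F 2 := CharTwo.of_one_ne_zero_of_two_eq_zero one_ne_zero e
      exact ringChar.eq F 2)
    exact absurd hF (Nat.not_odd_iff_even.2 (Nat.even_iff.2 this))
  have hX : PGrp 2 (X : Subgroup G) := (syl_top Nat.prime_two X).pi
  have h1 := hX.nil.meet_cen (der_nml (X : Subgroup G)) fun e => hna (ab_iff_der.2 e)
  obtain ⟨z, ⟨hz1, hz2⟩, hz⟩ := exists_elt_of_prime_dvd Nat.prime_two
    ((hX.mono (inf_le_left.trans (der_le _))).dvd h1)
  have hzX : z ∈ (X : Subgroup G) := der_le _ hz1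
  have hd : ∀ {A : Type _} [CommGroup A] (μ : (X : Subgroup G) →* A) (w : (X : Subgroup G)),
      (w : G) ∈ ⁅(X : Subgroup G), (X : Subgroup G)⁆ → μ w = 1 := fun μ w hw => by
    rw [der_eq_map] at hw
    obtain ⟨y, hy, e⟩ := hw
    exact (Subtype.ext e : y = w) ▸ Abelianization.commutator_subset_ker μ hy
  obtain ⟨l, u, u1, u2, u3, hc⟩ := core h2 f hf (E := E.subgroupOf X)
    (fun x hx => Subtype.ext ((pow_two _).symm.trans (Abelem.pow hEa hx))) ((card_so hE).trans hE8) (z := ⟨z, hzX⟩)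
    (Subtype.ext ((pow_two _).symm.trans (orderOf_dvd_iff_pow_eq_one.1 hz.dvd))) (fun e => by
      rw [show z = 1 from congrArg Subtype.val e] at hz
      simp at hz) (fun x => Subtype.ext (hz2 x x.2).symm)
    (congrArg Units.val (hd (GeneralLinearGroup.det.comp f) ⟨z, hzX⟩ hz1)) hna
  have hm1 : (-1 : F) ≠ 1 := fun e => h2 (by linear_combination -e)
  let μ := l.toHomUnits.rangeRestrict
  have ha : ∀ b : l.toHomUnits.range, b ^ 2 = 1 → b = 1 ∨ b = μ u := fun b hb => by
    have : (b.1 : F) * b.1 = 1 := by simpa [pow_two] using congrArg (fun x => (x.1 : F)) hb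
    rcases mul_self_eq_one_iff.1 this with e | e
    · exact Or.inl (Subtype.ext (Units.ext e))
    · exact Or.inr (Subtype.ext (Units.ext (e.trans u3.symm)))
  have ha1 : μ u ≠ 1 := fun e => hm1 (u3.symm.trans (congrArg (fun x => (x.1 : F)) e))
  have h3 := ucount_modEq μ (a := μ u) X.2 u.2 (fun y hy => congrArg Subtype.val (u2 ⟨y, hy⟩)) fun g hg => by
    have hn : g ∈ N((X : Subgroup G)) := inv_mem_iff.1 (mem_nrm.2 fun y hy => by simpa using hg y hy)
    rw [extF_of_mem μ (hg u u.2)]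
    have c1 : (⟨_, hg u u.2⟩ : (X : Subgroup G)) * ⟨_, hg u u.2⟩ = 1 := Subtype.ext (by
      have : (u : G) * u = 1 := congrArg Subtype.val u1
      change g⁻¹ * u * g * (g⁻¹ * u * g) = 1
      calc _ = g⁻¹ * (u * u) * g := by group
        _ = 1 := by rw [this]; group)
    refine (ha _ (by rw [← map_pow, pow_two, c1, map_one])).resolve_left fun e => ha1 (hd μ u ?_)
    have c2 : ∀ x, (⟨_, hg u u.2⟩ : (X : Subgroup G)) * x = x * ⟨_, hg u u.2⟩ := fun x => Subtype.ext (by
      have : (u : G) * (g * x * g⁻¹) = g * x * g⁻¹ * u := congrArg Subtype.val (u2 ⟨_, conj_mem hn x.2⟩)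
      change g⁻¹ * u * g * x = x * (g⁻¹ * u * g)
      calc _ = g⁻¹ * (u * (g * x * g⁻¹)) * g := by group
        _ = _ := by rw [this]; group)
    have h4 : g⁻¹ * u * g ∈ ⁅(X : Subgroup G), (X : Subgroup G)⁆ := by
      rcases hc _ c1 c2 (congrArg (fun x => (x.1 : F)) e) with e | e
      · rw [show g⁻¹ * u * g = 1 from congrArg Subtype.val e]; exact one_mem _
      · rw [show g⁻¹ * u * g = z from congrArg Subtype.val e]; exact hz1
    simpa [mul_assoc] using conj_mem (normsR le_rfl le_rfl hn) h4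
  have h4 := transfer_eq μ ha ha1 (u := (u : G)) ((pow_two _).trans (congrArg Subtype.val u1))
  have h5 : (MonoidHom.transfer μ).ker = ⊤ := by
    rw [eq_top_iff, ← H4.pResidual_eq_top_iff_no_index (p := 2).2 fun M _ => hG M, pResidual, closure_le]
    intro x hx
    obtain ⟨k, hk⟩ := (X.2.of_surjective μ l.toHomUnits.rangeRestrict_surjective) (MonoidHom.transfer μ x)
    exact orderOf_eq_one_iff.1 (Nat.eq_one_of_dvd_coprimes (Nat.Coprime.pow_right k hx) (orderOf_map_dvd _ _)
      (orderOf_dvd_of_pow_eq_one hk))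
  have h6 : orderOf (μ u) = 2 := orderOf_eq_prime (by rw [← map_pow, pow_two, u1, map_one]) ha1
  have h7 := orderOf_dvd_of_pow_eq_one (h4.symm.trans (h5.ge (mem_top (u : G))))
  exact X.not_dvd_index ((h3.dvd_iff dvd_rfl).1 (by rwa [h6] at h7))

end Cfsg.Agent.S1906
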