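import Cfsg.Statements.S1907
import Mathlib
import Cfsg.Agent.H4.PPrimeP

set_option autoImplicit false
open Cfsg

namespace Cfsg.Agent.S1907

/-- Let P be a Sylow p-subgroup of a finite group G, H = P ∩ O_{p',p}(G), N = N_G(H) and D = O_{p'}(G). (a) If y is an element of p-power order of N and d ∈ D with d⁻¹ y d ∈ N, then d = d₁ d₂ with d₁ ∈ C_D(y) and d₂ ∈ C_D(H). (b) Two elements of P that are conjugate in G are conjugate in N. -/
theorem result {G : Type*} [Group G] [Finite G] {p : ℕ} [Fact p.Prime] (P : Sylow p G) :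
    (∀ y ∈ Subgroup.normalizer (((P : Subgroup G) ⊓ Cfsg.pPrimePCore p G : Subgroup G) : Set G), (∃ k : ℕ, orderOf y = p ^ k) →
      ∀ d ∈ Cfsg.pPrimeCore p G, d⁻¹ * y * d ∈ Subgroup.normalizer (((P : Subgroup G) ⊓ Cfsg.pPrimePCore p G : Subgroup G) : Set G) →
        ∃ d₁ ∈ Cfsg.pPrimeCore p G ⊓ Subgroup.centralizer ({y} : Set G),
          ∃ d₂ ∈ Cfsg.pPrimeCore p G ⊓ Subgroup.centralizer (((P : Subgroup G) ⊓ Cfsg.pPrimePCore p G : Subgroup G) : Set G), d = d₁ * d₂) ∧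
    ∀ x y : G, x ∈ (P : Subgroup G) → y ∈ (P : Subgroup G) → IsConj x y →
      ∃ n ∈ Subgroup.normalizer (((P : Subgroup G) ⊓ Cfsg.pPrimePCore p G : Subgroup G) : Set G), n * x * n⁻¹ = y := by
  refine ⟨fun y hy ⟨k, hk⟩ d hd h => H4.exists_centralizer_mul_centralizer H2.pPrimeCore_coprime
    (P.isPGroup'.to_le inf_le_left) hy (H4.isPGroup_zpowers_of_orderOf hk) hd h,
    fun x y hx hy hxy => ?_⟩
  obtain ⟨g, rfl⟩ := isConj_iff.mp hxy
  obtain ⟨n, hn, -, -, -, h⟩ := H4.normalizer_inf_pPrimePCore_controls P g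
  obtain ⟨c, hc, e⟩ := h x hx hy
  exact ⟨n * c, mul_mem hn (H4.centralizer_le_normalizer' _ hc), e⟩

end Cfsg.Agent.S1907
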