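import Cfsg.Statements.S1908
import Cfsg.Agent.H23.Cop
import Cfsg.Agent.H1.Hall

set_option autoImplicit false
open Cfsg

namespace Cfsg.Agent.S1908

/-- Let π be a set of primes and G a finite π-separable group: G has a chain of normal subgroups from 1 to G in which each successive index is divisible only by primes in π or only by primes outside π. Then G has a Hall π-subgroup, any two Hall π-subgroups of G are conjugate, and every subgroup of G whose order is divisible only by primes in π lies in some Hall π-subgroup. -/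
theorem result {G : Type*} [Group G] [Finite G] (π : Set ℕ)
    (hsep : ∃ (n : ℕ) (H : Fin (n + 1) → Subgroup G), H 0 = ⊥ ∧ H (Fin.last n) = ⊤ ∧ Monotone H ∧ (∀ i, (H i).Normal) ∧
      ∀ i : Fin n, (∀ q : ℕ, q.Prime → q ∣ (H i.castSucc).relIndex (H i.succ) → q ∈ π) ∨
        (∀ q : ℕ, q.Prime → q ∣ (H i.castSucc).relIndex (H i.succ) → q ∉ π)) :
    (∃ K : Subgroup G, Cfsg.IsPiHall π K) ∧
      (∀ K L : Subgroup G, Cfsg.IsPiHall π K → Cfsg.IsPiHall π L → ∃ g : G, L = K.map (MulAut.conj g).toMonoidHom) ∧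
      ∀ U : Subgroup G, (∀ q : ℕ, q.Prime → q ∣ Nat.card U → q ∈ π) → ∃ K : Subgroup G, Cfsg.IsPiHall π K ∧ U ≤ K := by
  have hs : H1.IsPiSeparable π G := H1.hasNormalChain_iff.2 hsep
  have key : ∀ K U : Subgroup G, IsPiHall π K → FT.PiGrp π U → ∃ g : G, FT.cj g U ≤ K := by
    intro K U hK hU
    refine H1.exists_conj_le_hall_of_isPiSeparable hs hK hU ?_
    by_cases h2 : 2 ∈ π
    · refine Or.inr fun n _ hn H _ _ hH => FT.odd_order_solvable ?_
      rw [hH]
      exact Nat.odd_iff.2 (Nat.two_dvd_ne_zero.1 fun h => hn 2 Nat.prime_two h h2)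
    · exact Or.inl (H23.sol_of_two' (hU.p'_of_not_mem h2))
  obtain ⟨K₀, hK₀⟩ := H1.exists_isPiHall_of_isPiSeparable hs
  refine ⟨⟨K₀, hK₀⟩, fun K L hK hL => ?_, fun U hU => ?_⟩
  · obtain ⟨g, hg⟩ := key L K hL hK.1
    exact ⟨g, (FT.eq_of_card_eq hg (by
      rw [FT.card_cj]; exact (FT.hall_top_iff.2 hK).card_eq (FT.hall_top_iff.2 hL))).symm⟩
  · obtain ⟨g, hg⟩ := key K₀ U hK₀ hU
    exact ⟨FT.cj g⁻¹ K₀, FT.hall_top_iff.1 ((FT.hall_top_iff.2 hK₀).cj_mem (Subgroup.mem_top _)),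
      FT.cj_le_iff.1 hg⟩

end Cfsg.Agent.S1908
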