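import Cfsg.Statements.S1924
import Mathlib
import Cfsg.Agent.H4.Cyc2
import Cfsg.Agent.H4.Transfer2
import Cfsg.Agent.H28.FixCount

set_option autoImplicit false
open Cfsg

namespace Cfsg.Agent.S1924

/-- A consequence of Thompson's transfer lemma. Let G be a finite group, L a subgroup with O²(L) = L, T a Sylow 2-subgroup of L and S a Sylow 2-subgroup of G containing T. Suppose D ≤ S is a dihedral subgroup of order at least 4 (the four-group counts) with D ∩ T = 1 and S = TD as a set of products (so |S| = |T|·|D|), and C ≤ D is cyclic of index 2 in D. If no involution of D outside C is G-conjugate to an involution of the subgroup generated by T and C, and the involution of C is not G-conjugate to any involution of T, then G has a normal subgroup K, containing every Sylow 2-subgroup of L as a Sylow 2-subgroup, with G = KD. -/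
theorem result {G : Type*} [Group G] [Finite G] (L T S D C : Subgroup G) (hL : Cfsg.pResidual 2 ↥L = ⊤)
    (hTL : T ≤ L) (hT2 : IsPGroup 2 T) (hTsyl : ¬ 2 ∣ T.relIndex L)
    (hS2 : IsPGroup 2 S) (hSsyl : ¬ 2 ∣ S.index) (hTS : T ≤ S)
    (hDS : D ≤ S) (hDih : ∃ n : ℕ, 2 ≤ n ∧ Nonempty (↥D ≃* DihedralGroup n)) (hDT : D ⊓ T = ⊥) (hTD : T ⊔ D = S) (hTDc : Nat.card T * Nat.card D = Nat.card S)
    (hCD : C ≤ D) (hC : IsCyclic ↥C) (hCi : C.relIndex D = 2)
    (h1 : ∀ x ∈ D, x ∉ C → orderOf x = 2 → ∀ g : G, g * x * g⁻¹ ∈ T ⊔ C → False)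
    (h2 : ∀ c ∈ C, orderOf c = 2 → ∀ g : G, g * c * g⁻¹ ∈ T → False) :
    ∃ K : Subgroup G, K.Normal ∧ K ⊔ D = ⊤ ∧
      ∀ T' : Subgroup G, T' ≤ L → IsPGroup 2 T' → ¬ 2 ∣ T'.relIndex L → T' ≤ K ∧ ¬ 2 ∣ T'.relIndex K := by
  open Subgroup Cfsg.Agent.H22 Cfsg.Agent.H4 Pointwise in
  obtain ⟨n, hn, ⟨e⟩⟩ := hDih
  obtain ⟨a, ha, hi, hd⟩ := exists_dih hn e
  have hinv : ∀ x ∈ D, x ∉ C → orderOf x = 2 := by
    intro x hx hxC
    refine orderOf_eq_prime ?_ (fun e => hxC (e ▸ one_mem _))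
    by_cases h : x ∈ zpowers a
    swap
    · exact hd x hx h
    obtain ⟨c, rfl⟩ := H3.exists_eq_zpowers hC
    have a1 := H22.card_mul_relIndex hCD
    have a2 := H22.card_mul_relIndex (zpowers_le.2 ha)
    rw [hCi] at a1
    rw [hi] at a2
    by_cases h' : c ∈ zpowers a
    · exact absurd (eq_of_le_of_card_ge (zpowers_le.2 h') (by omega) ▸ h) hxC
    · have a3 := orderOf_dvd_of_pow_eq_one (hd c (hCD (mem_zpowers c)) h')
      rw [Nat.card_zpowers] at a1 a2
      exact orderOf_dvd_iff_pow_eq_one.1 ((orderOf_dvd_of_mem_zpowers h).trans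
        ((show orderOf a = orderOf c by omega) ▸ a3))
  set K := pResidual 2 G with hK
  have hLK : L ≤ K := by
    have := map_pResidual_le 2 L.subtype
    rwa [hL, map_subtype_top] at this
  have hTK := hTL.trans hLK
  have hS : H18.SylIn 2 S ⊤ := H18.sylIn_of_not_dvd_relIndex le_top hS2 (by rwa [relIndex_top_right])
  have hmul : ∀ x ∈ T ⊔ D, ∃ a ∈ T, ∃ b ∈ D, a * b = x := fun x hx => by
    have := coe_sup_eq_mul_of_card (H := T) (K := D) (by rw [hTD, inf_comm, hDT, card_bot, mul_one, hTDc])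
    exact (Set.ext_iff.1 this x).1 hx
  have h3 : S ⊓ K = T ⊔ (D ⊓ K) := by rw [← hTD, dedekind hmul hTK]
  have h4 : D ⊓ K ≤ C := by
    intro x hx
    by_contra hxC
    have a0 := h1 x hx.1 hxC (hinv x hx.1 hxC)
    have a1 : T ⊔ C ≤ S := sup_le hTS (hCD.trans hDS)
    have a2 : (T ⊔ C).relIndex S = 2 := by
      have b1 := H22.card_mul_relIndex a1
      have b2 := H22.card_mul_relIndex hCD
      have b3 := card_mul_le_card_sup_mul T C
      rw [eq_bot_iff.2 ((le_inf (inf_le_right.trans hCD) inf_le_left).trans hDT.le), card_bot,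
        mul_one] at b3
      have b4 : (T ⊔ C).relIndex S ≠ 1 := fun e => a0 1 (by simpa using relIndex_eq_one.1 e (hDS hx.1))
      have b5 : (T ⊔ C).relIndex S ≠ 0 := index_ne_zero_of_finite
      have b6 : (T ⊔ C).relIndex S ≤ 2 := by
        rw [← hTDc, ← b2, hCi, ← mul_assoc] at b1
        exact Nat.le_of_mul_le_mul_left (b1.le.trans (Nat.mul_le_mul_right 2 b3)) (card_pos' _)
      omega
    obtain ⟨M, hM, a3, a4⟩ := thompson_transfer (Nat.odd_iff.2 (Nat.two_dvd_ne_zero.1 hSsyl)) a2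
      (by rw [← hinv x hx.1 hxC, pow_orderOf_eq_one]) a0
    exact a4 (pResidual_le_of_isPGroup_quotient M (IsPGroup.of_card (p := 2) (n := 1) a3) hx.2)
  have h5 : D ⊓ K = ⊥ := by
    by_contra h0
    obtain ⟨u, hu⟩ := H3.exists_eq_zpowers (H3.isCyclic_of_le' hC h4)
    have hE : IsPGroup 2 ↥(D ⊓ K) := hS2.to_le (inf_le_left.trans hDS)
    have hu' : u ∈ D ⊓ K := hu ▸ mem_zpowers u
    have b1 : orderOf (⟨u, hu'.2⟩ : K) = Nat.card ↥(D ⊓ K) := by
      rw [hu, Nat.card_zpowers, orderOf_mk]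
    have b2 := H28.two_mul_dvd_card_of_free (G := K) (Y := K ⧸ T.subgroupOf K)
      (pResidual_eq_top_iff_no_index.1 (pResidual_pResidual 2)) (h := ⟨u, hu'.2⟩)
      (by rw [b1]; exact even_iff_two_dvd.2 (pgrp_dvd_card hE h0)) ?_
    · rw [b1, ← index_eq_card, ← relIndex, ← relIndex_mul_relIndex T (S ⊓ K) K (le_inf hTS hTK)
        inf_le_right] at b2
      have b0 := syl_card_coprime_relIndex (hS.inf_normal (N := K))
      have b4 := (Nat.Coprime.mul_left b0.symm (pgrp_coprime hE b0).symm).dvd_of_dvd_mul_right b2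
      have b5 := Nat.le_of_dvd (Nat.pos_of_ne_zero index_ne_zero_of_finite) b4
      have b6 := H22.card_mul_relIndex (le_inf hTS hTK)
      have b7 := card_set_mul T (D ⊓ K)
      have b8 : ((T : Set G) * ((D ⊓ K : Subgroup G) : Set G)) = ((S ⊓ K : Subgroup G) : Set G) := by
        ext x
        refine ⟨fun hx => h3.ge (mul_subset_sup' hx), fun hx => ?_⟩
        obtain ⟨y, hy, z, hz, rfl⟩ := hmul x (hTD.ge hx.1)
        exact ⟨y, hy, z, ⟨hz, (mul_mem_cancel_left (hTK hy)).1 hx.2⟩, rfl⟩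
      rw [b8, eq_bot_iff.2 ((le_inf (inf_le_right.trans inf_le_left) inf_le_left).trans hDT.le),
        card_bot, mul_one] at b7
      have b9 : T.relIndex (S ⊓ K) = Nat.card ↥(D ⊓ K) :=
        Nat.eq_of_mul_eq_mul_left (card_pos' T) (b6.trans b7)
      have := card_pos' (D ⊓ K)
      change 2 * _ ≤ T.relIndex (S ⊓ K) at b5
      omega
    · intro i q hq
      by_contra h6
      obtain ⟨y, rfl⟩ := QuotientGroup.mk_surjective q
      have b2 : (y : G)⁻¹ * u ^ i * y ∈ T := by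
        have := QuotientGroup.eq.1 hq.symm
        simpa [mem_subgroupOf, mul_assoc] using this
      obtain ⟨c, hc, hc2⟩ := pgrp_exists_orderOf_eq (pgrp_zpowers_of_mem hE (pow_mem hu' i))
        (fun e => h6 (Subtype.ext (zpowers_eq_bot.1 e)))
      refine h2 c (h4 (zpowers_le.2 (pow_mem hu' i) hc)) hc2 (y : G)⁻¹ ?_
      have : cj (y : G)⁻¹ (zpowers (u ^ i)) ≤ T := by rw [cj_zpowers, inv_inv]; exact zpowers_le.2 b2
      exact this (conj_mem_cj hc)
  rw [h5, sup_bot_eq] at h3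
  have hT : H18.SylIn 2 T K := h3 ▸ hS.inf_normal
  refine ⟨K, inferInstance, ?_, fun T' a1 a2 a3 => ⟨a1.trans hLK, ?_⟩⟩
  · rw [eq_top_iff, ← pResidualOf_sup_syl hS, pResidualOf_top, ← hTD]
    exact sup_le le_sup_left (sup_le_sup_right hTK _)
  · refine (hT.of_card_le (a1.trans hLK) a2 ?_).not_dvd_relIndex
    exact (H18.sylIn_of_not_dvd_relIndex a1 a2 a3).card_le hTL hT2

end Cfsg.Agent.S1924
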