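import Cfsg.Statements.S1935
import Mathlib
import Cfsg.Agent.H16.Lyn4

set_option autoImplicit false
open Cfsg

namespace Cfsg.Agent.S1935

open Subgroup Cfsg.Agent.FT Cfsg.Agent.P22 Cfsg.Agent.H16.Lyn
open scoped IsMulCommutative

/-- Let p ≥ 5 be a prime and, inside an ambient finite group, let G be a p-subgroup acting faithfully by conjugation on an elementary abelian p-subgroup V that it normalizes (only the identity of G centralizes V). Suppose V is an F-module for G: some nontrivial elementary abelian subgroup E of G satisfies #E · #C_V(E) ≥ #V. Then G contains such an offender A that moreover acts quadratically on V ([V, A, A] = 1) and is normal in its normal closure in G. -/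
theorem result {Ω : Type*} [Group Ω] [Finite Ω] (p : ℕ) [Fact p.Prime] (hp : 5 ≤ p) (V G : Subgroup Ω) (hV : Cfsg.IsElementaryAbelian p V) (hG : IsPGroup p ↥G) (hGV : G ≤ Subgroup.normalizer (V : Set Ω)) (hfaith : G ⊓ Subgroup.centralizer (V : Set Ω) = ⊥) (hF : ∃ E : Subgroup Ω, E ≤ G ∧ E ≠ ⊥ ∧ Cfsg.IsElementaryAbelian p E ∧ Nat.card ↥V ≤ Nat.card ↥E * Nat.card ↥(V ⊓ Subgroup.centralizer (E : Set Ω))) : ∃ A : Subgroup Ω, A ≤ G ∧ A ≠ ⊥ ∧ Cfsg.IsElementaryAbelian p A ∧ Nat.card ↥V ≤ Nat.card ↥A * Nat.card ↥(V ⊓ Subgroup.centralizer (A : Set Ω)) ∧ ⁅⁅V, A⁆, A⁆ = ⊥ ∧ ∀ g ∈ Subgroup.closure {x : Ω | ∃ h ∈ G, ∃ a ∈ A, x = h * a * h⁻¹}, ∀ a ∈ A, g * a * g⁻¹ ∈ A := by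
  have pp : p.Prime := Fact.out
  have := hV.1
  have : Finite (AddMonoid.End (Additive V)) := Finite.of_injective _ DFunLike.coe_injective
  have := hG.isNilpotent
  obtain ⟨F, n, f0, fn, an, hF'⟩ := exists_flt hGV pp (Abelem.pGrp hV pp) (pGrp_of_isPGroup pp hG)
  obtain ⟨h, hh⟩ : ∃ h, p + 1 = 2 * h := (pp.odd_of_ne_two (by omega)).add_one.two_dvd
  have hp0 : ∀ x : AddMonoid.End (Additive V), p • x = 0 := fun x => AddMonoidHom.ext fun m =>
    Subtype.ext (hV.2 _ (x m).toMul.2)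
  obtain ⟨B, q, hB⟩ := exists_qo (rho hGV) (Additive V) (h := h) Group.normalizerCondition_of_isNilpotent
    (fun x => by rw [← two_nsmul, ← mul_nsmul, ← hh, add_nsmul, hp0, one_nsmul, zero_add])
    f0 fn an hF' (by
      obtain ⟨E, EG, E1, Ee, hE⟩ := hF
      have : Nonempty {A : Subgroup Ω // A ≤ E ∧ A ≠ ⊥} := ⟨⟨E, le_rfl, E1⟩⟩
      obtain ⟨⟨A, AE, A1⟩, mx⟩ := Finite.exists_max fun A : {A : Subgroup Ω // A ≤ E ∧ A ≠ ⊥} =>
        ms V A.1
      have nt : ∀ A ≤ G, ⁅V, A⁆ = ⊥ → A = ⊥ := fun A hA e => eq_bot_iff.2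
        (hfaith ▸ le_inf hA (le_centralizer_iff.1 (comm_eq_bot.1 e)))
      have bo : BO p V A := ⟨fun C hC => by
        by_cases e : C = ⊥
        · exact (e ▸ (ms_bot V).le).trans (hE.trans (mx ⟨E, le_rfl, E1⟩))
        · exact mx ⟨C, hC.trans AE, e⟩,
        (comm_eq_bot.2 (AE.trans ((le_centralizer_iff_isMulCommutative.2 Ee.1).trans
          (centralizer_le AE)))).le.trans bot_le, fun a ha => Ee.2 a (AE ha) ▸ one_mem _⟩
      obtain ⟨b1, -, b2⟩ := bo.repl pp hV (AE.trans (EG.trans hGV)) le_rfl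
      have b3 := b2 fun e => A1 (nt A (AE.trans EG) e)
      have CG := (inf_le_left (b := C(⁅V, A⁆))).trans (AE.trans EG)
      obtain ⟨B, s, e, r⟩ := exists_add hGV CG (comm_eq_bot.2
        ((commutator_mono le_rfl inf_le_left).trans (le_centralizer_iff.1 inf_le_right)))
      have e' : ∀ g : G, rho hGV g - 1 ∈ B ↔ (g : Ω) ∈ A ⊓ C(⁅V, A⁆) := fun g => ⟨fun h => by
        obtain ⟨k, hk, l⟩ := r _ h
        rwa [← rho_inj hGV hfaith (l.trans (add_sub_cancel _ _))], e g⟩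
      have r' := fun x hx => (r x hx).imp fun _ => And.right
      have c := card_eq hGV CG e' r' hfaith
      refine ⟨B, fun k => b3 ?_, s, r', c ▸ card_ann hGV CG e' r' ▸ b1.best.card_le⟩
      rw [k, AddSubgroup.card_bot, card_eq_one] at c
      rw [c, commutator_bot_right])
  have AG := map_subtype_le (H := G) (grp (rho hGV) q.sq)
  have e : ∀ g : G, rho hGV g - 1 ∈ B ↔ (g : Ω) ∈ (grp (rho hGV) q.sq).map G.subtype := fun g =>
    (mem_map_iff_mem (K := grp (rho hGV) q.sq) (x := g) G.subtype_injective).symm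
  have c := card_eq hGV AG e q.ran hfaith
  refine ⟨_, AG, fun k => q.ne ?_, ⟨le_centralizer_iff_isMulCommutative.1 ?_, ?_⟩,
    c ▸ card_ann hGV AG e q.ran ▸ q.le, quad hGV AG e q.ran q.sq, fun g hg a ha => ?_⟩
  · rwa [k, card_bot, eq_comm, AddSubgroup.card_eq_one] at c
  · rintro _ ⟨a, ha, rfl⟩ _ ⟨b, hb, rfl⟩
    exact congrArg Subtype.val (rho_inj hGV hfaith (grp_comm _ q.sq ha hb))
  · rintro _ ⟨a, ha, rfl⟩
    refine congrArg Subtype.val (rho_inj hGV hfaith (a₁ := a ^ p) (a₂ := 1) ?_)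
    rw [grp_pow _ q.sq ha, hp0, add_zero, map_one]
  · refine (mem_normalizer_iff.1 ((closure_le N((grp (rho hGV) q.sq).map G.subtype)).2 ?_ hg) a).1 ha
    rintro _ ⟨k, hk, _, ⟨b, hb, rfl⟩, rfl⟩
    exact le_normalizer_map _ ⟨_, hB ⟨k, hk⟩ b hb, rfl⟩

end Cfsg.Agent.S1935
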