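import Cfsg.Statements.S1936
import Mathlib
import Cfsg.Agent.H20.MinS
import Cfsg.Agent.H27.Epo
import Cfsg.Agent.H22.Hol

set_option autoImplicit false
open Cfsg

namespace Cfsg.Agent.S1936

open Subgroup Cfsg.Agent.FT

def Hy (p : ℕ) (G : Type*) [Group G] : Prop := ∀ H : Subgroup G, PiGrp {p}ᶜ H → Ab H ∧ ∀ x ∈ H, x ^ (p - 1) = 1

theorem Hy.sub {p : ℕ} {G : Type*} [Group G] [Finite G] (N : Subgroup G) (h : Hy p G) : Hy p N := fun H hH => by
  obtain ⟨h1, h2⟩ := h (H.map N.subtype) (hH.map _)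
  exact ⟨ab_iff_forall.2 fun x hx y hy => Subtype.ext (h1.comm (mem_map_of_mem _ hx) (mem_map_of_mem _ hy)),
    fun x hx => Subtype.ext (h2 _ (mem_map_of_mem _ hx))⟩

theorem Hy.quo {p r : ℕ} {G : Type*} [Group G] [Finite G] (N : Subgroup G) [N.Normal] (hN : PGrp r N) (h : Hy p G) :
    Hy p (G ⧸ N) := fun H hH => by
  obtain ⟨K, h1, h2⟩ : ∃ K : Subgroup G, PiGrp {p}ᶜ K ∧ K.map (QuotientGroup.mk' N) = H := by
    have e := map_comap_eq_self_of_surjective (QuotientGroup.mk'_surjective N) H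
    have h0 : N ≤ H.comap (QuotientGroup.mk' N) := by simpa using ker_le_comap (QuotientGroup.mk' N) H
    have h3 : PiNat {p}ᶜ (N.relIndex (H.comap (QuotientGroup.mk' N))) := by
      have := relIndex_ker (H.comap (QuotientGroup.mk' N)) (QuotientGroup.mk' N)
      rw [QuotientGroup.ker_mk', e] at this
      exact this ▸ hH
    by_cases hr : r = p
    · subst hr
      obtain ⟨K, k1, k2⟩ := Hall.exists_compl ⟨h0, hN, h3⟩ (le_top.trans (normalizer_eq_top_iff.2 ‹_›).ge)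
      refine ⟨K, k1.pi, ?_⟩
      rw [← e, ← k2.sup, Subgroup.map_sup, (map_eq_bot_iff N).2 (QuotientGroup.ker_mk' N).ge, bot_sup_eq]
    · exact ⟨_, piGrp_of_relIndex' (hN.sub fun q (hq : q = r) (k : q = p) => hr (hq.symm.trans k)) h3, e⟩
  obtain ⟨h3, h4⟩ := h K h1
  subst h2
  exact ⟨h3.map _, by rintro _ ⟨x, hx, rfl⟩; rw [← map_pow, h4 x hx, map_one]⟩

theorem simple {p : ℕ} (hp : p.Prime) (G : Type*) [Group G] [Finite G] [IsSimpleGroup G] (h : Hy p G)
    (hs : ¬ Sol (⊤ : Subgroup G)) (hm : ∀ H : Subgroup G, H ≠ ⊤ → Sol H) : False := by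
  have hn : ¬ IsMulCommutative G := fun k => hs (Ab.sol (ab_iff_forall.2 fun x _ y _ => k.1.1 x y))
  obtain ⟨r, hr, hd, h2, h3⟩ : ∃ r : ℕ, r.Prime ∧ r ∣ #(⊤ : Subgroup G) ∧ r ≠ 2 ∧ r ≠ p := by
    by_contra! k
    exact hs (H27.sol_of_two_primes Nat.prime_two hp fun r hr hd => or_iff_not_imp_left.2 (k r hr hd))
  obtain ⟨x, -, ox⟩ := exists_elt_of_prime_dvd hr hd
  have px := (piElt_of_orderOf_prime (π := {p}ᶜ) hr ox).2 h3
  have h4 : r ∣ p - 1 := ox ▸ orderOf_dvd_of_pow_eq_one ((h _ px.zpowers).2 x (mem_zpowers x))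
  have h5 : 2 ≠ p := by
    rintro rfl
    exact hr.one_lt.ne' (Nat.dvd_one.1 h4)
  have h6 {T : Subgroup G} (hT : PGrp 2 T) : PiGrp {p}ᶜ T := hT.sub fun q (hq : q = 2) (k : q = p) => h5 (hq.symm.trans k)
  obtain ⟨S, hS⟩ := exists_syl 2 (⊤ : Subgroup G)
  have hA := (h S (h6 hS.pi)).1
  by_cases h7 : PRankLE 2 2 G
  · obtain ⟨t, -, h8⟩ := GW.dh_of_ab hs hS hA ((prank_mono 2 le_top).trans ((prank_top_le_iff Nat.prime_two).2 h7))
    obtain ⟨q, R, hq, hR, h9⟩ : ∃ q R, q.Prime ∧ Syl q R N(S) ∧ ¬ R ≤ C(S) := by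
      by_contra! k
      exact hs (GW.sol_npc (Burnside_normal_complement hS (inf_le_right.trans (le_of_forall_syl' k))))
    obtain rfl : q = p := by_contra fun e => h9 ((h _ ((h6 hS.pi).sup (hR.pi.sub
      fun s (hs : s = q) (k : s = p) => e (hs.symm.trans k)) hR.le)).1.cents le_sup_left le_sup_right)
    have k1 := P22.card_modEq_cen hq hR.pi hR.le
    have k2 := card_lt (lt_of_le_of_ne (inf_le_left : S ⊓ C(R) ≤ S) fun e => h9 (centsC (inf_eq_left.1 e)))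
    have k3 := card_dvd (inf_le_left : S ⊓ C(R) ≤ S)
    rw [h8] at k1 k2 k3
    have k4 := Nat.le_of_dvd (by omega) ((Nat.modEq_iff_dvd' k2.le).1 k1.symm)
    have k5 := FT.card_pos (S ⊓ C(R))
    have k6 := Nat.le_of_dvd (by have := hq.two_le; omega) h4
    have k7 := hr.two_le
    omega
  · obtain ⟨-, F, _, _, ⟨n, h8, h9⟩, ⟨e⟩⟩ := GW.psl_of_se_ab hs hS hA
      (GW.SC2.se_of_ab (fun t ht => hm _ (H20.simple_cent_ne_top hn ht.ne)) hs hS hA h7)
    obtain ⟨g, hg⟩ := isConj_iff.1 (H20.real_of_psl (h9 ▸ dvd_pow_self 2 (by omega)) e x)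
    obtain ⟨u, -, ⟨j, hj⟩, hu⟩ := H27.exists_two_elt_inverts hg
    have k := (h _ (px.zpowers.sup (h6 (H27.pElt_of_orderOf Nat.prime_two hj).zpowers)
      (zpowers_le.2 (H27.mem_nrm_zpowers_of_inverts hu)))).1.comm (mem_sup_right (mem_zpowers u))
      (mem_sup_left (mem_zpowers x))
    rw [k, mul_inv_cancel_right, eq_inv_iff_mul_eq_one, ← sq] at hu
    exact h2 ((Nat.prime_dvd_prime_iff_eq hr Nat.prime_two).1 (ox ▸ orderOf_dvd_of_pow_eq_one hu))

/-- Let p be a prime and G a finite group in which every subgroup of order prime to p is abelian of exponent dividing p − 1. Then G is solvable. -/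
theorem result {G : Type*} [Group G] [Finite G] (p : ℕ) [Fact p.Prime] (h : ∀ H : Subgroup G, (Nat.card ↥H).Coprime p → IsMulCommutative ↥H ∧ ∀ x ∈ H, x ^ (p - 1) = 1) : Group.IsSolvable G := by
  have hp : p.Prime := Fact.out
  exact H20.sol_of_min (fun G _ => Hy p G) (fun G _ _ N => Hy.sub N) (fun G _ _ N _ r hr k => Hy.quo N (k.pGrp hr))
    (simple hp) G fun H hH => h H ((p'grp_iff_coprime hp).1 hH)

end Cfsg.Agent.S1936
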