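import Cfsg.Statements.S1941
import Mathlib
import Cfsg.Agent.H2.Misc

set_option autoImplicit false
open Cfsg

namespace Cfsg.Agent.S1941

open Cfsg.Agent.FT Subgroup
open scoped commutatorElement

/-- Let G be a finite group with no nontrivial normal subgroup of order prime to p, T a Sylow p-subgroup of G and E(G) the layer of G (the subgroup generated by its components). An automorphism of G of p-power order that fixes T and E(G) elementwise is inner. -/
theorem result {G : Type*} [Group G] [Finite G] {p : ℕ} [Fact p.Prime] (hcore : Cfsg.pPrimeCore p G = ⊥)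
    (T : Sylow p G) (α : MulAut G) (hα : ∃ j : ℕ, orderOf α = p ^ j) (hfixT : ∀ x ∈ (T : Subgroup G), α x = x)
    (hfixE : ∀ x ∈ Cfsg.layer G, α x = x) : ∃ g : G, ∀ x : G, α x = g * x * g⁻¹ := by
  have hp : p.Prime := Fact.out
  rw [← p'core_top hp] at hcore
  have hT := syl_top hp T
  have hF : ∀ x ∈ F*((⊤ : Subgroup G)), α x = x := fun x hx => by
    rw [gfit_eq_lay_sup_pcore hcore, lay_top] at hx
    exact (sup_le hfixE (fun y hy => hfixT y (hT.pcore_le hy)) : _ ≤ α.toMonoidHom.eqLocus (MonoidHom.id G)) hx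
  have hZ : C(F*((⊤ : Subgroup G))) ≤ O[{p}](⊤) := by
    rw [← fitting_eq_pcore hcore]; exact (le_inf le_top le_rfl).trans (cent_gfit ⊤)
  have hab : Ab C(F*((⊤ : Subgroup G))) := ab_iff.2 (cen_anti (hZ.trans (pcore_le_gfit p ⊤)))
  haveI hn : C(F*((⊤ : Subgroup G))).Normal := nml_top_iff.1 ⟨le_top, norms_cent (gfit_nrm ⊤)⟩
  have hd : ∀ g, α g * g⁻¹ ∈ C(F*((⊤ : Subgroup G))) := fun g => mem_cen.2 fun x hx => by
    have h1 := hF _ (conj_mem' (gfit_nrm ⊤ (mem_top g)) hx)
    rw [map_mul, map_mul, map_inv, hF x hx] at h1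
    calc x * (α g * g⁻¹) = α g * ((α g)⁻¹ * x * α g) * g⁻¹ := by group
      _ = _ := by rw [h1]; group
  have hc : (#C(F*((⊤ : Subgroup G)))).Coprime (Nat.card (G ⧸ (T : Subgroup G))) :=
    PiNat.coprime ((pcore_pi _ _).mono hZ) (by have := hT.idx; rwa [relIndex_top_right] at this)
  generalize C(F*((⊤ : Subgroup G))) = Z at *
  letI : CommGroup Z := { (inferInstance : Group Z) with mul_comm := hab.1.1 }
  letI := Fintype.ofFinite (G ⧸ (T : Subgroup G))
  let d : G ⧸ (T : Subgroup G) → Z := Quotient.lift (fun g => ⟨_, hd g⟩) fun a b h => Subtype.ext (by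
    have := hfixT _ (QuotientGroup.leftRel_apply.1 h)
    rw [map_mul, map_inv] at this
    show α a * a⁻¹ = α b * b⁻¹
    rw [inv_mul_eq_iff_eq_mul.1 this]; group)
  have h1 : ∀ (h : G) q, d (h • q) = ⟨_, hd h⟩ * MulAut.conjNormal h (d q) := fun h q => by
    obtain ⟨g, rfl⟩ := QuotientGroup.mk_surjective q
    refine Subtype.ext ?_
    show α (h * g) * (h * g)⁻¹ = α h * h⁻¹ * (h * (α g * g⁻¹) * h⁻¹)
    rw [map_mul]; group
  have h2 : ∀ h : G, ∏ q, d q = ⟨_, hd h⟩ ^ Nat.card (G ⧸ (T : Subgroup G)) * MulAut.conjNormal h (∏ q, d q) :=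
    fun h => by
      rw [map_prod, ← Equiv.prod_comp (MulAction.toPerm h) d]
      simp only [MulAction.toPerm_apply, h1, Finset.prod_mul_distrib, Finset.prod_const, Finset.card_univ,
        Nat.card_eq_fintype_card]
  obtain ⟨w, hw⟩ := (powCoprime hc).surjective (∏ q, d q)
  refine ⟨w, fun x => ?_⟩
  have h3 := h2 x
  rw [← hw, powCoprime_apply, map_pow, ← mul_pow] at h3
  have h4 := congrArg Subtype.val ((powCoprime hc).injective h3)
  change (w : G) = α x * x⁻¹ * (x * w * x⁻¹) at h4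
  calc α x = α x * x⁻¹ * (x * w * x⁻¹) * x * (w : G)⁻¹ := by group
    _ = _ := by rw [← h4]

end Cfsg.Agent.S1941
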