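import Cfsg.Statements.S1944
import Mathlib
import Cfsg.Agent.H4.PPrimeP

set_option autoImplicit false
open Cfsg

namespace Cfsg.Agent.S1944

/-- Let S be a Sylow p-subgroup of the finite group G and suppose that the centre Z(S) lies in O_{p',p}(G). The elements of S each of which is its only G-conjugate in S form a subgroup W of Z(S); W is then a direct factor of Z(S): there is a subgroup K of Z(S) with W ∩ K = 1 and WK = Z(S). -/
theorem result {G : Type*} [Group G] [Finite G] {p : ℕ} [Fact p.Prime] (S : Sylow p G)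
    (hZ : ((S : Subgroup G) ⊓ Subgroup.centralizer ((S : Subgroup G) : Set G)) ≤ Cfsg.pPrimePCore p G) :
    ∃ W K : Subgroup G, (∀ x : G, x ∈ W ↔ (x ∈ (S : Subgroup G) ∧ ∀ g : G, g * x * g⁻¹ ∈ (S : Subgroup G) → g * x * g⁻¹ = x)) ∧
      K ≤ ((S : Subgroup G) ⊓ Subgroup.centralizer ((S : Subgroup G) : Set G)) ∧ W ⊓ K = ⊥ ∧ W ⊔ K = ((S : Subgroup G) ⊓ Subgroup.centralizer ((S : Subgroup G) : Set G)) := by
  set H : Subgroup G := (S : Subgroup G) ⊓ Cfsg.pPrimePCore p G with hH
  have hSN : (S : Subgroup G) ≤ Subgroup.normalizer (H : Set G) :=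
    H1.le_normalizer_inf Subgroup.le_normalizer Subgroup.le_normalizer_of_normal
  obtain ⟨K, hK, h1, h2⟩ := H4.exists_complement_centralizer (V := H ⊓ Subgroup.centralizer (H : Set G))
    (N := Subgroup.normalizer (H : Set G)) (S := (S : Subgroup G))
    (H5.isMulCommutative_of_comm fun a ha b hb => hb.2 a ha.1)
    (H1.le_normalizer_inf le_rfl (H1.le_normalizer_centralizer le_rfl)) hSN
    (H1.coprime_card_of_isPGroup (S.isPGroup'.to_le (inf_le_left.trans inf_le_left))
      ((Nat.Prime.coprime_iff_not_dvd Fact.out).mpr (H4.IsSylowIn.sylow_of_le S hSN).not_dvd).symm)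
  have e : H ⊓ Subgroup.centralizer (H : Set G) ⊓ Subgroup.centralizer ((S : Subgroup G) : Set G) =
      (S : Subgroup G) ⊓ Subgroup.centralizer ((S : Subgroup G) : Set G) :=
    le_antisymm (inf_le_inf_right _ (inf_le_left.trans inf_le_left)) (le_inf (le_inf
      (le_inf inf_le_left hZ) (inf_le_right.trans (Subgroup.centralizer_le (inf_le_left : H ≤ S))))
      inf_le_right)
  rw [e] at hK h2
  refine ⟨H ⊓ Subgroup.centralizer (H : Set G) ⊓ Subgroup.centralizer (Subgroup.normalizer (H : Set G) : Set G),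
    K, fun x => ⟨fun hx => ⟨hx.1.1.1, fun g hg => ?_⟩, fun ⟨hx, h⟩ => ?_⟩, hK, h1, h2⟩
  · obtain ⟨n, hn, -, -, -, h⟩ := H4.normalizer_inf_pPrimePCore_controls S g
    obtain ⟨c, hc, e⟩ := h x hx.1.1.1 hg
    rw [← e]
    exact H4.comm_of_mem_centralizer' hx.2 (mul_mem hn (H4.centralizer_le_normalizer' _ hc))
  · have h3 : x ∈ (S : Subgroup G) ⊓ Subgroup.centralizer ((S : Subgroup G) : Set G) :=
      ⟨hx, fun s hs => mul_inv_eq_iff_eq_mul.mp (h s (mul_mem (mul_mem hs hx) (inv_mem hs)))⟩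
    rw [← e] at h3
    exact ⟨h3.1, fun n hn => mul_inv_eq_iff_eq_mul.mp
      (h n ((Subgroup.mem_normalizer_iff.mp hn x).mp h3.1.1).1)⟩

end Cfsg.Agent.S1944
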