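import Cfsg.Statements.S1948
import Mathlib
import Cfsg.Agent.H4.PPrimeP

set_option autoImplicit false
open Cfsg

namespace Cfsg.Agent.S1948

open scoped Pointwise

/-- Let S be a Sylow p-subgroup of the finite group G. Then G = N_G(S)·O_{p'}(G) if and only if G is p-constrained and N_G(S) controls fusion in S, in the sense that whenever a subgroup Q of S has a conjugate g Q g⁻¹ inside S, the element g is a product n c with n normalizing S and c centralizing Q. -/
theorem result {G : Type*} [Group G] [Finite G] {p : ℕ} [Fact p.Prime] (S : Sylow p G) :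
    Subgroup.normalizer ((S : Subgroup G) : Set G) ⊔ Cfsg.pPrimeCore p G = ⊤ ↔
      (Cfsg.IsPConstrained p G ∧
        ∀ Q : Subgroup G, Q ≤ (S : Subgroup G) → ∀ g : G, Q.map (MulAut.conj g).toMonoidHom ≤ (S : Subgroup G) →
          ∃ n ∈ Subgroup.normalizer ((S : Subgroup G) : Set G), ∃ c ∈ Subgroup.centralizer (Q : Set G), g = n * c) := by
  constructor
  · intro h
    have hn : ((S : Subgroup G) ⊔ Cfsg.pPrimeCore p G).Normal :=
      H5.normal_of_sup_eq_top (H1.le_normalizer_sup le_rfl Subgroup.le_normalizer_of_normal)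
        (le_sup_right.trans Subgroup.le_normalizer) h
    have hS : (S : Subgroup G) ≤ Cfsg.pPrimePCore p G := by
      refine le_sup_left.trans (H4.le_pPrimePCore (M := (S : Subgroup G) ⊔ Cfsg.pPrimeCore p G) ?_)
      intro x hx
      obtain ⟨s, hs, d, hd, rfl⟩ := Subgroup.mem_sup_of_normal_right.mp hx
      obtain ⟨k, hk⟩ := S.isPGroup' ⟨s, hs⟩
      refine ⟨k, (QuotientGroup.eq_one_iff _).mp ?_⟩
      rw [QuotientGroup.mk_pow, QuotientGroup.mk_mul, (QuotientGroup.eq_one_iff _).mpr hd, mul_one,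
        ← QuotientGroup.mk_pow, show s ^ p ^ k = 1 from congrArg Subtype.val hk]
      rfl
    refine ⟨fun P => ?_, fun Q hQ g hg => ?_⟩
    · obtain ⟨x, hx, e⟩ := (H4.IsSylowIn.sylow_of_le S hS).exists_conj_eq (H4.IsSylowIn.of_sylow_map P)
      rw [← e, H4.centralizer_conj_smul, ← H4.conj_smul_eq_of_mem hx, H4.conj_smul_le_conj_smul]
      exact H4.centralizer_le_pPrimePCore_of_normal S hn
    · have : g ∈ Subgroup.normalizer ((S : Subgroup G) : Set G) ⊔ Cfsg.pPrimeCore p G :=
        h ▸ Subgroup.mem_top g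
      obtain ⟨n, hn, d, hd, rfl⟩ := Subgroup.mem_sup_of_normal_right.mp this
      refine ⟨n, hn, d, fun x hx => ?_, rfl⟩
      refine (mul_inv_eq_iff_eq_mul.mp (H4.conj_eq_of_mem_coprime H2.pPrimeCore_coprime S.isPGroup'
        hd (hQ hx) ((Subgroup.mem_normalizer_iff.mp hn _).mpr ?_))).symm
      simpa [mul_assoc] using H4.conj_smul_le_iff.mp hg x hx
  · rintro ⟨h1, h2⟩
    have h3 := H4.isSylowIn_inf_pPrimePCore S
    have h4 := h1 h3.toSylow
    rw [h3.map_toSylow] at h4
    replace h4 := h4.trans h3.sup_pPrimeCore.ge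
    rw [eq_top_iff]
    intro g _
    obtain ⟨d, hd, n, hn, rfl⟩ := h3.exists_pPrimeCore_mul g
    obtain ⟨m, hm, c, hc, rfl⟩ := h2 _ inf_le_left n
      ((H4.conj_smul_eq_iff_mem_normalizer.mpr hn).le.trans inf_le_left)
    exact mul_mem (Subgroup.mem_sup_right hd) (mul_mem (Subgroup.mem_sup_left hm)
      (sup_le_sup_right (inf_le_left.trans Subgroup.le_normalizer) _ (h4 hc)))

end Cfsg.Agent.S1948
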