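import Cfsg.Statements.S1949
import Mathlib
import Cfsg.Agent.H3.Aut

set_option autoImplicit false
open Cfsg

namespace Cfsg.Agent.S1949

/-- Let P be a finite p-group and G a group of automorphisms of P containing the inner automorphisms. Then there is a G-invariant subgroup D of P, contained in the subgroup generated by the elements x⁻¹α(x) with x in P and α in O^p(G), of exponent dividing p when p is odd and dividing 4 when p = 2, with [D, P] ≤ Z(D), such that every automorphism in G of order prime to p that fixes D elementwise is the identity; moreover every maximal abelian subgroup A of D is normal in P and every automorphism in G fixing A elementwise has p-power order. -/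
theorem result {P : Type*} [Group P] [Finite P] {p : ℕ} [Fact p.Prime] (hP : IsPGroup p P)
    (G : Subgroup (MulAut P)) (hG : Cfsg.Inn P ≤ G) :
    ∃ D : Subgroup P,
      (∀ α ∈ G, D.map α.toMonoidHom = D) ∧
      D ≤ Subgroup.closure {y : P | ∃ α ∈ Cfsg.pResidual p ↥G, ∃ x : P, y = x⁻¹ * (α : MulAut P) x} ∧
      (∀ d ∈ D, d ^ p = 1 ∨ (p = 2 ∧ d ^ 4 = 1)) ∧
      ⁅D, (⊤ : Subgroup P)⁆ ≤ D ⊓ Subgroup.centralizer (D : Set P) ∧
      (∀ α ∈ G, (orderOf α).Coprime p → (∀ d ∈ D, α d = d) → α = 1) ∧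
      ∀ A : Subgroup P, A ≤ D → IsMulCommutative ↥A →
        (∀ B : Subgroup P, A ≤ B → B ≤ D → IsMulCommutative ↥B → B = A) →
        A.Normal ∧ ∀ α ∈ G, (∀ a ∈ A, α a = a) → ∃ k : ℕ, orderOf α = p ^ k := by
  obtain ⟨n, hn, h2, hq⟩ : ∃ n : ℕ, n ≠ 0 ∧ p ^ n ≠ 2 ∧ (p ^ n = p ∨ (p = 2 ∧ p ^ n = 4)) := by
    by_cases h : p = 2
    · exact ⟨2, two_ne_zero, by rw [h]; norm_num, Or.inr ⟨h, by rw [h]; norm_num⟩⟩
    · exact ⟨1, one_ne_zero, by rwa [pow_one], Or.inl (pow_one p)⟩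
  set U := Subgroup.closure {y : P | ∃ α ∈ Cfsg.pResidual p ↥G, ∃ x : P, y = x⁻¹ * (α : MulAut P) x} with hU
  have hres : ∀ γ : G, ∀ δ ∈ Cfsg.pResidual p ↥G, γ * δ * γ⁻¹ ∈ Cfsg.pResidual p ↥G := by
    intro γ δ hδ
    have : (Cfsg.pResidual p ↥G).map (MulAut.conj γ).toMonoidHom ≤ Cfsg.pResidual p ↥G := by
      rw [Cfsg.pResidual, MonoidHom.map_closure]
      refine Subgroup.closure_mono ?_
      rintro _ ⟨g, hg, rfl⟩
      change (orderOf (MulAut.conj γ g)).Coprime p
      rwa [MulEquiv.orderOf_eq]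
    exact this (Subgroup.mem_map_of_mem _ hδ)
  have hinv : ∀ γ ∈ G, ∀ x ∈ U, γ x ∈ U := by
    intro γ hγ x hx
    have : U.map γ.toMonoidHom ≤ U := by
      rw [hU, MonoidHom.map_closure]
      refine Subgroup.closure_mono ?_
      rintro _ ⟨_, ⟨α, hα, y, rfl⟩, rfl⟩
      exact ⟨_, hres ⟨γ, hγ⟩ α hα, γ y, by simp⟩
    exact this (Subgroup.mem_map_of_mem _ hx)
  haveI hUn : U.Normal := ⟨fun x hx g => hinv (MulAut.conj g) (hG ⟨g, rfl⟩) x hx⟩
  haveI := H3.holL_normal (Γ := G) hinv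
  obtain ⟨W, h1, h3, h4, h5, h6⟩ := H3.exists_critical_exponent hn h2 (B := ⊤) (Q := H3.holL G U)
    (H3.isPGroup_holL (Γ := G) hP ⊤) (H3.holL_le_holL.mpr le_top) le_top (by rw [H3.normalizer_holL_top])
    (by rw [Subgroup.normalizer_eq_top])
  obtain ⟨D, rfl⟩ := H3.exists_holL_eq (h1.trans (H3.holL_le_holL.mpr le_top))
  rw [H3.holL_inf_centralizer, ← Subgroup.map_commutator, H3.holL_le_holL] at h5
  have hfaith : ∀ α ∈ G, (orderOf α).Coprime p → (∀ d ∈ D, α d = d) → α = 1 := by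
    intro α hα hc hd
    have h7 := H3.holR_le_centralizer_holL.mp (h6 (H3.holR (Subgroup.zpowers ⟨α, hα⟩)) le_top
      (by rwa [H3.card_holR_zpowers]) (H3.holR_zpowers_le_centralizer hd)) _ (Subgroup.mem_zpowers _)
    obtain ⟨m, hm⟩ := IsPGroup.iff_card.mp hP
    refine H3.aut_eq_one_of_stabilizes (N := U) (by rw [hm]; exact hc.pow_right m) (fun x => ?_) h7
    exact Subgroup.subset_closure ⟨⟨α, hα⟩, Subgroup.subset_closure (by
      change (orderOf (⟨α, hα⟩ : G)).Coprime p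
      rwa [Subgroup.orderOf_mk]), x, rfl⟩
  have hDinv : ∀ α ∈ G, ∀ d ∈ D, α d ∈ D := fun α hα d hd =>
    H3.apply_mem_of_inr_mem_normalizer (γ := ⟨α, hα⟩) (h3 (Subgroup.mem_top _)) hd
  refine ⟨D, fun α hα => le_antisymm ?_ fun d hd => ⟨α⁻¹ d, hDinv _ (inv_mem hα) d hd, by simp⟩,
    H3.holL_le_holL.mp h1, fun d hd => ?_, h5, hfaith, fun A hAD hA hmax => ?_⟩
  · rintro _ ⟨d, hd, rfl⟩
    exact hDinv α hα d hd
  · have := h4 _ (H3.inl_mem_holL.mpr hd)
    rw [← map_pow, map_eq_one_iff _ SemidirectProduct.inl_injective] at this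
    rcases hq with h | ⟨h, h'⟩
    · exact Or.inl (h ▸ this)
    · exact Or.inr ⟨h, h' ▸ this⟩
  · have hc : D ⊓ Subgroup.centralizer (A : Set P) ≤ A := fun x hx => by
      rw [← hmax (A ⊔ Subgroup.zpowers x) le_sup_left (sup_le hAD (Subgroup.zpowers_le.mpr hx.1))
        (H3.isMulCommutative_sup_zpowers hA hx.2)]
      exact Subgroup.mem_sup_right (Subgroup.mem_zpowers x)
    refine ⟨H3.normal_of_commutator_le le_rfl (((Subgroup.commutator_mono hAD le_rfl).trans h5).trans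
      ((inf_le_inf_left _ (Subgroup.centralizer_le (SetLike.coe_subset_coe.mpr hAD))).trans hc)), fun α hα hfix => ?_⟩
    refine H3.exists_orderOf_eq_pow fun k hk => hfaith _ (pow_mem hα k) hk ?_
    have := H3.le_centralizer_of_centralizer_le (A := H3.holR (Subgroup.zpowers ⟨α ^ k, pow_mem hα k⟩))
      (H3.isPGroup_holL (Γ := G) hP D) (H3.holL_le_holL.mpr hAD)
      (by rwa [H3.holL_inf_centralizer, H3.holL_le_holL]) (le_top.trans h3) (by rwa [H3.card_holR_zpowers])
      (H3.holR_zpowers_le_centralizer fun x hx => H3.aut_pow_apply_eq (hfix x hx) k)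
    exact H3.holR_le_centralizer_holL.mp this _ (Subgroup.mem_zpowers _)

end Cfsg.Agent.S1949
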