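import Cfsg.Statements.S1950
import Cfsg.Agent.H5.PP5

set_option autoImplicit false
open Cfsg

namespace Cfsg.Agent.S1950

/-- Let G be a finite group whose Sylow p-subgroups are cyclic. Then G is p-solvable if and only if every two elements of order p of G generate a p-solvable subgroup. -/
theorem result {G : Type*} [Group G] [Finite G] {p : ℕ} [Fact p.Prime] (P : Sylow p G) (hP : IsCyclic ↥(P : Subgroup G)) :
    Cfsg.IsPSolvable p G ↔ ∀ x y : G, orderOf x = p → orderOf y = p → Cfsg.IsPSolvable p ↥(Subgroup.closure ({x, y} : Set G)) := by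
  exact ⟨fun h x y _ _ => H1.isPSolvable_subgroup Fact.out h _,
    fun h => H5.PP.cyc_all _ G rfl (H5.PP.cy_of_sylow P hP) h⟩

end Cfsg.Agent.S1950
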