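import Cfsg.Statements.S1952
import Mathlib
import Cfsg.Agent.H18.Yoshida

set_option autoImplicit false
open Cfsg

namespace Cfsg.Agent.S1952

open Cfsg.FusionSystem Cfsg.Agent.H17 Cfsg.Agent.H18

/-- Let P be a finite p-group with a normal elementary abelian subgroup A of index p, and let x ∈ A and y ∈ P with y outside A. If the product of the p conjugates y^(-i) x y^i (i = 0, …, p−1) is not the identity, then the wreath product Z_p ≀ Z_p, realised as a Sylow p-subgroup of the symmetric group of degree p², is a homomorphic image of P. -/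
theorem result {P : Type*} [Group P] [Finite P] {p : ℕ} [Fact p.Prime] (hP : IsPGroup p P) (A : Subgroup P) [A.Normal]
    (hA : Cfsg.IsElementaryAbelian p A) (hidx : A.index = p) (x y : P) (hx : x ∈ A) (hy : y ∉ A)
    (hprod : ((List.range p).map (fun i => (y ^ i)⁻¹ * x * y ^ i)).prod ≠ 1) :
    ∃ (Q : Sylow p (Equiv.Perm (Fin (p ^ 2)))) (f : P →* ↥(Q : Subgroup (Equiv.Perm (Fin (p ^ 2))))), Function.Surjective f := by
  classical
  haveI := hA.1
  have hm : ∀ i : ℕ, (y ^ i)⁻¹ * x * y ^ i ∈ A := fun i => ‹A.Normal›.conj_mem' x hx _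
  let z : A := ((List.range p).map fun i => (⟨_, hm i⟩ : A)).prod
  have hz : (z : P) = ((List.range p).map (fun i => (y ^ i)⁻¹ * x * y ^ i)).prod := by
    rw [Subgroup.val_list_prod, List.map_map]; rfl
  obtain ⟨M, -, m2, m3⟩ := H3.exists_index_p_not_mem (p := p) (⊥ : Subgroup A)
    (commutator_eq_bot A).le (fun a => Subtype.ext (hA.2 a a.2)) (x := z)
    fun h => hprod (hz ▸ congrArg Subtype.val h)
  haveI := H3.normal_of_index_eq_p (hP.to_subgroup A) m3
  haveI : IsCyclic (A ⧸ M) := isCyclic_of_prime_card m3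
  letI := IsCyclic.commGroup (α := A ⧸ M)
  refine wrQuot_of_transfer hP hidx le_rfl m3 (QuotientGroup.mk' M) hx fun h => m2 ?_
  have ho : orderOf (y : P ⧸ A) = p := orderOf_eq_prime (hidx ▸ pow_card_eq_one')
    (mt (QuotientGroup.eq_one_iff y).1 hy)
  haveI := Fintype.ofFinite (P ⧸ A)
  let b : Fin p ≃ P ⧸ A := Equiv.ofBijective (fun i => (y : P ⧸ A) ^ (i : ℕ))
    ((Nat.bijective_iff_injective_and_card _).2 ⟨fun i j e => Fin.ext (pow_injOn_Iio_orderOf
      (ho ▸ i.2) (ho ▸ j.2) e), by rw [Nat.card_fin]; exact hidx.symm⟩)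
  rw [transfer_eq_prod_out _ (fun q => y ^ (b.symm q : ℕ)) fun q => b.apply_symm_apply q,
    ← b.prod_comp] at h
  rw [← QuotientGroup.eq_one_iff, ← h, ← QuotientGroup.mk'_apply, map_list_prod, List.map_map]
  refine (Finset.prod_range _).trans (Finset.prod_congr rfl fun i _ => ?_)
  have : x • b i = b i := by
    change ((x * y ^ (i : ℕ) : P) : P ⧸ A) = (y : P ⧸ A) ^ (i : ℕ)
    rw [QuotientGroup.mk_mul, (QuotientGroup.eq_one_iff x).2 hx, one_mul, QuotientGroup.mk_pow]
  rw [this, b.symm_apply_apply, extF_of_mem _ (hm i)]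
  rfl

end Cfsg.Agent.S1952
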