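import Cfsg.Statements.S1953
import Mathlib
import Cfsg.Agent.H5.FGrp

set_option autoImplicit false
open Cfsg

namespace Cfsg.Agent.S1953

open Subgroup Cfsg.Agent.H22 Cfsg.Agent.H5b
open Cfsg.Agent.H18 hiding cj mem_cj conj_mem_cj conj_mem_cj_iff cj_le_iff cj_cj cj_one cj_inv_cj
  cj_cj_inv cj_mono cj_inf cj_sup cj_eq_iff cj_eq_of_mem cj_eq_of_normal cj_top card_cj isPGroup_cj
open scoped commutatorElement

theorem relIndex_iff {G : Type*} [Group G] [Finite G] {p : ℕ} [Fact p.Prime] {X Y : Subgroup G}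
    (h : X ≤ N[Y]) : (∃ k : ℕ, Y.relIndex X = p ^ k) ↔ ∀ x ∈ X, ∃ k : ℕ, x ^ p ^ k ∈ Y := by
  haveI := normal_subgroupOf_of_le_N h
  rw [relIndex, index, ← IsPGroup.iff_card]
  constructor
  · intro h x hx
    obtain ⟨k, hk⟩ := h (QuotientGroup.mk ⟨x, hx⟩)
    exact ⟨k, (QuotientGroup.eq_one_iff ((⟨x, hx⟩ : X) ^ p ^ k)).1 hk⟩
  · intro h x
    obtain ⟨x, rfl⟩ := QuotientGroup.mk_surjective x
    obtain ⟨k, hk⟩ := h x x.2
    exact ⟨k, (QuotientGroup.eq_one_iff (x ^ p ^ k : X)).2 hk⟩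

/-- Let p be an odd prime and P a Sylow p-subgroup of the finite group G, and suppose that for no p-subgroup Q of G does N_G(Q)/C_G(Q) have a section isomorphic to SL₂(p). Call a subgroup Q of P centric-radical when Z(Q) is a Sylow p-subgroup of C_G(Q) and the only normal subgroup X of N_G(Q) containing Q·C_G(Q) such that the index of Q·C_G(Q) in X is a power of p is Q·C_G(Q) itself (that is, N_G(Q)/Q·C_G(Q) has no nontrivial normal p-subgroup). Then there is a centric-radical subgroup Q of P contained in every centric-radical subgroup of P; it is normal in P, and N_G(Q) controls strong fusion in P: whenever a subgroup A of P has g A g⁻¹ ≤ P, the element g is a product h c with h in N_G(Q) and c centralizing A. -/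
theorem result {G : Type*} [Group G] [Finite G] {p : ℕ} [Fact p.Prime] (hp : p ≠ 2) (P : Sylow p G)
    (hfree : ∀ Q : Subgroup G, IsPGroup p ↥Q → ¬ ∃ (H K : Subgroup G) (_ : (K.subgroupOf H).Normal),
      Subgroup.centralizer (Q : Set G) ≤ K ∧ K ≤ H ∧ H ≤ Subgroup.normalizer (Q : Set G) ∧
      Nonempty ((↥H ⧸ K.subgroupOf H) ≃* Matrix.SpecialLinearGroup (Fin 2) (ZMod p)))
    (cr : Subgroup G → Prop)
    (hcr : ∀ Q : Subgroup G, cr Q ↔ (Q ≤ (P : Subgroup G) ∧
      (∃ R : Sylow p ↥(Subgroup.centralizer (Q : Set G)),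
        (R : Subgroup ↥(Subgroup.centralizer (Q : Set G))).map (Subgroup.centralizer (Q : Set G)).subtype = Q ⊓ Subgroup.centralizer (Q : Set G)) ∧
      ∀ X : Subgroup G, X ≤ Subgroup.normalizer (Q : Set G) →
        (∀ n ∈ Subgroup.normalizer (Q : Set G), X.map (MulAut.conj n).toMonoidHom = X) →
        Q ⊔ Subgroup.centralizer (Q : Set G) ≤ X → (∃ k : ℕ, (Q ⊔ Subgroup.centralizer (Q : Set G)).relIndex X = p ^ k) →
        X = Q ⊔ Subgroup.centralizer (Q : Set G))) :
    ∃ Q : Subgroup G, cr Q ∧ (∀ R : Subgroup G, cr R → Q ≤ R) ∧ (∀ x ∈ (P : Subgroup G), Q.map (MulAut.conj x).toMonoidHom = Q) ∧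
      ∀ A : Subgroup G, A ≤ (P : Subgroup G) → ∀ g : G, A.map (MulAut.conj g).toMonoidHom ≤ (P : Subgroup G) →
        ∃ h ∈ Subgroup.normalizer (Q : Set G), ∃ c ∈ Subgroup.centralizer (A : Set G), g = h * c := by
  have hS := sylIn_top P
  have hF := groupFusionSystem_saturated P
  have hG : ¬ Involves (qd p) G := fun h => by
    obtain ⟨A, h1, -, H, π, h2, h3, h4, h5⟩ := exists_SL2_automizer h
    obtain ⟨L, _, h6, h7, h8⟩ := exists_section_of_surj π h2
    exact hfree A h1 ⟨H, L, inferInstance, fun x hx => h7 ⟨x, h4 hx⟩ (h5 _ hx), h6, h3, h8⟩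
  have key : ∀ Q, cr Q ↔ Q ≤ P ∧ (groupFusionSystem (P : Subgroup G)).IsCentric Q ∧
      (groupFusionSystem (P : Subgroup G)).IsRadical p Q := fun Q => by
    rw [hcr]
    refine and_congr_right fun hQ => ?_
    have hN : N[Q] ≤ N[Q ⊔ C[Q]] := le_N_sup le_rfl (le_N_C le_rfl)
    rw [centric_group_iff hS hQ, radical_group_iff P.2 hQ]
    refine and_congr ⟨fun ⟨R, hR⟩ => hR ▸ sylIn_map_subtype R, fun h => h.exists_sylow.imp
      fun R hR => by rw [hR, map_subgroupOf_eq_of_le inf_le_right]⟩ (forall₂_congr fun X hX => ?_)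
    refine imp_congr (forall₂_congr fun n _ => mem_N_iff_cj.symm) (imp_congr_right fun _ => ?_)
    rw [relIndex_iff (hX.trans hN)]
    refine imp_congr_left (forall₂_congr fun x _ => ⟨fun ⟨k, hk⟩ => ?_,
      fun ⟨k, hk⟩ => ⟨k, mem_sup_right hk⟩⟩)
    obtain ⟨j, hj⟩ := pow_mem_of_mem_sup (p := p) (le_N_C le_normalizer) (fun a ha =>
      (pgrp_iff.1 P.2 a (hQ ha)).imp fun k hk => by rw [hk]; exact one_mem _) _ hk
    exact ⟨k + j, by rwa [pow_add, pow_mul]⟩
  have hc : (groupFusionSystem (P : Subgroup G)).IsConstrained p := by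
    have h1 := H17.le_core (isNormal_group_iff.2 ⟨H21.kL_le _, ctl_kL_of_qdFree hp hG hS⟩)
    exact (constrained_iff hF).2 (((inf_le_inf_left _ (C_anti h1)).trans
      (H21.C_kL_le P.2)).trans h1)
  have hQ := H17.normal_core (groupFusionSystem (P : Subgroup G))
  refine ⟨_, (key _).2 ⟨hQ.1, radical_core P.2 hc⟩, fun R hR => H17.normal_le_cr P.2 hQ
    ((key R).1 hR).2.1 ((key R).1 hR).2.2, fun x hx => mem_N_iff_cj.1
      (H17.sc_le_normalizer (H17.normal_sc hQ) hx), fun A hA g hg => ?_⟩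
  exact (isNormal_group_iff.1 hQ).2.exists_mul hA hg

end Cfsg.Agent.S1953
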