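import Cfsg.Statements.S1954
import Mathlib
import Cfsg.Agent.H4.Cyc2
import Cfsg.Agent.H17.Chain

set_option autoImplicit false
open Cfsg

namespace Cfsg.Agent.S1954

/-- Let N be a normal subgroup of the finite group G, P a Sylow p-subgroup of G, and V a subgroup of P ∩ N normal in P ∩ N such that N_N(V) controls strong fusion in P ∩ N with respect to N (whenever a subgroup A of P ∩ N has n A n⁻¹ ≤ P ∩ N for some n in N, then n = h c with h in N_N(V) and c in C_N(A)). Let W be the subgroup generated by the conjugates of V under N_G(P ∩ N). Then N_G(W) controls strong fusion in P with respect to G. -/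
theorem result {G : Type*} [Group G] [Finite G] {p : ℕ} [Fact p.Prime] (N : Subgroup G) [N.Normal] (P : Sylow p G) (V : Subgroup G)
    (hV : V ≤ (P : Subgroup G) ⊓ N) (hVn : ∀ x ∈ (P : Subgroup G) ⊓ N, V.map (MulAut.conj x).toMonoidHom = V)
    (hctrl : ∀ A : Subgroup G, A ≤ (P : Subgroup G) ⊓ N → ∀ n ∈ N, A.map (MulAut.conj n).toMonoidHom ≤ (P : Subgroup G) ⊓ N →
      ∃ h ∈ N ⊓ Subgroup.normalizer (V : Set G), ∃ c ∈ N ⊓ Subgroup.centralizer (A : Set G), n = h * c)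
    (W : Subgroup G) (hW : W = Subgroup.closure (⋃ x ∈ Subgroup.normalizer (((P : Subgroup G) ⊓ N : Subgroup G) : Set G),
      ((V.map (MulAut.conj x).toMonoidHom : Subgroup G) : Set G))) :
    ∀ A : Subgroup G, A ≤ (P : Subgroup G) → ∀ g : G, A.map (MulAut.conj g).toMonoidHom ≤ (P : Subgroup G) →
        ∃ h ∈ Subgroup.normalizer (W : Set G), ∃ c ∈ Subgroup.centralizer (A : Set G), g = h * c := by
  open Subgroup Cfsg.Agent.H22 Cfsg.Agent.H4 in
  simp only [cj_def] at *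
  set Q := (P : Subgroup G) ⊓ N with hQ
  have hS : H18.SylIn p Q N := (H18.sylIn_top P).inf_normal
  let Ct : Subgroup G → Prop := fun X => X ≤ Q ∧ ∀ A : Subgroup G, A ≤ Q → ∀ n ∈ N, cj n A ≤ Q →
    ∃ h ∈ N ⊓ N[X], ∃ c ∈ N ⊓ C[A], n = h * c
  have hcj : ∀ x ∈ N[Q], Ct (cj x V) := fun x hx => ⟨cj_le_of_mem_N hx hV, fun A hA n hn h => by
    obtain ⟨h, a1, c, a2, e⟩ := hctrl (cj x⁻¹ A) (cj_le_of_mem_N (inv_mem hx) hA) (x⁻¹ * n * x)
      (conj_mem_of_N' (mem_N_of_normal x N) hn) (by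
        rw [← cj_mul, mul_inv_cancel_right, cj_mul]; exact cj_le_of_mem_N (inv_mem hx) h)
    refine ⟨x * h * x⁻¹, ⟨conj_mem_of_N (mem_N_of_normal x N) a1.1, ?_⟩, x * c * x⁻¹,
      ⟨conj_mem_of_N (mem_N_of_normal x N) a2.1, ?_⟩, ?_⟩
    · have := conj_mem_cj (g := x) a1.2
      rwa [cj_N] at this
    · have := conj_mem_cj (g := x) a2.2
      rwa [cj_C, cj_cj_inv] at this
    · calc n = x * (x⁻¹ * n * x) * x⁻¹ := by group
        _ = _ := by rw [e]; group⟩
  have hsup : ∀ X Y, Ct X → Ct Y → Ct (X ⊔ Y) := fun X Y hX hY => ⟨sup_le hX.1 hY.1, fun A hA n hn h => by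
    obtain ⟨j, a1, c, a2, rfl⟩ := hX.2 A hA n hn h
    rw [cj_mul, cj_eq_of_mem_N (C_le_N _ a2.2)] at h
    obtain ⟨k, b1, d, b2, rfl⟩ := hY.2 (A ⊔ X) (sup_le hA hX.1) j a1.1
      (by rw [cj_sup, cj_eq_of_mem_N a1.2]; exact sup_le h hX.1)
    rw [C_sup] at b2
    exact ⟨k, ⟨b1.1, mem_N_sup ((mul_mem_cancel_right (C_le_N _ b2.2.2)).1 a1.2) b1.2⟩, d * c,
      mul_mem (show d ∈ N ⊓ C[A] from ⟨b2.1, b2.2.1⟩) a2, mul_assoc _ _ _⟩⟩
  have hW' : W = ncl N[Q] V := by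
    rw [hW]
    refine le_antisymm ((closure_le _).2 (Set.iUnion₂_subset fun x hx => cj_le_ncl hx))
      (ncl_le_iff.2 fun x hx y hy => subset_closure (Set.mem_iUnion₂.2 ⟨x, hx, hy⟩))
  have hWc : Ct W := by
    obtain ⟨X, -, ⟨a1, a2⟩, a3⟩ := exists_maximal_subgroup (P := fun X => X ≤ W ∧ Ct X) (H := cj 1 V)
      ⟨hW' ▸ cj_le_ncl (one_mem _), hcj 1 (one_mem _)⟩
    rwa [le_antisymm (hW'.le.trans (ncl_le_iff.2 fun x hx => le_sup_right.trans
      (a3 _ ⟨sup_le a1 (hW' ▸ cj_le_ncl hx), hsup _ _ a2 (hcj x hx)⟩ le_sup_left).le)) a1]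
  have hNW : N[Q] ≤ N[W] := hW' ▸ le_N_ncl _ _
  have hPQ : N[(P : Subgroup G)] ≤ N[Q] := le_N_inf le_rfl (le_N_of_normal _ _)
  have hWP : W ≤ P := hWc.1.trans inf_le_left
  have hsc : ∀ i, ∀ x ∈ H17.ucs W i, ∀ g : G, g * x * g⁻¹ ∈ (P : Subgroup G) →
      g * x * g⁻¹ ∈ H17.ucs W i := by
    intro i x hx g hg
    have hxQ := hWc.1 (H17.ucs_le hx)
    obtain ⟨y, hy, m, hm, rfl⟩ := syl_frattini' hS (mem_N_of_normal g N)
    have a1 : m * x * m⁻¹ ∈ Q := by
      have := conj_mem_of_N' hy (show _ ∈ Q from ⟨hg, conj_mem_of_N (mem_N_of_normal _ N) hxQ.2⟩)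
      convert this using 1; group
    obtain ⟨h, b1, c, b2, rfl⟩ := hWc.2 (zpowers x) (zpowers_le.2 hxQ) m hm
      (by rw [cj_zpowers]; exact zpowers_le.2 a1)
    have b3 := mem_C.1 b2.2 x (mem_zpowers x)
    have := H17.conj_mem_ucs (mul_mem (hNW hy) b1.2) hx
    convert this using 1
    calc _ = y * h * (c * x) * c⁻¹ * (y * h)⁻¹ := by group
      _ = _ := by rw [← b3]; group
  obtain ⟨n, hn⟩ := H17.exists_ucs_eq (P.isPGroup'.to_le hWP)
  have key : ∀ T x, AGF p (P : Subgroup G) T x → x ∈ N[W] := by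
    intro T x hT
    obtain ⟨-, hx⟩ := hT.inv
    obtain ⟨a, -, c, -⟩ := hT
    have hTW : T ≤ N[W] := a.trans (le_normalizer.trans (hPQ.trans hNW))
    have h1 : W ≤ T := by
      refine le_of_inf_N_le P.isPGroup' a hWP hTW (le_of_chain P.isPGroup' a c
        (fun i => if i ≤ n then H17.ucs W i else ⊤) (by simp [H17.ucs_zero]) (n := n + 1) (by simp)
        (fun i => ?_) (inf_le_inf_right _ hWP) fun i => ?_)
      · split_ifs
        · exact fun g hg => mem_N_of_cj_le (cj_le_iff'.2 fun y hy => ⟨conj_mem_of_N hg hy.1,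
            hsc i y hy.2 g (a (conj_mem_of_N hg hy.1))⟩)
        · simp
      · by_cases h1 : i + 1 ≤ n
        · rw [if_pos h1, if_pos (by omega)]
          exact (commutator_mono inf_le_right inf_le_left).trans H17.commutator_ucs_le
        · by_cases h2 : i = n
          · rw [if_neg h1, if_pos h2.le, h2, hn]
            exact (commutator_mono inf_le_left inf_le_left).trans (comm_le_of_le_N' hTW)
          · rw [if_neg (show ¬ i ≤ n by omega)]; exact le_top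
    refine mem_N_of_cj_le (cj_le_iff'.2 fun y hy => ?_)
    rw [← hn] at hy ⊢
    exact hsc n y hy x (a (conj_mem_of_N hx (h1 (H17.ucs_le hy))))
  intro A hA g hg
  obtain ⟨c, hc, k, y, hy, hk, e⟩ := ag_main P A g⁻¹ hA
    (by rintro _ ⟨a, ha, rfl⟩; rw [inv_inv]; exact hg (conj_mem_cj ha))
  refine ⟨(k * y)⁻¹, inv_mem (mul_mem (hk.mem key) (hNW (hPQ hy))), c⁻¹, inv_mem hc, ?_⟩
  rw [inv_eq_iff_eq_inv.1 e]; group

end Cfsg.Agent.S1954
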