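import Cfsg.Statements.S1956
import Mathlib
import Cfsg.Agent.H4.Ito

set_option autoImplicit false
open Cfsg

namespace Cfsg.Agent.S1956

/-- Let P be a Sylow p-subgroup of the finite group G such that every element of P of order dividing p (dividing 4 when p = 2) is central in P. Then the fusion of these elements is controlled by N_G(P): if such an element a of P has g a g⁻¹ in P, then g = n c with n normalizing P and c commuting with a. -/
theorem result {G : Type*} [Group G] [Finite G] {p : ℕ} [Fact p.Prime] (P : Sylow p G)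
    (hcen : ∀ a ∈ (P : Subgroup G), (a ^ p = 1 ∨ (p = 2 ∧ a ^ 4 = 1)) → ∀ y ∈ (P : Subgroup G), a * y = y * a) :
    ∀ a ∈ (P : Subgroup G), (a ^ p = 1 ∨ (p = 2 ∧ a ^ 4 = 1)) → ∀ g : G, g * a * g⁻¹ ∈ (P : Subgroup G) →
      ∃ n ∈ Subgroup.normalizer ((P : Subgroup G) : Set G), ∃ c : G, c * a = a * c ∧ g = n * c := by
  intro a ha hs g hg
  have hs' : (g * a * g⁻¹) ^ p = 1 ∨ (p = 2 ∧ (g * a * g⁻¹) ^ 4 = 1) := by
    rcases hs with hs | hs
    · left; rw [conj_pow, hs]; simp
    · right; refine ⟨hs.1, ?_⟩; rw [conj_pow, hs.2]; simp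
  obtain ⟨n, hn, e⟩ := H4.exists_normalizer_conj_of_le_centralizer P (A := {a}) (g := g)
    (by rintro _ rfl; exact Subgroup.mem_centralizer_iff.mpr fun y hy => (hcen _ ha hs y hy).symm)
    (by rintro _ rfl; exact Subgroup.mem_centralizer_iff.mpr fun y hy => (hcen _ hg hs' y hy).symm)
  refine ⟨n, hn, n⁻¹ * g, ?_, by simp⟩
  have := e a rfl
  calc n⁻¹ * g * a = n⁻¹ * (g * a * g⁻¹) * g := by simp [mul_assoc]
    _ = _ := by rw [← this]; simp [mul_assoc]

end Cfsg.Agent.S1956
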