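import Cfsg.Statements.S2015
import Mathlib
import Cfsg.Agent.H21.SecTr

set_option autoImplicit false
universe u
open Cfsg

namespace Cfsg.Agent.S2015

open Subgroup Cfsg.Agent.H22 Cfsg.Agent.H18 Cfsg.Agent.H21

/-- For p ≥ 5, every finite p-group P has a characteristic subgroup K containing Z(P), depending only on P, whose normalizer controls transfer wherever P is a Sylow subgroup: for every finite group G and every embedding ι of P onto a Sylow p-subgroup of G, the intersection of ι(P) with the derived subgroup of G equals its intersection with the derived subgroup of N_G(ι(K)). -/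
theorem result (p : ℕ) [Fact p.Prime] (hp : 5 ≤ p) (P : Type u) [Group P] [Finite P] (hP : IsPGroup p P) : ∃ K : Subgroup P, K.Characteristic ∧ Subgroup.center P ≤ K ∧ ∀ (G : Type u) [Group G] [Finite G] (ι : P →* G), Function.Injective ι → (∃ T : Sylow p G, (T : Subgroup G) = ι.range) → ι.range ⊓ commutator G = ι.range ⊓ (commutator ↥(Subgroup.normalizer ((K.map ι : Subgroup G) : Set G))).map (Subgroup.normalizer ((K.map ι : Subgroup G) : Set G)).subtype := by
  refine ⟨kL ⊤, ⟨fun φ => ?_⟩, ?_, fun G _ _ ι hι ⟨T, hT⟩ => ?_⟩
  · rw [comap_equiv_eq_map_symm', map_kL φ.symm.injective, map_top_of_surjective _ φ.symm.surjective]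
  · have := center_le_kL (⊤ : Subgroup P)
    rwa [top_inf_eq, C_top] at this
  · have := (trT_kInfLower (G := G) hp).inf_comm_eq (sylIn_top T)
    rw [inducedFunctor_kInfLower, hT] at this
    rw [map_kL hι, ← MonoidHom.range_eq_map, _root_.commutator_def, _root_.commutator_def,
      map_commutator, map_subtype_top]
    exact this

end Cfsg.Agent.S2015
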