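import Cfsg.Statements.S2132
import Cfsg.Agent.H25.McI

set_option autoImplicit false
set_option maxRecDepth 100000
open Cfsg

namespace Cfsg.Agent.S2132
open Cfsg.Agent.H25 Cfsg.Agent.H25.McI Cfsg.Agent.H25.CenB Cfsg.Agent.H25.Leech

abbrev S := alternatingGroup (Fin 8)
noncomputable def sp (i : ℕ) (x y : Fin 8) : Bool := (gd 0 ms i).testBit x == (gd 0 ms i).testBit y
theorem amS : AM TS (alt 8 RA) sp := am_alt (by decide +kernel) (by decide +kernel)
theorem card : Nat.card S = 20160 := nat_card_alternatingGroup.trans (by simp [Nat.factorial])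
theorem injS : ∀ i < TS.N, ∀ j < TS.N, sp i = sp j → i = j := by decide +kernel
theorem tb : Lc (2 ^ 3 - 1) (alt 8 RA) = ⊤ ∧ IsBase S TS.N sp (chS.map OL.b).reverse :=
  base_of_chain (ls := chS) amS injS (by decide +kernel) (card.trans_le (by decide +kernel))

abbrev C := Subgroup.centralizer ({k 0} : Set G0)
noncomputable abbrev kc : ℕ → C := subL C k
theorem hB : IsBase G0 TK.N py B := htb.2
theorem memC : ∀ a < TK.G, k a ∈ C := mem_cen hK hB cm
theorem hKc : AM TK kc py := CenB.AM.sub hK memC

theorem hom : ∃ f : C →* S, Function.Surjective f ∧ f.ker = Lc (2 ^ 1 - 1) kc ∧ Nat.card f.ker = 2 ∧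
    ∀ a < TS.G, f (kc a) = alt 8 RA a :=
  hom_of_am (CenB.AM.sub hR memC) vr_spec.2 amS tb.2 tb.1 (by decide) (fun a ha => by
    obtain rfl : a = 0 := by omega
    exact amS.chk2 tb.2 [0] [] (by decide +kernel) |> fun h => by simpa using h)
    (enum_le hKc vy_spec.2 en) (card ▸ ub)


/-- The McLaughlin group (as a two-vector stabiliser in the automorphism group of the rank-24 lattice) has a single conjugacy class of involutions, and the centraliser of an involution is a non-split double cover of the alternating group of degree 8. -/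
theorem result : (∀ x y : ↥Cfsg.Spor.McL, orderOf x = 2 → orderOf y = 2 → IsConj x y) ∧ ∃ t : ↥Cfsg.Spor.McL, orderOf t = 2 ∧ Cfsg.IsNonsplitDoubleCover ↥(Subgroup.centralizer ({t} : Set ↥Cfsg.Spor.McL)) ↥(alternatingGroup (Fin 8)) := by
  obtain ⟨f, hf, e, hc, -⟩ := hom
  haveI : IsSimpleGroup S := alternatingGroup.isSimpleGroup (by simp)
  have e0 : (kc 0 : G0) = k 0 := subL_coe (memC 0 (by decide))
  have hk : f.ker = Subgroup.zpowers (kc 0) := by
    refine e.trans (le_antisymm (Lc_le.2 fun a ha => ?_) (Subgroup.zpowers_le.2 (mem_Lc kc (by decide))))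
    obtain rfl : a = 0 := by simpa using mask_mem ha
    exact Subgroup.mem_zpowers _
  refine ⟨oc, k 0, ?_, dcover (u := ev kc u) hf hk hc ?_ ?_ ?_⟩
  · rw [← e0, Subgroup.orderOf_coe, ← Nat.card_zpowers, ← hk, hc]
  · exact Subgroup.mem_center_iff.2 fun x => Subtype.ext (by
      simpa [e0] using Subgroup.mem_centralizer_singleton_iff.1 x.2)
  · simpa [ev_append] using hKc.chk2 (CenB.IsBase.sub hB C) _ _ uu
  · have := amS.neqv injS tb.2.1 (u := [1, 2]) (v := [2, 1]) (by unfold Sm; decide) (by unfold Sm; decide)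
      (by decide +kernel)
    exact ⟨_, _, by simpa using this⟩

end Cfsg.Agent.S2132
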