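import Cfsg.Statements.S2162
import Mathlib
import Cfsg.Agent.L0.GLn3
-- import your own Cfsg.Agent.* helpers here

set_option autoImplicit false
open Cfsg

namespace Cfsg.Agent.S2162

open Cfsg.Agent.L0

/-- Conjugacy of involutions in the special linear group over a finite field of characteristic two, in dimension at least 3: two elements of order 2 of SL_n(F) are conjugate in SL_n(F) exactly when the matrices a − 1 and b − 1 have the same rank (the rank of a − 1 is the dimension of the commutator space [V, a]). -/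
theorem result {F : Type*} [Field F] [Fintype F] [CharP F 2] {n : ℕ} (hn : 3 ≤ n) (a b : Matrix.SpecialLinearGroup (Fin n) F) (ha : orderOf a = 2) (hb : orderOf b = 2) :
    IsConj a b ↔ ((a : Matrix (Fin n) (Fin n) F) - 1).rank = ((b : Matrix (Fin n) (Fin n) F) - 1).rank := by
  have key : ∀ a : Matrix.SpecialLinearGroup (Fin n) F, orderOf a = 2 → ((a : Matrix (Fin n) (Fin n) F) - 1) ^ 2 = 0 := by
    intro a ha
    have := (mat_pow_char_pow_eq_one_iff 2 (a : Matrix (Fin n) (Fin n) F) 1).1 (by
      rw [pow_one, ← Matrix.SpecialLinearGroup.coe_pow, ← ha, pow_orderOf_eq_one]; rfl)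
    rwa [pow_one] at this
  constructor
  · intro h
    have := rank_aeval_eq_of_ty (ty_eq_of_isConj_sl h) ((Polynomial.X - 1) ^ 1)
    rwa [aeval_X_sub_one_pow, aeval_X_sub_one_pow, pow_one, pow_one] at this
  · intro h
    refine isConj_sl_of_ty (fun c _ => ?_) (ty_eq_of_sq_zero (key a ha) (key b hb) h)
    have h1 := sum_natDegree_ty (a : Matrix (Fin n) (Fin n) F)
    have h2 : ty (a : Matrix (Fin n) (Fin n) F) ≠ 0 := by
      intro h0
      rw [h0, Fintype.card_fin, Multiset.map_zero, Multiset.sum_zero] at h1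
      omega
    obtain ⟨u, hu⟩ := Multiset.exists_mem_of_ne_zero h2
    obtain ⟨j, hj, hj2, hj3⟩ := (sub_one_pow_eq_zero_iff _ _).1 (key a ha) u hu
    obtain ⟨d, hd⟩ : ∃ d : F, d ^ j = c := by
      obtain rfl | rfl : j = 1 ∨ j = 2 := by omega
      · exact ⟨c, pow_one c⟩
      · obtain ⟨d, hd⟩ := FiniteField.isSquare_of_char_two (ringChar.eq F 2) c
        exact ⟨d, by rw [hd, pow_two]⟩
    obtain ⟨B, h3, h4⟩ := exists_commute_det_pow hu d
    exact ⟨B, h3, by rw [h4, hj3, natDegree_X_sub_one_pow, hd]⟩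

end Cfsg.Agent.S2162
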