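import Cfsg.Statements.S2163
import Mathlib
import Cfsg.Agent.L0.GLn4
-- import your own Cfsg.Agent.* helpers here

set_option autoImplicit false
open Cfsg

namespace Cfsg.Agent.S2163

open Cfsg.Agent.L0

/-- Over a finite field of characteristic two and for n ≥ 3: for every ℓ with 1 ≤ ℓ and 2ℓ ≤ n, the matrix j_ℓ that is the identity plus the entries 1 in positions (n − ℓ + i, i) for i < ℓ (an identity block of size ℓ in the lower left corner) lies in SL_n(F), has order 2, and j_ℓ − 1 has rank ℓ. Together with the conjugacy criterion by rank, these matrices represent the conjugacy classes of involutions of SL_n(F). -/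
theorem result {F : Type*} [Field F] [Fintype F] [CharP F 2] {n : ℕ} (hn : 3 ≤ n) (ℓ : ℕ) (h1 : 1 ≤ ℓ) (h2 : 2 * ℓ ≤ n) :
    ∃ a : Matrix.SpecialLinearGroup (Fin n) F, (a : Matrix (Fin n) (Fin n) F) = 1 + Matrix.of (fun i j : Fin n => if j.val < ℓ ∧ i.val = j.val + (n - ℓ) then (1 : F) else 0) ∧ orderOf a = 2 ∧ ((a : Matrix (Fin n) (Fin n) F) - 1).rank = ℓ := by
  set N : Matrix (Fin n) (Fin n) F :=
    Matrix.of (fun i j : Fin n => if j.val < ℓ ∧ i.val = j.val + (n - ℓ) then (1 : F) else 0) with hN
  have hN2 : N * N = 0 := by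
    ext i j
    rw [Matrix.mul_apply]
    refine Finset.sum_eq_zero fun k _ => ?_
    simp only [hN, Matrix.of_apply]
    split_ifs with h3 h4
    · omega
    · simp
    · simp
    · simp
  let D : Matrix (Fin n) (Fin n) F := Matrix.diagonal fun j => if j.val < ℓ then 1 else 0
  have hD : D.rank = ℓ := by
    classical
    rw [Matrix.rank_diagonal]
    have : ∀ j : Fin n, ((if j.val < ℓ then (1 : F) else 0) ≠ 0) ↔ j.val < ℓ := by
      intro j; split_ifs <;> simp [*]
    simp only [this, Fintype.card_subtype, Fin.card_filter_val_lt]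
    omega
  have h3 : N * D = N := by
    ext i j
    simp only [D, hN, Matrix.mul_diagonal, Matrix.of_apply]
    split_ifs with h3 h4
    · simp
    · exact absurd h3.1 h4
    · simp
    · simp
  have h4 : N.transpose * N = D := by
    ext i j
    rw [Matrix.mul_apply]
    simp only [D, hN, Matrix.transpose_apply, Matrix.of_apply, Matrix.diagonal_apply]
    by_cases hi : i.val < ℓ
    · rw [Finset.sum_eq_single ⟨i.val + (n - ℓ), by omega⟩]
      · simp only [hi, true_and, if_true, one_mul, Fin.ext_iff]
        split_ifs with h5 h6 h6 <;> first | rfl | omega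
      · intro k _ hk
        rw [if_neg, zero_mul]
        exact fun h => hk (Fin.ext h.2)
      · simp
    · simp [hi]
  have hr : N.rank = ℓ := le_antisymm (by rw [← h3, ← hD]; exact Matrix.rank_mul_le_right _ _)
    (by rw [← hD, ← h4]; exact Matrix.rank_mul_le_right _ _)
  have hdet : (1 + N).det = 1 := by
    simpa using det_scalar_add_nilpotent (N := N) ⟨2, by rw [pow_two, hN2]⟩ 1
  haveI : Fact (Nat.Prime 2) := ⟨Nat.prime_two⟩
  refine ⟨⟨1 + N, hdet⟩, rfl, orderOf_eq_prime (Subtype.ext ?_) fun h => ?_, by simpa using hr⟩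
  · have := (mat_pow_char_pow_eq_one_iff 2 (1 + N) 1).2 (by rw [add_sub_cancel_left, pow_one, pow_two, hN2])
    rwa [pow_one] at this
  · have : 1 + N = 1 := congrArg Subtype.val h
    rw [add_eq_left.1 this, Matrix.rank_zero] at hr
    omega

end Cfsg.Agent.S2163
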