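import Cfsg.Statements.S2164
import Mathlib
import Cfsg.Agent.H10.Reg

set_option autoImplicit false
open Cfsg

namespace Cfsg.Agent.S2164

/-- Conjugacy of involutions in the special unitary group SU_n(q), q even, n ≥ 3, realised over the field F with q² elements as the matrices of determinant 1 preserving the form Σ u_i v_i^q: for two elements of order 2 of SU_n(q) the following are equivalent — they are conjugate in SU_n(q); they are conjugate in SL_n(F); the matrices a − 1 and b − 1 have the same rank. -/
theorem result {F : Type*} [Field F] [Fintype F] [CharP F 2] {n q : ℕ} (hF : Fintype.card F = q ^ 2) (hn : 3 ≤ n) (a b : ↥(Cfsg.SU n F q)) (ha : orderOf a = 2) (hb : orderOf b = 2) :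
    (IsConj a b ↔ IsConj (a : Matrix.SpecialLinearGroup (Fin n) F) (b : Matrix.SpecialLinearGroup (Fin n) F)) ∧
    (IsConj a b ↔ (((a : Matrix.SpecialLinearGroup (Fin n) F) : Matrix (Fin n) (Fin n) F) - 1).rank = (((b : Matrix.SpecialLinearGroup (Fin n) F) : Matrix (Fin n) (Fin n) F) - 1).rank) := by
  have hq := H11.qConj_conjQ hF
  have hH := hq.isHerm (Fin n)
  have hB := H11.hermB_sep (σ := H11.conjQ hF) (Fin n)
  have h2 : ∀ c : SU n F q, orderOf c = 2 → (c.1.1 - 1) ^ 2 = 0 := fun c hc => by
    have := (L0.mat_pow_char_pow_eq_one_iff 2 c.1.1 1).mp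
      (congrArg (·.1.1) (orderOf_dvd_iff_pow_eq_one.mp hc.dvd))
    rwa [pow_one] at this
  have h3 : (a.1.1 - 1).rank = (b.1.1 - 1).rank → IsConj a b := fun h => by
    have h4 := L0.ty_eq_of_sq_zero (h2 a ha) (h2 b hb) h
    have hs := (L0.sub_one_pow_eq_zero_iff _ _).mp (h2 a ha)
    have := H10.isConj_ker_of _ (a := H11.suEquiv hq n a) (b := H11.suEquiv hq n b)
      (H10.isConj_herm hH hB (by rw [H10.tyE_suEquiv, H10.tyE_suEquiv, h4])) fun g => by
        obtain ⟨u, hu⟩ := Multiset.exists_mem_of_ne_zero (s := L0.ty a.1.1) fun e => by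
          have := L0.sum_natDegree_ty a.1.1; simp [e] at this; omega
        obtain ⟨s, h5⟩ := Multiset.exists_cons_of_mem hu
        obtain ⟨j, j1, j2, rfl⟩ := hs u hu
        obtain ⟨c, hc⟩ : ∃ c : H11.normOne (H11.conjQ hF), c ^ j =
            ⟨_, (hH.range_detI hB (by simp; omega)).le ⟨g, rfl⟩⟩ :=
          (powCoprime (n := j) (by
            rw [hq.card_normOne]
            have : Even q := (Nat.even_pow' two_ne_zero).mp (hF ▸ Nat.even_iff.mpr
              (FiniteField.even_card_of_char_two (ringChar.eq F 2)))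
            interval_cases j
            · simp
            · exact (Nat.coprime_two_right.mpr this.add_one))).surjective _
        obtain ⟨k, k1, k2⟩ := H10.RealD.exists_comm hH hB (H11.suEquiv hq n a).1 (by
          rw [H10.tyE_suEquiv, h5, ← Multiset.singleton_add]
          exact (H10.realD_herm_unip hq.ne_id hq.invol j1 c.2).add (H10.real_herm_unip hq.ne_id
            hq.invol fun u hu => by
              obtain ⟨j, j1, -, e⟩ := hs u (by simp [h5, hu]); exact ⟨j, j1, e⟩).realD)
        exact ⟨k, k1, Units.ext (k2.trans ((mul_one _).trans (congrArg (·.1.1) hc)))⟩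
    simpa using (H11.suEquiv hq n).symm.toMonoidHom.map_isConj this
  have h4 : IsConj a.1 b.1 → (a.1.1 - 1).rank = (b.1.1 - 1).rank := fun h => by
    have := L0.rank_aeval_eq_of_ty (L0.ty_eq_of_isConj_sl h) ((Polynomial.X - 1) ^ 1)
    rwa [L0.aeval_X_sub_one_pow, L0.aeval_X_sub_one_pow, pow_one, pow_one] at this
  exact ⟨⟨fun h => (Subgroup.subtype _).map_isConj h, fun h => h3 (h4 h)⟩,
    fun h => h4 ((Subgroup.subtype _).map_isConj h), h3⟩

end Cfsg.Agent.S2164
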