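import Cfsg.Statements.S2165
import Mathlib

set_option autoImplicit false
open Cfsg

namespace Cfsg.Agent.S2165

/-- In SU_n(q), q even, n ≥ 3 (matrices of determinant 1 over the field with q² elements preserving Σ u_i v_i^q): for every ℓ with 1 ≤ ℓ and 2ℓ ≤ n, the permutation matrix of the involution of {0, …, n−1} exchanging i and n − ℓ + i for each i < ℓ lies in SU_n(q), has order 2, and differs from the identity by a matrix of rank ℓ. So every rank between 1 and n/2 occurs for involutions of SU_n(q). -/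
theorem result {F : Type*} [Field F] [Fintype F] [CharP F 2] {n q : ℕ} (hF : Fintype.card F = q ^ 2) (hn : 3 ≤ n) (ℓ : ℕ) (h1 : 1 ≤ ℓ) (h2 : 2 * ℓ ≤ n) :
    ∃ a : ↥(Cfsg.SU n F q), (((a : Matrix.SpecialLinearGroup (Fin n) F) : Matrix (Fin n) (Fin n) F) = Matrix.of (fun i j : Fin n => if (j.val < ℓ ∧ i.val = j.val + (n - ℓ)) ∨ (i.val < ℓ ∧ j.val = i.val + (n - ℓ)) ∨ (i = j ∧ ℓ ≤ i.val ∧ i.val < n - ℓ) then (1 : F) else 0)) ∧ orderOf a = 2 ∧ ((((a : Matrix.SpecialLinearGroup (Fin n) F) : Matrix (Fin n) (Fin n) F)) - 1).rank = ℓ := by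
  let f : Fin n → Fin n := fun i => ⟨if i.val < ℓ then i + (n - ℓ) else if n - ℓ ≤ i.val then
    i - (n - ℓ) else i, by split_ifs <;> omega⟩
  have hf : Function.Involutive f := fun i => Fin.ext (by simp only [f]; split_ifs <;> omega)
  have h0 : (1 : F) + 1 = 0 := CharTwo.add_self_eq_zero 1
  set M : Matrix (Fin n) (Fin n) F := Matrix.of _ with hM
  have h3 : M = (hf.toPerm f).permMatrix F := by
    ext i j
    simp only [hM, Matrix.of_apply, PEquiv.toMatrix_apply, Equiv.toPEquiv_apply, Option.mem_def,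
      Option.some.injEq, Function.Involutive.coe_toPerm, Fin.ext_iff, f]
    refine if_congr ?_ rfl rfl
    split_ifs <;> omega
  have h4 : M.det = 1 := by
    rw [h3, Matrix.det_permutation]
    rcases Int.units_eq_one_or (Equiv.Perm.sign (hf.toPerm f)) with h | h <;> simp [h, CharTwo.neg_eq]
  have h5 : (M - 1).rank = ℓ := by
    refine le_antisymm ?_ ?_
    · rw [Matrix.rank_eq_finrank_span_row]
      refine (Submodule.finrank_mono (Submodule.span_le.mpr ?_)).trans ((finrank_range_le_card
        (R := F) fun k : Fin ℓ => (M - 1).row ⟨k, by omega⟩).trans (Fintype.card_fin ℓ).le)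
      rintro _ ⟨i, rfl⟩
      by_cases e : i.val < ℓ
      · exact Submodule.subset_span ⟨⟨i, e⟩, rfl⟩
      by_cases e' : n - ℓ ≤ i.val
      · refine Submodule.subset_span ⟨⟨i - (n - ℓ), by omega⟩, funext fun j => ?_⟩
        simp only [hM, Matrix.row, Matrix.sub_apply, Matrix.of_apply, Matrix.one_apply, Fin.ext_iff,
          CharTwo.sub_eq_add]
        split_ifs <;> first | omega | simp
      · refine (show (M - 1).row i = 0 from funext fun j => ?_) ▸ Submodule.zero_mem _
        simp only [hM, Matrix.row, Matrix.sub_apply, Matrix.of_apply, Matrix.one_apply, Fin.ext_iff]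
        split_ifs <;> first | omega | simp
    · refine le_trans (le_of_eq ?_) ((M - 1).rank_submatrix_le (fun k : Fin ℓ => ⟨k, by omega⟩)
        fun k : Fin ℓ => ⟨k + (n - ℓ), by omega⟩)
      refine ((Matrix.rank_one (R := F)).trans (Fintype.card_fin ℓ)).symm.trans (congrArg _ ?_)
      ext i j
      simp only [hM, Matrix.submatrix_apply, Matrix.sub_apply, Matrix.of_apply, Matrix.one_apply,
        Fin.ext_iff]
      split_ifs <;> first | omega | simp
  refine ⟨⟨⟨M, h4⟩, fun u v => ?_⟩, rfl, orderOf_eq_prime (Subtype.ext (Subtype.ext ?_)) fun e => ?_, h5⟩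
  · change hermForm n F q (M.mulVec u) (M.mulVec v) = _
    rw [h3, Matrix.permMatrix_mulVec, Matrix.permMatrix_mulVec]
    exact Equiv.sum_comp (hf.toPerm f) fun i => u i * v i ^ q
  · change M ^ 2 = 1
    rw [h3, sq, ← Matrix.permMatrix_mul, show hf.toPerm f * hf.toPerm f = 1 from Equiv.ext hf,
      Matrix.permMatrix_one]
  · rw [show M = 1 from congrArg (·.1.1) e, sub_self, Matrix.rank_zero] at h5
    omega

end Cfsg.Agent.S2165
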