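import Cfsg.Statements.S2166
import Mathlib
import Cfsg.Agent.H10.Wall3

set_option autoImplicit false
open Cfsg

namespace Cfsg.Agent.S2166

/-- Conjugacy of involutions in the symplectic group Sp_{2m}(F), F a finite field of characteristic two, m ≥ 2 (Sp taken as the matrices A with A J Aᵀ = J, acting on column vectors, with the alternating form f(u, v) = u ⬝ (J v)). For an involution t write V(t) for the set of vectors v with f(v, t v) = 0 (a subspace). Two involutions a, b are conjugate in Sp_{2m}(F) exactly when a − 1 and b − 1 have the same rank and, in case that rank is even, V(a) and V(b) have the same number of elements. -/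
theorem result {F : Type*} [Field F] [Fintype F] [CharP F 2] {m : ℕ} (hm : 2 ≤ m) (a b : ↥(Matrix.symplecticGroup (Fin m) F)) (ha : orderOf a = 2) (hb : orderOf b = 2) :
    IsConj a b ↔ ((((a : ↥(Matrix.symplecticGroup (Fin m) F)) : Matrix (Fin m ⊕ Fin m) (Fin m ⊕ Fin m) F) - 1).rank = (((b : ↥(Matrix.symplecticGroup (Fin m) F)) : Matrix (Fin m ⊕ Fin m) (Fin m ⊕ Fin m) F) - 1).rank ∧
      (Even (((a : ↥(Matrix.symplecticGroup (Fin m) F)) : Matrix (Fin m ⊕ Fin m) (Fin m ⊕ Fin m) F) - 1).rank → Nat.card {v : Fin m ⊕ Fin m → F // Cfsg.sympForm m F v (Matrix.mulVec ((a : ↥(Matrix.symplecticGroup (Fin m) F)) : Matrix (Fin m ⊕ Fin m) (Fin m ⊕ Fin m) F) v) = 0} = Nat.card {v : Fin m ⊕ Fin m → F // Cfsg.sympForm m F v (Matrix.mulVec ((b : ↥(Matrix.symplecticGroup (Fin m) F)) : Matrix (Fin m ⊕ Fin m) (Fin m ⊕ Fin m) F) v) = 0})) := by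
  have T := H10.two_alt (H10.spBilin_isAlt (l := Fin m) (F := F)) H10.spBilin_nondegenerate.1
  have hg : ∀ a : Matrix.symplecticGroup (Fin m) F, orderOf a = 2 →
      H10.spIso _ _ a * H10.spIso _ _ a = 1 := fun a ha => by
    rw [← map_mul, ← pow_two, ← ha, pow_orderOf_eq_one, map_one]
  have hc : IsConj a b ↔ IsConj (H10.spIso _ _ a) (H10.spIso _ _ b) :=
    ⟨(H10.spIso _ _).toMonoidHom.map_isConj, fun h => by
      simpa using (H10.spIso (Fin m) F).symm.toMonoidHom.map_isConj h⟩
  simp only [H10.sympForm_eq_spBilin, ← H10.spIso_apply,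
    ← H10.finrank_movS_of_mulVec (H10.spIso_apply _)]
  rw [hc, T.isConj_iff (hg a ha) (hg b hb)]
  refine and_congr_right fun hr => ?_
  generalize H10.spIso _ _ a = g, H10.spIso _ _ b = g', hg a ha = h1, hg b hb = h2 at *
  have k1 : ∀ g : H11.Isom (σ := RingHom.id F) (H10.spBilin (Fin m) F) fun _ => 0,
      H10.AltT (H10.spBilin (Fin m) F) g.1 → Nat.card {v // H10.spBilin (Fin m) F v (g.1 v) = 0} =
        Nat.card F ^ Module.finrank F (Fin m ⊕ Fin m → F) := fun g h => by
    rw [Nat.card_congr (Equiv.subtypeUnivEquiv h), Module.natCard_eq_pow_finrank (K := F)]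
  have hq : 1 < Nat.card F := Finite.one_lt_card
  have hp : 0 < Nat.card F ^ Module.finrank F (Fin m ⊕ Fin m → F) := by positivity
  by_cases a1 : H10.AltT (H10.spBilin (Fin m) F) g.1 <;>
    by_cases a2 : H10.AltT (H10.spBilin (Fin m) F) g'.1
  · simp [a1, a2, k1]
  · have := T.card_alt_set h2 a2
    simp only [a1, a2, T.even_of_altT h1 a1, k1 g a1, true_iff, false_iff, true_implies]
    intro h; rw [← h] at this; nlinarith
  · have := T.card_alt_set h1 a1
    simp only [a1, a2, hr, T.even_of_altT h2 a2, k1 g' a2, false_iff, true_implies, not_true]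
    intro h; rw [h] at this; nlinarith
  · simp only [a1, a2, true_iff]
    exact fun _ => Nat.eq_of_mul_eq_mul_right (by omega)
      ((T.card_alt_set h1 a1).trans (T.card_alt_set h2 a2).symm)

end Cfsg.Agent.S2166
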