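import Cfsg.Statements.S2170
import Mathlib
import Cfsg.Agent.H10.Wall3

set_option autoImplicit false
open Cfsg

namespace Cfsg.Agent.S2170

/-- Involutions in the full isometry group O of the quadratic form Σ x_i y_i + (z₁² + c z₁ z₂ + d z₂²) in dimension 2m with anisotropic binary part over a finite field F of characteristic two, m ≥ 4 (minus type): two elements of order 2 of O are conjugate in O exactly when they are conjugate under the group of all invertible matrices preserving the polar bilinear form (u, v) ↦ Q(u + v) − Q(u) − Q(v) (the symplectic group of that form). -/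
theorem result {F : Type*} [Field F] [Fintype F] [CharP F 2] {m : ℕ} (hm : 4 ≤ m) (c d : F) (hcd : ∀ z₁ z₂ : F, z₁ ^ 2 + c * z₁ * z₂ + d * z₂ ^ 2 = 0 → z₁ = 0 ∧ z₂ = 0) (t s : ↥(Cfsg.isometryGroup F (Cfsg.quadFormMinus (m - 1) F c d))) (ht : orderOf t = 2) (hs : orderOf s = 2) :
    IsConj t s ↔ ∃ g ∈ Cfsg.preserving (Units.coeHom (Matrix ((Fin (m - 1) ⊕ Fin (m - 1)) ⊕ Fin 2) ((Fin (m - 1) ⊕ Fin (m - 1)) ⊕ Fin 2) F)) (fun u v => Cfsg.quadFormMinus (m - 1) F c d (u + v) - Cfsg.quadFormMinus (m - 1) F c d u - Cfsg.quadFormMinus (m - 1) F c d v), g * ((t : ↥(Cfsg.isometryGroup F (Cfsg.quadFormMinus (m - 1) F c d))) : GL ((Fin (m - 1) ⊕ Fin (m - 1)) ⊕ Fin 2) F) * g⁻¹ = ((s : ↥(Cfsg.isometryGroup F (Cfsg.quadFormMinus (m - 1) F c d))) : GL ((Fin (m - 1) ⊕ Fin (m - 1)) ⊕ Fin 2) F) := by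
  have hq := H11.isQuad_minus (m - 1) F c d
  have hB := H11.bMinus_sep (m - 1) hcd
  refine ⟨fun h => ?_, fun ⟨g, hg, e⟩ => ?_⟩
  · obtain ⟨k, rfl⟩ := isConj_iff.mp h
    exact ⟨k.1, fun u v => by
      simp only [Units.coeHom_apply, ← Matrix.mulVec_add, H11.mem_isometryGroup.mp k.2], rfl⟩
  · have := H10.isConj_of_wall hq hB (H11.oEquiv hq t) (H11.oEquiv hq s) (H11.glEquiv _ F g)
      fun x y => by
        have h1 := hg x (t.1.1.mulVec y - y)
        simp only [Units.coeHom_apply, hq.add', add_sub_cancel_left, add_sub_assoc, sub_self,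
          add_sub_sub_cancel, add_assoc] at h1
        rw [H11.oEquiv_apply, H11.oEquiv_apply, H11.glEquiv_apply, H11.glEquiv_apply, ← h1, ← e]
        simp [Matrix.mulVec_sub]
    simpa using (H11.oEquiv hq).symm.toMonoidHom.map_isConj this

end Cfsg.Agent.S2170
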