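import Cfsg.Statements.S2172
import Mathlib
import Cfsg.Agent.H10.Wall3

set_option autoImplicit false
open Cfsg

namespace Cfsg.Agent.S2172

/-- Splitting of involution classes from O to Ω for the hyperbolic quadratic form Q = Σ x_i y_i in dimension 2m over a finite field F of characteristic two, m ≥ 4. Let t, s be involutions of the commutator subgroup Ω that are conjugate in the full isometry group O. If it is not the case that t − 1 has rank m and Q(v + t v) = 0 for every vector v, then t and s are conjugate by an element of Ω. If t − 1 has rank m and Q(v + t v) = 0 for all v, then t and s are conjugate by an element of Ω exactly when the intersection of the images of t − 1 and s − 1 has even dimension (so the class of t in O meets at most two classes of Ω). -/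
theorem result {F : Type*} [Field F] [Fintype F] [CharP F 2] {m : ℕ} (hm : 4 ≤ m) (t s : ↥(Cfsg.isometryGroup F (Cfsg.quadFormPlus m F))) (ht : orderOf t = 2) (hs : orderOf s = 2) (htO : t ∈ Cfsg.Omega F (Cfsg.quadFormPlus m F)) (hsO : s ∈ Cfsg.Omega F (Cfsg.quadFormPlus m F)) (hconj : IsConj t s) :
    (¬ (((((t : ↥(Cfsg.isometryGroup F (Cfsg.quadFormPlus m F))) : GL (Fin m ⊕ Fin m) F) : Matrix (Fin m ⊕ Fin m) (Fin m ⊕ Fin m) F) - 1).rank = m ∧ ∀ v : Fin m ⊕ Fin m → F, Cfsg.quadFormPlus m F (v + Matrix.mulVec (((t : ↥(Cfsg.isometryGroup F (Cfsg.quadFormPlus m F))) : GL (Fin m ⊕ Fin m) F) : Matrix (Fin m ⊕ Fin m) (Fin m ⊕ Fin m) F) v) = 0) →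
      ∃ g ∈ Cfsg.Omega F (Cfsg.quadFormPlus m F), g * t * g⁻¹ = s) ∧
    ((((((t : ↥(Cfsg.isometryGroup F (Cfsg.quadFormPlus m F))) : GL (Fin m ⊕ Fin m) F) : Matrix (Fin m ⊕ Fin m) (Fin m ⊕ Fin m) F) - 1).rank = m ∧ ∀ v : Fin m ⊕ Fin m → F, Cfsg.quadFormPlus m F (v + Matrix.mulVec (((t : ↥(Cfsg.isometryGroup F (Cfsg.quadFormPlus m F))) : GL (Fin m ⊕ Fin m) F) : Matrix (Fin m ⊕ Fin m) (Fin m ⊕ Fin m) F) v) = 0) →
      ((∃ g ∈ Cfsg.Omega F (Cfsg.quadFormPlus m F), g * t * g⁻¹ = s) ↔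
        Even (Module.finrank F ↥(LinearMap.range (Matrix.toLin' ((((t : ↥(Cfsg.isometryGroup F (Cfsg.quadFormPlus m F))) : GL (Fin m ⊕ Fin m) F) : Matrix (Fin m ⊕ Fin m) (Fin m ⊕ Fin m) F) - 1)) ⊓ LinearMap.range (Matrix.toLin' ((((s : ↥(Cfsg.isometryGroup F (Cfsg.quadFormPlus m F))) : GL (Fin m ⊕ Fin m) F) : Matrix (Fin m ⊕ Fin m) (Fin m ⊕ Fin m) F) - 1)))))) := by
  have hq := H11.isQuad_plus m F
  have hB := H11.bPlus_sep m F
  have T := H10.two_quad hq hB
  have hex := hq.nonExc_of_finrank hB (by simp; omega)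
  have hn : Module.finrank F (Fin m ⊕ Fin m → F) = 2 * m := by simp [two_mul]
  have hA : (∀ v, quadFormPlus m F (v + t.1.1.mulVec v) = 0) ↔
      H10.AltT (H11.bPlus m F) (H11.oEquiv hq t).1 := forall_congr' fun v => by
    have : v + t.1.1.mulVec v = t.1.1.mulVec v - v := by
      ext i; simp [CharTwo.sub_eq_add, add_comm]
    rw [this, ← H11.oEquiv_apply hq, T.Q_movS]; rfl
  have hr : ∀ x : isometryGroup F (quadFormPlus m F),
      LinearMap.range (Matrix.toLin' (x.1.1 - 1)) = H11.movS (H11.oEquiv hq x).1 := fun x => by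
    ext v; simp [H11.mem_movS, H11.oEquiv_apply, Matrix.sub_mulVec]
  have hc : (∃ g ∈ Omega F (quadFormPlus m F), g * t * g⁻¹ = s) ↔
      ∃ k ∈ commutator (H11.Isom (H11.bPlus m F) (quadFormPlus m F)),
        k * H11.oEquiv hq t * k⁻¹ = H11.oEquiv hq s := by
    rw [(H11.oEquiv hq).surjective.exists]
    simp only [← H11.mem_Omega_iff, ← map_inv, ← map_mul, EmbeddingLike.apply_eq_iff_eq]
  have hconj' := (H11.oEquiv hq).toMonoidHom.map_isConj hconj
  rw [hA, hr, hr, hc, ← H10.finrank_movS_of_mulVec (H11.oEquiv_apply hq t)]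
  refine ⟨fun h => H10.exists_conj_omega hq hB hex hn
    (by rw [← map_mul, ← pow_two, ← ht, pow_orderOf_eq_one, map_one]) h hconj', fun h => ?_⟩
  have hm2 : (m : ZMod 2) = 0 := by
    rw [← h.1]; exact hq.dick_eq_zero_of_mem_commutator hB ((H11.mem_Omega_iff hq t).mp htO)
  have key : ∀ k, k * H11.oEquiv hq t * k⁻¹ = H11.oEquiv hq s →
      (k ∈ commutator (H11.Isom (H11.bPlus m F) (quadFormPlus m F)) ↔ Even (Module.finrank F
        ↥(H11.movS (H11.oEquiv hq t).1 ⊓ H11.movS (H11.oEquiv hq s).1))) := fun k hk => by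
    rw [hq.mem_commutator_iff_of_char_two hB hex CharTwo.two_eq_zero, H10.dick_conj hq hB hex hn
      ((H10.totSing_movS_iff hq hB _).mpr h.2) h.1 h.1 h.2 hk, inf_idem, h.1, hm2, zero_add,
      ZMod.natCast_eq_zero_iff_even]
  obtain ⟨k, hk⟩ := isConj_iff.mp hconj'
  exact ⟨fun ⟨k, h1, h2⟩ => (key k h2).mp h1, fun h1 => ⟨k, (key k hk).mpr h1, hk⟩⟩

end Cfsg.Agent.S2172
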