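import Cfsg.Statements.S2173
import Mathlib
import Cfsg.Agent.H10.Wall3

set_option autoImplicit false
open Cfsg

namespace Cfsg.Agent.S2173

/-- For the quadratic form Σ x_i y_i + (z₁² + c z₁ z₂ + d z₂²) in dimension 2m with anisotropic binary part over a finite field F of characteristic two, m ≥ 4 (minus type): two involutions of the commutator subgroup Ω that are conjugate in the full isometry group O are conjugate by an element of Ω (no class of involutions of O inside Ω splits). -/
theorem result {F : Type*} [Field F] [Fintype F] [CharP F 2] {m : ℕ} (hm : 4 ≤ m) (c d : F) (hcd : ∀ z₁ z₂ : F, z₁ ^ 2 + c * z₁ * z₂ + d * z₂ ^ 2 = 0 → z₁ = 0 ∧ z₂ = 0) (t s : ↥(Cfsg.isometryGroup F (Cfsg.quadFormMinus (m - 1) F c d))) (ht : orderOf t = 2) (hs : orderOf s = 2) (htO : t ∈ Cfsg.Omega F (Cfsg.quadFormMinus (m - 1) F c d)) (hsO : s ∈ Cfsg.Omega F (Cfsg.quadFormMinus (m - 1) F c d)) (hconj : IsConj t s) :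
    ∃ g ∈ Cfsg.Omega F (Cfsg.quadFormMinus (m - 1) F c d), g * t * g⁻¹ = s := by
  have hq := H11.isQuad_minus (m - 1) F c d
  have hB := H11.bMinus_sep (m - 1) hcd
  obtain ⟨k, h1, h2⟩ := H10.exists_conj_omega hq hB (hq.nonExc_of_finrank hB (by simp; omega))
    (m := m) (by simp; omega) (g := H11.oEquiv hq t)
    (by rw [← map_mul, ← pow_two, orderOf_dvd_iff_pow_eq_one.mp ht.dvd, map_one]) (fun h => by
      have := hq.finrank_le_wittIdx hB (H11.wittIdx_minus _ hcd)
        ((H10.totSing_movS_iff hq hB _).mpr h.2)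
      omega) ((H11.oEquiv hq).toMonoidHom.map_isConj hconj)
  obtain ⟨k, rfl⟩ := (H11.oEquiv hq).surjective k
  exact ⟨k, (H11.mem_Omega_iff hq k).mpr h1, (H11.oEquiv hq).injective (by simpa using h2)⟩

end Cfsg.Agent.S2173
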