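import Cfsg.Statements.S2179
import Mathlib
import Cfsg.Agent.H12.Cent2

set_option autoImplicit false
open Cfsg

namespace Cfsg.Agent.S2179

open Cfsg.Agent.H12

/-- Centralizers of the two remaining classes of involutions in the Chevalley group G of type F₄ over a finite field F of characteristic two (this problem's root numbering for type F₄, from the Chevalley data module: p₁, p₂ short, p₃, p₄ long with indices 33, 27, 25, 24 and negatives 14, 20, 22, 23; U generated by the positive root subgroups). For an element of G with matrix x_47(1)x_44(1) (highest root times highest short root): its centralizer in G is generated by U, X_{−p₂} and X_{−p₃}. For an element of G with matrix x_39(1)x_45(1) (roots (1,2,2,1) and (2,4,2,1), an orthogonal short/long pair): its centralizer in G is generated by X_{p₁}, X_{−p₁}, X_{p₄}, X_{−p₄} and the root subgroups of all positive roots other than p₂ (27), p₃ (25), p₁ + p₂ (34) and p₃ + p₄ (26). -/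
theorem result {F : Type*} [Field F] [Fintype F] [CharP F 2] (w v : GL Cfsg.Lie.chevF4.Idx F) (hw : (w : Matrix Cfsg.Lie.chevF4.Idx Cfsg.Lie.chevF4.Idx F) = Cfsg.Lie.chevF4.x F 47 1 * Cfsg.Lie.chevF4.x F 44 1) (hv : (v : Matrix Cfsg.Lie.chevF4.Idx Cfsg.Lie.chevF4.Idx F) = Cfsg.Lie.chevF4.x F 39 1 * Cfsg.Lie.chevF4.x F 45 1) :
    Cfsg.Lie.chevF4.group F ⊓ Subgroup.centralizer {w} = Cfsg.Lie.chevF4.posUnipotent F ⊔ Cfsg.Lie.chevF4.rootSubgroup F 20 ⊔ Cfsg.Lie.chevF4.rootSubgroup F 22 ∧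
    Cfsg.Lie.chevF4.group F ⊓ Subgroup.centralizer {v} = Cfsg.Lie.chevF4.rootSubgroup F 33 ⊔ Cfsg.Lie.chevF4.rootSubgroup F 14 ⊔ Cfsg.Lie.chevF4.rootSubgroup F 24 ⊔ Cfsg.Lie.chevF4.rootSubgroup F 23 ⊔
      Subgroup.closure {g : GL Cfsg.Lie.chevF4.Idx F | ∃ (r : ℕ) (c : F), Cfsg.Lie.chevF4.IsPosRoot r ∧ r ∉ [27, 25, 34, 26] ∧ (g : Matrix Cfsg.Lie.chevF4.Idx Cfsg.Lie.chevF4.Idx F) = Cfsg.Lie.chevF4.x F r c} := by
  have hD : HalfOK Cfsg.Lie.chevF4 := halfOK_of_chk tbF4 (by decide +kernel)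
  have h0 := mem_US_of_commute (K := F) (c := ⟨fastF4.tab, 2, id, id, 40⟩)
    tbF4 (by simpa using CharTwo.two_eq_zero) rfl hD (L := [39, 45])
    (P := fun r => [33, 14, 24, 23].contains r || (decide (24 ≤ r) && !([27, 25, 34, 26].contains r)))
    (E := [(27, 40, 2), (25, 46, 3), (34, 44, 5), (26, 47, 7)]) (by decide) (by decide) (by decide)
    (by decide) (by decide) (by decide +kernel)
  have h1 := centralizer_eq tbF4 (CharP.cast_eq_zero F 2)
    (e := ([39, 45], [39, 40, 44, 45, 46, 47], [40, 44, 46, 47])) (r := 39) (s := 45) (a := 2)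
    (P := fun r => [33, 14, 24, 23].contains r || (decide (24 ≤ r) && !([27, 25, 34, 26].contains r)))
    (b := 3) (y := fun i => if i = 1 then (1, 1) else (2, 1)) (by decide +kernel)
    (hv.trans (by simp)) fun h u hu hc => h0 h u hu hc
  have h2 := closure_x_eq (F := F) (P := fun r => Cfsg.Lie.chevF4.IsPosRoot r ∧ r ∉ [27, 25, 34, 26])
    (fun _ h => h.1.1) (S := {r | 24 ≤ r.1 ∧ r.1 ∉ [27, 25, 34, 26]})
    (fun r => and_congr_left' (isPosRoot_iff.trans (hD r))) (A := {g | ∃ (r : ℕ) (c : F),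
      Cfsg.Lie.chevF4.IsPosRoot r ∧ r ∉ [27, 25, 34, 26] ∧ (g : Matrix _ _ F) = Cfsg.Lie.chevF4.x F r c})
    fun g => by simp only [Set.mem_ofPred_eq, and_assoc]
  rw [centralizer_eq_sup tbF4 (CharP.cast_eq_zero F 2) (e := ([47, 44], [44, 47], [])) (r := 47)
      (s := 44) (a := 1) (b := 1) (y := fun i => if i = 0 then (0, 1) else (1, 0)) (L := [20, 22])
      (by decide +kernel) (hw.trans (by simp)), h1, h2]
  refine ⟨by simp (disch := decide) only [US_list_cons, US_list_nil, sup_bot_eq, sup_assoc], ?_⟩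
  simp (disch := decide) only [rootSubgroup_eq_US]
  simp only [← RGD.US_union]
  refine congrArg (chevRGD _ F).US (Set.ext fun r => ?_)
  simp [or_assoc]

end Cfsg.Agent.S2179
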