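import Cfsg.Statements.S2180
import Mathlib
import Cfsg.Agent.H12.Cent2

set_option autoImplicit false
open Cfsg

namespace Cfsg.Agent.S2180

open Cfsg.Agent.H12

/-- Centralizers of involutions in the Chevalley group G of type G₂ over a finite field F of characteristic two with at least four elements (this problem's root numbering for type G₂, from the Chevalley data module: a = p₁ short with index 7, b = p₂ long with index 6, −a = 4, −b = 5, 2a + b = 9, 3a + b = 10, 3a + 2b = 11; U generated by the positive root subgroups). For an element z of G with matrix x_{3a+2b}(1): the centralizer of z in G is generated by U and X_{−a}. For an element t of G with matrix x_{2a+b}(1): the centralizer of t in G is generated by X_{2a+b}, X_{3a+b}, X_{3a+2b}, X_b and X_{−b}. -/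
theorem result {F : Type*} [Field F] [Fintype F] [CharP F 2] (hF : 4 ≤ Fintype.card F) (z t : GL Cfsg.Lie.chevG2.Idx F) (hz : (z : Matrix Cfsg.Lie.chevG2.Idx Cfsg.Lie.chevG2.Idx F) = Cfsg.Lie.chevG2.x F 11 1) (ht : (t : Matrix Cfsg.Lie.chevG2.Idx Cfsg.Lie.chevG2.Idx F) = Cfsg.Lie.chevG2.x F 9 1) :
    Cfsg.Lie.chevG2.group F ⊓ Subgroup.centralizer {z} = Cfsg.Lie.chevG2.posUnipotent F ⊔ Cfsg.Lie.chevG2.rootSubgroup F 4 ∧
    Cfsg.Lie.chevG2.group F ⊓ Subgroup.centralizer {t} = Cfsg.Lie.chevG2.rootSubgroup F 9 ⊔ Cfsg.Lie.chevG2.rootSubgroup F 10 ⊔ Cfsg.Lie.chevG2.rootSubgroup F 11 ⊔ Cfsg.Lie.chevG2.rootSubgroup F 6 ⊔ Cfsg.Lie.chevG2.rootSubgroup F 5 := by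
  have hD : HalfOK Cfsg.Lie.chevG2 := halfOK_of_chk tbG2 (by decide +kernel)
  have h0 := mem_US_of_commute (K := F) (c := ⟨fastG2.tab, 2, id, id, 40⟩)
    tbG2 (by simpa using CharTwo.two_eq_zero) rfl hD (P := fun r => [9, 10, 11, 6, 5].contains r)
    (L := [9]) (E := [(7, 10, 2), (8, 11, 3)]) (by decide) (by decide) (by decide) (by decide)
    (by decide) (by decide +kernel)
  have h1 := centralizer_eq tbG2 (CharP.cast_eq_zero F 2) (e := ([9], [9, 10, 11], [10, 11]))
    (r := 9) (s := 9) (a := 1) (b := 0) (y := fun _ => (1, 0)) (by decide +kernel)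
    (ht.trans (mul_one _).symm) h0
  rw [centralizer_eq_sup tbG2 (CharP.cast_eq_zero F 2) (e := ([11], [11], [])) (r := 11)
      (s := 11) (a := 1) (b := 0) (y := fun _ => (1, 0)) (L := [4])
      (by decide +kernel) (hz.trans (by simp)), h1]
  refine ⟨by simp (disch := decide) only [US_list_cons, US_list_nil, sup_bot_eq], ?_⟩
  simp (disch := decide) only [rootSubgroup_eq_US]
  simp only [← RGD.US_union]
  refine congrArg (chevRGD _ F).US (Set.ext fun r => ?_)
  simp [or_assoc]

end Cfsg.Agent.S2180
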