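import Cfsg.Statements.S2182
import Mathlib
import Cfsg.Agent.H12.TwInvA

set_option autoImplicit false
open Cfsg

namespace Cfsg.Agent.S2182

open Cfsg.Agent.H12 Cfsg.Agent.H13

/-- The twisted group ²E₆(q), q even, realised inside the Chevalley group of type E₆ over the field K with q² elements, has exactly three conjugacy classes of elements of order 2. -/
theorem result {K : Type*} [Field K] [Fintype K] [CharP K 2] (q : ℕ) (hK : Fintype.card K = q ^ 2) :
    (ConjClasses.mk '' {g : ↥(Cfsg.Lie.twistedE6 K q) | orderOf g = 2}).ncard = 3 := by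
  have hq : IsPrimePow q := (isPrimePow_pow_iff two_ne_zero).1 (hK ▸ FiniteField.isPrimePow_card K)
  obtain ⟨S, h1, h2, -⟩ := exists_ED hq hK
  rw [h2]
  refine ncard_invol_E6 S ?_
  by_contra! h
  obtain ⟨u, hu⟩ := IsCyclic.exists_ofOrder_eq_natCard (α := Kˣ)
  have h3 : u ^ (q - 1) = 1 := Units.ext (by
    have h4 := (h1 u).symm.trans (h u)
    rw [← Nat.sub_add_cancel hq.pos, pow_succ] at h4
    simpa using mul_right_cancel₀ u.ne_zero (h4.trans (one_mul _).symm))
  have h4 := Nat.le_of_dvd (by have := hq.two_le; omega) (orderOf_dvd_of_pow_eq_one h3)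
  rw [hu, Nat.card_units, Nat.card_eq_fintype_card, hK] at h4
  have := hq.two_le
  have : q * 2 ≤ q ^ 2 := by nlinarith
  omega

end Cfsg.Agent.S2182
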