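import Cfsg.Statements.S2186
import Mathlib
import Cfsg.Agent.H12.Cent2

set_option autoImplicit false
open Cfsg

namespace Cfsg.Agent.S2186

open Cfsg.Agent.H12

/-- Let G be the Chevalley group of type G₂ (over a field with at least four elements), D₄, E₆, E₇ or E₈ over a finite field F of characteristic two, and let X be the root subgroup of the highest root (the last root index) — a long root subgroup, of order |F|. For every g in G, the subgroup generated by X and its conjugate g X g⁻¹ is either a 2-group or is conjugate by an element of G to the subgroup generated by X and the root subgroup of the lowest root (index 0, the negative of the highest root), which is a copy of SL₂(F). -/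
theorem result {F : Type*} [Field F] [Fintype F] [CharP F 2] (D : Cfsg.Lie.ChevalleyDatum) (hD : D ∈ [Cfsg.Lie.chevG2, Cfsg.Lie.chevD4, Cfsg.Lie.chevE6, Cfsg.Lie.chevE7, Cfsg.Lie.chevE8]) (hF : D = Cfsg.Lie.chevG2 → 4 ≤ Fintype.card F) (g : GL D.Idx F) (hg : g ∈ D.group F) :
    IsPGroup 2 ↥(D.rootSubgroup F (D.nroots - 1) ⊔ (D.rootSubgroup F (D.nroots - 1)).map (MulAut.conj g).toMonoidHom) ∨
    ∃ h ∈ D.group F, (D.rootSubgroup F (D.nroots - 1) ⊔ (D.rootSubgroup F (D.nroots - 1)).map (MulAut.conj g).toMonoidHom).map (MulAut.conj h).toMonoidHom = D.rootSubgroup F (D.nroots - 1) ⊔ D.rootSubgroup F 0 := by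
  suffices h : ∃ (_ : Good D) (r : Fin D.nroots), r = D.nroots - 1 ∧ D.neg r = 0 ∧
      (chevRGD D F).B ≤ Subgroup.normalizer ((chevRGD D F).U r : Set (GL D.Idx F)) by
    obtain ⟨_, r, h1, h2, h3⟩ := h
    rw [← h1, ← h2, ← rsOf_neg, rootSubgroup_eq, rootSubgroup_eq, group_eq]
    exact isPGroup_or_exists_conj (chev_charP 2) h3 (group_eq.le hg)
  simp only [List.mem_cons, List.not_mem_nil, or_false] at hD
  have h0 : ((0 : ℕ) : F) = 0 := Nat.cast_zero
  rcases hD with rfl | rfl | rfl | rfl | rfl
  · exact ⟨inferInstance, ⟨11, by decide⟩, rfl, rfl,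
      B_le_normalizer_top tbG2 (by decide +kernel) h0 (by decide +kernel)⟩
  · exact ⟨inferInstance, ⟨23, by decide⟩, rfl, rfl,
      B_le_normalizer_top tbD4 (by decide +kernel) h0 (by decide +kernel)⟩
  · exact ⟨inferInstance, ⟨71, by decide⟩, rfl, by decide +kernel,
      B_le_normalizer_top tbE6 (by decide +kernel) h0 (by decide +kernel)⟩
  · exact ⟨inferInstance, ⟨125, by decide⟩, rfl, by decide +kernel,
      B_le_normalizer_top tbE7 (by decide +kernel) h0 (by decide +kernel)⟩
  · exact ⟨inferInstance, ⟨239, by decide +kernel⟩, rfl, by decide +kernel,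
      B_le_normalizer_top tbE8 (by decide +kernel) h0 (by decide +kernel)⟩

end Cfsg.Agent.S2186
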