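import Cfsg.Statements.S2189
import Mathlib
import Cfsg.Agent.H7.Sf5

set_option autoImplicit false
open Cfsg

namespace Cfsg.Agent.S2189

/-- Finite subgroups of an adjoint Chevalley group over an algebraically closed field that contain the group over a finite subfield. Let k be an algebraically closed field of prime characteristic p, G the Chevalley group of type G₂, B₂, D₄, F₄, E₆, E₇ or E₈ over k (the matrix group generated by the root elements x_s(t), t ∈ k), and q = p^a with a ≥ 1. Let L be the subgroup generated by the root elements x_s(t) with t^q = t (the Chevalley group over the field of q elements inside G), and let M be a finite subgroup of G containing L. Then for some r ≥ 1, M contains every root element x_s(t) with t^(q^r) = t and every element of M is a matrix all of whose entries c satisfy c^(q^r) = c (so M lies between the Chevalley group over the field with q^r elements and the group of points of G fixed by the q^r-th power map). -/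
theorem result {k : Type*} [Field k] [IsAlgClosed k] (p : ℕ) [Fact p.Prime] [CharP k p] (D : Cfsg.Lie.ChevalleyDatum) (hD : D ∈ [Cfsg.Lie.chevG2, Cfsg.Lie.chevB2, Cfsg.Lie.chevD4, Cfsg.Lie.chevF4, Cfsg.Lie.chevE6, Cfsg.Lie.chevE7, Cfsg.Lie.chevE8]) (a : ℕ) (ha : 1 ≤ a) (M : Subgroup (GL D.Idx k)) (hMfin : Finite ↥M) (hMG : M ≤ D.group k)
    (hLM : Subgroup.closure {g : GL D.Idx k | ∃ (s : ℕ) (t : k), t ^ (p ^ a) = t ∧ (g : Matrix D.Idx D.Idx k) = D.x k s t} ≤ M) :
    ∃ r : ℕ, 1 ≤ r ∧ Subgroup.closure {g : GL D.Idx k | ∃ (s : ℕ) (t : k), t ^ ((p ^ a) ^ r) = t ∧ (g : Matrix D.Idx D.Idx k) = D.x k s t} ≤ M ∧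
      ∀ g ∈ M, ∀ i j : D.Idx, ((g : Matrix D.Idx D.Idx k) i j) ^ ((p ^ a) ^ r) = (g : Matrix D.Idx D.Idx k) i j := by
  have hp := (Fact.out : p.Prime).one_lt
  obtain ⟨n, hn, h1, h2⟩ := H7.Sf.main_all (p := p) hD hMG fun r g hg =>
    hLM (Subgroup.subset_closure ⟨r, 1, one_pow _, hg⟩)
  obtain ⟨hG⟩ := H12.nonempty_good hD
  have : NeZero ((p ^ a - 1 : ℕ) : k) := ⟨by
    rw [Nat.cast_sub (Nat.one_le_pow _ _ (by omega)), Nat.cast_pow, CharP.cast_eq_zero,
      zero_pow (by omega)]; simp⟩
  obtain ⟨ζ, hζ⟩ := HasEnoughRootsOfUnity.exists_primitiveRoot k (p ^ a - 1)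
  obtain ⟨r, rfl⟩ := H7.Sf.dvd_of_fix (n := n) hζ ha fun t ht => by
    let s := (H12.rsOf D).simple (Classical.arbitrary _)
    refine H12.StSys.x_injective (H12.chevNC (D := D)) H12.chevNM s
      ((H12.map_x (iterateFrobenius k p n) s t).symm.trans (Units.ext (Matrix.ext fun i j => ?_)))
    exact h2 _ (hLM (Subgroup.subset_closure ⟨s, t, ht, H12.chevSt_x_val s t⟩)) i j
  refine ⟨r, Nat.pos_of_mul_pos_left hn, (Subgroup.closure_le _).2 ?_, by simpa [pow_mul] using h2⟩
  rintro g ⟨s, t, ht, hg⟩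
  by_cases hs : s < D.nroots
  · exact h1 ⟨s, hs⟩ t (by rwa [pow_mul]) g hg
  · rw [show g = 1 from Units.ext (by rw [hg, Cfsg.Lie.ChevalleyDatum.x, dif_neg hs]; rfl)]
    exact M.one_mem

end Cfsg.Agent.S2189
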