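import Cfsg.Statements.S2190
import Mathlib
import Cfsg.Agent.H7.Sf5

set_option autoImplicit false
open Cfsg

namespace Cfsg.Agent.S2190

/-- Subfield subgroups of prime degree are maximal. Let K be a finite field with q^r elements, r a prime, q a power of the characteristic, and G the Chevalley group of type G₂, B₂, D₄, F₄, E₆, E₇ or E₈ over K (the matrix group generated by the root elements). Let M be the subgroup of G consisting of the matrices all of whose entries lie in the subfield with q elements (entries c with c^q = c). Then M is a proper subgroup of G and is maximal: every subgroup of G containing M is M or G. -/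
theorem result {K : Type*} [Field K] [Fintype K] (p : ℕ) [Fact p.Prime] [CharP K p] (D : Cfsg.Lie.ChevalleyDatum) (hD : D ∈ [Cfsg.Lie.chevG2, Cfsg.Lie.chevB2, Cfsg.Lie.chevD4, Cfsg.Lie.chevF4, Cfsg.Lie.chevE6, Cfsg.Lie.chevE7, Cfsg.Lie.chevE8]) (a r : ℕ) (ha : 1 ≤ a) (hr : r.Prime) (hK : Fintype.card K = (p ^ a) ^ r) (M : Subgroup (GL D.Idx K))
    (hM : ∀ g : GL D.Idx K, g ∈ M ↔ g ∈ D.group K ∧ ∀ i j : D.Idx, ((g : Matrix D.Idx D.Idx K) i j) ^ (p ^ a) = (g : Matrix D.Idx D.Idx K) i j) :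
    M ≠ D.group K ∧ ∀ H : Subgroup (GL D.Idx K), M ≤ H → H ≤ D.group K → H = M ∨ H = D.group K := by
  obtain ⟨hG⟩ := H12.nonempty_good hD
  have key : ∀ (n : ℕ) (s : Fin D.nroots) (t : K), (∀ i j, ((H12.chevSt D K).x s t).1 i j ^ p ^ n =
      ((H12.chevSt D K).x s t).1 i j) ↔ t ^ p ^ n = t := fun n s t => by
    refine Iff.trans ?_ (H12.StSys.x_injective (H12.chevNC (D := D)) H12.chevNM s).eq_iff
    rw [← iterateFrobenius_def, ← H12.map_x (iterateFrobenius K p n), Units.ext_iff, ← Matrix.ext_iff]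
    rfl
  have hx := fun s t ht => (hM _).2 ⟨H12.x_mem_group s t, (key a s t).2 ht⟩
  let s := (H12.rsOf D).simple (Classical.arbitrary _)
  refine ⟨fun e => ?_, fun H h1 h2 => ?_⟩
  · obtain ⟨t, ht⟩ := H7.Sf.exists_not_fix ha hr.one_lt hK
    exact ht ((key a s t).1 ((hM _).1 (e ▸ H12.x_mem_group s t)).2)
  obtain ⟨n, hn, h3, h4⟩ := H7.Sf.main_all (p := p) hD h2 fun r g hg =>
    h1 (H12.val_eq_x_iff.1 hg ▸ hx r 1 (one_pow _))
  rcases H7.Sf.fix_cases (n := n) ha hr hK fun t ht => (key n s t).1 (h4 _ (h1 (hx s t ht)))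
    with h | h
  · exact Or.inl (le_antisymm (fun g hg => (hM g).2 ⟨h2 hg, fun i j => h _ (h4 g hg i j)⟩) h1)
  · refine Or.inr (le_antisymm h2 ?_)
    rw [H12.group_eq_iSup]
    exact iSup_le fun r => (H12.chevSt D K).U_le.2 fun t => h3 r t (h t) _ (H12.chevSt_x_val r t)

end Cfsg.Agent.S2190
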