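import Cfsg.Statements.S2202
import Cfsg.Agent.H23.AC2

set_option autoImplicit false
open Cfsg

namespace Cfsg.Agent.S2202

/-- Finite groups in which the centralizer of every involution is abelian. Let G be a finite group of even order in which the centralizer of every element of order 2 is abelian. Then the Sylow 2-subgroups of G are cyclic, or a Sylow 2-subgroup of G is normal, or G is isomorphic to the direct product of SL₂(F) for a finite field F of characteristic two and an abelian group of odd order. -/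
theorem result {G : Type*} [Group G] [Finite G] (heven : Even (Nat.card G)) (h : ∀ t : G, orderOf t = 2 → IsMulCommutative ↥(Subgroup.centralizer ({t} : Set G))) :
    (∀ P : Sylow 2 G, IsCyclic ↥P) ∨ (∀ P : Sylow 2 G, (P : Subgroup G).Normal) ∨
    (∃ (F : Type) (_ : Field F) (_ : Fintype F) (A : Type) (_ : CommGroup A) (_ : Finite A), CharP F 2 ∧ Odd (Nat.card A) ∧ Nonempty (G ≃* Matrix.SpecialLinearGroup (Fin 2) F × A)) := by
  refine or_iff_not_imp_left.2 fun h1 => or_iff_not_imp_left.2 fun h2 => ?_
  obtain ⟨P, hP⟩ := not_forall.1 h1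
  obtain ⟨Q, hQ⟩ := not_forall.1 h2
  have a : H23.AC (P : Subgroup G) := ⟨FT.syl_top Nat.prime_two P, hP, fun e => hQ (by
    obtain ⟨g, -, e'⟩ := (FT.syl_top Nat.prime_two P).syl_trans (FT.syl_top Nat.prime_two Q)
    rw [e', FT.cj_of_mem_nrm (e.ge (Subgroup.mem_top g))]
    exact Subgroup.normalizer_eq_top_iff.1 e), h⟩
  obtain ⟨F, _, _, _, ⟨e⟩⟩ := a.sl
  let _ : CommGroup (Subgroup.center G) := { mul_comm := fun a b => Subtype.ext (Subgroup.mem_center_iff.1 b.2 a) }
  have e' := Shrink.mulEquiv.{0} (α := Subgroup.center G)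
  exact ⟨F, _, ‹_›, Shrink.{0} (Subgroup.center G), inferInstance, Finite.of_equiv _ e'.symm.toEquiv, ‹_›,
    Nat.card_congr e'.toEquiv ▸ a.odd_center, ⟨e.trans ((MulEquiv.refl _).prodCongr e'.symm)⟩⟩

end Cfsg.Agent.S2202
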