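import Cfsg.Statements.S2205
import Mathlib
import Cfsg.Agent.H16.Atk4

set_option autoImplicit false
open Cfsg MulAction Subgroup

namespace Cfsg.Agent.S2205

/-- A finite group acting faithfully and 2-transitively on a set with p² + 1 points, p a prime, is doubly primitive — a point stabilizer acts primitively on the remaining p² points — unless p = 2 and the group is the Frobenius group of order 20. -/
theorem result {G Ω : Type*} [Group G] [Finite G] [Fintype Ω] [MulAction G Ω] [FaithfulSMul G Ω] (p : ℕ) (hp : p.Prime) (hΩ : Fintype.card Ω = p ^ 2 + 1) (h2 : MulAction.IsMultiplyPretransitive G Ω 2) (a : Ω) :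
    MulAction.IsPreprimitive ↥(MulAction.stabilizer G a) ↥(SubMulAction.ofStabilizer G a) ∨ (p = 2 ∧ Nat.card G = 20) := by
  classical
  have := Fact.mk hp
  have H : H16.At G Ω p := ⟨h2, Nat.card_eq_fintype_card.trans hΩ⟩
  have := isPretransitive_of_is_two_pretransitive (G := G) (α := Ω)
  rcases hp.two_le.eq_or_lt with rfl | h3
  · have c5 : Nat.card Ω = 5 := H.card
    by_cases d3 : 3 ∣ Nat.card G
    · have := Fact.mk Nat.prime_three
      obtain ⟨g, hg⟩ := exists_prime_orderOf_dvd_card' 3 d3
      have o : orderOf (toPermHom G Ω g) = 3 := (orderOf_injective _ toPerm_injective g).trans hg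
      have c := (Equiv.Perm.isCycle_of_prime_order' (o ▸ Nat.prime_three) (by rw [o, hΩ]; norm_num))
      exact .inl (isPreprimitive_of_is_two_pretransitive (SubMulAction.ofStabilizer.isMultiplyPretransitive.1
        (H16.mtrans_of_alt_le (k := 3) c5.ge (H16.alt_le_of_support_le_three
          (isPreprimitive_of_is_two_pretransitive (H16.mtrans_range_iff.2 h2)) ⟨g, rfl⟩ c.ne_one
          (c.orderOf.symm.trans o).le))))
    · have := Fact.mk Nat.prime_five
      obtain ⟨P⟩ : Nonempty (Sylow 5 G) := inferInstance
      have e := H16.card_eq_prime_deg c5 P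
      have d := Nat.le_of_dvd (by norm_num) (H16.relIndex_normalizer_dvd_prime_deg c5 P)
      have m : Nat.card (Sylow 5 G) % 5 = 1 := card_sylow_modEq_one 5 G
      have d1 := H16.descFactorial_dvd_card h2 (by omega)
      have d2 := card_dvd_of_injective (toPermHom G Ω) toPerm_injective
      rw [Nat.card_perm, c5] at d2
      rw [c5] at d1
      have := Nat.le_of_dvd (by decide) d2
      refine .inr ⟨rfl, ?_⟩
      generalize (P : Subgroup G).relIndex (normalizer ((P : Subgroup G) : Set G)) = l at *
      generalize Nat.card G = n at *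
      obtain ⟨k, rfl⟩ := d1
      obtain ⟨-, k6⟩ : k ≤ 6 ∧ k ≤ 6 := by simp [Nat.factorial] at this; omega
      interval_cases k <;> simp [Nat.factorial] at * <;> interval_cases l <;> omega
  refine .inl (by_contra fun hn => ?_)
  have t : IsPretransitive (stabilizer G a) (SubMulAction.ofStabilizer G a) :=
    is_one_pretransitive_iff.1 (SubMulAction.ofStabilizer.isMultiplyPretransitive.1 h2)
  have c : Nat.card (SubMulAction.ofStabilizer G a) = p ^ 2 := by
    rw [SubMulAction.nat_card_ofStabilizer_eq, H.card]; rfl
  have p1 := Nat.one_lt_pow two_ne_zero hp.one_lt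
  have : Nontrivial (SubMulAction.ofStabilizer G a) := Finite.one_lt_card_iff_nontrivial.1 (c ▸ p1)
  obtain ⟨b⟩ : Nonempty (SubMulAction.ofStabilizer G a) := inferInstance
  have ab : a ≠ b := Ne.symm b.2
  have i := (index_stabilizer_of_transitive (stabilizer G a) b).trans c
  rw [← isCoatom_stabilizer_iff_preprimitive _ b, IsCoatom, not_and, not_forall] at hn
  obtain ⟨M, hM⟩ := hn fun e => by rw [e, index_top] at i; omega
  obtain ⟨l, hM⟩ := Classical.not_imp.1 hM
  have iM : M.index = p := by
    obtain ⟨j, hj, e⟩ := (Nat.dvd_prime_pow hp).1 (i ▸ index_dvd_of_le l.le)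
    have := index_strictAnti l
    interval_cases j
    · exact absurd (index_eq_one.1 e) hM
    · rwa [pow_one] at e
    · omega
  have iN : ¬ p ^ 2 ∣ M.normalCore.index := fun d => by
    have : M.normalCore.index ∣ Nat.card (Equiv.Perm (_ ⧸ M)) := by
      rw [normalCore_eq_ker, index_ker]; exact card_subgroup_dvd_card _
    exact H16.not_sq_dvd_card (G := Equiv.Perm (_ ⧸ M)) iM (d.trans this)
  let N := M.normalCore.map (stabilizer G a).subtype
  have lN : N ≤ stabilizer G a := map_subtype_le _
  have nN : stabilizer G a ≤ normalizer (N : Set G) := (normal_subgroupOf_iff_le_normalizer lN).1 (by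
    rw [subgroupOf, comap_map_eq_self_of_injective (subtype_injective _)]; infer_instance)
  have cN : Nat.card N = Nat.card M.normalCore := card_map_of_injective (subtype_injective _)
  obtain ⟨j, hj, e⟩ := (Nat.dvd_prime_pow hp).1 (H.orbit_dvd' ab lN nN)
  interval_cases j
  · have : N = ⊥ := H.eq_bot_of_fix ab le_rfl (by
      rw [H.orbit_stab ab, Set.ncard_compl, H.card, Set.ncard_singleton]; rfl) (le_inf lN (by
        rwa [pow_zero, H16.ncard_orbit_subgroup, relIndex_eq_one] at e)) nN
    rw [(map_eq_bot_iff_of_injective _ (subtype_injective _)).1 this, index_bot] at iN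
    exact iN (i ▸ index_dvd_card _)
  · obtain ⟨K, hK, eK⟩ := H16.exists_fam h2 ab lN nN (e.trans (pow_one p))
    have := H.faithful hK ab
    refine H.no_fam h3 hK ab fun d => ?_
    rw [← card_mul_index M.normalCore, ← cN, ← eK] at d
    exact (Nat.succ_dvd_or_succ_dvd_of_succ_sum_dvd_mul hp (k := 1) (l := 1)
      (by rw [pow_one, ← hK.orb _ _ ab, H16.card_eq_orbit_mul_stabilizer (G := K a) b.1]
          exact dvd_mul_right _ _)
      (by rw [pow_one, ← iM]; exact index_dvd_of_le (normalCore_le M)) d).elim
      (H16.not_sq_dvd_card (hK.orb _ _ ab)) iN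
  · refine hM (eq_top_iff.2 fun g _ => ?_)
    obtain ⟨⟨_, n, hn, rfl⟩, e⟩ := H.mem_orbit_of ab lN e (y := (g • b :)) (Ne.symm (g • b).2)
    exact (mul_mem_cancel_left (inv_mem (normalCore_le M hn))).1
      (l.le (show (n⁻¹ * g) • b = b by rw [mul_smul, inv_smul_eq_iff]; exact Subtype.ext e.symm))

end Cfsg.Agent.S2205
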