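import Cfsg.Statements.S2221
import Mathlib
import Cfsg.Agent.H27.Dec3

set_option autoImplicit false
open Cfsg

namespace Cfsg.Agent.S2221

open Cfsg.Agent Subgroup Equiv Equiv.Perm H27.Dc

theorem small {n : ℕ} (hn : n = 4 ∨ n = 5) (P : Sylow 2 (alternatingGroup (Fin n))) :
    Dec (P : Subgroup (alternatingGroup (Fin n))) := by
  have h : Nat.card P = 4 := by
    have h2 : 2 * Nat.card (alternatingGroup (Fin n)) = n.factorial := by
      haveI : Nontrivial (Fin n) := Fin.nontrivial_iff_two_le.2 (by omega)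
      rw [two_mul_nat_card_alternatingGroup, Nat.card_perm, Nat.card_eq_fintype_card, Fintype.card_fin]
    rw [P.card_eq_multiplicity]
    rcases hn with rfl | rfl
    · rw [show Nat.card (alternatingGroup (Fin 4)) = 2 ^ 2 * 3 by simp only [Nat.factorial] at h2; omega,
        Nat.factorization_mul (by simp) (by simp), Nat.prime_two.factorization_pow, Nat.prime_three.factorization]
      simp
    · rw [show Nat.card (alternatingGroup (Fin 5)) = 2 ^ 2 * 3 * 5 by simp only [Nat.factorial] at h2; omega,
        Nat.factorization_mul (by simp) (by simp), Nat.factorization_mul (by simp) (by simp),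
        Nat.prime_two.factorization_pow, Nat.prime_three.factorization, Nat.prime_five.factorization]
      simp
  refine dec_four h fun x hx => Subtype.ext ?_
  have h1 : x.1 * x.1 * (x.1 * x.1) = 1 := by
    have := congrArg (fun y : P => y.1.1) (h ▸ pow_card_eq_one' (x := (⟨x, hx⟩ : P)))
    simpa [pow_succ, mul_assoc] using this
  have h2 : sign x.1 = 1 := x.2
  show x.1 * x.1 = 1
  generalize x.1 = y at h1 h2
  revert y
  rcases hn with rfl | rfl <;> decide +kernel

/-- Direct decomposability of the Sylow 2-subgroups of the alternating groups. Let n ≥ 4 and let P be a Sylow 2-subgroup of the alternating group of degree n. Then P is the internal direct product of two nontrivial subgroups if and only if n = 4, n = 5, or n ≡ 2, 3 (mod 4) with 4⌊n/4⌋ not a power of 2. In the remaining cases (n ≡ 0, 1 (mod 4) with n ≥ 8, or n ≡ 2, 3 (mod 4) with 4⌊n/4⌋ a power of 2) P is directly indecomposable. -/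
theorem result (n : ℕ) (hn : 4 ≤ n)
    (P : Sylow 2 (alternatingGroup (Fin n))) :
    (∃ S₁ S₂ : Subgroup (alternatingGroup (Fin n)), S₁ ≠ ⊥ ∧ S₂ ≠ ⊥ ∧
        Cfsg.IsInternalDirectProduct S₁ S₂ (P : Subgroup (alternatingGroup (Fin n)))) ↔
      (n = 4 ∨ n = 5 ∨ ((n % 4 = 2 ∨ n % 4 = 3) ∧ ∀ r : ℕ, 4 * (n / 4) ≠ 2 ^ r)) := by
  obtain ⟨Q, h1, h2⟩ := model n
  have h := dec_iff P Q
  refine ⟨fun hd => by_contra fun h3 => ?_, ?_⟩
  · have h4 := h.1 hd
    by_cases h5 : n % 4 ≤ 1
    · exact (h2 (by omega) h5).not_dec (Q.isPGroup'.to_le inf_le_left) h4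
    · obtain ⟨r, hr⟩ : ∃ r, 4 * (n / 4) = 2 ^ r := by_contra fun h6 => h3 (.inr (.inr ⟨by omega, not_exists.1 h6⟩))
      exact not_dec_pow Q h1 (by simp; omega) (by simp; omega) (by simpa using hr) h4
  rintro (h3 | h3 | ⟨h3, h4⟩)
  · exact small (.inl h3) P
  · exact small (.inr h3) P
  · exact h.2 (dec_main Q h1 (by simp; omega) (by simpa using h3) (by simpa using h4))

end Cfsg.Agent.S2221
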