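import Cfsg.Statements.S2222
import Mathlib
import Cfsg.Agent.H17.Pron

set_option autoImplicit false
open Cfsg

namespace Cfsg.Agent.S2222

open Cfsg.Agent.H17
open Cfsg.FusionSystem hiding inv_mem
open scoped commutatorElement


/-- In the alternating group of degree n ≥ 5 every subgroup H of odd index is pronormal: for every element g, the subgroups H and gHg⁻¹ are conjugate by an element of the subgroup they generate. -/
theorem result (n : ℕ) (hn : 5 ≤ n)
    (H : Subgroup (alternatingGroup (Fin n))) (hH : Odd H.index) : Cfsg.IsPronormal H := by
  exact allPron_alt hn H hH

end Cfsg.Agent.S2222
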