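import Cfsg.Statements.S2225
import Mathlib
import Cfsg.Agent.H12.Mon2

set_option autoImplicit false
open Cfsg

namespace Cfsg.Agent.S2225

open Cfsg.Agent.H12 Cfsg.Agent.H17

/-- Let F be a finite field and d = 2^w ≥ 2 a power of 2 such that PSL_d(F) is simple. Then every subgroup H of PSL_d(F) of odd index is pronormal: for every g, H and gHg⁻¹ are conjugate by an element of the subgroup they generate. -/
theorem result {F : Type*} [Field F] [Fintype F]
    (w : ℕ) (hw : 1 ≤ w) (hs : IsSimpleGroup (Matrix.ProjectiveSpecialLinearGroup (Fin (2 ^ w)) F))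
    (H : Subgroup (Matrix.ProjectiveSpecialLinearGroup (Fin (2 ^ w)) F)) (hH : Odd H.index) : Cfsg.IsPronormal H := by
  by_cases h2 : (2 : F) = 0
  · have : CharP F 2 := CharTwo.of_one_ne_zero_of_two_eq_zero one_ne_zero h2
    exact (allPron_SL_two (by positivity)).of_surjective _ (QuotientGroup.mk'_surjective _) H hH
  obtain rfl | hw := hw.eq_or_lt
  · exact allPron_psl2 h2 H hH
  · exact (sn_SL h2 hw).allPron.of_surjective _ (QuotientGroup.mk'_surjective _) H hH

end Cfsg.Agent.S2225
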