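import Cfsg.Statements.S2226
import Mathlib
import Cfsg.Agent.H12.Mon2

set_option autoImplicit false
open Cfsg

namespace Cfsg.Agent.S2226

open Cfsg.Agent.H12 Cfsg.Agent.H17

/-- Let F be a finite field with q² elements and d = 2^w ≥ 4 a power of 2 such that the unitary group PSU_d(q) (realised over F) is simple. Then every subgroup H of PSU_d(q) of odd index is pronormal: for every g, H and gHg⁻¹ are conjugate by an element of the subgroup they generate. -/
theorem result {F : Type*} [Field F] [Fintype F] (q : ℕ)
    (hF : Fintype.card F = q ^ 2) (w : ℕ) (hw : 2 ≤ w) (hs : IsSimpleGroup (Cfsg.PSU (2 ^ w) F q))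
    (H : Subgroup (Cfsg.PSU (2 ^ w) F q)) (hH : Odd H.index) : Cfsg.IsPronormal H := by
  refine AllPron.of_surjective ?_ _ (QuotientGroup.mk'_surjective _) H hH
  by_cases h2 : (2 : F) = 0
  · have : CharP F 2 := CharTwo.of_one_ne_zero_of_two_eq_zero one_ne_zero h2
    obtain ⟨w, rfl⟩ := Nat.exists_eq_add_one.2 (show 0 < w by omega)
    rw [pow_succ']
    exact allPron_SU_two hF _
  · exact (sn_SU hF h2 hw).allPron

end Cfsg.Agent.S2226
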