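import Cfsg.Statements.S2227
import Mathlib
import Cfsg.Agent.H12.Five2

set_option autoImplicit false
open Cfsg

namespace Cfsg.Agent.S2227

open Cfsg.Agent.H12 Cfsg.Agent.H13

/-- In the twisted group ²E₆(2) all elements of order 5 are conjugate, and the centralizer of an element of order 5 is isomorphic to the direct product of a cyclic group of order 5 with the alternating group of degree 8. -/
theorem result {K : Type*} [Field K] [Fintype K] (hK : Fintype.card K = 4) :
    (∀ x y : ↥(Cfsg.Lie.twistedE6 K 2), orderOf x = 5 → orderOf y = 5 → IsConj x y) ∧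
      ∀ x : ↥(Cfsg.Lie.twistedE6 K 2), orderOf x = 5 →
        Nonempty (↥(Subgroup.centralizer ({x} : Set ↥(Cfsg.Lie.twistedE6 K 2))) ≃* (Multiplicative (ZMod 5) × ↥(alternatingGroup (Fin 8)))) := by
  replace hK : Fintype.card K = 2 ^ 2 := hK
  obtain ⟨S, he, hG, hc⟩ := exists_ED (q := 2) Nat.prime_two.isPrimePow hK
  have : CharP K 2 := charP_of_card_pow (p := 2) (n := 2) hK
  rw [hG]
  refine ⟨fun x y hx hy => ED_five S hc he hx hy, fun x hx => ?_⟩
  obtain ⟨y, hy, ⟨e⟩⟩ := ED_cent S hK he
  obtain ⟨f⟩ := centralizer_equiv_of_isConj (ED_five S hc he hx hy)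
  exact ⟨f.trans e⟩

end Cfsg.Agent.S2227
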