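import Cfsg.Statements.S2231
import Mathlib
import Cfsg.Agent.H10.Congr
import Cfsg.Agent.H18.Involves

set_option autoImplicit false
open Cfsg

namespace Cfsg.Agent.S2231

open H18

/-- Let p be an odd prime and K a finite field of characteristic p. Then Qd(p) (the natural semidirect product of an elementary abelian group of order p² by SL₂(p)) is not involved in the projective special linear group PSL₂(K). -/
theorem result {p : ℕ} [Fact p.Prime] (hp : p ≠ 2) {K : Type*} [Field K] [Fintype K] [CharP K p] : ¬ Cfsg.Involves ↥(Cfsg.qd p) (Matrix.ProjectiveSpecialLinearGroup (Fin 2) K) := by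
  intro h
  obtain ⟨L, π, hπ⟩ := involves_iff.mp h
  have hpr : p.Prime := Fact.out
  let a : qd p := qdMk 1 1 0 1 0 0 (by simp)
  have ha : ∀ n : ℕ, a ^ n = qdMk 1 n 0 1 0 0 (by simp) := fun n => by
    induction n with
    | zero => simp [qd_one]
    | succ n ih => rw [pow_succ, ih, qdMk_mul, qdMk_inj]; simp [add_comm]
  have hP : IsPGroup p (qdV p ⊔ Subgroup.zpowers a : Subgroup (qd p)) :=
    (qdLike p).isP.to_sup_of_normal_left (isPGroup_zpowers_of_pow (by rw [ha, qd_one, qdMk_inj]; simp))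
  obtain ⟨Q, hQ⟩ := hP.exists_le_sylow
  obtain ⟨S, rfl⟩ := Sylow.mapSurjective_surjective hπ p Q
  obtain ⟨x, hx⟩ := (H10.lineAct_psl K p).exists_le_U hpr (S.isPGroup'.map L.subtype)
  have hc := (H10.lineAct_psl K p).isMulCommutative_U x
  obtain ⟨u, hu, hu'⟩ := hQ (Subgroup.mem_sup_right (Subgroup.mem_zpowers a))
  obtain ⟨v, hv, hv'⟩ := hQ (Subgroup.mem_sup_left (S := qdV p) ⟨0, 1, rfl⟩)
  have h0 := congrArg Subtype.val (hc.is_comm.comm ⟨u.1, hx ⟨u, hu, rfl⟩⟩ ⟨v.1, hx ⟨v, hv, rfl⟩⟩)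
  have h1 : u * v = v * u := Subtype.ext h0
  have h2 := congrArg π h1
  rw [map_mul, map_mul, hu', hv', qdMk_mul, qdMk_mul, qdMk_inj] at h2
  simp at h2

end Cfsg.Agent.S2231
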