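import Cfsg.Statements.S2232
import Mathlib
import Cfsg.Agent.H10.Transv
import Cfsg.Agent.H5.QdFree2

set_option autoImplicit false
open Cfsg

namespace Cfsg.Agent.S2232

open Matrix H10

theorem unip {K : Type*} [Field K] (M : SpecialLinearGroup (Fin 3) K) {e φ : Fin 3 → K}
    (he : e ≠ 0) (hφ : φ ≠ 0) (h0 : φ ⬝ᵥ e = 0) (h1 : M.1 *ᵥ e = e) (h2 : φ ᵥ* M.1 = φ) :
    (M.1 - 1) ^ 3 = 0 := by
  obtain ⟨g1, hg1⟩ := exists_sl_mulVec (ι := Fin 3) (by simp) (v := Pi.single 0 (1 : K))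
    (by simp) he
  have hψ : (φ ᵥ* g1.1) ⬝ᵥ Pi.single 0 1 = 0 := by rw [← dotProduct_mulVec, hg1, h0]
  have hψ0 : φ ᵥ* g1.1 ≠ 0 := by
    intro h
    apply hφ
    have : φ ᵥ* g1.1 ᵥ* (g1⁻¹).1 = φ := by rw [vecMul_vecMul, sl_mul_inv_val, vecMul_one]
    rw [← this, h, zero_vecMul]
  obtain ⟨A, hA, hA'⟩ := exists_sl_vecMul (ι := Fin 3) (by simp) hψ (g := Pi.single 2 1)
    (by simp) hψ0 (by simp)
  have e1 : (g1 * A).1 *ᵥ Pi.single 0 1 = e := by rw [slv_mul, ← mulVec_mulVec, hA, hg1]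
  have e2 : φ ᵥ* (g1 * A).1 = Pi.single 2 1 := by rw [slv_mul, ← vecMul_vecMul, hA']
  generalize g1 * A = g at e1 e2
  have a1 : (g⁻¹ * M * g).1 *ᵥ Pi.single 0 1 = Pi.single 0 1 := by
    rw [slv_mul, slv_mul, ← mulVec_mulVec, e1, ← mulVec_mulVec, h1, ← e1, mulVec_mulVec,
      sl_inv_mul_val, one_mulVec]
  have a2 : Pi.single 2 1 ᵥ* (g⁻¹ * M * g).1 = Pi.single 2 1 := by
    rw [slv_mul, slv_mul, ← vecMul_vecMul, ← vecMul_vecMul, ← e2, vecMul_vecMul φ g.1,
      sl_mul_inv_val, vecMul_one, h2]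
  have hd := (g⁻¹ * M * g).2
  have e3 : M.1 - 1 = g.1 * ((g⁻¹ * M * g).1 - 1) * (g⁻¹).1 := by
    rw [Matrix.mul_sub, Matrix.sub_mul, Matrix.mul_one, sl_mul_inv_val, ← slv_mul, ← slv_mul]
    have : g * (g⁻¹ * M * g) * g⁻¹ = M := by group
    rw [this]
  generalize g⁻¹ * M * g = N at a1 a2 hd e3
  have b0 := congrFun a1 0
  have b1 := congrFun a1 1
  have b2 := congrFun a1 2
  have b3 := congrFun a2 1
  have b4 := congrFun a2 2
  simp at b0 b1 b2 b3 b4
  rw [det_fin_three, b0, b1, b2, b3, b4] at hd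
  have b5 : N.1 1 1 = 1 := by linear_combination hd
  have hN : (N.1 - 1) ^ 3 = 0 := by
    rw [eta_fin_three N.1, b0, b1, b2, b3, b4, b5, one_fin_three]
    ext i j
    fin_cases i <;> fin_cases j <;> simp [pow_succ, Matrix.mul_apply, Fin.sum_univ_three]
  have : (g.1 * (N.1 - 1) * (g⁻¹).1) ^ 3 = g.1 * (N.1 - 1) ^ 3 * (g⁻¹).1 := by
    have hi := sl_inv_mul_val g
    calc (g.1 * (N.1 - 1) * (g⁻¹).1) ^ 3
        = g.1 * (N.1 - 1) * ((g⁻¹).1 * g.1) * (N.1 - 1) * ((g⁻¹).1 * g.1) * (N.1 - 1) * (g⁻¹).1 := by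
          noncomm_ring
      _ = _ := by rw [hi]; noncomm_ring
  rw [e3, this, hN, Matrix.mul_zero, Matrix.zero_mul]

theorem iso_dep {K : Type*} [Field K] (σ : K →+* K) {e f : Fin 3 → K} (he : e ≠ 0)
    (h1 : e ⬝ᵥ (σ ∘ e) = 0) (h2 : f ⬝ᵥ (σ ∘ e) = 0) (h3 : e ⬝ᵥ (σ ∘ f) = 0)
    (h4 : f ⬝ᵥ (σ ∘ f) = 0) : ∃ c : K, f = c • e := by
  refine exists_smul_of_minors he ?_
  by_contra hcon
  have hn : crossProduct e f ≠ 0 := by
    intro h
    apply hcon
    have c0 := congrFun h 0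
    have c1 := congrFun h 1
    have c2 := congrFun h 2
    simp [cross_apply] at c0 c1 c2
    intro i j
    fin_cases i <;> fin_cases j <;> simp <;>
      first | linear_combination c0 | linear_combination -c0 | linear_combination c1 | linear_combination -c1 | linear_combination c2 | linear_combination -c2
  have key : ∀ x : Fin 3 → K, e ⬝ᵥ x = 0 → f ⬝ᵥ x = 0 → ∃ c : K, x = c • crossProduct e f := by
    intro x a b
    refine exists_smul_of_minors hn ?_
    simp only [dotProduct, Fin.sum_univ_three] at a b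
    intro i j
    fin_cases i <;> fin_cases j <;> simp [cross_apply] <;>
      first | linear_combination e 0 * b - f 0 * a | linear_combination e 1 * b - f 1 * a | linear_combination e 2 * b - f 2 * a | linear_combination f 0 * a - e 0 * b | linear_combination f 1 * a - e 1 * b | linear_combination f 2 * a - e 2 * b
  obtain ⟨s, hs⟩ := key _ h1 h2
  obtain ⟨t, ht⟩ := key _ h3 h4
  apply hcon
  intro i j
  apply σ.injective
  have a1 := congrFun hs i
  have a2 := congrFun hs j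
  have a3 := congrFun ht i
  have a4 := congrFun ht j
  simp only [Function.comp, Pi.smul_apply, smul_eq_mul] at a1 a2 a3 a4
  rw [map_mul, map_mul, a1, a2, a3, a4]
  ring

/-- Let p be an odd prime, q a power of p and K a finite field with q² elements. Then Qd(p) (the natural semidirect product of an elementary abelian group of order p² by SL₂(p)) is not involved in the projective special unitary group PSU₃(q) realised over K. -/
theorem result {p : ℕ} [Fact p.Prime] (hp : p ≠ 2) {K : Type*} [Field K] [Fintype K] [CharP K p] (n : ℕ) (hn : 1 ≤ n) (hK : Fintype.card K = (p ^ n) ^ 2) : ¬ Cfsg.Involves ↥(Cfsg.qd p) (Cfsg.PSU 3 K (p ^ n)) := by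
  intro h
  have hpr : p.Prime := Fact.out
  have h' : Involves (qd p) (SU 3 K (p ^ n)) :=
    H18.Involves.trans h (H18.involves_of_surjective (QuotientGroup.mk' _)
      (QuotientGroup.mk'_surjective _))
  obtain ⟨A, hA, hA1, H, π, hπ, hH, -, -⟩ := H5b.exists_SL2_automizer h'
  let σ : K →+* K := iterateFrobenius K p n
  have hσ : ∀ x, σ x = x ^ p ^ n := fun x => iterateFrobenius_def ..
  have hpres : ∀ (g : SU 3 K (p ^ n)) (u v : Fin 3 → K),
      (g.1.1 *ᵥ u) ⬝ᵥ (σ ∘ (g.1.1 *ᵥ v)) = u ⬝ᵥ (σ ∘ v) := fun g u v => by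
    have := g.2 u v
    simp only [hermForm, dotProduct, Function.comp, hσ] at this ⊢
    exact this
  have hmul : ∀ a b : SU 3 K (p ^ n), (a * b).1.1 = a.1.1 * b.1.1 := fun a b => rfl
  have hinv : ∀ (a : SU 3 K (p ^ n)) (v : Fin 3 → K), (a⁻¹).1.1 *ᵥ (a.1.1 *ᵥ v) = v :=
    fun a v => by rw [mulVec_mulVec, ← hmul, inv_mul_cancel]; exact one_mulVec v
  have hinv' : ∀ (a : SU 3 K (p ^ n)) (v : Fin 3 → K), a.1.1 *ᵥ ((a⁻¹).1.1 *ᵥ v) = v :=
    fun a v => by rw [mulVec_mulVec, ← hmul, mul_inv_cancel]; exact one_mulVec v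
  -- the perp of the fixed space
  let U : AddSubgroup (Fin 3 → K) :=
    { carrier := {v | ∀ w, (∀ a ∈ A, a.1.1 *ᵥ w = w) → v ⬝ᵥ (σ ∘ w) = 0}
      add_mem' := fun ha hb w hw => by rw [add_dotProduct, ha w hw, hb w hw, add_zero]
      zero_mem' := fun w _ => zero_dotProduct _
      neg_mem' := fun ha w hw => by rw [neg_dotProduct, ha w hw, neg_zero] }
  have hfixN : ∀ g ∈ Subgroup.normalizer (A : Set (SU 3 K (p ^ n))), ∀ w,
      (∀ a ∈ A, a.1.1 *ᵥ w = w) → ∀ a ∈ A, a.1.1 *ᵥ (g.1.1 *ᵥ w) = g.1.1 *ᵥ w := by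
    intro g hg w hw a ha
    have h1 : g⁻¹ * a * g ∈ A := by
      have := (Subgroup.mem_normalizer_iff.1 (Subgroup.inv_mem _ hg) a).1 ha
      simpa using this
    have h2 := hw _ h1
    rw [hmul, hmul, ← mulVec_mulVec, ← mulVec_mulVec] at h2
    have h3 := congrArg (fun v => g.1.1 *ᵥ v) h2
    simpa only [hinv'] using h3
  have hUN : ∀ g ∈ Subgroup.normalizer (A : Set (SU 3 K (p ^ n))), ∀ v ∈ U, g.1.1 *ᵥ v ∈ U := by
    intro g hg v hv w hw
    rw [← hinv' g w, hpres]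
    exact hv _ (hfixN _ (Subgroup.inv_mem _ hg) w hw)
  let act : MulAction A U :=
    { smul := fun a v => ⟨a.1.1.1 *ᵥ v.1, hUN _ (Subgroup.le_normalizer a.2) _ v.2⟩
      one_smul := fun v => Subtype.ext (one_mulVec _)
      mul_smul := fun a b v => Subtype.ext (mulVec_mulVec v.1 a.1.1.1 b.1.1.1).symm }
  have hU : ∃ v ∈ U, v ≠ 0 := by
    obtain ⟨a, ha, ha1⟩ : ∃ a ∈ A, a ≠ 1 := by
      by_contra hc
      push Not at hc
      exact hA1 ((Subgroup.eq_bot_iff_forall _).2 hc)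
    obtain ⟨v, hv⟩ : ∃ v, a.1.1 *ᵥ v ≠ v := by
      by_contra hc
      push Not at hc
      apply ha1
      apply Subtype.ext
      apply Subtype.ext
      exact Matrix.ext_of_mulVec_single fun i => by rw [hc]; exact (one_mulVec _).symm
    refine ⟨a.1.1 *ᵥ v - v, fun w hw => ?_, sub_ne_zero.2 hv⟩
    rw [sub_dotProduct]
    conv_lhs => rw [← hw a ha, hpres, hw a ha]
    exact sub_self _
  obtain ⟨e, heU, he0, heA⟩ : ∃ e ∈ U, e ≠ 0 ∧ ∀ a ∈ A, a.1.1 *ᵥ e = e := by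
    obtain ⟨v, hv, hv0⟩ := hU
    have hdvd : p ∣ Nat.card U := by
      have h1 : addOrderOf (⟨v, hv⟩ : U) = p := by
        refine addOrderOf_eq_prime ?_ ?_
        · apply Subtype.ext
          ext i
          simp
        · intro h0
          exact hv0 (congrArg Subtype.val h0)
      rw [← h1]
      exact addOrderOf_dvd_natCard _
    obtain ⟨b, hb, hb0⟩ := IsPGroup.exists_fixed_point_of_prime_dvd_card_of_fixed_point hA U hdvd
      (a := 0) (fun a => Subtype.ext (mulVec_zero a.1.1.1))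
    exact ⟨b.1, b.2, fun h0 => hb0 (Subtype.ext h0.symm),
      fun a ha => congrArg Subtype.val (hb ⟨a, ha⟩)⟩
  have hline : ∀ g ∈ Subgroup.normalizer (A : Set (SU 3 K (p ^ n))), ∃ c : K,
      g.1.1 *ᵥ e = c • e := by
    intro g hg
    exact iso_dep σ he0 (heU e heA) (hUN g hg e heU e heA) (heU _ (hfixN g hg e heA))
      (hUN g hg e heU _ (hfixN g hg e heA))
  obtain ⟨x, hx⟩ := hπ ⟨!![1, 1; 0, 1], by simp [det_fin_two]⟩
  obtain ⟨y, hy⟩ := hπ ⟨!![1, 0; 1, 1], by simp [det_fin_two]⟩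
  obtain ⟨s, hs⟩ := hline x.1 (hH x.2)
  obtain ⟨t, ht⟩ := hline y.1 (hH y.2)
  set c : H := x * y * (y * x)⁻¹ with hc
  have hce : c.1.1.1 *ᵥ e = e := by
    have h1 : (x * y).1.1.1 *ᵥ e = (y * x).1.1.1 *ᵥ e := by
      show (x.1 * y.1).1.1 *ᵥ e = (y.1 * x.1).1.1 *ᵥ e
      rw [hmul, hmul, ← mulVec_mulVec, ← mulVec_mulVec, hs, ht, mulVec_smul, mulVec_smul, hs, ht,
        smul_comm]
    obtain ⟨r, hr⟩ := hline ((y * x)⁻¹).1 (hH ((y * x)⁻¹).2)
    have h2 : (y * x).1.1.1 *ᵥ (((y * x)⁻¹).1.1.1 *ᵥ e) = e := hinv' (y * x).1 e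
    show ((x * y).1 * ((y * x)⁻¹).1).1.1 *ᵥ e = e
    rw [hmul, ← mulVec_mulVec, hr, mulVec_smul, h1, ← mulVec_smul, ← hr, h2]
  have hφ : (σ ∘ e) ᵥ* c.1.1.1 = σ ∘ e := by
    ext i
    have h1 := hpres c.1 (Pi.single i 1) e
    rw [hce, dotProduct_comm, dotProduct_mulVec, dotProduct_comm (Pi.single i 1)] at h1
    simpa using h1
  have hσe : σ ∘ e ≠ 0 := by
    intro h0
    apply he0
    ext i
    exact σ.injective (by simpa using congrFun h0 i)
  have hu := unip c.1.1 he0 hσe (by rw [dotProduct_comm]; exact heU e heA) hce hφ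
  have h3p : 3 ≤ p := by
    have := hpr.two_le
    omega
  have hcp : c ^ p = 1 := by
    apply Subtype.ext
    apply Subtype.ext
    apply Subtype.ext
    show (c.1.1 ^ p).1 = 1
    have h1 : (c.1.1.1 - 1) ^ p = 0 := pow_eq_zero_of_le h3p hu
    rw [sub_pow_char_of_commute p (Commute.one_right _), one_pow, sub_eq_zero] at h1
    exact (Matrix.SpecialLinearGroup.coe_pow c.1.1 p).trans h1
  have h1 : (π c).1 ^ p = 1 := by
    refine (Matrix.SpecialLinearGroup.coe_pow (π c) p).symm.trans ?_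
    rw [← map_pow, hcp, map_one]
    rfl
  have h2 : IsNilpotent ((π c).1 - 1) :=
    ⟨p, by rw [sub_pow_char_of_commute p (Commute.one_right _), one_pow, h1, sub_self]⟩
  have h3 := (Matrix.isNilpotent_trace_of_isNilpotent h2).eq_zero
  have h4 : π c * (π y * π x) = π x * π y := by
    rw [hc, map_mul, map_inv, map_mul, map_mul]; group
  have h5 := congrArg Subtype.val h4
  rw [slv_mul, slv_mul, slv_mul, hx, hy] at h5
  have c0 := congrFun (congrFun h5 0) 0
  have c1 := congrFun (congrFun h5 0) 1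
  have c2 := congrFun (congrFun h5 1) 0
  have c3 := congrFun (congrFun h5 1) 1
  simp only [Matrix.mul_apply, Fin.sum_univ_two] at c0 c1 c2 c3
  simp at c0 c1 c2 c3
  simp [trace_fin_two] at h3
  have : (1 : ZMod p) = 0 := by linear_combination h3 - 2 * c0 + c1 - c3 + c2
  exact one_ne_zero this

end Cfsg.Agent.S2232
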