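import Cfsg.Statements.S2239
import Mathlib
import Cfsg.Agent.H13.SzSub

set_option autoImplicit false
open Cfsg

namespace Cfsg.Agent.S2239

/-- Subfield subgroups of the Suzuki group: let q = 2^(2m+1) and s = 2^(2k+1) with m, k ≥ 1 and 2k+1 dividing 2m+1 (so q is a power of s), both groups realised as stabilisers in SL₄ of the Suzuki–Tits ovoid. Then Sz(q) has a subgroup isomorphic to Sz(s), and any two subgroups of Sz(q) isomorphic to Sz(s) are conjugate. -/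
theorem result {F : Type*} [Field F] [Fintype F] {m : ℕ} (hm : 1 ≤ m) (hF : Fintype.card F = 2 ^ (2 * m + 1)) {K : Type*} [Field K] [Fintype K] {k : ℕ} (hk : 1 ≤ k) (hK : Fintype.card K = 2 ^ (2 * k + 1)) (hdiv : 2 * k + 1 ∣ 2 * m + 1) :
    (∃ S : Subgroup ↥(Cfsg.Sz F m), Nonempty (↥S ≃* ↥(Cfsg.Sz K k))) ∧
    ∀ S₁ S₂ : Subgroup ↥(Cfsg.Sz F m), Nonempty (↥S₁ ≃* ↥(Cfsg.Sz K k)) → Nonempty (↥S₂ ≃* ↥(Cfsg.Sz K k)) →
      ∃ g : ↥(Cfsg.Sz F m), S₂ = S₁.map (MulAut.conj g).toMonoidHom := by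
  have hF' : Nat.card F = 2 ^ (2 * m + 1) := by rw [Nat.card_eq_fintype_card, hF]
  have hK' : Nat.card K = 2 ^ (2 * k + 1) := by rw [Nat.card_eq_fintype_card, hK]
  let S := H13.szDataA hm hF'
  let S' := H13.szDataA hk hK'
  constructor
  · have := S.charP
    have := S'.charP
    let := ZMod.algebra F 2
    let := ZMod.algebra K 2
    have h1 := Module.natCard_eq_pow_finrank (K := ZMod 2) (V := F)
    have h2 := Module.natCard_eq_pow_finrank (K := ZMod 2) (V := K)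
    rw [Nat.card_zmod] at h1 h2
    obtain ⟨σ⟩ := FiniteField.nonempty_algHom_of_finrank_dvd (F := ZMod 2) (K := K) (L := F) (by
      rw [← Nat.pow_right_injective le_rfl (hF'.symm.trans h1), ← Nat.pow_right_injective le_rfl (hK'.symm.trans h2)]
      exact hdiv)
    exact ⟨_, ⟨(MonoidHom.ofInjective (S.embed_injective S' σ.toRingHom)).symm⟩⟩
  · rintro S₁ S₂ ⟨e₁⟩ ⟨e₂⟩
    obtain ⟨g₁, E₁, h1, rfl⟩ := S.exists_eq_map_sub_of_equiv S' e₁
    obtain ⟨g₂, E₂, h2, rfl⟩ := S.exists_eq_map_sub_of_equiv S' e₂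
    obtain rfl := H13.subfield_eq_of_card_eq (h1.trans h2.symm)
    exact ⟨g₂ * g₁⁻¹, by rw [H13.map_conj_map_conj, inv_mul_cancel_right]⟩

end Cfsg.Agent.S2239
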