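import Cfsg.Statements.S2240
import Cfsg.Agent.H13.SzSub
import Cfsg.Agent.H13.SzModels

set_option autoImplicit false
open Cfsg

namespace Cfsg.Agent.S2240

section
open Subgroup Cfsg.Agent.H13
variable {G : Type*} [Group G] {F : Type*} [Field F] (S : SzData G F)

theorem dvd_of_ti {E : Subgroup G} (hE : E ≤ S.Z) {n : ℕ} (hn : 1 ≤ n) (hc : Nat.card E = 2 ^ n)
    (h : ∀ x : G, E ⊓ E.map (MulAut.conj x).toMonoidHom ≠ ⊥ → x ∈ normalizer (E : Set G)) : n ∣ 2 * S.m + 1 := by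
  have := S.finiteF
  have := S.charP
  have h8 := S.eight_le_q
  let K : Subfield F :=
    { carrier := {c | ∀ b, S.u 0 b ∈ E → S.u 0 (c * b) ∈ E}
      mul_mem' := fun {x y} hx hy b hb => mul_assoc x y b ▸ hx _ (hy b hb)
      one_mem' := fun b hb => by rwa [one_mul]
      add_mem' := fun {x y} hx hy b hb => by rw [add_mul, ← S.u_zero_mul]; exact mul_mem (hx b hb) (hy b hb)
      zero_mem' := fun b hb => by rw [zero_mul, S.u_zero]; exact one_mem _
      neg_mem' := fun {x} hx b hb => by rw [CharTwo.neg_eq]; exact hx b hb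
      inv_mem' := fun x hx b hb => by
        have k : ∀ j : ℕ, S.u 0 (x ^ j * b) ∈ E := fun j => by
          induction j with
          | zero => rwa [pow_zero, one_mul]
          | succ j ih => rw [pow_succ', mul_assoc]; exact hx _ ih
        by_cases h0 : x = 0
        · rw [h0, inv_zero, zero_mul, S.u_zero]; exact one_mem _
        · have e := S.pow_q x
          rw [show S.q = S.q - 2 + 1 + 1 by omega, pow_succ, mul_eq_right₀ h0, pow_succ] at e
          exact eq_inv_of_mul_eq_one_left e ▸ k _ }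
  obtain ⟨⟨g, hg⟩, h1⟩ := ne_bot_iff_exists_ne_one.1 (show E ≠ ⊥ from fun e => by
    rw [e, card_bot] at hc
    exact (Nat.one_lt_two_pow (by omega)).ne hc)
  obtain ⟨e, rfl⟩ := hE hg
  have he : e ≠ 0 := fun c => h1 (Subtype.ext (by simp [c]))
  refine exp_dvd_of_ringHom K.subtype le_rfl (hc ▸ Nat.card_eq_of_bijective
    (fun c : K => (⟨S.u 0 (c * e), c.2 e hg⟩ : E)) ⟨fun c d k => Subtype.ext
      (mul_right_cancel₀ he (S.u_inj (congrArg (fun y : E => (y : G)) k)).2), fun ⟨y, hy⟩ => ?_⟩) S.card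
  obtain ⟨b, rfl⟩ := hE hy
  by_cases hb : b = 0
  · exact ⟨0, Subtype.ext (by simp [hb])⟩
  obtain ⟨k, hk⟩ := S.mul_θ_surjective (b / e)
  have hk0 : k ≠ 0 := fun c => div_ne_zero hb he (by rw [← hk, c]; simp)
  have k2 : ∀ d, S.h (Units.mk0 k hk0) * S.u 0 d * (S.h (Units.mk0 k hk0))⁻¹ = S.u 0 (b / e * d) := fun d => by
    rw [S.h_conj_u, ← hk]; simp
  have k3 := h (S.h (Units.mk0 k hk0)) fun c => hb (S.u_eq_one_iff.1 (mem_bot.1 (c.le
    ⟨hy, _, hg, (k2 e).trans (by rw [div_mul_cancel₀ _ he])⟩))).2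
  exact ⟨⟨b / e, fun d hd => k2 d ▸ (mem_normalizer_iff.1 k3 _).1 hd⟩, Subtype.ext (by simp [he])⟩

include S in
theorem ti_of_subfield (K : Subfield F) : ∃ E : Subgroup G, IsElementaryAbelian 2 E ∧ Nat.card E = Nat.card K ∧
    ∀ x : G, E ⊓ E.map (MulAut.conj x).toMonoidHom ≠ ⊥ → x ∈ normalizer (E : Set G) := by
  have := S.finiteG
  let φ : Multiplicative K →* G := MonoidHom.mk' (fun c => S.u 0 (c.toAdd : K)) fun c d => by
    rw [S.u_zero_mul]; rfl
  have hZ : φ.range ≤ S.Z := by rintro _ ⟨c, rfl⟩; exact S.u_mem_Z _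
  refine ⟨φ.range, ⟨⟨⟨fun a b => Subtype.ext (S.comm_of_mem_Z (hZ b.2) (S.Z_le_U (hZ a.2)))⟩⟩,
    fun a ha => (sq a).trans (S.sq_eq_one_of_mem_Z (hZ ha))⟩, (Nat.card_congr (MonoidHom.ofInjective (f := φ)
      fun c d k => Subtype.ext (S.u_inj k).2).toEquiv).symm, fun x hx => ?_⟩
  obtain ⟨⟨g, ⟨c, hc⟩, _, ⟨d, rfl⟩, hd⟩, h1⟩ := ne_bot_iff_exists_ne_one.1 hx
  have h2 : g ≠ 1 := fun e => h1 (Subtype.ext e)
  have h3 : x * φ d * x⁻¹ = g := hd
  have h4 : φ d ≠ 1 := fun e => h2 (by rw [← h3, e]; simp)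
  obtain ⟨a, b, k, rfl⟩ := S.eq_u_mul_h_of_fix (S.split.smul_eq_of_conj_mem
    (S.split.rootAt_self.ge (S.Z_le_U (hZ ⟨d, rfl⟩))) h4 (h3 ▸ S.split.rootAt_self.ge (S.Z_le_U (hZ ⟨c, hc⟩))))
  have k1 : ∀ y, S.u a b * S.h k * S.u 0 y * (S.u a b * S.h k)⁻¹ = S.u 0 (k * S.θ k * y) := fun y => by
    rw [mul_inv_rev, show S.u a b * S.h k * S.u 0 y * ((S.h k)⁻¹ * (S.u a b)⁻¹) =
      S.u a b * (S.h k * S.u 0 y * (S.h k)⁻¹) * (S.u a b)⁻¹ by group, S.h_conj_u, mul_zero,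
      S.comm_of_mem_Z (S.u_mem_Z _) (S.u_mem_U a b), mul_inv_cancel_right]
  have h5 : (k : F) * S.θ k * (d.toAdd : K) = (c.toAdd : K) := (S.u_inj ((k1 _).symm.trans (h3.trans hc.symm))).2
  have h6 : ((d.toAdd : K) : F) ≠ 0 := fun e => h4 (S.u_eq_one_iff.2 ⟨rfl, e⟩)
  have h7 : (k : F) * S.θ k ∈ K := by rw [eq_div_of_mul_eq h6 h5]; exact div_mem c.toAdd.2 d.toAdd.2
  refine mem_normalizer_fintype ?_
  rintro _ ⟨y, rfl⟩
  exact ⟨Multiplicative.ofAdd ⟨_, mul_mem h7 y.toAdd.2⟩, (k1 _).symm⟩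

end

/-- Elementary abelian TI-subgroups of the Suzuki group: let q = 2^(2m+1) with m ≥ 1, the group realised as the stabiliser in SL₄ of the Suzuki–Tits ovoid, and n ≥ 2. There is an elementary abelian 2-subgroup E of order 2^n that is a TI-subgroup (every conjugate of E meeting E nontrivially is E itself) if and only if n divides 2m + 1. -/
theorem result {F : Type*} [Field F] [Fintype F] {m : ℕ} (hm : 1 ≤ m) (hF : Fintype.card F = 2 ^ (2 * m + 1)) (n : ℕ) (hn : 2 ≤ n) :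
    (∃ E : Subgroup ↥(Cfsg.Sz F m), Cfsg.IsElementaryAbelian 2 E ∧ Nat.card ↥E = 2 ^ n ∧
      ∀ x : ↥(Cfsg.Sz F m), E ⊓ E.map (MulAut.conj x).toMonoidHom ≠ ⊥ → x ∈ Subgroup.normalizer (E : Set ↥(Cfsg.Sz F m))) ↔ n ∣ 2 * m + 1 := by
  have hF' : Nat.card F = 2 ^ (2 * m + 1) := by rw [Nat.card_eq_fintype_card, hF]
  let S := H13.szDataA hm hF'
  haveI := Fact.mk Nat.prime_two
  refine ⟨fun ⟨E, h1, h2, h3⟩ => ?_, fun h => ?_⟩
  · obtain ⟨k, hk⟩ := S.exists_conj_le_U (IsPGroup.of_card h2)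
    exact dvd_of_ti (S.conj k) (fun g hg => (S.conj k).mem_Z_of_sq_eq_one (hk hg) ((sq g).symm.trans (h1.2 g hg)))
      (by omega) h2 h3
  · haveI := S.charP
    letI := ZMod.algebra F 2
    obtain ⟨σ⟩ := FiniteField.nonempty_algHom_of_finrank_dvd (F := ZMod 2) (K := GaloisField 2 n) (L := F) (by
      have h1 := Module.natCard_eq_pow_finrank (K := ZMod 2) (V := F)
      rw [hF', Nat.card_zmod] at h1
      rwa [GaloisField.finrank 2 (by omega), ← Nat.pow_right_injective le_rfl h1])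
    obtain ⟨E, h1, h2, h3⟩ := ti_of_subfield S σ.toRingHom.fieldRange
    exact ⟨E, h1, by rw [h2, ← GaloisField.card 2 n (by omega)]; exact
      (Nat.card_congr σ.toRingHom.rangeRestrictFieldEquiv.toEquiv).symm, h3⟩

end Cfsg.Agent.S2240
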