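import Cfsg.Statements.S2241
import Mathlib
import Cfsg.Agent.H13.SzBasic

set_option autoImplicit false
open Cfsg

namespace Cfsg.Agent.S2241

/-- Real 2-elements of the Suzuki group: with q = 2^(2m+1), m ≥ 1, and the group realised as the stabiliser in SL₄ of the Suzuki–Tits ovoid, a non-identity element of a Sylow 2-subgroup is conjugate to its inverse if and only if it is an involution; in particular no element of order 4 is conjugate to its inverse. -/
theorem result {F : Type*} [Field F] [Fintype F] {m : ℕ} (hm : 1 ≤ m) (hF : Fintype.card F = 2 ^ (2 * m + 1)) (P : Sylow 2 ↥(Cfsg.Sz F m)) (g : ↥(Cfsg.Sz F m)) (hg : g ∈ (P : Subgroup ↥(Cfsg.Sz F m))) (h1 : g ≠ 1) :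
    IsConj g g⁻¹ ↔ orderOf g = 2 := by
  have hF' : Nat.card F = 2 ^ (2 * m + 1) := by rw [Nat.card_eq_fintype_card, hF]
  obtain ⟨k, hk⟩ := (H13.szDataA hm hF').exists_conj_U_eq_sylow P
  set S := (H13.szDataA hm hF').conj k with hS
  haveI := S.charP
  rw [← hk] at hg
  constructor
  · intro hc
    obtain ⟨l, hl⟩ := isConj_iff.1 hc
    have h2 : l • S.inf = S.inf := S.split.smul_eq_of_conj_mem (S.split.rootAt_self.symm ▸ hg) h1
      (by rw [S.split.rootAt_self, hl]; exact S.U.inv_mem hg)
    obtain ⟨c, d, t, rfl⟩ := S.eq_u_mul_h_of_fix h2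
    obtain ⟨a, b, rfl⟩ := hg
    have h3 : S.u c d * S.h t * S.u a b * (S.u c d * S.h t)⁻¹ =
        S.u c d * (S.h t * S.u a b * (S.h t)⁻¹) * (S.u c d)⁻¹ := by group
    rw [h3, S.h_conj_u, S.u_inv, S.u_inv, S.u_mul, S.u_mul, S.u_eq_iff] at hl
    by_cases ha : a = 0
    · subst ha
      exact S.orderOf_u_zero fun hb => h1 (by rw [hb, S.u_zero])
    exfalso
    obtain ⟨e1, e2⟩ := hl
    have ht : (t : F) = 1 := mul_right_cancel₀ ha (by grind)
    rw [ht] at e2
    simp only [map_one, one_mul, map_add] at e2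
    have ha' : S.θ a ≠ 0 := (map_ne_zero _).2 ha
    have e3 : S.θ (c / a) + c / a = 1 := by
      rw [map_div₀]; field_simp; grind
    have e4 := congrArg S.θ e3
    rw [map_add, S.θθ, map_one] at e4
    have e5 : c / a * (c / a + 1) = 0 := by grind
    rcases mul_eq_zero.1 e5 with h | h
    · rw [h] at e3; simp at e3
    · have : c / a = 1 := by grind
      rw [this, map_one] at e3
      grind
  · intro h
    have : g⁻¹ = g := inv_eq_of_mul_eq_one_right (by rw [← sq, ← h, pow_orderOf_eq_one])
    rw [this]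

end Cfsg.Agent.S2241
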