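import Cfsg.Statements.S2244
import Mathlib
import Cfsg.Agent.H12.Wc2

set_option autoImplicit false
open Cfsg

namespace Cfsg.Agent.S2244

open Cfsg.Agent.H12
open Cfsg.Lie

/-- Weakly closed unipotent subgroups of Chevalley groups: let G be the Chevalley group of type G₂, B₂, D₄, F₄, E₆, E₇ or E₈ over a finite field F (the matrix group generated by the root elements), with |F| ≠ 2, and |F| ≠ 3 as well for the types G₂, B₂, D₄, F₄. Let U be the subgroup generated by the positive root subgroups. If X ≤ U is weakly closed in U with respect to G (every G-conjugate of X lying in U equals X), then X is the unipotent radical U_J of a standard parabolic subgroup for some set J of fundamental roots. -/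
theorem result {F : Type*} [Field F] [Fintype F] (D : Cfsg.Lie.ChevalleyDatum) (hD : D ∈ [Cfsg.Lie.chevG2, Cfsg.Lie.chevB2, Cfsg.Lie.chevD4, Cfsg.Lie.chevF4, Cfsg.Lie.chevE6, Cfsg.Lie.chevE7, Cfsg.Lie.chevE8])
    (h2 : Fintype.card F ≠ 2) (h3 : D ∈ [Cfsg.Lie.chevG2, Cfsg.Lie.chevB2, Cfsg.Lie.chevD4, Cfsg.Lie.chevF4] → Fintype.card F ≠ 3)
    (X : Subgroup (GL D.Idx F)) (hXU : X ≤ D.posUnipotent F)
    (hwc : ∀ g ∈ D.group F, X.map (MulAut.conj g).toMonoidHom ≤ D.posUnipotent F → X.map (MulAut.conj g).toMonoidHom = X) :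
    ∃ J : Set ℕ, (∀ j ∈ J, j < D.rank) ∧ X = D.unipotentRadical F J := by
  have hc := Fintype.one_lt_card (α := F)
  have ne : ∀ {D : ChevalleyDatum} [Good D] {r s : Fin D.nroots}, (rsOf D).Pos r → (rsOf D).Pos s →
      s ≠ (rsOf D).neg r := fun hr hs e => (rsOf _).pos_neg_iff.1 (e ▸ hs) hr
  obtain ⟨c, c0, c1⟩ := exists_pow_ne_one (K := F) (m := 1) (by omega)
  have hd : D ∈ [chevG2, chevB2, chevD4, chevF4] →
      ∃ d : F, d ≠ 0 ∧ ∀ n : ℕ, 0 < n → n ≤ 2 → d ^ n ≠ 1 := fun h =>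
    exists_pow_ne_one (by have := h3 h; omega)
  simp only [List.mem_cons, List.not_mem_nil, or_false] at hD hd
  rcases hD with rfl | rfl | rfl | rfl | rfl | rfl | rfl
  · obtain ⟨d, d0, d1⟩ := hd (by tauto)
    exact chev_weakly_closed
      (fun r s hr _ h1 h2 => sep_of_sepChk' tbG2 sepChk_G2 d0 d1 hr h1 h2) X hXU hwc
  · obtain ⟨d, d0, d1⟩ := hd (by tauto)
    exact chev_weakly_closed
      (fun r s hr hs h1 _ => sep_of_sepChk tbB2 sepChk_B2 d0 d1 h1 (ne hr hs)) X hXU hwc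
  · obtain ⟨d, d0, d1⟩ := hd (by tauto)
    exact chev_weakly_closed
      (fun r s hr hs h1 _ => sep_of_sepChk tbD4 sepChk_D4 d0 d1 h1 (ne hr hs)) X hXU hwc
  · obtain ⟨d, d0, d1⟩ := hd (by tauto)
    exact chev_weakly_closed
      (fun r s hr hs h1 _ => sep_of_sepChk tbF4 sepChk_F4 d0 d1 h1 (ne hr hs)) X hXU hwc
  · exact chev_weakly_closed
      (fun r s hr hs h1 _ => sep_of_sepChk tbE6 sepChk_E6 c0 c1 h1 (ne hr hs)) X hXU hwc
  · exact chev_weakly_closed
      (fun r s hr hs h1 _ => sep_of_sepChk tbE7 sepChk_E7 c0 c1 h1 (ne hr hs)) X hXU hwc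
  · exact chev_weakly_closed
      (fun r s hr hs h1 _ => sep_of_sepChk tbE8 sepChk_E8 c0 c1 h1 (ne hr hs)) X hXU hwc

end Cfsg.Agent.S2244
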