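import Cfsg.Statements.S2251
import Mathlib
import Cfsg.Agent.H13.SzSub

set_option autoImplicit false
open Cfsg

namespace Cfsg.Agent.S2251

/-- The subgroups of the Suzuki group: with q = 2^(2m+1), m ≥ 1, r = 2^m and the group realised as the stabiliser in SL₄ of the Suzuki–Tits ovoid, every proper subgroup is contained in the normalizer of a Sylow 2-subgroup, or in the normalizer of a cyclic subgroup of order q − 1, q + 2r + 1 or q − 2r + 1, or in a subgroup isomorphic to a smaller Suzuki group Sz(s) with s = 2^(2k+1) ≥ 8 and 2k+1 a proper divisor of 2m+1. -/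
theorem result {F : Type*} [Field F] [Fintype F] {m : ℕ} (hm : 1 ≤ m) (hF : Fintype.card F = 2 ^ (2 * m + 1)) (M : Subgroup ↥(Cfsg.Sz F m)) (hM : M ≠ ⊤) :
    (∃ P : Sylow 2 ↥(Cfsg.Sz F m), M ≤ Subgroup.normalizer ((P : Subgroup ↥(Cfsg.Sz F m)) : Set ↥(Cfsg.Sz F m))) ∨
    (∃ U : Subgroup ↥(Cfsg.Sz F m), IsCyclic ↥U ∧ Nat.card ↥U ∈ ({2 ^ (2 * m + 1) - 1, 2 ^ (2 * m + 1) + 2 ^ (m + 1) + 1, 2 ^ (2 * m + 1) - 2 ^ (m + 1) + 1} : Set ℕ) ∧
      M ≤ Subgroup.normalizer (U : Set ↥(Cfsg.Sz F m))) ∨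
    (∃ (K : Type) (_ : Field K) (_ : Fintype K) (k : ℕ), 1 ≤ k ∧ k < m ∧ Fintype.card K = 2 ^ (2 * k + 1) ∧ 2 * k + 1 ∣ 2 * m + 1 ∧
      ∃ S : Subgroup ↥(Cfsg.Sz F m), Nonempty (↥S ≃* ↥(Cfsg.Sz K k)) ∧ M ≤ S) := by
  let S := H13.szDataA (F := F) hm (by rw [Nat.card_eq_fintype_card, hF])
  rcases S.subgroup_classification M with ⟨x, hx⟩ | ⟨T, hT, h⟩ | ⟨g, E, h1, h2⟩
  · obtain ⟨P, hP⟩ := S.exists_sylow_eq_UAt x
    exact Or.inl ⟨P, by rw [hP, S.normalizer_UAt]; exact hx⟩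
  · exact Or.inr (Or.inl ⟨T, hT.isCyclic, hT.order, h⟩)
  · obtain ⟨k, hk, h3, h4⟩ := S.exists_card_subfield E h1
    have hK : Nat.card (GaloisField 2 (2 * k + 1)) = 2 ^ (2 * k + 1) := GaloisField.card 2 _ (by omega)
    let := Fintype.ofFinite (GaloisField 2 (2 * k + 1))
    refine Or.inr (Or.inr ⟨GaloisField 2 (2 * k + 1), inferInstance, inferInstance, k, hk, ?_,
      by rw [← Nat.card_eq_fintype_card, hK], h4, M, ?_, le_rfl⟩)
    · have h5 : 2 * k + 1 ≤ 2 * m + 1 := Nat.le_of_dvd (by omega) h4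
      by_contra h6
      obtain rfl : k = m := by omega
      have h7 : E = ⊤ := H13.subfield_eq_of_card_eq (by
        rw [h3, Nat.card_congr Subfield.topEquiv.toEquiv, Nat.card_eq_fintype_card, hF])
      rw [h7, S.sub_top, Subgroup.map_top_of_surjective _ (MulAut.conj g).surjective] at h2
      exact hM h2
    · obtain ⟨e⟩ := S.nonempty_sub_equiv (H13.szDataA hk hK) (h3.trans hK.symm)
      rw [h2]
      exact ⟨((S.sub E).equivMapOfInjective _ (MulAut.conj g).injective).symm.trans e⟩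

end Cfsg.Agent.S2251
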