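import Cfsg.Statements.S2257
import Mathlib
import Cfsg.Agent.H10.Solub

set_option autoImplicit false
open Cfsg

namespace Cfsg.Agent.S2257

/-- Let G = PSL_2(F) with F a field of order q = 2^p, p prime, and for x ∈ G call the solubilizer of x the set of y ∈ G such that x and y generate a solvable subgroup. Then the solubilizer of an involution has 3q(q − 1) elements; that of a non-identity element of order dividing q − 1 has 2q(q − 1) elements; and that of a non-identity element of order dividing q + 1 has 2(q + 1) elements. -/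
theorem result (p : ℕ) (hp : p.Prime) {F : Type*} [Field F] [Fintype F]
    (hF : Fintype.card F = 2 ^ p) (x : Matrix.ProjectiveSpecialLinearGroup (Fin 2) F) :
    (orderOf x = 2 → Nat.card {y : Matrix.ProjectiveSpecialLinearGroup (Fin 2) F // Group.IsSolvable ↥(Subgroup.closure ({x, y} : Set (Matrix.ProjectiveSpecialLinearGroup (Fin 2) F)))} = 3 * 2 ^ p * (2 ^ p - 1)) ∧
    (x ≠ 1 → orderOf x ∣ 2 ^ p - 1 → Nat.card {y : Matrix.ProjectiveSpecialLinearGroup (Fin 2) F // Group.IsSolvable ↥(Subgroup.closure ({x, y} : Set (Matrix.ProjectiveSpecialLinearGroup (Fin 2) F)))} = 2 * 2 ^ p * (2 ^ p - 1)) ∧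
    (x ≠ 1 → orderOf x ∣ 2 ^ p + 1 → Nat.card {y : Matrix.ProjectiveSpecialLinearGroup (Fin 2) F // Group.IsSolvable ↥(Subgroup.closure ({x, y} : Set (Matrix.ProjectiveSpecialLinearGroup (Fin 2) F)))} = 2 * (2 ^ p + 1)) := by
  rw [← Nat.card_eq_fintype_card] at hF
  obtain ⟨r, hr, _⟩ := H10.exists_charP F
  have := Fact.mk hr
  obtain rfl := H10.char_eq_of_card_eq r Nat.prime_two hF
  have he : Even (Nat.card F) := hF ▸ (Nat.even_pow.2 ⟨even_two, hp.ne_zero⟩)
  have hd := H10.gcd_two_eq_one he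
  have h2 := H10.two_le_card_field (F := F)
  rw [H10.card_sol, ← orderOf_injective _ H10.pslPi_injective x, ← hF,
    ← (map_eq_one_iff _ H10.pslPi_injective).ne]
  generalize H10.pslPi F x = y
  have key : y ≠ 1 → Odd (orderOf y) → 2 < orderOf y ∧
      ∃ (z z' : H10.PLbar F) (e : ℕ), H10.IsTorusPair z z' e ∧ y ∈ H10.torus _ z z' := fun h1 h3 => by
    have h4 : orderOf y ≠ 1 := fun h => h1 (orderOf_eq_one_iff.1 h)
    have h5 := Nat.odd_iff.1 h3
    exact ⟨by omega, H10.exists_isTorusPair_of_pow_ne (p := 2)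
      (H10.pow_char_ne_one_of_not_dvd (by omega) (by omega))⟩
  have key2 : ∀ k, 2 < k → k ∣ Nat.card F - 1 → ¬ k ∣ Nat.card F + 1 := fun k a b c => by
    have := Nat.dvd_sub c b
    rw [show Nat.card F + 1 - (Nat.card F - 1) = 2 by omega] at this
    have := Nat.le_of_dvd (by norm_num) this
    omega
  have he' := Nat.even_iff.1 he
  refine ⟨fun h => by rw [H10.ncard_sol_unip_two hp hF h, mul_assoc], fun h1 h3 => ?_,
    fun h1 h3 => ?_⟩
  · obtain ⟨a, z, z', e, h4, h5⟩ := key h1 (Odd.of_dvd_nat (Nat.odd_iff.2 (by omega)) h3)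
    rcases h4.2 with ⟨⟨u, rfl⟩, ⟨v, rfl⟩, -⟩ | ⟨-, -, rfl⟩
    · have := H10.ncard_sol_split (fun k => h4.1 (congrArg _ k)) a h5
        fun y hy => H10.sol_cases_two hp hF hy
      rwa [hd, one_mul, ← mul_assoc] at this
    · exact absurd (h4.orderOf_dvd h5) (key2 _ a h3)
  · obtain ⟨a, z, z', e, h4, h5⟩ := key h1 (Odd.of_dvd_nat (Nat.odd_iff.2 (by omega)) h3)
    rcases h4.e_eq with rfl | rfl
    · exact absurd h3 (key2 _ a (h4.orderOf_dvd h5))
    · have := H10.ncard_sol_nonsplit h4 a h5 fun y hy => H10.sol_cases_two hp hF hy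
      rwa [hd, one_mul] at this

end Cfsg.Agent.S2257
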