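import Cfsg.Statements.S2258
import Mathlib
import Cfsg.Agent.H10.Solub2

set_option autoImplicit false
open Cfsg

namespace Cfsg.Agent.S2258

/-- Let G = PSL_2(F) with F a field of order q = 3^p, p an odd prime, and for x ∈ G call the solubilizer of x the set of y ∈ G such that x and y generate a solvable subgroup. Then the solubilizer of an involution has q(q + 1) elements; that of an element of order 3 has q(q + 5)/2 elements; that of an element of order neither 1 nor 2 dividing q − 1 has q(q − 1) elements; and that of an element of order neither 1 nor 2 dividing q + 1 has q + 1 elements. -/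
theorem result (p : ℕ) (hp : p.Prime) (hodd : Odd p) {F : Type*} [Field F] [Fintype F]
    (hF : Fintype.card F = 3 ^ p) (x : Matrix.ProjectiveSpecialLinearGroup (Fin 2) F) :
    (orderOf x = 2 → Nat.card {y : Matrix.ProjectiveSpecialLinearGroup (Fin 2) F // Group.IsSolvable ↥(Subgroup.closure ({x, y} : Set (Matrix.ProjectiveSpecialLinearGroup (Fin 2) F)))} = 3 ^ p * (3 ^ p + 1)) ∧
    (orderOf x = 3 → 2 * Nat.card {y : Matrix.ProjectiveSpecialLinearGroup (Fin 2) F // Group.IsSolvable ↥(Subgroup.closure ({x, y} : Set (Matrix.ProjectiveSpecialLinearGroup (Fin 2) F)))} = 3 ^ p * (3 ^ p + 5)) ∧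
    (x ≠ 1 → orderOf x ≠ 2 → orderOf x ∣ 3 ^ p - 1 → Nat.card {y : Matrix.ProjectiveSpecialLinearGroup (Fin 2) F // Group.IsSolvable ↥(Subgroup.closure ({x, y} : Set (Matrix.ProjectiveSpecialLinearGroup (Fin 2) F)))} = 3 ^ p * (3 ^ p - 1)) ∧
    (x ≠ 1 → orderOf x ≠ 2 → orderOf x ∣ 3 ^ p + 1 → Nat.card {y : Matrix.ProjectiveSpecialLinearGroup (Fin 2) F // Group.IsSolvable ↥(Subgroup.closure ({x, y} : Set (Matrix.ProjectiveSpecialLinearGroup (Fin 2) F)))} = 3 ^ p + 1) := by
  rw [← Nat.card_eq_fintype_card] at hF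
  obtain ⟨r, hr, _⟩ := H10.exists_charP F
  have := Fact.mk hr
  obtain rfl := H10.char_eq_of_card_eq r Nat.prime_three hF
  have ho : Odd (Nat.card F) := hF ▸ Odd.pow (by decide)
  have hd := H10.gcd_two_eq_two ho
  have h2 := H10.two_le_card_field (F := F)
  have h3 := H10.dvd_card_field (F := F) 3
  have hL := H10.pslPi_mem x
  rw [H10.card_sol, ← orderOf_injective _ H10.pslPi_injective x, ← hF,
    ← (map_eq_one_iff _ H10.pslPi_injective).ne]
  generalize H10.pslPi F x = y at hL ⊢
  have key : y ≠ 1 → orderOf y ≠ 2 → ¬ 3 ∣ orderOf y → 2 < orderOf y ∧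
      (∃ (z z' : H10.PLbar F) (e : ℕ), H10.IsTorusPair z z' e ∧ y ∈ H10.torus _ z z') ∧
      ∀ w ∈ H10.sol y, (∃ u : H10.PL F, y • u = u ∧ w • u = u) ∨
        ∃ z z' : H10.PLbar F, z ≠ z' ∧ y ∈ H10.pairStab _ z z' ∧ w ∈ H10.pairStab _ z z' := by
    intro h1 h4 h5
    have h6 : orderOf y ≠ 1 := fun h => h1 (orderOf_eq_one_iff.1 h)
    have h7 := orderOf_pos y
    refine ⟨by omega, H10.exists_isTorusPair_of_pow_ne (p := 3)
      (H10.pow_char_ne_one_of_not_dvd (by omega) h5), fun w hw =>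
        (H10.sol_cases_three hp hodd hF hL hw).resolve_right ?_⟩
    rintro ⟨A, ⟨e⟩, k, -⟩
    have a1 := Subgroup.orderOf_dvd_natCard A k
    have a2 := H10.orderOf_ne_four_of_A4 e k
    rw [H10.card_of_equiv e, H10.card_A4] at a1
    have := Nat.le_of_dvd (by norm_num) a1
    generalize orderOf y = m at *
    interval_cases m <;> omega
  have key2 : ∀ k, 2 < k → k ∣ Nat.card F - 1 → ¬ k ∣ Nat.card F + 1 := fun k a b c => by
    have := Nat.dvd_sub c b
    rw [show Nat.card F + 1 - (Nat.card F - 1) = 2 by omega] at this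
    have := Nat.le_of_dvd (by norm_num) this
    omega
  refine ⟨H10.ncard_sol_involution_three hp hodd hF hL, H10.ncard_sol_unip_three hp hodd hF,
    fun h1 h1' h4 => ?_, fun h1 h1' h4 => ?_⟩
  · obtain ⟨a, ⟨z, z', e, h5, h6⟩, h7⟩ := key h1 h1' fun k => by have := k.trans h4; omega
    rcases h5.2 with ⟨⟨u, rfl⟩, ⟨v, rfl⟩, -⟩ | ⟨-, -, rfl⟩
    · have := H10.ncard_sol_split (fun k => h5.1 (congrArg _ k)) a h6 h7
      rw [hd] at this
      omega
    · exact absurd (h5.orderOf_dvd h6) (key2 _ a h4)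
  · obtain ⟨a, ⟨z, z', e, h5, h6⟩, h7⟩ := key h1 h1' fun k => by have := k.trans h4; omega
    rcases h5.e_eq with rfl | rfl
    · exact absurd h4 (key2 _ a (h5.orderOf_dvd h6))
    · have := H10.ncard_sol_nonsplit h5 a h6 h7
      rw [hd] at this
      omega

end Cfsg.Agent.S2258
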