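import Cfsg.Statements.S2259
import Cfsg.Agent.H13.SzSol

set_option autoImplicit false
open Cfsg

namespace Cfsg.Agent.S2259

/-- Let G be the Suzuki group Sz(q), q = 2^(2m+1) with 2m + 1 prime and m ≥ 1, realised inside Sp_4(F) for F the field of order q, write r = 2^(m+1) (so r² = 2q), and for x ∈ G call the solubilizer of x the set of y ∈ G such that x and y generate a solvable subgroup. Then the solubilizer of an involution has q²(4q − 3) elements; that of an element of order 4 has q²(q + 3) elements; that of a non-identity element of order dividing q − 1 has 2q²(q − 1) elements; that of a non-identity element of order dividing q + r + 1 has 4(q + r + 1) elements; and that of a non-identity element of order dividing q − r + 1 has 4(q − r + 1) elements. -/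
theorem result {F : Type*} [Field F] [Fintype F] {m : ℕ} (hm : 1 ≤ m)
    (hp : (2 * m + 1).Prime) (hF : Fintype.card F = 2 ^ (2 * m + 1)) (x : ↥(Cfsg.Lie.Sz F (2 ^ (m + 1)))) :
    (orderOf x = 2 → Nat.card {y : ↥(Cfsg.Lie.Sz F (2 ^ (m + 1))) // Group.IsSolvable ↥(Subgroup.closure ({x, y} : Set (↥(Cfsg.Lie.Sz F (2 ^ (m + 1))))))} = (2 ^ (2 * m + 1)) ^ 2 * (4 * 2 ^ (2 * m + 1) - 3)) ∧
    (orderOf x = 4 → Nat.card {y : ↥(Cfsg.Lie.Sz F (2 ^ (m + 1))) // Group.IsSolvable ↥(Subgroup.closure ({x, y} : Set (↥(Cfsg.Lie.Sz F (2 ^ (m + 1))))))} = (2 ^ (2 * m + 1)) ^ 2 * (2 ^ (2 * m + 1) + 3)) ∧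
    (x ≠ 1 → orderOf x ∣ 2 ^ (2 * m + 1) - 1 →
      Nat.card {y : ↥(Cfsg.Lie.Sz F (2 ^ (m + 1))) // Group.IsSolvable ↥(Subgroup.closure ({x, y} : Set (↥(Cfsg.Lie.Sz F (2 ^ (m + 1))))))} = 2 * (2 ^ (2 * m + 1)) ^ 2 * (2 ^ (2 * m + 1) - 1)) ∧
    (x ≠ 1 → orderOf x ∣ 2 ^ (2 * m + 1) + 2 ^ (m + 1) + 1 → Nat.card {y : ↥(Cfsg.Lie.Sz F (2 ^ (m + 1))) // Group.IsSolvable ↥(Subgroup.closure ({x, y} : Set (↥(Cfsg.Lie.Sz F (2 ^ (m + 1))))))} = 4 * (2 ^ (2 * m + 1) + 2 ^ (m + 1) + 1)) ∧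
    (x ≠ 1 → orderOf x ∣ 2 ^ (2 * m + 1) - 2 ^ (m + 1) + 1 → Nat.card {y : ↥(Cfsg.Lie.Sz F (2 ^ (m + 1))) // Group.IsSolvable ↥(Subgroup.closure ({x, y} : Set (↥(Cfsg.Lie.Sz F (2 ^ (m + 1))))))} = 4 * (2 ^ (2 * m + 1) - 2 ^ (m + 1) + 1)) := by
  open H13 H13.SzData in
  let S := szDataB hm (show Nat.card F = 2 ^ (2 * m + 1) by rw [Nat.card_eq_fintype_card, hF])
  haveI := S.finiteG
  have k : ∀ n, x ^ 2 ^ n = 1 → ∃ g, x ∈ (S.conj g).U := fun n h => by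
    obtain ⟨b, hb⟩ := S.exists_mem_UAt h
    obtain ⟨g, rfl⟩ := S.exists_smul_inf b
    exact ⟨g, S.conj_U g ▸ hb⟩
  have h1 := S.four_le_r
  have h2 := S.r_lt_q
  refine ⟨fun h => ?_, fun h => ?_, fun h h' => ?_, fun h h' => ?_, fun h h' => ?_⟩
  · obtain ⟨g, hg⟩ := k 1 (orderOf_dvd_iff_pow_eq_one.1 h.dvd)
    exact sol_invo hg h
  · obtain ⟨g, a, b, rfl⟩ := k 2 (orderOf_dvd_iff_pow_eq_one.1 h.dvd)
    refine sol_four (S := S.conj g) (fun e => ?_) b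
    have := orderOf_dvd_of_pow_eq_one ((sq _).trans ((S.conj g).sq_eq_one_of_mem_Z ((S.conj g).u_mem_Z b)))
    rw [← e, h] at this
    omega
  · obtain ⟨h3, h4⟩ := S.exists_torus (.inl rfl) h h'
    obtain ⟨g, hg⟩ := h3.exists_conj S.isTorus_H (h4.trans S.card_H.symm)
    exact sol_H (S := S.conj g) ((S.conj_H_eq_map g).trans hg ▸ FT.self_mem_cen1 x) h
  · obtain ⟨h3, h4⟩ := S.exists_torus (.inr (.inl rfl)) h h'
    exact (sol_ell h3 (FT.self_mem_cen1 x) h (by omega)).trans (congrArg _ h4)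
  · obtain ⟨h3, h4⟩ := S.exists_torus (.inr (.inr rfl)) h h'
    exact (sol_ell h3 (FT.self_mem_cen1 x) h (by omega)).trans (congrArg _ h4)

end Cfsg.Agent.S2259
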