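import Cfsg.Statements.S2268
import Mathlib
-- import your own Cfsg.Agent.* helpers here

set_option autoImplicit false
open Cfsg

namespace Cfsg.Agent.S2268


/-- Let G be a finite group with an abelian Sylow p-subgroup P and let Q ≤ P. Then N_G(Q) = (N_G(Q) ∩ N_G(P))·C_G(Q), so that N_G(Q)/C_G(Q) is a homomorphic image of the subgroup (N_G(Q) ∩ N_G(P))/C_G(P) of N_G(P)/C_G(P); in particular the order of N_G(Q)/C_G(Q) divides the order of N_G(P)/C_G(P). -/
theorem result {G : Type*} [Group G] [Finite G] {p : ℕ} [Fact p.Prime]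
    (P : Sylow p G) (hP : IsMulCommutative (P : Subgroup G)) (Q : Subgroup G) (hQ : Q ≤ (P : Subgroup G)) :
    Subgroup.normalizer (Q : Set G) =
      (Subgroup.normalizer (Q : Set G) ⊓ Subgroup.normalizer ((P : Subgroup G) : Set G)) ⊔ Subgroup.centralizer (Q : Set G) ∧
    ((Subgroup.centralizer (Q : Set G)).subgroupOf (Subgroup.normalizer (Q : Set G))).index ∣ ((Subgroup.centralizer ((P : Subgroup G) : Set G)).subgroupOf (Subgroup.normalizer ((P : Subgroup G) : Set G))).index := by
  have hPC : (P : Subgroup G) ≤ Subgroup.centralizer (Q : Set G) := by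
    intro x hx
    rw [Subgroup.mem_centralizer_iff]
    intro y hy
    exact congrArg Subtype.val (hP.is_comm.comm (⟨y, hQ hy⟩ : (P : Subgroup G)) ⟨x, hx⟩)
  have hCN : Subgroup.centralizer (Q : Set G) ≤ Subgroup.normalizer (Q : Set G) :=
    Subgroup.centralizer_le_normalizer _
  have key : ∀ g ∈ Subgroup.normalizer (Q : Set G), ∃ c ∈ Subgroup.centralizer (Q : Set G),
      c * g ∈ Subgroup.normalizer ((P : Subgroup G) : Set G) := by
    intro g hg
    have h2 : ((g • P : Sylow p G) : Subgroup G) ≤ Subgroup.centralizer (Q : Set G) := by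
      intro x hx
      rw [Sylow.coe_subgroup_smul, Subgroup.mem_smul_pointwise_iff_exists] at hx
      obtain ⟨y, hy, rfl⟩ := hx
      rw [Subgroup.mem_centralizer_iff]
      intro z hz
      have hz' : g⁻¹ * z * g ∈ Q := by
        have := (Subgroup.mem_normalizer_iff''.1 hg z).1 hz
        exact this
      have := Subgroup.mem_centralizer_iff.1 (hPC hy) _ hz'
      simp only [MulAut.smul_def, MulAut.conj_apply]
      calc z * (g * y * g⁻¹) = g * (g⁻¹ * z * g * y) * g⁻¹ := by group
        _ = _ := by rw [this]; group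
    obtain ⟨c, hc⟩ := MulAction.exists_smul_eq (Subgroup.centralizer (Q : Set G)) ((g • P).subtype h2) (P.subtype hPC)
    refine ⟨c, c.2, ?_⟩
    rw [Sylow.smul_subtype] at hc
    refine Sylow.smul_eq_iff_mem_normalizer.1 ?_
    rw [mul_smul]
    exact Sylow.subtype_injective hc
  set M := Subgroup.normalizer (Q : Set G) ⊓ Subgroup.normalizer ((P : Subgroup G) : Set G) with hM
  refine ⟨le_antisymm (fun g hg => ?_) (sup_le inf_le_left hCN), ?_⟩
  · obtain ⟨c, hc, h⟩ := key g hg
    have : g = c⁻¹ * (c * g) := by group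
    rw [this]
    exact Subgroup.mul_mem _ (Subgroup.mem_sup_right (Subgroup.inv_mem _ hc))
      (Subgroup.mem_sup_left ⟨Subgroup.mul_mem _ (hCN hc) hg, h⟩)
  · have hC : Subgroup.centralizer ((P : Subgroup G) : Set G) ≤ Subgroup.centralizer (Q : Set G) :=
      Subgroup.centralizer_le hQ
    have hCM : Subgroup.centralizer ((P : Subgroup G) : Set G) ≤ M :=
      le_inf (hC.trans hCN) (Subgroup.centralizer_le_normalizer _)
    let φ : M →* Subgroup.normalizer (Q : Set G) ⧸
        (Subgroup.centralizer (Q : Set G)).subgroupOf (Subgroup.normalizer (Q : Set G)) :=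
      (QuotientGroup.mk' _).comp (Subgroup.inclusion inf_le_left)
    have hφ : Function.Surjective φ := by
      intro y
      obtain ⟨⟨g, hg⟩, rfl⟩ := QuotientGroup.mk_surjective y
      obtain ⟨c, hc, h⟩ := key g⁻¹ (Subgroup.inv_mem _ hg)
      refine ⟨⟨(c * g⁻¹)⁻¹, Subgroup.inv_mem _ ⟨Subgroup.mul_mem _ (hCN hc) (Subgroup.inv_mem _ hg), h⟩⟩, ?_⟩
      change QuotientGroup.mk _ = _
      rw [QuotientGroup.eq, Subgroup.mem_subgroupOf]
      simpa using hc
    have h1 : ((Subgroup.centralizer (Q : Set G)).subgroupOf (Subgroup.normalizer (Q : Set G))).index = φ.ker.index := by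
      rw [Subgroup.index_ker, MonoidHom.range_eq_top.2 hφ, Subgroup.card_top]; rfl
    rw [h1]
    refine (Subgroup.index_dvd_of_le (H := (Subgroup.centralizer ((P : Subgroup G) : Set G)).subgroupOf M) ?_).trans ?_
    · intro x hx
      rw [MonoidHom.mem_ker]
      exact (QuotientGroup.eq_one_iff _).2 (hC hx)
    · exact Dvd.intro _ (Subgroup.relIndex_mul_relIndex _ M _ hCM inf_le_right)

end Cfsg.Agent.S2268
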