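import Cfsg.Statements.S2269
import Mathlib
import Cfsg.Agent.H20.SymR
import Cfsg.Agent.S0992

set_option autoImplicit false
open Cfsg

namespace Cfsg.Agent.S2269

theorem exists_four (n : ℕ) (hn : 6 ≤ n) : ∃ x : alternatingGroup (Fin n), x ^ 4 = 1 ∧ x ^ 2 ≠ 1 ∧ IsConj x x⁻¹ := by
  classical
  let f := (Fin.castLEEmb hn).toEquivRange
  let φ : Equiv.Perm (Fin 6) →* Equiv.Perm (Fin n) := Equiv.Perm.extendDomainHom f
  have hφ : Function.Injective φ := Equiv.Perm.extendDomainHom_injective f
  have hs : ∀ σ, Equiv.Perm.sign (φ σ) = Equiv.Perm.sign σ := fun σ => Equiv.Perm.sign_extendDomain σ f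
  let a : Equiv.Perm (Fin 6) := Equiv.swap 0 1 * Equiv.swap 1 2 * Equiv.swap 2 3 * Equiv.swap 4 5
  let b : Equiv.Perm (Fin 6) := Equiv.swap 0 2 * Equiv.swap 4 5
  have ha : φ a ∈ alternatingGroup (Fin n) := by rw [Equiv.Perm.mem_alternatingGroup, hs]; decide
  have hb : φ b ∈ alternatingGroup (Fin n) := by rw [Equiv.Perm.mem_alternatingGroup, hs]; decide
  refine ⟨⟨φ a, ha⟩, Subtype.ext ?_, fun h => ?_, isConj_iff.2 ⟨⟨φ b, hb⟩, Subtype.ext ?_⟩⟩
  · show φ a ^ 4 = 1
    rw [← map_pow, show a ^ 4 = 1 by decide, map_one]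
  · have h1 : φ a ^ 2 = 1 := congrArg Subtype.val h
    rw [← map_pow, ← map_one φ] at h1
    exact absurd (hφ h1) (by decide)
  · show φ b * φ a * (φ b)⁻¹ = (φ a)⁻¹
    rw [← map_inv, ← map_inv, ← map_mul, ← map_mul, show b * a * b⁻¹ = a⁻¹ by decide]

/-- Let n ≥ 5 and let P be an abelian Sylow p-subgroup of the alternating group A_n. Then N(P)/C(P) (taken in A_n) has even order, or P is cyclic, except when n = 5 and p = 2, where P is a four-group and N(P)/C(P) has order 3. -/
theorem result (n : ℕ) (hn : 5 ≤ n) {p : ℕ} [Fact p.Prime]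
    (P : Sylow p (alternatingGroup (Fin n))) (hP : IsMulCommutative (P : Subgroup (alternatingGroup (Fin n)))) :
    (¬ (n = 5 ∧ p = 2) → 2 ∣ ((Subgroup.centralizer ((P : Subgroup (alternatingGroup (Fin n))) : Set (alternatingGroup (Fin n)))).subgroupOf (Subgroup.normalizer ((P : Subgroup (alternatingGroup (Fin n))) : Set (alternatingGroup (Fin n))))).index ∨ IsCyclic (P : Subgroup (alternatingGroup (Fin n)))) ∧
    ((n = 5 ∧ p = 2) → ((Subgroup.centralizer ((P : Subgroup (alternatingGroup (Fin n))) : Set (alternatingGroup (Fin n)))).subgroupOf (Subgroup.normalizer ((P : Subgroup (alternatingGroup (Fin n))) : Set (alternatingGroup (Fin n))))).index = 3 ∧ IsKleinFour (P : Subgroup (alternatingGroup (Fin n)))) := by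
  have pp : p.Prime := Fact.out
  refine ⟨fun h => ?_, ?_⟩
  · by_cases h2 : p = 2
    · subst h2
      obtain ⟨x, h4, hx2, hr⟩ := exists_four n (by omega)
      refine .inl (H20.two_dvd_automizer P hP (y := x) ?_ hx2 hr)
      exact (IsPGroup.iff_card.2 ((Nat.dvd_prime_pow Nat.prime_two).1 (by
        rw [Nat.card_zpowers]; exact orderOf_dvd_of_pow_eq_one (n := 2 ^ 2) h4) |>.imp fun _ h => h.2))
    have h3 : 3 ≤ p := by have := pp.two_le; omega
    by_cases hpn : p + 2 ≤ n
    · obtain ⟨c, hc⟩ := H20.exists_cycle_prime n p pp (by omega)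
      have ho : orderOf c = p := by rw [← Equiv.Perm.lcm_cycleType, hc]; simp
      have hA : c ∈ alternatingGroup (Fin n) := by
        rw [Equiv.Perm.mem_alternatingGroup, Equiv.Perm.sign_of_cycleType, hc]
        obtain ⟨k, hk⟩ := pp.odd_of_ne_two h2
        simp [hk, pow_succ, pow_mul]
      have ho' : orderOf (⟨c, hA⟩ : alternatingGroup (Fin n)) = p := by rw [Subgroup.orderOf_mk, ho]
      refine .inl (H20.two_dvd_automizer P hP (y := ⟨c, hA⟩)
        (IsPGroup.of_card (n := 1) (by rw [Nat.card_zpowers, ho', pow_one])) (fun h => h2 ?_)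
        (alternatingGroup.isConj_of
          (Equiv.Perm.isConj_iff_cycleType_eq.2 (Equiv.Perm.cycleType_inv c).symm) ?_))
      · have := orderOf_dvd_of_pow_eq_one h
        rw [ho'] at this
        exact (Nat.prime_dvd_prime_iff_eq pp Nat.prime_two).1 this
      · show c.support.card + 2 ≤ _
        rw [← Equiv.Perm.sum_cycleType, hc]; simpa using hpn
    · right
      obtain ⟨k, hk⟩ := IsPGroup.iff_card.1 P.isPGroup'
      have hd : p ^ k ∣ n.factorial := by
        rw [← hk]
        refine (P : Subgroup (alternatingGroup (Fin n))).card_subgroup_dvd_card.trans ?_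
        have := (alternatingGroup (Fin n)).card_subgroup_dvd_card
        rwa [Nat.card_perm, Nat.card_eq_fintype_card (α := Fin n), Fintype.card_fin] at this
      have hk1 : k ≤ 1 := by
        by_contra hk2
        have h5 : p ^ 2 ∣ (p + 1).factorial :=
          ((pow_dvd_pow p (by omega)).trans hd).trans (Nat.factorial_dvd_factorial (by omega))
        obtain ⟨q, rfl⟩ : ∃ q, p = q + 1 := ⟨p - 1, by omega⟩
        rw [Nat.factorial_succ, Nat.factorial_succ, sq, mul_left_comm] at h5
        rcases (Nat.Prime.dvd_mul pp).1 (Nat.dvd_of_mul_dvd_mul_left pp.pos h5) with h6 | h6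
        · have := Nat.le_of_dvd one_pos ((Nat.dvd_add_right (dvd_refl _)).1 h6); omega
        · have := (pp.dvd_factorial).1 h6; omega
      interval_cases k
      · haveI : Subsingleton (P : Subgroup (alternatingGroup (Fin n))) :=
          (Nat.card_eq_one_iff_unique.1 (by simpa using hk)).1
        infer_instance
      · exact isCyclic_of_prime_card (p := p) (by simpa using hk)
  · rintro ⟨rfl, rfl⟩
    have hc : Nat.card (alternatingGroup (Fin 5)) = 60 := by
      rw [nat_card_alternatingGroup]; simp [Nat.factorial]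
    have := S0992.result (G := alternatingGroup (Fin 5)) (by
      rw [alternatingGroup.isMulCommutative_iff_card_le_three]; simp) (by rw [hc]; decide) (by rw [hc]; decide) P
    exact ⟨this.2, this.1⟩

end Cfsg.Agent.S2269
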