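import Cfsg.Statements.S2279
import Mathlib
import Cfsg.Agent.H19.RU3

set_option autoImplicit false
open Cfsg

namespace Cfsg.Agent.S2279

open Cfsg.Agent.H19


/-- Let F be a finite field with q elements and n ≥ 4. Then SL_n(F) is generated by two regular unipotent elements (elements u with u − 1 nilpotent and (u − 1)^(n−1) ≠ 0); if q is prime, the two can be taken conjugate in SL_n(F). -/
theorem result {F : Type*} [Field F] [Fintype F] (n : ℕ) (hn : 4 ≤ n) :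
    (∃ u v : Matrix.SpecialLinearGroup (Fin n) F, (IsNilpotent ((u : Matrix (Fin n) (Fin n) F) - 1) ∧ ((u : Matrix (Fin n) (Fin n) F) - 1) ^ (n - 1) ≠ 0) ∧ (IsNilpotent ((v : Matrix (Fin n) (Fin n) F) - 1) ∧ ((v : Matrix (Fin n) (Fin n) F) - 1) ^ (n - 1) ≠ 0) ∧
      Subgroup.closure ({u, v} : Set (Matrix.SpecialLinearGroup (Fin n) F)) = ⊤) ∧
    ((Fintype.card F).Prime → ∃ u g : Matrix.SpecialLinearGroup (Fin n) F, (IsNilpotent ((u : Matrix (Fin n) (Fin n) F) - 1) ∧ ((u : Matrix (Fin n) (Fin n) F) - 1) ^ (n - 1) ≠ 0) ∧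
      Subgroup.closure ({u, g * u * g⁻¹} : Set (Matrix.SpecialLinearGroup (Fin n) F)) = ⊤) := by
  obtain ⟨g, hg⟩ := RU.gen_four (F := F) hn
  refine ⟨⟨_, _, ⟨RU.uJ_nil, RU.uJ_reg (by omega)⟩, ?_, hg⟩, fun _ => ⟨_, g, ⟨RU.uJ_nil, RU.uJ_reg (by omega)⟩, hg⟩⟩
  have h1 : (g : Matrix (Fin n) (Fin n) F) * (g⁻¹ : Matrix.SpecialLinearGroup (Fin n) F) = 1 := by
    rw [← Matrix.SpecialLinearGroup.coe_mul, mul_inv_cancel, Matrix.SpecialLinearGroup.coe_one]
  have h2 := mul_eq_one_comm.1 h1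
  have e : ∀ k : ℕ, (((g * RU.uJ n F * g⁻¹ : Matrix.SpecialLinearGroup (Fin n) F) : Matrix (Fin n) (Fin n) F) - 1) ^ k =
      g * ((RU.uJ n F : Matrix (Fin n) (Fin n) F) - 1) ^ k * (g⁻¹ : Matrix.SpecialLinearGroup (Fin n) F) := fun k => by
    induction k with
    | zero => rw [pow_zero, pow_zero, mul_one, h1]
    | succ k ih =>
      rw [pow_succ, ih, pow_succ, Matrix.SpecialLinearGroup.coe_mul, Matrix.SpecialLinearGroup.coe_mul]
      have h3 : ∀ X, ((g⁻¹ : Matrix.SpecialLinearGroup (Fin n) F) : Matrix (Fin n) (Fin n) F) * (g * X) = X :=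
        fun X => by rw [← mul_assoc, h2, one_mul]
      simp only [mul_sub, sub_mul, mul_assoc, h3, mul_one]
  refine ⟨?_, fun h => RU.uJ_reg (F := F) (n := n) (by omega) ?_⟩
  · obtain ⟨k, hk⟩ := RU.uJ_nil (F := F) (n := n)
    exact ⟨k, by rw [e, hk, mul_zero, zero_mul]⟩
  · have := congrArg (fun X => ((g⁻¹ : Matrix.SpecialLinearGroup (Fin n) F) : Matrix (Fin n) (Fin n) F) * X * g) ((e (n - 1)).symm.trans h)
    simp only [mul_zero, zero_mul, mul_assoc, h2, mul_one] at this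
    rwa [← mul_assoc, h2, one_mul] at this

end Cfsg.Agent.S2279
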