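import Cfsg.Statements.S2280
import Mathlib
import Cfsg.Agent.H19.RU4

set_option autoImplicit false
open Cfsg

namespace Cfsg.Agent.S2280

open Cfsg.Agent.H19


/-- Let F be a finite field and n ≥ 3. Then SL_n(F) is generated by three conjugate regular unipotent elements: there are u with u − 1 nilpotent and (u − 1)^(n−1) ≠ 0, and g, h, such that u, g u g⁻¹ and h u h⁻¹ generate SL_n(F). -/
theorem result {F : Type*} [Field F] [Fintype F] (n : ℕ) (hn : 3 ≤ n) :
    ∃ u g h : Matrix.SpecialLinearGroup (Fin n) F, (IsNilpotent ((u : Matrix (Fin n) (Fin n) F) - 1) ∧ ((u : Matrix (Fin n) (Fin n) F) - 1) ^ (n - 1) ≠ 0) ∧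
      Subgroup.closure ({u, g * u * g⁻¹, h * u * h⁻¹} : Set (Matrix.SpecialLinearGroup (Fin n) F)) = ⊤ := by
  have key : ∀ u g : Matrix.SpecialLinearGroup (Fin n) F, Subgroup.closure {u, g * u * g⁻¹} = ⊤ →
      Subgroup.closure {u, g * u * g⁻¹, 1 * u * 1⁻¹} = ⊤ := fun u g h =>
    top_le_iff.1 (h.ge.trans (Subgroup.closure_mono (by intro x hx; rcases hx with rfl | rfl <;> simp)))
  by_cases h3 : n = 3
  · subst h3
    obtain ⟨u, g, h1, h2, h⟩ := RU.p3 F
    exact ⟨u, g, 1, ⟨h1, h2⟩, key u g h⟩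
  · obtain ⟨g, h⟩ := RU.gen_four (F := F) (n := n) (by omega)
    exact ⟨_, g, 1, ⟨RU.uJ_nil, RU.uJ_reg (by omega)⟩, key _ g h⟩

end Cfsg.Agent.S2280
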