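import Cfsg.Statements.S2286
import Mathlib
import Cfsg.Agent.H7.Pr2

set_option autoImplicit false
open Cfsg

namespace Cfsg.Agent.S2286

/-- For every finite field F, SL_2(F) and PSL_2(F) have presentations with 3 generators and at most 9 relations; when F has characteristic 2, PSL_2(F) has a presentation with 3 generators and at most 5 relations. -/
theorem result {F : Type*} [Field F] [Fintype F] :
    (∃ rels : Finset (FreeGroup (Fin 3)), rels.card ≤ 9 ∧ Nonempty (PresentedGroup (↑rels : Set (FreeGroup (Fin 3))) ≃* Matrix.SpecialLinearGroup (Fin 2) F)) ∧ (∃ rels : Finset (FreeGroup (Fin 3)), rels.card ≤ 9 ∧ Nonempty (PresentedGroup (↑rels : Set (FreeGroup (Fin 3))) ≃* Matrix.ProjectiveSpecialLinearGroup (Fin 2) F)) ∧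
    (CharP F 2 → ∃ rels : Finset (FreeGroup (Fin 3)), rels.card ≤ 5 ∧ Nonempty (PresentedGroup (↑rels : Set (FreeGroup (Fin 3))) ≃* Matrix.ProjectiveSpecialLinearGroup (Fin 2) F)) := by
  obtain ⟨ω, hω⟩ := IsCyclic.exists_generator (α := Fˣ)
  haveI := H7.Pr.cyclic_center (F := F) 2
  refine ⟨((H7.Pr.pres_sl2 hω).mono (by omega)).out', (H7.Pr.pres_sl2 hω).modCenter.out', fun h => ?_⟩
  have h2 : ringChar F = 2 := ringChar.eq F 2
  refine ((H7.Pr.pres_sl2_even hω h2).equiv (QuotientGroup.quotientBot.symm.trans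
    (QuotientGroup.quotientMulEquivOfEq ?_))).out'
  refine (eq_bot_iff.2 fun g hg => ?_).symm
  obtain ⟨r, hr, e⟩ := Matrix.SpecialLinearGroup.mem_center_iff.1 hg
  have : r = 1 := by
    have : (r - 1) ^ 2 = 0 := by
      rw [CharTwo.sub_eq_add, CharTwo.add_sq, one_pow]
      simp only [Fintype.card_fin] at hr
      rw [hr, CharTwo.add_self_eq_zero]
    exact sub_eq_zero.1 (pow_eq_zero_iff two_ne_zero |>.1 this)
  exact Subtype.ext (by rw [← e, this]; simp)

end Cfsg.Agent.S2286
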