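import Cfsg.Statements.S2290
import Mathlib
import Cfsg.Agent.H7.Pr8
import Cfsg.Agent.S2402
import Cfsg.Agent.S2403

set_option autoImplicit false
open Cfsg

namespace Cfsg.Agent.S2290

/-- For every finite field F with q elements and n ≥ 2, with q ≥ 4 when n = 2, the simple group PSL_n(F) has a presentation with 2 generators and at most 80 relations. -/
theorem result {F : Type*} [Field F] [Fintype F] (n : ℕ) (hn : 2 ≤ n) (h2 : n = 2 → 4 ≤ Fintype.card F) :
    ∃ rels : Finset (FreeGroup (Fin 2)), rels.card ≤ 80 ∧ Nonempty (PresentedGroup (↑rels : Set (FreeGroup (Fin 2))) ≃* Matrix.ProjectiveSpecialLinearGroup (Fin n) F) := by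
  classical
  haveI := H7.Pr.cyclic_center (F := F) n
  obtain ⟨ω, hω⟩ := IsCyclic.exists_generator (α := Fˣ)
  obtain ⟨g, s, hs⟩ : ∃ (g : ℕ) (s : Fin g → Matrix.SpecialLinearGroup (Fin n) F), H7.Pr.Pres s 22 := by
    by_cases h : 4 ≤ n
    · exact ⟨4, H7.Pr.pres_sl' h⟩
    have : n = 2 ∨ n = 3 := by omega
    rcases this with rfl | rfl
    · exact ⟨3, _, (H7.Pr.pres_sl2 hω).mono (by omega)⟩
    · exact ⟨4, let ⟨s, hs⟩ := H7.Pr.pres_sl3 (F := F); ⟨s, hs.mono (by omega)⟩⟩
  obtain ⟨m, rfl⟩ : ∃ m, n = m + 1 := ⟨n - 1, by omega⟩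
  have h01 : (0 : Fin (m + 1)) ≠ 1 := by
    obtain ⟨m, rfl⟩ : ∃ k, m = k + 1 := ⟨m - 1, by omega⟩
    exact Fin.zero_ne_one
  have v1 : (1 : Fin (m + 1)).val = 1 := by
    obtain ⟨m, rfl⟩ : ∃ k, m = k + 1 := ⟨m - 1, by omega⟩
    rfl
  obtain ⟨w, hw⟩ : ∃ w : Matrix.SpecialLinearGroup (Fin (m + 1)) F, w.1 =
      Matrix.of (fun i j : Fin (m + 1) => if j.val = i.val + 1 then (1 : F) else if i.val = m ∧ j.val = 0 then (-1) ^ m else 0) := by
    refine ⟨⟨_, ?_⟩, rfl⟩
    have : (Matrix.of (fun i j : Fin (m + 1) => if j.val = i.val + 1 then (1 : F) else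
        if i.val = m ∧ j.val = 0 then (-1) ^ m else 0)) =
        Matrix.diagonal (H17.G2.sg F m) * (finRotate (m + 1)).permMatrix F := by
      ext i j
      rw [H17.G2.w_eq rfl, Matrix.diagonal_mul]
      simp [eq_comm]
    rw [this, Matrix.det_mul, Matrix.det_diagonal, Matrix.det_permutation, sign_finRotate,
      Finset.prod_eq_single (f := H17.G2.sg F m) (Fin.last m) (fun i _ h => if_neg fun e => h (Fin.ext e)) (by simp)]
    simp [H17.G2.sg, ← mul_pow]
  obtain ⟨a, b, h⟩ : ∃ a b : Matrix.SpecialLinearGroup (Fin (m + 1)) F,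
      Subgroup.closure {a, b} ⊔ Subgroup.center _ = ⊤ := by
    by_cases h3 : 3 < Fintype.card F
    · refine ⟨_, _, S2402.result h3 m (by omega) ω hω
        (Matrix.SpecialLinearGroup.diag2n h01 (ω : F) ω.ne_zero)
        (Matrix.SpecialLinearGroup.transvection h01 1) w ?_ rfl hw⟩
      rw [Matrix.SpecialLinearGroup.diag2n_coe]
      congr 1; ext i
      simp only [Fin.ext_iff, v1, Fin.val_zero, Units.val_inv_eq_inv_val]
    · exact ⟨_, _, S2403.result (by omega) m (by omega)
        (Matrix.SpecialLinearGroup.transvection h01 1) w rfl hw⟩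
  refine ((hs.modCenter.change (t := ![QuotientGroup.mk' _ a, QuotientGroup.mk' _ b]) ?_).mono
    (by simp)).out'
  have := congrArg (Subgroup.map (QuotientGroup.mk' (Subgroup.center _))) h
  rw [Subgroup.map_sup, QuotientGroup.map_mk'_self, sup_bot_eq, MonoidHom.map_closure,
    Subgroup.map_top_of_surjective _ (QuotientGroup.mk'_surjective _), Set.image_pair] at this
  rwa [H7.Pr.range2]

end Cfsg.Agent.S2290
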