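import Cfsg.Statements.S2292
import Mathlib
import Cfsg.Agent.H7.Pr14

set_option autoImplicit false
open Cfsg

namespace Cfsg.Agent.S2292

/-- Let F be a finite field with q elements and m ≥ 2 with (m, q) ≠ (2, 2). Then the simple group PSp_2m(F) has a presentation with 2 generators and at most 80 relations. -/
theorem result {F : Type*} [Field F] [Fintype F] (m : ℕ) (hm : 2 ≤ m) (h22 : ¬ (m = 2 ∧ Fintype.card F = 2)) :
    ∃ rels : Finset (FreeGroup (Fin 2)), rels.card ≤ 80 ∧ Nonempty (PresentedGroup (↑rels : Set (FreeGroup (Fin 2))) ≃* Cfsg.PSp m F) := by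
  obtain ⟨s, hs⟩ := H7.Pr.pres_sp (F := F) hm
  haveI := H7.Pr.cyclic_center_sp (F := F) hm
  obtain ⟨t, ht⟩ := hs.two (H7.Pr.sp_two hm fun e =>
    lt_of_le_of_ne Fintype.one_lt_card fun e' => h22 ⟨e, e'.symm⟩)
  exact (ht.modCenter.mono (by omega)).out'

end Cfsg.Agent.S2292
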