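import Cfsg.Statements.S2295
import Mathlib
import Cfsg.Agent.H12.PrD

set_option autoImplicit false
open Cfsg

namespace Cfsg.Agent.S2295

open Cfsg.Agent.H12

/-- Let F be a finite field and n ≥ 4, and let Ω⁺_2n(F) be the commutator subgroup of the orthogonal group of the hyperbolic quadratic form Σ x_i y_i, with PΩ⁺_2n(F) its central quotient. Then Ω⁺_2n(F) has a presentation with 8 generators and at most 31 relations (at most 29 if n = 4 or 5), and PΩ⁺_2n(F) one with 8 generators and at most 32 relations (at most 30 if n = 4 or 5). -/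
theorem result {F : Type*} [Field F] [Fintype F] (n : ℕ) (hn : 4 ≤ n) :
    (∃ rels : Finset (FreeGroup (Fin 8)), rels.card ≤ 31 ∧ Nonempty (PresentedGroup (↑rels : Set (FreeGroup (Fin 8))) ≃* ↥(Cfsg.Omega F (Cfsg.quadFormPlus n F)))) ∧ (∃ rels : Finset (FreeGroup (Fin 8)), rels.card ≤ 32 ∧ Nonempty (PresentedGroup (↑rels : Set (FreeGroup (Fin 8))) ≃* Cfsg.POmega F (Cfsg.quadFormPlus n F))) ∧
    (n ≤ 5 → (∃ rels : Finset (FreeGroup (Fin 8)), rels.card ≤ 29 ∧ Nonempty (PresentedGroup (↑rels : Set (FreeGroup (Fin 8))) ≃* ↥(Cfsg.Omega F (Cfsg.quadFormPlus n F)))) ∧ (∃ rels : Finset (FreeGroup (Fin 8)), rels.card ≤ 30 ∧ Nonempty (PresentedGroup (↑rels : Set (FreeGroup (Fin 8))) ≃* Cfsg.POmega F (Cfsg.quadFormPlus n F)))) := by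
  obtain ⟨P, hP⟩ := H17.frame_plus (m := n) (by omega) F
  have hex : H11.NonExc (H11.bPlus n F) (Cfsg.quadFormPlus n F) := H11.nonExc_plus (.inr (by omega))
  let e := H17.omOm (H17.clPlus n F) hex (by simp; omega)
  have hQ := H11.isQuad_plus n F
  haveI : IsCyclic (Subgroup.center (Cfsg.Omega F (Cfsg.quadFormPlus n F))) := by
    classical
    have h := fun z => (hQ.mem_center_commutator_iff (H11.bPlus_sep n F) hex (by simp; omega) z).1
    refine isCyclic_of_surjective (Subgroup.centerCongr (H11.omegaEquiv hQ)).symm (MulEquiv.surjective _)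
      (hH := ?_)
    by_cases k : ∃ z : Subgroup.center (commutator (H11.Isom (H11.bPlus n F) _)), z.1.1 = hQ.negI
    · obtain ⟨z, hz⟩ := k
      exact isCyclic_of_two z fun g => (h g g.2).imp (fun e => Subtype.ext (Subtype.ext e))
        fun e => Subtype.ext (Subtype.ext (e.trans hz.symm))
    · exact isCyclic_of_two 1 fun g => .inl ((h g g.2).elim (fun e => Subtype.ext (Subtype.ext e))
        fun e => absurd ⟨g, e⟩ k)
  have key : ∀ r, (∃ s : Fin 4 → Matrix.SpecialLinearGroup (Fin n) F, H7.Pr.Pres s r) →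
      ∃ s : Fin 8 → Cfsg.Omega F (Cfsg.quadFormPlus n F), H7.Pr.Pres s (r + 9) := fun r ⟨_, hs⟩ => by
    obtain ⟨s, hs⟩ := pres_om P rfl hn hs
    exact (hs.equiv e.symm).pad 3
  obtain ⟨s, hs⟩ := key 22 (H7.Pr.pres_sl' hn)
  refine ⟨hs.out', hs.modCenter.out', fun h => ?_⟩
  obtain ⟨t, ht⟩ := key 20 (by
    obtain rfl | rfl : n = 4 ∨ n = 5 := by omega
    · exact let ⟨s, h⟩ := H7.Pr.pres_sl4 (F := F); ⟨s, h.mono (by omega)⟩
    · exact H7.Pr.pres_sl5)
  exact ⟨ht.out', ht.modCenter.out'⟩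

end Cfsg.Agent.S2295
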