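import Cfsg.Statements.S2332
import Mathlib
import Cfsg.Agent.H11.LS6
import Cfsg.Agent.S0157

set_option autoImplicit false
open Cfsg

namespace Cfsg.Agent.S2332

/-- Smallest degree of a non-linear irreducible complex representation of SL_n over a finite field with q elements, for n ≥ 3 and (n, q) not one of (3, 2), (3, 4), (4, 2), (4, 3): every irreducible complex representation of SL_n(F) of degree at least 2 has degree at least (q^n − q)/(q − 1), and there is an irreducible complex representation of exactly that degree. -/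
theorem result {F : Type*} [Field F] [Fintype F] [DecidableEq F] (n : ℕ) (hn : 3 ≤ n)
    (hex : (n, Fintype.card F) ≠ (3, 2) ∧ (n, Fintype.card F) ≠ (3, 4) ∧ (n, Fintype.card F) ≠ (4, 2) ∧ (n, Fintype.card F) ≠ (4, 3)) :
    (∀ (k : ℕ) (ρ : Representation ℂ (Matrix.SpecialLinearGroup (Fin n) F) (Fin k → ℂ)), ρ.IsIrreducible → 2 ≤ k → (Fintype.card F ^ n - Fintype.card F) / (Fintype.card F - 1) ≤ k) ∧
    (∃ ρ : Representation ℂ (Matrix.SpecialLinearGroup (Fin n) F) (Fin ((Fintype.card F ^ n - Fintype.card F) / (Fintype.card F - 1)) → ℂ), ρ.IsIrreducible) := by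
  have hq := Fintype.one_lt_card (α := F)
  have key : ∀ m : ℕ, 0 < m → (∀ a : F, a ≠ 0 → a ^ m = 1) → Fintype.card F - 1 ∣ m := fun m _ h => by
    rw [← Fintype.card_units, ← Nat.card_eq_fintype_card, ← IsCyclic.exponent_eq_card]
    exact Monoid.exponent_dvd_of_forall_pow_eq_one fun a => Units.ext (h a a.ne_zero)
  have hc : H11.SlCond (Fin n) F := by
    simp only [ne_eq, Prod.mk.injEq, not_and] at hex
    rw [H11.SlCond, Fintype.card_fin]
    by_contra! H
    by_cases h3 : n = 3
    · have := (Nat.dvd_prime Nat.prime_three).mp (key 3 (by norm_num) (H.2.2 h3))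
      omega
    · have := (Nat.dvd_prime Nat.prime_two).mp (key 2 (by norm_num) (H.2.1 (by omega)))
      omega
  refine ⟨fun k ρ hρ hk => Nat.div_le_of_le_mul (by
    simpa using H11.sl_lower hc (H11.ker_ne_top_of_irreducible hρ hk)), ?_⟩
  have h1 := Projectivization.card F (Fin n → F)
  have h2 : Fintype.card F ^ 2 ≤ Fintype.card F ^ n := Nat.pow_le_pow_right (by omega) (by omega)
  simp only [Nat.card_eq_fintype_card (α := F), Nat.card_fun, Nat.card_fin] at h1
  obtain ⟨N, hN⟩ : ∃ N, Nat.card (Projectivization F (Fin n → F)) = N + 2 :=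
    Nat.exists_eq_add_of_le' (by
      by_contra! H
      have := Nat.mul_le_mul_right (Fintype.card F - 1) (Nat.le_of_lt_succ H)
      have : Fintype.card F < Fintype.card F ^ 2 := by nlinarith
      omega)
  obtain ⟨k, ρ, h3, h4⟩ := (S0157.result (G := Matrix.SpecialLinearGroup (Fin n) F)
    (Projectivization F (Fin n → F)) (by omega)).mpr inferInstance
  have h5 := congrFun h4 1
  rw [Representation.char_one, MulAction.fixedBy_one_eq_univ, Nat.card_univ, hN,
    Module.finrank_fin_fun, eq_sub_iff_add_eq] at h5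
  obtain rfl : k = N + 1 := by exact_mod_cast add_right_cancel (h5.trans (by push_cast; ring) :
    (k : ℂ) + 1 = (N + 1 : ℕ) + 1)
  rw [show (Fintype.card F ^ n - Fintype.card F) / (Fintype.card F - 1) = N + 1 from
    Nat.div_eq_of_eq_mul_left (by omega) (by rw [hN, Nat.succ_mul] at h1; omega)]
  exact ⟨ρ, h3⟩

end Cfsg.Agent.S2332
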