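import Cfsg.Statements.S2336
import Mathlib
import Cfsg.Agent.H11.LS7

set_option autoImplicit false
open Cfsg

namespace Cfsg.Agent.S2336

/-- Let F be a finite field with q elements and n ≥ 3. The permutation character of SL_n(F) on the non-zero vectors of F^n (the function sending a matrix to the number of non-zero vectors it fixes) is the sum of the principal character and q − 1 pairwise distinct irreducible complex characters. -/
theorem result {F : Type*} [Field F] [Fintype F] [DecidableEq F] (n : ℕ) (hn : 3 ≤ n) :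
    ∃ χ : Fin (Fintype.card F - 1) → (Matrix.SpecialLinearGroup (Fin n) F → ℂ),
      (∀ i, Cfsg.IsIrrCharacter (Matrix.SpecialLinearGroup (Fin n) F) (χ i)) ∧ Function.Injective χ ∧
      ∀ g : Matrix.SpecialLinearGroup (Fin n) F,
        (Nat.card {v : Fin n → F // v ≠ 0 ∧ (g : Matrix (Fin n) (Fin n) F).mulVec v = v} : ℂ) = 1 + ∑ i, χ i g := by
  classical
  let i : Fin n := ⟨0, by omega⟩
  let j : Fin n := ⟨1, by omega⟩
  have hij : i ≠ j := by simp [i, j]
  let X : SubMulAction (Matrix.SpecialLinearGroup (Fin n) F) (Fin n → F) :=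
    ⟨{v | v ≠ 0}, fun g _ hv => (smul_ne_zero_iff_ne g).mpr hv⟩
  let e : X := ⟨Pi.single i 1, show _ ≠ 0 by simp⟩
  let f : X := ⟨Pi.single j 1, show _ ≠ 0 by simp⟩
  have : MulAction.IsPretransitive (Matrix.SpecialLinearGroup (Fin n) F) X := ⟨fun v w =>
    (H10.exists_sl_mulVec (by simp; omega) v.2 w.2).imp fun _ h => Subtype.ext h⟩
  let P := MulAction.stabilizer (Matrix.SpecialLinearGroup (Fin n) F)
    (Projectivization.mk F e.1 e.2)
  have hP : ∀ g, g ∈ P ↔ ∃ c : Fˣ, c • e.1 = g • e.1 := fun g => by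
    rw [MulAction.mem_stabilizer_iff, Projectivization.smul_mk, Projectivization.mk_eq_mk_iff]
  choose c hc using fun g : P => (hP g).mp g.2
  have hi : ∀ {a b : Fˣ}, a • e.1 = b • e.1 → a = b := fun h =>
    Units.ext (smul_left_injective F e.2 h)
  let l : P →* Fˣ := MonoidHom.mk' c fun a b => hi (by
    rw [hc, mul_comm, mul_smul, hc, Subgroup.coe_mul, mul_smul, ← hc b, Units.smul_def,
      Units.smul_def, smul_comm])
  have h1 := H6.perm_eq_indFun (G := Matrix.SpecialLinearGroup (Fin n) F) X e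
  obtain ⟨χ, h2, h3, h4⟩ := H11.exists_irr_decomp (S := MulAction.stabilizer _ e) l (fun a => by
      obtain ⟨g, hg⟩ := MulAction.exists_smul_eq (Matrix.SpecialLinearGroup (Fin n) F) e
        ⟨a • e.1, (smul_ne_zero_iff_ne a).mpr e.2⟩
      replace hg := congrArg Subtype.val hg
      exact ⟨⟨g, (hP g).mpr ⟨a, hg.symm⟩⟩, hi ((hc _).trans hg)⟩)
    (fun g hg => (hP g).mpr ⟨1, by simpa using (congrArg Subtype.val hg).symm⟩)
    (fun g => ⟨fun h => Subtype.ext ((hc g).symm.trans (by rw [show c g = 1 from h, one_smul])),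
      fun h => hi ((hc g).trans (by simpa using congrArg Subtype.val h))⟩) (fun h => by
      obtain ⟨g, hg⟩ := MulAction.exists_smul_eq (Matrix.SpecialLinearGroup (Fin n) F) e f
      obtain ⟨a, ha⟩ := (hP g).mp (h.ge trivial)
      simpa [e, f, hij.symm] using congrFun (ha.trans (congrArg Subtype.val hg)) j)
    (h1 ▸ H6.classInner_perm_perm X X) (by
      rw [← Finite.card_option]
      refine Nat.card_le_card_of_surjective (fun o => Quotient.mk _ (e, o.elim f fun a =>
        ⟨a • e.1, (smul_ne_zero_iff_ne a).mpr e.2⟩)) fun o => ?_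
      obtain ⟨⟨v, w⟩, rfl⟩ := Quotient.exists_rep o
      by_cases h : ∃ a : F, a • v.1 = w.1
      · obtain ⟨a, ha⟩ := h
        obtain ⟨g, hg⟩ := MulAction.exists_smul_eq (Matrix.SpecialLinearGroup (Fin n) F) v e
        refine ⟨some (Units.mk0 a fun h => w.2 (by simp [← ha, h])), Quotient.sound
          ⟨g, Prod.ext hg (Subtype.ext ?_)⟩⟩
        change g • w.1 = a • e.1
        rw [← ha, smul_comm, ← hg]
        rfl
      · obtain ⟨g, hg⟩ := H11.exists_sl_fam (by simpa)
          ((LinearIndependent.pair_iff' v.2).mpr (not_exists.mp h))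
          ((LinearIndependent.pair_iff' (y := f.1) e.2).mpr fun a h => by
            simpa [e, f, hij.symm] using congrFun h j)
        exact ⟨none, Quotient.sound ⟨g, Prod.ext (Subtype.ext (hg 0)) (Subtype.ext (hg 1))⟩⟩)
  rw [← Fintype.card_units, ← Nat.card_eq_fintype_card]
  refine ⟨χ, h2, h3, fun g => ?_⟩
  rw [← h4, ← congrFun h1 g]
  exact congrArg _ (Nat.card_congr ⟨fun v => ⟨⟨v.1, v.2.1⟩, Subtype.ext v.2.2⟩,
    fun v => ⟨v.1.1, v.1.2, congrArg Subtype.val v.2⟩, fun _ => rfl, fun _ => rfl⟩)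

end Cfsg.Agent.S2336
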