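import Cfsg.Statements.S2337
import Mathlib
import Cfsg.Agent.H13.SzRep
import Cfsg.Agent.H13.SzModels

set_option autoImplicit false
open Cfsg

namespace Cfsg.Agent.S2337

/-- For the Suzuki group Sz(q), q = 2^(2m+1) with m ≥ 1 (realised inside Sp₄ over the field with q elements), every irreducible complex representation of degree at least 2 has degree at least 2^m·(q − 1). -/
theorem result {F : Type*} [Field F] [Fintype F] (m : ℕ) (hm : 1 ≤ m) (hF : Fintype.card F = 2 ^ (2 * m + 1)) :
    (∀ (k : ℕ) (ρ : Representation ℂ (Cfsg.Lie.Sz F (2 ^ (m + 1))) (Fin k → ℂ)), ρ.IsIrreducible → 2 ≤ k → 2 ^ m * (2 ^ (2 * m + 1) - 1) ≤ k) := by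
  intro k ρ hρ hk
  let S := H13.szDataB (F := F) hm (by rw [Nat.card_eq_fintype_card, hF])
  have := S.isSimpleGroup
  have h := S.le_finrank_of_rep ρ (H13.rep_ne_one_of_isSimpleGroup ρ hρ hk S.u_one_ne_one)
  rwa [Module.finrank_fin_fun] at h

end Cfsg.Agent.S2337
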