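import Cfsg.Statements.S2338
import Mathlib
import Cfsg.Agent.H17.G2Deg3
import Cfsg.Agent.S1055
import Cfsg.Agent.S1059
import Cfsg.Agent.H6.Central
import Cfsg.Agent.H13.SzRep

set_option autoImplicit false
open Cfsg

namespace Cfsg.Agent.S2338

open Cfsg.Agent.H17
open scoped commutatorElement


/-- Lower bounds for the degrees of non-linear irreducible complex representations of the Chevalley group of type G₂ over a finite field with q elements: the degree is at least q³ + 1 when q ≡ 1 (mod 3) and q > 4, at least q³ − 1 when q ≡ 2 (mod 3) and q > 2, and at least q⁴ + q² + 1 when q ≡ 0 (mod 3) and q > 3. -/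
theorem result {F : Type*} [Field F] [Fintype F] (k : ℕ) (ρ : Representation ℂ (Cfsg.Lie.chevG2.group F) (Fin k → ℂ)) (hρ : ρ.IsIrreducible) (hk : 2 ≤ k) :
    (Fintype.card F % 3 = 1 → 4 < Fintype.card F → Fintype.card F ^ 3 + 1 ≤ k) ∧
    (Fintype.card F % 3 = 2 → 2 < Fintype.card F → Fintype.card F ^ 3 - 1 ≤ k) ∧
    (Fintype.card F % 3 = 0 → 3 < Fintype.card F → Fintype.card F ^ 4 + Fintype.card F ^ 2 + 1 ≤ k) := by
  obtain ⟨ψ, hψ⟩ := H11.exists_addChar_ne_one F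
  set q := Fintype.card F with hq
  let S := H12.grpSt Lie.chevG2 F
  have k0 : 2 < q → ∃ l : F, l ≠ 0 ∧ l ≠ 1 := fun h => by
    simpa using H12.exists_pow_ne_one_of_card (K := F) one_pos ⟨Finset.univ, by rwa [Finset.card_univ]⟩
  have k1 : 2 < q → ρ (S.x 11 1) ≠ 1 := fun h =>
    haveI := (S1055.result (k0 h)).1
    H13.rep_ne_one_of_isSimpleGroup ρ hρ hk fun h =>
      one_ne_zero ((H12.StSys.x_eq_one_iff H12.grpNC H12.grpNM).1 h)
  have k2 : q % 3 ≠ 0 → (DG.gt S).Ψ ψ ≠ 1 := fun h => (DG.gt S).Ψ_ne hψ (s := 1) fun e => h (by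
    have h3 : (3 : F) = 0 := by simpa [DG.gt] using e
    haveI : CharP F 3 := (CharP.charP_iff_prime_eq_zero Nat.prime_three).2 (by exact_mod_cast h3)
    exact Nat.mod_eq_zero_of_dvd ((CharP.cast_eq_zero_iff F 3 _).1 (FiniteField.cast_card_eq_zero F)))
  have k3 : 4 < q → ∀ e, Module.finrank ℂ ((DG.gt S).Z ρ ψ e 0 ⊓ Ew ρ ((DG.gt S).Ψ ψ) (DG.gt S).d 0 :
      Submodule ℂ _) = 1 → 1 ≤ Module.finrank ℂ ((DG.gt S).Z ρ ψ 0 0 ⊓ Ew ρ ψ (DG.gt S).b (-e) : Submodule ℂ _) :=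
    fun h e he => by
      obtain ⟨c, c0, hc⟩ := H12.exists_pow_ne_one_of_card (K := F) three_pos ⟨Finset.univ, by rwa [Finset.card_univ]⟩
      obtain ⟨g, -, -, g1, -, g2, g3, g4⟩ := DG.tor S (inv_ne_zero c0) (pow_ne_zero 3 c0)
      exact (DG.gt S).fix_b hψ he hc (fun t => (g3 t).trans (by simp [c0, DG.gt])) g1 g4 g2
  have k4 := fun (h : 4 < q) h' => (DG.gt S).dim_ge hψ (k2 h') (k1 (by omega)) fun e _ => k3 h e
  rw [Module.finrank_fin_fun, ← hq, Nat.sub_mul, one_mul, show q ^ 2 * q = q ^ 3 by ring] at k4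
  have k5 : 4 < q → 5 * q ≤ q ^ 3 := fun h => by nlinarith [Nat.mul_le_mul h h]
  refine ⟨fun h h4 => ?_, fun h h4 => ?_, fun h h4 => ?_⟩
  · haveI := Fact.mk Nat.prime_three
    obtain ⟨ω, hω⟩ := exists_prime_orderOf_dvd_card' (G := Fˣ) 3 (by
      rw [Nat.card_units, Nat.card_eq_fintype_card]; omega)
    have := k5 h4
    rcases k4 h4 (by omega) with h1 | ⟨h1, h2⟩
    · omega
    have := DG.two_le S hψ (k2 (by omega)) (ω := ω) (fun e => by simp [Units.val_eq_one.1 e] at hω)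
      (by rw [← hω, ← Units.val_pow_eq_pow_val, pow_orderOf_eq_one, Units.val_one]) h1 fun β hβ => by
        simpa using k3 h4 (-β) (Nat.eq_of_mul_eq_mul_left (Fintype.card_pos (α := F)) (by
          rw [← (DG.gt S).Z_split (k2 (by omega)) (.inl (neg_ne_zero.2 hβ)), (DG.gt S).Z_eq (.inl (neg_ne_zero.2 hβ)),
            h1, mul_one]))
    omega
  · have := k5 (by omega)
    rcases k4 (by omega) (by omega) with h1 | ⟨-, h2⟩ <;> omega
  obtain ⟨n, hp, hn⟩ := FiniteField.card F (ringChar F)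
  have e3 : ringChar F = 3 := ((Nat.prime_dvd_prime_iff_eq Nat.prime_three hp).1
    (Nat.prime_three.dvd_of_dvd_pow (hn ▸ hq ▸ Nat.dvd_of_mod_eq_zero h))).symm
  have h9 : 9 ≤ q := by
    rw [hq, hn, e3] at h4 ⊢
    exact Nat.pow_le_pow_right (n := 3) (i := 2) (by norm_num)
      ((Nat.pow_lt_pow_iff_right (a := 3) (n := 1) (by norm_num)).1 h4)
  have h1 := DG.dim3_ge S hψ (by exact_mod_cast e3 ▸ ringChar.Nat.cast_ringChar (R := F)) h9 (k1 (by omega))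
  have h2 := H6.degree_dvd_card ⟨k, ρ, hρ, rfl⟩ (n := k) (by simp)
  rw [Module.finrank_fin_fun, ← hq] at h1
  rw [S1059.result hq.symm, show q ^ 6 = (q ^ 2) ^ 3 by ring] at h2
  rw [show q ^ 4 = (q ^ 2) ^ 2 by ring] at h1 ⊢
  have h5 : 81 ≤ q ^ 2 := Nat.pow_le_pow_left h9 2
  generalize q ^ 2 = x at h1 h2 h5 ⊢
  by_contra hc
  zify [(by omega : 1 ≤ x), Nat.one_le_pow 3 x (by omega)] at h1 h2 h5 hc
  rcases (by omega : (k : ℤ) = x ^ 2 + x - 2 ∨ (k : ℤ) = x ^ 2 + x - 1 ∨ (k : ℤ) = x ^ 2 + x) with e | e | e <;>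
    rw [e] at h2
  · rw [show (x : ℤ) ^ 2 + x - 2 = (x - 1) * (x + 2) by ring, show (x : ℤ) ^ 3 * (x - 1) * (x ^ 3 - 1) = (x - 1) *
      (72 + (x + 2) * (-36 + 18 * x - 9 * x ^ 2 + 4 * x ^ 3 - 2 * x ^ 4 + x ^ 5)) by ring,
      mul_dvd_mul_iff_left (by omega), dvd_add_left (dvd_mul_right _ _)] at h2
    have := Int.le_of_dvd (by norm_num) h2
    omega
  · rw [show (x : ℤ) ^ 3 * (x - 1) * (x ^ 3 - 1) = (26 * x - 16) + (x ^ 2 + x - 1) *
      (-16 + 10 * x - 6 * x ^ 2 + 3 * x ^ 3 - 2 * x ^ 4 + x ^ 5) by ring, dvd_add_left (dvd_mul_right _ _)] at h2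
    have := Int.le_of_dvd (by omega) h2
    nlinarith
  · replace h2 := (Dvd.intro_left (x : ℤ) (by ring) : (x : ℤ) + 1 ∣ x ^ 2 + x).trans h2
    rw [show (x : ℤ) ^ 3 * (x - 1) * (x ^ 3 - 1) = -4 + (x + 1) *
      (4 - 4 * x + 4 * x ^ 2 - 3 * x ^ 3 + 2 * x ^ 4 - 2 * x ^ 5 + x ^ 6) by ring, dvd_add_left (dvd_mul_right _ _),
      dvd_neg] at h2
    have := Int.le_of_dvd (by norm_num) h2
    omega

end Cfsg.Agent.S2338
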