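import Cfsg.Statements.S2339
import Mathlib
import Cfsg.Agent.H17.Ex4

set_option autoImplicit false
open Cfsg

namespace Cfsg.Agent.S2339

open Cfsg.Agent.H17
open scoped commutatorElement

open H12 Ex Cfsg.Lie

set_option maxRecDepth 100000

theorem c1 : chkT (tb chevE8) 239 238 28 (fun _ => 1) (fun i => Nat.blt i 7) [1, 1, 2, 1, 2, 3, 1, 2, 3, 4, 1, 2,
    3, 4, 5, 1, 2, 3, 4, 5, 2, 3, 4, 5, 6, 4, 5, 6, 7, 6, 7, 8, 8, 9, 10, 1, 2, 3, 4, 5, 6, 3, 4, 5, 6, 7, 5, 6, 7,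
    8, 7, 8, 9, 9, 10, 11, 6, 7, 8, 9, 8, 9, 10, 10, 11, 12, 9, 10, 11, 11, 12, 13, 12, 13, 14, 15, 10, 11, 12, 12,
    13, 14, 13, 14, 15, 16, 14, 15, 16, 17, 18, 15, 16, 17, 18, 19, 20, 21, 16, 17, 18, 19, 20, 21, 22, 22, 23, 24,
    25, 26, 27, 28] = true := by
  rw [tbE8]; decide +kernel

theorem c2 : chkS (tb chevE8) 239 = true := by rw [tbE8]; decide +kernel

theorem c3 : smallChk (fun q => q * (q ^ 12 + 1) * (q ^ 10 + 1) * (q ^ 6 + 1)) 8 28 30 9 = true := by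
  decide +kernel

/-- For the Chevalley group of type E₈ over a finite field with q elements, every irreducible complex representation of degree at least 2 has degree at least q(q¹² + 1)(q¹⁰ + 1)(q⁶ + 1). -/
theorem result {F : Type*} [Field F] [Fintype F] (k : ℕ) (ρ : Representation ℂ (Cfsg.Lie.chevE8.group F) (Fin k → ℂ)) (hρ : ρ.IsIrreducible) (hk : 2 ≤ k) :
    Fintype.card F * (Fintype.card F ^ 12 + 1) * (Fintype.card F ^ 10 + 1) * (Fintype.card F ^ 6 + 1) ≤ k := by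
  have h := main_chev (D := chevE8) (by simp) hρ hk (θ := ⟨239, by decide⟩) c1 c2 cartE8_eq orbE8_chk7
    (by decide) rfl
  have hq : IsPrimePow (Fintype.card F) := FiniteField.isPrimePow_card F
  generalize Fintype.card F = q at *
  have h2 := hq.two_le
  have e3 : q * (q ^ 12 + 1) * (q ^ 10 + 1) * (q ^ 6 + 1) =
    q ^ 29 + q ^ 23 + q ^ 19 + q ^ 17 + q ^ 13 + q ^ 11 + q ^ 7 + q := by ring
  have k0 : ∀ a b, a ≤ b → q ^ a ≤ q ^ b := fun a b => Nat.pow_le_pow_right (by omega)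
  have k2 := Nat.one_le_pow 30 q (by omega)
  rcases h with h | ⟨h1, h3⟩
  · refine Nat.le_of_mul_le_mul_left (le_trans ?_ h) (by omega)
    have k1 : ∀ a b, b = a + 4 → 16 * q ^ a ≤ q ^ b := fun a b e => by
      rw [e, pow_add, mul_comm]; exact Nat.mul_le_mul_left _ (Nat.pow_le_pow_left h2 4)
    have : 2 * ((q - 1) * (q + 1) * q ^ 28) + 2 * q ^ 28 = 2 * q ^ 30 := by
      zify [(by omega : 1 ≤ q)]; ring
    have a1 : 4 * q ^ 28 ≤ q ^ 30 := by
      rw [show 30 = 28 + 2 from rfl, pow_add, mul_comm]; exact Nat.mul_le_mul_left _ (Nat.pow_le_pow_left h2 2)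
    have a2 : q * (q * (q ^ 12 + 1) * (q ^ 10 + 1) * (q ^ 6 + 1)) =
      q ^ 30 + q ^ 24 + q ^ 20 + q ^ 18 + q ^ 14 + q ^ 12 + q ^ 8 + q ^ 2 := by ring
    have := k1 24 28 rfl
    have := k0 20 24 (by omega)
    have := k0 18 24 (by omega)
    have := k0 14 24 (by omega)
    have := k0 12 24 (by omega)
    have := k0 8 24 (by omega)
    have := k0 2 24 (by omega)
    omega
  have e1 : q * (q ^ 12 + 1) * (q ^ 10 + 1) * (q ^ 6 + 1) ≤ k + 8 * q := by
    refine le_trans (le_of_eq ?_) (Nat.add_le_add_right h1 _)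
    simp only [List.map_cons, List.map_nil, List.sum_cons, List.sum_nil]
    zify [(by omega : 1 ≤ q)]
    ring
  have e2 : k ∣ q ^ 28 * (q * (q ^ 12 + 1) * (q ^ 10 + 1) * (q ^ 6 + 1) * (q ^ 30 - 1)) := by
    convert h3 using 1
    simp only [Orb.poly, orbE8_7, pOrb, List.map_cons, List.map_nil, List.sum_cons, List.sum_nil]
    zify [k2, (by omega : 1 ≤ q)]
    ring
  clear h1 h3
  by_cases h4 : q < 9
  · exact arith_small (T := fun q => q * (q ^ 12 + 1) * (q ^ 10 + 1) * (q ^ 6 + 1)) c3 h2 h4 e1 e2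
  have k1 : ∀ a b, b = a + 1 → 9 * q ^ a ≤ q ^ b := fun a b e => by
    rw [e, pow_succ']; exact Nat.mul_le_mul_right _ (by omega)
  refine arith (c := q ^ 27 + q ^ 21 + q ^ 17 + q ^ 15 + q ^ 11 + q ^ 9 + q ^ 5) (a := 7)
    (D := q ^ 22 + q ^ 16 + q ^ 12 + q ^ 10 + q ^ 6 + q ^ 4 + 1) hq (by omega) (by ring) (by ring)
    ⟨1, -(q ^ 21 + q ^ 15 + q ^ 11 + q ^ 9 + q ^ 5 + q ^ 3), by push_cast; ring⟩ (fun h => ?_) e1
    (fun h => ⟨q * k - (q ^ 30 - 1), ?_⟩) e2
  · have a0 : q ^ 6 + q ^ 2 ≤ q ^ 20 + 1 := by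
      have := k1 6 7 rfl; have := k0 2 6 (by omega); have := k0 7 20 (by omega); omega
    have a1 : ((q ^ 22 + q ^ 16 + q ^ 12 + q ^ 10 + q ^ 6 + q ^ 4 + 1 : ℕ) : ℤ) ∣
        (q ^ 20 + 1 - (q ^ 6 + q ^ 2) : ℕ) := by
      refine (dvd_sub (dvd_mul_right _ (q ^ 8 - q ^ 2 : ℤ)) h).trans (dvd_of_eq ?_)
      push_cast [k2, a0]
      ring
    have := k1 6 7 rfl; have := k0 2 6 (by omega); have := k0 7 20 (by omega)
    have a2 := Int.natCast_dvd_natCast.1 a1
    have := Nat.le_of_dvd (by omega) a2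
    have := k0 20 22 (by omega)
    have := k0 0 16 (by omega)
    simp only [pow_zero] at *
    omega
  · rw [e3] at h e1
    have a1 : q ^ 29 ≤ k := by have := k1 1 2 rfl; have := k0 2 7 (by omega); simp only [pow_one] at *; omega
    have a2 : q ^ 30 ≤ q * k := by rw [pow_succ']; exact Nat.mul_le_mul_left _ a1
    have a3 : q * k ≤ q ^ 30 + q ^ 24 + q ^ 20 + q ^ 18 + q ^ 14 + q ^ 12 + q ^ 8 + q ^ 2 :=
      (Nat.mul_le_mul_left q h.le).trans_eq (by ring)
    have a4 : q * k - (q ^ 30 - 1) ≤ q ^ 25 := by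
      have := k1 24 25 rfl; have := k0 20 24 (by omega); have := k0 18 24 (by omega); have := k0 14 24 (by omega)
      have := k0 12 24 (by omega); have := k0 8 24 (by omega); have := k0 2 24 (by omega)
      have := k0 0 24 (by omega); simp only [pow_zero] at *; omega
    refine ⟨by omega, Or.inl (by omega), ?_⟩
    have := k1 26 27 rfl
    have := k1 27 28 rfl
    have := k0 28 29 (by omega)
    have := k0 0 26 (by omega)
    calc 8 ^ 2 * q * (q * k - (q ^ 30 - 1)) ≤ 8 ^ 2 * q * q ^ 25 := Nat.mul_le_mul_left _ a4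
      _ = 64 * q ^ 26 := by ring
      _ < k := by simp only [pow_zero] at *; omega

end Cfsg.Agent.S2339
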