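import Cfsg.Statements.S2340
import Mathlib
import Cfsg.Agent.H17.Ex4

set_option autoImplicit false
open Cfsg

namespace Cfsg.Agent.S2340

open Cfsg.Agent.H17
open scoped commutatorElement

open H12 Ex Cfsg.Lie

set_option maxRecDepth 100000

theorem c1 : chkT (tb chevE6) 71 70 10 (fun _ => 1) (fun i => !Nat.beq i 1) [1, 1, 2, 1, 2, 3, 1, 2, 3, 2, 3, 4, 4,
    5, 6, 1, 2, 3, 4, 3, 4, 5, 5, 6, 7, 6, 7, 8, 9, 10] = true := by
  rw [tbE6]; decide +kernel

theorem c2 : chkS (tb chevE6) 71 = true := by rw [tbE6]; decide +kernel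

theorem c3 : smallChk (fun q => q * (q ^ 6 + q ^ 3 + 1) * (q ^ 4 + 1)) 6 10 12 73 = true := by decide +kernel

/-- For the Chevalley group of type E₆ over a finite field with q elements (the group generated by the root elements), every irreducible complex representation of degree at least 2 has degree at least q(q⁶ + q³ + 1)(q⁴ + 1). -/
theorem result {F : Type*} [Field F] [Fintype F] :
    (∀ (k : ℕ) (ρ : Representation ℂ (Cfsg.Lie.chevE6.group F) (Fin k → ℂ)), ρ.IsIrreducible → 2 ≤ k → Fintype.card F * (Fintype.card F ^ 6 + Fintype.card F ^ 3 + 1) * (Fintype.card F ^ 4 + 1) ≤ k) := by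
  intro k ρ hρ hk
  have h := main_chev (D := chevE6) (by simp) hρ hk (θ := ⟨71, by decide⟩) c1 c2 cartE6_eq orbL6_chk
    (by decide) rfl
  have hq : IsPrimePow (Fintype.card F) := FiniteField.isPrimePow_card F
  generalize Fintype.card F = q at *
  have h2 := hq.two_le
  obtain ⟨p, rfl⟩ : ∃ p, q = p + 2 := ⟨q - 2, by omega⟩
  rcases h with h | ⟨h1, h3⟩
  · refine Nat.le_of_mul_le_mul_left (le_trans ?_ h) (by omega)
    rw [show p + 2 - 1 = p + 1 from rfl]
    ring_nf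
    omega
  have e1 : (p + 2) * ((p + 2) ^ 6 + (p + 2) ^ 3 + 1) * ((p + 2) ^ 4 + 1) ≤ k + 6 * (p + 2) := by
    refine le_trans (le_of_eq ?_) (Nat.add_le_add_right h1 _)
    simp only [List.map_cons, List.map_nil, List.sum_cons, List.sum_nil, show p + 2 - 1 = p + 1 from rfl]
    ring
  have e2 : k ∣ (p + 2) ^ 10 * ((p + 2) * ((p + 2) ^ 6 + (p + 2) ^ 3 + 1) * ((p + 2) ^ 4 + 1) *
      ((p + 2) ^ 12 - 1)) := by
    convert h3 using 1
    simp only [Orb.poly, orbL6, pOrb, List.map_cons, List.map_nil, List.sum_cons, List.sum_nil]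
    zify [Nat.one_le_pow 12 _ (by omega : 0 < p + 2), (by omega : 1 ≤ p + 2)]
    ring
  clear h1 h3
  generalize p + 2 = q at *
  by_cases h4 : q < 73
  · exact arith_small (T := fun q => q * (q ^ 6 + q ^ 3 + 1) * (q ^ 4 + 1)) c3 h2 h4 e1 e2
  have k0 : ∀ a b, a ≤ b → q ^ a ≤ q ^ b := fun a b => Nat.pow_le_pow_right (by omega)
  have k1 : ∀ a b, b = a + 1 → 73 * q ^ a ≤ q ^ b := fun a b e => by
    rw [e, pow_succ']; exact Nat.mul_le_mul_right _ (by omega)
  have k2 := Nat.one_le_pow 12 q (by omega)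
  have e3 : q * (q ^ 6 + q ^ 3 + 1) * (q ^ 4 + 1) = q ^ 11 + q ^ 8 + q ^ 7 + q ^ 5 + q ^ 4 + q := by ring
  refine arith (c := q ^ 9 + q ^ 6 + q ^ 5 + q ^ 3 + q ^ 2) (a := 4) (D := q ^ 7 + q ^ 4 + q ^ 3 + q + 1) hq
    (by omega) (by ring) (by ring) ⟨1, -(q ^ 6 + q ^ 3 + q ^ 2 + 1), by push_cast; ring⟩ (fun h => ?_) e1
    (fun h => ⟨q * k - (q ^ 12 - 1), ?_⟩) e2
  · have : ((q ^ 7 + q ^ 4 + q ^ 3 + q + 1 : ℕ) : ℤ) ∣ (q ^ 5 + q ^ 4 + q ^ 3 + 2 * q ^ 2 + q - 1 : ℕ) := by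
      refine (dvd_sub h (dvd_mul_right _ (q ^ 5 - q ^ 2 - q : ℤ))).trans (dvd_of_eq ?_)
      push_cast [k2, show 1 ≤ q ^ 5 + q ^ 4 + q ^ 3 + 2 * q ^ 2 + q by omega]
      ring
    have := Nat.le_of_dvd (by omega) (Int.natCast_dvd_natCast.1 this)
    have := k1 5 6 rfl
    have := k0 6 7 (by omega)
    have := k0 2 5 (by omega)
    omega
  · rw [e3] at h e1
    have a1 : q ^ 11 ≤ k := by have := k1 1 2 rfl; have := k0 2 8 (by omega); simp only [pow_one] at *; omega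
    have a2 : q ^ 12 ≤ q * k := by rw [pow_succ']; exact Nat.mul_le_mul_left _ a1
    have a3 : q * k ≤ q ^ 12 + q ^ 9 + q ^ 8 + q ^ 6 + q ^ 5 + q ^ 2 := (Nat.mul_le_mul_left q h.le).trans_eq (by ring)
    have a4 : q * k - (q ^ 12 - 1) ≤ 2 * q ^ 9 := by
      have := k1 8 9 rfl; have := k0 6 8 (by omega); have := k0 5 8 (by omega); have := k0 2 8 (by omega)
      have := k0 0 8 (by omega); simp only [pow_zero] at *; omega
    refine ⟨by omega, Or.inl (by omega), ?_⟩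
    have := k1 10 11 rfl
    have := k0 0 10 (by omega)
    calc 6 ^ 2 * q * (q * k - (q ^ 12 - 1)) ≤ 6 ^ 2 * q * (2 * q ^ 9) := Nat.mul_le_mul_left _ a4
      _ = 72 * q ^ 10 := by ring
      _ < k := by simp only [pow_zero] at *; omega

end Cfsg.Agent.S2340
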