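import Cfsg.Statements.S2341
import Mathlib
import Cfsg.Agent.H17.Ex5
import Cfsg.Agent.S1070

set_option autoImplicit false
open Cfsg

namespace Cfsg.Agent.S2341

open Cfsg.Agent.H17
open scoped commutatorElement

open H12 Ex Cfsg.Lie

theorem c3 : smallChk (fun q => q * (q ^ 6 - q ^ 3 + 1) * (q ^ 4 + 1)) 2 10 12 9 = true := by decide +kernel

/-- For the twisted group ²E₆(q), realised over the field with q² elements (q a prime power), every irreducible complex representation of degree at least 2 has degree at least q(q⁶ − q³ + 1)(q⁴ + 1). -/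
theorem result {K : Type*} [Field K] [Fintype K] (q : ℕ) (hq : IsPrimePow q) (hK : Fintype.card K = q ^ 2) :
    (∀ (k : ℕ) (ρ : Representation ℂ (Cfsg.Lie.twistedE6 K q) (Fin k → ℂ)), ρ.IsIrreducible → 2 ≤ k → q * (q ^ 6 - q ^ 3 + 1) * (q ^ 4 + 1) ≤ k) := by
  have hs := (S1070.result hq hK).1
  obtain ⟨S, he, e, hK'⟩ := H13.exists_ED hq hK
  rw [e] at hs ⊢
  intro k ρ hρ hk
  have h2 := hq.two_le
  have h := main_tw S h2 hK' he hρ hk
  have k0 : ∀ a b, a ≤ b → q ^ a ≤ q ^ b := fun a b => Nat.pow_le_pow_right (by omega)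
  have k2 := Nat.one_le_pow 12 q (by omega)
  have k3 := k0 3 6 (by omega)
  have e3 : q * (q ^ 6 - q ^ 3 + 1) * (q ^ 4 + 1) + q ^ 8 + q ^ 4 = q ^ 11 + q ^ 7 + q ^ 5 + q := by
    zify [k3]; ring
  rcases h with h | ⟨h1, h3⟩
  · refine Nat.le_of_mul_le_mul_left (le_trans ?_ h) (by omega)
    have a0 : 2 * ((q - 1) * (q + 1) * q ^ 10) + 2 * q ^ 10 = 2 * q ^ 12 := by
      zify [(by omega : 1 ≤ q)]; ring
    have a1 : 4 * q ^ 10 ≤ q ^ 12 := by
      rw [show 12 = 10 + 2 from rfl, pow_add, mul_comm]; exact Nat.mul_le_mul_left _ (Nat.pow_le_pow_left h2 2)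
    have a2 : q * (q * (q ^ 6 - q ^ 3 + 1) * (q ^ 4 + 1)) + q ^ 9 + q ^ 5 = q ^ 12 + q ^ 8 + q ^ 6 + q ^ 2 := by
      zify [k3]; ring
    have := k0 8 9 (by omega)
    have := k0 6 10 (by omega)
    have := k0 2 5 (by omega)
    omega
  have e1 : q * (q ^ 6 - q ^ 3 + 1) * (q ^ 4 + 1) ≤ k + 2 * q := by
    refine le_trans (le_of_eq ?_) (Nat.add_le_add_right h1 _)
    simp only [List.map_cons, List.map_nil, List.sum_cons, List.sum_nil]
    zify [(by omega : 1 ≤ q), k3]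
    ring
  have e2 : k ∣ q ^ 10 * (q * (q ^ 6 - q ^ 3 + 1) * (q ^ 4 + 1) * (q ^ 12 - 1)) := by
    convert h3 using 1
    simp only [Orb.poly, orbF4_3, pOrb, List.map_cons, List.map_nil, List.sum_cons, List.sum_nil]
    zify [k2, (by omega : 1 ≤ q), k3]
    ring
  clear h1 h3
  by_cases h4 : q < 9
  · exact arith_small (T := fun q => q * (q ^ 6 - q ^ 3 + 1) * (q ^ 4 + 1)) c3 h2 h4 e1 e2
  have k1 : ∀ a b, b = a + 1 → 9 * q ^ a ≤ q ^ b := fun a b e => by
    rw [e, pow_succ']; exact Nat.mul_le_mul_right _ (by omega)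
  have k4 := Nat.one_le_pow 3 q (by omega)
  refine arith (c := q ^ 2 * (q ^ 3 - 1) * (q ^ 4 + 1) + q ^ 3) (a := 4) (D := (q ^ 3 - 1) * (q ^ 4 + 1) + q) hq
    (by omega) (by zify [k3, k4]; ring) (by zify [k3, k4]; ring)
    ⟨-1, q ^ 6 - q ^ 3 + q ^ 2 + 1, by push_cast [k4]; ring⟩ (fun h => ?_) e1
    (fun h => ⟨q ^ 12 - 1 - q * k, ?_⟩) e2
  · have := k1 4 5 rfl; have := k0 2 4 (by omega); have := k1 6 7 rfl; have := k0 5 6 (by omega)
    have := k0 0 4 (by omega)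
    have a0 : q ^ 4 + 2 * q ^ 2 ≤ q ^ 5 + q ^ 3 + q + 1 := by omega
    have a1 : (((q ^ 3 - 1) * (q ^ 4 + 1) + q : ℕ) : ℤ) ∣ (q ^ 5 + q ^ 3 + q + 1 - (q ^ 4 + 2 * q ^ 2) : ℕ) := by
      refine (dvd_sub (dvd_mul_right _ (q ^ 5 + q ^ 2 - q : ℤ)) h).trans (dvd_of_eq ?_)
      push_cast [k2, a0, k4]
      ring
    have a2 := Int.natCast_dvd_natCast.1 a1
    have := Nat.le_of_dvd (by omega) a2
    have : (q ^ 3 - 1) * (q ^ 4 + 1) + q ^ 4 + 1 = q ^ 7 + q ^ 3 := by zify [k4]; ring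
    simp only [pow_zero] at *
    omega
  · have b1 := Nat.mul_le_mul_left q h.le
    have b2 := Nat.mul_le_mul_left q e1
    have a2 : q * (q * (q ^ 6 - q ^ 3 + 1) * (q ^ 4 + 1)) + q ^ 9 + q ^ 5 = q ^ 12 + q ^ 8 + q ^ 6 + q ^ 2 := by
      zify [k3]; ring
    rw [mul_add q k, show q * (2 * q) = 2 * q ^ 2 by ring] at b2
    have := k1 8 9 rfl; have := k0 6 8 (by omega); have := k0 2 5 (by omega); have := k0 0 2 (by omega)
    have := k0 5 6 (by omega); have := k1 10 11 rfl; have := k0 8 10 (by omega); have := k0 4 7 (by omega)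
    have := k0 1 5 (by omega); have := k1 2 3 rfl; have := k0 3 8 (by omega)
    simp only [pow_zero, pow_one] at *
    refine ⟨by omega, Or.inr (by omega), ?_⟩
    calc 2 ^ 2 * q * (q ^ 12 - 1 - q * k) ≤ 2 ^ 2 * q * q ^ 9 := Nat.mul_le_mul_left _ (by omega)
      _ = 4 * q ^ 10 := by ring
      _ < k := by omega

end Cfsg.Agent.S2341
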