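import Cfsg.Statements.S2342
import Mathlib
import Cfsg.Agent.H17.D4Deg
import Cfsg.Agent.S1071
import Cfsg.Agent.H6.Central
import Cfsg.Agent.H13.SzRep

set_option autoImplicit false
open Cfsg

namespace Cfsg.Agent.S2342

open Cfsg.Agent.H17
open scoped commutatorElement


/-- For the twisted group ³D₄(q), realised over the field with q³ elements (q a prime power), every irreducible complex representation of degree at least 2 has degree at least q(q⁴ − q² + 1). -/
theorem result {K : Type*} [Field K] [Fintype K] (q : ℕ) (hq : IsPrimePow q) (hK : Fintype.card K = q ^ 3) :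
    (∀ (k : ℕ) (ρ : Representation ℂ (Cfsg.Lie.twistedD4 K q) (Fin k → ℂ)), ρ.IsIrreducible → 2 ≤ k → q * (q ^ 4 - q ^ 2 + 1) ≤ k) := by
  have hs := (S1071.result hq hK).1
  obtain ⟨S, he, e, hK'⟩ := H13.exists_DD hq hK
  rw [e] at hs ⊢
  intro k ρ hρ hk
  have h2 := hq.two_le
  have hG := S.card_G h2 hK' he
  haveI := Fintype.ofFinite (TD.Fx S)
  have hF : Fintype.card (TD.Fx S) = q := by
    rw [← Nat.card_eq_fintype_card, ← H13.card_fixed h2 hK']
    exact Nat.card_congr (Equiv.subtypeEquivRight fun t => by rw [← he]; rfl)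
  obtain ⟨ψ, hψ⟩ := H11.exists_addChar_ne_one (TD.Fx S)
  have hθ : ∃ c, S.θ c ≠ c := by
    by_contra! h
    have := H13.card_fixed h2 hK'
    rw [Nat.card_congr (Equiv.subtypeUnivEquiv fun t => (he t).symm.trans (h t)), hK'] at this
    nlinarith [Nat.pow_le_pow_left h2 2]
  obtain ⟨s, hs'⟩ := TD.tr_ne S hθ
  have h1 := (TD.gt S).dim_ge hψ ((TD.gt S).Ψ_ne hψ hs') (H13.rep_ne_one_of_isSimpleGroup ρ hρ hk fun h =>
    one_ne_zero ((H12.StSys.x_eq_one_iff H12.chevNC H12.chevNM).1 (congrArg Subtype.val h))) fun f hf h => by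
      rcases h2.eq_or_lt with rfl | h2
      · have : CharP K 2 := charP_of_card_eq_prime_pow hK
        have h3 : ∀ t : TD.Fx S, t = 0 ∨ t = 1 := fun t => (eq_or_ne t 0).imp_right fun t0 => by
          simpa [hF] using FiniteField.pow_card_sub_one_eq_one t t0
        obtain ⟨c, hc⟩ := hθ
        obtain rfl := (h3 f).resolve_left hf
        refine (TD.gt S).fix_two hψ h3 h.ge (fun r hr => ⟨S.θ r * S.θ (S.θ r), Subtype.ext ?_⟩) (r := c)
          (by rintro rfl; simp at hc) fun h => hc (by simp [← neg_eq_of_add_eq_zero_right h])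
        have h4 : r * S.θ r * S.θ (S.θ r) = 1 := by
          simpa [he, ← pow_succ', ← pow_mul, ← pow_add, hK] using FiniteField.pow_card_sub_one_eq_one r hr
        have := TD.rel2 S CharTwo.two_eq_zero r
        rw [h4] at this
        exact this
      · obtain ⟨c, c0, hc⟩ := H12.exists_pow_ne_one_of_card (K := K) (n := 1 + q + q * q) (by omega)
          ⟨Finset.univ, by rw [Finset.card_univ, hK]; nlinarith [Nat.mul_le_mul h2 h2]⟩
        obtain ⟨g, l, μ, e, k1, k2, k3, k4⟩ := TD.tor S c0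
        refine (TD.gt S).fix_b hψ h (fun h => hc ?_) k1 k2 k3 k4
        rwa [h, he, he, ← pow_mul, ← pow_succ', ← pow_add, add_comm q, eq_comm] at e
  rw [hF, hK, Module.finrank_fin_fun] at h1
  haveI : Finite S.G := Nat.finite_of_card_ne_zero (by
    have := Nat.pow_le_pow_left h2 2
    have := Nat.pow_le_pow_left h2 6
    rw [hG]
    exact Nat.mul_ne_zero (Nat.mul_ne_zero (Nat.mul_ne_zero (by positivity) (by omega)) (by omega)) (by omega))
  have h3 := H6.degree_dvd_card ⟨k, ρ, hρ, rfl⟩ (n := k) (by simp)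
  rw [hG] at h3
  have h4 := Nat.pow_le_pow_right (by omega : 0 < q) (by norm_num : 2 ≤ 4)
  have h5 := Nat.one_le_pow 2 q (by omega)
  have h6 := Nat.one_le_pow 6 q (by omega)
  have h7 : 1 ≤ q := by omega
  by_contra hc
  have h8 : (k : ℤ) = (q - 1) * (q ^ 4 + q ^ 3 + 1) := by
    zify [h4, h5, h7] at h1 hc h2
    have : (q : ℤ) ≤ (q ^ 2 - 1) * q ^ 3 := by nlinarith [pow_le_pow_left₀ zero_le_two h2 2]
    rcases h1 with h1 | ⟨-, h1⟩
    · nlinarith
    · nlinarith [Int.natCast_nonneg (Module.finrank ℂ ((TD.gt S).Z ρ ψ 0 0 ⊓ Ew ρ ψ (TD.gt S).b 0 : Submodule ℂ _))]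
  zify [h5, h6] at h3 h2
  rw [h8, show (q : ℤ) ^ 12 * (q ^ 2 - 1) * (q ^ 6 - 1) * (q ^ 8 + q ^ 4 + 1) = (q - 1) * (q ^ 9 * ((q - 1) ^ 3 +
    (q ^ 4 + q ^ 3 + 1) * (1 - 3 * q + 3 * q ^ 2 - 3 * q ^ 3 + q ^ 4 + q ^ 7 - 2 * q ^ 8 + q ^ 9 + q ^ 14))) by ring,
    mul_dvd_mul_iff_left (by omega)] at h3
  have h9 := (dvd_add_left (dvd_mul_right _ _)).1 ((IsCoprime.pow_right (n := 9) (y := (q : ℤ))
    ⟨1, -(q ^ 3 + q ^ 2), by ring⟩).dvd_of_dvd_mul_left h3)
  have := Int.le_of_dvd (pow_pos (by omega) 3) h9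
  nlinarith [pow_pos (by omega : (0 : ℤ) < q) 4]

end Cfsg.Agent.S2342
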