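import Cfsg.Statements.S2343
import Mathlib
import Cfsg.Agent.H17.Wt
import Cfsg.Agent.H13.Re1
import Cfsg.Agent.H13.SzRep

set_option autoImplicit false
open Cfsg

namespace Cfsg.Agent.S2343

open Cfsg.Agent.H17
open scoped commutatorElement


/-- For the Ree group ²G₂(q), q = 3^(2m+1) with m ≥ 1 (realised over the field with q elements), every irreducible complex representation of degree at least 2 has degree at least q² − q + 1. -/
theorem result {K : Type*} [Field K] [Fintype K] (m : ℕ) (hm : 1 ≤ m) (hK : Fintype.card K = 3 ^ (2 * m + 1)) :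
    (∀ (k : ℕ) (ρ : Representation ℂ (Cfsg.Lie.twistedG2 K (3 ^ m)) (Fin k → ℂ)), ρ.IsIrreducible → 2 ≤ k → (3 ^ (2 * m + 1)) ^ 2 - 3 ^ (2 * m + 1) + 1 ≤ k) := by
  intro k ρ hρ hk
  classical
  obtain ⟨S, hS, -⟩ := H13.exists_ReD hK
  haveI := S.simple (hm.trans hS.ge)
  haveI := S.finiteG
  obtain ⟨ψ, hψ⟩ := H11.exists_addChar_ne_one K
  have hne := H13.rep_ne_one_of_isSimpleGroup ρ hρ hk (g := S.u 0 0 1) (by simp [S.u_eq_one_iff])
  let u : K × K → _ := fun b => S.u 0 b.1 b.2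
  let x : K → _ := fun v => S.u 0 0 v
  have hx : ∀ s t, x (s + t) = x s * x t := fun s t => by simp [x, S.u_mul]
  obtain ⟨χ, h1, h2⟩ := H11.exists_wtSp ρ u (fun a b => by simp [u, Commute, SemiconjBy, S.u_mul, add_comm])
    (b := (0, 1)) hne
  obtain ⟨c, hc⟩ := H17.exists_wt hψ h2 (fun t => (t, 0)) fun s t => by simp [u, S.u_mul]
  obtain ⟨d, hd⟩ := H17.exists_wt hψ h2 (fun t => (0, t)) hx
  have hd0 : d ≠ 0 := by rintro rfl; simp [hd] at h1
  have h3 : ∀ b, χ b = ψ (c * b.1 + d * b.2) := fun b => by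
    rw [H11.wt_mul h2 (a := (b.1, 0)) (b := (0, b.2)) (by simp [u, S.u_mul]), hc, hd, AddChar.map_add_eq_mul]
  have h4 : ∀ c' d', d' ≠ 0 → 1 ≤ H17.wm ρ u fun b => ψ (c' * b.1 + d' * b.2) := fun c' d' hd' => by
    let l : Kˣ := Units.mk0 (d / d') (div_ne_zero hd0 hd')
    have hl := S.σ_ne l.ne_zero
    have k1 : H17.wm ρ u χ ≤ H17.wm ρ u fun b => ψ (c * (l / S.σ l) * b.1 + d' * b.2) :=
      H17.wm_le (S.h l) fun b => ⟨(l / S.σ l * b.1, (l : K)⁻¹ * b.2), by
        rw [S.h_mul_u]; congr 1; apply S.u_congr <;> field_simp <;> simp, by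
          rw [h3]; congr 1; simp only [l, Units.val_mk0]; field_simp⟩
    refine (Nat.one_le_iff_ne_zero.2 (mt H17.wm_eq_zero.1 h2)).trans (k1.trans (H17.wm_le
      (S.u ((c * (l / S.σ l) - c') / d') 0 0) fun b => ⟨(b.1, b.2 - (c * (l / S.σ l) - c') / d' * b.1), ?_, ?_⟩))
    · simp [u, S.u_mul]
    · congr 1; field_simp; ring
  have h5 : ∀ d', d' ≠ 0 → Fintype.card K ≤ H17.wm ρ x fun v => ψ (d' * v) := fun d' hd' => by
    refine le_trans ?_ (H17.sum_finrank_le (u := u) (χ := fun c' b => ψ (c' * b.1 + d' * b.2))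
      (fun a b h => H11.eq_of_addChar hψ fun t => by simpa using congrFun h (t, 0)) _ (fun _ => le_rfl)
        fun c' v hv => H11.mem_wtSp.2 fun t => by simpa using H11.mem_wtSp.1 hv (0, t))
    rw [← Finset.card_univ, Finset.card_eq_sum_ones]
    exact Finset.sum_le_sum fun c' _ => h4 c' d' hd'
  have h6 := H17.sum_wm_le (ρ := ρ) x (H17.addChar_inj hψ)
  rw [← Finset.add_sum_erase _ _ (Finset.mem_univ 0), Module.finrank_fin_fun] at h6
  have h7 := Finset.card_nsmul_le_sum (Finset.univ.erase 0) _ _ fun d' hd' => h5 d' (Finset.ne_of_mem_erase hd')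
  rw [Finset.card_erase_of_mem (Finset.mem_univ _), Finset.card_univ, hK, smul_eq_mul, Nat.sub_mul, one_mul,
    ← sq] at h7
  by_cases h0 : H17.wm ρ x (fun v => ψ (0 * v)) = 0
  swap; · omega
  have h8 : ρ.character S.z = 0 := by
    have k1 : ∑ t, ρ (x t) = 0 := LinearMap.ext fun v => by
      have := H17.sum_mem_wtSp (ρ := ρ) (ψ := ψ) hx 0 v
      rw [H17.wm_eq_zero.1 h0] at this
      simpa using this
    have k2 : ∀ t, ρ.character (S.z * x t) = ρ.character S.z := fun t => by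
      rw [← ρ.char_conj S.z (x t)]
      congr 1
      rw [eq_mul_inv_iff_mul_eq, mul_assoc, ← hx, S.z_mul_u]
      congr 1
      apply S.u_congr <;> first | linear_combination (-t) * S.three | simp
    have k3 := congrArg (fun f => LinearMap.trace ℂ _ (ρ S.z * f)) k1
    simp only [Finset.mul_sum, map_sum, ← map_mul, mul_zero, map_zero] at k3
    change ∑ t, ρ.character _ = 0 at k3
    simpa [k2] using k3
  have h9 : ∀ g, g ≠ 1 → g * g = 1 → ρ.character g = 0 := fun g h1 h2 => by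
    obtain ⟨y, rfl⟩ := S.exists_conj_z h1 h2
    rw [ρ.char_conj, h8]
  have := H17.four_dvd_finrank S.z_mul_z S.w_mul_w S.z_mul_w h8
    (h9 _ (fun h => S.w_not_mem_B (h ▸ one_mem _)) S.w_mul_w) (h9 _ (fun h => S.w_not_mem_B (by
      rw [← inv_eq_of_mul_eq_one_right h]; exact inv_mem (S.h_mem_B _))) (by
        rw [mul_assoc, ← mul_assoc S.w, ← S.z_mul_w, mul_assoc, S.w_mul_w, mul_one, S.z_mul_z]))
  rw [Module.finrank_fin_fun] at this
  have h10 : 3 ^ (2 * m + 1) % 8 = 3 := by have := S.q_mod; rwa [H13.ReD.q, hS] at this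
  have h11 : (3 ^ (2 * m + 1)) ^ 2 % 8 = 1 := by rw [Nat.pow_mod, h10]
  have h12 := Nat.le_self_pow two_ne_zero (3 ^ (2 * m + 1))
  omega

end Cfsg.Agent.S2343
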