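import Cfsg.Statements.S2344
import Mathlib
import Cfsg.Agent.H17.Om7

set_option autoImplicit false
open Cfsg

namespace Cfsg.Agent.S2344

open Cfsg.Agent.H17
open scoped commutatorElement


/-- For a finite field F of odd order q > 3 and n ≥ 3, every irreducible complex representation of degree at least 2 of Ω_{2n+1}(F) (the commutator subgroup of the isometry group of the quadratic form x₀² + x₁y₁ + ⋯ + x_ny_n) has degree at least (q^{2n} − 1)/(q² − 1). -/
theorem result {F : Type*} [Field F] [Fintype F] (n : ℕ) (hn : 3 ≤ n) (hodd : Odd (Fintype.card F)) (h3 : 3 < Fintype.card F) :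
    (∀ (k : ℕ) (ρ : Representation ℂ (Cfsg.Omega F (Cfsg.quadFormOdd n F)) (Fin k → ℂ)), ρ.IsIrreducible → 2 ≤ k → (Fintype.card F ^ (2 * n) - 1) / (Fintype.card F ^ 2 - 1) ≤ k) := by
  intro k ρ hρ hk
  classical
  obtain ⟨m, rfl⟩ := Nat.exists_eq_add_of_le' hn
  have h2 := H11.two_ne_zero_of_odd_card hodd
  have h := H11.isQuad_odd (m + 3) F
  have c : Om.OC (H11.bOdd (m + 3) F) (quadFormOdd (m + 3) F) :=
    ⟨h, H11.bOdd_sep _ h2, h.nonExc_of_two_ne_zero (H11.bOdd_sep _ h2) h2⟩
  have := H11.isIrreducible_comp hρ (H11.omegaEquiv h).symm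
  have h3 := Om.om_odd c (Om.Fr.of_hyp h (H11.hypSys_odd (m + 3) F) (i := 0) (j := 1) (by simp))
    (by simp; ring) (H11.wittIdx_odd _ h2) h3 (H11.ker_ne_top_of_irreducible this hk)
  rw [Module.finrank_fin_fun] at h3
  refine Nat.div_le_of_le_mul ?_
  have h4 : 0 < Fintype.card F := Fintype.card_pos
  zify [Nat.one_le_pow _ _ h4]
  exact h3

end Cfsg.Agent.S2344
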