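import Cfsg.Statements.S2346
import Mathlib
import Cfsg.Agent.H17.Om7

set_option autoImplicit false
open Cfsg

namespace Cfsg.Agent.S2346

open Cfsg.Agent.H17
open scoped commutatorElement


/-- For a finite field F with q elements, n ≥ 4, and a, b ∈ F with z₁² + a z₁z₂ + b z₂² anisotropic, every irreducible complex representation of degree at least 2 of Ω⁻_{2n}(F) (the commutator subgroup of the isometry group of x₁y₁ + ⋯ + x_{n−1}y_{n−1} + z₁² + a z₁z₂ + b z₂²) has degree at least (q^n + 1)(q^{n−1} − q)/(q² − 1). -/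
theorem result {F : Type*} [Field F] [Fintype F] (n : ℕ) (hn : 4 ≤ n) (a b : F) (hab : ∀ z₁ z₂ : F, z₁ ^ 2 + a * z₁ * z₂ + b * z₂ ^ 2 = 0 → z₁ = 0 ∧ z₂ = 0) :
    (∀ (k : ℕ) (ρ : Representation ℂ (Cfsg.Omega F (Cfsg.quadFormMinus (n - 1) F a b)) (Fin k → ℂ)), ρ.IsIrreducible → 2 ≤ k → (Fintype.card F ^ n + 1) * (Fintype.card F ^ (n - 1) - Fintype.card F) / (Fintype.card F ^ 2 - 1) ≤ k) := by
  intro k ρ hρ hk
  classical
  obtain ⟨m, rfl⟩ := Nat.exists_eq_add_of_le' hn
  have h := H11.isQuad_minus (m + 3) F a b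
  have c : Om.OC (H11.bMinus (m + 3) F a b) (quadFormMinus (m + 3) F a b) :=
    ⟨h, H11.bMinus_sep _ hab, h.nonExc_of_finrank (H11.bMinus_sep _ hab) (by simp; omega)⟩
  have := H11.isIrreducible_comp hρ (H11.omegaEquiv h).symm
  have h3 := Om.om_minus c (Om.Fr.of_hyp h (H11.hypSys_minus (m + 3) F a b) (i := 0) (j := 1) (by simp))
    (by simp; ring) (H11.wittIdx_minus _ hab) (H11.ker_ne_top_of_irreducible this hk)
  rw [Module.finrank_fin_fun] at h3
  refine Nat.div_le_of_le_mul ?_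
  have h4 : 0 < Fintype.card F := Fintype.card_pos
  zify [Nat.one_le_pow _ _ h4, Nat.le_self_pow (by omega : m + 4 - 1 ≠ 0) (Fintype.card F)]
  exact h3

end Cfsg.Agent.S2346
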