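import Mathlib
-- Template for statement S2352 (row 2352; see /opt/grader/pristine/manifest.json for weights).
-- Copy to Cfsg/Agent/S2352.lean and replace the sorry. The statement below is byte-identical to the frozen
-- statement Cfsg.CfsgFrozen.S2352 (Cfsg/Statements/S2352.lean; the theorem Cfsg.law_fails_in_large_alternating_groups);
-- the grader kernel-checks Cfsg.Agent.S2352.result against that frozen type. Keep the theorem IN THIS FILE
-- (a `result` declared elsewhere and merely imported here is not credited); helpers may live anywhere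
-- under Cfsg/Agent/.
import Cfsg.Statements.S2352
-- import your own Cfsg.Agent.* helpers here

set_option autoImplicit false
open Cfsg

namespace Cfsg.Agent.S2352

/-- A non-trivial law holds in only finitely many alternating groups: for every non-trivial element w of the free group on countably many generators there is N such that for all n ≥ N some substitution of elements of the alternating group of degree n into w is not the identity. -/
theorem result (w : FreeGroup ℕ) (hw : w ≠ 1) :
    ∃ N : ℕ, ∀ n : ℕ, N ≤ n → ∃ f : ℕ → alternatingGroup (Fin n), FreeGroup.lift f w ≠ 1 := by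
  open Cfsg in
  · obtain ⟨L, hL, rfl⟩ : ∃ L, FreeGroup.IsReduced L ∧ FreeGroup.mk L = w := ⟨_, FreeGroup.isReduced_toWord, FreeGroup.mk_toWord⟩
    refine ⟨L.length + 3, fun n hn => ?_⟩
    have hr : ∀ j (h : j + 1 < L.length), L[j].1 = L[j + 1].1 → L[j].2 = L[j + 1].2 := List.isChain_iff_getElem.1 hL
    have key : ∀ a : ℕ, ∃ σ : alternatingGroup (Fin n), ∀ j : Fin L.length, L[j].1 = a →
        σ.1 ⟨if L[j].2 then j + 1 else j, by split_ifs <;> omega⟩ = ⟨if L[j].2 then j else j + 1, by split_ifs <;> omega⟩ := fun a => by
      have inj : ∀ b : Bool, Function.Injective fun j : {j : Fin L.length // L[j].1 = a} =>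
          (⟨if L[j.1].2 = b then j + 1 else j, by split_ifs <;> omega⟩ : Fin n) := by
        rintro b ⟨⟨i, hi⟩, ha⟩ ⟨⟨j, hj⟩, ha'⟩ e
        simp only [Fin.mk.injEq, Fin.getElem_fin, Subtype.mk.injEq] at *
        split_ifs at e with h1 h2 h2
        · omega
        · subst e; exact absurd ((hr i hj (ha.trans ha'.symm)).symm.trans h1) h2
        · subst e; exact absurd ((hr j hi (ha'.trans ha.symm)).symm.trans h2) h1
        · exact e
      obtain ⟨σ, hσ⟩ := Equiv.Perm.exists_extending_pair _ _ (inj true) (inj false)
      have hσ' : ∀ j : Fin L.length, L[j].1 = a → σ ⟨if L[j].2 then j + 1 else j, by split_ifs <;> omega⟩ =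
          ⟨if L[j].2 then j else j + 1, by split_ifs <;> omega⟩ := fun j hj => (hσ ⟨j, hj⟩).trans (by
            rcases L[j].2 with _ | _ <;> simp)
      rcases Int.units_eq_one_or (Equiv.Perm.sign σ) with h | h
      · exact ⟨⟨σ, h⟩, hσ'⟩
      · refine ⟨⟨σ * Equiv.swap ⟨L.length + 1, by omega⟩ ⟨L.length + 2, by omega⟩, by simp [h, Fin.ext_iff]⟩, fun j hj => ?_⟩
        rw [← hσ' j hj, Equiv.Perm.mul_apply, Equiv.swap_apply_of_ne_of_ne] <;> simp only [ne_eq, Fin.mk.injEq] <;> split_ifs <;> omega
    choose f hf using key
    have H : ∀ m (hm : m ≤ L.length), (FreeGroup.lift f (FreeGroup.mk (L.take m))).1 ⟨m, by omega⟩ = ⟨0, by omega⟩ := fun m => by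
      induction m with
      | zero => simp
      | succ m ih =>
        intro hm
        have := hf _ ⟨m, hm⟩ rfl
        rw [List.take_succ_eq_append_getElem hm, ← FreeGroup.mul_mk, map_mul, Subgroup.coe_mul, Equiv.Perm.mul_apply, ← ih (by omega)]
        congr 1
        simp only [Fin.getElem_fin] at this
        rcases h : L[m].2 with _ | _ <;> simp [h] at this ⊢
        · rw [Equiv.symm_apply_eq, this]
        · exact this
    refine ⟨f, fun h => hw ?_⟩
    have := H _ le_rfl
    rw [List.take_length, h] at this
    rw [show L = [] by simpa using this, FreeGroup.one_eq_mk]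

end Cfsg.Agent.S2352
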