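import Mathlib
-- Template for statement S2353 (row 2353; see /opt/grader/pristine/manifest.json for weights).
-- Copy to Cfsg/Agent/S2353.lean and replace the sorry. The statement below is byte-identical to the frozen
-- statement Cfsg.CfsgFrozen.S2353 (Cfsg/Statements/S2353.lean; the theorem Cfsg.law_fails_in_psl_two_over_large_fields);
-- the grader kernel-checks Cfsg.Agent.S2353.result against that frozen type. Keep the theorem IN THIS FILE
-- (a `result` declared elsewhere and merely imported here is not credited); helpers may live anywhere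
-- under Cfsg/Agent/.
import Cfsg.Statements.S2353
-- import your own Cfsg.Agent.* helpers here

set_option autoImplicit false
open Cfsg

namespace Cfsg.Agent.S2353

section
open Matrix Polynomial
set_option linter.style.haveILetI false

/-- hyperbolic matrix -/
def nm {R : Type*} [CommRing R] (a b t : R) : Matrix (Fin 2) (Fin 2) R := !![a - t * b, (t - 1) * a * b; 1 - t, t * a - b]

/-- product along a word -/
def pr {R : Type*} [CommRing R] (c : ℕ × Bool → R) (t : R) : List (ℕ × Bool) → Matrix (Fin 2) (Fin 2) R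
  | [] => 1
  | x :: L => nm (c x) (c (x.1, !x.2)) t * pr c t L

theorem map_pr {R S : Type*} [CommRing R] [CommRing S] (f : R →+* S) (c : ℕ × Bool → R) (t : R) (L : List (ℕ × Bool)) :
    (pr c t L).map f = pr (fun x => f (c x)) (f t) L := by
  induction L with
  | nil => simp [pr]
  | cons x L ih =>
    rw [pr, Matrix.map_mul, ih, pr]; congr 1
    ext a b; fin_cases a <;> fin_cases b <;> simp [nm]

theorem deg {F : Type*} [Field F] (c : ℕ × Bool → F) (L : List (ℕ × Bool)) (i j : Fin 2) :
    (pr (fun x => C (c x)) (X ^ 2) L i j).natDegree ≤ 2 * L.length := by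
  induction L generalizing i with
  | nil => simp [pr, one_apply, apply_ite natDegree]
  | cons x L ih =>
    rw [pr, mul_apply]
    refine natDegree_sum_le_of_forall_le _ _ fun k _ => natDegree_mul_le.trans ?_
    have : (nm (C (c x)) (C (c (x.1, !x.2))) (X ^ 2) i k).natDegree ≤ 2 := by
      fin_cases i <;> fin_cases k <;> simp [nm] <;> compute_degree
    have := ih k
    simp only [List.length_cons]; omega

theorem lead {F : Type*} [Field F] (c : ℕ × Bool → F) (x : ℕ × Bool) (L : List (ℕ × Bool)) (hL : FreeGroup.IsReduced (x :: L))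
    (h : ∀ u ∈ x :: L, ∀ y ∈ x :: L, c y = c (u.1, !u.2) → y = (u.1, !u.2)) :
    ∃ l : F, l ≠ 0 ∧ pr c 0 (x :: L) 0 0 = l * c x ∧ pr c 0 (x :: L) 1 0 = l := by
  induction L generalizing x with
  | nil => exact ⟨1, one_ne_zero, by simp [pr, nm]⟩
  | cons y L ih =>
    rw [FreeGroup.isReduced_cons_cons] at hL
    obtain ⟨l, hl, e0, e1⟩ := ih y hL.2 fun u hu v hv => h u (List.mem_cons_of_mem _ hu) v (List.mem_cons_of_mem _ hv)
    refine ⟨l * (c y - c (x.1, !x.2)), mul_ne_zero hl (sub_ne_zero.2 fun e => ?_), ?_, ?_⟩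
    · have := h x (by simp) y (by simp) e
      simp [this] at hL
    all_goals rw [pr, mul_apply, Fin.sum_univ_two, e0, e1]; simp [nm]; ring

end

/-- A non-trivial law holds in PSL_2 over only finitely many finite fields: for every non-trivial element w of the free group on countably many generators there is N such that over every finite field with at least N elements some substitution of elements of PSL_2 into w is not the identity. -/
theorem result (w : FreeGroup ℕ) (hw : w ≠ 1) :
    ∃ N : ℕ, ∀ (F : Type*) [Field F] [Fintype F], N ≤ Fintype.card F →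
      ∃ f : ℕ → Matrix.ProjectiveSpecialLinearGroup (Fin 2) F, FreeGroup.lift f w ≠ 1 := by
  open Matrix Polynomial in
  · obtain ⟨L, hL, rfl⟩ : ∃ L, FreeGroup.IsReduced L ∧ FreeGroup.mk L = w := ⟨_, FreeGroup.isReduced_toWord, FreeGroup.mk_toWord⟩
    obtain ⟨M, hM⟩ : ∃ M, ∀ x ∈ L, x.1 < M + 1 := ⟨(L.map Prod.fst).sum, fun x hx =>
      Nat.lt_succ_of_le (List.single_le_sum (by simp) _ (List.mem_map_of_mem hx))⟩
    refine ⟨(M + 1) * 2 + (2 * L.length + 2), fun F _ _ hF => ?_⟩
    obtain ⟨e⟩ := Function.Embedding.nonempty_of_card_le (α := Fin (M + 1) × Bool) (β := F) (by simp; omega)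
    obtain ⟨c, hc⟩ : ∃ c : ℕ × Bool → F, ∀ x, c x = e (Fin.ofNat _ x.1, x.2) := ⟨_, fun _ => rfl⟩
    have h1 : ∀ x ∈ L, ∀ y ∈ L, c y = c (x.1, !x.2) → y = (x.1, !x.2) := fun x hx y hy h => by
      simpa [hc, Prod.ext_iff, Fin.ext_iff, Nat.mod_eq_of_lt (hM x hx), Nat.mod_eq_of_lt (hM y hy)] using h
    have h2 : ∀ i, c (i, true) - c (i, false) ≠ 0 := fun i => by simp [hc, sub_eq_zero]
    obtain _ | ⟨x, L⟩ := L
    · exact absurd rfl hw
    obtain ⟨l, hl, -, e1⟩ := lead c x L hL h1
    have ev : ∀ s : F, (pr (fun x => C (c x)) (X ^ 2) (x :: L) 1 0).eval s = pr c (s ^ 2) (x :: L) 1 0 := fun s => by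
      have := congrFun₂ (map_pr (evalRingHom s) (fun x => C (c x)) (X ^ 2) (x :: L)) 1 0
      rw [map_pow] at this
      simpa using this
    obtain ⟨s, hs⟩ := exists_eval_ne_zero_of_natDegree_lt_card (X * pr (fun x => C (c x)) (X ^ 2) (x :: L) 1 0)
      (mul_ne_zero X_ne_zero fun h => hl (by have := ev 0; rw [h] at this; simpa [e1] using this.symm)) (by
        have := natDegree_mul_le.trans (add_le_add (natDegree_X_le (R := F)) (deg c (x :: L) 1 0))
        rw [Cardinal.mk_fintype, Nat.cast_lt]; omega)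
    rw [eval_mul, eval_X, ev, mul_ne_zero_iff] at hs
    let g : ℕ → Matrix.SpecialLinearGroup (Fin 2) F := fun i => ⟨(s * (c (i, true) - c (i, false)))⁻¹ • nm (c (i, true)) (c (i, false)) (s ^ 2), by
      have := h2 i; have := hs.1
      simp [nm, det_fin_two]; field_simp; ring⟩
    have H : ∀ L, ∃ r : F, r ≠ 0 ∧ (FreeGroup.lift g (FreeGroup.mk L)).1 = r • pr c (s ^ 2) L := fun L => by
      induction L with
      | nil => exact ⟨1, one_ne_zero, by simp [pr]⟩
      | cons y L ih =>
        obtain ⟨r, hr, ih⟩ := ih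
        refine ⟨(if y.2 then 1 else -1) * (s * (c (y.1, true) - c (y.1, false)))⁻¹ * r,
          mul_ne_zero (mul_ne_zero (by split_ifs <;> simp) (inv_ne_zero (mul_ne_zero hs.1 (h2 _)))) hr, ?_⟩
        rw [← List.singleton_append, ← FreeGroup.mul_mk, map_mul, Matrix.SpecialLinearGroup.coe_mul, ih, List.singleton_append, pr, ← smul_mul_smul_comm]
        congr 1
        obtain ⟨i, _ | _⟩ := y
        · show ((g i)⁻¹ * 1).1 = _
          rw [mul_one, Matrix.SpecialLinearGroup.coe_inv, adjugate_fin_two]
          ext a b; fin_cases a <;> fin_cases b <;> simp [g, nm, -mul_eq_mul_left_iff] <;> ring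
        · show (g i * 1).1 = _
          rw [mul_one]; simp [g]
    refine ⟨fun i => QuotientGroup.mk' _ (g i), fun h => ?_⟩
    rw [← FreeGroup.lift_unique ((QuotientGroup.mk' _).comp (FreeGroup.lift g)) (by simp), MonoidHom.comp_apply, QuotientGroup.mk'_apply,
      QuotientGroup.eq_one_iff, Matrix.SpecialLinearGroup.mem_center_iff] at h
    obtain ⟨a, -, ha⟩ := h
    obtain ⟨r, hr, e⟩ := H (x :: L)
    have := congrFun₂ (ha.trans e) 1 0
    simp [hr, hs.2] at this

end Cfsg.Agent.S2353
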