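import Cfsg.Statements.S2354
import Mathlib
import Cfsg.Agent.H13.SzLaw
import Cfsg.Agent.H13.SzModels

set_option autoImplicit false
open Cfsg

namespace Cfsg.Agent.S2354

/-- A non-trivial law holds in only finitely many Suzuki groups: for every non-trivial element w of the free group on countably many generators there is N such that for q = 2^(2m+1) with m ≥ N some substitution of elements of the Suzuki group over the field with q elements into w is not the identity. -/
theorem result (w : FreeGroup ℕ) (hw : w ≠ 1) :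
    ∃ N : ℕ, ∀ (F : Type*) [Field F] [Fintype F] (m : ℕ), 1 ≤ m → N ≤ m →
      Fintype.card F = 2 ^ (2 * m + 1) →
      ∃ f : ℕ → ↥(Cfsg.Lie.Sz F (2 ^ (m + 1))), FreeGroup.lift f w ≠ 1 := by
  classical
  have h1 : w.toWord ≠ [] := by rwa [Ne, FreeGroup.toWord_eq_nil_iff]
  obtain ⟨l, L, hL⟩ := List.exists_cons_of_ne_nil h1
  refine ⟨4 * ((l :: L).map fun l => 2 * l.1 + 2).sum, fun F _ _ m hm hN hF => ?_⟩
  have h2 := (H13.szDataB (F := F) hm (by rw [Nat.card_eq_fintype_card, hF])).exists_lift_ne_one l L
    (hL ▸ FreeGroup.isReduced_toWord) hN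
  rwa [← hL, FreeGroup.mk_toWord] at h2

end Cfsg.Agent.S2354
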