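import Cfsg.Statements.S2355
import Mathlib
import Cfsg.Agent.S2352
import Cfsg.Agent.S2353
import Cfsg.Agent.H12.Ph4
import Cfsg.Agent.H10.SL
-- import your own Cfsg.Agent.* helpers here

set_option autoImplicit false
open Cfsg

namespace Cfsg.Agent.S2355

open Subgroup Matrix
open scoped MatrixGroups

def CL (w : FreeGroup ℕ) (X : Type*) [Group X] : Prop := ∀ f : ℕ → X, FreeGroup.lift f w ∈ center X

variable {w : FreeGroup ℕ}

theorem map_lift {H X : Type*} [Group H] [Group X] (ψ : H →* X) (f : ℕ → H) :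
    ψ (FreeGroup.lift f w) = FreeGroup.lift (fun i => ψ (f i)) w :=
  FreeGroup.lift_unique (ψ.comp (FreeGroup.lift f)) (by simp)

theorem CL.of_inj {H X : Type*} [Group H] [Group X] (h : CL w X) (ψ : H →* X)
    (i : Function.Injective ψ) : CL w H := fun f => mem_center_iff.2 fun g => i (by
  rw [map_mul, map_mul, map_lift]; exact mem_center_iff.1 (h _) _)

theorem cl_of {G X : Type*} [Group G] [Group X] (e : G ≃* X ⧸ center X)
    (h : ∀ f : ℕ → G, FreeGroup.lift f w = 1) : CL w X := fun f => by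
  have := map_lift (w := w) (e.symm.toMonoidHom.comp (QuotientGroup.mk' _)) f
  rw [h] at this
  simpa using this

theorem CL.law {X : Type*} [Group X] (h : CL w X) (f : ℕ → X ⧸ center X) : FreeGroup.lift f w = 1 := by
  choose g hg using fun i => QuotientGroup.mk'_surjective _ (f i)
  rw [← funext hg, ← map_lift]
  exact (QuotientGroup.eq_one_iff _).2 (h g)

theorem card_le {G X F ι : Type*} [Group G] [Group X] [Fintype F] [Fintype ι] {Z : Subgroup X}
    [Z.Normal] (e : G ≃* X ⧸ Z) (φ : X → Matrix ι ι F) (i : Function.Injective φ) {a b : ℕ}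
    (ha : Fintype.card F ≤ a + 1) (hb : Fintype.card ι ≤ b) : Nat.card G ≤ (a + 1) ^ (b * b) := by
  have := Finite.of_injective φ i
  rw [Nat.card_congr e.toEquiv]
  refine (Nat.card_le_card_of_surjective _ (QuotientGroup.mk'_surjective Z)).trans
    ((Nat.card_le_card_of_injective φ i).trans ?_)
  rw [show Nat.card (Matrix ι ι F) = Nat.card (ι → ι → F) from rfl, Nat.card_fun, Nat.card_fun,
    ← pow_mul, Nat.card_eq_fintype_card, Nat.card_eq_fintype_card]
  exact (Nat.pow_le_pow_left ha _).trans (Nat.pow_le_pow_right (by omega) (Nat.mul_le_mul hb hb))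

variable {F : Type} [Field F]

def pm (F : Type) [Field F] (n : ℕ) : alternatingGroup (Fin n) →* SL(n, F) :=
  MonoidHom.mk' (fun σ => ⟨Matrix.permMatrixHom σ.1, by
    simp [Equiv.Perm.mem_alternatingGroup.1 σ.2]⟩) fun a b =>
    Subtype.ext (map_mul Matrix.permMatrixHom a.1 b.1)

theorem pm_mul {n : ℕ} (σ : alternatingGroup (Fin n)) (v : Fin n → F) :
    (pm F n σ).1 *ᵥ v = v ∘ ⇑σ.1⁻¹ := Matrix.permMatrix_mulVec _

theorem pm_inj (n : ℕ) : Function.Injective (pm F n) := (injective_iff_map_eq_one _).2 fun σ h =>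
  Subtype.ext (inv_eq_one.1 (Equiv.ext fun i => by
    have := congrFun (pm_mul (F := F) σ (Pi.single i 1)) i
    rw [h] at this
    by_contra c
    have c : σ.1⁻¹ i ≠ i := c
    rw [Function.comp_apply, Pi.single_eq_of_ne c] at this
    simp at this))

def lev (m : ℕ) : SL(m, F) →* Matrix (Fin m ⊕ Fin m) (Fin m ⊕ Fin m) F where
  toFun g := fromBlocks g.1 0 0 (g⁻¹).1ᵀ
  map_one' := by simp
  map_mul' g h := by
    rw [fromBlocks_multiply, _root_.mul_inv_rev, show (h⁻¹ * g⁻¹).1 = (h⁻¹).1 * (g⁻¹).1 from rfl,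
      transpose_mul, show (g * h).1 = g.1 * h.1 from rfl]
    simp only [Matrix.mul_zero, Matrix.zero_mul, add_zero, zero_add]

theorem lev_inj (m : ℕ) : Function.Injective (lev (F := F) m) := fun _ _ e =>
  Subtype.ext (fromBlocks_inj.1 e).1

theorem lev_q {m : ℕ} (g : SL(m, F)) (v : Fin m ⊕ Fin m → F) :
    quadFormPlus m F (lev m g *ᵥ v) = quadFormPlus m F v := by
  have : (g.1 *ᵥ (v ∘ .inl)) ⬝ᵥ ((g⁻¹).1ᵀ *ᵥ (v ∘ .inr)) = (v ∘ .inl) ⬝ᵥ (v ∘ .inr) := by
    rw [dotProduct_mulVec, vecMul_transpose, mulVec_mulVec,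
      show (g⁻¹).1 * g.1 = 1 from congrArg Subtype.val (inv_mul_cancel g), one_mulVec]
  simpa [quadFormPlus, lev, fromBlocks_mulVec, dotProduct] using this

theorem lev_sp {m : ℕ} (g : SL(m, F)) : lev m g ∈ symplecticGroup (Fin m) F := by
  have : g.1 * (g⁻¹).1 = 1 := congrArg Subtype.val (mul_inv_cancel g)
  have t : (g⁻¹).1ᵀ * g.1ᵀ = 1 := by rw [← transpose_mul, this, transpose_one]
  simp only [SymplecticGroup.mem_iff, lev, J, MonoidHom.coe_mk, OneHom.coe_mk,
    fromBlocks_transpose, fromBlocks_multiply, transpose_transpose]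
  generalize (g⁻¹).1 = A at *
  simp [this, t]

def bl (α β : Type) [Fintype α] [Fintype β] [DecidableEq α] [DecidableEq β] :
    Matrix α α F →* Matrix (α ⊕ β) (α ⊕ β) F where
  toFun g := fromBlocks g 0 0 1
  map_one' := by simp
  map_mul' g h := by simp [fromBlocks_multiply]

def br (α β : Type) [Fintype α] [Fintype β] [DecidableEq α] [DecidableEq β] :
    Matrix α α F →* Matrix (β ⊕ α) (β ⊕ α) F where
  toFun g := fromBlocks 1 0 0 g
  map_one' := by simp
  map_mul' g h := by simp [fromBlocks_multiply]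

theorem om {m : ℕ} (hm : 3 ≤ m) {ι : Type} [Fintype ι] [DecidableEq ι] {Q : (ι → F) → F}
    (h : CL w (Omega F Q)) (φ : SL(m, F) →* Matrix ι ι F) (i : Function.Injective φ)
    (hQ : ∀ g v, Q (φ g *ᵥ v) = Q v) : CL w SL(m, F) := by
  let ψ : SL(m, F) →* isometryGroup F Q := φ.toHomUnits.codRestrict _ fun g u _ => hQ g u
  refine h.of_inj (ψ.codRestrict _ fun g => ?_) fun a b e => i (congrArg (fun x => x.1.1.1) e)
  have : (commutator SL(m, F)).map ψ ≤ commutator _ := by
    rw [commutator_def, map_commutator]; exact commutator_mono le_top le_top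
  exact this ⟨g, by rw [H10.commutator_SL_eq_top (by simpa)]; trivial, rfl⟩

theorem bound (hw : w ≠ 1) : ∃ N : ℕ, (∀ n, CL w (alternatingGroup (Fin n)) → n ≤ N) ∧
    (∀ (F : Type) [Field F] [Fintype F], CL w SL(2, F) → Fintype.card F ≤ N) ∧
    ∀ (F : Type) [Field F] [Fintype F] (m : ℕ), 2 ≤ m → CL w SL(m, F) →
      m ≤ N ∧ Fintype.card F ≤ N := by
  obtain ⟨a, ha⟩ := S2352.result w hw
  obtain ⟨b, hb⟩ := S2353.result.{0} w hw
  have h1 : ∀ n, CL w (alternatingGroup (Fin n)) → n ≤ a + b + 4 := fun n h => by_contra fun c => by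
    obtain ⟨f, hf⟩ := ha n (by omega)
    have := h f
    rw [alternatingGroup.center_eq_bot (by simp; omega)] at this
    exact hf this
  have h2 : ∀ (F : Type) [Field F] [Fintype F], CL w SL(2, F) → Fintype.card F ≤ a + b + 4 :=
    fun F _ _ h => by_contra fun c => let ⟨f, hf⟩ := hb F (by omega); hf (h.law f)
  refine ⟨_, h1, h2, fun F _ _ m hm h => ⟨h1 _ (h.of_inj _ (pm_inj m)), h2 _ ?_⟩⟩
  have hf := Fin.castLE_injective hm
  exact h.of_inj (MonoidHom.mk' (fun g => ⟨H12.Ph.embM (Fin.castLE hm) g.1, by rw [H12.Ph.det_embM hf, g.2]⟩)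
    fun _ _ => Subtype.ext (H12.Ph.embM_mul hf _ _)) fun g g' e => Subtype.ext (by
      rw [← H12.Ph.tr_embM hf g.1, ← H12.Ph.tr_embM hf g'.1,
        show H12.Ph.embM _ g.1 = H12.Ph.embM _ g'.1 from congrArg Subtype.val e])

/-- A non-trivial law is satisfied by only finitely many finite simple groups that are alternating or classical, up to isomorphism: for every non-trivial element w of the free group on countably many generators there is a bound N such that every alternating group of degree ≥ 5 and every simple classical group (linear, symplectic, unitary or orthogonal, in this problem's sense) in which w is a law has order at most N. -/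
theorem result (w : FreeGroup ℕ) (hw : w ≠ 1) :
    ∃ N : ℕ, ∀ (G : Type*) [Group G] [Finite G],
      (Cfsg.IsAlternating G ∨ Cfsg.IsPSL G ∨ Cfsg.IsPSp G ∨ Cfsg.IsPSU G ∨ Cfsg.IsPOmegaOdd G ∨
          Cfsg.IsPOmegaPlus G ∨ Cfsg.IsPOmegaMinus G) →
      (∀ f : ℕ → G, FreeGroup.lift f w = 1) → Nat.card G ≤ N := by
  obtain ⟨N, h1, h2, h3⟩ := bound hw
  refine ⟨N.factorial + (N * N + 1) ^ ((2 * N + 2) * (2 * N + 2)), fun G _ _ hG h => ?_⟩
  have l : N ≤ N * N + 1 := by nlinarith
  rcases hG with ⟨n, -, ⟨e⟩⟩ | ⟨F, _, _, n, hn, -, ⟨e⟩⟩ | ⟨F, _, _, m, hm, -, ⟨e⟩⟩ |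
    ⟨F, _, _, n, q, hF, hn, -, ⟨e⟩⟩ | ⟨F, _, _, m, hm, -, ⟨e⟩⟩ | ⟨F, _, _, m, hm, ⟨e⟩⟩ |
    ⟨F, _, _, m, a, b, hm, -, ⟨e⟩⟩
  · have := h1 n (CL.of_inj (fun f => by rw [h]; exact one_mem _) e.symm.toMonoidHom e.symm.injective)
    rw [Nat.card_congr e.toEquiv]
    refine le_add_right ((Subgroup.card_le_card_group _).trans ?_)
    rw [Nat.card_perm, Nat.card_fin]; exact Nat.factorial_le this
  · obtain ⟨a, b⟩ := h3 F n hn (cl_of e h)
    exact le_add_left (card_le e _ Subtype.val_injective (b.trans l) (by simp; omega))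
  · obtain ⟨a, b⟩ := h3 F m hm ((cl_of e h).of_inj (MonoidHom.mk' (fun g => ⟨lev m g, lev_sp g⟩)
      fun _ _ => Subtype.ext (map_mul _ _ _)) fun x y e => lev_inj m (congrArg Subtype.val e))
    exact le_add_left (card_le e _ Subtype.val_injective (b.trans l) (by simp; omega))
  · have c := cl_of e h
    have hq := H11.qConj_conjQ hF
    obtain ⟨K, -, i, hK, -⟩ := H12.Ph.exists_su2 hq
    have := Fintype.ofFinite K
    have b := h2 K ((c.of_inj _ (H12.Ph.emb_inj hq (Fin.castLE_injective (by omega : 2 ≤ n)))).of_inj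
      i.toMonoidHom i.injective)
    rw [← Nat.card_eq_fintype_card, hK] at b
    have a := h1 n (c.of_inj ((pm F n).codRestrict _ fun σ u v => by
      change hermForm n F q ((pm F n σ).1 *ᵥ u) ((pm F n σ).1 *ᵥ v) = _
      rw [pm_mul, pm_mul]
      exact Equiv.sum_comp σ.1⁻¹ fun i => u i * v i ^ q) fun x y e => pm_inj n (congrArg Subtype.val e))
    exact le_add_left (card_le e (fun x => x.1.1) (Subtype.val_injective.comp Subtype.val_injective)
      (by rw [hF]; nlinarith) (by simp; omega))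
  · obtain ⟨a, b⟩ := h3 F m (by omega) (om hm (cl_of e h) ((br _ _).comp (lev m))
      (fun x y e => lev_inj m (fromBlocks_inj.1 e).2.2.2) fun g v => by
        have := lev_q g (v ∘ .inr)
        simpa [quadFormOdd, quadFormPlus, br, fromBlocks_mulVec] using this)
    exact le_add_left (card_le e (fun x => x.1.1.1) (Units.val_injective.comp
      (Subtype.val_injective.comp Subtype.val_injective)) (b.trans l) (by simp; omega))
  · obtain ⟨a, b⟩ := h3 F m (by omega) (om (by omega) (cl_of e h) (lev m) (lev_inj m) lev_q)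
    exact le_add_left (card_le e (fun x => x.1.1.1) (Units.val_injective.comp
      (Subtype.val_injective.comp Subtype.val_injective)) (b.trans l) (by simp; omega))
  · obtain ⟨a, b⟩ := h3 F (m - 1) (by omega) (om (by omega) (cl_of e h) ((bl _ _).comp (lev _))
      (fun x y e => lev_inj _ (fromBlocks_inj.1 e).1) fun g v => by
        have := lev_q g (v ∘ .inl)
        simpa [quadFormMinus, quadFormPlus, bl, fromBlocks_mulVec] using this)
    exact le_add_left (card_le e (fun x => x.1.1.1) (Units.val_injective.comp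
      (Subtype.val_injective.comp Subtype.val_injective)) (b.trans l) (by simp; omega))

end Cfsg.Agent.S2355
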