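import Cfsg.Statements.S2357
import Mathlib
import Cfsg.Agent.H13.Re5

set_option autoImplicit false
open Cfsg

namespace Cfsg.Agent.S2357

open Cfsg.Agent.H13

theorem card_eq {G : Type*} [Group G] (n : ℕ) : Nat.card {g : G // orderOf g = n} = {g : G | orderOf g = n}.ncard :=
  Nat.card_coe_set_eq {g : G | orderOf g = n}

theorem not_coprime {i n : ℕ} (h1 : 1 < i) (h : i ∣ n) : ¬ i.Coprime n := fun e =>
  h1.ne' (Nat.eq_one_of_dvd_coprimes e dvd_rfl h)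

/-- Let R be the small Ree group over the field with q = 3^(2m+1) ≥ 27 elements and write φ for Euler's totient function. Then R has exactly q²(q²−q+1) involutions, (q²−1)(q³+1) elements of order 3, and q²(q−1)(q³+1) elements of order 6 and as many of order 9; for i > 2 dividing q−1 it has φ(i)q³(q³+1)/2 elements of order i; for i > 1 dividing (q+1)/4 it has φ(i)q³(q−1)(q²−q+1)/6 elements of order i and φ(i)q³(q−1)(q²−q+1)/2 elements of order 2i; and for i > 1 dividing q − 3^(m+1) + 1 (respectively q + 3^(m+1) + 1) it has φ(i)q³(q²−1)(q + 3^(m+1) + 1)/6 (respectively φ(i)q³(q²−1)(q − 3^(m+1) + 1)/6) elements of order i. -/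
theorem result {K : Type*} [Field K] [Fintype K] {m : ℕ} (hm : 1 ≤ m)
    (hK : Fintype.card K = 3 ^ (2 * m + 1)) :
    Nat.card {g : ↥(Cfsg.Lie.twistedG2 K (3 ^ m)) // orderOf g = 2} = (3 ^ (2 * m + 1)) ^ 2 * ((3 ^ (2 * m + 1)) ^ 2 - 3 ^ (2 * m + 1) + 1) ∧
    Nat.card {g : ↥(Cfsg.Lie.twistedG2 K (3 ^ m)) // orderOf g = 3} = ((3 ^ (2 * m + 1)) ^ 2 - 1) * ((3 ^ (2 * m + 1)) ^ 3 + 1) ∧
    Nat.card {g : ↥(Cfsg.Lie.twistedG2 K (3 ^ m)) // orderOf g = 6} = (3 ^ (2 * m + 1)) ^ 2 * (3 ^ (2 * m + 1) - 1) * ((3 ^ (2 * m + 1)) ^ 3 + 1) ∧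
    Nat.card {g : ↥(Cfsg.Lie.twistedG2 K (3 ^ m)) // orderOf g = 9} = (3 ^ (2 * m + 1)) ^ 2 * (3 ^ (2 * m + 1) - 1) * ((3 ^ (2 * m + 1)) ^ 3 + 1) ∧
    (∀ i : ℕ, 2 < i → i ∣ 3 ^ (2 * m + 1) - 1 →
      2 * Nat.card {g : ↥(Cfsg.Lie.twistedG2 K (3 ^ m)) // orderOf g = i} = Nat.totient i * (3 ^ (2 * m + 1)) ^ 3 * ((3 ^ (2 * m + 1)) ^ 3 + 1)) ∧
    (∀ i : ℕ, 1 < i → i ∣ (3 ^ (2 * m + 1) + 1) / 4 →
      6 * Nat.card {g : ↥(Cfsg.Lie.twistedG2 K (3 ^ m)) // orderOf g = i} =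
          Nat.totient i * (3 ^ (2 * m + 1)) ^ 3 * (3 ^ (2 * m + 1) - 1) * ((3 ^ (2 * m + 1)) ^ 2 - 3 ^ (2 * m + 1) + 1) ∧
        2 * Nat.card {g : ↥(Cfsg.Lie.twistedG2 K (3 ^ m)) // orderOf g = 2 * i} =
          Nat.totient i * (3 ^ (2 * m + 1)) ^ 3 * (3 ^ (2 * m + 1) - 1) * ((3 ^ (2 * m + 1)) ^ 2 - 3 ^ (2 * m + 1) + 1)) ∧
    (∀ i : ℕ, 1 < i → i ∣ 3 ^ (2 * m + 1) - 3 ^ (m + 1) + 1 →
      6 * Nat.card {g : ↥(Cfsg.Lie.twistedG2 K (3 ^ m)) // orderOf g = i} =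
        Nat.totient i * (3 ^ (2 * m + 1)) ^ 3 * ((3 ^ (2 * m + 1)) ^ 2 - 1) * (3 ^ (2 * m + 1) + 3 ^ (m + 1) + 1)) ∧
    (∀ i : ℕ, 1 < i → i ∣ 3 ^ (2 * m + 1) + 3 ^ (m + 1) + 1 →
      6 * Nat.card {g : ↥(Cfsg.Lie.twistedG2 K (3 ^ m)) // orderOf g = i} =
        Nat.totient i * (3 ^ (2 * m + 1)) ^ 3 * ((3 ^ (2 * m + 1)) ^ 2 - 1) * (3 ^ (2 * m + 1) - 3 ^ (m + 1) + 1)) := by
  obtain ⟨S, hm', -⟩ := exists_ReD hK
  have hq : 3 ^ (2 * m + 1) = S.q := by rw [ReD.q, hm']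
  have hr : 3 ^ (m + 1) = S.r := by rw [ReD.r, hm']
  replace hm : 1 ≤ S.m := hm.trans hm'.ge
  haveI := S.finiteG
  rw [hq, hr]
  simp only [card_eq]
  have h3 := S.three_le_q
  have hn : S.q ^ 2 - S.q + 1 = S.n3 := by
    rw [ReD.n3, sq, Nat.mul_sub_one]
  have hsq : S.q ^ 2 - 1 = (S.q + 1) * (S.q - 1) := by
    simpa using Nat.sq_sub_sq S.q 1
  have hG := S.card_G
  obtain ⟨N⟩ := S.nonempty_NT
  have key : ∀ n n', (n = S.q - S.r + 1 ∨ n = S.q + S.r + 1) → n * n' = S.n3 → ∀ i, 1 < i → i ∣ n →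
      6 * {g : Lie.twistedG2 K (3 ^ m) | orderOf g = i}.ncard = i.totient * S.q ^ 3 * (S.q ^ 2 - 1) * n' := by
    intro n n' h1 h2 i h4 h5
    obtain ⟨A, hA, -, rfl, h6⟩ := S.exists_tori hm h1
    have h7 := hA.ncard_mul (· = i) (by rintro _ rfl; exact not_coprime h4 h5)
    rw [hA.ncard_odd h5, h6, hG, S.q_cube_add_one, ← h2] at h7
    refine Nat.eq_of_mul_eq_mul_right (Nat.card_pos (α := A)) ?_
    rw [hsq]
    linarith
  rw [hn]
  refine ⟨S.ncard_two, S.ncard_three, S.ncard_six, S.ncard_nine, fun i h1 h2 => ?_, fun i h1 h2 => ?_,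
    key _ _ (Or.inl rfl) S.torus_mul, key _ _ (Or.inr rfl) ((mul_comm _ _).trans S.torus_mul)⟩
  · have h7 := (S.isTor_T2 hm).ncard_mul (· = i) (by
      rintro _ rfl e
      rw [S.card_T2] at e
      rw [← S.two_mul_half] at h2
      exact absurd (Nat.le_of_dvd two_pos (e.dvd_of_dvd_mul_right h2)) (by omega))
    rw [S.centralizer_T2 hm, ncard_orderOf_eq_totient S.isCyclic_T (S.card_T ▸ h2), S.card_normalizer_T2 hm, hG] at h7
    refine Nat.eq_of_mul_eq_mul_right (show 0 < S.q - 1 by omega) ?_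
    linarith
  · rw [← N.card_A] at h2
    have hA := N.isTor_A hm
    have h7 := hA.ncard_mul (· = i) (by rintro _ rfl; exact not_coprime h1 h2)
    have h8 := hA.ncard_mul (· = 2 * i) (by
      rintro _ rfl e
      exact not_coprime h1 h2 e.coprime_mul_left)
    rw [hA.ncard_odd h2, N.card_normalizer_A hm, hG, S.q_cube_add_one] at h7
    rw [hA.ncard_two_mul h2, N.card_normalizer_A hm, hG, S.q_cube_add_one, N.centralizer_A hm, N.ncard_invol_W] at h8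
    constructor
    · refine Nat.eq_of_mul_eq_mul_right (show 0 < S.q + 1 by omega) ?_
      linarith
    · refine Nat.eq_of_mul_eq_mul_right (show 0 < 3 * (S.q + 1) by omega) ?_
      linarith

end Cfsg.Agent.S2357
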