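import Cfsg.Statements.S2358
import Mathlib
import Cfsg.Agent.H13.Re5

set_option autoImplicit false
open Cfsg

namespace Cfsg.Agent.S2358

open Cfsg.Agent.H13

/-- Let R be the small Ree group over the field with q = 3^(2m+1) ≥ 27 elements. If d divides one of (q−1)/2, (q+1)/4, q − 3^(m+1) + 1 or q + 3^(m+1) + 1, then any two cyclic subgroups of R of order d are conjugate in R. -/
theorem result {K : Type*} [Field K] [Fintype K] {m : ℕ} (hm : 1 ≤ m)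
    (hK : Fintype.card K = 3 ^ (2 * m + 1)) (d : ℕ)
    (hd : d ∣ (3 ^ (2 * m + 1) - 1) / 2 ∨ d ∣ (3 ^ (2 * m + 1) + 1) / 4 ∨ d ∣ 3 ^ (2 * m + 1) - 3 ^ (m + 1) + 1 ∨ d ∣ 3 ^ (2 * m + 1) + 3 ^ (m + 1) + 1)
    (A B : Subgroup ↥(Cfsg.Lie.twistedG2 K (3 ^ m))) (hA : IsCyclic A) (hB : IsCyclic B)
    (hAd : Nat.card A = d) (hBd : Nat.card B = d) :
    ∃ g : ↥(Cfsg.Lie.twistedG2 K (3 ^ m)), B = A.map (MulAut.conj g).toMonoidHom := by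
  obtain ⟨S, hm', -⟩ := exists_ReD hK
  have hq : 3 ^ (2 * m + 1) = S.q := by rw [ReD.q, hm']
  have hr : 3 ^ (m + 1) = S.r := by rw [ReD.r, hm']
  replace hm : 1 ≤ S.m := hm.trans hm'.ge
  haveI := S.finiteG
  rw [hq, hr] at hd
  obtain ⟨n, h1, h2⟩ : ∃ n, S.TO n ∧ d ∣ n := by
    rcases hd with h | h | h | h
    exacts [⟨_, Or.inl rfl, h⟩, ⟨_, Or.inr (Or.inl rfl), h⟩, ⟨_, Or.inr (Or.inr (Or.inl rfl)), h⟩,
      ⟨_, Or.inr (Or.inr (Or.inr rfl)), h⟩]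
  obtain ⟨T, hT, rfl⟩ := S.exists_isTor hm h1
  exact hT.exists_conj_eq hA hB (hAd ▸ h2) (hAd.trans hBd.symm)

end Cfsg.Agent.S2358
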