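import Cfsg.Statements.S2359
import Mathlib
import Cfsg.Agent.H13.Re5

set_option autoImplicit false
open Cfsg

namespace Cfsg.Agent.S2359

open Cfsg.Agent.H13

/-- Let R be the small Ree group over the field with q = 3^(2m+1) ≥ 27 elements. If H is a cyclic subgroup of R of order (q−1)/2, then the centralizer of H in R is cyclic of order q−1, and every non-trivial subgroup of H has the same centralizer as H. If H is a cyclic subgroup of order (q+1)/4, then the centralizer of H is abelian of order q+1 with no element of order 4 (so it is the direct product of H and a group of order 4 whose non-identity elements all have order 2), and every non-trivial subgroup of H has the same centralizer as H. -/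
theorem result {K : Type*} [Field K] [Fintype K] {m : ℕ} (hm : 1 ≤ m)
    (hK : Fintype.card K = 3 ^ (2 * m + 1)) (H : Subgroup ↥(Cfsg.Lie.twistedG2 K (3 ^ m))) (hH : IsCyclic H) :
    (Nat.card H = (3 ^ (2 * m + 1) - 1) / 2 →
      IsCyclic ↥(Subgroup.centralizer (H : Set ↥(Cfsg.Lie.twistedG2 K (3 ^ m)))) ∧
        Nat.card ↥(Subgroup.centralizer (H : Set ↥(Cfsg.Lie.twistedG2 K (3 ^ m)))) = 3 ^ (2 * m + 1) - 1 ∧
        ∀ A : Subgroup ↥(Cfsg.Lie.twistedG2 K (3 ^ m)), A ≤ H → A ≠ ⊥ →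
          Subgroup.centralizer (A : Set ↥(Cfsg.Lie.twistedG2 K (3 ^ m))) = Subgroup.centralizer (H : Set ↥(Cfsg.Lie.twistedG2 K (3 ^ m)))) ∧
    (Nat.card H = (3 ^ (2 * m + 1) + 1) / 4 →
      IsMulCommutative ↥(Subgroup.centralizer (H : Set ↥(Cfsg.Lie.twistedG2 K (3 ^ m)))) ∧
        Nat.card ↥(Subgroup.centralizer (H : Set ↥(Cfsg.Lie.twistedG2 K (3 ^ m)))) = 3 ^ (2 * m + 1) + 1 ∧
        (∀ x ∈ Subgroup.centralizer (H : Set ↥(Cfsg.Lie.twistedG2 K (3 ^ m))), orderOf x ≠ 4) ∧
        ∀ A : Subgroup ↥(Cfsg.Lie.twistedG2 K (3 ^ m)), A ≤ H → A ≠ ⊥ →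
          Subgroup.centralizer (A : Set ↥(Cfsg.Lie.twistedG2 K (3 ^ m))) = Subgroup.centralizer (H : Set ↥(Cfsg.Lie.twistedG2 K (3 ^ m)))) := by
  obtain ⟨S, hm', -⟩ := exists_ReD hK
  have hq : 3 ^ (2 * m + 1) = S.q := by rw [ReD.q, hm']
  have hr : 3 ^ (m + 1) = S.r := by rw [ReD.r, hm']
  replace hm : 1 ≤ S.m := hm.trans hm'.ge
  haveI := S.finiteG
  rw [hq]
  obtain ⟨N⟩ := S.nonempty_NT
  refine ⟨fun h => ?_, fun h => ?_⟩
  · obtain ⟨k, rfl⟩ := (S.isTor_T2 hm).of_card_eq hH (h.trans S.card_T2.symm)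
    refine ⟨?_, ?_, fun _ => ((S.isTor_T2 hm).conj k).centralizer_eq⟩
    · rw [centralizer_map_conj', S.centralizer_T2 hm]
      haveI := S.isCyclic_T
      exact isCyclic_of_surjective _ ((MulAut.conj k).subgroupMap S.T).surjective
    · rw [centralizer_map_conj', S.centralizer_T2 hm, card_map_conj, S.card_T]
  · obtain ⟨k, rfl⟩ := (N.isTor_A hm).of_card_eq hH (h.trans N.card_A.symm)
    refine ⟨⟨⟨fun x y => Subtype.ext (((N.isTor_A hm).conj k).comm _ x.2 _ y.2)⟩⟩, ?_, fun x _ h4 => ?_,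
      fun _ => ((N.isTor_A hm).conj k).centralizer_eq⟩
    · rw [centralizer_map_conj', N.centralizer_A hm, card_map_conj, N.card_W]
    · have h5 := S.sq_eq_one_of_pow_four (g := x) (by rw [← h4, pow_orderOf_eq_one])
      have h6 := orderOf_dvd_of_pow_eq_one (x := x) (n := 2) (by rwa [sq])
      rw [h4] at h6
      omega

end Cfsg.Agent.S2359
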