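import Cfsg.Statements.S2450
import Mathlib
import Cfsg.Agent.L0.PSL2
-- import your own Cfsg.Agent.* helpers here

set_option autoImplicit false
open Cfsg

namespace Cfsg.Agent.S2450

open Cfsg.Agent.L0 Cfsg.Agent.H6

/-- The Arad–Herzog conjecture for PSL(2,q): let F be a finite field with q ≥ 4 elements. For any two non-identity elements a, b of PSL(2,F), the set of products of a conjugate of a with a conjugate of b is not a single conjugacy class. -/
theorem result {F : Type*} [Field F] [Fintype F] (h4 : 4 ≤ Fintype.card F)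
    (a b : Matrix.ProjectiveSpecialLinearGroup (Fin 2) F) (ha : a ≠ 1) (hb : b ≠ 1) (c : Matrix.ProjectiveSpecialLinearGroup (Fin 2) F) :
    {g : Matrix.ProjectiveSpecialLinearGroup (Fin 2) F | ∃ u v : Matrix.ProjectiveSpecialLinearGroup (Fin 2) F, g = (u * a * u⁻¹) * (v * b * v⁻¹)} ≠ {g | IsConj c g} := by
  intro H
  obtain ⟨a, rfl⟩ := pj_surjective a
  obtain ⟨b, rfl⟩ := pj_surjective b
  obtain ⟨c, rfl⟩ := pj_surjective c
  obtain ⟨x, hx⟩ := exists_conj_lower_ne (g := a) (fun h => ha (pj_eq_one_iff'.2 h))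
  obtain ⟨y, hy⟩ := exists_conj_lower_ne (g := b) (fun h => hb (pj_eq_one_iff'.2 h))
  have key : ∀ s : F, IsConj (pj c) (pj (x * a * x⁻¹ * (uu s * (y * b * y⁻¹) * (uu s)⁻¹))) := by
    intro s
    have : pj (x * a * x⁻¹ * (uu s * (y * b * y⁻¹) * (uu s)⁻¹)) ∈ {g : P2 F | IsConj (pj c) g} := by
      rw [← H]
      exact ⟨pj x, pj (uu s * y), by simp only [map_mul, map_inv]; group⟩
    exact this
  obtain ⟨α, β, γ, hα, hf⟩ : ∃ α β γ : F, α ≠ 0 ∧ ∀ s : F,
      (α * s ^ 2 + β * s + γ) ^ 2 = (c : M2 F).trace ^ 2 :=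
    ⟨_, _, _, neg_ne_zero.2 (mul_ne_zero hx hy), fun s => by
      rw [trace_sq_of_isConj_pj (key s), trace_mul_conj_uu]⟩
  set t := (c : M2 F).trace
  have hq : ∀ δ : F, (Polynomial.C α * Polynomial.X ^ 2 + Polynomial.C β * Polynomial.X +
      Polynomial.C δ).natDegree = 2 := fun δ => Polynomial.natDegree_quadratic hα
  have hq0 : ∀ δ : F, (Polynomial.C α * Polynomial.X ^ 2 + Polynomial.C β * Polynomial.X +
      Polynomial.C δ) ≠ 0 := fun δ h => by
    have := hq δ
    rw [h] at this
    simp at this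
  by_cases h2 : (2 : F) = 0
  · refine hq0 (γ - t) (Polynomial.eq_zero_of_natDegree_lt_card_of_eval_eq_zero _
      Function.injective_id (fun s => ?_) (by rw [hq]; omega))
    simp only [Polynomial.eval_add, Polynomial.eval_mul, Polynomial.eval_C, Polynomial.eval_pow,
      Polynomial.eval_X, id]
    apply pow_eq_zero_iff two_ne_zero |>.1
    linear_combination hf s + (t ^ 2 - t * (α * s ^ 2 + β * s + γ)) * h2
  · have hodd := Nat.odd_iff.1 (odd_card_of_two_ne_zero h2)
    refine mul_ne_zero (hq0 (γ - t)) (hq0 (γ + t))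
      (Polynomial.eq_zero_of_natDegree_lt_card_of_eval_eq_zero _
      Function.injective_id (fun s => ?_) ?_)
    · simp only [Polynomial.eval_add, Polynomial.eval_mul, Polynomial.eval_C, Polynomial.eval_pow,
        Polynomial.eval_X, id]
      linear_combination hf s
    · rw [Polynomial.natDegree_mul (hq0 _) (hq0 _), hq, hq]
      omega

end Cfsg.Agent.S2450
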