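import Cfsg.Statements.S2455
import Mathlib
import Cfsg.Agent.L0.PSL2
-- import your own Cfsg.Agent.* helpers here

set_option autoImplicit false
open Cfsg

namespace Cfsg.Agent.S2455

open Cfsg.Agent.L0 Cfsg.Agent.H6

/-- A strong covering result in the direction of Thompson's conjecture (non-identity elements) for PSL(2,q), q odd: let F be a finite field of odd characteristic p with at least 5 elements and let x ∈ PSL(2,F) have order greater than 2 and not divisible by p (so x is not unipotent). Then every non-identity element of PSL(2,F) is a product of two conjugates of x. -/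
theorem result {F : Type*} [Field F] [Fintype F] (p : ℕ) [Fact p.Prime] [CharP F p] (hp : p ≠ 2) (h5 : 5 ≤ Fintype.card F)
    (x : Matrix.ProjectiveSpecialLinearGroup (Fin 2) F) (hx2 : 2 < orderOf x) (hxp : ¬ p ∣ orderOf x) : ∀ g : Matrix.ProjectiveSpecialLinearGroup (Fin 2) F, g ≠ 1 → ∃ u v : Matrix.ProjectiveSpecialLinearGroup (Fin 2) F, g = (u * x * u⁻¹) * (v * x * v⁻¹) := by
  intro g hg
  have h2 := two_ne_zero_of_charP (F := F) p hp
  obtain ⟨x, rfl⟩ := pj_surjective x
  obtain ⟨g, rfl⟩ := pj_surjective g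
  have ht : (x : M2 F).trace ≠ 0 := fun h =>
    absurd (Nat.le_of_dvd two_pos (orderOf_dvd_of_pow_eq_one (pj_sq_of_trace_zero h))) (by omega)
  have hx1 : pj x ≠ 1 := fun h => by rw [h, orderOf_one] at hx2; omega
  obtain ⟨hf, hd⟩ : DetFull (tG x) ∧ (x : M2 F).trace ^ 2 ≠ 4 := by
    rcases s2_cases x with h | ⟨z, h⟩ | ⟨a, ha, h⟩ | ⟨c, hc, h⟩
    · exact absurd (pj_eq_one_iff'.2 h) hx1
    · exact absurd (by rw [orderOf_eq_prime (pj_pow_char_of_jb p h) hx1]) hxp
    · refine ⟨detFull_of_isConj_ds h, fun H => ha (Units.ext ?_)⟩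
      rw [← trace_of_isConj_s2 h, Matrix.trace_fin_two] at H
      simp only [ds_val, Matrix.of_apply, Matrix.cons_val', Matrix.cons_val_zero,
        Matrix.cons_val_one, Matrix.cons_val_fin_one] at H
      have h1 : (a : F) * (a⁻¹ : Fˣ) = 1 := Units.mul_inv a
      have : ((a : F) - (a⁻¹ : Fˣ)) ^ 2 = 0 := by linear_combination H - 4 * h1
      exact sub_eq_zero.1 (pow_eq_zero_iff two_ne_zero |>.1 this)
    · exact ⟨detFull_of_isConj_elS h, by
        rw [← trace_of_isConj_s2 h]; exact disc_ne_of_no_root h2 (elS_no_root hc)⟩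
  set τ := (x : M2 F).trace with hτ
  set σ := (g : M2 F).trace with hσ
  by_cases hs : σ ^ 2 = 4
  · have hε : -σ / 2 = 1 ∨ -σ / 2 = -1 := by
      apply sq_eq_one_iff.1
      field_simp
      linear_combination hs
    refine prod_conj_of_conic hf hd hg hε (e := 1 / (2 * τ)) (c := σ / (4 * τ)) ?_
    have h4 : (4 : F) ≠ 0 := by
      rw [show (4 : F) = 2 * 2 by norm_num]; exact mul_ne_zero h2 h2
    rw [← hτ, ← hσ]
    field_simp
    linear_combination (-4 - 8 * τ ^ 2) * hs
  · have h4 : (4 : F) ≠ 0 := by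
      rw [show (4 : F) = 2 * 2 by norm_num]; exact mul_ne_zero h2 h2
    have hs' : (1 - σ ^ 2 / 4) ≠ 0 := by
      intro h
      apply hs
      field_simp at h
      linear_combination -h
    obtain ⟨c, e, h⟩ := FiniteField.exists_root_sum_quadratic
      (f := Polynomial.C 1 * Polynomial.X ^ 2 + Polynomial.C τ * Polynomial.X + Polynomial.C 1)
      (g := Polynomial.C (1 - σ ^ 2 / 4) * Polynomial.X ^ 2 +
        Polynomial.C (τ * σ / 2 - τ) * Polynomial.X + Polynomial.C 0)
      (Polynomial.degree_quadratic one_ne_zero) (Polynomial.degree_quadratic hs')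
      (Nat.odd_iff.1 (odd_card_of_two_ne_zero h2))
    refine prod_conj_of_conic hf hd hg (Or.inl rfl) (e := e) (c := c + σ * e / 2) ?_
    simp only [Polynomial.eval_add, Polynomial.eval_mul, Polynomial.eval_C, Polynomial.eval_pow,
      Polynomial.eval_X] at h
    rw [← hτ, ← hσ]
    have e4 : σ ^ 2 / 4 = (σ / 2) ^ 2 := by field_simp; norm_num
    have e2 : σ = 2 * (σ / 2) := by field_simp
    rw [e4, mul_div_assoc] at h
    rw [mul_div_right_comm]
    generalize σ / 2 = w at *
    rw [e2]
    linear_combination h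

end Cfsg.Agent.S2455
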