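import Cfsg.Statements.S2456
import Mathlib
import Cfsg.Agent.L0.PSL2
-- import your own Cfsg.Agent.* helpers here

set_option autoImplicit false
open Cfsg

namespace Cfsg.Agent.S2456

open Cfsg.Agent.L0 Cfsg.Agent.H6

/-- A strong covering result in the direction of Thompson's conjecture (non-identity elements) for PSL(2,q), q even: let F be a finite field of characteristic 2 with q ≥ 4 elements and let x ∈ PSL(2,F) have order greater than 2 and not dividing q + 1. Then every non-identity element of PSL(2,F) is a product of two conjugates of x. -/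
theorem result {F : Type*} [Field F] [Fintype F] [CharP F 2] (h4 : 4 ≤ Fintype.card F)
    (x : Matrix.ProjectiveSpecialLinearGroup (Fin 2) F) (hx2 : 2 < orderOf x) (hxq : ¬ orderOf x ∣ Fintype.card F + 1) : ∀ g : Matrix.ProjectiveSpecialLinearGroup (Fin 2) F, g ≠ 1 → ∃ u v : Matrix.ProjectiveSpecialLinearGroup (Fin 2) F, g = (u * x * u⁻¹) * (v * x * v⁻¹) := by
  intro g hg
  have h0 : (2 : F) = 0 := CharTwo.two_eq_zero
  obtain ⟨x, rfl⟩ := pj_surjective x
  obtain ⟨g, rfl⟩ := pj_surjective g
  have ht : (x : M2 F).trace ≠ 0 := fun h =>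
    absurd (Nat.le_of_dvd two_pos (orderOf_dvd_of_pow_eq_one (pj_sq_of_trace_zero h))) (by omega)
  have hd : (x : M2 F).trace ^ 2 ≠ 4 := fun h =>
    ht (pow_eq_zero_iff two_ne_zero |>.1 (by linear_combination h + 2 * h0))
  rcases s2_cases x with h | ⟨z, h⟩ | ⟨a, ha, h⟩ | ⟨c, hc, h⟩
  · exact absurd h (not_isScal_of_disc hd)
  · exact absurd (by rw [← tG_val, ← trace_eq_of_isConj h, trace_jb, ← two_mul, h0, zero_mul]) ht
  · refine prod_conj_of_conic (detFull_of_isConj_ds h) hd hg (Or.inl rfl) (e := a) (c := 0) ?_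
    rw [← trace_of_isConj_s2 h]
    have := a.mul_inv
    simp only [ds_val, Matrix.trace_fin_two_of]
    linear_combination -this
  · refine absurd (orderOf_dvd_of_pow_eq_one ?_) hxq
    have := h.pow (Fintype.card F + 1)
    rw [pow_card_add_one_elS, isConj_one_right] at this
    rw [← map_pow, this, map_one]

end Cfsg.Agent.S2456
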