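import Cfsg.Statements.S2457
import Mathlib
import Cfsg.Agent.H29.Sz2

set_option autoImplicit false
open Cfsg

namespace Cfsg.Agent.S2457

open MulAction Subgroup Cfsg.Agent.H13 Cfsg.Agent.H29

section

variable {G : Type*} [Group G] {F : Type*} [Field F] (S : SzData G F)

theorem conj_prod {x y z g : G} (hy : IsConj x y) (hz : IsConj x z) (h : IsConj (y * z) g) :
    ∃ u v : G, g = (u * x * u⁻¹) * (v * x * v⁻¹) := by
  obtain ⟨a, rfl⟩ := isConj_iff.1 hy
  obtain ⟨b, rfl⟩ := isConj_iff.1 hz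
  obtain ⟨c, rfl⟩ := isConj_iff.1 h
  exact ⟨c * a, c * b, by group⟩

theorem tr_three (b c : F) : tr S (S.w * S.u 0 b * S.w * (S.u 0 1 * (S.w * S.u 0 c * S.w) * S.u 0 1)) = S.θ (b * c) := by
  haveI := S.charP
  simp only [tr, map_mul, S.ρ_w, S.ρ_u]
  simp [suzukiForm, szU, szf, Matrix.trace, Fin.sum_univ_four]
  grind

theorem four {g : G} (h : tr S g = 0) (h1 : g ≠ 1) : IsConj (S.u 0 1) g ∨ ∃ e, IsConj (S.u 1 e) g := by
  haveI := S.charP
  obtain ⟨a, b, e⟩ := exists_isConj_u S h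
  by_cases ha : a = 0
  · subst ha
    exact .inl ((isConj_inv S (S.orderOf_u_zero one_ne_zero) (S.orderOf_u_zero (by rintro rfl; simp_all))).trans e)
  · have h2 : a * S.θ a ≠ 0 := mul_ne_zero ha ((map_ne_zero _).2 ha)
    exact .inr ⟨_, (isConj_u S ha (b := b / (a * S.θ a)) (by rw [CharTwo.add_self_eq_zero]; exact zero_mem _)).trans
      (by rwa [mul_div_cancel₀ _ h2])⟩

include S in
theorem main {x : G} (hx : 2 < orderOf x) {g : G} (hg : g ≠ 1) : ∃ u v : G, g = (u * x * u⁻¹) * (v * x * v⁻¹) := by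
  haveI := S.charP
  have hs : ∀ b, S.u 0 b * S.u 0 b = 1 := fun b => S.sq_eq_one_of_mem_Z (S.u_mem_Z b)
  have h1 := one_notMem_szW S
  by_cases ht : tr S x = 0
  · obtain ⟨e, he⟩ := (four S ht (by rintro rfl; simp at hx)).resolve_left fun h => by
      obtain ⟨c, rfl⟩ := isConj_iff.1 h
      rw [← MulAut.conj_apply, MulEquiv.orderOf_eq, S.orderOf_u_zero one_ne_zero] at hx
      omega
    have h2 : ∀ {a b}, a ≠ 0 → b + e ∈ szW S → IsConj x (S.u a (a * S.θ a * b)) := fun ha hb =>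
      he.symm.trans (isConj_u S ha hb)
    by_cases h3 : tr S g = 0
    · rcases four S h3 hg with h | ⟨d, h⟩
      · exact conj_prod he.symm he.symm (by simpa [S.u_sq] using h)
      obtain ⟨ω, h4, h5⟩ := S.exists_ne_zero_one
      have h6 : ω + 1 ≠ 0 := by grind
      obtain ⟨y, h7, h8⟩ := exists_mul_notMem S (mul_ne_zero h4 ((map_ne_zero S.θ).2 h4)) (mt S.mul_θ_eq_one h5)
      obtain ⟨c, h9, h10⟩ : ∃ c ∈ szW S, ω * S.θ ω * c + (ω * S.θ ω * e + (ω + 1) * S.θ (ω + 1) * e + S.θ ω * (ω + 1) + d) ∈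
          szW S := by
        by_cases h9 : ω * S.θ ω * e + (ω + 1) * S.θ (ω + 1) * e + S.θ ω * (ω + 1) + d ∈ szW S
        · exact ⟨0, zero_mem _, by rwa [mul_zero, zero_add]⟩
        · exact ⟨y, h7, add_mem_szW h8 h9⟩
      refine conj_prod (h2 h4 (b := c + e) (by rwa [add_assoc, CharTwo.add_self_eq_zero, add_zero]))
        (h2 h6 (b := e) (by rw [CharTwo.add_self_eq_zero]; exact zero_mem _)) (IsConj.trans ?_ h)
      rw [S.u_mul, show ω + (ω + 1) = 1 by grind]
      convert (isConj_u S one_ne_zero (e := d) (b := ω * S.θ ω * (c + e) + (ω + 1) * S.θ (ω + 1) * e + S.θ ω * (ω + 1))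
        (by convert h10 using 1; ring)).symm using 2
      simp
    · obtain ⟨l, b, h4, h5⟩ := exists_szl S (tr S g)
      obtain ⟨a, rfl⟩ := S.θ_surjective l
      obtain ⟨c, rfl⟩ := S.exists_sq_eq b
      have h6 : a ≠ 0 := by rintro rfl; simp at h4
      obtain ⟨d, h7, h8⟩ : ∃ d, d + e ∈ szW S ∧ d + S.θ d = c + S.θ c := by
        by_cases h7 : c + e ∈ szW S
        · exact ⟨c, h7, rfl⟩
        · exact ⟨1 + c, add_assoc 1 c e ▸ add_mem_szW h1 h7, by rw [map_add, map_one]; grind⟩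
      refine conj_prod (h2 (inv_ne_zero h6) h7) ((h2 one_ne_zero h7).trans (isConj_iff.2 ⟨S.w, rfl⟩))
        (isConj_of_tr S h3 ?_).symm
      rw [S.w_inv, tr_uw]
      simp only [szf, map_mul, map_pow, map_inv₀, map_one, S.θθ] at h5 ⊢
      field_simp
      grind
  have h2 : ∀ {y}, tr S y = tr S x → IsConj x y := isConj_of_tr S ht
  by_cases h3 : tr S g = 0
  · obtain ⟨l, b, h4, h5⟩ := exists_szl S (tr S x)
    have h6 : S.θ l⁻¹ ≠ 0 := (map_ne_zero _).2 (inv_ne_zero h4)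
    have h7 : ∀ c, c + S.θ c = b + S.θ b → tr S (S.w * S.h (Units.mk0 _ h6) * S.u 1 c) = tr S x := fun c e => by
      rw [tr_whu]
      simp only [szf, map_one, map_inv₀] at h6 ⊢
      field_simp
      grind
    obtain ⟨c, hc⟩ := S.θ_surjective (tr S x * l * S.θ l)
    have h8 : tr S (S.w * S.h (Units.mk0 _ h6) * S.u 0 c) = tr S x := by
      rw [tr_whu]
      simp only [szf, map_zero, map_inv₀, hc] at h6 ⊢
      field_simp
      grind
    have h9 : ∀ a b : G, (S.w * S.h (Units.mk0 _ h6) * a)⁻¹ * (S.w * S.h (Units.mk0 _ h6) * b) = a⁻¹ * b :=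
      fun a b => by group
    have h10 := h7 (b + 1) (by rw [map_add, map_one]; grind)
    rcases four S h3 hg with h | ⟨d, h⟩
    · refine conj_prod (h2 ((tr_inv S _).trans (h7 b rfl))) (h2 h10) ?_
      rwa [h9, S.u_inv, S.u_mul, show (1 : F) + 1 = 0 by grind, show b + _ + _ + _ = 1 by rw [map_one]; grind]
    by_cases h11 : c + b + d ∈ szW S
    · refine conj_prod (h2 ((tr_inv S _).trans h8)) (h2 (h7 b rfl)) (IsConj.trans ?_ h)
      rw [h9]
      simpa [S.u_inv, S.u_mul] using (isConj_u S one_ne_zero h11).symm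
    · refine conj_prod (h2 ((tr_inv S _).trans h8)) (h2 h10) (IsConj.trans ?_ h)
      rw [h9]
      simpa [S.u_inv, S.u_mul] using (isConj_u S one_ne_zero (b := c + (b + 1)) (e := d)
        (by convert add_mem_szW h1 h11 using 1; ring)).symm
  · obtain ⟨a, ha⟩ := S.θ_surjective (tr S x)
    obtain ⟨b, hb⟩ := S.θ_surjective (tr S g)
    obtain ⟨b, rfl⟩ := S.exists_sq_eq b
    have h4 : b ≠ 0 := by rintro rfl; simp [← hb] at h3
    refine conj_prod (y := S.u 0 b * (S.w * S.u 0 (a / b) * S.w)) (h2 ?_)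
      (h2 ((tr_three S (a / b) b).trans (by rw [div_mul_cancel₀ _ h4, ha]))) (isConj_of_tr S h3 ?_).symm
    · rw [tr_uw, ← ha]; simp [szf, mul_div_cancel₀ _ ((map_ne_zero S.θ).2 h4)]
    · rw [show ∀ s t : G, S.u 0 b * (S.w * s * S.w) * (S.w * s * S.w * (S.u 0 1 * t * S.u 0 1)) =
        S.u 0 1 * ((S.u 0 1)⁻¹ * S.u 0 b * S.w * s * (S.w * S.w) * s * S.w * S.u 0 1 * t * (S.u 0 1 * S.u 0 1)) * (S.u 0 1)⁻¹
        from fun s t => by group, tr_conj, S.w_mul_w, hs, mul_one, mul_one, mul_assoc _ (S.u 0 (a / b)) (S.u 0 _), hs, mul_one,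
        mul_assoc _ S.w S.w, S.w_mul_w, mul_one, S.u_inv, S.u_mul, S.u_mul, tr_uw, ← hb]
      simp [szf, sq]
      grind

end

/-- A strong covering result in the direction of Thompson's conjecture (non-identity elements) for the Suzuki groups: let q = 2^(2m+1) ≥ 8, F the field with q elements and Sz(q) the Suzuki group over F. For every element x of Sz(q) of order greater than 2, every non-identity element of Sz(q) is a product of two conjugates of x. -/
theorem result {F : Type*} [Field F] [Fintype F] (m : ℕ) (hm : 1 ≤ m) (hF : Fintype.card F = 2 ^ (2 * m + 1))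
    (x : Cfsg.Lie.Sz F (2 ^ (m + 1))) (hx2 : 2 < orderOf x) : ∀ g : Cfsg.Lie.Sz F (2 ^ (m + 1)), g ≠ 1 → ∃ u v : Cfsg.Lie.Sz F (2 ^ (m + 1)), g = (u * x * u⁻¹) * (v * x * v⁻¹) := by
  exact fun g hg => main (szDataB hm (Nat.card_eq_fintype_card.trans hF)) hx2 hg

end Cfsg.Agent.S2457
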