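import Cfsg.Statements.S2459
import Mathlib
import Cfsg.Agent.H10.Sour3

set_option autoImplicit false
open Cfsg

namespace Cfsg.Agent.S2459

theorem fin {F : Type*} [Field F] (p : ℕ) (x : Matrix.SpecialLinearGroup (Fin 3) F) (N : ℕ)
    (hx : x ^ N = 1) (hp : ¬ p ∣ N)
    (h : ∀ A : Matrix.SpecialLinearGroup (Fin 3) F,
      (¬ ∃ c : F, A.1 = c • (1 : Matrix (Fin 3) (Fin 3) F)) →
      ∃ u v : Matrix.SpecialLinearGroup (Fin 3) F, A = (u * x * u⁻¹) * (v * x * v⁻¹)) :
    ∃ x : Matrix.ProjectiveSpecialLinearGroup (Fin 3) F, ¬ p ∣ orderOf x ∧ ∀ g : Matrix.ProjectiveSpecialLinearGroup (Fin 3) F, g ≠ 1 → ∃ u v : Matrix.ProjectiveSpecialLinearGroup (Fin 3) F, g = (u * x * u⁻¹) * (v * x * v⁻¹) := by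
  refine ⟨H10.slQ (Fin 3) F x, fun hd => hp (hd.trans (orderOf_dvd_of_pow_eq_one ?_)), ?_⟩
  · rw [← map_pow, hx, map_one]
  · intro g hg
    obtain ⟨A, rfl⟩ := H10.slQ_surjective g
    obtain ⟨u, v, e⟩ := h A (H10.not_scalar_of_slQ_ne_one hg)
    refine ⟨H10.slQ (Fin 3) F u, H10.slQ (Fin 3) F v, ?_⟩
    rw [e]
    simp only [map_mul, map_inv]

/-- A form of Thompson's conjecture for PSL(3,q), q > 2 (covering the non-identity elements), with a semisimple class: for F a finite field of characteristic p with more than 2 elements there is an element x of PSL(3,F) of order prime to p such that every non-identity element of PSL(3,F) is a product of two conjugates of x. -/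
theorem result {F : Type*} [Field F] [Fintype F] (p : ℕ) [Fact p.Prime] [CharP F p] (h3 : 3 ≤ Fintype.card F) :
    ∃ x : Matrix.ProjectiveSpecialLinearGroup (Fin 3) F, ¬ p ∣ orderOf x ∧ ∀ g : Matrix.ProjectiveSpecialLinearGroup (Fin 3) F, g ≠ 1 → ∃ u v : Matrix.ProjectiveSpecialLinearGroup (Fin 3) F, g = (u * x * u⁻¹) * (v * x * v⁻¹) := by
  have hp : p.Prime := Fact.out
  obtain ⟨n, -, hn⟩ := FiniteField.card F p
  have hpq : p ∣ Fintype.card F := by rw [hn]; exact dvd_pow_self p n.ne_zero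
  by_cases h : Fintype.card F = 3
  · obtain ⟨x, hx, hA⟩ := H10.sq_card_three h
    refine fin p x 4 hx ?_ hA
    rw [h] at hpq
    rw [(Nat.prime_dvd_prime_iff_eq hp (by norm_num)).1 hpq]
    decide
  · classical
    obtain ⟨a, ha⟩ : ∃ a : F, a ∉ ({0, 1, -1} : Finset F) := by
      by_contra hcon
      push Not at hcon
      have h1 : (Finset.univ : Finset F) ⊆ {0, 1, -1} := fun a _ => hcon a
      have h2 := Finset.card_le_card h1
      have h4 : ({0, 1, -1} : Finset F).card ≤ 3 := Finset.card_le_three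
      rw [Finset.card_univ] at h2
      omega
    simp only [Finset.mem_insert, Finset.mem_singleton, not_or] at ha
    obtain ⟨ha0, ha1, ha2⟩ := ha
    have h2 : a ^ 2 ≠ 1 := by
      intro h2
      rcases (mul_self_eq_one_iff (a := a)).1 (by rw [← sq]; exact h2) with h | h
      · exact ha1 h
      · exact ha2 h
    refine fin p (H10.sourD ha0) (Fintype.card F - 1) ?_ ?_ (H10.sour_sq ha0 h2)
    · rw [H10.slv_ext_iff, H10.sourD_pow, FiniteField.pow_card_sub_one_eq_one a ha0, inv_one,
        H10.slv_one, Matrix.one_fin_three]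
    · intro hd
      have : p ∣ 1 := by
        have h5 : Fintype.card F = (Fintype.card F - 1) + 1 := by omega
        rw [h5] at hpq
        exact (Nat.dvd_add_right hd).1 hpq
      exact hp.one_lt.ne' (Nat.dvd_one.1 this)

end Cfsg.Agent.S2459
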