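import Cfsg.Statements.S2460
import Mathlib
import Cfsg.Agent.H19.Th3

set_option autoImplicit false
open Cfsg

namespace Cfsg.Agent.S2460

open Cfsg.Agent.H19


/-- A form of Thompson's conjecture for the simple groups PSp(4,q), q ≥ 3 (covering the non-identity elements), with a semisimple class: for F a finite field of characteristic p with at least 3 elements there is an element x of PSp(4,F) of order prime to p such that every non-identity element of PSp(4,F) is a product of two conjugates of x. -/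
theorem result {F : Type*} [Field F] [Fintype F] (p : ℕ) [Fact p.Prime] [CharP F p] (h3 : 3 ≤ Fintype.card F) :
    ∃ x : Cfsg.PSp 2 F, ¬ p ∣ orderOf x ∧ ∀ g : Cfsg.PSp 2 F, g ≠ 1 → ∃ u v : Cfsg.PSp 2 F, g = (u * x * u⁻¹) * (v * x * v⁻¹) := by
  obtain ⟨x, hx, h⟩ := H19.Th.main h3
  refine ⟨QuotientGroup.mk x, fun hd => ?_, fun g hg => ?_⟩
  · have h1 := hd.trans (orderOf_dvd_of_pow_eq_one (n := Fintype.card F ^ 2 - 1)
      (by rw [← QuotientGroup.mk_pow, hx, QuotientGroup.mk_one]))
    obtain ⟨n, hp, hn⟩ := FiniteField.card F p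
    have h2 : p ∣ Fintype.card F ^ 2 := dvd_pow (hn ▸ dvd_pow_self p n.ne_zero) two_ne_zero
    exact hp.one_lt.ne' (Nat.dvd_one.1 ((Nat.dvd_sub_iff_right (Nat.one_le_pow _ _ (by omega)) h2).1 h1))
  · obtain ⟨g, rfl⟩ := QuotientGroup.mk_surjective g
    obtain ⟨c, hc, y, z, h1, h2, h4⟩ := h g fun h => hg ((QuotientGroup.eq_one_iff g).2 h)
    obtain ⟨u, rfl⟩ := isConj_iff.1 h1
    obtain ⟨v, rfl⟩ := isConj_iff.1 h2
    refine ⟨QuotientGroup.mk u, QuotientGroup.mk v, ?_⟩
    simp only [← QuotientGroup.mk_inv, ← QuotientGroup.mk_mul, ← h4]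
    rw [QuotientGroup.mk_mul, (QuotientGroup.eq_one_iff c).2 hc, one_mul]

end Cfsg.Agent.S2460
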