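import Cfsg.Statements.S2466
import Mathlib
import Cfsg.Agent.H29.Spec

set_option autoImplicit false
open Cfsg

namespace Cfsg.Agent.S2466

/-- Adjacency of odd primes in the prime graph of the alternating groups: let r ≠ s be odd primes at most n. The alternating group of degree n has an element of order r·s if and only if r + s ≤ n. -/
theorem result (n r s : ℕ) (hr : r.Prime) (hs : s.Prime) (hr2 : r ≠ 2) (hs2 : s ≠ 2) (hrs : r ≠ s) (hrn : r ≤ n) (hsn : s ≤ n) :
    (r * s ∈ Set.range (orderOf : alternatingGroup (Fin n) → ℕ)) ↔ r + s ≤ n := by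
  rw [H29.mem_spec_alt]
  constructor
  · rintro ⟨m, h1, h2, -, h4⟩
    have key : ∀ p : ℕ, p.Prime → p ∣ m.lcm → ∃ a ∈ m, p ∣ a := fun p hp h =>
      hp.prime.exists_mem_multiset_dvd (h.trans (Multiset.lcm_dvd.2 fun _ => Multiset.dvd_prod))
    obtain ⟨a, ha, h5⟩ := key r hr (h4 ▸ dvd_mul_right r s)
    obtain ⟨b, hb, h6⟩ := key s hs (h4 ▸ dvd_mul_left s r)
    have := h2 a ha
    have := h2 b hb
    by_cases e : b = a
    · subst e
      have h7 := Nat.le_of_dvd (by omega) (((Nat.coprime_primes hr hs).2 hrs).mul_dvd_of_dvd_of_dvd h5 h6)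
      have h8 := Multiset.single_le_sum (by simp) b hb
      nlinarith [hr.two_le, hs.two_le]
    · obtain ⟨m, rfl⟩ := Multiset.exists_cons_of_mem ha
      have h8 := Multiset.single_le_sum (by simp) b ((Multiset.mem_cons.1 hb).resolve_left e)
      rw [Multiset.sum_cons] at h1
      have := Nat.le_of_dvd (by omega) h5
      have := Nat.le_of_dvd (by omega) h6
      omega
  · intro h
    refine ⟨{r, s}, by simpa using h, by simpa using ⟨hr.two_le, hs.two_le⟩, ?_, ?_⟩
    · simpa [Nat.even_add] using (hr.odd_of_ne_two hr2).add_odd (hs.odd_of_ne_two hs2)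
    · simpa [lcm_eq_nat_lcm] using ((Nat.coprime_primes hr hs).2 hrs).lcm_eq_mul

end Cfsg.Agent.S2466
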