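import Cfsg.Statements.S2467
import Mathlib
import Cfsg.Agent.H29.Spec

set_option autoImplicit false
open Cfsg

namespace Cfsg.Agent.S2467

/-- Adjacency of 2 and an odd prime in the prime graph of the alternating groups: let r be an odd prime at most n, with n ≥ 4. The alternating group of degree n has an element of order 2r if and only if r + 4 ≤ n. -/
theorem result (n r : ℕ) (hn : 4 ≤ n) (hr : r.Prime) (hr2 : r ≠ 2) (hrn : r ≤ n) :
    (2 * r ∈ Set.range (orderOf : alternatingGroup (Fin n) → ℕ)) ↔ r + 4 ≤ n := by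
  rw [H29.mem_spec_alt]
  have h3r : 3 ≤ r := by have := hr.two_le; omega
  have hc : Nat.Coprime 2 r := (Nat.coprime_primes Nat.prime_two hr).2 hr2.symm
  constructor
  · rintro ⟨m, h1, h2, h3, h4⟩
    have key : ∀ p : ℕ, p.Prime → p ∣ m.lcm → ∃ a ∈ m, p ∣ a := fun p hp h =>
      hp.prime.exists_mem_multiset_dvd (h.trans (Multiset.lcm_dvd.2 fun _ => Multiset.dvd_prod))
    obtain ⟨a, ha, h5⟩ := key 2 Nat.prime_two (h4 ▸ dvd_mul_right 2 r)
    obtain ⟨c, hc', h6⟩ := key r hr (h4 ▸ dvd_mul_left r 2)
    obtain ⟨m, rfl⟩ := Multiset.exists_cons_of_mem ha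
    obtain ⟨b, hb, h7⟩ : ∃ b ∈ m, 2 ∣ b := by
      by_contra hn
      push Not at hn
      have : ∀ m : Multiset ℕ, (∀ b ∈ m, ¬ 2 ∣ b) → (m.sum + Multiset.card m) % 2 = 0 := fun m => by
        induction m using Multiset.induction_on with
        | empty => simp
        | cons x m ih =>
          intro h
          have := ih fun b hb => h b (Multiset.mem_cons_of_mem hb)
          have := h x (Multiset.mem_cons_self _ _)
          rw [Multiset.sum_cons, Multiset.card_cons]
          omega
      have := this m hn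
      rw [Multiset.sum_cons, Multiset.card_cons, Nat.even_iff] at h3
      omega
    obtain ⟨m, rfl⟩ := Multiset.exists_cons_of_mem hb
    have := h2 a ha
    have := h2 b (by simp)
    have := h2 c hc'
    rw [Multiset.sum_cons, Multiset.sum_cons] at h1
    rcases Multiset.mem_cons.1 hc' with rfl | hc'
    · have := Nat.le_of_dvd (by omega) (hc.mul_dvd_of_dvd_of_dvd h5 h6)
      omega
    rcases Multiset.mem_cons.1 hc' with rfl | hc'
    · have := Nat.le_of_dvd (by omega) (hc.mul_dvd_of_dvd_of_dvd h7 h6)
      omega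
    have := Multiset.single_le_sum (by simp) c hc'
    have := Nat.le_of_dvd (by omega) h6
    omega
  · intro h
    refine ⟨{2, 2, r}, by simp; omega, by simpa using hr.two_le, ?_, ?_⟩
    · have := Nat.odd_iff.1 (hr.odd_of_ne_two hr2)
      simp [Nat.even_iff]
      omega
    · simp [← lcm_assoc, lcm_eq_nat_lcm, hc.lcm_eq_mul]

end Cfsg.Agent.S2467
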