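import Cfsg.Statements.S2471
import Mathlib
import Cfsg.Agent.L0.PSL2
-- import your own Cfsg.Agent.* helpers here

set_option autoImplicit false
open Cfsg

namespace Cfsg.Agent.S2471

open Cfsg.Agent.L0 Cfsg.Agent.H6

/-- In PSL(2,q) with q odd, the characteristic p is isolated from 2 in the prime graph: for F a finite field of odd characteristic p with at least 5 elements, PSL(2,F) has no element of order 2p. -/
theorem result {F : Type*} [Field F] [Fintype F] (p : ℕ) [Fact p.Prime] [CharP F p] (hp : p ≠ 2) (h5 : 5 ≤ Fintype.card F) (g : Matrix.ProjectiveSpecialLinearGroup (Fin 2) F) :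
    orderOf g ≠ 2 * p := by
  intro h
  have hp' : p.Prime := Fact.out
  obtain ⟨n, -, hn⟩ := FiniteField.card F p
  have hq : p ∣ Fintype.card F := hn ▸ dvd_pow_self p n.ne_zero
  have key : ∀ m : ℕ, 2 * p ∣ m / Nat.gcd 2 (Fintype.card F - 1) →
      Nat.gcd 2 (Fintype.card F - 1) ∣ m → p ∣ m := fun m h1 h2 =>
    ((Dvd.intro_left 2 rfl).trans h1).trans (Nat.div_dvd_of_dvd h2)
  rcases orderOf_p2_dvd p g with h1 | h1 | h1 <;> rw [h] at h1
  · have := Nat.le_of_dvd hp'.pos h1
    have := hp'.pos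
    omega
  · have := key _ h1 (Nat.gcd_dvd_right _ _)
    have h3 := (Nat.dvd_sub hq this)
    rw [show Fintype.card F - (Fintype.card F - 1) = 1 by omega] at h3
    exact hp'.one_lt.ne' (Nat.dvd_one.1 h3)
  · have := key _ h1 (by
      rw [show Fintype.card F + 1 = Fintype.card F - 1 + 2 by omega]
      exact Nat.dvd_add (Nat.gcd_dvd_right _ _) (Nat.gcd_dvd_left _ _))
    exact hp'.one_lt.ne' (Nat.dvd_one.1 ((Nat.dvd_add_right hq).1 this))

end Cfsg.Agent.S2471
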