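import Cfsg.Statements.S2478
import Mathlib
import Cfsg.Agent.H18.Cn4

set_option autoImplicit false
open Cfsg

namespace Cfsg.Agent.S2478

open Cfsg.Agent.H18.Cn

/-- The number of conjugacy classes of GL(n,q): for F a finite field with q elements and n ≥ 1, the number k of conjugacy classes of GL(n,F) satisfies q^n − q^(n−1) ≤ k ≤ q^n. -/
theorem result {F : Type*} [Field F] [Fintype F] (n : ℕ) (hn : 1 ≤ n) :
    Fintype.card F ^ n - Fintype.card F ^ (n - 1) ≤ Nat.card (ConjClasses (Matrix.GeneralLinearGroup (Fin n) F)) ∧ Nat.card (ConjClasses (Matrix.GeneralLinearGroup (Fin n) F)) ≤ Fintype.card F ^ n := by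
  refine ⟨?_, by simpa using gl_le (F := F) n⟩
  obtain ⟨p, hp, -⟩ := FiniteField.card' F
  have := Fact.mk (CharP.char_is_prime F p)
  obtain ⟨n, rfl⟩ : ∃ m, n = m + 1 := ⟨n - 1, by omega⟩
  have h := S2387.result (F := F) rfl p (n + 1) hn
  rw [Nat.add_sub_cancel] at h ⊢
  rw [pow_succ', ← Nat.sub_one_mul, ← h]
  exact Finite.card_subtype_le _

end Cfsg.Agent.S2478
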