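import Cfsg.Statements.S2479
import Mathlib
import Cfsg.Agent.H18.Cn4

set_option autoImplicit false
open Cfsg

namespace Cfsg.Agent.S2479

open Cfsg.Agent.H18.Cn

/-- The number of conjugacy classes of SL(n,q): for F a finite field with q elements, the number k of conjugacy classes of SL(n,F) satisfies q^(n−1) < k and k ≤ (5/2)·q^(n−1) for n ≥ 2, and k ≤ q^(n−1) + 3q^(n−2) for n ≥ 3. -/
theorem result {F : Type*} [Field F] [Fintype F] (n : ℕ) (hn : 2 ≤ n) :
    Fintype.card F ^ (n - 1) < Nat.card (ConjClasses (Matrix.SpecialLinearGroup (Fin n) F)) ∧ 2 * Nat.card (ConjClasses (Matrix.SpecialLinearGroup (Fin n) F)) ≤ 5 * Fintype.card F ^ (n - 1) ∧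
      (3 ≤ n → Nat.card (ConjClasses (Matrix.SpecialLinearGroup (Fin n) F)) ≤ Fintype.card F ^ (n - 1) + 3 * Fintype.card F ^ (n - 2)) := by
  rw [← Nat.card_eq_fintype_card]
  have h2 := two_le_card (F := F)
  have h3 : (0 : ℝ) < (Nat.card F : ℝ) - 1 := sub_pos.2 (by exact_mod_cast h2)
  have h := sl_le (F := F) (n := n) (by omega)
  refine ⟨sl_lt hn, ?_, fun h4 => ?_⟩
  · obtain ⟨n, rfl⟩ : ∃ m, n = m + 1 := ⟨n - 1, by omega⟩
    have h5 := Ac_sl_crude h2 n
    have h6 : 2 * (Nat.card (ConjClasses (Matrix.SpecialLinearGroup (Fin (n + 1)) F)) : ℝ) ≤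
        5 * Nat.card F ^ n := le_of_mul_le_mul_left (by linarith) h3
    exact_mod_cast h6
  · obtain ⟨n, rfl⟩ : ∃ m, n = m + 3 := ⟨n - 3, by omega⟩
    exact_mod_cast le_of_mul_le_mul_left (h.trans (Ac_sl h2 n)) h3

end Cfsg.Agent.S2479
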