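import Cfsg.Statements.S2481
import Mathlib
import Cfsg.Agent.H18.Cn5

set_option autoImplicit false
open Cfsg

namespace Cfsg.Agent.S2481

open Cfsg.Agent.H18.Cn Cfsg.Agent.H11

/-- The number of conjugacy classes of SU(n,q): for n ≥ 2, q a prime power and F the field with q² elements, the number k of conjugacy classes of SU(n,q) (the determinant-one isometries of the standard Hermitian form on F^n) satisfies q^(n−1) ≤ k ≤ 8.26·q^(n−1). -/
theorem result {F : Type*} [Field F] [Fintype F] (n q : ℕ) (hn : 2 ≤ n) (hF : Fintype.card F = q ^ 2) :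
    q ^ (n - 1) ≤ Nat.card (ConjClasses (Cfsg.SU n F q)) ∧ 100 * Nat.card (ConjClasses (Cfsg.SU n F q)) ≤ 826 * q ^ (n - 1) := by
  have hq := qConj_conjQ hF
  obtain ⟨n, rfl⟩ : ∃ m, n = m + 2 := ⟨n - 2, by omega⟩
  constructor
  · obtain ⟨p, hp, -⟩ := FiniteField.card' F
    have := Fact.mk (CharP.char_is_prime F p)
    exact (su_semis hq p (n + 1)).ge.trans (Finite.card_subtype_le _)
  · have h1 := su_le hq (n := n + 2) (by omega)
    have h2 := Ac_su hq.two_le n
    have h3 : 100 * (Nat.card (ConjClasses (Cfsg.SU (n + 2) F q)) : ℝ) ≤ 826 * q ^ (n + 1) :=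
      le_of_mul_le_mul_left (a := (q : ℝ) + 1) (by linarith) (by positivity)
    exact_mod_cast h3

end Cfsg.Agent.S2481
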