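import Cfsg.Statements.S2485
import Mathlib


set_option autoImplicit false
open scoped Pointwise
open Cfsg

namespace Cfsg.Agent.S2485

open Matrix in
theorem mk_comm {F : Type*} [Field F] {g h : GL (Fin 2) F} :
    Commute (g : GL (Fin 2) F ⧸ Subgroup.center (GL (Fin 2) F)) h ↔
      ∃ u : F, g.1 * h.1 = u • (h.1 * g.1) := by
  rw [commute_iff_eq, ← QuotientGroup.mk_mul, ← QuotientGroup.mk_mul, eq_comm, QuotientGroup.eq,
    GeneralLinearGroup.mem_center_iff_val_mem_range_scalar]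
  refine exists_congr fun u => ?_
  rw [Units.val_mul, eq_comm, Units.inv_mul_eq_iff_eq_mul, scalar_apply, ← smul_eq_mul_diagonal]
  rfl

theorem mk_ne_one {F : Type*} [Field F] (h2 : (2 : F) ≠ 0) {g : GL (Fin 2) F}
    (h : g.1 0 0 + g.1 1 1 = 0) : (g : GL (Fin 2) F ⧸ Subgroup.center (GL (Fin 2) F)) ≠ 1 := by
  rw [Ne, QuotientGroup.eq_one_iff, Matrix.GeneralLinearGroup.mem_center_iff_val_mem_range_scalar]
  rintro ⟨u, hu⟩
  have := g.det_ne_zero
  rw [← hu] at h this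
  simp only [Matrix.scalar_apply, Matrix.diagonal_apply_eq, ← two_mul, mul_eq_zero, h2, false_or] at h
  simp [h] at this

/-- Let q = 2^k − 1 ≥ 7 be a prime and let G = PGL(2,q), the general linear group of degree 2 over the field with q elements modulo its centre. Then any two Sylow 2-subgroups of G have a non-trivial intersection: for a Sylow 2-subgroup H and every x ∈ G, H ∩ H^x ≠ 1. -/
theorem result {q k : ℕ} [Fact q.Prime] (hk : q + 1 = 2 ^ k) (hq : 7 ≤ q)
    (H : Sylow 2 (GL (Fin 2) (ZMod q) ⧸ Subgroup.center (GL (Fin 2) (ZMod q))))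
    (x : GL (Fin 2) (ZMod q) ⧸ Subgroup.center (GL (Fin 2) (ZMod q))) :
    (H : Subgroup (GL (Fin 2) (ZMod q) ⧸ Subgroup.center (GL (Fin 2) (ZMod q)))) ⊓ MulAut.conj x • (H : Subgroup _) ≠ ⊥ := by
  have k2 : 2 ≤ k := by
    by_contra n
    have : k ≤ 1 := by omega
    interval_cases k <;> omega
  have q4 : q % 4 = 3 := by have : 4 ∣ 2 ^ k := pow_dvd_pow 2 k2; omega
  have h2 : (2 : ZMod q) ≠ 0 := fun e =>
    absurd (Nat.le_of_dvd two_pos ((ZMod.natCast_eq_zero_iff 2 q).1 e)) (by omega)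
  have an : ∀ a b : ZMod q, a * a + b * b = 0 → a = 0 ∧ b = 0 := fun a b e => by
    have hb : b = 0 := by
      by_contra hb
      exact ZMod.exists_sq_eq_neg_one_iff.1 ⟨a / b, by field_simp; linear_combination -e⟩ q4
    simpa [hb] using e
  let j : GL (Fin 2) (ZMod q) := Matrix.GeneralLinearGroup.mkOfDetNeZero !![0, -1; 1, 0]
    (by simp [Matrix.det_fin_two])
  have jv : j.1 = !![0, -1; 1, 0] := rfl
  have pw : ∀ g : GL (Fin 2) (ZMod q), g.1 0 0 = g.1 1 1 → g.1 0 1 = -g.1 1 0 →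
      (g : GL (Fin 2) (ZMod q) ⧸ Subgroup.center _) ^ 2 ^ k = 1 := fun g h1 h3 => by
    rw [← QuotientGroup.mk_pow, QuotientGroup.eq_one_iff,
      Matrix.GeneralLinearGroup.mem_center_iff_val_mem_range_scalar, ← hk, Units.val_pow_eq_pow_val]
    have e : g.1 = g.1 0 0 • (1 : Matrix (Fin 2) (Fin 2) (ZMod q)) + g.1 1 0 • j.1 := by
      ext a b; fin_cases a <;> fin_cases b <;> simp [jv, h1, h3]
    have j2 : j.1 ^ 2 = -1 := by
      ext a b; fin_cases a <;> fin_cases b <;> simp [jv, pow_two]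
    have jq : j.1 ^ q = -j.1 := by
      rw [show j.1 ^ q = (j.1 ^ 2) ^ (2 * (q / 4) + 1) * j.1 by
        rw [← pow_mul, ← pow_succ]; congr 1; omega, j2, Odd.neg_one_pow ⟨_, rfl⟩, neg_one_mul]
    generalize g.1 0 0 = a at e
    generalize g.1 1 0 = b at e
    refine ⟨a * a + b * b, ?_⟩
    rw [pow_succ, e, add_pow_char_of_commute _ ((Commute.one_left _).smul_left _ |>.smul_right _),
      smul_pow, smul_pow, one_pow, jq, ZMod.pow_card, ZMod.pow_card]
    ext a b; fin_cases a <;> fin_cases b <;> simp [jv, Matrix.mul_apply, Matrix.one_apply] <;> ring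
  have hC : IsPGroup 2 (Subgroup.centralizer {(j : GL (Fin 2) (ZMod q) ⧸ Subgroup.center _)}) := by
    rintro ⟨g, hg⟩
    obtain ⟨g, rfl⟩ := QuotientGroup.mk_surjective g
    obtain ⟨u, hu⟩ := mk_comm.1 (Subgroup.mem_centralizer_singleton_iff.1 hg)
    have h00 := congrFun (congrFun hu 0) 0
    have h01 := congrFun (congrFun hu 0) 1
    have h10 := congrFun (congrFun hu 1) 0
    have h11 := congrFun (congrFun hu 1) 1
    have hd := g.det_ne_zero
    simp [jv, Matrix.mul_apply, Matrix.det_fin_two, Matrix.vecMul, dotProduct] at h00 h01 h10 h11 hd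
    refine ⟨k + 1, Subtype.ext ?_⟩
    rw [pow_succ', pow_mul]
    have : (u * u - 1) * (g.1 0 0 * g.1 1 1 - g.1 0 1 * g.1 1 0) = 0 := by grind
    have := sub_eq_zero.1 ((mul_eq_zero.1 this).resolve_right hd)
    refine pw (g ^ 2) ?_ ?_ <;>
      simp only [pow_two, Units.val_mul, Matrix.mul_apply, Fin.sum_univ_two] <;> grind
  obtain ⟨P, hP⟩ := hC.exists_le_sylow
  obtain ⟨y, rfl⟩ := MulAction.exists_smul_eq (GL (Fin 2) (ZMod q) ⧸ Subgroup.center _) P H
  obtain ⟨z, hz⟩ := QuotientGroup.mk_surjective (y⁻¹ * x * y)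
  obtain ⟨t, t1, t2, t3⟩ : ∃ t : GL (Fin 2) (ZMod q) ⧸ Subgroup.center _, t ≠ 1 ∧ Commute t j ∧
      Commute t (z * j * z⁻¹ : GL (Fin 2) (ZMod q)) := by
    have tr : (z * j * z⁻¹).1 0 0 + (z * j * z⁻¹).1 1 1 = 0 := by
      rw [← Matrix.trace_fin_two, Units.val_mul, Matrix.trace_mul_comm, Units.val_mul, ← mul_assoc,
        Units.inv_mul, one_mul, jv]
      simp
    generalize z * j * z⁻¹ = b at tr
    by_cases c : b.1 0 0 = 0 ∧ b.1 0 1 + b.1 1 0 = 0
    · refine ⟨j, mk_ne_one h2 (by simp [jv]), Commute.refl _, mk_comm.2 ⟨1, ?_⟩⟩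
      ext r s; fin_cases r <;> fin_cases s <;>
        simp [jv, Matrix.mul_apply, Matrix.vecMul, dotProduct] <;> grind
    · refine ⟨Matrix.GeneralLinearGroup.mkOfDetNeZero !![b.1 0 1 + b.1 1 0, -(2 * b.1 0 0);
        -(2 * b.1 0 0), -(b.1 0 1 + b.1 1 0)] fun e => c ?_, mk_ne_one h2 (by simp),
        mk_comm.2 ⟨-1, ?_⟩, mk_comm.2 ⟨-1, ?_⟩⟩
      · rw [Matrix.det_fin_two_of] at e
        have := an (b.1 0 1 + b.1 1 0) (2 * b.1 0 0) (by linear_combination -e)
        exact ⟨(mul_eq_zero.1 this.2).resolve_left h2, this.1⟩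
      all_goals
        ext r s; fin_cases r <;> fin_cases s <;>
          simp [jv, Matrix.mul_apply, Matrix.vecMul, dotProduct] <;> grind
  refine (Subgroup.ne_bot_iff_exists_ne_one).2 ⟨⟨y * t * y⁻¹, ?_, ?_⟩, fun e => t1 ?_⟩
  · exact Subgroup.smul_mem_pointwise_smul _ (MulAut.conj y) _
      (hP (Subgroup.mem_centralizer_singleton_iff.2 t2))
  · refine ⟨y * ((z : GL (Fin 2) (ZMod q) ⧸ Subgroup.center _)⁻¹ * t * z) * y⁻¹,
      Subgroup.smul_mem_pointwise_smul _ (MulAut.conj y) _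
      (hP (Subgroup.mem_centralizer_singleton_iff.2 ?_)), ?_⟩
    · simpa [mul_assoc] using (t3.map (MulAut.conj (z : GL (Fin 2) (ZMod q) ⧸ Subgroup.center _)⁻¹)).eq
    · rw [hz]
      show x * _ * x⁻¹ = _
      group
  · simpa using congrArg Subtype.val e

end Cfsg.Agent.S2485
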