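import Cfsg.Statements.S2486
import Mathlib
import Cfsg.Agent.H28.Par

set_option autoImplicit false
open scoped Pointwise
open Cfsg

namespace Cfsg.Agent.S2486

open Matrix H28.Par Subgroup

variable {n : ℕ}

/-- The Borel subgroup. -/
abbrev Bo (n : ℕ) : Subgroup (GL (Fin n) (ZMod 2)) := parabolicGL n (ZMod 2) fun _ => 1

theorem label (i : Fin n) : compLabel (fun _ : Fin n => 1) i = i := by
  rw [compLabel_eq_iff]
  simp [Finset.filter_gt_eq_Iio]

theorem mem_Bo {g : GL (Fin n) (ZMod 2)} : g ∈ Bo n ↔ ∀ i j, j < i → g.1 i j = 0 := by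
  change (∀ i j, _ → _) ↔ _
  simp only [label, Fin.val_fin_lt]

/-- An elementary transvection. -/
noncomputable def tv {i j : Fin n} (h : i ≠ j) : GL (Fin n) (ZMod 2) :=
  GeneralLinearGroup.mkOfDetNeZero (transvection i j 1) (by simp [det_transvection_of_ne _ _ h])

theorem tv_val {i j : Fin n} (h : i ≠ j) : (tv h).1 = 1 + single i j 1 := rfl

theorem tv_mem {i j : Fin n} (h : i < j) : tv h.ne ∈ Bo n := mem_Bo.mpr fun a b hab => by
  have : ¬ (i = a ∧ j = b) := by rintro ⟨rfl, rfl⟩; omega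
  simp [tv_val, hab.ne', this]

theorem tv_ne {i j : Fin n} (h : i ≠ j) : tv h ≠ 1 := fun e => by
  have := congrArg (fun g : GL (Fin n) (ZMod 2) => g.1 i j) e
  simp [tv_val, h] at this

theorem pm_tv (σ : Equiv.Perm (Fin n)) {i j : Fin n} (h : i ≠ j) :
    pm (ZMod 2) σ * tv h * (pm (ZMod 2) σ)⁻¹ = tv (σ.injective.ne h) := by
  rw [mul_inv_eq_iff_eq_mul]
  ext a b
  simp only [Units.val_mul, tv_val, mul_add, add_mul, mul_one, one_mul, Matrix.add_apply,
    add_right_inj]
  by_cases h1 : b = j <;> by_cases h2 : a = σ i <;> simp [h1, h2, pm_apply, Ne.symm]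

theorem add_self' (A : Matrix (Fin n) (Fin n) (ZMod 2)) : A + A = 0 := by
  rw [← two_smul (ZMod 2), show (2 : ZMod 2) = 0 from rfl, zero_smul]

theorem tv_sq {i j : Fin n} (h : i ≠ j) : tv h * tv h = 1 := Units.ext (by
  have a : single i j (1 : ZMod 2) * single i j (1 : ZMod 2) = 0 :=
    single_mul_single_of_ne _ _ _ _ h.symm _
  rw [Units.val_mul, tv_val, Units.val_one]
  linear_combination (norm := noncomm_ring) a + add_self' (single i j 1))

theorem tv_cube {i j : Fin n} (h : i ≠ j) : (tv h * tv h.symm) ^ 3 = 1 := by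
  have : tv h * tv h.symm * tv h = tv h.symm * tv h * tv h.symm := Units.ext (by
    have a : single i j (1 : ZMod 2) * single i j (1 : ZMod 2) = 0 :=
      single_mul_single_of_ne _ _ _ _ h.symm _
    have b : single j i (1 : ZMod 2) * single j i (1 : ZMod 2) = 0 :=
      single_mul_single_of_ne _ _ _ _ h _
    have c : single i j (1 : ZMod 2) * single j i (1 : ZMod 2) * single i j (1 : ZMod 2) =
      single i j 1 := by simp
    have d : single j i (1 : ZMod 2) * single i j (1 : ZMod 2) * single j i (1 : ZMod 2) =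
      single j i 1 := by simp
    simp only [Units.val_mul, tv_val]
    linear_combination (norm := noncomm_ring) a - b + c - d + add_self' (single i j 1) -
      add_self' (single j i 1))
  calc _ = (tv h * tv h.symm * tv h) * (tv h.symm * tv h * tv h.symm) := by
        simp only [pow_succ, pow_zero, one_mul, mul_assoc]
    _ = tv h * (tv h.symm * (tv h * tv h) * tv h.symm) * tv h := by
        rw [← this]; simp only [mul_assoc]
    _ = 1 := by simp only [tv_sq, mul_one]

theorem isP (hn : 1 ≤ n) : IsPGroup 2 (Bo n) := fun g => ⟨n, Subtype.ext (Units.ext (by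
  have : Nonempty (Fin n) := ⟨⟨0, hn⟩⟩
  have h1 : (g.1.1).BlockTriangular id := fun i j h => mem_Bo.mp g.2 i j h
  have h2 : ∀ i, g.1.1 i i = 1 := fun i => by
    have := g.1.det_ne_zero
    rw [det_of_isUpperTriangular h1, Finset.prod_ne_zero_iff] at this
    have k : ∀ a : ZMod 2, a ≠ 0 → a = 1 := by decide
    exact k _ (this i (Finset.mem_univ i))
  have h3 := aeval_self_charpoly (g.1.1 - 1)
  rw [charpoly_of_isUpperTriangular _ (h1.sub blockTriangular_one)] at h3
  simp [h2] at h3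
  have h4 := add_pow_char_pow_of_commute 2 n (Commute.one_left (g.1.1 - 1))
  rw [add_sub_cancel, one_pow, pow_eq_zero_of_le Nat.lt_two_pow_self.le h3, add_zero] at h4
  simpa using h4))⟩

theorem le_of_isP {Q : Subgroup (GL (Fin n) (ZMod 2))} (hQ : IsPGroup 2 Q) (h : Bo n ≤ Q) :
    Q ≤ Bo n := fun g hg => by
  obtain ⟨σ, p, hp, q, hq, rfl⟩ := bruhat (fun _ => 1) (fun _ => 1) g
  have hw : pm (ZMod 2) σ ∈ Q := by
    simpa [mul_assoc] using mul_mem (mul_mem (inv_mem (h hp)) hg) (inv_mem (h hq))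
  have hm : StrictMono σ := fun i j hij => by
    by_contra hc
    have hc : σ j < σ i := lt_of_le_of_ne (not_lt.mp hc) (σ.injective.ne hij.ne')
    have h1 : tv hc.ne' ∈ Q := pm_tv σ hij.ne ▸ mul_mem (mul_mem hw (h (tv_mem hij))) (inv_mem hw)
    obtain ⟨k, hk⟩ := hQ ⟨_, mul_mem h1 (h (tv_mem hc))⟩
    have h3 := tv_cube hc.ne'
    have h4 : tv hc.ne' * tv hc.ne = 1 := by
      have := pow_gcd_eq_one.mpr ⟨congrArg Subtype.val hk, h3⟩
      rwa [Nat.Coprime.gcd_eq_one (Nat.Coprime.pow_left _ (by norm_num)), pow_one] at this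
    have := congrArg (fun g : GL (Fin n) (ZMod 2) => g.1 (σ j) (σ i)) h4
    simp [tv_val, mul_add, add_mul, hc.ne, hc.ne'] at this
  have : σ = 1 := Equiv.ext fun i => hm.apply_eq
  rw [this, map_one, mul_one]
  exact mul_mem hp hq

theorem exists_rev {g : GL (Fin n) (ZMod 2)} (h : ∀ b ∈ Bo n, g * b * g⁻¹ ∈ Bo n → b = 1) :
    ∃ p ∈ Bo n, ∃ q ∈ Bo n, g = p * pm (ZMod 2) Fin.revPerm * q := by
  obtain ⟨σ, p, hp, q, hq, rfl⟩ := bruhat (fun _ => 1) (fun _ => 1) g
  have hm : StrictAnti σ := fun i j hij => by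
    by_contra hc
    have hc : σ i < σ j := lt_of_le_of_ne (not_lt.mp hc) (σ.injective.ne hij.ne)
    have := h (q⁻¹ * tv hij.ne * q) (mul_mem (mul_mem (inv_mem hq) (tv_mem hij)) hq) (by
      have : p * pm (ZMod 2) σ * q * (q⁻¹ * tv hij.ne * q) * (p * pm (ZMod 2) σ * q)⁻¹ =
          p * (pm (ZMod 2) σ * tv hij.ne * (pm (ZMod 2) σ)⁻¹) * p⁻¹ := by group
      rw [this, pm_tv]
      exact mul_mem (mul_mem hp (tv_mem hc)) (inv_mem hp))
    exact tv_ne hij.ne (by simpa [mul_assoc, inv_mul_eq_one] using this)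
  have : σ = Fin.revPerm := Equiv.ext fun i => by
    have := congrFun (hm.comp Fin.rev_strictAnti).eq_id i.rev
    simpa using this
  exact ⟨p, hp, q, hq, by rw [this]⟩

/-- Let n ≥ 4 and let G be a finite group with a normal subgroup N of index 2 isomorphic to SL(n,2) and with trivial centralizer in G (so G is the extension of the simple group L_n(2) by its inverse-transpose automorphism, its full automorphism group). Then any two Sylow 2-subgroups of G have a non-trivial intersection: for a Sylow 2-subgroup H and every x ∈ G, H ∩ H^x ≠ 1. -/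
theorem result {G : Type*} [Group G] [Finite G] {n : ℕ} (hn : 4 ≤ n) (N : Subgroup G) [N.Normal]
    (e : N ≃* Matrix.SpecialLinearGroup (Fin n) (ZMod 2)) (hidx : N.index = 2)
    (hC : Subgroup.centralizer (N : Set G) = ⊥)
    (H : Sylow 2 G) (x : G) :
    (H : Subgroup G) ⊓ MulAut.conj x • (H : Subgroup G) ≠ ⊥ := by
  have hb : Function.Bijective (SpecialLinearGroup.toGL (n := Fin n) (R := ZMod 2)) :=
    ⟨SpecialLinearGroup.toGL_injective, fun g => ⟨⟨g.1, by
      have k : ∀ a : ZMod 2, a ≠ 0 → a = 1 := by decide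
      exact k _ g.det_ne_zero⟩, Units.ext rfl⟩⟩
  let f := e.trans (MulEquiv.ofBijective _ hb)
  let ι : GL (Fin n) (ZMod 2) →* G := N.subtype.comp f.symm.toMonoidHom
  have hι : Function.Injective ι := N.subtype_injective.comp f.symm.injective
  have hN : ∀ g ∈ N, ∃ a, ι a = g := fun g hg => ⟨f ⟨g, hg⟩, by simp [ι]⟩
  have hN' : ∀ a, ι a ∈ N := fun a => (f.symm a).2
  obtain ⟨P, hP⟩ := ((isP (n := n) (by omega)).map ι).exists_le_sylow
  have hB : ∀ a, a ∈ Bo n ↔ ι a ∈ P := fun a => ⟨fun h => hP ⟨a, h, rfl⟩, fun h =>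
    le_of_isP (P.isPGroup'.comap_of_injective ι hι) (map_le_iff_le_comap.mp hP) h⟩
  obtain ⟨h, hh, hhN⟩ : ∃ h ∈ P, h ∉ N := by
    by_contra hc
    push Not at hc
    exact P.not_dvd_index (hidx.symm.dvd.trans (index_dvd_of_le hc))
  obtain ⟨y, rfl⟩ := MulAction.exists_smul_eq G P H
  obtain ⟨g, p, hp, hx⟩ : ∃ g, ∃ p ∈ P, y⁻¹ * x * y = ι g * p := by
    by_cases hx : y⁻¹ * x * y ∈ N
    · obtain ⟨a, ha⟩ := hN _ hx
      exact ⟨a, 1, one_mem _, by rw [ha, mul_one]⟩
    · obtain ⟨a, ha⟩ := hN (y⁻¹ * x * y * h⁻¹) ((mul_mem_iff_of_index_two hidx).mpr (by simp [hx, hhN]))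
      exact ⟨a, h, hh, by rw [ha, inv_mul_cancel_right]⟩
  intro hc
  have key : ∀ a ∈ P, ι g * a * (ι g)⁻¹ ∈ P → a = 1 := fun a ha ha' => by
    have : y * (ι g * a * (ι g)⁻¹) * y⁻¹ ∈ (⊥ : Subgroup G) := by
      rw [← hc]
      refine ⟨⟨_, ha', rfl⟩, y * (p⁻¹ * a * p) * y⁻¹,
        ⟨_, mul_mem (mul_mem (inv_mem hp) ha) hp, rfl⟩, ?_⟩
      have : x = y * (ι g * p) * y⁻¹ := by rw [← hx]; group
      change x * _ * x⁻¹ = _
      rw [this]; group
    rwa [mem_bot, conj_eq_one_iff, conj_eq_one_iff] at this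
  obtain ⟨g', hg'⟩ := hN _ (‹N.Normal›.conj_mem _ (hN' g) h)
  obtain ⟨u, hu, v, hv, e1⟩ := exists_rev (g := g) fun b hb hb' => hι (by
    rw [map_one]; exact key _ ((hB _).mp hb) (by simpa using (hB _).mp hb'))
  obtain ⟨u', hu', v', hv', e2⟩ := exists_rev (g := g') fun b hb hb' => hι (by
    have h1 := (hB _).mp hb'
    rw [map_mul, map_mul, map_inv, hg'] at h1
    have := key (h⁻¹ * ι b * h) (mul_mem (mul_mem (inv_mem hh) ((hB _).mp hb)) hh) (by
      convert mul_mem (mul_mem (inv_mem hh) h1) hh using 1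
      group)
    simpa [mul_assoc, inv_mul_eq_one] using this)
  have e3 : g' = u' * u⁻¹ * g * (v⁻¹ * v') := by rw [e1, e2]; group
  have := key (ι (v⁻¹ * v') * h) (mul_mem ((hB _).mp (mul_mem (inv_mem hv) hv')) hh) (by
    have : ι g * (ι (v⁻¹ * v') * h) * (ι g)⁻¹ = (ι (u' * u⁻¹))⁻¹ * h := by
      rw [eq_inv_mul_iff_mul_eq]
      calc _ = ι (u' * u⁻¹ * g * (v⁻¹ * v')) * h * (ι g)⁻¹ := by simp only [map_mul, mul_assoc]
        _ = h := by rw [← e3, hg']; group
    rw [this]
    exact mul_mem (inv_mem ((hB _).mp (mul_mem hu' (inv_mem hu)))) hh)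
  exact hhN (by rw [eq_inv_of_mul_eq_one_right this]; exact inv_mem (hN' _))

end Cfsg.Agent.S2486
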