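import Cfsg.Statements.S2487
import Mathlib
import Cfsg.Agent.H11.Bridge

set_option autoImplicit false
open scoped Pointwise
open Cfsg

namespace Cfsg.Agent.S2487

open Module Matrix Cfsg.Agent.H11

theorem exists_fix {F : Type*} [Field F] {V : Type*} [AddCommGroup V] [Module F V]
    {B : V →ₗ[F] V →ₗ[F] F} {Q : V → F} [FiniteDimensional F V] (h : IsQuad B Q)
    (hB : B.SeparatingLeft) {J : Type} [Fintype J] (u : J → V)
    (hJ : Fintype.card J + 2 ≤ finrank F V) : ∃ g : Isom B Q, g ≠ 1 ∧ ∀ j, g.1 (u j) = u j := by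
  let φ : V →ₗ[F] (J → F) := LinearMap.pi fun j => B.flip (u j)
  have hk : ∀ v ∈ LinearMap.ker φ, ∀ j, B v (u j) = 0 := fun v hv j => congrFun (LinearMap.mem_ker.1 hv) j
  have h2 : 2 ≤ finrank F (LinearMap.ker φ) := by
    have a := φ.finrank_range_add_finrank_ker
    have b := (LinearMap.range φ).finrank_le
    rw [finrank_fintype_fun_eq_card] at b
    omega
  have sep : ∀ n : V, n ≠ 0 → ∃ v, B n v ≠ 0 := fun n hn => by
    by_contra k
    push Not at k
    exact hn (hB n k)
  obtain ⟨p, hp, p0⟩ := (Submodule.ne_bot_iff _).1 fun e : LinearMap.ker φ = ⊥ => by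
    rw [e, finrank_bot] at h2; omega
  obtain ⟨q, hq, q0⟩ := SetLike.not_le_iff_exists.1 fun e : LinearMap.ker φ ≤ F ∙ p => by
    have := Submodule.finrank_mono e
    rw [finrank_span_singleton p0] at this
    omega
  by_cases hs : ∃ n ∈ LinearMap.ker φ, Q n ≠ 0
  · obtain ⟨n, hn, hQ⟩ := hs
    have n0 : n ≠ 0 := fun e => hQ (by simpa [e] using h.smul' 0 n)
    obtain ⟨v, hv⟩ := sep n n0
    refine ⟨h.reflO n, fun e => ?_, fun j => h.reflO_of_perp (hk n hn j)⟩
    have := h.reflO_apply n v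
    rw [e, OneMemClass.coe_one, LinearEquiv.coe_one, id, eq_comm, sub_eq_self, smul_eq_zero] at this
    exact this.elim (mul_ne_zero (inv_ne_zero hQ) hv) n0
  push Not at hs
  have hpq : B p q = 0 := by
    have := h.add' p q
    rwa [hs p hp, hs q hq, hs _ (add_mem hp hq), zero_add, zero_add, eq_comm] at this
  obtain ⟨v, hv⟩ := sep p p0
  refine ⟨h.eich (hs p hp) hpq, fun e => q0 ?_, fun j => by
    rw [h.eich_apply, hk p hp, hk q hq]; simp⟩
  have := h.eich_apply (hs p hp) hpq v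
  rw [e, OneMemClass.coe_one, LinearEquiv.coe_one, id, hs q hq, zero_mul, zero_smul, sub_zero,
    add_sub_assoc, eq_comm, add_eq_left, sub_eq_zero] at this
  refine Submodule.mem_span_singleton.2 ⟨(B p v)⁻¹ * B q v, ?_⟩
  rw [mul_smul, this, smul_smul, inv_mul_cancel₀ hv, one_smul]

theorem pow_four {F : Type*} [Field F] (h2 : ∀ a : F, a = 0 ∨ a = 1) {m : ℕ} (i₀ : Fin m)
    (g : Isom (bPlus m F) (quadFormPlus m F))
    (hg : ∀ i, i ≠ i₀ → g.1 (Pi.single (.inl i) 1) = Pi.single (.inl i) 1) : g ^ 4 = 1 := by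
  have h := isQuad_plus m F
  have two : (1 : F) + 1 = 0 := (h2 _).resolve_right (by simp)
  have vv : ∀ v : Fin m ⊕ Fin m → F, v + v = 0 := fun v => by
    rw [← one_smul F v, ← add_smul, two, zero_smul]
  let P : (Fin m ⊕ Fin m → F) → Prop := fun v => ∀ i, i ≠ i₀ → v (.inr i) = 0
  have c1 : ∀ v i, i ≠ i₀ → g.1 v (.inr i) = v (.inr i) := fun v i hi => by
    rw [← bPlus_single_inl m i v, ← bPlus_single_inl m i (g.1 v), ← g.2.1 _ v, hg i hi]
  have bP : ∀ v w, P v → P w → bPlus m F v w =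
      v (.inl i₀) * w (.inr i₀) + v (.inr i₀) * w (.inl i₀) := fun v w hv hw => by
    rw [bPlus_apply, Finset.sum_eq_single i₀ (fun i _ hi => by rw [hv i hi, hw i hi]; ring) (by simp)]
  have qP : ∀ v, P v → quadFormPlus m F v = v (.inl i₀) * v (.inr i₀) := fun v hv => by
    rw [quadFormPlus, Finset.sum_eq_single i₀ (fun i _ hi => by rw [hv i hi]; ring) (by simp)]
  have gP : ∀ v, P v → P (g.1 v) := fun v hv i hi => by rw [c1 v i hi, hv i hi]
  have fix : ∀ v, P v → v (.inl i₀) = 0 → v (.inr i₀) = 0 → g.1 v = v := fun v hv a b => by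
    have e : v = ∑ i, v (.inl i) • (Pi.single (.inl i) 1 : Fin m ⊕ Fin m → F) := by
      ext (j | j)
      · simp [Pi.single_apply, Finset.sum_apply]
      · by_cases k : j = i₀
        · simp [Finset.sum_apply, k, b]
        · simp [Finset.sum_apply, hv j k]
    rw [e, map_sum]
    refine Finset.sum_congr rfl fun i _ => ?_
    by_cases k : i = i₀
    · rw [k, a, zero_smul, map_zero]
    · rw [map_smul, hg i k]
  let n : Fin m ⊕ Fin m → F := Pi.single (.inl i₀) 1 + Pi.single (.inr i₀) 1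
  have n1 : n (.inl i₀) = 1 := by simp [n]
  have n2 : n (.inr i₀) = 1 := by simp [n]
  have nP : P n := fun i hi => by simp [n, hi]
  have gn : g.1 n (.inl i₀) = 1 ∧ g.1 n (.inr i₀) = 1 := by
    have := g.2.2 n
    rw [qP _ (gP n nP), qP n nP, n1, n2, one_mul] at this
    rcases h2 (g.1 n (.inl i₀)) with a | a <;> rcases h2 (g.1 n (.inr i₀)) with b | b <;> simp_all
  have s1 : ∀ v, P (g.1 v + v) := fun v i hi => by
    rw [Pi.add_apply, c1 v i hi]; exact congrFun (vv v) _
  have s2 : ∀ v, P v → (g.1 v + v) (.inl i₀) = (g.1 v + v) (.inr i₀) := fun v hv => by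
    have := g.2.1 v n
    rw [bP _ _ (gP v hv) (gP n nP), bP _ _ hv nP, gn.1, gn.2, n1, n2] at this
    simp only [Pi.add_apply]
    linear_combination this + (v (.inl i₀) - g.1 v (.inr i₀)) * two
  have s3 : ∀ v, P v → v (.inl i₀) = v (.inr i₀) → g.1 (g.1 v + v) = g.1 v + v := fun v hv e => by
    rcases h2 (v (.inl i₀)) with a | a
    · rw [fix v hv a (e ▸ a), vv, map_zero]
    · have b := fix (v + n) (fun i hi => by rw [Pi.add_apply, hv i hi, nP i hi, add_zero])
        (by rw [Pi.add_apply, a, n1, two]) (by rw [Pi.add_apply, ← e, a, n2, two])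
      have c : g.1 v + v = g.1 n + n := by
        rw [map_add] at b
        linear_combination b + vv v - vv (g.1 n)
      rw [c]
      exact fix _ (s1 n) (by rw [Pi.add_apply, gn.1, n1, two]) (by rw [Pi.add_apply, gn.2, n2, two])
  refine Subtype.ext (LinearEquiv.ext fun v => ?_)
  have a := s3 _ (s1 (g.1 v + v)) (s2 _ (s1 v))
  simp only [map_add] at a
  show g.1 (g.1 (g.1 (g.1 v))) = v
  linear_combination a + vv (g.1 v) - vv (g.1 (g.1 (g.1 v))) - vv (g.1 (g.1 v)) +
    vv (g.1 v) - vv (g.1 (g.1 (g.1 v))) + vv (g.1 (g.1 (g.1 v))) - vv (g.1 v) + vv (g.1 (g.1 v))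

/-- Let m ≥ 4 and let G be the full isometry group of the hyperbolic quadratic form x₁y₁ + ⋯ + x_m y_m on the 2m-dimensional space over the field with 2 elements (the orthogonal group O⁺(2m,2), which contains Ω⁺(2m,2) with index 2). Then any two Sylow 2-subgroups of G have a non-trivial intersection: for a Sylow 2-subgroup H and every x ∈ G, H ∩ H^x ≠ 1. -/
theorem result {F : Type*} [Field F] [Fintype F] (hF : Fintype.card F = 2) {m : ℕ} (hm : 4 ≤ m)
    (H : Sylow 2 (Cfsg.isometryGroup F (Cfsg.quadFormPlus m F)))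
    (x : Cfsg.isometryGroup F (Cfsg.quadFormPlus m F)) :
    (H : Subgroup (Cfsg.isometryGroup F (Cfsg.quadFormPlus m F))) ⊓ MulAut.conj x • (H : Subgroup _) ≠ ⊥ := by
  classical
  have h := isQuad_plus m F
  have h2 : ∀ a : F, a = 0 ∨ a = 1 := fun a => by
    have := FiniteField.pow_card a
    rw [hF, pow_two] at this
    exact (eq_or_ne a 0).imp_right fun k => mul_left_cancel₀ k (this.trans (mul_one a).symm)
  let i₀ : Fin m := ⟨0, by omega⟩
  let e : Fin m → (Fin m ⊕ Fin m → F) := fun i => Pi.single (.inl i) 1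
  let K : Subgroup (isometryGroup F (quadFormPlus m F)) :=
    ⨅ i : {i // i ≠ i₀}, (MulAction.stabilizer _ (e i)).comap
      ((Isom (bPlus m F) (quadFormPlus m F)).subtype.comp (oEquiv h).toMonoidHom)
  have hK : ∀ g, g ∈ K ↔ ∀ i, i ≠ i₀ → (oEquiv h g).1 (e i) = e i := fun g => by
    simp only [K, Subgroup.mem_iInf, Subtype.forall]; rfl
  have hp : IsPGroup 2 K := fun g => ⟨2, Subtype.ext ((oEquiv h).injective (by
    rw [SubgroupClass.coe_pow, map_pow, OneMemClass.coe_one, map_one]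
    exact pow_four h2 i₀ _ ((hK g).1 g.2)))⟩
  obtain ⟨S, hS⟩ := hp.exists_le_sylow
  obtain ⟨a, rfl⟩ := MulAction.exists_smul_eq (isometryGroup F (quadFormPlus m F)) S H
  obtain ⟨g, g1, hg⟩ := exists_fix h (bPlus_sep m F) (J := {i // i ≠ i₀} ⊕ {i // i ≠ i₀})
    (Sum.elim (fun i => (oEquiv h a).1 (e i)) fun i => (oEquiv h (x * a)).1 (e i)) (by
      simp only [Fintype.card_sum, Fintype.card_subtype_compl, Fintype.card_fin, Fintype.card_unique,
        finrank_fintype_fun_eq_card]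
      omega)
  have key : ∀ b, (∀ i, i ≠ i₀ → g.1 ((oEquiv h b).1 (e i)) = (oEquiv h b).1 (e i)) →
      b⁻¹ * (oEquiv h).symm g * b ∈ (S : Subgroup _) := fun b hb => hS ((hK _).2 fun i hi => by
    rw [map_mul, map_mul, MulEquiv.apply_symm_apply, map_inv]
    show ((oEquiv h b).1)⁻¹ (g.1 ((oEquiv h b).1 (e i))) = e i
    rw [hb i hi]
    exact (oEquiv h b).1.symm_apply_apply _)
  refine (Subgroup.ne_bot_iff_exists_ne_one).2 ⟨⟨(oEquiv h).symm g, ?_, ?_⟩, fun k => g1 ?_⟩
  · rw [Sylow.coe_subgroup_smul]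
    refine Subgroup.mem_pointwise_smul_iff_inv_smul_mem.2 ?_
    simpa using key a fun i hi => hg (.inl ⟨i, hi⟩)
  · rw [Sylow.coe_subgroup_smul, smul_smul, ← map_mul]
    refine Subgroup.mem_pointwise_smul_iff_inv_smul_mem.2 ?_
    simpa [mul_assoc] using key (x * a) fun i hi => hg (.inr ⟨i, hi⟩)
  · simpa using congrArg Subtype.val k

end Cfsg.Agent.S2487
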