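import Cfsg.Statements.S2488
import Cfsg.Agent.S5057
import Cfsg.Agent.H3.Basic
import Cfsg.Agent.H2.MinNormal
-- import your own Cfsg.Agent.* helpers here

set_option autoImplicit false
open scoped Pointwise
open Cfsg

namespace Cfsg.Agent.S2488

open Subgroup S5057

set_option maxRecDepth 100000 in
theorem cnt : (Finset.univ.filter fun x : alternatingGroup (Fin 6) => x * a0 = a0 * x).card = 8 ∧
    (Finset.univ.filter fun x : alternatingGroup (Fin 6) => x * x = 1 ∧ (a0 * x) ^ 3 = 1).card < 32 ∧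
    (Finset.univ.filter fun x : alternatingGroup (Fin 6) =>
      x * x = 1 ∧ ¬ (a0 * x) ^ 3 = 1).card < 32 := by
  decide +kernel


/-- Let G be a finite group with a normal subgroup N of index 4 isomorphic to the alternating group of degree 6 and with trivial centralizer in G (so G is the full automorphism group of A₆). Then any two Sylow 2-subgroups of G have a non-trivial intersection: for a Sylow 2-subgroup H and every x ∈ G, H ∩ H^x ≠ 1. -/
theorem result {G : Type*} [Group G] [Finite G] (N : Subgroup G) [N.Normal]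
    (e : N ≃* alternatingGroup (Fin 6)) (hidx : N.index = 4)
    (hC : Subgroup.centralizer (N : Set G) = ⊥)
    (H : Sylow 2 G) (x : G) :
    (H : Subgroup G) ⊓ MulAut.conj x • (H : Subgroup G) ≠ ⊥ := by
  obtain ⟨c1, c2, c3⟩ := cnt
  have hN : Nat.card N = 360 := by
    rw [Nat.card_congr e.toEquiv, nat_card_alternatingGroup]; simp [Nat.factorial]
  have hH : Nat.card (H : Subgroup G) = 32 := by
    rw [H.card_eq_multiplicity, ← N.index_mul_card, hidx, hN]; decide +kernel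
  haveI := H.isPGroup'.isNilpotent
  obtain ⟨z, hz, hz1, hz2⟩ := H3.exists_order_p_mem H.isPGroup'
    (H2.inf_center_ne_bot_of_isNilpotent (N.subgroupOf H) fun h => by
      have h1 := Nat.le_of_dvd (by omega) (hidx ▸ relIndex_dvd_index_of_normal N H)
      rw [relIndex, h, index_bot, hH] at h1
      omega)
  obtain ⟨g, hg⟩ := conj0 (e ⟨z.1, hz.1⟩) (by
    rw [MulEquiv.orderOf_eq, ← orderOf_coe, orderOf_coe (a := z)]
    exact orderOf_eq_prime hz2 hz1)
  obtain ⟨φ, hφ⟩ : ∃ φ : N ≃* alternatingGroup (Fin 6), φ ⟨z.1, hz.1⟩ = a0 :=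
    ⟨e.trans (MulAut.conj g⁻¹), by simp [hg, mul_assoc]⟩
  have hzc : ∀ h ∈ (H : Subgroup G), h * z.1 = z.1 * h := fun h hh =>
    congrArg Subtype.val (mem_center_iff.1 hz.2 ⟨h, hh⟩)
  have hCz : (H : Subgroup G) = centralizer {z.1} := by
    refine eq_of_le_of_card_ge (fun h hh => mem_centralizer_singleton_iff.2 (hzc h hh)) ?_
    have h1 := Nat.le_of_dvd (by omega) (hidx ▸ relIndex_dvd_index_of_normal N (centralizer {z.1}))
    have h2 : Nat.card (N.subgroupOf (centralizer {z.1})) ≤ 8 := by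
      rw [← c1, ← Fintype.card_coe, ← Nat.card_eq_fintype_card]
      refine Nat.card_le_card_of_injective (fun y => ⟨φ ⟨y.1.1, y.2⟩, ?_⟩) fun a b h => ?_
      · rw [Finset.mem_filter, ← hφ, ← map_mul, ← map_mul]
        exact ⟨Finset.mem_univ _, congrArg φ (Subtype.ext (mem_centralizer_singleton_iff.1 y.1.2))⟩
      · have h3 := congrArg Subtype.val (φ.injective (congrArg Subtype.val h))
        exact Subtype.ext (Subtype.ext h3)
    rw [hH, ← (N.subgroupOf (centralizer {z.1})).index_mul_card]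
    exact Nat.mul_le_mul h1 h2
  intro h0
  have hm : ∀ h : G, h * (x * z.1 * x⁻¹) * h⁻¹ ∈ N := fun h =>
    Normal.conj_mem inferInstance _ (Normal.conj_mem ‹N.Normal› z.1 hz.1 x) h
  have key : ∀ s : Finset (alternatingGroup (Fin 6)), (∀ h : (H : Subgroup G), φ ⟨_, hm h⟩ ∈ s) →
      32 ≤ s.card := fun s hs => by
    rw [← hH, ← Fintype.card_coe, ← Nat.card_eq_fintype_card]
    refine Nat.card_le_card_of_injective (fun h => ⟨_, hs h⟩) fun a b h => ?_
    have h1 : a.1 * (x * z.1 * x⁻¹) * a.1⁻¹ = b.1 * (x * z.1 * x⁻¹) * b.1⁻¹ :=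
      congrArg Subtype.val (φ.injective (congrArg Subtype.val h))
    have h2 : b.1⁻¹ * a.1 ∈ (H : Subgroup G) ⊓ MulAut.conj x • (H : Subgroup G) := by
      refine ⟨(b⁻¹ * a).2, mem_pointwise_smul_iff_inv_smul_mem.2 ?_⟩
      refine hCz.ge (mem_centralizer_singleton_iff.2 ?_)
      simp only [MulAut.smul_def, MulAut.conj_inv_apply]
      calc _ = x⁻¹ * b.1⁻¹ * (a.1 * (x * z.1 * x⁻¹) * a.1⁻¹) * a.1 * x := by group
        _ = _ := by rw [h1]; group
    rw [h0, mem_bot, inv_mul_eq_one] at h2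
    exact Subtype.ext h2.symm
  have h1 : ∀ h : (H : Subgroup G), φ ⟨_, hm h⟩ * φ ⟨_, hm h⟩ = 1 := fun h => by
    rw [← map_mul, map_eq_one_iff _ φ.injective]
    have : z.1 * z.1 = 1 := congrArg Subtype.val ((sq z).symm.trans hz2)
    refine Subtype.ext ?_
    calc _ = h.1 * x * (z.1 * z.1) * x⁻¹ * h.1⁻¹ := by simp [mul_assoc]
      _ = _ := by simp [this]
  have h2 : ∀ h : (H : Subgroup G), (a0 * φ ⟨_, hm h⟩) ^ 3 = 1 ↔ (z.1 * (x * z.1 * x⁻¹)) ^ 3 = 1 := by
    intro h
    rw [← hφ, ← map_mul, ← map_pow, map_eq_one_iff _ φ.injective, Subtype.ext_iff]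
    change (z.1 * (h.1 * (x * z.1 * x⁻¹) * h.1⁻¹)) ^ 3 = 1 ↔ _
    rw [← mul_assoc, ← mul_assoc, ← hzc h h.2, mul_assoc h.1, conj_pow, mul_inv_eq_one,
      mul_eq_left]
  by_cases h3 : (z.1 * (x * z.1 * x⁻¹)) ^ 3 = 1
  · exact c2.not_ge (key _ fun h => Finset.mem_filter.2 ⟨Finset.mem_univ _, h1 h, (h2 h).2 h3⟩)
  · exact c3.not_ge (key _ fun h => Finset.mem_filter.2 ⟨Finset.mem_univ _, h1 h, mt (h2 h).1 h3⟩)


end Cfsg.Agent.S2488
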