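import Cfsg.Statements.S2495
import Mathlib
import Cfsg.Agent.H29.Cl5
import Cfsg.Agent.L0.Zsig

set_option autoImplicit false
open Cfsg

namespace Cfsg.Agent.S2495

/-- Let q be an odd prime power, n ≥ 4 even, and L = PSL(n,q). Then L has an element of order q^(n/2) + 1 if and only if the 2-part of n exceeds the 2-part of q − 1. -/
theorem result {F : Type*} [Field F] [Fintype F] {q : ℕ} (hF : Fintype.card F = q) (hodd : Odd q)
    {n : ℕ} (hn : 4 ≤ n) (heven : Even n) :
    (∃ g : Matrix.ProjectiveSpecialLinearGroup (Fin n) F, orderOf g = q ^ (n / 2) + 1) ↔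
      padicValNat 2 (q - 1) < padicValNat 2 n := by
  obtain ⟨p, _⟩ := CharP.exists F
  haveI := Fact.mk (CharP.char_is_prime F p)
  obtain ⟨k, rfl⟩ := heven.two_dvd
  subst hF
  have h1 := Fintype.one_lt_card (α := F)
  obtain ⟨r, hr, h2⟩ := L0.zsigmondy (n := 2 * k) h1 (by omega) (fun e => absurd (e.1 ▸ hodd) (by decide)) (by omega)
  have h3 : r ≠ 2 := by
    rintro rfl
    rw [(ZMod.natCast_eq_one_iff_odd).2 hodd, orderOf_one] at h2; omega
  have := H29.half_mem_admQ (L := H29.Lc F) (H29.pq_card F p) (k := k) (by omega) hr (by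
    simpa using (H29.ord_dvd_add_iff hr h3).2 ⟨h2 ▸ dvd_rfl, fun e => by have := Nat.le_of_dvd (by omega) e; omega⟩)
    fun D hD e => h2 ▸ Nat.le_of_dvd hD (H29.ord_dvd_iff.2 e)
  rw [← H29.spec_psl p (by omega), show ((Fintype.card F : ℤ) - 1).natAbs = Fintype.card F - 1 by omega] at this
  rw [Nat.mul_div_cancel_left _ two_pos]
  exact_mod_cast this

end Cfsg.Agent.S2495
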