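import Cfsg.Statements.S2496
import Mathlib
import Cfsg.Agent.H29.Cl5
import Cfsg.Agent.L0.Zsig

set_option autoImplicit false
open Cfsg

namespace Cfsg.Agent.S2496

/-- Let q be an odd prime power, n ≥ 4 even, and U = PSU(n,q) (realised over the field with q² elements). Then U has an element of order q^(n/2) + (−1)^(n/2) — that is, q^(n/2) + 1 when n/2 is even and q^(n/2) − 1 when n/2 is odd — if and only if the 2-part of n exceeds the 2-part of q + 1. -/
theorem result {F : Type*} [Field F] [Fintype F] {q : ℕ} (hF : Fintype.card F = q ^ 2) (hodd : Odd q)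
    {n : ℕ} (hn : 4 ≤ n) (heven : Even n) :
    (∃ g : Cfsg.PSU n F q, orderOf g = if Even (n / 2) then q ^ (n / 2) + 1 else q ^ (n / 2) - 1) ↔
      padicValNat 2 (q + 1) < padicValNat 2 n := by
  obtain ⟨p, _⟩ := CharP.exists F
  haveI := Fact.mk (CharP.char_is_prime F p)
  obtain ⟨k, rfl⟩ := heven.two_dvd
  have h1 : 1 < q := by have := Fintype.one_lt_card (α := F); nlinarith
  have h0 := Nat.one_le_pow k q (by omega)
  obtain ⟨r, hr, h2, h3⟩ : ∃ r : ℕ, r.Prime ∧ (r : ℤ) ∣ (-q) ^ k + 1 ∧ ∀ D, 0 < D → (r : ℤ) ∣ (-q) ^ D - 1 → 2 * k ≤ D := by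
    obtain ⟨r, hr, h2⟩ := L0.zsigmondy (n := if Even k then 2 * k else k) h1 (by split_ifs <;> omega)
      (fun e => absurd (e.1 ▸ hodd) (by decide)) (by rintro ⟨e, -⟩; split_ifs at e with h <;> simp_all)
    have h3 : r ≠ 2 := by
      rintro rfl
      rw [(ZMod.natCast_eq_one_iff_odd).2 hodd, orderOf_one] at h2
      split_ifs at h2 <;> omega
    refine ⟨r, hr, ?_, fun D hD e => ?_⟩
    · split_ifs at h2 with h
      · simpa [h.neg_pow] using (H29.ord_dvd_add_iff hr h3).2
          ⟨h2 ▸ dvd_rfl, fun e => by have := Nat.le_of_dvd (by omega) e; omega⟩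
      · rw [(Nat.not_even_iff_odd.1 h).neg_pow, ← dvd_neg]
        simpa [sub_eq_neg_add] using H29.ord_dvd_iff.1 (h2 ▸ dvd_rfl : orderOf (q : ZMod r) ∣ k)
    rcases D.even_or_odd with h | h
    · have := h2 ▸ H29.ord_dvd_iff.2 (h.neg_pow (q : ℤ) ▸ e)
      split_ifs at this with h'
      · exact Nat.le_of_dvd hD this
      · exact Nat.le_of_dvd hD ((Nat.not_even_iff_odd.1 h').coprime_two_left.mul_dvd_of_dvd_of_dvd h.two_dvd this)
    · rw [h.neg_pow, ← dvd_neg] at e
      obtain ⟨h4, h5⟩ := (H29.ord_dvd_add_iff (q := q) (d := D) hr h3).1 (by simpa [add_comm] using e)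
      rw [h2] at h4 h5
      split_ifs at h4 h5 with h'
      · exact absurd (h'.two_dvd.trans (Nat.dvd_of_mul_dvd_mul_left two_pos h4)) h.not_two_dvd_nat
      · exact absurd ((Nat.not_even_iff_odd.1 h').coprime_two_right.dvd_of_dvd_mul_left h4) h5
  have := H29.half_mem_admQ (L := H29.Lc F) (H29.pq_neg p hF) (k := k) (by omega) hr h2 h3
  rw [← H29.spec_psu p hF (by omega), show (-(q : ℤ) - 1).natAbs = q + 1 by omega] at this
  rw [Nat.mul_div_cancel_left _ two_pos, ← this]
  refine iff_of_eq (congrArg (· ∈ H29.spec (PSU (2 * k) F q)) ?_)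
  split_ifs with h
  · rw [h.neg_pow]; norm_cast
  · rw [(Nat.not_even_iff_odd.1 h).neg_pow, ← Nat.cast_pow]; omega

end Cfsg.Agent.S2496
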