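import Cfsg.Statements.S2497
import Mathlib
import Cfsg.Agent.H21.Epo2

set_option autoImplicit false
open Cfsg

namespace Cfsg.Agent.S2497

/-- Let G be a finite non-abelian simple group in which every non-identity element has prime-power order. Then G is isomorphic to one of: the alternating group of degree 6, PSL(2,q) for q ∈ {4, 7, 8, 17}, PSL(3,4), or the Suzuki group over the field with 8 or with 32 elements. -/
theorem result {G : Type*} [Group G] [Finite G] [IsSimpleGroup G] (hG : ¬ IsMulCommutative G)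
    (h : ∀ g : G, g ≠ 1 → IsPrimePow (orderOf g)) :
    Nonempty (G ≃* alternatingGroup (Fin 6)) ∨
    (∃ (F : Type) (_ : Field F) (_ : Fintype F), Fintype.card F ∈ ({4, 7, 8, 17} : Finset ℕ) ∧
      Nonempty (G ≃* Matrix.ProjectiveSpecialLinearGroup (Fin 2) F)) ∨
    (∃ (F : Type) (_ : Field F) (_ : Fintype F), Fintype.card F = 4 ∧
      Nonempty (G ≃* Matrix.ProjectiveSpecialLinearGroup (Fin 3) F)) ∨
    (∃ (F : Type) (_ : Field F) (_ : Fintype F),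
      (Fintype.card F = 8 ∧ Nonempty (G ≃* ↥(Cfsg.Lie.Sz F 4))) ∨ (Fintype.card F = 32 ∧ Nonempty (G ≃* ↥(Cfsg.Lie.Sz F 8)))) := by
  have e : H21.EP G := h
  rcases e.cit.simple (by
    by_contra! hc
    exact hG ⟨⟨hc⟩⟩) with h1 | h1 | h1
  · rcases e.zt h1 with ⟨F, _, _, h, f⟩ | ⟨F, _, _, h, f⟩ | ⟨F, _, _, h, f⟩ | ⟨F, _, _, h, f⟩
    · exact Or.inr (Or.inl ⟨F, _, ‹_›, by simp [h], f⟩)
    · exact Or.inr (Or.inl ⟨F, _, ‹_›, by simp [h], f⟩)
    · exact Or.inr (Or.inr (Or.inr ⟨F, _, _, Or.inl ⟨h, f⟩⟩))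
    · exact Or.inr (Or.inr (Or.inr ⟨F, _, _, Or.inr ⟨h, f⟩⟩))
  · rcases e.l2q h1 with ⟨F, _, _, h, f⟩ | ⟨F, _, _, h, ⟨f⟩⟩ | ⟨F, _, _, h, f⟩
    · exact Or.inr (Or.inl ⟨F, _, ‹_›, by simp [h], f⟩)
    · obtain ⟨g⟩ := H10.PSL2_nine_equiv (F := F) (Nat.card_eq_fintype_card.trans h)
      exact Or.inl ⟨f.trans g⟩
    · exact Or.inr (Or.inl ⟨F, _, ‹_›, by simp [h], f⟩)
  · exact Or.inr (Or.inr (Or.inl h1))

end Cfsg.Agent.S2497
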