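import Cfsg.Statements.S2503
import Mathlib
import Cfsg.Agent.L0.PSL2
-- import your own Cfsg.Agent.* helpers here

set_option autoImplicit false
open Cfsg

namespace Cfsg.Agent.S2503

open Cfsg.Agent.L0 Cfsg.Agent.H6

/-- Let F be a finite field with q = 2^t ≥ 4 elements and L = PSL(2,F). Then L has a cyclic subgroup A of order q + 1 and an elementary abelian 2-subgroup B of order q such that L = ABA: every element of L is a product a·b·a' with a, a' ∈ A and b ∈ B. -/
theorem result {F : Type*} [Field F] [Fintype F]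
    (h2 : 2 ∣ Fintype.card F) (h4 : 4 ≤ Fintype.card F) :
    ∃ A B : Subgroup (Matrix.ProjectiveSpecialLinearGroup (Fin 2) F),
      IsCyclic A ∧ Nat.card A = Fintype.card F + 1 ∧ IsMulCommutative B ∧ (∀ b ∈ B, b * b = 1) ∧
        Nat.card B = Fintype.card F ∧
        ∀ g : Matrix.ProjectiveSpecialLinearGroup (Fin 2) F, ∃ a ∈ A, ∃ b ∈ B, ∃ c ∈ A, g = a * b * c := by
  have h0 := two_eq_zero_of_even h2
  obtain ⟨c, hc⟩ := exists_orderOf_elS (F := F)
  have hc2 : c ^ 2 ≠ 1 := by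
    intro h
    have : elS F c ^ 2 = 1 := by rw [← map_pow, h, map_one]
    have := Nat.le_of_dvd two_pos (orderOf_dvd_of_pow_eq_one this)
    omega
  set d := elS F c with hd
  have hr := elS_no_root hc2
  rw [← hd] at hr
  have hs := not_isScal_of_no_root hr
  let Q : F → F → F := fun x y =>
    (d : M2 F) 1 0 * x ^ 2 + ((d : M2 F) 1 1 - (d : M2 F) 0 0) * x * y - (d : M2 F) 0 1 * y ^ 2
  have hQ : ∀ x y, Q x y = 0 → x = 0 ∧ y = 0 := by
    intro x y h
    by_contra hxy
    by_cases hx : x = 0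
    · have hy : y ≠ 0 := fun hy => hxy ⟨hx, hy⟩
      have h01 : (d : M2 F) 0 1 = 0 := by simpa [Q, hx, hy] using h
      apply hr ((d : M2 F) 1 1)
      rw [Matrix.trace_fin_two, Matrix.det_fin_two, h01]
      ring
    · apply hr ((d : M2 F) 0 0 + (d : M2 F) 0 1 * (y / x))
      rw [Matrix.trace_fin_two, Matrix.det_fin_two]
      simp only [Q] at h
      field_simp
      linear_combination (-(d : M2 F) 0 1) * h
  have hQ0 : Q 1 0 ≠ 0 := fun h => one_ne_zero (hQ 1 0 h).1
  have h10 : (d : M2 F) 1 0 ≠ 0 := by simpa [Q] using hQ0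
  have hT : ∀ x y, Q x y = Q 1 0 → ∃ t ∈ (elS F (K := QExt F)).range,
      (t : M2 F) 0 0 = x ∧ (t : M2 F) 1 0 = y := by
    intro x y h
    refine ⟨⟨(x - y / (d : M2 F) 1 0 * (d : M2 F) 0 0) • (1 : M2 F) +
      (y / (d : M2 F) 1 0) • (d : M2 F), ?_⟩, ?_, ?_, ?_⟩
    · rw [det_comb, Matrix.trace_fin_two, Matrix.det_fin_two]
      simp only [Q] at h
      field_simp
      linear_combination (d : M2 F) 1 0 * h
    · rw [← cent_elS hc2, ← hd]
      exact (mem_cent_s2 hs).2 ⟨_, _, rfl⟩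
    · simp
    · simp [h10]
  let uH : Multiplicative F →* S2 F :=
    { toFun := fun b => uu b.toAdd, map_one' := uu_zero, map_mul' := fun a b => uu_add _ _ }
  have hinj := pj_injective h0
  refine ⟨(pj.comp (elS F (K := QExt F))).range, (pj.comp uH).range, ?_, ?_, ?_, ?_, ?_, ?_⟩
  · exact isCyclic_of_surjective _ (MonoidHom.rangeRestrict_surjective _)
  · have : Function.Injective (pj.comp (elS F (K := QExt F))) := hinj.comp (elS_injective F)
    rw [← Nat.card_congr (MonoidHom.ofInjective this).toEquiv, card_ker_nrmU]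
  · refine ⟨⟨?_⟩⟩
    rintro ⟨_, a, rfl⟩ ⟨_, b, rfl⟩
    apply Subtype.ext
    simp only [Subgroup.coe_mul, ← map_mul, mul_comm a b]
  · rintro _ ⟨a, rfl⟩
    rw [← map_mul]
    have : a * a = 1 := by
      apply Multiplicative.toAdd.injective
      simp only [toAdd_mul, toAdd_one]
      linear_combination a.toAdd * h0
    rw [this, map_one]
  · have : Function.Injective (pj.comp uH) := hinj.comp fun a b h => uu_inj (F := F) h
    rw [← Nat.card_congr (MonoidHom.ofInjective this).toEquiv, Nat.card_eq_fintype_card,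
      Fintype.card_multiplicative]
  · intro g
    obtain ⟨g, rfl⟩ := pj_surjective g
    have hsq : ∀ a : F, ∃ r, a = r * r := fun a =>
      FiniteField.isSquare_of_char_two (by
        have : CharP F 2 := (CharP.charP_iff_prime_eq_zero Nat.prime_two).2 h0
        exact ringChar.eq F 2) a
    have hg := s2_det g
    obtain ⟨x, y, hxy, h⟩ : ∃ x y, Q x y ≠ 0 ∧
        Q ((g : M2 F) 0 0 * x + (g : M2 F) 0 1 * y) ((g : M2 F) 1 0 * x + (g : M2 F) 1 1 * y) =
          Q x y := by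
      obtain ⟨r, hr⟩ := hsq (Q ((g : M2 F) 0 0) ((g : M2 F) 1 0) - Q 1 0)
      obtain ⟨s, hs⟩ := hsq (Q ((g : M2 F) 0 1) ((g : M2 F) 1 1) - Q 0 1)
      by_cases hr0 : r = 0
      · exact ⟨1, 0, hQ0, by simpa [hr0, sub_eq_zero] using hr⟩
      · refine ⟨s, r, fun h => hr0 (hQ _ _ h).2, ?_⟩
        simp only [Q] at hr hs ⊢
        linear_combination s ^ 2 * hr + r ^ 2 * hs + ((d : M2 F) 1 1 - (d : M2 F) 0 0) * s * r * hg +
          (r ^ 2 * s ^ 2 + s * r * ((d : M2 F) 1 0 * (g : M2 F) 0 0 * (g : M2 F) 0 1 +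
            ((d : M2 F) 1 1 - (d : M2 F) 0 0) * (g : M2 F) 0 1 * (g : M2 F) 1 0 -
            (d : M2 F) 0 1 * (g : M2 F) 1 0 * (g : M2 F) 1 1)) * h0
    obtain ⟨l, hl⟩ := hsq (Q 1 0 / Q x y)
    have hl' : Q (l * x) (l * y) = Q 1 0 := by
      rw [div_eq_iff hxy] at hl
      rw [hl]; simp only [Q]; ring
    obtain ⟨_, ⟨t₁, rfl⟩, a1, b1⟩ := hT _ _ hl'
    obtain ⟨_, ⟨t₂, rfl⟩, a2, b2⟩ := hT (l * ((g : M2 F) 0 0 * x + (g : M2 F) 0 1 * y))
      (l * ((g : M2 F) 1 0 * x + (g : M2 F) 1 1 * y)) (by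
        rw [← hl']
        simp only [Q] at h ⊢
        linear_combination l ^ 2 * h)
    set u : S2 F := (elS F t₂)⁻¹ * g * elS F t₁ with hu
    have hdet := s2_det (elS F t₂)
    have u00 : (u : M2 F) 0 0 = 1 := by
      simp only [hu, Matrix.SpecialLinearGroup.coe_mul, s2_cayley, m2_mul_apply,
        Matrix.trace_fin_two, a1, b1]
      simp
      rw [a2, b2] at hdet
      linear_combination hdet
    have u10 : (u : M2 F) 1 0 = 0 := by
      simp only [hu, Matrix.SpecialLinearGroup.coe_mul, s2_cayley, m2_mul_apply,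
        Matrix.trace_fin_two, a1, b1]
      simp
      rw [a2, b2]
      ring
    have u11 : (u : M2 F) 1 1 = 1 := by
      have := s2_det u
      rwa [u00, u10, one_mul, mul_zero, sub_zero] at this
    refine ⟨_, ⟨t₂, rfl⟩, _, ⟨Multiplicative.ofAdd ((u : M2 F) 0 1), rfl⟩, _, ⟨t₁⁻¹, rfl⟩, ?_⟩
    change pj g = pj (elS F t₂) * pj (uu ((u : M2 F) 0 1)) * pj (elS F t₁⁻¹)
    rw [← eq_uu u00 u11 u10, ← map_mul, ← map_mul, hu, map_inv]
    congr 1
    group

end Cfsg.Agent.S2503
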