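import Cfsg.Statements.S2507
import Mathlib
import Cfsg.Agent.L0.PSL2
-- import your own Cfsg.Agent.* helpers here

set_option autoImplicit false
open Cfsg

namespace Cfsg.Agent.S2507

open Cfsg.Agent.L0 Cfsg.Agent.H6

/-- Let F be a finite field with q = 2^f ≥ 4 elements. The conjugacy class sizes of PSL(2,F) are exactly 1, q(q − 1), q² − 1 and q(q + 1). -/
theorem result {F : Type*} [Field F] [Fintype F]
    (h2 : 2 ∣ Fintype.card F) (h4 : 4 ≤ Fintype.card F) :
    Set.range (fun g : (Matrix.ProjectiveSpecialLinearGroup (Fin 2) F) => (Subgroup.centralizer ({g} : Set (Matrix.ProjectiveSpecialLinearGroup (Fin 2) F))).index) =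
      {1, Fintype.card F * (Fintype.card F - 1), Fintype.card F ^ 2 - 1, Fintype.card F * (Fintype.card F + 1)} := by
  have h0 := two_eq_zero_of_even h2
  have key : ∀ g : S2 F, (Subgroup.centralizer ({pj g} : Set (P2 F))).index =
      (Subgroup.centralizer ({g} : Set (S2 F))).index := by
    intro g
    have h1 := (Subgroup.centralizer ({pj g} : Set (P2 F))).card_mul_index
    have h3 := (Subgroup.centralizer ({g} : Set (S2 F))).card_mul_index
    have h5 : Nat.card (Subgroup.centralizer ({pj g} : Set (P2 F))) = _ :=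
      card_centralizer_map_equiv (pjEquiv h0) g
    rw [h5, ← Nat.card_congr (pjEquiv h0).toEquiv, ← h3] at h1
    exact Nat.eq_of_mul_eq_mul_left Nat.card_pos h1
  have hjb : ∀ {g : S2 F} {z : Fˣ}, IsConj (jb z) (tG g) →
      (Subgroup.centralizer ({g} : Set (S2 F))).index = Fintype.card F ^ 2 - 1 := fun h => by
    have := index_cent_jb h
    rwa [card_sq_eq_one_even h0, one_mul] at this
  have hone : (Subgroup.centralizer ({1} : Set (P2 F))).index = 1 := by
    rw [Subgroup.index_eq_one, Subgroup.eq_top_iff']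
    intro x
    exact Subgroup.mem_centralizer_singleton_iff.2 (by simp)
  ext m
  simp only [Set.mem_range, Set.mem_insert_iff, Set.mem_singleton_iff]
  constructor
  · rintro ⟨x, rfl⟩
    obtain ⟨g, rfl⟩ := pj_surjective x
    rcases s2_cases g with h | ⟨z, h⟩ | ⟨a, ha, h⟩ | ⟨c, hc, h⟩
    · exact Or.inl (by rw [pj_eq_one_iff'.2 h, hone])
    · exact Or.inr (Or.inr (Or.inl (by rw [key, hjb h])))
    · exact Or.inr (Or.inr (Or.inr (by rw [key, index_cent_ds ha h])))
    · exact Or.inr (Or.inl (by rw [key, index_cent_elS hc h]))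
  · rintro (rfl | rfl | rfl | rfl)
    · exact ⟨1, hone⟩
    · obtain ⟨c, hc⟩ := exists_pow_four_ne_one (A := K1 F (QExt F)) (by rw [card_ker_nrmU]; omega)
      exact ⟨pj (elS F c), by
        rw [key, index_cent_elS (fun h => hc (by rw [show 4 = 2 * 2 from rfl, pow_mul, h, one_pow]))
          (IsConj.refl _)]⟩
    · exact ⟨pj (uu 1), by rw [key, hjb (isConj_jb_uu F one_ne_zero)]⟩
    · obtain ⟨a, ha⟩ := exists_orderOf_ds (F := F)
      refine ⟨pj (ds a), (key _).trans (index_cent_ds (fun h => ?_) (IsConj.refl _))⟩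
      have : ds a ^ 2 = 1 := by
        rw [← dsHom_apply, ← map_pow, sq]
        nth_rewrite 2 [h]
        rw [mul_inv_cancel, map_one]
      have := Nat.le_of_dvd two_pos (orderOf_dvd_of_pow_eq_one this)
      omega

end Cfsg.Agent.S2507
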