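import Cfsg.Statements.S2508
import Mathlib
import Cfsg.Agent.L0.PSL2
-- import your own Cfsg.Agent.* helpers here

set_option autoImplicit false
open Cfsg

namespace Cfsg.Agent.S2508

open Cfsg.Agent.L0 Cfsg.Agent.H6

/-- Let F be a finite field with q elements, q odd and q ≥ 7. If q ≡ 1 (mod 4) the conjugacy class sizes of PSL(2,F) are exactly 1, (q² − 1)/2, q(q + 1)/2, q(q − 1) and q(q + 1); if q ≡ 3 (mod 4) they are exactly 1, (q² − 1)/2, q(q − 1)/2, q(q + 1) and q(q − 1). -/
theorem result {F : Type*} [Field F] [Fintype F]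
    (hodd : ¬ 2 ∣ Fintype.card F) (h7 : 7 ≤ Fintype.card F) :
    (Fintype.card F % 4 = 1 →
      Set.range (fun g : (Matrix.ProjectiveSpecialLinearGroup (Fin 2) F) => (Subgroup.centralizer ({g} : Set (Matrix.ProjectiveSpecialLinearGroup (Fin 2) F))).index) =
        {1, (Fintype.card F ^ 2 - 1) / 2, Fintype.card F * (Fintype.card F + 1) / 2,
          Fintype.card F * (Fintype.card F - 1), Fintype.card F * (Fintype.card F + 1)}) ∧
    (Fintype.card F % 4 = 3 →
      Set.range (fun g : (Matrix.ProjectiveSpecialLinearGroup (Fin 2) F) => (Subgroup.centralizer ({g} : Set (Matrix.ProjectiveSpecialLinearGroup (Fin 2) F))).index) =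
        {1, (Fintype.card F ^ 2 - 1) / 2, Fintype.card F * (Fintype.card F - 1) / 2,
          Fintype.card F * (Fintype.card F + 1), Fintype.card F * (Fintype.card F - 1)}) := by
  have hodd' : Odd (Fintype.card F) := Nat.odd_iff.2 (by omega)
  have h2 := two_ne_zero_of_odd hodd'
  have hone : (Subgroup.centralizer ({1} : Set (P2 F))).index = 1 := by
    rw [Subgroup.index_eq_one, Subgroup.eq_top_iff']
    intro x
    exact Subgroup.mem_centralizer_singleton_iff.2 (by simp)
  have hjb : ∀ {g : S2 F} {z : Fˣ}, IsConj (jb z) (tG g) →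
      (Subgroup.centralizer ({pj g} : Set (P2 F))).index = (Fintype.card F ^ 2 - 1) / 2 := by
    intro g z h
    have := index_cent_jb h
    rw [card_sq_eq_one_odd h2] at this
    rw [index_centralizer_pj_of_trace h2]
    · omega
    · rw [← tG_val, ← trace_eq_of_isConj h, trace_jb, ← two_mul]
      exact mul_ne_zero h2 z.ne_zero
  have hgen : ∀ {g : S2 F} {n : ℕ}, DetFull (tG g) → g ^ 2 ≠ 1 →
      (Subgroup.centralizer ({g} : Set (S2 F))).index = n →
      (g ^ 4 = 1 → (Subgroup.centralizer ({pj g} : Set (P2 F))).index = n / 2) ∧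
      (g ^ 4 ≠ 1 → (Subgroup.centralizer ({pj g} : Set (P2 F))).index = n) := by
    intro g n hf hg hn
    constructor
    · intro h
      have := index_centralizer_pj_of_trace_zero h2 hf ((trace_eq_zero_iff_pow h2).2 ⟨h, hg⟩)
      omega
    · intro h
      rw [index_centralizer_pj_of_trace h2 fun H => h ((trace_eq_zero_iff_pow h2).1 H).1, hn]
  have hds2 : ∀ {a : Fˣ}, a ≠ a⁻¹ ↔ ds a ^ 2 ≠ 1 := by
    intro a
    rw [← dsHom_apply, ← map_pow, ne_eq, ne_eq, ← sq_eq_one_iff_inv,
      (injective_iff_map_eq_one' dsHom).1 ds_injective]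
  have hel2 : ∀ {c : K1 F (QExt F)}, c ^ 2 ≠ 1 ↔ elS F c ^ 2 ≠ 1 := by
    intro c
    rw [← map_pow, ne_eq, ne_eq, (injective_iff_map_eq_one' _).1 (elS_injective F)]
  have hpow : ∀ {g h : S2 F} (n : ℕ), IsConj g h → (g ^ n = 1 ↔ h ^ n = 1) := by
    intro g h n H
    constructor
    · intro h1
      have := H.pow n
      rwa [h1, isConj_one_right] at this
    · intro h1
      have := H.pow n
      rwa [h1, isConj_one_left] at this
  have h4 : ∀ {g : S2 F} {n : ℕ}, g ^ 2 ≠ 1 → g ^ 4 = 1 → g ^ n = 1 → 4 ∣ n := by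
    intro g n h1 h3 h5
    have : orderOf g = 4 := orderOf_eq_prime_pow (p := 2) (n := 1) h1 h3
    exact this ▸ orderOf_dvd_of_pow_eq_one h5
  have hA : ∀ x : P2 F, (Subgroup.centralizer ({x} : Set (P2 F))).index = 1 ∨
      (Subgroup.centralizer ({x} : Set (P2 F))).index = (Fintype.card F ^ 2 - 1) / 2 ∨
      (Fintype.card F % 4 = 1 ∧ (Subgroup.centralizer ({x} : Set (P2 F))).index =
        Fintype.card F * (Fintype.card F + 1) / 2) ∨
      (Fintype.card F % 4 = 3 ∧ (Subgroup.centralizer ({x} : Set (P2 F))).index =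
        Fintype.card F * (Fintype.card F - 1) / 2) ∨
      (Subgroup.centralizer ({x} : Set (P2 F))).index = Fintype.card F * (Fintype.card F + 1) ∨
      (Subgroup.centralizer ({x} : Set (P2 F))).index = Fintype.card F * (Fintype.card F - 1) := by
    intro x
    obtain ⟨g, rfl⟩ := pj_surjective x
    rcases s2_cases g with h | ⟨z, h⟩ | ⟨a, ha, h⟩ | ⟨c, hc, h⟩
    · exact Or.inl (by rw [pj_eq_one_iff'.2 h, hone])
    · exact Or.inr (Or.inl (hjb h))
    · have hg : g ^ 2 ≠ 1 := fun H => hds2.1 ha ((hpow 2 h).2 H)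
      obtain ⟨h5, h6⟩ := hgen (detFull_of_isConj_ds h) hg (index_cent_ds ha h)
      by_cases h7 : g ^ 4 = 1
      · have := h4 hg h7 ((hpow _ h).1 (pow_card_sub_one_ds a))
        exact Or.inr (Or.inr (Or.inl ⟨by omega, h5 h7⟩))
      · exact Or.inr (Or.inr (Or.inr (Or.inr (Or.inl (h6 h7)))))
    · have hg : g ^ 2 ≠ 1 := fun H => hel2.1 hc ((hpow 2 h).2 H)
      obtain ⟨h5, h6⟩ := hgen (detFull_of_isConj_elS h) hg (index_cent_elS hc h)
      by_cases h7 : g ^ 4 = 1
      · have := h4 hg h7 ((hpow _ h).1 (pow_card_add_one_elS c))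
        exact Or.inr (Or.inr (Or.inr (Or.inl ⟨by omega, h5 h7⟩)))
      · exact Or.inr (Or.inr (Or.inr (Or.inr (Or.inr (h6 h7)))))
  have hnot : ∀ {g : S2 F} {k : ℕ}, k < orderOf g → 0 < k → g ^ k ≠ 1 := fun h1 h0 h =>
    absurd (Nat.le_of_dvd h0 (orderOf_dvd_of_pow_eq_one h)) (by omega)
  obtain ⟨a, ha⟩ := exists_orderOf_ds (F := F)
  obtain ⟨c, hc⟩ := exists_orderOf_elS (F := F)
  have ha2 : ds a ^ 2 ≠ 1 := hnot (by omega) two_pos
  have hc2 : elS F c ^ 2 ≠ 1 := hnot (by omega) two_pos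
  have hB1 := (hgen (detFull_of_isConj_ds (IsConj.refl _)) ha2
    (index_cent_ds (hds2.2 ha2) (IsConj.refl _))).2 (hnot (by omega) (by norm_num))
  have hB2 := (hgen (detFull_of_isConj_elS (IsConj.refl _)) hc2
    (index_cent_elS (hel2.2 hc2) (IsConj.refl _))).2 (hnot (by omega) (by norm_num))
  have hB3 := hjb (isConj_jb_uu F one_ne_zero)
  constructor
  · intro hq
    have ho : orderOf (ds (a ^ (orderOf (ds a) / 4))) = 4 := by
      rw [← dsHom_apply (a ^ _), map_pow, dsHom_apply]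
      exact orderOf_pow_orderOf_div (by omega) (by omega)
    have h8 : ds (a ^ (orderOf (ds a) / 4)) ^ 2 ≠ 1 := hnot (by omega) two_pos
    have hB4 := (hgen (detFull_of_isConj_ds (IsConj.refl _)) h8
      (index_cent_ds (hds2.2 h8) (IsConj.refl _))).1 (orderOf_dvd_iff_pow_eq_one.1 (by rw [ho]))
    ext m
    simp only [Set.mem_range, Set.mem_insert_iff, Set.mem_singleton_iff]
    constructor
    · rintro ⟨x, rfl⟩
      rcases hA x with h | h | h | h | h | h
      · exact Or.inl h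
      · exact Or.inr (Or.inl h)
      · exact Or.inr (Or.inr (Or.inl h.2))
      · omega
      · exact Or.inr (Or.inr (Or.inr (Or.inr h)))
      · exact Or.inr (Or.inr (Or.inr (Or.inl h)))
    · rintro (rfl | rfl | rfl | rfl | rfl)
      exacts [⟨1, hone⟩, ⟨_, hB3⟩, ⟨_, hB4⟩, ⟨_, hB2⟩, ⟨_, hB1⟩]
  · intro hq
    have ho : orderOf (elS F (c ^ (orderOf (elS F c) / 4))) = 4 := by
      rw [map_pow]
      exact orderOf_pow_orderOf_div (by omega) (by omega)
    have h8 : elS F (c ^ (orderOf (elS F c) / 4)) ^ 2 ≠ 1 := hnot (by omega) two_pos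
    have hB4 := (hgen (detFull_of_isConj_elS (IsConj.refl _)) h8
      (index_cent_elS (hel2.2 h8) (IsConj.refl _))).1 (orderOf_dvd_iff_pow_eq_one.1 (by rw [ho]))
    ext m
    simp only [Set.mem_range, Set.mem_insert_iff, Set.mem_singleton_iff]
    constructor
    · rintro ⟨x, rfl⟩
      rcases hA x with h | h | h | h | h | h
      · exact Or.inl h
      · exact Or.inr (Or.inl h)
      · omega
      · exact Or.inr (Or.inr (Or.inl h.2))
      · exact Or.inr (Or.inr (Or.inr (Or.inl h)))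
      · exact Or.inr (Or.inr (Or.inr (Or.inr h)))
    · rintro (rfl | rfl | rfl | rfl | rfl)
      exacts [⟨1, hone⟩, ⟨_, hB3⟩, ⟨_, hB4⟩, ⟨_, hB1⟩, ⟨_, hB2⟩]

end Cfsg.Agent.S2508
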