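import Cfsg.Statements.S2513
import Mathlib
import Cfsg.Agent.H29.Cl4

set_option autoImplicit false
open Cfsg

namespace Cfsg.Agent.S2513

/-- Let F be the field with two elements, n ≥ 2, L = PSL(n, F) and k₀ = ⌊(n + 3)/2⌋. Then for every k ≥ k₀ the direct product of k copies of L has the same set of element orders as the direct product of k₀ copies of L. -/
theorem result {F : Type*} [Field F] [Fintype F] (hF : Fintype.card F = 2) (n k : ℕ) (hn : 2 ≤ n) (hk : (n + 3) / 2 ≤ k) :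
    Set.range (orderOf : (Fin k → Matrix.ProjectiveSpecialLinearGroup (Fin n) F) → ℕ) = Set.range (orderOf : (Fin ((n + 3) / 2) → Matrix.ProjectiveSpecialLinearGroup (Fin n) F) → ℕ) := by
  classical
  haveI := charP_of_card_eq_prime hF
  have e := H29.spec_psl (F := F) 2 (show n ≠ 0 by omega)
  have hQ := H29.pq_card F 2
  rw [hF] at e hQ
  have h1 : ∀ i : Fin ((n + 3) / 2), ∃ g : Matrix.ProjectiveSpecialLinearGroup (Fin n) F,
      orderOf g = if i.1 = 0 then 2 ^ Nat.clog 2 n else 2 ^ (n / 2 + i) - 1 := fun i => e.ge <| by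
    split_ifs with h
    · exact H29.clog_mem_admQ n
    · obtain ⟨E, h2, h3⟩ := H29.exists_orb (L := H29.Lc F) hQ (N := 2 ^ (n / 2 + i) - 1) (D := n / 2 + i) (by omega)
        (by rw [Nat.cast_sub Nat.one_le_two_pow]; simp) (by simpa using isCoprime_one_right)
      exact H29.mem_SP.2 ⟨_, (h2.add (H29.admQ_one _)).cast (Nat.add_sub_cancel' (by omega)), h3 _⟩
  choose g hg using h1
  have h2 : ∀ i, orderOf (g i) ∣ orderOf g := fun i => orderOf_map_dvd (Pi.evalMonoidHom _ i) g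
  refine subset_antisymm ?_ (H29.spec_mono (MonoidHom.pi fun j : Fin k => if h : j.1 < (n + 3) / 2 then
    Pi.evalMonoidHom _ ⟨j, h⟩ else 1) fun x y h => funext fun i => by simpa using congrFun h (i.castLE hk))
  rintro _ ⟨x, rfl⟩
  refine H29.mem_spec_of_dvd ⟨g, rfl⟩ (orderOf_dvd_of_pow_eq_one (funext fun j => orderOf_dvd_iff_pow_eq_one.1 ?_))
  obtain ⟨E, hE, h⟩ := H29.mem_SP.1 (e.le ⟨x j, rfl⟩)
  refine Int.natCast_dvd_natCast.1 (h _ (H29.Kl.of_le (c := 1) (fun α hα => ?_) one_lt_two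
    (fun α => (Multiset.count_le_card _ _).trans hE.card.le) (by exact_mod_cast hg ⟨0, by omega⟩ ▸ h2 _)))
  obtain ⟨D, hD, h3, h4⟩ := H29.exists_period_le hQ.inj hE.frob hα
  rw [hE.card] at h3
  have h5 := Nat.lt_mul_div_succ n hD
  have h6 := Nat.mul_div_le n D
  have h7 := Nat.le_mul_of_pos_right D (Nat.div_pos h3 hD)
  have h8 := h2 ⟨D * (n / D) - n / 2, by omega⟩
  rw [mul_add_one] at h5
  rw [hg, if_neg (by simp; omega), Nat.add_sub_cancel' (by omega)] at h8
  refine H29.zpow_eq_one_of_dvd (H29.zpow_sub_one_iff.2 h4) (.trans ?_ (Int.natCast_dvd_natCast.2 h8))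
  rw [Nat.cast_sub Nat.one_le_two_pow]
  simpa [pow_mul] using sub_dvd_pow_sub_pow ((2 : ℤ) ^ D) 1 (n / D)

end Cfsg.Agent.S2513
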