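import Cfsg.Statements.S2514
import Mathlib
-- import your own Cfsg.Agent.* helpers here

set_option autoImplicit false
open Cfsg

namespace Cfsg.Agent.S2514

theorem hmax {X : Type*} [Group X] [Finite X] (x : X) : ∃ m, (m ∈ Set.range (orderOf : X → ℕ) ∧
      ∀ m' ∈ Set.range (orderOf : X → ℕ), m ∣ m' → m' = m) ∧ orderOf x ∣ m := by
  obtain ⟨y, hy, hy2⟩ := Set.Finite.exists_maximalFor (f := (orderOf : X → ℕ)) (s := {y | orderOf x ∣ orderOf y})
    (Set.toFinite _) ⟨x, dvd_rfl⟩
  refine ⟨orderOf y, ⟨⟨y, rfl⟩, ?_⟩, hy⟩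
  rintro _ ⟨z, rfl⟩ hz
  have h1 := Nat.le_of_dvd (orderOf_pos z) hz
  exact le_antisymm (hy2 (dvd_trans hy hz) h1) h1

theorem hdiv {X : Type*} [Group X] [Finite X] (x : X) (n : ℕ) (hn : n ∣ orderOf x) : ∃ y : X, orderOf y = n :=
  ⟨x ^ (orderOf x / n), orderOf_pow_orderOf_div (orderOf_pos x).ne' hn⟩


/-- For a finite group X write μ(X) for the set of element orders of X that are maximal under divisibility. Let G and H be finite groups and k ≥ 1 such that μ(H) ⊆ μ(G) and μ(G) has fewer than k elements outside μ(H). Then the direct product of k copies of G has the same set of element orders as the direct product of k − 1 copies of G with H. -/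
theorem result {G H : Type*} [Group G] [Finite G] [Group H] [Finite H] (k : ℕ) (hk : 1 ≤ k)
    (hsub : {n : ℕ | n ∈ Set.range (orderOf : H → ℕ) ∧ ∀ m ∈ Set.range (orderOf : H → ℕ), n ∣ m → m = n} ⊆ {n : ℕ | n ∈ Set.range (orderOf : G → ℕ) ∧ ∀ m ∈ Set.range (orderOf : G → ℕ), n ∣ m → m = n})
    (hfew : ({n : ℕ | n ∈ Set.range (orderOf : G → ℕ) ∧ ∀ m ∈ Set.range (orderOf : G → ℕ), n ∣ m → m = n} \ {n : ℕ | n ∈ Set.range (orderOf : H → ℕ) ∧ ∀ m ∈ Set.range (orderOf : H → ℕ), n ∣ m → m = n}).ncard < k) :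
    Set.range (orderOf : (Fin k → G) → ℕ) = Set.range (orderOf : (Fin (k - 1) → G) × H → ℕ) := by
  obtain ⟨k, rfl⟩ : ∃ j, k = j + 1 := ⟨k - 1, by omega⟩
  ext n
  constructor
  · rintro ⟨f, rfl⟩
    choose m hm hm2 using fun i => hmax (f i)
    by_cases h : ∃ i, ∃ y : H, orderOf y = orderOf (f i)
    · obtain ⟨i, y, hy⟩ := h
      refine ⟨(f ∘ i.succAbove, y), orderOf_eq_orderOf_iff.2 fun n => ?_⟩
      rw [orderOf_eq_orderOf_iff] at hy
      simp only [Prod.pow_mk, Prod.mk_eq_one, funext_iff, Pi.pow_apply, Pi.one_apply, Function.comp, hy]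
      rw [Fin.forall_iff_succAbove i, and_comm]; rfl
    · have hni : ¬ Function.Injective m := by
        intro hinj
        refine absurd hfew (not_lt.2 ?_)
        have h1 : (Set.range m).ncard = k + 1 := by
          rw [← Set.image_univ, Set.ncard_image_of_injective _ hinj]; simp [Set.ncard_univ]
        rw [← h1]
        refine Set.ncard_le_ncard ?_ ((Set.finite_range _).subset fun a ha => ha.1.1)
        rintro _ ⟨i, rfl⟩
        refine ⟨hm i, fun h2 => h ⟨i, ?_⟩⟩
        obtain ⟨y, hy⟩ := h2.1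
        exact hdiv y _ (hy ▸ hm2 i)
      obtain ⟨i, j, hij, hne⟩ := Function.not_injective_iff.1 hni
      obtain ⟨y, hy⟩ := (hm i).1
      obtain ⟨z, hz⟩ := hdiv y (Nat.lcm (orderOf (f i)) (orderOf (f j)))
        (hy ▸ Nat.lcm_dvd (hm2 i) (hij ▸ hm2 j))
      refine ⟨(Function.update f i z ∘ j.succAbove, 1), orderOf_eq_orderOf_iff.2 fun n => ?_⟩
      simp only [Prod.pow_mk, Prod.mk_eq_one, funext_iff, Pi.pow_apply, Pi.one_apply, Function.comp, one_pow,
        and_true]
      have hz' : z ^ n = 1 ↔ f i ^ n = 1 ∧ f j ^ n = 1 := by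
        simp only [← orderOf_dvd_iff_pow_eq_one, hz, Nat.lcm_dvd_iff]
      obtain ⟨i', rfl⟩ := Fin.exists_succAbove_eq hne
      constructor
      · intro h1
        have h2 := h1 i'
        rw [Function.update_self, hz'] at h2
        rw [Fin.forall_iff_succAbove j]
        refine ⟨h2.2, fun l => ?_⟩
        by_cases hl : l = i'
        · rw [hl]; exact h2.1
        · have := h1 l
          rwa [Function.update_of_ne (by simpa using hl)] at this
      · intro h1 l
        by_cases hl : l = i'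
        · rw [hl, Function.update_self, hz']; exact ⟨h1 _, h1 _⟩
        · rw [Function.update_of_ne (by simpa using hl)]; exact h1 _
  · rintro ⟨⟨f, y⟩, rfl⟩
    obtain ⟨m, hm, hm2⟩ := hmax y
    obtain ⟨z, hz⟩ := (hsub hm).1
    obtain ⟨w, hw⟩ := hdiv z _ (hz ▸ hm2)
    refine ⟨Fin.cons w f, orderOf_eq_orderOf_iff.2 fun n => ?_⟩
    rw [orderOf_eq_orderOf_iff] at hw
    simp only [Prod.pow_mk, Prod.mk_eq_one, funext_iff, Pi.pow_apply, Pi.one_apply, Fin.forall_fin_succ,
      Fin.cons_zero, Fin.cons_succ, hw]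
    exact and_comm

end Cfsg.Agent.S2514
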