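import Cfsg.Statements.S2516
import Mathlib
-- import your own Cfsg.Agent.* helpers here

set_option autoImplicit false
open Cfsg

namespace Cfsg.Agent.S2516


/-- Let F be a field of characteristic p > 0, V a non-zero finite-dimensional F-vector space, G a finite group and ρ a representation of G on V; form the semidirect product V ⋊ G. For g ∈ G of order k, the coset Vg contains an element of order pk if and only if the minimal polynomial of ρ(g) does not divide 1 + X + ⋯ + X^(k−1). -/
theorem result {F : Type*} [Field F] (p : ℕ) [Fact p.Prime] [CharP F p] {V : Type*} [AddCommGroup V] [Module F V] [FiniteDimensional F V] [Nontrivial V]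
    {G : Type*} [Group G] [Finite G] (ρ : Representation F G V) (g : G) :
    (∃ x : Multiplicative V ⋊[(MulAutMultiplicative V).symm.toMonoidHom.comp
        ((DistribMulAction.toAddAut ((V →ₗ[F] V)ˣ) V).comp ρ.asGroupHom)] G,
        x.right = g ∧ orderOf x = p * orderOf g) ↔
      ¬ (minpoly F (ρ g) ∣ ∑ i ∈ Finset.range (orderOf g), (Polynomial.X : Polynomial F) ^ i) := by
  set φ := (MulAutMultiplicative V).symm.toMonoidHom.comp
        ((DistribMulAction.toAddAut ((V →ₗ[F] V)ˣ) V).comp ρ.asGroupHom) with hφ
  have hφa : ∀ (a : G) (v : Multiplicative V), (φ a v).toAdd = ρ a v.toAdd := fun a v => rfl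
  have hpow : ∀ (x : Multiplicative V ⋊[φ] G) (k : ℕ), (x ^ k).left.toAdd =
      Polynomial.aeval (ρ x.right) (∑ i ∈ Finset.range k, (Polynomial.X : Polynomial F) ^ i) x.left.toAdd := by
    intro x k
    induction k with
    | zero => simp
    | succ k ih =>
      have : (x ^ k).right = x.right ^ k := map_pow SemidirectProduct.rightHom x k
      rw [pow_succ, SemidirectProduct.mul_left, toAdd_mul, ih, Finset.sum_range_succ, map_add, hφa, this]
      simp
  have hint : IsIntegral F (ρ g) := Algebra.IsIntegral.isIntegral _
  rw [minpoly.dvd_iff]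
  have hk := orderOf_pos g
  have hp := (Fact.out : p.Prime)
  constructor
  · rintro ⟨x, rfl, h⟩ h0
    have : x ^ orderOf x.right = 1 := by
      ext
      · apply Multiplicative.toAdd.injective
        rw [hpow, h0]; rfl
      · exact (map_pow SemidirectProduct.rightHom x _).trans (pow_orderOf_eq_one _)
    have := Nat.le_of_dvd hk (h ▸ orderOf_dvd_of_pow_eq_one this)
    nlinarith [hp.two_le]
  · intro h
    obtain ⟨v, hv⟩ := DFunLike.ne_iff.1 h
    let x : Multiplicative V ⋊[φ] G := ⟨Multiplicative.ofAdd v, g⟩
    refine ⟨x, rfl, ?_⟩
    have h1 : x ^ orderOf g = SemidirectProduct.inl (x ^ orderOf g).left := by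
      ext
      · rfl
      · exact (map_pow SemidirectProduct.rightHom x _).trans (pow_orderOf_eq_one _)
    have h2 : orderOf (x ^ orderOf g) = p := by
      rw [h1, orderOf_injective _ SemidirectProduct.inl_injective]
      apply orderOf_eq_prime
      · apply Multiplicative.toAdd.injective
        rw [toAdd_pow, ← Nat.cast_smul_eq_nsmul F, CharP.cast_eq_zero, zero_smul]; rfl
      · intro h3
        apply hv
        have := hpow x (orderOf g)
        rw [h3] at this
        exact this.symm
    have h3 : orderOf g ∣ orderOf x := orderOf_map_dvd SemidirectProduct.rightHom x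
    rw [orderOf_pow_of_dvd hk.ne' h3] at h2
    rw [← h2, Nat.div_mul_cancel h3]

end Cfsg.Agent.S2516
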