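import Cfsg.Statements.S2519
import Mathlib
import Cfsg.Agent.H12.SpG2

set_option autoImplicit false
open Cfsg

namespace Cfsg.Agent.S2519

open Cfsg.Agent.H12
theorem g2_antichain {p q n m : ℕ} (hp : p.Prime) (hq : p ∣ q) (hq5 : 5 ≤ q) (hodd : Odd q)
    (hn : n = p * (q + 1) ∨ n = p * (q - 1) ∨ n = q ^ 2 - 1 ∨ n = q ^ 2 + q + 1 ∨
      n = q ^ 2 - q + 1 ∨ (p = 3 ∨ p = 5) ∧ n = p ^ 2)
    (hm : m = p * (q + 1) ∨ m = p * (q - 1) ∨ m = q ^ 2 - 1 ∨ m = q ^ 2 + q + 1 ∨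
      m = q ^ 2 - q + 1 ∨ (p = 3 ∨ p = 5) ∧ m = p ^ 2) (h : n ∣ m) : m = n := by
  obtain ⟨k, rfl⟩ : ∃ k, q = k + 1 := ⟨q - 1, by omega⟩
  have e1 : (k + 1) ^ 2 - 1 = k * (k + 2) := by rw [Nat.sub_eq_iff_eq_add] <;> nlinarith
  have e2 : (k + 1) ^ 2 - (k + 1) + 1 = k * (k + 1) + 1 := by
    rw [show (k + 1) ^ 2 = k * (k + 1) + (k + 1) by ring, Nat.add_sub_cancel]
  have e3 : (k + 1) ^ 2 + (k + 1) + 1 = (k + 2) * (k + 1) + 1 := by ring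
  rw [e1, e2, e3, Nat.add_sub_cancel] at hn hm
  have p1 : ∀ a, ¬ p ∣ a * (k + 1) + 1 := fun a h =>
    hp.one_lt.ne' (Nat.dvd_one.1 ((Nat.dvd_add_right (hq.mul_left a)).1 h))
  have p2 : ¬ p ∣ k := fun h => hp.one_lt.ne' (Nat.dvd_one.1 ((Nat.dvd_add_right h).1 hq))
  have p3 : ¬ p ∣ k + 1 + 1 := by simpa using p1 1
  have p4 : ¬ p ∣ k * (k + 2) := fun h => (hp.dvd_mul.1 h).elim p2 p3
  have p5 : ∀ {a b}, ¬ p ∣ a → a ∣ p * b → a ∣ b := fun h h' =>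
    (((Nat.Prime.coprime_iff_not_dvd hp).2 h).symm).dvd_of_dvd_mul_left h'
  have p6 : ∀ {a}, ¬ p ∣ a → a ∣ p ^ 2 → a = 1 := fun h h' => Nat.dvd_one.1
    (p5 h (by simpa using p5 h (sq p ▸ h')))
  have p7 := fun {a b} => (Nat.mul_dvd_mul_iff_left (b := a) (c := b) hp.pos).1
  have p8 : 2 ∣ k := by obtain ⟨j, hj⟩ := hodd; omega
  have p9 : ∀ a, 2 ∣ a → ¬ 2 ∣ a * (k + 1) + 1 := fun a h h' => by
    have := (Nat.dvd_add_right (h.mul_right (k + 1))).1 h'; omega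
  have le : ∀ {a b}, a ∣ b → 0 < b → a ≤ b := fun h h' => Nat.le_of_dvd h' h
  have k4 : 4 ≤ k := by omega
  rcases hn with rfl | rfl | rfl | rfl | rfl | ⟨-, rfl⟩ <;>
    rcases hm with rfl | rfl | rfl | rfl | rfl | ⟨-, rfl⟩ <;> first | rfl | exfalso
  · have := le (p7 h) (by omega); omega
  · exact p4 (dvd_of_mul_right_dvd h)
  · exact p1 _ (dvd_of_mul_right_dvd h)
  · exact p1 _ (dvd_of_mul_right_dvd h)
  · have := p6 p3 ((p7 (sq p ▸ h)).trans (dvd_pow_self p two_ne_zero)); omega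
  · have := le ((Nat.dvd_add_right dvd_rfl).1 (p7 h : k ∣ k + 2)) (by omega); omega
  · exact p4 (dvd_of_mul_right_dvd h)
  · exact p1 _ (dvd_of_mul_right_dvd h)
  · exact p1 _ (dvd_of_mul_right_dvd h)
  · have := p6 p2 ((p7 (sq p ▸ h)).trans (dvd_pow_self p two_ne_zero)); omega
  · have := le (p5 p4 h) (by omega); nlinarith
  · have := le (p5 p4 h) (by omega); nlinarith
  · exact p9 _ (by omega) ((p8.mul_right _).trans h)
  · exact p9 _ p8 ((p8.mul_right _).trans h)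
  · have := p6 p4 h; nlinarith
  · have := le (p5 (p1 _) h) (by omega); nlinarith
  · have := le (p5 (p1 _) h) (by omega); nlinarith
  · have := le h (by positivity); nlinarith
  · have := le h (by positivity); nlinarith
  · have := p6 (p1 _) h; nlinarith
  · have := le (p5 (p1 _) h) (by omega); nlinarith
  · have := le (p5 (p1 _) h) (by omega); nlinarith
  · obtain ⟨c, hc⟩ := h
    rcases c with _ | _ | c <;> nlinarith
  · obtain ⟨c, hc⟩ := h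
    rcases c with _ | _ | c <;> nlinarith
  · have := p6 (p1 _) h; nlinarith
  · exact p3 (p7 (sq p ▸ h))
  · exact p2 (p7 (sq p ▸ h))
  · exact p4 ((dvd_pow_self p two_ne_zero).trans h)
  · exact p1 _ ((dvd_pow_self p two_ne_zero).trans h)
  · exact p1 _ ((dvd_pow_self p two_ne_zero).trans h)


/-- Let F be a finite field of odd order q = p^a ≥ 5. The element orders of the Chevalley group G₂(F) that are maximal under divisibility are exactly p(q + 1), p(q − 1), q² − 1, q² + q + 1, q² − q + 1, together with p² when p is 3 or 5. -/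
theorem result {F : Type*} [Field F] [Fintype F] (p a : ℕ) (hp : p.Prime) (hp2 : p ≠ 2) (ha : 1 ≤ a) (hF : Fintype.card F = p ^ a) (hq5 : 5 ≤ Fintype.card F) :
    {n : ℕ | n ∈ Set.range (orderOf : ↥(Cfsg.Lie.chevG2.group F) → ℕ) ∧ ∀ m ∈ Set.range (orderOf : ↥(Cfsg.Lie.chevG2.group F) → ℕ), n ∣ m → m = n} =
      ({p * (p ^ a + 1), p * (p ^ a - 1), p ^ (2 * a) - 1, p ^ (2 * a) + p ^ a + 1, p ^ (2 * a) - p ^ a + 1} : Set ℕ) ∪
        (if p = 3 ∨ p = 5 then ({p ^ 2} : Set ℕ) else ∅) := by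
  have := Fact.mk hp
  have : CharP F p := charP_of_card_eq_prime_pow hF
  obtain ⟨h1, h2, h3, h4, h5⟩ := exists_orderOf_G2 (p := p) hF
  rw [hF] at hq5
  rw [pow_mul']
  have hq : p ∣ p ^ a := dvd_pow_self p (by omega)
  have h6 := fun x => orderOf_dvd_G2 (p := p) x hF
  have hodd : Odd (p ^ a) := (hp.odd_of_ne_two hp2).pow
  generalize p ^ a = q at *
  have key : ∀ n, n ∈ ({p * (q + 1), p * (q - 1), q ^ 2 - 1, q ^ 2 + q + 1, q ^ 2 - q + 1} : Set ℕ) ∪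
      (if p = 3 ∨ p = 5 then ({p ^ 2} : Set ℕ) else ∅) ↔ n = p * (q + 1) ∨ n = p * (q - 1) ∨
        n = q ^ 2 - 1 ∨ n = q ^ 2 + q + 1 ∨ n = q ^ 2 - q + 1 ∨ (p = 3 ∨ p = 5) ∧ n = p ^ 2 := fun n => by
    split_ifs with h <;> simp [h]
    tauto
  have h7 : ∀ n, (n = p * (q + 1) ∨ n = p * (q - 1) ∨ n = q ^ 2 - 1 ∨ n = q ^ 2 + q + 1 ∨
      n = q ^ 2 - q + 1 ∨ (p = 3 ∨ p = 5) ∧ n = p ^ 2) →
      n ∈ Set.range (orderOf : ↥(Cfsg.Lie.chevG2.group F) → ℕ) := by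
    rintro n (rfl | rfl | rfl | rfl | rfl | ⟨h, rfl⟩)
    exacts [h4, h5, h1, h2, h3, exists_unip_G2.2 h]
  have h8 : ∀ x : Cfsg.Lie.chevG2.group F, ∃ n, (n = p * (q + 1) ∨ n = p * (q - 1) ∨ n = q ^ 2 - 1 ∨
      n = q ^ 2 + q + 1 ∨ n = q ^ 2 - q + 1 ∨ (p = 3 ∨ p = 5) ∧ n = p ^ 2) ∧ orderOf x ∣ n := fun x => by
    rcases h6 x with e | e | e | e | e | ⟨e, -⟩ | ⟨e, e'⟩
    exacts [⟨_, by simp, e⟩, ⟨_, by simp, e⟩, ⟨_, by simp, e⟩, ⟨_, by simp, e⟩, ⟨_, by simp, e⟩,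
      absurd e hp2, ⟨_, by simp [e], e'⟩]
  ext n
  rw [key]
  refine ⟨?_, fun h => ⟨h7 n h, ?_⟩⟩
  · rintro ⟨⟨x, rfl⟩, h⟩
    obtain ⟨m, hm, e⟩ := h8 x
    exact h m (h7 m hm) e ▸ hm
  · rintro _ ⟨x, rfl⟩ e
    obtain ⟨m, hm, e'⟩ := h8 x
    exact Nat.dvd_antisymm (g2_antichain hp hq hq5 hodd h hm (e.trans e') ▸ e') e

end Cfsg.Agent.S2519
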