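import Cfsg.Statements.S2520
import Mathlib
import Cfsg.Agent.H12.SpG2

set_option autoImplicit false
open Cfsg

namespace Cfsg.Agent.S2520

open Cfsg.Agent.H12

/-- Let F be a finite field with q = 2^a ≥ 4 elements and G₂(F) the Chevalley group of type G₂ over it. Every element order of G₂(F) maximal under divisibility lies in the set {8, 12, 2(q + 1), 2(q − 1), q² − 1, q² + q + 1, q² − q + 1}, and every member of that set is an element order of G₂(F). -/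
theorem result {F : Type*} [Field F] [Fintype F] (a : ℕ) (ha : 2 ≤ a) (hF : Fintype.card F = 2 ^ a) :
    {n : ℕ | n ∈ Set.range (orderOf : ↥(Cfsg.Lie.chevG2.group F) → ℕ) ∧ ∀ m ∈ Set.range (orderOf : ↥(Cfsg.Lie.chevG2.group F) → ℕ), n ∣ m → m = n} ⊆ ({8, 12, 2 * (2 ^ a + 1), 2 * (2 ^ a - 1), 2 ^ (2 * a) - 1, 2 ^ (2 * a) + 2 ^ a + 1, 2 ^ (2 * a) - 2 ^ a + 1} : Set ℕ) ∧
    ({8, 12, 2 * (2 ^ a + 1), 2 * (2 ^ a - 1), 2 ^ (2 * a) - 1, 2 ^ (2 * a) + 2 ^ a + 1, 2 ^ (2 * a) - 2 ^ a + 1} : Set ℕ) ⊆ Set.range (orderOf : ↥(Cfsg.Lie.chevG2.group F) → ℕ) := by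
  have : CharP F 2 := charP_of_card_eq_prime_pow hF
  obtain ⟨h1, h2, h3, h4, h5⟩ := exists_orderOf_G2 (p := 2) hF
  obtain ⟨Z⟩ := exists_frob' (ZMod 2) 2
  have key : ({8, 12, 2 * (2 ^ a + 1), 2 * (2 ^ a - 1), 2 ^ (2 * a) - 1, 2 ^ (2 * a) + 2 ^ a + 1,
      2 ^ (2 * a) - 2 ^ a + 1} : Set ℕ) ⊆ Set.range (orderOf : ↥(Cfsg.Lie.chevG2.group F) → ℕ) := by
    rw [pow_mul']
    rintro n (rfl | rfl | rfl | rfl | rfl | rfl | rfl)
    exacts [(exists_unip_G2 (p := 2)).1 rfl, Z.exists_twelve_G2, h4, h5, h1, h2, h3]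
  refine ⟨?_, key⟩
  rintro _ ⟨⟨x, rfl⟩, h⟩
  have h6 : ∀ m, m ∈ _ → orderOf x ∣ m → orderOf x ∈ _ := fun m hm e => h m (key hm) e ▸ hm
  rw [pow_mul'] at h6 ⊢
  rcases orderOf_dvd_G2 (p := 2) x hF with e | e | e | e | e | ⟨-, e | e⟩ | ⟨e | e, -⟩
  any_goals exact h6 _ (by simp) e
  all_goals omega

end Cfsg.Agent.S2520
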