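import Cfsg.Statements.S2521
import Mathlib
-- import your own Cfsg.Agent.* helpers here

set_option autoImplicit false
open Cfsg

namespace Cfsg.Agent.S2521


/-- Let B be a finite group that is the semidirect product of a nilpotent normal subgroup U by an abelian subgroup T (U ∩ T = 1, UT = B), and let t ∈ T have centralizer exactly T. Then every element of the coset tU is conjugate to t in B: for each u ∈ U there is b ∈ B with b t b⁻¹ = t u. -/
theorem result {B : Type*} [Group B] [Finite B] (U T : Subgroup B) [U.Normal] (hU : Group.IsNilpotent ↥U) (hT : IsMulCommutative ↥T)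
    (hcompl : Subgroup.IsComplement' U T) (t : B) (ht : t ∈ T) (hreg : Subgroup.centralizer ({t} : Set B) = T) (u : B) (hu : u ∈ U) :
    ∃ b : B, b * t * b⁻¹ = t * u := by
  let f : U → U := fun v => ⟨t⁻¹ * v * t * (v : B)⁻¹, U.mul_mem (by
    have := ‹U.Normal›.conj_mem _ v.2 t⁻¹
    simpa using this) (U.inv_mem v.2)⟩
  have hf : Function.Injective f := by
    intro v w h
    have h1 : t⁻¹ * v * t * (v : B)⁻¹ = t⁻¹ * w * t * (w : B)⁻¹ := congrArg Subtype.val h
    have h2 : (w : B)⁻¹ * v ∈ T := by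
      rw [← hreg, Subgroup.mem_centralizer_iff]
      intro s hs
      rw [Set.mem_singleton_iff.1 hs]
      have h4 : (v : B) * t * (v : B)⁻¹ = w * t * (w : B)⁻¹ := by
        calc _ = t * (t⁻¹ * v * t * (v : B)⁻¹) := by group
          _ = _ := by rw [h1]; group
      calc _ = (w : B)⁻¹ * (w * t * (w : B)⁻¹) * v := by group
        _ = _ := by rw [← h4]; group
    have h3 : (w : B)⁻¹ * v ∈ U ⊓ T := ⟨U.mul_mem (U.inv_mem w.2) v.2, h2⟩
    rw [hcompl.disjoint.eq_bot, Subgroup.mem_bot] at h3
    exact Subtype.ext (inv_mul_eq_one.1 h3).symm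
  obtain ⟨v, hv⟩ := (Finite.injective_iff_surjective.1 hf) ⟨u, hu⟩
  refine ⟨v, ?_⟩
  have : t⁻¹ * v * t * (v : B)⁻¹ = u := congrArg Subtype.val hv
  rw [← this]; group

end Cfsg.Agent.S2521
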