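import Cfsg.Statements.S2522
import Mathlib
import Cfsg.Agent.H27.Lev2

set_option autoImplicit false
open Cfsg

namespace Cfsg.Agent.S2522

open Cfsg.Agent.H27.Lev

/-- Let K be a field with at least four elements (finite or infinite), n ≥ 3, and J ∈ GL(n, K) the regular unipotent matrix (ones on the diagonal and the superdiagonal, zeros elsewhere). Then every non-scalar g ∈ GL(n, K) with det g = 1 is a product of two GL(n, K)-conjugates of J. -/
theorem result {K : Type*} [Field K] (hK : 4 ≤ Cardinal.mk K) (n : ℕ) (hn : 3 ≤ n) (J g : GL (Fin n) K)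
    (hJ : ∀ i j : Fin n, (J : Matrix (Fin n) (Fin n) K) i j = if i = j then 1 else if j.val = i.val + 1 then 1 else 0)
    (hg : ¬ ∃ c : K, (g : Matrix (Fin n) (Fin n) K) = c • (1 : Matrix (Fin n) (Fin n) K))
    (hdet : (g : Matrix (Fin n) (Fin n) K).det = 1) :
    ∃ x y : GL (Fin n) K, g = (x * J * x⁻¹) * (y * J * y⁻¹) := by
  classical
  obtain ⟨n, rfl⟩ : ∃ m, n = m + 1 := ⟨n - 1, by omega⟩
  have h4 : Big K := fun a b c => by
    obtain ⟨t, ht⟩ := Cardinal.exists_notMem_of_length_lt [a, b, c] (lt_of_lt_of_le (by norm_num) hK)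
    exact ⟨t, by simpa using ht⟩
  let e : Module.End K (Fin (n + 1) → K) ≃ₐ[K] Matrix (Fin (n + 1)) (Fin (n + 1)) K := LinearMap.toMatrixAlgEquiv'
  obtain ⟨B, C, b1, b2, b3, b4, b5⟩ := all h4 (V := Fin (n + 1) → K) (n := n) (by simp) (A := e.symm g)
    (by rw [← hdet]; exact LinearMap.det_toLin' _) fun l h => hg ⟨l, by
      simpa using congrArg e h⟩
  have k : ∀ B : Module.End K (Fin (n + 1) → K), (B - 1) ^ (n + 1) = 0 → (B - 1) ^ n ≠ 0 →
      ∃ x : GL (Fin (n + 1)) K, e B = (x * J * x⁻¹ : GL (Fin (n + 1)) K) := fun B h1 h2 => by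
    obtain ⟨_, ⟨x, rfl⟩, hx⟩ := conj_J (B := e B) hJ (by simpa using congrArg e h1)
      (fun h => h2 (e.injective (by simpa using h)))
    exact ⟨x, by rw [Units.val_mul, Units.val_mul, ← hx, Units.mul_inv_cancel_right]⟩
  obtain ⟨x, hx⟩ := k B b2 b3
  obtain ⟨y, hy⟩ := k C b4 b5
  exact ⟨x, y, Units.ext (by rw [Units.val_mul, ← hx, ← hy, ← map_mul, ← b1, AlgEquiv.apply_symm_apply])⟩

end Cfsg.Agent.S2522
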