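import Cfsg.Statements.S2525
import Mathlib
import Cfsg.Agent.H12.SpF4
import Cfsg.Agent.S1062

set_option autoImplicit false
open Cfsg

namespace Cfsg.Agent.S2525

open Cfsg.Agent.H12
set_option synthInstance.maxSize 1024 in
theorem key : ∀ k ∈ [1, 2, 3, 4, 6, 8, 12], ∀ l ∈ [1, 2, 3, 4, 6, 8, 12],
    ¬ ((k < l ∧ (l ∈ ({8, 12} : Finset ℕ) ∨ (l = 6 ∧ k ∈ ({3, 4} : Finset ℕ)) ∨ (l = 4 ∧ k = 3))) ∨
      (l < k ∧ (k ∈ ({8, 12} : Finset ℕ) ∨ (k = 6 ∧ l ∈ ({3, 4} : Finset ℕ)) ∨ (k = 4 ∧ l = 3)))) →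
    ∃ L ∈ [[1, 2, 3], [1, 2, 4], [1, 2, 6], [8], [12]], k ∈ L ∧ l ∈ L := by decide


/-- Let F be a finite field with q = 2^n elements and G = F₄(F). For an odd prime r let e(r, q) be the multiplicative order of q modulo r. Two distinct primes r, s dividing the order of G are non-adjacent in the prime graph of G (no element of order rs) if and only if, up to swapping r and s, either r = 2 and e(s, q) ∈ {8, 12}, or r, s are both odd with k = e(r, q) < l = e(s, q) and one of: l ∈ {8, 12}; l = 6 and k ∈ {3, 4}; l = 4 and k = 3. -/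
theorem result {F : Type*} [Field F] [Fintype F] (n : ℕ) (hn : 1 ≤ n) (hF : Fintype.card F = 2 ^ n)
    (r s : ℕ) (hr : r.Prime) (hs : s.Prime) (hrs : r ≠ s) (hrG : r ∣ Nat.card ↥(Cfsg.Lie.chevF4.group F)) (hsG : s ∣ Nat.card ↥(Cfsg.Lie.chevF4.group F)) :
    (¬ ∃ x : ↥(Cfsg.Lie.chevF4.group F), orderOf x = r * s) ↔
      ((r = 2 ∧ orderOf ((Fintype.card F : ℕ) : ZMod s) ∈ ({8, 12} : Finset ℕ)) ∨ (s = 2 ∧ orderOf ((Fintype.card F : ℕ) : ZMod r) ∈ ({8, 12} : Finset ℕ)) ∨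
       (r ≠ 2 ∧ s ≠ 2 ∧
         ((orderOf ((Fintype.card F : ℕ) : ZMod r) < orderOf ((Fintype.card F : ℕ) : ZMod s) ∧ (orderOf ((Fintype.card F : ℕ) : ZMod s) ∈ ({8, 12} : Finset ℕ) ∨ (orderOf ((Fintype.card F : ℕ) : ZMod s) = 6 ∧ orderOf ((Fintype.card F : ℕ) : ZMod r) ∈ ({3, 4} : Finset ℕ)) ∨ (orderOf ((Fintype.card F : ℕ) : ZMod s) = 4 ∧ orderOf ((Fintype.card F : ℕ) : ZMod r) = 3))) ∨
          (orderOf ((Fintype.card F : ℕ) : ZMod s) < orderOf ((Fintype.card F : ℕ) : ZMod r) ∧ (orderOf ((Fintype.card F : ℕ) : ZMod r) ∈ ({8, 12} : Finset ℕ) ∨ (orderOf ((Fintype.card F : ℕ) : ZMod r) = 6 ∧ orderOf ((Fintype.card F : ℕ) : ZMod s) ∈ ({3, 4} : Finset ℕ)) ∨ (orderOf ((Fintype.card F : ℕ) : ZMod r) = 4 ∧ orderOf ((Fintype.card F : ℕ) : ZMod s) = 3)))))) := by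
  have : CharP F 2 := charP_of_card_eq_prime_pow hF
  rw [Cfsg.Agent.S1062.result rfl] at hrG hsG
  have h0 : ∀ {t : ℕ}, t.Prime → t ≠ 2 → ¬ t ∣ Fintype.card F := fun ht h e =>
    h ((Nat.prime_dvd_prime_iff_eq ht Nat.prime_two).1 (ht.dvd_of_dvd_pow (hF ▸ e)))
  have h2 : ∀ {t : ℕ}, t.Prime → t ≠ 2 → orderOf (Fintype.card F : ZMod t) ∈ [1, 2, 3, 4, 6, 8, 12] →
      ((¬ ∃ x : ↥(Cfsg.Lie.chevF4.group F), orderOf x = 2 * t) ↔
        orderOf (Fintype.card F : ZMod t) ∈ ({8, 12} : Finset ℕ)) := fun ht h e =>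
    ⟨fun h1 => by_contra fun h3 => h1 (mul_comm 2 _ ▸ adj_two_F4 ht h
      ((by decide : ∀ d ∈ [1, 2, 3, 4, 6, 8, 12], d ∉ ({8, 12} : Finset ℕ) → d ∈ [1, 2, 3, 4, 6]) _ e h3)),
      fun h1 ⟨x, hx⟩ => not_adj_two_F4 ht h (by simpa using h1) x hx⟩
  by_cases hr2 : r = 2
  · subst hr2
    rw [h2 hs hrs.symm (orderOf_mem_F4 hs (h0 hs hrs.symm) hsG)]
    simp [hrs.symm]
  by_cases hs2 : s = 2
  · subst hs2
    rw [mul_comm, h2 hr hrs (orderOf_mem_F4 hr (h0 hr hrs) hrG)]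
    simp [hrs]
  have h3 := orderOf_mem_F4 hr (h0 hr hr2) hrG
  have h4 := orderOf_mem_F4 hs (h0 hs hs2) hsG
  have h5 := fun L hL => adj_F4 (F := F) hr hs hrs (L := L) hL
  have h6 := not_adj_F4 (F := F) hr hs hr2 hs2 rfl rfl
  have h7 := not_adj_F4 (F := F) hs hr hs2 hr2 rfl rfl
  generalize orderOf (Fintype.card F : ZMod r) = k at *
  generalize orderOf (Fintype.card F : ZMod s) = l at *
  refine ⟨fun h => Or.inr (Or.inr ⟨hr2, hs2, by_contra fun h8 => h ?_⟩), ?_⟩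
  · obtain ⟨L, hL, h9⟩ := key k h3 l h4 h8
    exact h5 L hL h9.1 h9.2
  · rintro (h | h | ⟨-, -, h | h⟩) ⟨x, hx⟩
    · exact hr2 h.1
    · exact hs2 h.1
    · exact h6 h.1 (by simp at h ⊢; omega) x hx
    · exact h7 h.1 (by simp at h ⊢; omega) x (hx.trans (mul_comm r s))

end Cfsg.Agent.S2525
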