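import Cfsg.Statements.S2553
import Cfsg.Agent.H24.A8a
-- import your own Cfsg.Agent.* helpers here

set_option autoImplicit false
open Cfsg

namespace Cfsg.Agent.S2553

/-- Let H be a nontrivial subgroup of GL(4,2) (a group isomorphic to the alternating group of degree 8) whose largest normal 2-subgroup and largest normal subgroup of odd order are both trivial. Then H is isomorphic to an alternating group of degree n for some 5 ≤ n ≤ 8, to the symmetric group of degree 5 or 6, or to GL(3,2). -/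
theorem result (H : Subgroup (GL (Fin 4) (ZMod 2))) (hH : H ≠ ⊥) (hO : Cfsg.pPrimeCore 2 ↥H = ⊥) (hO2 : Cfsg.pCore 2 ↥H = ⊥) :
    (∃ n : ℕ, 5 ≤ n ∧ n ≤ 8 ∧ Nonempty (↥H ≃* alternatingGroup (Fin n))) ∨
    Nonempty (↥H ≃* Equiv.Perm (Fin 5)) ∨ Nonempty (↥H ≃* Equiv.Perm (Fin 6)) ∨ Nonempty (↥H ≃* GL (Fin 3) (ZMod 2)) := by
  have hr : A8s.Rad H := fun N hN hs => by
    by_contra h1
    obtain ⟨M, h2, h3⟩ := FT.exists_minNml (M := ⊤) h1 (Subgroup.normalizer_eq_top N).ge
    obtain ⟨p, hp, h4⟩ := h3.abelem (FT.Sol.mono hs h2)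
    have h5 : M.Normal := Subgroup.normalizer_eq_top_iff.1 (top_le_iff.1 h3.nrm)
    refine h3.ne (le_bot_iff.1 ?_)
    by_cases h6 : p = 2
    · subst h6
      exact hO2 ▸ le_sSup ⟨h5, (h4.pGrp hp).isPGroup⟩
    · obtain ⟨n, hn⟩ := h4.card hp
      exact hO ▸ le_sSup ⟨h5, hn ▸ Nat.Coprime.pow_left n ((Nat.coprime_primes hp Nat.prime_two).2 h6)⟩
  obtain ⟨e⟩ := H10.SL4_zmod_two
  let f : H →* Equiv.Perm (Fin 8) := (alternatingGroup (Fin 8)).subtype.comp
    (((A8s.slGL 4).symm.trans e).toMonoidHom.comp H.subtype)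
  have hf : Function.Injective f := (Subgroup.subtype_injective _).comp
    (((A8s.slGL 4).symm.trans e).injective.comp H.subtype_injective)
  have e' := MonoidHom.ofInjective hf
  have : Nontrivial H := (Subgroup.nontrivial_iff_ne_bot H).2 hH
  have : Nontrivial f.range := e'.symm.toEquiv.nontrivial
  exact A8s.Con.of e' (A8s.main f.range (by rintro _ ⟨x, rfl⟩; exact Subtype.property _) (hr.of e'))

end Cfsg.Agent.S2553
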