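import Cfsg.Statements.S2556
import Cfsg.Agent.H13.SzAut
import Cfsg.Agent.H13.SzEasy
import Cfsg.Agent.H13.SzModels
import Cfsg.Agent.FT.Elem

set_option autoImplicit false
open Cfsg

namespace Cfsg.Agent.S2556

section
open Subgroup Cfsg.Agent.H13 Cfsg.Agent.FT
open scoped Classical
variable {G : Type*} [Group G] {F : Type*} [Field F] [Fintype (RingAut F)]

theorem ind (c : RingAut F → F) (h : ∀ a, ∑ σ, c σ * σ a = 0) (σ : RingAut F) : c σ = 0 :=
  Fintype.linearIndependent_iff.1 ((linearIndependent_monoidHom F F).comp (fun σ : RingAut F => (σ : F →* F))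
    fun σ τ e => RingEquiv.ext fun x => DFunLike.congr_fun e x) c (funext fun a => by simpa using h a) σ

theorem quad [CharP F 2] (hs : ∀ x : F, ∃ y, y ^ 2 = x) (c : RingAut F → RingAut F → F)
    (h : ∀ a, ∑ σ, ∑ τ, c σ τ * σ a * τ a = 0) : (∀ σ τ, c σ τ = c τ σ) ∧ ∀ σ, c σ σ = 0 := by
  have h1 : ∀ σ τ, c σ τ = c τ σ := fun σ τ => CharTwo.add_eq_zero.1 (ind (fun τ => c σ τ + c τ σ) (fun b =>
    ind (fun σ => ∑ τ, (c σ τ + c τ σ) * τ b) (fun a => by
      have e := h (a + b)
      simp only [map_add, mul_add, add_mul, Finset.sum_add_distrib, h, Finset.sum_mul] at e ⊢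
      rw [Finset.sum_comm (f := fun σ τ => c τ σ * τ b * σ a)]
      simp only [mul_right_comm _ (_ : F) ((_ : RingAut F) a)] at e ⊢
      rwa [zero_add, add_zero, add_comm] at e) σ) τ)
  refine ⟨h1, ind _ fun x => ?_⟩
  obtain ⟨a, rfl⟩ := hs x
  have e := Finset.sum_involution (s := Finset.univ)
    (f := fun p : RingAut F × RingAut F => c p.1 p.2 * p.1 a * p.2 a + if p.1 = p.2 then c p.1 p.1 * p.1 (a ^ 2) else 0)
    (fun p _ => p.swap) (fun p _ => by
      by_cases e : p.1 = p.2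
      · simp [e, CharTwo.add_self_eq_zero]
      · simp [e, Ne.symm e, h1 p.2 p.1, mul_right_comm, CharTwo.add_self_eq_zero])
    (fun p _ k e => k (by
      have : p.1 = p.2 := (congrArg Prod.snd e)
      simp [this, sq, mul_assoc, CharTwo.add_self_eq_zero])) (fun _ _ => Finset.mem_univ _) fun _ _ => rfl
  simpa [Finset.sum_add_distrib, Fintype.sum_prod_type, h] using e

variable (S : SzData G F)
include S

theorem card_add : Nat.card (F →+ F) = 2 ^ ((2 * S.m + 1) ^ 2) := by
  have := S.charP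
  have := S.finiteF
  letI := ZMod.algebra F 2
  have h2 := Module.natCard_eq_pow_finrank (K := ZMod 2) (V := F)
  rw [S.card, Nat.card_zmod] at h2
  rw [Nat.card_congr (AddMonoidHom.toZModLinearMapEquiv 2).toEquiv, Module.natCard_eq_pow_finrank (K := ZMod 2),
    Module.finrank_linearMap, ← Nat.pow_right_injective le_rfl h2, Nat.card_zmod, sq]

theorem card_gal : Nat.card (RingAut F) = 2 * S.m + 1 :=
  haveI := S.charP; card_ringAut_of_card Nat.prime_two S.card

theorem span (α : F →+ F) : ∃ c : RingAut F → F, ∀ a, α a = ∑ σ, c σ * σ a := by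
  have := S.finiteF
  have : Finite (F →+ F) := DFunLike.finite _
  let f : (RingAut F → F) → F →+ F := fun c => AddMonoidHom.mk' (fun a => ∑ σ, c σ * σ a) fun a b => by
    simp [mul_add, Finset.sum_add_distrib]
  obtain ⟨c, rfl⟩ := ((Nat.bijective_iff_injective_and_card f).2 ⟨fun c d e => funext fun σ =>
    sub_eq_zero.1 (ind (fun σ => c σ - d σ) (fun a => by
      simp only [sub_mul, Finset.sum_sub_distrib, sub_eq_zero]; exact DFunLike.congr_fun e a) σ),
    by rw [card_add S, Nat.card_fun, card_gal S, S.card, ← pow_mul, sq]⟩).2 α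
  exact ⟨c, fun a => rfl⟩

theorem semilinear (α β : F →+ F) (h0 : α 1 ≠ 0) (h : ∀ a, β (S.θ a * a) = S.θ (α a) * α a) :
    ∃ (k : Fˣ) (σ : RingAut F), ∀ a, α a = k * σ a := by
  have := S.charP
  have := S.finiteF
  obtain ⟨A, hA⟩ := span S α
  obtain ⟨B, hB⟩ := span S β
  let t : RingAut F := RingEquiv.ofBijective S.θ ⟨S.θ.injective, S.θ_surjective⟩
  have ht : ∀ x, t x = S.θ x := fun x => rfl
  have hc : ∀ σ, σ * t = t * σ := fun σ => RingEquiv.ext fun x => S.aut_θ σ x
  have h4 : t * t * (t * t) ≠ 1 := fun e => by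
    have h1 : ∀ x : F, x ^ 4 = x := fun x => by
      have := DFunLike.congr_fun e x
      change S.θ (S.θ (S.θ (S.θ x))) = x at this
      rwa [S.θθ, S.θθ, ← pow_mul] at this
    obtain ⟨ω, h2, h3⟩ := S.exists_ne_zero_one
    have h5 := S.pow_q ω
    rw [← Nat.div_add_mod S.q 3, S.q_mod_three, pow_add, pow_mul, (mul_eq_right₀ h2).1 ((pow_succ ω 3).symm.trans (h1 ω)),
      one_pow, one_mul, sq] at h5
    exact h3 ((mul_eq_right₀ h2).1 h5)
  obtain ⟨h1, h2⟩ := quad S.exists_sq_eq (fun σ τ => (if σ = τ * t then B τ else 0) + t (A (t⁻¹ * σ)) * A τ) fun a => by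
    have e := h a
    rw [hA, hB, map_sum, ← Equiv.sum_comp (Equiv.mulLeft t⁻¹) fun x => S.θ (A x * x a), Finset.sum_mul_sum] at e
    simp only [add_mul, Finset.sum_add_distrib]
    rw [Finset.sum_comm, CharTwo.add_eq_zero]
    simp only [ite_mul, zero_mul, Finset.sum_ite_eq', Finset.mem_univ, if_true]
    refine (Finset.sum_congr rfl fun σ _ => ?_).trans (e.trans (Finset.sum_congr rfl fun σ _ =>
      Finset.sum_congr rfl fun τ _ => ?_))
    · rw [map_mul, mul_assoc]; rfl
    · rw [map_mul, Equiv.coe_mulLeft, ← ht, ← ht, show t ((t⁻¹ * σ) a) = σ a from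
        DFunLike.congr_fun (mul_inv_cancel_left t σ) a]
      ring
  have h3 : ∀ l, A l ≠ 0 → A (t * l) = 0 := fun l hl => by
    have := h2 (t * l)
    rw [if_neg fun e => h4 (by rw [left_eq_mul.1 e]; simp), zero_add, inv_mul_cancel_left] at this
    exact (mul_eq_zero.1 this).resolve_left ((map_ne_zero t).2 hl)
  have h5 : ∀ i l, A i ≠ 0 → A l ≠ 0 → i ≠ l → i = t * l * t := fun i l hi hl hne => by_contra fun c => by
    have := h1 (t * l) i
    rw [if_neg c, if_neg fun e => hne (mul_left_cancel (e.trans (hc i))).symm, h3 l hl, inv_mul_cancel_left] at this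
    simp [hi, hl] at this
  obtain ⟨i, hi⟩ : ∃ i, A i ≠ 0 := by_contra fun c => h0 (by push Not at c; simp [hA, c])
  refine ⟨Units.mk0 _ hi, i, fun a => (hA a).trans (Finset.sum_eq_single i (fun l _ hl => ?_) (by simp))⟩
  rw [show A l = 0 from by_contra fun c => h4 ?_, zero_mul]
  have e := h5 l i c hi hl
  rw [h5 i l hi c hl.symm, ← hc l] at e
  rw [← mul_assoc, ← mul_assoc, ← hc l] at e
  refine mul_left_cancel (a := l) (Eq.trans ?_ (e.symm.trans (mul_one l).symm))
  simp only [mul_assoc]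

omit [Fintype (RingAut F)]
variable {X : Type*} [Group X] [Finite X] (u : F × F ≃ X)
  (hu : ∀ a b c d, u (a, b) * u (c, d) = u (a + c, b + d + S.θ a * c))
include hu

/-- the standard automorphisms -/
noncomputable def aut (p : (F →+ F) × Fˣ × RingAut F) : MulAut X :=
  MulEquiv.ofBijective (MonoidHom.mk' (fun x => u (p.2.1 * p.2.2 (u.symm x).1,
    p.2.1 * S.θ p.2.1 * p.2.2 (u.symm x).2 + p.1 (u.symm x).1)) fun x y => by
      obtain ⟨⟨a, b⟩, rfl⟩ := u.surjective x
      obtain ⟨⟨c, d⟩, rfl⟩ := u.surjective y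
      simp only [hu, Equiv.symm_apply_apply, map_add, map_mul, S.aut_θ]
      congr 2 <;> ring) (Finite.injective_iff_bijective.1 fun x y e => by
      obtain ⟨⟨a, b⟩, rfl⟩ := u.surjective x
      obtain ⟨⟨c, d⟩, rfl⟩ := u.surjective y
      simp only [MonoidHom.mk'_apply, Equiv.symm_apply_apply, u.apply_eq_iff_eq, Prod.mk.injEq] at e ⊢
      obtain rfl : a = c := by simpa using e.1
      simpa using e.2)

theorem aut_u (l : F →+ F) (k : Fˣ) (σ : RingAut F) (a b : F) :
    aut S u hu (l, k, σ) (u (a, b)) = u (k * σ a, k * S.θ k * σ b + l a) := by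
  simp [aut]

theorem aut_inj : Function.Injective (aut S u hu) := fun ⟨l, k, σ⟩ ⟨l', k', σ'⟩ e => by
  have h : ∀ a, (k : F) * σ a = k' * σ' a ∧ l a = l' a := fun a => by
    have := DFunLike.congr_fun e (u (a, 0))
    simpa [aut_u] using this
  obtain rfl : k = k' := Units.ext (by simpa using (h 1).1)
  rw [AddMonoidHom.ext fun a => (h a).2, RingEquiv.ext fun a => mul_left_cancel₀ k.ne_zero (h a).1]

theorem u_one : u (0, 0) = 1 := by simpa using hu 0 0 0 0

theorem aut_surj : Function.Surjective (aut S u hu) := fun φ => by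
  have := S.charP
  have := S.finiteF
  have : Finite (RingAut F) := Nat.finite_of_card_ne_zero (by rw [card_ringAut_of_card Nat.prime_two S.card]; omega)
  let := Fintype.ofFinite (RingAut F)
  have h1 := u_one S u hu
  have hs : ∀ a b, u (a, b) * u (a, b) = u (0, S.θ a * a) := fun a b => by
    simp [hu, CharTwo.add_self_eq_zero]
  let f : F → F → F × F := fun a b => u.symm (φ (u (a, b)))
  have hf : ∀ a b, φ (u (a, b)) = u ((f a b).1, (f a b).2) := fun a b => by simp [f]
  have hm : ∀ a b c d, f (a + c) (b + d + S.θ a * c) =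
      ((f a b).1 + (f c d).1, (f a b).2 + (f c d).2 + S.θ (f a b).1 * (f c d).1) := fun a b c d =>
    u.injective (by rw [← hu, ← hf a b, ← hf c d, ← map_mul, hu, hf])
  have h2 : ∀ b, (f 0 b).1 = 0 := fun b => by_contra fun c => S.mul_θ_ne_zero c (by
    have := hs (f 0 b).1 (f 0 b).2
    rw [← hf, ← map_mul, hs, mul_zero, h1, map_one, ← h1] at this
    exact (congrArg Prod.snd (u.injective this)).symm)
  have h3 : ∀ a b, f a b = ((f a 0).1, (f 0 b).2 + (f a 0).2) := fun a b => by simpa [h2] using hm 0 b a 0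
  let α : F →+ F := AddMonoidHom.mk' (fun a => (f a 0).1) fun a c => by
    have := congrArg Prod.fst (hm a 0 c 0)
    rwa [h3] at this
  let β : F →+ F := AddMonoidHom.mk' (fun b => (f 0 b).2) fun b d => by
    simpa [h2] using congrArg Prod.snd (hm 0 b 0 d)
  have h4 : ∀ a, β (S.θ a * a) = S.θ (α a) * α a := fun a => by
    simpa [α, β, CharTwo.add_self_eq_zero] using congrArg Prod.snd (hm a 0 a 0)
  obtain ⟨k, σ, h5⟩ := semilinear S α β (fun e => by
    have := hs 1 0
    rw [← φ.apply_eq_iff_eq, map_mul, hf, hs, show (f 1 0).1 = 0 from e, mul_zero, h1, eq_comm,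
      map_eq_one_iff _ φ.injective, ← h1] at this
    simpa using u.injective this) h4
  have h6 : ∀ b, β b = k * S.θ k * σ b := fun b => by
    obtain ⟨a, rfl⟩ := S.mul_θ_surjective b
    simp only [mul_comm a, h4, h5, map_mul, S.aut_θ]
    ring
  refine ⟨(AddMonoidHom.mk' (fun a => (f a 0).2) fun a c => ?_, k, σ), MulEquiv.ext fun x => ?_⟩
  · have := congrArg Prod.snd (hm a 0 c 0)
    rw [h3] at this
    have e := h6 (0 + 0 + S.θ a * c)
    have e1 := h5 a
    have e2 := h5 c
    simp only [α, β, AddMonoidHom.mk'_apply] at e e1 e2 this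
    rw [e, e1, e2, zero_add, zero_add, map_mul, map_mul, S.aut_θ] at this
    linear_combination this
  · obtain ⟨⟨a, b⟩, rfl⟩ := u.surjective x
    rw [aut_u, hf, h3, ← h5, ← h6]
    rfl

theorem main : IsElementaryAbelian 2 (pCore 2 (MulAut X)) ∧ Nat.card ↥(pCore 2 (MulAut X)) = 2 ^ ((2 * S.m + 1) ^ 2) ∧
    Nat.card (MulAut X) = 2 ^ ((2 * S.m + 1) ^ 2) * ((2 * S.m + 1) * (2 ^ (2 * S.m + 1) - 1)) := by
  have := S.charP
  have := S.finiteF
  have : Finite (RingAut F) := Nat.finite_of_card_ne_zero (by rw [card_ringAut_of_card Nat.prime_two S.card]; omega)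
  let := Fintype.ofFinite (RingAut F)
  have h1 : Nat.card (MulAut X) = 2 ^ ((2 * S.m + 1) ^ 2) * ((2 * S.m + 1) * (2 ^ (2 * S.m + 1) - 1)) := by
    rw [← Nat.card_eq_of_bijective _ ⟨aut_inj S u hu, aut_surj S u hu⟩, Nat.card_prod, Nat.card_prod, card_add S,
      card_gal S, S.card_units, mul_comm (S.q - 1)]
  let ψ : Multiplicative (F →+ F) →* MulAut X := MonoidHom.mk' (fun l => aut S u hu (l.toAdd, 1, 1)) fun l m =>
    MulEquiv.ext fun x => by
      obtain ⟨⟨a, b⟩, rfl⟩ := u.surjective x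
      simp [aut_u, add_assoc, add_comm, add_left_comm]
  have hψ : ∀ l a b, ψ l (u (a, b)) = u (a, b + l.toAdd a) := fun l a b => by simp [ψ, aut_u]
  have h2 : #ψ.range = 2 ^ ((2 * S.m + 1) ^ 2) := by
    rw [← card_add S]
    exact (Nat.card_congr (MonoidHom.ofInjective (f := ψ) fun l m e =>
      congrArg Prod.fst (aut_inj S u hu e)).toEquiv).symm
  have h3 : ⊤ ≤ N(ψ.range) := fun φ _ => mem_normalizer_fintype (by
    rintro _ ⟨l, rfl⟩
    obtain ⟨⟨m, k, σ⟩, rfl⟩ := aut_surj S u hu φ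
    refine ⟨Multiplicative.ofAdd (AddMonoidHom.mk' (fun a => k * S.θ k * σ (l.toAdd (σ.symm ((k⁻¹ : Fˣ) * a))))
      fun a c => by simp [mul_add]), ?_⟩
    rw [eq_mul_inv_iff_mul_eq]
    refine MulEquiv.ext fun x => ?_
    obtain ⟨⟨a, b⟩, rfl⟩ := u.surjective x
    simp only [MulAut.mul_apply, hψ, aut_u]
    simp [mul_add, add_right_comm])
  have h4 : Syl 2 ψ.range ⊤ := syl_of_not_dvd le_top (pGrp_of_card Nat.prime_two h2) (by
    have := card_mul_relIndex (le_top (a := ψ.range))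
    rw [h2, card_top', h1] at this
    rw [Nat.eq_of_mul_eq_mul_left (by positivity) this]
    exact ((odd_two_mul_add_one S.m).mul S.odd_q_sub_one).not_two_dvd_nat)
  have h5 : pCore 2 (MulAut X) = ψ.range := by
    rw [← h4.pcore_eq h3, ← piCore_singleton Nat.prime_two, pcore_top]
  refine ⟨h5 ▸ ⟨inferInstance, ?_⟩, h5 ▸ h2, h1⟩
  rintro _ ⟨l, rfl⟩
  refine MulEquiv.ext fun x => ?_
  obtain ⟨⟨a, b⟩, rfl⟩ := u.surjective x
  simp [sq, hψ, add_assoc, CharTwo.add_self_eq_zero]

end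

/-- Let S be a Sylow 2-subgroup of the Suzuki group Sz(q), q = 2ⁿ with n = 2m + 1 ≥ 3 (realised as 4 × 4 matrices over the field with q elements). Then the largest normal 2-subgroup of the automorphism group of S is elementary abelian of order 2^(n²), and the automorphism group of S has order 2^(n²) · n · (q − 1). -/
theorem result {S : Type*} [Group S] [Finite S] (m : ℕ) (hm : 1 ≤ m)
    {F : Type*} [Field F] [Fintype F] (hF : Fintype.card F = 2 ^ (2 * m + 1))
    (P : Sylow 2 ↥(Cfsg.Lie.Sz F (2 ^ (m + 1)))) (hS : Nonempty (S ≃* ↥(P : Subgroup ↥(Cfsg.Lie.Sz F (2 ^ (m + 1)))))) :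
    Cfsg.IsElementaryAbelian 2 (Cfsg.pCore 2 (MulAut S)) ∧ Nat.card ↥(Cfsg.pCore 2 (MulAut S)) = 2 ^ ((2 * m + 1) ^ 2) ∧
      Nat.card (MulAut S) = 2 ^ ((2 * m + 1) ^ 2) * ((2 * m + 1) * (2 ^ (2 * m + 1) - 1)) := by
  obtain ⟨e⟩ := hS
  let D := H13.szDataB hm (show Nat.card F = 2 ^ (2 * m + 1) by rw [Nat.card_eq_fintype_card, hF])
  obtain ⟨k, hk⟩ := D.exists_conj_U_eq_sylow P
  let u : F × F ≃ (D.conj k).U := Equiv.ofBijective (fun p => ⟨_, (D.conj k).u_mem_U p.1 p.2⟩)
    ⟨fun p q h => Prod.ext ((D.conj k).u_inj (congrArg (fun y : (D.conj k).U => y.1) h)).1 ((D.conj k).u_inj (congrArg (fun y : (D.conj k).U => y.1) h)).2,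
      fun ⟨_, a, b, h⟩ => ⟨(a, b), Subtype.ext h.symm⟩⟩
  let f := (MulEquiv.subgroupCongr hk).trans e.symm
  exact main (D.conj k) (u.trans f.toEquiv) fun a b c d =>
    (map_mul f _ _).symm.trans (congrArg f (Subtype.ext ((D.conj k).u_mul a b c d)))

end Cfsg.Agent.S2556
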