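import Cfsg.Statements.S2557
import Mathlib
import Cfsg.Agent.H18.Cn20

set_option autoImplicit false
open Cfsg

namespace Cfsg.Agent.S2557

open Cfsg.Agent.H18.Cn Cfsg.Agent.H11 Cfsg.Agent.H10

/-- The number of conjugacy classes of Sp(2n,q), q even: for F a finite field of even order q and n ≥ 1, the number k of conjugacy classes of Sp(2n,F) satisfies q^n ≤ k ≤ 15.2·q^n. -/
theorem result {F : Type*} [Field F] [Fintype F] (heven : Even (Fintype.card F)) (n : ℕ) (hn : 1 ≤ n) :
    Fintype.card F ^ n ≤ Nat.card (ConjClasses (Matrix.symplecticGroup (Fin n) F)) ∧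
      5 * Nat.card (ConjClasses (Matrix.symplecticGroup (Fin n) F)) ≤ 76 * Fintype.card F ^ n := by
  have : CharP F 2 := ringChar.of_eq (FiniteField.even_card_iff_char_two.2 (Nat.even_iff.1 heven))
  rw [← Nat.card_eq_fintype_card (α := F)]
  constructor
  · exact (sp_semis 2 n).ge.trans (Finite.card_subtype_le _)
  · have := Finite.of_equiv _ (spIso (Fin n) F).toEquiv
    rw [card_conj_congr (spIso (Fin n) F)]
    exact two_alt_le (F := F) spBilin_isAlt spBilin_nondegenerate.1 (by simp [two_mul])

end Cfsg.Agent.S2557
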