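import Cfsg.Statements.S2558
import Mathlib
import Cfsg.Agent.H18.Cn13

set_option autoImplicit false
open Cfsg

namespace Cfsg.Agent.S2558

open Cfsg.Agent.H18.Cn Cfsg.Agent.H11 Cfsg.Agent.H10

/-- The number of conjugacy classes of the full orthogonal groups O⁺(2n,q) and O⁻(2n,q), q odd, 2n ≥ 4: for F a finite field of odd order q and n ≥ 2, the number k of conjugacy classes of the isometry group of the hyperbolic quadratic form Σ xᵢyᵢ on F^{2n}, and likewise of the elliptic form Σ xᵢyᵢ + (z₁² + a z₁z₂ + b z₂²) with anisotropic binary part, satisfies q^n/2 ≤ k ≤ 9.5·q^n. -/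
theorem result {F : Type*} [Field F] [Fintype F] (hodd : Odd (Fintype.card F)) (n : ℕ) (hn : 2 ≤ n) (a b : F) (hab : ∀ z₁ z₂ : F, z₁ ^ 2 + a * z₁ * z₂ + b * z₂ ^ 2 = 0 → z₁ = 0 ∧ z₂ = 0) :
    (Fintype.card F ^ n ≤ 2 * Nat.card (ConjClasses ↥(Cfsg.isometryGroup F (Cfsg.quadFormPlus n F))) ∧
      2 * Nat.card (ConjClasses ↥(Cfsg.isometryGroup F (Cfsg.quadFormPlus n F))) ≤ 19 * Fintype.card F ^ n) ∧
    (Fintype.card F ^ n ≤ 2 * Nat.card (ConjClasses ↥(Cfsg.isometryGroup F (Cfsg.quadFormMinus (n - 1) F a b))) ∧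
      2 * Nat.card (ConjClasses ↥(Cfsg.isometryGroup F (Cfsg.quadFormMinus (n - 1) F a b))) ≤ 19 * Fintype.card F ^ n) := by
  have h2 := two_ne_zero_of_odd_card hodd
  obtain ⟨m, rfl⟩ : ∃ m, n = m + 2 := ⟨n - 2, by omega⟩
  rw [← Nat.card_eq_fintype_card (α := F)]
  have e1 := oEquiv (isQuad_plus (m + 2) F)
  have e2 := oEquiv (isQuad_minus (m + 2 - 1) F a b)
  have := Finite.of_equiv _ e1.toEquiv
  have := Finite.of_equiv _ e2.toEquiv
  rw [card_conj_congr e1, card_conj_congr e2]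
  exact ⟨⟨quad_even_ge h2 (isQuad_plus _ F) (bPlus_sep _ F) (finrank_plus _),
    quad_even_le h2 (isQuad_plus _ F) (bPlus_sep _ F) (finrank_plus _)⟩,
    quad_even_ge h2 (isQuad_minus _ F a b) (bMinus_sep _ hab) (finrank_minus _),
    quad_even_le h2 (isQuad_minus _ F a b) (bMinus_sep _ hab) (finrank_minus _)⟩

end Cfsg.Agent.S2558
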