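import Cfsg.Statements.S2560
import Mathlib
import Cfsg.Agent.H18.Cn16

set_option autoImplicit false
open Cfsg

namespace Cfsg.Agent.S2560

open Cfsg.Agent.H18.Cn Cfsg.Agent.H11 Cfsg.Agent.H10

/-- The number of conjugacy classes of Ω(2n+1,q), q odd, n ≥ 2: for F a finite field of odd order q, the number k of conjugacy classes of the commutator subgroup of the isometry group of the quadratic form x₀² + Σ xᵢyᵢ on F^{2n+1} satisfies q^n/2 ≤ k ≤ 7.3·q^n. -/
theorem result {F : Type*} [Field F] [Fintype F] (hodd : Odd (Fintype.card F)) (n : ℕ) (hn : 2 ≤ n) :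
    Fintype.card F ^ n ≤ 2 * Nat.card (ConjClasses ↥(Cfsg.Omega F (Cfsg.quadFormOdd n F))) ∧
      10 * Nat.card (ConjClasses ↥(Cfsg.Omega F (Cfsg.quadFormOdd n F))) ≤ 73 * Fintype.card F ^ n := by
  have h2 := two_ne_zero_of_odd_card hodd
  rw [← Nat.card_eq_fintype_card (α := F)] at hodd ⊢
  have h := isQuad_odd n F
  have := Finite.of_equiv _ (oEquiv h).toEquiv
  have h3 := three_le_card h2
  rw [card_conj_congr (omegaEquiv h)]
  exact ⟨omega_odd_ge h2 h (bOdd_sep n h2) (by omega) (by simp; omega),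
    omega_odd_le h2 (by rw [Nat.odd_iff] at hodd; omega) h (bOdd_sep n h2) (by omega) (by simp; omega)⟩

end Cfsg.Agent.S2560
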