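import Cfsg.Statements.S2648
import Mathlib
import Cfsg.Agent.H27.DerLen2

set_option autoImplicit false
open Cfsg

namespace Cfsg.Agent.S2648

open Cfsg.Agent.H27

/-- Let q be odd, F a field with q elements and n ≥ 1. A Sylow 2-subgroup R of the symplectic group Sp_{2n}(F) has derived length exactly k + 1, where 2^k ≤ 2n < 2^{k+1}: the (k+1)-st term of its derived series is trivial and the k-th is not. -/
theorem result {F : Type*} [Field F] [Fintype F] [DecidableEq F] (q : ℕ) (hF : Fintype.card F = q) (hq : Odd q) (n : ℕ) (hn : 1 ≤ n) (R : Sylow 2 ↥(Matrix.symplecticGroup (Fin n) F)) : derivedSeries ↥(R : Subgroup ↥(Matrix.symplecticGroup (Fin n) F)) (Nat.log 2 (2 * n) + 1) = ⊥ ∧ derivedSeries ↥(R : Subgroup ↥(Matrix.symplecticGroup (Fin n) F)) (Nat.log 2 (2 * n)) ≠ ⊥ := by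
  constructor
  · let σ : Representation F R (Fin n ⊕ Fin n → F) :=
      (LinearEquiv.automorphismGroup.toLinearMapMonoidHom.comp (H10.isomGroup _).subtype).comp
        (H10.spEquiv.toMonoidHom.comp (R : Subgroup (Matrix.symplecticGroup (Fin n) F)).subtype)
    have hσ : Function.Injective σ :=
      (LinearEquiv.toLinearMap_injective.comp (Subgroup.subtype_injective _)).comp
        (H10.spEquiv.injective.comp (Subgroup.subtype_injective _))
    have := dser_le_ker_two σ Nat.prime_two R.isPGroup' (k := Nat.log 2 (2 * n) + 1) (by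
      rw [H10.finrank_sp_space, Fintype.card_fin]; exact Nat.lt_pow_succ_log_self one_lt_two _)
    rwa [(MonoidHom.ker_eq_bot_iff _).2 hσ, le_bot_iff] at this
  · have h2 : (2 : F) ≠ 0 := H10.two_ne_zero_of_odd (by rwa [Nat.card_eq_fintype_card, hF])
    have h := (tw_sp_base F h2).pow (Nat.log 2 n)
    rw [mul_comm 2 n, Nat.log_mul_base one_lt_two (by omega), add_comm]
    exact h.sp (Nat.pow_log_le_self 2 (by omega)) R

end Cfsg.Agent.S2648
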