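import Cfsg.Statements.S2731
import Mathlib
import Cfsg.Agent.H11.OBal

set_option autoImplicit false
open Cfsg

namespace Cfsg.Agent.S2731

/-- A criterion for the failure of local balance in almost simple groups whose socle is an odd-dimensional orthogonal group Ω_{2m+1}(F) (m ≥ 3, |F| odd; the form x₀² + Σ xᵢ yᵢ). Let F be a finite field of characteristic r and K the (simple) group in question; let A be a group of automorphisms of K containing all inner automorphisms, and x ∈ A an automorphism of prime order p ≠ r that is not inner-diagonal (not induced by a similarity of the form). Then the largest normal subgroup of C_A(x) of order prime to p is nontrivial if and only if x is a field automorphism of K (conjugate under Aut(K) to a non-identity standard field automorphism) and p does not divide the number of fixed points of x on K. -/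
theorem result {F : Type*} [Field F] [Fintype F] {r : ℕ} [Fact r.Prime] [CharP F r] (hodd : Odd (Fintype.card F)) {m : ℕ} (hm : 3 ≤ m) (hK : IsSimpleGroup (Cfsg.POmega F (Cfsg.quadFormOdd m F))) (A : Subgroup (MulAut (Cfsg.POmega F (Cfsg.quadFormOdd m F)))) (hinn : ∀ k : Cfsg.POmega F (Cfsg.quadFormOdd m F), MulAut.conj k ∈ A) {p : ℕ} [Fact p.Prime] (hpr : p ≠ r) (x : MulAut (Cfsg.POmega F (Cfsg.quadFormOdd m F))) (hxA : x ∈ A) (hord : orderOf x = p) (hnot : ¬ Cfsg.IsInnerDiagonalAutPOmegaOdd m x) :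
    Cfsg.pPrimeCore p ↥(A ⊓ Subgroup.centralizer {x}) ≠ ⊥ ↔ (Cfsg.IsFieldAutClassPOmega (Cfsg.quadFormOdd m F) x ∧ Nat.Coprime p (Nat.card ↥(MonoidHom.eqLocus x.toMonoidHom (MonoidHom.id (Cfsg.POmega F (Cfsg.quadFormOdd m F)))))) := by
  have h2 := H11.two_ne_zero_of_odd_card hodd
  have h := H11.isQuad_odd m F
  have hB := H11.bOdd_sep m h2
  have hΦ := h.isBar_oBar hB (by simp; omega) (H11.oBar_surjective_odd h2 hm)
  obtain ⟨γ, rfl⟩ := hΦ.surj x
  have h1 : γ.1.2 ≠ 1 := fun e => hnot (h.isSimilarityInduced_iff.mpr ⟨γ, e, rfl⟩)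
  have h3 := h.orderOf_field hΦ.ker h1 Fact.out (hord ▸ pow_orderOf_eq_one _)
  have h4 : h.oBar γ = h.oBar (γ * (h.fieldHom (H11.field_odd m) γ.1.2)⁻¹) *
      h.oBar (h.fieldHom (H11.field_odd m) γ.1.2) := by simp
  obtain ⟨α, -, e⟩ := (h.lang_odd hB hΦ.ker (γ := h.fieldHom (H11.field_odd m) γ.1.2) h1 Fact.out
    ⟨m, by simp; ring⟩ (orderOf_eq_prime (by
      rw [← map_pow, ← map_pow, ← h3, pow_orderOf_eq_one, map_one, map_one]) fun e => by
        obtain ⟨a, e⟩ := (hΦ.ker _).mp e
        exact h1 (congrArg (fun γ : H11.SemiSim _ _ => γ.1.2) e))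
    ⟨⟨_, mul_inv_cancel γ.1.2⟩, trivial, rfl⟩).mp (h4 ▸ hord)
  exact h.balance_field hB (by simp; omega) hΦ h1 hpr hord hinn (.inl ⟨α⁻¹, _, γ.1.2, h1,
    (h.isFieldAut_iff' (H11.field_odd m)).mpr rfl, by rw [h4.trans e]; group⟩)

end Cfsg.Agent.S2731
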