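import Cfsg.Statements.S2799
import Mathlib
import Cfsg.Agent.H18.Sparse

set_option autoImplicit false
open Cfsg

namespace Cfsg.Agent.S2799

open Cfsg.Agent.H17 Cfsg.Agent.H18

/-- Let S be a Sylow p-subgroup of the finite group G, J(S) the subgroup generated by the abelian subgroups of S of largest order, and x an element of S lying in the centre of N_G(J(S)). Assume that p is odd, or that x is a p-th power of an element of Z(S), or that the symmetric group of degree 4 is not involved in G. Then x is weakly closed in S with respect to G: every G-conjugate of x that lies in S equals x. -/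
theorem result {G : Type*} [Group G] [Finite G] {p : ℕ} [Fact p.Prime] (S : Sylow p G) (x : G) (hxS : x ∈ (S : Subgroup G)) (hxZ : x ∈ (Subgroup.center ↥(Subgroup.normalizer ((Cfsg.thompsonSubgroupAOf (S : Subgroup G)) : Set G))).map (Subgroup.normalizer ((Cfsg.thompsonSubgroupAOf (S : Subgroup G)) : Set G)).subtype) (h : p ≠ 2 ∨ (∃ z ∈ (S : Subgroup G) ⊓ Subgroup.centralizer ((S : Subgroup G) : Set G), z ^ p = x) ∨ ¬ Cfsg.Involves (Equiv.Perm (Fin 4)) G) : ∀ g : G, g * x * g⁻¹ ∈ (S : Subgroup G) → g * x * g⁻¹ = x := by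
  obtain ⟨⟨x, hx⟩, hxZ, rfl⟩ := hxZ
  have hF := groupFusionSystem_saturated S
  have h1 : ∀ P f, NMor (groupFusionSystem (S : Subgroup G)) (thompsonSubgroupAOf (S : Subgroup G)) P f →
      x ∈ P → f x = x := fun P f hf hxP => by
    obtain ⟨g, hg, e⟩ := (iso_refl _).exists_of_nmor hf
    rw [img_id] at hg
    exact (e x hxP).trans (mul_inv_eq_iff_eq_mul.2
      (congrArg Subtype.val (Subgroup.mem_center_iff.1 hxZ ⟨g, hg⟩)))
  have h2 : x ∈ (groupFusionSystem (S : Subgroup G)).center := by
    by_cases h4 : p ≠ 2 ∨ ¬ Cfsg.Involves (Equiv.Perm (Fin 4)) G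
    · exact center_thompsonA S.isPGroup' hF ((s4Free_group (sylIn_top S)).2 h4) hxS h1
    obtain ⟨z, hz, e⟩ := (h.resolve_left fun h => h4 (Or.inl h)).resolve_right fun h => h4 (Or.inr h)
    obtain ⟨N, hN⟩ := exists_nsys_top (groupFusionSystem (S : Subgroup G)) (thompsonAOf_le _)
      (le_normalizer_thompsonA S.isPGroup')
    refine mem_center_of_gen hN (V := agZ p 1 (S : Subgroup G)) powerClosure_le
      (fun E h3 h4 => gen_control_thompsonA S.isPGroup' hF le_rfl h3 h4) ⟨?_, ?_⟩
    · rw [← closure_pow_eq_agZ]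
      exact Subgroup.subset_closure ⟨z, hz, e⟩
    · exact (mem_center_iff S.isPGroup' (hN.saturated S.isPGroup' hF (fn_of_normal _ (thompsonAOf_le _)
        (le_normalizer_thompsonA S.isPGroup')))).2 ⟨hxS, fun P f hf => h1 P f ((hN P f).1 hf)⟩
  intro g hg
  exact central_apply (central_center _) (P := Subgroup.zpowers x) (f := H17.cj g)
    (mor_group.2 ⟨Subgroup.zpowers_le.2 hxS, by
      rintro _ ⟨n, rfl⟩
      simpa only [cj_apply, conj_zpow, Subgroup.subtype_apply] using zpow_mem hg n, g, fun _ _ => rfl⟩)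
    (Subgroup.mem_zpowers x) h2

end Cfsg.Agent.S2799
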