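import Cfsg.Statements.S2896
import Mathlib
import Cfsg.Agent.H4.FrakM

set_option autoImplicit false
open Cfsg

namespace Cfsg.Agent.S2896

/-- Let p be a prime dividing the order of the finite group G, S a Sylow p-subgroup of G and X a subgroup of S. (i) If some nontrivial element z of the centre of X has F*(C_G(z)) = O_p(C_G(z)), then F*(N_G(X)) = O_p(N_G(X)). (ii) G has parabolic characteristic p if and only if F*(C_G(z)) = O_p(C_G(z)) for every nontrivial z ∈ Ω₁(Z(S)). (iii) If F*(C_G(z)) = O_p(C_G(z)) for every element z of S of order p, then G has local characteristic p. -/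
theorem result {G : Type*} [Group G] [Finite G] {p : ℕ} [Fact p.Prime] (hdiv : p ∣ Nat.card G) (S : Sylow p G) (X : Subgroup G) (hX : X ≤ (S : Subgroup G)) : (∀ z : G, z ≠ 1 → z ∈ X → (∀ x ∈ X, x * z = z * x) → Cfsg.generalizedFittingSubgroup ↥(Subgroup.centralizer ({z} : Set G)) = Cfsg.pCore p ↥(Subgroup.centralizer ({z} : Set G)) → Cfsg.generalizedFittingSubgroup ↥(Subgroup.normalizer (X : Set G)) = Cfsg.pCore p ↥(Subgroup.normalizer (X : Set G))) ∧ (Cfsg.IsOfParabolicCharacteristic p G ↔ ∀ z : G, z ≠ 1 → z ∈ Cfsg.omegaOne p ((S : Subgroup G) ⊓ Subgroup.centralizer ((S : Subgroup G) : Set G)) → Cfsg.generalizedFittingSubgroup ↥(Subgroup.centralizer ({z} : Set G)) = Cfsg.pCore p ↥(Subgroup.centralizer ({z} : Set G))) ∧ ((∀ z : G, z ∈ (S : Subgroup G) → orderOf z = p → Cfsg.generalizedFittingSubgroup ↥(Subgroup.centralizer ({z} : Set G)) = Cfsg.pCore p ↥(Subgroup.centralizer ({z} : Set G))) → Cfsg.IsOfLocalCharacteristic p G) := by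
  open Subgroup Cfsg.Agent.H18 Cfsg.Agent.H22 Cfsg.Agent.H4 in
  simp only [← chP_iff_FS]
  have hS := sylIn_top S
  refine ⟨fun z _ h1 _ h2 => chP_N_top (hS.isP.to_le hX) (chP_C_top (hS.isP.to_le hX) h1 h2),
    ⟨fun h z h1 h2 => (parP_iff.2 h).chP_C hS (omegaOne_le _ h2) h1, fun h => parP_iff.1 ?_⟩,
    fun h => ⟨hdiv, fun T h1 h2 => ?_⟩⟩
  · refine parP_of_chP_C hS fun z h1 h2 => h z (fun e => ?_) (mem_omegaOne h1 (by rw [← h2, pow_orderOf_eq_one]))
    exact (Fact.out : p.Prime).one_lt.ne (by rw [← h2, e, orderOf_one])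
  · obtain ⟨z, hz, h3⟩ := pgrp_exists_orderOf_eq h1 h2
    obtain ⟨g, -, hg⟩ := syl_exists_cj_le hS le_top h1
    have h4 := (h (g * z * g⁻¹) (hg (conj_mem_cj hz)) (by rw [← h3]; exact (MulAut.conj g).orderOf_eq z)).cj g⁻¹
    rw [cj_centralizer_singleton, show g⁻¹ * (g * z * g⁻¹) * g⁻¹⁻¹ = z by group] at h4
    exact chP_iff.1 (chP_N_top h1 (chP_C_top h1 hz h4))

end Cfsg.Agent.S2896
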