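import Cfsg.Statements.S2897
import Mathlib
import Cfsg.Agent.H4.FrakM

set_option autoImplicit false
open Cfsg

namespace Cfsg.Agent.S2897

/-- Let p be a prime dividing the order of the finite group G, suppose G has parabolic characteristic p, let S be a Sylow p-subgroup of G and G₁ a normal subgroup of G. If Ω₁(Z(S ∩ G₁)) is nontrivial and contained in Ω₁(Z(S)), then G₁ has parabolic characteristic p. -/
theorem result {G : Type*} [Group G] [Finite G] {p : ℕ} [Fact p.Prime] (hdiv : p ∣ Nat.card G) (hG : Cfsg.IsOfParabolicCharacteristic p G) (S : Sylow p G) (G₁ : Subgroup G) [G₁.Normal] (hne : Cfsg.omegaOne p (((S : Subgroup G) ⊓ G₁) ⊓ Subgroup.centralizer (((S : Subgroup G) ⊓ G₁ : Subgroup G) : Set G)) ≠ ⊥) (hle : Cfsg.omegaOne p (((S : Subgroup G) ⊓ G₁) ⊓ Subgroup.centralizer (((S : Subgroup G) ⊓ G₁ : Subgroup G) : Set G)) ≤ Cfsg.omegaOne p ((S : Subgroup G) ⊓ Subgroup.centralizer ((S : Subgroup G) : Set G))) : Cfsg.IsOfParabolicCharacteristic p ↥G₁ :=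 by
  open Subgroup Cfsg.Agent.H18 Cfsg.Agent.H22 Cfsg.Agent.H4 in
  refine parP_iff.1 (parP_sn (parP_iff.2 hG) (sylIn_top S) (sn_top (Normal.isSubnormal inferInstance))
    fun z h1 h2 => (omegaOne_le _ (hle (mem_omegaOne h1 (by rw [← h2, pow_orderOf_eq_one])))).2)

end Cfsg.Agent.S2897
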