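import Cfsg.Statements.S2898
import Mathlib
import Cfsg.Agent.H4.PMin

set_option autoImplicit false
open Cfsg

namespace Cfsg.Agent.S2898

/-- Let G be a finite group of even order with parabolic characteristic 2. If the centre of G ⧸ O(G) is trivial, then O(G) = 1. -/
theorem result {G : Type*} [Group G] [Finite G] (h2 : 2 ∣ Nat.card G) (hG : Cfsg.IsOfParabolicCharacteristic 2 G) [hN : (Cfsg.oddCore G).Normal] (hZ : Subgroup.center (G ⧸ Cfsg.oddCore G) = ⊥) : Cfsg.oddCore G = ⊥ := by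
  open Subgroup Cfsg.Agent.H18 Cfsg.Agent.H22 Cfsg.Agent.H4 in
  have hpar := parP_iff.2 hG
  obtain ⟨S, hS⟩ := exists_sylIn 2 (⊤ : Subgroup G)
  set O := oddCore G with hO
  have hOc : (Nat.card O).Coprime 2 := H2.pPrimeCore_coprime
  have key : ∀ z ∈ S ⊓ C[S], z ≠ 1 → O ⊓ centralizer {z} = ⊥ := fun z hz h1 => by
    have := hpar.chP_C hS hz h1
    refine this.coprime_eq_bot inf_le_right ((pCoreOf_le _).trans ?_)
      (Nat.Coprime.coprime_dvd_left (card_dvd_of_le inf_le_left) hOc)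
    exact le_N_inf (le_N_of_normal _ _) le_normalizer
  by_contra hne
  have hC : C[O] ≤ O := by
    have nC : ∀ X : Subgroup G, X ≤ N[C[O]] := fun X => le_N_C (le_N_of_normal _ _)
    have h1 := syl_inf' hS (nC ⊤) le_top
    haveI : (C[O]).Normal := normal_of_top_le_N (nC ⊤)
    refine H2.le_pPrimeCore (coprime_card_iff_not_dvd.2 ((syl_eq_bot_iff h1).1 ?_))
    by_contra c
    obtain ⟨z, hz, hz2⟩ := exists_central_orderP hS.isP h1.isP (le_N_inf le_normalizer (nC S)) c
    have := key z ⟨hz.1.1, hz.2⟩ (fun e => by rw [e, orderOf_one] at hz2; omega)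
    refine hne (this ▸ (inf_eq_left.2 ?_).symm)
    rw [← C_zpowers]; exact le_centralizer_iff.1 (zpowers_le.2 hz.1.2)
  have hSne : S ≠ ⊥ := syl_ne_bot hS (by rwa [card_top])
  obtain ⟨z, hz, hz2⟩ := exists_central_orderP hS.isP hS.isP le_normalizer hSne
  have hz1 : z ≠ 1 := fun e => by rw [e, orderOf_one] at hz2; omega
  have hzz : z * z = 1 := by rw [← pow_two, ← hz2, pow_orderOf_eq_one]
  have hinv : ∀ x ∈ O, z * x * z⁻¹ = x⁻¹ := fun x hx => by
    have hf : MonoidHom.FixedPointFree (MulAut.conjNormal z : MulAut O) := fun y hy => by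
      have : (y : G) ∈ O ⊓ centralizer {z} := ⟨y.2, mem_centralizer_singleton_iff.2 (by
        have := congrArg Subtype.val hy
        rw [MulAut.conjNormal_apply, mul_inv_eq_iff_eq_mul] at this
        exact this.symm)⟩
      rw [key z hz hz1, mem_bot] at this
      exact Subtype.ext this
    have h3 := hf.coe_eq_inv_of_involutive (fun y => Subtype.ext (by
      simp only [MulAut.conjNormal_apply]
      rw [show z * (z * y * z⁻¹) * z⁻¹ = (z * z) * y * (z * z)⁻¹ by group, hzz]; group))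
    exact congrArg Subtype.val (congrFun h3 ⟨x, hx⟩)
  have h4 : (QuotientGroup.mk z : G ⧸ O) ∈ center (G ⧸ O) := by
    refine mem_center_iff.2 fun y => ?_
    obtain ⟨g, rfl⟩ := QuotientGroup.mk_surjective y
    rw [← QuotientGroup.mk_mul, ← QuotientGroup.mk_mul, QuotientGroup.eq]
    refine hC (mem_C.2 fun x hx => ?_)
    have a := hinv _ (hN.conj_mem x hx g)
    have b := hinv _ (O.inv_mem hx)
    rw [inv_inv] at b
    calc x * ((g * z)⁻¹ * (z * g)) = z⁻¹ * (z * x * z⁻¹) * g⁻¹ * z * g := by group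
      _ = z⁻¹ * g⁻¹ * (g * x * g⁻¹)⁻¹ * z * g := by rw [hinv x hx]; group
      _ = z⁻¹ * g⁻¹ * (z * (g * x * g⁻¹) * z⁻¹) * z * g := by rw [a]
      _ = _ := by group
  rw [hZ, mem_bot, QuotientGroup.eq_one_iff] at h4
  exact hz1 (eq_one_of_pgrp_of_coprime hS.isP hz.1
    (Nat.Coprime.coprime_dvd_left (orderOf_dvd_card_of_mem h4) hOc))

end Cfsg.Agent.S2898
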