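import Cfsg.Statements.S2905
import Mathlib
import Cfsg.Agent.H4.PMin

set_option autoImplicit false
open Cfsg

namespace Cfsg.Agent.S2905

/-- Let P be a finite p-minimal group (a Sylow p-subgroup S is not normal and lies in a unique maximal subgroup M of P) and let F be the normal core of M. Then: every subnormal subgroup N of P contained in M satisfies N ∩ S ≤ O_p(P); if O^p(P) has a normal Sylow p-subgroup then the order of P has at most two prime divisors; every normal subgroup N of P either contains O^p(P) or is contained in F; and O^p(P)F ⧸ F is a minimal normal subgroup of P ⧸ F. -/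
theorem result {P : Type*} [Group P] [Finite P] {p : ℕ} [Fact p.Prime] (hP : Cfsg.IsPMinimal p P) (S : Sylow p P) (M : Subgroup P) (hM : IsCoatom M) (hSM : (S : Subgroup P) ≤ M) [hF : M.normalCore.Normal] : (∀ N : Subgroup P, N.IsSubnormal → N ≤ M → N ⊓ (S : Subgroup P) ≤ Cfsg.pCore p P) ∧ ((∀ T : Sylow p ↥(Cfsg.pResidual p P), (T : Subgroup ↥(Cfsg.pResidual p P)).Normal) → (Nat.card P).primeFactors.card ≤ 2) ∧ (∀ N : Subgroup P, N.Normal → Cfsg.pResidual p P ≤ N ∨ N ≤ M.normalCore) ∧ (∀ N : Subgroup P, N.Normal → M.normalCore ≤ N → N ≤ Cfsg.pResidual p P ⊔ M.normalCore → N = M.normalCore ∨ N = Cfsg.pResidual p P ⊔ M.normalCore) ∧ M.normalCore < Cfsg.pResidual p P ⊔ M.normalCore := by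
  open Subgroup Cfsg.Agent.H18 Cfsg.Agent.H22 Cfsg.Agent.H4 in
  obtain ⟨M', hm⟩ := minOv_of_isPMinimal hP S
  obtain rfl : M = M' := by
    have := hm.uniq M hSM hM.1.lt_top
    exact (hM.le_iff.1 this).elim (fun c => absurd c hm.lt.ne) (fun c => c.symm)
  have hS : SylIn p (S : Subgroup P) ⊤ := sylIn_top S
  have h3 : ∀ N : Subgroup P, N.Normal → pResidual p P ≤ N ∨ N ≤ M.normalCore := fun N hN => by
    by_cases c : N ≤ M
    · exact Or.inr (normal_le_normalCore.2 c)
    · left; rw [← pResidualOf_top]; exact hm.res_le hS.isP le_top (le_N_of_normal _ _) c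
  refine ⟨fun N hN hNM => ?_, fun hT => ?_, h3, fun N hN h1 h2 => ?_, right_lt_sup.2 fun c => ?_⟩
  · have a := H2.le_normalCore_of_isSubnormal_of_isCoatom hM hN hNM
    have b := hm.pcl_of_le hS.isP M.normalCore_le (le_N_of_normal _ _)
    refine (b.le_pCoreOf (inf_le_left.trans a) (hS.isP.to_le inf_le_right)).trans ?_
    rw [← pCoreOf_top]; exact pCoreOf_mono_N le_top (le_N_of_normal _ _)
  · have hc : PCl p (pResidualOf p (⊤ : Subgroup P)) := by
      rw [pResidualOf_top]
      obtain ⟨T⟩ : Nonempty (Sylow p (pResidual p P)) := inferInstance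
      haveI := hT T
      exact pcl_of_syl_N (sylIn_map_subtype T) (le_N_map_subtype _)
    obtain ⟨q, hq, Q, T, h1, h2, h4, h5, e⟩ := hm.exists_prime hS hc
    haveI := Fact.mk hq
    obtain ⟨a, ha⟩ := pgrp_card h1
    obtain ⟨b, hb⟩ := pgrp_card h2
    obtain ⟨c, hc⟩ := pgrp_card (pgrp_pCoreOf (p := p) (pResidualOf p (⊤ : Subgroup P)))
    have d1 := Dvd.intro _ (card_sup_mul_of_le_N' h5)
    have d2 := Dvd.intro _ (card_sup_mul_of_le_N (h4.trans (le_N_pCoreOf (p := p) _)))
    rw [← e, card_top, hb] at d1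
    rw [ha, hc] at d2
    have d3 := d1.trans (mul_dvd_mul_right d2 _)
    refine le_trans (Finset.card_le_card (t := {q, p}) fun r hr => ?_) Finset.card_le_two
    have hr' := Nat.prime_of_mem_primeFactors hr
    have d4 := (Nat.dvd_of_mem_primeFactors hr).trans d3
    simp only [Finset.mem_insert, Finset.mem_singleton]
    rcases (hr'.dvd_mul).1 d4 with d | d
    · rcases (hr'.dvd_mul).1 d with d | d
      · exact Or.inl ((Nat.prime_dvd_prime_iff_eq hr' hq).1 (hr'.dvd_of_dvd_pow d))
      · exact Or.inr ((Nat.prime_dvd_prime_iff_eq hr' Fact.out).1 (hr'.dvd_of_dvd_pow d))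
    · exact Or.inr ((Nat.prime_dvd_prime_iff_eq hr' Fact.out).1 (hr'.dvd_of_dvd_pow d))
  · rcases h3 N hN with c | c
    · exact Or.inr (le_antisymm h2 (sup_le c h1))
    · exact Or.inl (le_antisymm c h1)
  · exact hm.not_res_le (p := p) (pResidualOf_top.le.trans (c.trans M.normalCore_le))

end Cfsg.Agent.S2905
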