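import Cfsg.Statements.S2906
import Mathlib
import Cfsg.Agent.H4.PMin

set_option autoImplicit false
open Cfsg

namespace Cfsg.Agent.S2906

/-- Let P be a finite p-minimal group with O_p(P) = 1, S a Sylow p-subgroup of P and K a component of P. Then O^p(P) = F*(P) = E(P) is generated by the S-conjugates of K, and the subgroup K·N_S(K) is again p-minimal. -/
theorem result {P : Type*} [Group P] [Finite P] {p : ℕ} [Fact p.Prime] (hP : Cfsg.IsPMinimal p P) (hOp : Cfsg.pCore p P = ⊥) (S : Sylow p P) (K : Subgroup P) (hK : Cfsg.IsComponent K) : Cfsg.pResidual p P = Cfsg.generalizedFittingSubgroup P ∧ Cfsg.generalizedFittingSubgroup P = Cfsg.layer P ∧ Cfsg.layer P = ⨆ s : ↥(S : Subgroup P), K.map (MulAut.conj (s : P)).toMonoidHom ∧ Cfsg.IsPMinimal p ↥(K ⊔ ((S : Subgroup P) ⊓ Subgroup.normalizer (K : Set P))) := by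
  open Subgroup Cfsg.Agent.H18 Cfsg.Agent.H22 Cfsg.Agent.H4 in
  obtain ⟨M, hm⟩ := minOv_of_isPMinimal hP S
  have hS : SylIn p (S : Subgroup P) ⊤ := sylIn_top S
  have h0 : pCoreOf p (⊤ : Subgroup P) = ⊥ := by rw [pCoreOf_top, hOp]
  have hKq := hK.2
  have hKK : ⁅K, K⁆ = K := H2.commutator_eq_of_isQuasisimple hKq
  have hcomp : ∀ g : P, IsComponent (cj g K) := fun g => H2.isComponent_smul hK g
  set L := ncl ⊤ K with hL
  have nL : ∀ X : Subgroup P, X ≤ N[L] := fun X => le_top.trans (le_N_ncl ⊤ K)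
  have hLE : L ≤ layer P := ncl_le_iff.2 fun g _ => H2.le_layer (hcomp g)
  have hEF : layer P ≤ generalizedFittingSubgroup P := H2.layer_le_generalizedFitting
  have hFR : generalizedFittingSubgroup P ≤ pResidualOf p ⊤ := FS_top.ge.trans (FS_le_res h0)
  have hLM : ¬ L ≤ M := fun c => by
    have hf : L ≤ frattini P := le_frattini_iff.2 fun U hU =>
      hm.le_frattini hS.isP c (nL ⊤) U le_top (by rw [h0]; exact bot_le) hU
    haveI : Group.IsNilpotent (frattini P) := frattini_nilpotent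
    exact H2.not_le_of_isQuasisimple_of_isSolvable hKq ((le_ncl ⊤ K).trans hf)
  have hRL : pResidualOf p ⊤ ≤ L := hm.res_le hS.isP le_top (nL ⊤) hLM
  have hLS : L = ncl S K := by
    have e : (S : Subgroup P) ⊔ L = ⊤ := by
      rw [sup_comm]; exact top_le_iff.1 ((pResidualOf_sup_syl hS).ge.trans (sup_le_sup_right hRL _))
    rw [hL, ← e, ncl_sup_N' (hLE.trans (H2.layer_le_normalizer_component hK)) (nL _)]
  have hKM : ¬ K ≤ M := fun c => hLM (by rw [hLS]; exact ncl_le (hm.le.trans le_normalizer) c)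
  refine ⟨le_antisymm (pResidualOf_top.ge.trans (hRL.trans (hLE.trans hEF))) (hFR.trans pResidualOf_top.le),
    le_antisymm (hFR.trans (hRL.trans hLE)) hEF, ?_, ?_⟩
  · rw [le_antisymm (hEF.trans (hFR.trans hRL)) hLE, hLS]
    refine le_antisymm (ncl_le_iff.2 fun s hs => ?_) (iSup_le fun s => cj_le_ncl s.2)
    exact le_iSup (fun s : (S : Subgroup P) => cj (s : P) K) ⟨s, hs⟩
  set T := (S : Subgroup P) ⊓ N[K] with hT
  have hTp : IsPGroup p T := hS.isP.to_le inf_le_left
  have hSK : SylIn p (S ⊓ K) K := syl_inf_sn hS (sn_top hK.1)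
  have hSKT : (S : Subgroup P) ⊓ K ≤ T := inf_le_inf_left _ le_normalizer
  have hTX : SylIn p T (K ⊔ T) := by
    have := syl_sup (sylIn_self hTp) hSK inf_le_right (by rwa [sup_eq_left.2 hSKT])
    rwa [sup_eq_left.2 hSKT, sup_comm] at this
  have key : ∀ X, T ≤ X → X < K ⊔ T → X ≤ (K ⊔ T) ⊓ M := fun X h1 h2 => by
    refine le_inf h2.le ?_
    have e := dedekind_N (A := T) (B := K) (L := X) inf_le_right h1
    rw [sup_comm, inf_eq_right.2 h2.le] at e
    set A := K ⊓ X with hA
    have nA : T ≤ N[A] := le_N_inf inf_le_right (h1.trans le_normalizer)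
    have hAK : ¬ K ≤ A := fun c => h2.not_ge (sup_le (c.trans inf_le_right) h1)
    have : ncl S A ⊔ S ≤ M := by
      refine hm.le_of_not_le le_sup_right le_top fun c => hAK ?_
      have a1 : K ≤ ncl S A :=
        (H2.le_layer hK).trans (hEF.trans (hFR.trans (pResidualOf_le_of_le_sup hS.isP (le_N_ncl _ _) c)))
      have a2 : ncl S A ≤ A ⊔ C[K] := ncl_le_iff.2 fun s hs => by
        rcases (H2.componentIn_top.2 (hcomp s)).eq_or_commutator_eq_bot (H2.componentIn_top.2 hK) with d | d
        · rw [cj_eq_of_mem_N (nA ⟨hs, mem_N_iff_cj.2 d⟩)]; exact le_sup_left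
        · exact ((cj_mono s inf_le_left).trans (le_C_iff_comm.2 d)).trans le_sup_right
      have a3 := dedekind_N (A := A) (B := C[K]) (L := K) (le_N_C (inf_le_left.trans le_normalizer))
        inf_le_left
      rw [inf_eq_right.2 (a1.trans a2)] at a3
      have a4 : C[K] ⊓ K ≤ C[A ⊔ C[K] ⊓ K] := by rw [← a3]; exact inf_le_left
      rw [← hKK, a3, H2.commutator_sup_of_le_centralizer a4]
      exact comm_le_of_le_N le_normalizer
    rw [e]
    exact sup_le (inf_le_left.trans (le_sup_right.trans this)) (((le_ncl _ _).trans le_sup_left).trans this)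
  refine isPMinimal_of_minOv (M := (K ⊔ T) ⊓ M) ⟨inf_lt_left.2 fun c => hKM (le_sup_left.trans c),
    le_inf le_sup_right (inf_le_left.trans hm.le), key, ?_⟩ hTX
  refine le_antisymm (ncl_le_self le_sup_right) (sup_le ?_ (le_ncl _ _))
  rcases H2.commutator_eq_self_or_bot_of_isQuasisimple hKq (U := T) inf_le_right with c | c
  · exact c.ge.trans ((commutator_mono le_sup_left le_rfl).trans (comm_le_ncl _ _))
  · exfalso
    have a1 : PCl p K :=
      pcl_of_syl_N hSK (((le_C_iff_comm.2 c).trans (C_anti hSKT)).trans (C_le_N _))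
    have a2 := a1.coprime (pCoreOf_eq_bot_sn (sn_top hK.1) h0)
    have a3 : L ≤ pPrimeCore p P := by
      haveI := H2.pPrimeCore_characteristic (p := p) (G := P)
      exact ncl_le (le_N_of_normal _ _) (H2.le_pPrimeCore_of_isSubnormal hK.1 a2)
    have a4 : PCl p (pResidualOf p (⊤ : Subgroup P)) := pcl_of_coprime
      (Nat.Coprime.coprime_dvd_left (card_dvd_of_le (hRL.trans a3)) H2.pPrimeCore_coprime)
    obtain ⟨q, hq, Q, T', h1, h2, h4, h5, e⟩ := hm.exists_prime hS a4
    haveI := Fact.mk hq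
    rw [pCoreOf_eq_bot_sn (sn_res ⊤) h0, sup_bot_eq] at h5 e
    haveI := pgrp_solvable h1
    exact H2.not_le_of_isQuasisimple_of_isSolvable hKq
      ((H2.le_layer hK).trans (hEF.trans (hFR.trans (pResidualOf_le_of_le_sup h2 h5 e.le))))

end Cfsg.Agent.S2906
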