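import Cfsg.Statements.S2907
import Mathlib
import Cfsg.Agent.H4.PMin

set_option autoImplicit false
open Cfsg

namespace Cfsg.Agent.S2907

/-- Let X be a finite semi-extraspecial p-group and x an element of X outside the centre. Then the index of C_X(x) in X equals the order of Z(X), and the commutators [x, y], y ∈ X, form exactly the centre Z(X). -/
theorem result {X : Type*} [Group X] [Finite X] {p : ℕ} [Fact p.Prime] (hX : Cfsg.IsSemiExtraspecial p X) (x : X) (hx : x ∉ Subgroup.center X) : (Subgroup.centralizer ({x} : Set X)).index = Nat.card ↥(Subgroup.center X) ∧ {z : X | ∃ y : X, z = x * y * x⁻¹ * y⁻¹} = (Subgroup.center X : Set X) := by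
  open Subgroup Cfsg.Agent.H18 Cfsg.Agent.H22 Cfsg.Agent.H4 in
  obtain ⟨⟨hp, h1, h2⟩, h3⟩ := hX
  have hc : ∀ y : X, x * y * x⁻¹ * y⁻¹ ∈ center X := fun y => by
    rw [← h2]; exact commutator_mem_commutator (mem_top x) (mem_top y)
  let f : X →* X := MonoidHom.mk' (fun y => x * y * x⁻¹ * y⁻¹) fun a b => by
    have := mem_center_iff.1 (hc b) a⁻¹
    calc x * (a * b) * x⁻¹ * (a * b)⁻¹ = x * a * x⁻¹ * ((x * b * x⁻¹ * b⁻¹) * a⁻¹) := by group
      _ = _ := by rw [← this]; group
  have hk : f.ker = centralizer {x} := by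
    ext y
    rw [MonoidHom.mem_ker, mem_centralizer_singleton_iff]
    change x * y * x⁻¹ * y⁻¹ = 1 ↔ _
    rw [mul_inv_eq_one, mul_inv_eq_iff_eq_mul, eq_comm]
  have hr : f.range = center X := by
    have hle : f.range ≤ center X := by rintro _ ⟨y, rfl⟩; exact hc y
    by_contra hne
    obtain ⟨Y', hY', hle'⟩ := (eq_top_or_exists_le_coatom (f.range.subgroupOf (center X))).resolve_left
      fun c => hne (le_antisymm hle (subgroupOf_eq_top.1 c))
    obtain ⟨hn, ⟨-, hcard⟩⟩ := h3 (Y'.map (center X).subtype) (map_subtype_le _)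
      (by rwa [map_subtype_subgroupOf])
    set Y := Y'.map (center X).subtype with hY
    have hfY : f.range ≤ Y := by rw [← map_subgroupOf_eq_of_le hle]; exact map_mono hle'
    have a1 : (center X).map (QuotientGroup.mk' Y) ≤ center (X ⧸ Y) :=
      H2.map_center_le (QuotientGroup.mk'_surjective Y)
    have a2 : (center X).map (QuotientGroup.mk' Y) = center (X ⧸ Y) := by
      haveI : Fact (Nat.card (center (X ⧸ Y))).Prime := ⟨hcard ▸ Fact.out⟩
      rcases ((center X).map (QuotientGroup.mk' Y)).subgroupOf (center (X ⧸ Y)) |>.eq_bot_or_eq_top_of_prime_card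
        with c | c
      · exfalso
        rw [subgroupOf_eq_bot, disjoint_iff, inf_eq_left.2 a1, Subgroup.map_eq_bot_iff,
          QuotientGroup.ker_mk'] at c
        exact hY'.1 (by rw [← map_subtype_subgroupOf Y']; exact subgroupOf_eq_top.2 c)
      · exact le_antisymm a1 (subgroupOf_eq_top.1 c)
    have a3 : QuotientGroup.mk' Y x ∈ center (X ⧸ Y) := by
      refine mem_center_iff.2 fun y => ?_
      obtain ⟨y, rfl⟩ := QuotientGroup.mk'_surjective Y y
      rw [eq_comm, ← commutatorElement_eq_one_iff_mul_comm, ← map_commutatorElement]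
      exact (QuotientGroup.eq_one_iff _).2 (hfY ⟨y, rfl⟩)
    rw [← a2, ← mem_comap, comap_map_eq, QuotientGroup.ker_mk', sup_eq_left.2 (map_subtype_le _)] at a3
    exact hx a3
  refine ⟨by rw [← hk, index_ker, hr], ?_⟩
  rw [← hr]
  ext z
  exact ⟨fun ⟨y, hy⟩ => ⟨y, hy.symm⟩, fun ⟨y, hy⟩ => ⟨y, hy.symm⟩⟩

end Cfsg.Agent.S2907
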