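import Cfsg.Statements.S2909
import Mathlib
import Cfsg.Agent.H4.PMin

set_option autoImplicit false
open Cfsg

namespace Cfsg.Agent.S2909

/-- Let p be a prime, E a normal p-subgroup of the finite group G, and U a non-cyclic elementary abelian p-subgroup of G such that either C_E(U) = C_E(u) for every nontrivial u ∈ U, or [E, U] = [E, ⟨u⟩] for every nontrivial u ∈ U. If R is a subgroup of order prime to p normalized by U, then [R, U] centralizes E. -/
theorem result {G : Type*} [Group G] [Finite G] {p : ℕ} [Fact p.Prime] (E : Subgroup G) [E.Normal] (hE : IsPGroup p ↥E) (U : Subgroup G) (hU : Cfsg.IsElementaryAbelian p U) (hnc : ¬ IsCyclic ↥U) (hcond : (∀ u ∈ U, u ≠ 1 → E ⊓ Subgroup.centralizer (U : Set G) = E ⊓ Subgroup.centralizer ({u} : Set G)) ∨ (∀ u ∈ U, u ≠ 1 → ⁅E, U⁆ = ⁅E, Subgroup.zpowers u⁆)) (R : Subgroup G) (hR : ¬ p ∣ Nat.card ↥R) (hRU : U ≤ Subgroup.normalizer (R : Set G)) : ⁅R, U⁆ ≤ Subgroup.centralizer (E : Set G) := by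
  open Subgroup Cfsg.Agent.H18 Cfsg.Agent.H22 Cfsg.Agent.H4 in
  have hRc : (Nat.card R).Coprime p := coprime_card_iff_not_dvd.2 hR
  have hUp := elemAb_pgrp hU
  have hUC := (elemAb_iff.1 hU).1
  haveI := hU.1
  have nE : ∀ X : Subgroup G, X ≤ N[E] := fun X => le_N_of_normal X E
  have nC : ∀ X : Subgroup G, X ≤ N[C[E]] := fun X => le_N_C (nE X)
  rw [commutator_comm]
  refine (le_cmod.1 (H1.le_of_centralizer_singleton_le U R (cmod U C[E]) hnc hRU
    (pgrp_coprime hUp hRc).symm fun u hu hu1 => le_cmod.2 ⟨nC _, ?_⟩)).2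
  rw [← C_zpowers]
  have hu' : zpowers u ≤ U := zpowers_le.2 hu
  have hUu : U ≤ C[zpowers u] := hUC.trans (C_anti hu')
  set D := R ⊓ C[zpowers u] with hD
  have nD : U ≤ N[D] := le_N_inf hRU (le_N_C (hUu.trans (C_le_N _)))
  have hB : ⁅U, D⁆ ≤ D := comm_le_of_le_N' nD
  have hBc : (Nat.card ↥⁅U, D⁆).Coprime p :=
    Nat.Coprime.coprime_dvd_left (card_dvd_of_le (hB.trans inf_le_left)) hRc
  have hDN : D ≤ N[zpowers u] := inf_le_right.trans (C_le_N _)
  rcases hcond with h | h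
  · refine a_times_b hE (hUp.to_le hu') (nE _) (nE _) (pResidualOf_eq_self_of_coprime hBc)
      (hB.trans inf_le_right) ?_
    have a : U ≤ C[E ⊓ C[zpowers u]] := by
      rw [C_zpowers, ← h u hu hu1]; exact le_centralizer_iff.1 inf_le_right
    exact (commutator_mono a le_rfl).trans (comm_le_of_le_N (le_N_C (le_N_inf (nE _) (le_N_C hDN))))
  · refine le_C_iff_comm'.2 (comm_eq_bot_of_le_comm hE (hUp.to_le hu') hBc (nE _) (nE _)
      (le_C_iff_comm'.1 (hB.trans inf_le_right)) ?_)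
    have nF : D ≤ N[⁅E, zpowers u⁆] := le_N_commutator (nE _) hDN
    have a : U ≤ cmod E ⁅E, zpowers u⁆ :=
      le_cmod.2 ⟨le_N_commutator (nE _) (hUu.trans (C_le_N _)), (h u hu hu1).le⟩
    exact (le_cmod.1 ((commutator_mono a le_rfl).trans (comm_le_of_le_N (le_N_cmod (nE _) nF)))).2

end Cfsg.Agent.S2909
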