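import Cfsg.Statements.S2910
import Mathlib
import Cfsg.Agent.H4.Small

set_option autoImplicit false
open Cfsg

namespace Cfsg.Agent.S2910

/-- Let p be an odd prime dividing the order of the finite group G and P a Sylow p-subgroup of G. If Ω₁(P) (generated by the elements of order dividing p) is contained in the centre of G, then G has a normal p-complement. In particular, if G is quasisimple then Ω₁(P) is not central in G. -/
theorem result {G : Type*} [Group G] [Finite G] {p : ℕ} [Fact p.Prime] (hp : p ≠ 2) (hdiv : p ∣ Nat.card G) (P : Sylow p G) (hZ : Cfsg.omegaOne p (P : Subgroup G) ≤ Subgroup.center G) : Cfsg.HasNormalPComplement p G ∧ ¬ Cfsg.IsQuasisimple G := by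
  have h1 : Cfsg.HasNormalPComplement p G := by
    refine H4.hasNPC_of_small_le_upperCentralSeries P 1 fun a ha hs => ?_
    rw [Subgroup.upperCentralSeries_one]
    rcases hs with hs | hs
    · exact hZ (Subgroup.subset_closure ⟨ha, hs⟩)
    · exact absurd hs.1 hp
  refine ⟨h1, fun hq => ?_⟩
  have h2 : Cfsg.pResidual p G = ⊤ := by
    rw [H4.pResidual_eq_top_iff_no_index]
    intro M hM hi
    have hc : IsCyclic (G ⧸ M) := isCyclic_of_prime_card (p := p) (by rw [← hi]; rfl)
    have h3 : commutator G ≤ M := by
      rw [Subgroup.Normal.quotient_commutative_iff_commutator_le.symm]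
      exact hc.isMulCommutative
    rw [hq.1.commutator_eq_top, top_le_iff] at h3
    rw [h3, Subgroup.index_top] at hi
    exact (Fact.out : p.Prime).one_lt.ne hi
  have h3 := H4.hasNPC_iff_not_dvd.mp h1
  rw [h2, Subgroup.card_top] at h3
  exact h3 hdiv

end Cfsg.Agent.S2910
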