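import Cfsg.Statements.S2911
import Mathlib
import Cfsg.Agent.H4.Transfer2
import Cfsg.Agent.H22.ExtTr
import Cfsg.Agent.H22.Syl

set_option autoImplicit false
open Cfsg

namespace Cfsg.Agent.S2911

/-- A finite group whose Sylow 2-subgroups are isomorphic to the direct product of a group of order 2 and a dihedral group of order 8 has a subgroup of index two. -/
theorem result {G : Type*} [Group G] [Finite G] (S : Sylow 2 G) (hS : Nonempty (↥(S : Subgroup G) ≃* Multiplicative (ZMod 2) × DihedralGroup 4)) : ∃ H : Subgroup G, H.index = 2 := by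
  open Subgroup Cfsg.Agent.H18 Cfsg.Agent.H22 Cfsg.Agent.H4 in
  obtain ⟨e⟩ := hS
  let φ := (MonoidHom.fst _ _).comp e.toMonoidHom
  let c := e.symm (Multiplicative.ofAdd 1, 1)
  have key : ∀ x : Multiplicative (ZMod 2) × DihedralGroup 4, (∀ y, x * y = y * x) → (∀ y, y * y ≠ x) →
      x.1 = Multiplicative.ofAdd 1 := by decide
  have k1 : ∀ y : Multiplicative (ZMod 2) × DihedralGroup 4,
      y * (Multiplicative.ofAdd 1, 1) = (Multiplicative.ofAdd 1, 1) * y := by decide
  have k2 : ∀ y : Multiplicative (ZMod 2) × DihedralGroup 4, y * y ≠ (Multiplicative.ofAdd 1, 1) := by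
    decide
  have h1 : ∀ x ∈ (S : Subgroup G), x * c = c * x := fun x hx =>
    congrArg Subtype.val (e.injective (by simpa [c] using k1 (e ⟨x, hx⟩)) : (⟨x, hx⟩ : (S : Subgroup G)) * c = c * ⟨x, hx⟩)
  have h2 : (c : G) * c = 1 :=
    congrArg Subtype.val (e.injective (by simp only [c, map_mul, MulEquiv.apply_symm_apply, map_one]; decide) : c * c = 1)
  have h4 := Cfsg.Agent.P22.transfer_extremal (odd_index_sylow S) φ h2 S.isPGroup' c.2 h1 (Multiplicative.ofAdd 1)
    fun g hg m => by
      have hN : g⁻¹ ∈ N[(S : Subgroup G)] := mem_N_of_cj_le (cj_le_iff'.2 (by rwa [inv_inv]))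
      refine key (e ⟨_, m⟩) (fun y => ?_) fun y hy => ?_
      · obtain ⟨y, rfl⟩ := e.surjective y
        rw [← map_mul, ← map_mul]
        congr 1
        refine Subtype.ext ?_
        have := h1 _ (conj_mem_of_N' hN y.2)
        calc g⁻¹ * c * g * y = g⁻¹ * (c * (g⁻¹⁻¹ * y * g⁻¹)) * g := by group
          _ = y * (g⁻¹ * c * g) := by rw [← this]; group
      · obtain ⟨y, rfl⟩ := e.surjective y
        rw [← map_mul] at hy
        have h3 : (y : G) * y = g⁻¹ * c * g := congrArg Subtype.val (e.injective hy)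
        refine k2 (e ⟨_, conj_mem_of_N' hN y.2⟩) ?_
        rw [← map_mul, ← e.apply_symm_apply (Multiplicative.ofAdd 1, 1)]
        congr 1
        refine Subtype.ext ?_
        calc g⁻¹⁻¹ * y * g⁻¹ * (g⁻¹⁻¹ * y * g⁻¹) = g * (y * y) * g⁻¹ := by group
          _ = c := by rw [h3]; group
  refine ⟨φ.transfer.ker, ?_⟩
  rw [index_ker]
  have h5 : φ.transfer.range = ⊤ := by
    refine eq_top_iff.2 fun x _ => ?_
    have : ∀ x : Multiplicative (ZMod 2), x = 1 ∨ x = Multiplicative.ofAdd 1 := by decide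
    rcases this x with rfl | rfl
    · exact one_mem _
    · exact ⟨_, h4⟩
  rw [h5, card_top]; simp

end Cfsg.Agent.S2911
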