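import Cfsg.Statements.S2924
import Mathlib
import Cfsg.Agent.H2.Misc

set_option autoImplicit false
open Cfsg

namespace Cfsg.Agent.S2924

open Cfsg.Agent.FT Subgroup
open scoped commutatorElement

/-- Let X be a finite group and Y an elementary abelian 2-subgroup of X of order at least 8 such that C_X(x) has no components (E(C_X(x)) = 1) for every nontrivial x ∈ Y, and F*(C_X(z)) = O₂(C_X(z)) for some nontrivial z ∈ Y. Then the subgroup generated by the cores O(C_X(y)), y ∈ Y nontrivial, has odd order and is normalized by N_X(Y). -/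
theorem result {X : Type*} [Group X] [Finite X] (Y : Subgroup X) (hY : Cfsg.IsElementaryAbelian 2 Y) (h8 : 8 ≤ Nat.card ↥Y) (hE : ∀ x ∈ Y, x ≠ 1 → Cfsg.layer ↥(Subgroup.centralizer ({x} : Set X)) = ⊥) (hz : ∃ z ∈ Y, z ≠ 1 ∧ Cfsg.generalizedFittingSubgroup ↥(Subgroup.centralizer ({z} : Set X)) = Cfsg.pCore 2 ↥(Subgroup.centralizer ({z} : Set X))) : Odd (Nat.card ↥(⨆ y : {y : X // y ∈ Y ∧ y ≠ 1}, (Cfsg.oddCore ↥(Subgroup.centralizer ({(y : X)} : Set X))).map (Subgroup.centralizer ({(y : X)} : Set X)).subtype)) ∧ Subgroup.normalizer (Y : Set X) ≤ Subgroup.normalizer ((⨆ y : {y : X // y ∈ Y ∧ y ≠ 1}, (Cfsg.oddCore ↥(Subgroup.centralizer ({(y : X)} : Set X))).map (Subgroup.centralizer ({(y : X)} : Set X)).subtype : Subgroup X) : Set X) := by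
  rw [cclo_eq_two]
  refine ⟨odd_iff_piGrp.2 (cclo_two hY h8 fun a ha ha1 b hb hb1 => ?_).1, nrm_le_nrm_cclo 2 Y⟩
  have hab : Ab Y := Abelem.ab hY
  have ho : ∀ a ∈ Y, PGrp 2 ⟪a⟫ := fun a ha => (Abelem.pGrp hY Nat.prime_two).mono (zpowers_le.2 ha)
  refine bal_of_constrained (play_eq_bot_iff.2 fun K hK => ?_) (piElt_iff.2 (ho a ha)) (hab.le_cen1 hb ha)
  obtain ⟨z, hz, hz1, hF⟩ := hz
  have h1 : CharP' 2 C[z] := charP'_iff.2 (by rw [gfit_def, hF, pcore_singleton Nat.prime_two])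
  have h2 := charP'_iff_core_play.1 (h1.subcent (ho b hb) (norms_of_le (zpowers_le.2 (hab.le_cen1 hz hb))))
  rw [cen_zpowers, inf_comm, ← cen_zpowers z] at h2
  have hzb : ⟪z⟫ ≤ C[b] := zpowers_le.2 (hab.le_cen1 hb hz)
  have h3 : K ≤ ⁅K, ⟪z⟫⁆ := (hK.le_comm_or_comm hzb).resolve_right fun h =>
    (hK.cent_cover (ho z hz) h).1.ne (eq_bot_of_le ((hK.cent_cover (ho z hz) h).1.le_play.trans le_sup_right) h2)
  have h4 : O[{2}ᶜ](C[b]) ⊓ C[z] = ⊥ := eq_bot_of_le (le_sup_of_le_left (by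
    rw [cen_zpowers]; exact pcore_max ((pcore_pi _ _).inf_left _) ((pcore_nml _ _).inf_right _))) h2
  have h6 : ⁅K, ⟪z⟫⁆ ≤ C(O[{2}ᶜ](C[b])) := comm_cents_of_inverts hK.norms_core fun v hv =>
    inverts_of_fpf (by rw [← pow_two]; exact Abelem.pow hY hz) (pcore_nrm _ _ (hzb (mem_zpowers z))) h4 hv
  have h7 := hK.comp_of_qs (hK.pqs.qs (centsC (centsS hK.core_le (h3.trans h6))))
  have h8 := h7.le_lay
  rw [lay_def, hE b hb hb1, Subgroup.map_bot] at h8
  exact hK.ne (le_bot_iff.1 h8)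

end Cfsg.Agent.S2924
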