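import Cfsg.Statements.S2925
import Mathlib
import Cfsg.Agent.H2.Misc

set_option autoImplicit false
open Cfsg

namespace Cfsg.Agent.S2925

open Cfsg.Agent.FT Subgroup
open scoped commutatorElement

/-- Let K be a component of the finite group X and T a Sylow 2-subgroup of X. If some abelian normal subgroup Y of T does not normalize K, then K ⧸ Z(K) has abelian Sylow 2-subgroups. -/
theorem result {X : Type*} [Group X] [Finite X] (K : Subgroup X) (hK : Cfsg.IsComponent K) (T : Sylow 2 X) (Y : Subgroup X) (hYT : Y ≤ (T : Subgroup X)) (hYn : (Y.subgroupOf (T : Subgroup X)).Normal) (hYab : IsMulCommutative ↥Y) (hnot : ¬ Y ≤ Subgroup.normalizer (K : Set X)) (P : Sylow 2 (↥K ⧸ Subgroup.center ↥K)) : IsMulCommutative ↥(P : Subgroup (↥K ⧸ Subgroup.center ↥K)) := by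
  have h := comp_top.2 hK
  have hT := syl_top Nat.prime_two T
  have hY : Y ⊴ T := (nml_iff_normal hYT).2 hYn
  obtain ⟨y, hy, hn⟩ := SetLike.not_le_iff_exists.1 hnot
  have hc : cj y K ≤ C(K) := not_not.1 fun e => hn ((h.mem_nrm_iff (le_nrm_top _ (mem_top y))).2 e)
  have hS := hT.inf_subn h.subn
  have key : ∀ s ∈ (T : Subgroup X) ⊓ K, ∀ t ∈ (T : Subgroup X) ⊓ K, ⁅s, t⁆ ∈ C(K) := fun s hs t ht => by
    have h1 : ∀ s ∈ (T : Subgroup X) ⊓ K, s * (y * s⁻¹ * y⁻¹) ∈ Y := fun s hs => by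
      simpa only [mul_assoc] using mul_mem (hY.conj_mem hs.1 hy) (inv_mem hy)
    have h2 : ∀ s ∈ (T : Subgroup X) ⊓ K, y * s⁻¹ * y⁻¹ ∈ C(K) := fun s hs => hc (conj_mem_cj.2 (inv_mem hs.2))
    have h3 := Ab.comm hYab (h1 s hs) (h1 t ht)
    have h4 := h2 s hs
    have h5 := h2 t ht
    generalize y * s⁻¹ * y⁻¹ = a at h3 h4
    generalize y * t⁻¹ * y⁻¹ = b at h3 h5
    have e1 := mem_cen.1 h4 t ht.2
    have e2 := mem_cen.1 h5 s hs.2
    have e3 : s * t * (a * b) = t * s * (b * a) := by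
      calc s * t * (a * b) = s * (t * a) * b := by group
        _ = s * a * (t * b) := by rw [e1]; group
        _ = t * (b * s) * a := by rw [h3]; group
        _ = t * s * (b * a) := by rw [← e2]; group
    have e4 : (t * s)⁻¹ * (s * t) = b * a * (a * b)⁻¹ := by
      rw [eq_mul_inv_of_mul_eq e3]; group
    have e5 : ⁅s, t⁆ = (t * s) * ((t * s)⁻¹ * (s * t)) * (t * s)⁻¹ := by rw [commutatorElement_def]; group
    rw [e5, e4]
    exact conj_mem (norms_cent (le_nrm K) (mul_mem ht.2 hs.2))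
      (mul_mem (mul_mem h5 h4) (inv_mem (mul_mem h4 h5)))
  have hk : pker (QuotientGroup.mk' (center K)) = Z(K) := (pker_mk' _).trans (center_eq_map K).symm
  have h6 := hS.pmap (QuotientGroup.mk' (center K)) le_rfl
  rw [pmap_mk'_dom] at h6
  obtain ⟨g, -, e⟩ := h6.syl_trans (syl_top Nat.prime_two P)
  rw [e]
  refine Ab.cj ((ab_pmap_iff inf_le_right).2 ?_) g
  rw [hk]
  exact commutator_le.2 fun s hs t ht => ⟨comm_le_of_le le_rfl le_rfl (commutator_mem_commutator hs.2 ht.2), key s hs t ht⟩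

end Cfsg.Agent.S2925
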