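import Cfsg.Statements.S2932
import Mathlib
import Cfsg.Agent.H29.NSL3

set_option autoImplicit false
open Cfsg

namespace Cfsg.Agent.S2932

/-- Let p be a prime. Inside a finite ambient group let V be an elementary abelian p-subgroup and G a subgroup normalizing V and acting faithfully on it (G ∩ C(V) = 1), and let L ≤ G act on V as SL₂(F) on its natural module, F a finite field of characteristic p, with L ≅ SL₂(F). If every Sylow p-subgroup of N_G(L) is a Sylow p-subgroup of G, then either L is normal in G, or F has 4 elements and G is isomorphic to the alternating group of degree 7. -/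
theorem result {X : Type*} [Group X] [Finite X] {p : ℕ} [Fact p.Prime] (F : Type) [Field F] [Fintype F] [CharP F p] (V G L : Subgroup X) (hV : Cfsg.IsElementaryAbelian p V) (hGV : G ≤ Subgroup.normalizer (V : Set X)) (hfaith : G ⊓ Subgroup.centralizer (V : Set X) = ⊥) (hLG : L ≤ G) (hnat : Cfsg.IsNaturalSL2Module F V L) (hLiso : Nonempty (↥L ≃* Matrix.SpecialLinearGroup (Fin 2) F)) (hSyl : ∀ S : Sylow p ↥(G ⊓ Subgroup.normalizer (L : Set X)), ∀ P : Sylow p ↥G, Nat.card S = Nat.card P) : (L.subgroupOf G).Normal ∨ (Fintype.card F = 4 ∧ Nonempty (↥G ≃* ↥(alternatingGroup (Fin 7)))) := by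
  classical
  obtain ⟨hLV, ρ, ψ, hρs, hρk, hψ⟩ := hnat
  letI := ZMod.algebra F p
  have hρi : Function.Injective ρ := by
    rw [← MonoidHom.ker_eq_bot_iff, hρk, eq_bot_iff]
    intro l hl
    have : (l : X) ∈ G ⊓ Subgroup.centralizer (V : Set X) := ⟨hLG l.2, hl⟩
    rw [hfaith] at this
    exact Subtype.ext this
  let e : L ≃* L0.S2 F := MulEquiv.ofBijective ρ ⟨hρi, hρs⟩
  let ι : L0.S2 F →* G := (Subgroup.inclusion hLG).comp e.symm.toMonoidHom
  let c : G →* MulAut V := V.normalizerMonoidHom.comp (Subgroup.inclusion hGV)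
  have hc : ∀ (g : G) (v : V), (c g v : X) = g * v * (g : X)⁻¹ := fun _ _ => rfl
  let φ : G → (Fin 2 → F) →+ (Fin 2 → F) := fun g => ψ.toAddMonoidHom.comp
    ((MonoidHom.toAdditive (c g).toMonoidHom).comp ψ.symm.toAddMonoidHom)
  have hφ : ∀ g (v : V), φ g (ψ (Additive.ofMul v)) = ψ (Additive.ofMul (c g v)) := fun g v => by
    simp [φ]
  have hsurj : ∀ w, ∃ v : V, w = ψ (Additive.ofMul v) := fun w =>
    ⟨Additive.toMul (ψ.symm w), by simp⟩
  let R := H5b.linOfAdd p φ (fun w => by
      obtain ⟨v, rfl⟩ := hsurj w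
      rw [hφ, map_one]; rfl) (fun x y w => by
      obtain ⟨v, rfl⟩ := hsurj w
      rw [hφ, hφ, hφ, map_mul]; rfl)
  have hR : ∀ g w, R g w = φ g w := fun _ _ => rfl
  have hrange : ι.range = L.subgroupOf G := by
    ext g
    constructor
    · rintro ⟨m, rfl⟩
      exact (e.symm m).2
    · intro hg
      exact ⟨e ⟨g, hg⟩, Subtype.ext (by simp [ι])⟩
  have hLN : L ≤ G ⊓ Subgroup.normalizer (L : Set X) := le_inf hLG Subgroup.le_normalizer
  let j : L0.S2 F →* ↥(G ⊓ Subgroup.normalizer (L : Set X)) :=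
    (Subgroup.inclusion hLN).comp e.symm.toMonoidHom
  let U : Subgroup (L0.S2 F) :=
    { carrier := Set.range L0.uu
      one_mem' := ⟨0, L0.uu_zero⟩
      mul_mem' := by
        rintro _ _ ⟨a, rfl⟩ ⟨b, rfl⟩
        exact ⟨a + b, L0.uu_add a b⟩
      inv_mem' := by
        rintro _ ⟨a, rfl⟩
        exact ⟨-a, L0.uu_neg a⟩ }
  have hU : IsPGroup p U := by
    rintro ⟨_, a, rfl⟩
    refine ⟨1, Subtype.ext ?_⟩
    rw [pow_one, Subgroup.coe_pow, L0.uu_pow, CharP.cast_eq_zero, zero_mul, L0.uu_zero]; rfl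
  obtain ⟨S0, hS0⟩ := (hU.map j).exists_le_sylow
  let k : ↥(G ⊓ Subgroup.normalizer (L : Set X)) →* G := Subgroup.inclusion inf_le_left
  obtain ⟨S, hS⟩ := (S0.isPGroup'.map k).exists_le_sylow
  have hS' : (S0 : Subgroup _).map k = S := Subgroup.eq_of_le_of_card_ge hS (by
    rw [Subgroup.card_map_of_injective (Subgroup.inclusion_injective _)]
    exact (hSyl S0 S).ge)
  let d : H29.NSL.Dt p F G :=
    { ρ := R
      ι := ι
      S := S
      inj := by
        rw [injective_iff_map_eq_one]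
        intro g hg
        have : (g : X) ∈ G ⊓ Subgroup.centralizer (V : Set X) := ⟨g.2, fun v hv => by
          have h1 := hφ g ⟨v, hv⟩
          rw [← hR, hg] at h1
          have h2 := congrArg Subtype.val (Additive.ofMul.injective (ψ.injective h1))
          rw [hc] at h2
          exact (eq_mul_inv_iff_mul_eq.mp h2)⟩
        rw [hfaith] at this
        exact Subtype.ext this
      act := fun m w => by
        obtain ⟨v, rfl⟩ := hsurj w
        obtain ⟨w, hw, hw'⟩ := hψ (e.symm m) v
        have h1 : c (ι m) v = w := Subtype.ext (by rw [hc, hw]; rfl)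
        have h2 : ρ (e.symm m) = m := e.apply_symm_apply m
        rw [hR, hφ, h1, hw', h2]
      hU := fun t => hS ⟨j (L0.uu t), hS0 ⟨_, ⟨t, rfl⟩, rfl⟩, rfl⟩
      hN := fun s hs m => by
        have h1 : s ∈ (S0 : Subgroup _).map k := hS' ▸ hs
        obtain ⟨s, -, rfl⟩ := h1
        have h2 : k s * ι m * (k s)⁻¹ ∈ ι.range := by
          rw [hrange]
          exact (Subgroup.mem_normalizer_iff.mp s.2.2 _).mp (e.symm m).2
        obtain ⟨m', hm'⟩ := h2
        exact ⟨m', hm'.symm⟩ }
  rw [← hrange, ← Nat.card_eq_fintype_card]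
  exact d.main

end Cfsg.Agent.S2932
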