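import Cfsg.Statements.S2939
import Mathlib
import Cfsg.Agent.H4.SC

set_option autoImplicit false
open Cfsg

namespace Cfsg.Agent.S2939

/-- Let p be a prime dividing the order of the finite group G and 𝓕 a family of subgroups of G closed under conjugation, with conjugates taken as X^g = g⁻¹Xg. Then 𝓕 controls Sylow p-intersections in G (any two distinct Sylow p-subgroups S and T with S ∩ T ≠ 1 are joined by a chain S = S₀, S₁, …, Sₙ = T of Sylow p-subgroups where, for each i, some member Xᵢ of 𝓕 meets both S_{i-1} and Sᵢ in Sylow p-subgroups of Xᵢ, satisfies S ∩ T ≤ Sᵢ ∩ Xᵢ, and contains an element xᵢ with Sᵢ^{xᵢ} = S_{i-1}) if and only if 𝓕 strongly controls p-fusion in G (whenever A is a subset of a Sylow p-subgroup S, A contains an element other than 1, and A^g ⊆ S, the element g factorises as g = y₁⋯yₙy with y ∈ N_G(S) and each yᵢ in a member Yᵢ of 𝓕 that meets S in a Sylow p-subgroup of Yᵢ, with A^{y₁⋯yᵢ} ⊆ S ∩ Yᵢ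 for each i). -/
theorem result {G : Type*} [Group G] [Finite G] {p : ℕ} [Fact p.Prime] (hdiv : p ∣ Nat.card G) (𝓕 : Set (Subgroup G)) (h𝓕 : Cfsg.IsNormalSet 𝓕) : Cfsg.ControlsSylowIntersections p 𝓕 ↔ Cfsg.FamilyStronglyControlsFusion p 𝓕 := by
  open Subgroup Cfsg.Agent.H18 Cfsg.Agent.H22 Cfsg.Agent.H4 in
  rw [ctrl_top_iff]
  have key : ∀ {n : ℕ} (y : Fin n → G) (i : Fin n), ((List.ofFn y).take (i.val + 1)).prod =
      ((List.ofFn y).take i.val).prod * y i := fun y i => by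
    rw [List.prod_take_succ _ _ (by simp)]; simp
  constructor
  · intro h S A g hA ⟨a, ha, ha1⟩ hg
    have h1 : A ⊆ ((S : Subgroup G) ⊓ cj g S : Subgroup G) := fun b hb =>
      ⟨hA hb, mem_cj.2 (hg ⟨b, hb, rfl⟩)⟩
    obtain ⟨k, e, h2⟩ := chain_of_rtg h𝓕 (h _ _ (sylIn_top S) (sylIn_cj_mem (sylIn_top S) (mem_top g))
      fun e => ha1 (mem_bot.1 (e ▸ h1 ha)))
    obtain ⟨n, T, y, e1, h3, h4⟩ := (h2.mono h1).exists_fin
    choose Y a b c d using h3
    refine ⟨n, Y, y, k⁻¹ * g, mem_N_iff_cj.2 (by rw [cj_mul, ← e, cj_inv_cj]),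
      fun i => ⟨mem_sylowMembers.2 ⟨a i, b i⟩, c i⟩, by rw [e1]; group, fun i => ?_⟩
    rintro _ ⟨z, hz, rfl⟩
    have := h4 i ⟨z, hz, rfl⟩
    rw [d i] at this
    have h5 := mem_cj.1 this
    rw [key]
    simp only [mul_inv_rev, ← mul_assoc] at h5 ⊢
    exact h5
  · intro h S T hS hT hne
    obtain ⟨g, -, rfl⟩ := syl_exists_cj_eq hS hT
    obtain ⟨S, rfl⟩ := hS.exists_sylow_top
    obtain ⟨a, ha⟩ := ne_bot_iff_exists_ne_one.1 hne
    obtain ⟨n, Y, y, y₀, h1, h2, e, h3⟩ := h S ((S : Subgroup G) ⊓ cj g S : Subgroup G) g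
      (fun b hb => hb.1) ⟨a, a.2, fun e => ha (Subtype.ext e)⟩
      (by rintro _ ⟨b, hb, rfl⟩; exact mem_cj.1 hb.2)
    have h4 := FusionChain.of_fin (F := FamF p 𝓕 S) n ((S : Subgroup G) ⊓ cj g S : Subgroup G)
      (fun i => cj (y i) (S ⊓ Y i)) y
      (fun i => ⟨Y i, (h2 i).1.1, (mem_sylowMembers.1 (h2 i).1).2, (h2 i).2, rfl⟩) (fun i => by
        rintro _ ⟨z, hz, rfl⟩
        have h5 := h3 i ⟨z, hz, rfl⟩
        rw [key] at h5
        refine mem_cj.2 ?_
        simp only [mul_inv_rev, ← mul_assoc] at h5 ⊢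
        exact h5)
    have h5 := rtg_of_chain h𝓕 (D := (S : Subgroup G) ⊓ cj g S) h4 1 (fun d hd => by rw [inv_one, one_mul, mul_one]; exact hd)
      (by rw [cj_one]; exact inf_le_left)
    rw [cj_one, one_mul] at h5
    rwa [show cj g (S : Subgroup G) = cj (List.ofFn y).prod S by rw [e, cj_mul, cj_eq_of_mem_N h1]] at h5 ⊢

end Cfsg.Agent.S2939
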