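import Cfsg.Statements.S2940
import Mathlib
import Cfsg.Agent.H4.SylowIn

set_option autoImplicit false
open Cfsg

namespace Cfsg.Agent.S2940

open scoped Pointwise

/-- Let S be a Sylow p-subgroup of the finite group G and G₁, G₂ subgroups containing S with G = G₁G₂. Then for every g ∈ G there is a Sylow p-subgroup U of G with S ∩ S^g ≤ U ≤ G₁ ∩ G₂^g (conjugates taken as X^g = g⁻¹Xg). -/
theorem result {G : Type*} [Group G] [Finite G] {p : ℕ} [Fact p.Prime] (S : Sylow p G) (G₁ G₂ : Subgroup G) (h1 : (S : Subgroup G) ≤ G₁) (h2 : (S : Subgroup G) ≤ G₂) (hfact : ∀ g : G, ∃ g₁ ∈ G₁, ∃ g₂ ∈ G₂, g = g₁ * g₂) (g : G) : ∃ U : Sylow p G, (S : Subgroup G) ⊓ Cfsg.subgroupConjRight g (S : Subgroup G) ≤ (U : Subgroup G) ∧ (U : Subgroup G) ≤ G₁ ⊓ Cfsg.subgroupConjRight g G₂ := by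
  obtain ⟨a, ha, b, hb, e⟩ := hfact g⁻¹
  simp only [Cfsg.subgroupConjRight, H4.map_conj_eq_smul]
  have h3 : MulAut.conj g⁻¹ • G₂ = MulAut.conj a • G₂ := by
    rw [e, H4.conj_mul_smul, H4.conj_smul_eq_of_mem hb]
  have h4 : H4.IsSylowIn p (MulAut.conj a • (S : Subgroup G)) ⊤ :=
    (H4.IsSylowIn.sylow_top S).conj_of_mem (Subgroup.le_normalizer (Subgroup.mem_top a))
  have h5 : H4.IsSylowIn p (MulAut.conj a • (S : Subgroup G)) (G₁ ⊓ MulAut.conj g⁻¹ • G₂) := by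
    refine h4.of_le (le_inf ?_ ?_) le_top
    · rw [← H4.conj_smul_eq_of_mem ha]; exact H4.conj_smul_le_conj_smul.mpr h1
    · rw [h3]; exact H4.conj_smul_le_conj_smul.mpr h2
  obtain ⟨U, hU, hle⟩ := H4.IsSylowIn.exists_le (p := p)
    (Q := (S : Subgroup G) ⊓ MulAut.conj g⁻¹ • (S : Subgroup G)) (H := G₁ ⊓ MulAut.conj g⁻¹ • G₂)
    (S.isPGroup'.to_le inf_le_left) (inf_le_inf h1 (H4.conj_smul_le_conj_smul.mpr h2))
  obtain ⟨U', rfl⟩ := (h4.of_card_ge hU.isPGroup le_top (h5.card_eq_card hU).le).exists_sylow_of_top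
  exact ⟨U', hle, hU.le⟩

end Cfsg.Agent.S2940
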