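import Cfsg.Statements.S2955
import Mathlib
import Cfsg.Agent.H4.SC

set_option autoImplicit false
open Cfsg

namespace Cfsg.Agent.S2955

/-- Let p be a prime dividing the order of the finite group G and 𝓕 a conjugation-closed family of subgroups that controls Sylow p-intersections in G. Suppose the Sylow p-subgroups of G are chain-connected: any two of them are joined by a chain of Sylow p-subgroups, consecutive ones distinct with nontrivial intersection, all containing the intersection of the two ends (equivalently, the graph on the Sylow p-subgroups whose edges are the distinct pairs meeting nontrivially is connected). Then for every Sylow p-subgroup S, G is generated by N_G(S) together with the members of 𝓕 that meet S in a Sylow p-subgroup of themselves. -/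
theorem result {G : Type*} [Group G] [Finite G] (p : ℕ) [Fact p.Prime] (hdiv : p ∣ Nat.card G)
    (𝓕 : Set (Subgroup G)) (h𝓕 : Cfsg.IsNormalSet 𝓕) (hc : Cfsg.ControlsSylowIntersections p 𝓕)
    (hconn : Cfsg.IsSylowChainConnected p G) (S : Sylow p G) :
    (⨆ X ∈ Cfsg.sylowMembers p 𝓕 (S : Subgroup G), X) ⊔ Subgroup.normalizer ((S : Subgroup G) : Set G) = ⊤ := by
  open Subgroup Cfsg.Agent.H18 Cfsg.Agent.H22 Cfsg.Agent.H4 in
  refine eq_top_of_chainConnected hconn S le_sup_right fun g hg => ?_
  obtain ⟨k, e, h2⟩ := chain_of_rtg h𝓕 (ctrl_top_iff.1 hc _ _ (sylIn_top S)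
    (sylIn_cj_mem (sylIn_top S) (mem_top g)) hg)
  obtain ⟨n, T, y, e1, h3, -⟩ := h2.exists_fin
  have h4 : k⁻¹ * g ∈ N[(S : Subgroup G)] := mem_N_iff_cj.2 (by rw [cj_mul, ← e, cj_inv_cj])
  rw [← mul_inv_cancel_left k g]
  refine mul_mem (mem_sup_left ?_) (mem_sup_right h4)
  rw [← e1]
  refine list_prod_mem fun x hx => ?_
  obtain ⟨i, rfl⟩ := List.mem_ofFn.1 hx
  obtain ⟨Y, a, b, c, -⟩ := h3 i
  exact le_iSup₂ (f := fun X (_ : X ∈ sylowMembers p 𝓕 (S : Subgroup G)) => X) Y
    (mem_sylowMembers.2 ⟨a, b⟩) c

end Cfsg.Agent.S2955
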