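import Cfsg.Statements.S2956
import Mathlib
import Cfsg.Agent.H4.SC

set_option autoImplicit false
open Cfsg

namespace Cfsg.Agent.S2956

/-- Let p be a prime dividing the order of the finite group G, and f an assignment to every p-subgroup P of a set f(P) of subgroups of P, each normalized by N_G(P), compatible with conjugation, such that for P ≠ 1 the members of f(P) are nontrivial. Let 𝓕 be the family of the normalizers N_G(F) of the members F of f(S) over the Sylow p-subgroups S of G, and 𝓕' the family of the maximal p-local subgroups M of G that are singular for f (the corresponding family of normalizers inside M does not control Sylow p-intersections in M). Then 𝓕 ∪ 𝓕' controls Sylow p-intersections in G. -/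
theorem result {G : Type*} [Group G] [Finite G] (p : ℕ) [Fact p.Prime] (hdiv : p ∣ Nat.card G)
    (f : Subgroup G → Set (Subgroup G)) (hf : Cfsg.IsNormalizerFunctor p f)
    (hf1 : ∀ P : Subgroup G, IsPGroup p ↥P → P ≠ ⊥ → ∀ F ∈ f P, F ≠ ⊥)
    (𝓕 𝓕' : Set (Subgroup G)) (h𝓕 : 𝓕 = Cfsg.functorFamily p f ⊤)
    (h𝓕' : 𝓕' = {M | Cfsg.IsMaximalPLocal p M ∧ ¬ Cfsg.IsFunctorRegular p f M}) :
    Cfsg.ControlsSylowIntersections p (𝓕 ∪ 𝓕') := by
  open Subgroup Cfsg.Agent.H18 Cfsg.Agent.H22 Cfsg.Agent.H4 in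
  subst h𝓕 h𝓕'
  set 𝓖 := functorFamily p f ⊤ ∪ {M | IsMaximalPLocal p M ∧ ¬ IsFunctorRegular p f M} with h𝓖
  suffices key : ∀ D : Subgroup G, D ≠ ⊥ → ∀ S T, SylIn p S ⊤ → SylIn p T ⊤ → D ≤ S → D ≤ T →
      Relation.ReflTransGen (Step p 𝓖 D) S T from
    ctrl_top_iff.2 fun S T hS hT hne => key _ hne S T hS hT inf_le_left inf_le_right
  intro D
  induction D using subgroup_gt_induction with
  | h D ih =>
  intro hD
  have conn : ∀ S T Q, SylIn p S ⊤ → SylIn p T ⊤ → D < Q → Q ≤ S → Q ≤ T →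
      Relation.ReflTransGen (Step p 𝓖 D) S T := fun S T Q a b c d e =>
    rtg_mono (ih Q c (ne_bot_of_gt c) S T a b d e) subset_rfl c.le
  have lt_of : ∀ {A B H : Subgroup G}, SylIn p A H → SylIn p B H → D < A → D ≤ B → D < B :=
    fun a b c d => lt_of_le_of_ne d fun e => (card_lt_of_lt c).ne (e ▸ b.card_eq a)
  have inner : ∀ n : ℕ, ∀ N P R, IsPLocal p N → SylIn p P N → SylIn p R N → D < P → D ≤ R →
      Nat.card G - Nat.card P = n → ∀ S T, SylIn p S ⊤ → SylIn p T ⊤ → P ≤ S → R ≤ T →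
      Relation.ReflTransGen (Step p 𝓖 D) S T := by
    intro n
    induction n using Nat.strong_induction_on with
    | h n ih2 =>
    intro N P R hN hP hR h1 h2 hn S T hS hT h3 h4
    obtain ⟨M, hNM, hM, hmax⟩ := exists_maximal_subgroup hN
    obtain ⟨P', hP', h5⟩ := exists_sylIn_ge hP.isP (hP.le.trans hNM)
    obtain ⟨R', hR', h6⟩ := exists_sylIn_ge hR.isP (hR.le.trans hNM)
    obtain ⟨S', hS', h7⟩ := exists_sylIn_ge hP'.isP le_top
    obtain ⟨T', hT', h8⟩ := exists_sylIn_ge hR'.isP le_top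
    have h2' := lt_of hP hR h1 h2
    refine (conn S S' P hS hS' h1 h3 (h5.trans h7)).trans
      (Relation.ReflTransGen.trans ?_ (conn T' T R hT' hT h2' (h6.trans h8) h4))
    have h1' := h1.trans_le h5
    have h2'' := h2'.trans_le h6
    by_cases hreg : IsFunctorRegular p f M
    · have c := rtg_mono (ctrl_of_regular hreg _ _ hP' hR'
        fun e => hD (le_bot_iff.1 (e ▸ le_inf h1'.le h2''.le))) subset_rfl (le_inf h1'.le h2''.le)
      have : ∀ B, Relation.ReflTransGen (Step p (functorFamily p f M) D) P' B → SylIn p B M ∧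
          ∀ T, SylIn p T ⊤ → B ≤ T → Relation.ReflTransGen (Step p 𝓖 D) S' T := by
        intro B hB
        induction hB with
        | refl => exact ⟨hP', fun T a b => conn _ _ _ hS' a h1' h7 b⟩
        | @tail A B _ h ih3 =>
          obtain ⟨hB, a, b, P₀, hP₀, F, hF, c, x, hx, d⟩ := step_functor hf h ih3.1
          refine ⟨hB, fun T hT hBT => ?_⟩
          by_cases hA : SylIn p A ⊤
          · have e : T = B := (d ▸ sylIn_cj_mem hA (mem_top x) : SylIn p B ⊤).max T le_top hT.isP hBT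
            exact e ▸ (ih3.2 A hA le_rfl).tail ((step_top hf h ih3.1 hA).mono Set.subset_union_left le_rfl)
          · have hDA := lt_of hP' ih3.1 h1' a
            have hF1 := (hf P₀ hP₀.isP).1 F hF
            obtain ⟨A', hA', e1⟩ := exists_sylIn_ge ih3.1.isP c
            obtain ⟨B', hB', e2⟩ := exists_sylIn_ge hB.isP (d ▸ cj_le_of_mem hx c : B ≤ N[F])
            obtain ⟨S₁, hS₁, e3⟩ := exists_sylIn_ge hA'.isP le_top
            obtain ⟨T₁, hT₁, e4⟩ := exists_sylIn_ge hB'.isP le_top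
            obtain ⟨U, hU, e5⟩ := exists_sylIn_ge hP₀.isP le_top
            have hlt : P₀ < U := lt_of_le_of_ne e5 fun e => hA
              (hU.of_card_le le_top ih3.1.isP (e ▸ (hP₀.card_eq ih3.1).le))
            have h9 : Nat.card P < Nat.card A' := by
              have a1 := card_lt_of_lt (pgrp_lt_inf_N hU.isP hlt)
              have a2 := hA'.card_le (inf_le_right.trans hF1.2) (hU.isP.to_inf_left (K := N[P₀]))
              have a3 := card_le_of_le h5
              have a4 := hP'.card_eq hP₀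
              omega
            have h10 := card_le_card_group A'
            refine (ih3.2 S₁ hS₁ (e1.trans e3)).trans (Relation.ReflTransGen.trans (ih2 _ (by omega)
              N[F] A' B' ⟨F, hP₀.isP.to_le hF1.1, hf1 P₀ hP₀.isP ?_ F hF, rfl⟩ hA' hB' (hDA.trans_le e1)
              (b.trans e2) rfl S₁ T₁ hS₁ hT₁ e3 e4)
              (conn _ _ B hT₁ hT (lt_of hP' hB h1' b) (e2.trans e4) hBT))
            intro e
            have := hP₀.card_eq ih3.1
            rw [e, card_bot] at this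
            exact ne_bot_of_gt hDA (card_eq_one.1 this.symm)
      exact (this R' c).2 T' hT' h8
    · obtain ⟨x, hx, e⟩ := syl_exists_cj_eq hP' hR'
      have e1 : S' ⊓ M = P' := hP'.max _ inf_le_right hS'.isP.to_inf_left (le_inf h7 hP'.le)
      have h9 : R' ≤ cj x S' := e ▸ cj_mono x h7
      refine Relation.ReflTransGen.head ⟨M, Or.inr ⟨⟨hM, hmax⟩, hreg⟩, e1 ▸ hP', ?_, ⟨x, hx, rfl⟩,
        h1'.le.trans h7, h2''.le.trans h9, h1'.le.trans hP'.le⟩
        (conn _ _ R' (sylIn_cj_mem hS' (mem_top x)) hT' h2'' h9 h8)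
      have := sylIn_cj_mem (e1 ▸ hP' : SylIn p (S' ⊓ M) M) hx
      rwa [cj_inf, cj_eq_of_mem hx] at this
  intro S T hS hT h1 h2
  rcases h1.eq_or_lt with e | h1'
  · rw [hS.max T le_top hT.isP (e ▸ h2)]
  have h2' := lt_of hS hT h1' h2
  have a := pgrp_lt_inf_N hS.isP h1'
  have b := pgrp_lt_inf_N hT.isP h2'
  obtain ⟨P, hP, c⟩ := exists_sylIn_ge (hS.isP.to_inf_left (K := N[D])) inf_le_right
  obtain ⟨R, hR, d⟩ := exists_sylIn_ge (hT.isP.to_inf_left (K := N[D])) inf_le_right
  obtain ⟨S', hS', e⟩ := exists_sylIn_ge hP.isP le_top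
  obtain ⟨T', hT', k⟩ := exists_sylIn_ge hR.isP le_top
  exact (conn _ _ _ hS hS' a inf_le_left (c.trans e)).trans ((inner _ _ P R
    ⟨D, hS.isP.to_le h1, hD, rfl⟩ hP hR (a.trans_le c) (b.le.trans d) rfl _ _ hS' hT' e k).trans
    (conn _ _ _ hT' hT b (d.trans k) inf_le_left))

end Cfsg.Agent.S2956
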