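import Cfsg.Statements.S2957
import Mathlib
import Cfsg.Agent.H4.SC

set_option autoImplicit false
open Cfsg

namespace Cfsg.Agent.S2957

/-- Let p be a prime dividing the order of the finite group G, f an equivariant assignment of a set of subgroups f(P) of P to every p-subgroup P, each normalized by N_G(P), and S a Sylow p-subgroup. If G = G₁G₂ for subgroups G₁, G₂ both containing S and both regular for f (in each Gᵢ, the family of normalizers in Gᵢ of the members of f(P), P a Sylow p-subgroup of Gᵢ, controls Sylow p-intersections), then G itself is regular for f. -/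
theorem result {G : Type*} [Group G] [Finite G] (p : ℕ) [Fact p.Prime] (hdiv : p ∣ Nat.card G)
    (f : Subgroup G → Set (Subgroup G)) (hf : Cfsg.IsNormalizerFunctor p f) (S : Sylow p G)
    (G₁ G₂ : Subgroup G) (h₁ : (S : Subgroup G) ≤ G₁) (h₂ : (S : Subgroup G) ≤ G₂)
    (hprod : ∀ g : G, ∃ g₁ ∈ G₁, ∃ g₂ ∈ G₂, g = g₁ * g₂)
    (hr₁ : Cfsg.IsFunctorRegular p f G₁) (hr₂ : Cfsg.IsFunctorRegular p f G₂) :
    Cfsg.IsFunctorRegular p f ⊤ := by
  open Subgroup Cfsg.Agent.H18 Cfsg.Agent.H22 Cfsg.Agent.H4 in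
  have hS := sylIn_top S
  have hcj := cj_mem_functorFamily_top hf
  refine regular_top fun A B hA hB hne => ?_
  obtain ⟨a, -, rfl⟩ := syl_exists_cj_eq hS hA
  obtain ⟨b, -, rfl⟩ := syl_exists_cj_eq hS hB
  obtain ⟨g₁, h1, g₂, h2, e⟩ := hprod (a⁻¹ * b)
  have e1 : cj a (S : Subgroup G) = cj (a * g₁) (cj g₁⁻¹ S) := by rw [← cj_mul, mul_inv_cancel_right]
  have e2 : cj b (S : Subgroup G) = cj (a * g₁) (cj g₂ S) := by
    rw [← cj_mul, mul_assoc, ← e, mul_inv_cancel_left]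
  rw [e1, e2, ← cj_inf] at hne ⊢
  refine rtg_cj ?_ (hcj _)
  rw [Ne, cj_eq_bot] at hne
  have hA := sylIn_cj_mem (hS.mono h₁ le_top) (inv_mem h1)
  have hB := sylIn_cj_mem (hS.mono h₂ le_top) h2
  obtain ⟨k, hk, h3⟩ := syl_exists_le_cj (hS.mono (le_inf h₁ h₂) le_top) (inf_le_inf hA.le hB.le)
    hA.isP.to_inf_left
  have h4 := le_inf inf_le_left h3
  have h5 := le_inf h3 inf_le_right
  have c1 := ctrl_of_regular hr₁ _ _ hA (sylIn_cj_mem (hS.mono h₁ le_top) hk.1)
    fun e => hne (le_bot_iff.1 (e ▸ h4))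
  have c2 := ctrl_of_regular hr₂ _ _ (sylIn_cj_mem (hS.mono h₂ le_top) hk.2) hB
    fun e => hne (le_bot_iff.1 (e ▸ h5))
  exact (rtg_mono (rtg_top hf c1 hA (sylIn_cj_mem hS (mem_top _))).1 subset_rfl h4).trans
    (rtg_mono (rtg_top hf c2 (sylIn_cj_mem (hS.mono h₂ le_top) hk.2)
      (sylIn_cj_mem hS (mem_top _))).1 subset_rfl h5)

end Cfsg.Agent.S2957
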