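import Cfsg.Statements.S2958
import Mathlib
import Cfsg.Agent.H4.FrakM

set_option autoImplicit false
open Cfsg

namespace Cfsg.Agent.S2958

/-- Let X, A, B be subgroups of a group G such that G is generated by the conjugates of X and every conjugate of X is contained in A or in B. Then A = G or B = G. -/
theorem result {G : Type*} [Group G] (X A B : Subgroup G) (hgen : (⨆ g : G, X.map (MulAut.conj g).toMonoidHom) = ⊤) (hcover : ∀ g : G, X.map (MulAut.conj g).toMonoidHom ≤ A ∨ X.map (MulAut.conj g).toMonoidHom ≤ B) : A = ⊤ ∨ B = ⊤ := by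
  open Subgroup Cfsg.Agent.H18 Cfsg.Agent.H22 Cfsg.Agent.H4 in
  simp only [cj_def] at hgen hcover
  rw [or_iff_not_imp_left]
  intro hA
  set D : Subgroup G := ⨆ g : {g : G // ¬ cj g X ≤ A}, cj (g : G) X with hD
  have h0 : ∀ g, ¬ cj g X ≤ A → cj g X ≤ D := fun g hg =>
    le_iSup (fun g : {g : G // ¬ cj g X ≤ A} => cj (g : G) X) ⟨g, hg⟩
  have h1 : D ≤ B := iSup_le fun g => (hcover g).resolve_left g.2
  have h2 : A ≤ N[D] := le_N_iff_cj.2 fun a ha => by
    rw [hD, cj_iSup]
    refine iSup_le fun g => ?_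
    rw [← cj_mul]
    refine h0 _ fun h => g.2 ?_
    rw [cj_mul, cj_le_iff, cj_eq_of_mem (inv_mem ha)] at h
    exact h
  have h3 : ⊤ ≤ N[D] := by
    rw [← hgen]
    refine iSup_le fun g => ?_
    by_cases h : cj g X ≤ A
    · exact h.trans h2
    · exact (h0 g h).trans le_normalizer
  obtain ⟨g, hg⟩ : ∃ g, ¬ cj g X ≤ A := by
    by_contra hc
    push Not at hc
    exact hA (top_le_iff.1 (hgen.ge.trans (iSup_le hc)))
  refine top_le_iff.1 (hgen.ge.trans (iSup_le fun k => le_trans ?_ h1))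
  have := cj_le_of_mem_N (h3 (mem_top (k * g⁻¹))) (h0 g hg)
  rwa [← cj_mul, inv_mul_cancel_right] at this

end Cfsg.Agent.S2958
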