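import Cfsg.Statements.S2984
import Mathlib
import Cfsg.Agent.H22.LC1

set_option autoImplicit false
open Cfsg

namespace Cfsg.Agent.S2984

/-- Let G be a finite group of characteristic p (C_G(O_p(G)) ≤ O_p(G)), T a Sylow p-subgroup and E a B(T)-block of G, with W_E = [Ω₁(Z(O_p(E))), E]. Then E = O^p(E·O_p(G)), W_E ≤ Ω₁(Z(O_p(G))), and [W_E, J(T)] ≠ 1, where J(T) is generated by the elementary abelian p-subgroups of T of largest order. -/
theorem result {G : Type*} [Group G] [Finite G] {p : ℕ} [Fact p.Prime] (hG : Subgroup.centralizer (Cfsg.pCore p G : Set G) ≤ Cfsg.pCore p G) (T : Sylow p G) (E : Subgroup G) (hE : Cfsg.IsBaumannBlock p (T : Subgroup G) E) : Cfsg.pResidualOf p (E ⊔ Cfsg.pCore p G) = E ∧ ⁅Cfsg.omegaOneCenter p (Cfsg.pCoreOf p E), E⁆ ≤ Cfsg.omegaOneCenter p (Cfsg.pCore p G) ∧ ⁅⁅Cfsg.omegaOneCenter p (Cfsg.pCoreOf p E), E⁆, Cfsg.thompsonSubgroupOf p (T : Subgroup G)⁆ ≠ ⊥ := by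
  open Subgroup Cfsg.Agent.FT Cfsg.Agent.P22 in
  open scoped commutatorElement Pointwise in
  have h := blk_of hE
  have s := syl_top Fact.out T
  rw [← P22.pcore_top'] at hG ⊢
  have e := h.comm_V s le_top ((Ohm_le p _).trans inf_le_left) (abelem_Ohm_center p _).ab
    (le_top.trans (norms_Ohm p (norms_center (pcore_nrm _ _)))) (ohm_le_V (inf_le_right.trans hG) s)
  have w := e.ge.trans (comm_le_left (le_top.trans (norms_Ohm p (norms_center (pcore_nrm _ _)))))
  rw [pResidualOf_eq', pCoreOf_eq', H5b.thompsonOf_eq_Jn]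
  exact ⟨h.res_sup (pcore_pi _ _) (h.nQ s le_top), w, mt comm_eq_bot.1
    (h.not_J (w.trans ((Ohm_le p _).trans (inf_le_left.trans (pcore_le_syl s)))))⟩

end Cfsg.Agent.S2984
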