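import Cfsg.Statements.S2987
import Mathlib
import Cfsg.Agent.H8.BH6

set_option autoImplicit false
open Cfsg

namespace Cfsg.Agent.S2987

open Cfsg.Agent.FT Cfsg.Agent.P22 Cfsg.Agent.H8.BH in

/-- Let G be a finite group of characteristic p (C_G(O_p(G)) ≤ O_p(G)) and E a subnormal subgroup of G which is a B(T)-block for some Sylow p-subgroup T of G. Then E is a normal subgroup of the Baumann subgroup B(G) (generated by the B(T) over all Sylow p-subgroups T), E is a B(T')-block for every Sylow p-subgroup T' of G, and every subgroup F that is a B(T')-block for some Sylow p-subgroup T' satisfies F ≤ E or [F, E] = 1. -/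
theorem result {G : Type*} [Group G] [Finite G] {p : ℕ} [Fact p.Prime] (hG : Subgroup.centralizer (Cfsg.pCore p G : Set G) ≤ Cfsg.pCore p G) (E : Subgroup G) (hE : ∃ T : Sylow p G, Cfsg.IsBaumannBlock p (T : Subgroup G) E) (hEs : E.IsSubnormal) : E ≤ Cfsg.baumannSubgroup p G ∧ Cfsg.baumannSubgroup p G ≤ Subgroup.normalizer (E : Set G) ∧ (∀ T' : Sylow p G, Cfsg.IsBaumannBlock p (T' : Subgroup G) E) ∧ ∀ F : Subgroup G, (∃ T' : Sylow p G, Cfsg.IsBaumannBlock p (T' : Subgroup G) F) → F ≤ E ∨ ⁅F, E⁆ = ⊥ := by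
  obtain ⟨T, h⟩ := hE
  have s := subn_top.2 hEs
  have t := fun T : Sylow p G => syl_top Fact.out T
  refine ⟨(blk_of h).cb.ge.trans (comm_le_iff.2 fun g _ b hb => mul_mem (le_iSup (fun T : Sylow p G =>
    baumannSubgroupOf p (T : Subgroup G)) (MulAut.conj g • T) ?_) (inv_mem (le_iSup (fun T : Sylow p G =>
    baumannSubgroupOf p (T : Subgroup G)) T ((bau_eq p _).ge hb)))),
    iSup_le fun T' => (bau_eq p _).trans_le (blk_nB (hc_top hG) (t T) (t T') h s), fun T' => blk_syl (hc_top hG) (t T) (t T') h s,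
    fun F ⟨T', k⟩ => (blk_le (hc_top hG) (t T) (t T') h k s le_top).imp_right comm_eq_bot.2⟩
  rw [bau_eq]
  exact (cj_Bau (p := p) g T).le (conj_mem_cj.2 hb)

end Cfsg.Agent.S2987
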