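import Cfsg.Statements.S2989
import Mathlib
import Cfsg.Agent.H22.PU6

set_option autoImplicit false
open Cfsg

namespace Cfsg.Agent.S2989

/-- Let G be a finite group and S a Sylow p-subgroup of G in the basic pushing-up situation (G ≠ 1, C_G(O_p(G)) ≤ O_p(G), S lies in a unique maximal subgroup of G, and some quotient of G is isomorphic to PSL₂ over a field of order a power of p), and suppose that S centralizes Z(J(S)), where J(S) is generated by the abelian subgroups of S of largest order (that is, J̃(S) = C_S(Z(J(S))) = S). Call a subgroup R of S centrally large if |R|·|Z(R)| is as large as possible among subgroups of S, and let S_Φ be the subgroup generated by the Frattini subgroups Φ(Q) of those minimal centrally large subgroups Q of S whose Ω₁(Z(Q)) has the largest order among minimal centrally large subgroups. Then Z(S) or S_Φ is normal in G; and if S_Φ = 1, the minimal centrally large subgroups of S are exactly the abelian subgroups of S of largest order, and at least one of them is elementary abelian. -/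
theorem result {G : Type*} [Group G] [Finite G] {p : ℕ} [Fact p.Prime] (S : Subgroup G) (hE : Cfsg.IsPushingUpSituation p S) (hJ : S ≤ Subgroup.centralizer (Cfsg.centerThompsonAOf S : Set G)) : ((S ⊓ Subgroup.centralizer (S : Set G)).Normal ∨ ((Cfsg.frattiniOfMinimalCLJoin p ↥S).map S.subtype).Normal) ∧ (Cfsg.frattiniOfMinimalCLJoin p ↥S = ⊥ → (∀ Q : Subgroup ↥S, Cfsg.IsMinimalCentrallyLarge Q ↔ Q ∈ Cfsg.maxAbelianSubgroups ↥S) ∧ ∃ A ∈ Cfsg.maxAbelianSubgroups ↥S, Cfsg.IsElementaryAbelian p A) := by
  open Subgroup Cfsg.Agent.FT Cfsg.Agent.P22 in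
  open scoped commutatorElement Pointwise in
  obtain ⟨M, h⟩ := setupE' hE
  rw [H5b.centerThompsonAOf_eq] at hJ
  refine ⟨(h.phi_cases (cd_self hJ)).imp nml_of_cen fun z => nml_top_iff.1 ⟨le_top, by rwa [map_sPhi h.syl.pi]⟩,
    fun e => ?_⟩
  obtain ⟨X, hX⟩ := exists_mco p S
  have e1 := map_sPhi h.syl.pi
  rw [e, Subgroup.map_bot] at e1
  have a := ((h.syl.pi.mono hX.1.le).Phi_eq_bot_iff Fact.out).1 (eq_bot_iff.2 (e1 ▸ le_sSup ⟨X, hX, rfl⟩))
  have b := a.so hX.1.le
  have m := mcl_map.1 ((map_so hX.1.le).symm ▸ hX.1)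
  exact ⟨H4.mcl_ab_iff m b.ab.le_cen, _, (H4.mcl_ab_iff m b.ab.le_cen _).1 m, b⟩

end Cfsg.Agent.S2989
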