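import Cfsg.Statements.S2990
import Mathlib
import Cfsg.Agent.H22.PU6

set_option autoImplicit false
open Cfsg

namespace Cfsg.Agent.S2990

/-- Let G be a finite group and S a Sylow p-subgroup of G in the basic pushing-up situation (G ≠ 1, C_G(O_p(G)) ≤ O_p(G), S lies in a unique maximal subgroup of G, and some quotient of G is isomorphic to PSL₂ over a field of order a power of p), and suppose that S centralizes Z(J(S)), where J(S) is generated by the abelian subgroups of S of largest order (that is, J̃(S) = C_S(Z(J(S))) = S). Call a subgroup R of S centrally large if |R|·|Z(R)| is as large as possible among subgroups of S, let Q be a minimal centrally large subgroup of S and let S_MCL be the subgroup generated by all minimal centrally large subgroups of S. Then the derived subgroup [Q, Q] is characteristic in S; Z(S) ∩ [Q, Q] or S_MCL is normal in G; and if [Q, Q] = 1, the minimal centrally large subgroups of S are exactly the abelian subgroups of S of largest order. -/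
theorem result {G : Type*} [Group G] [Finite G] {p : ℕ} [Fact p.Prime] (S : Subgroup G) (hE : Cfsg.IsPushingUpSituation p S) (hJ : S ≤ Subgroup.centralizer (Cfsg.centerThompsonAOf S : Set G)) (Q : Subgroup ↥S) (hQ : Cfsg.IsMinimalCentrallyLarge Q) : (⁅Q, Q⁆).Characteristic ∧ (((S ⊓ Subgroup.centralizer (S : Set G)) ⊓ (⁅Q, Q⁆).map S.subtype).Normal ∨ ((Cfsg.minimalCentrallyLargeJoin ↥S).map S.subtype).Normal) ∧ (⁅Q, Q⁆ = ⊥ → ∀ R : Subgroup ↥S, Cfsg.IsMinimalCentrallyLarge R ↔ R ∈ Cfsg.maxAbelianSubgroups ↥S) := by
  open Subgroup Cfsg.Agent.FT Cfsg.Agent.P22 in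
  open scoped commutatorElement Pointwise in
  obtain ⟨M, h⟩ := setupE' hE
  rw [H5b.centerThompsonAOf_eq] at hJ
  refine ⟨characteristic_iff_map_eq.2 fun φ => ?_, ?_, fun e => H4.mcl_ab_iff hQ (comm_eq_bot.1 e)⟩
  · have k : ∀ (φ : S ≃* S) (R : Subgroup S), IsCentrallyLarge R → IsCentrallyLarge (R.map φ.toMonoidHom) := fun φ R hR =>
      (congrArg₂ (· * ·) (card_map_inj φ.injective R)
        (Nat.card_congr (centerCongr (equivMapOfInjective R _ φ.injective)).symm.toEquiv)).trans hR
    have m : IsMinimalCentrallyLarge (Q.map φ.toMonoidHom) := ⟨k φ Q hQ.1, fun R a b => by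
      rw [← hQ.2 (R.map φ.symm.toMonoidHom) ((map_mono a).trans (by rw [Subgroup.map_map]; simp)) (k _ R b),
        Subgroup.map_map]; simp⟩
    rw [map_commutator, H4.mcl_der m hQ.1, H4.mcl_der hQ m.1, inf_comm]
  · rw [map_commutator, map_sSup_mcl]
    exact (h.mcl_cases (cd_self hJ) (mcl_map.2 hQ)).imp nml_of_cen fun z => nml_top_iff.1 ⟨le_top, z⟩

end Cfsg.Agent.S2990
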