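import Cfsg.Statements.S2998
import Mathlib
import Cfsg.Agent.H4.Iso

set_option autoImplicit false
open Cfsg

namespace Cfsg.Agent.S2998

/-- Let G be a finite group, p a prime, P a Sylow p-subgroup of G and x ∈ P an element such that N_G(R) ≤ C_G(x) for every nontrivial subgroup R of P. Then P ≤ C_G(x); every G-conjugate of x lying in P equals x (so g ∈ C_G(x) whenever g x g⁻¹ ∈ P); and for every normal subgroup N of G, the image of x in G ⧸ N has the same property with respect to the image of P: the normalizer of every nontrivial subgroup of the image of P centralizes the image of x. -/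
theorem result {G : Type*} [Group G] [Finite G] {p : ℕ} [Fact p.Prime] (P : Sylow p G) (x : G) (hxP : x ∈ (P : Subgroup G)) (hlc : ∀ R : Subgroup G, R ≤ (P : Subgroup G) → R ≠ ⊥ → Subgroup.normalizer (R : Set G) ≤ Subgroup.centralizer ({x} : Set G)) : (P : Subgroup G) ≤ Subgroup.centralizer ({x} : Set G) ∧ (∀ g : G, g * x * g⁻¹ ∈ (P : Subgroup G) → g * x * g⁻¹ = x) ∧ ∀ (N : Subgroup G) [N.Normal], ∀ R : Subgroup (G ⧸ N), R ≤ (P : Subgroup G).map (QuotientGroup.mk' N) → R ≠ ⊥ → Subgroup.normalizer (R : Set (G ⧸ N)) ≤ Subgroup.centralizer ({(QuotientGroup.mk x : G ⧸ N)} : Set (G ⧸ N)) := by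
  open Subgroup Cfsg.Agent.H18 Cfsg.Agent.H22 Cfsg.Agent.H4 in
  have hS := sylIn_top P
  have h1 : (P : Subgroup G) ≤ centralizer {x} := by
    by_cases h : (P : Subgroup G) = ⊥
    · rw [h]; exact bot_le
    · exact le_normalizer.trans (hlc _ le_rfl h)
  refine ⟨h1, fun g hg => ?_, fun N _ R hR hne y hy => ?_⟩
  · by_cases hx1 : x = 1
    · simp [hx1]
    have hP : (P : Subgroup G) ≠ ⊥ := fun e => hx1 (mem_bot.1 (e ▸ hxP))
    have h2 : cj g (P : Subgroup G) ≤ centralizer {x} := by
      refine le_trans ?_ (hlc (zpowers (g * x * g⁻¹)) (zpowers_le.2 hg) (by simpa using hx1))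
      refine le_trans ?_ (C_le_N _)
      rw [C_zpowers, ← cj_centralizer_singleton]
      exact cj_mono g h1
    obtain ⟨c, hc, e⟩ := syl_exists_cj_eq ((sylIn_cj_mem hS (mem_top g)).mono h2 le_top)
      (hS.mono h1 le_top)
    rw [← cj_mul] at e
    have h3 := hlc _ le_rfl hP (mem_N_iff_cj.2 e)
    exact mem_C1.1 (by simpa using Subgroup.mul_mem _ (Subgroup.inv_mem _ hc) h3)
  · obtain ⟨g, rfl⟩ := QuotientGroup.mk'_surjective N y
    set f := QuotientGroup.mk' N with hf
    set K := R.comap f with hK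
    have hPK : ((P : Subgroup G) ⊓ K).map f = R := by
      refine le_antisymm (map_le_iff_le_comap.2 inf_le_right) fun r hr => ?_
      obtain ⟨a, ha, rfl⟩ := hR hr
      exact ⟨a, ⟨ha, hr⟩, rfl⟩
    have hKs : K = N ⊔ ((P : Subgroup G) ⊓ K) := by
      rw [sup_comm]
      conv_lhs => rw [hK, ← hPK, comap_map_eq, hf, QuotientGroup.ker_mk']
    have hSK : SylIn p ((P : Subgroup G) ⊓ K) K := by
      have h3 : N ≤ K := hKs.ge.trans' le_sup_left
      have h4 := syl_sup (sylIn_self (hS.isP.to_inf_left (K := K))) (hS.inf_normal (N := N))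
        (le_N_of_normal _ _) (hS.isP.to_le (sup_le inf_le_left inf_le_left))
      rwa [sup_comm _ N, ← hKs, sup_eq_left.2 (inf_le_inf_left _ h3)] at h4
    have hne' : (P : Subgroup G) ⊓ K ≠ ⊥ := fun e => hne (by rw [← hPK, e, Subgroup.map_bot])
    obtain ⟨k, hk, n, hn, rfl⟩ := syl_frattini hSK (comap_N_le f R hy)
    rw [hKs] at hk
    obtain ⟨a, ha, b, hb, rfl⟩ := (mem_sup_of_le_N' (le_N_of_normal _ N)).1 hk
    have h5 : b * n ∈ centralizer ({x} : Set G) :=
      Subgroup.mul_mem _ (h1 hb.1) (hlc _ inf_le_left hne' hn)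
    have h6 : f a = 1 := (QuotientGroup.eq_one_iff _).2 ha
    rw [mul_assoc, map_mul, h6, one_mul]
    exact mem_centralizer_singleton_iff.2 (by
      have := congrArg f (mem_centralizer_singleton_iff.1 h5)
      rwa [map_mul f _ x, map_mul f x] at this)

end Cfsg.Agent.S2998
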