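import Cfsg.Statements.S3003
import Mathlib
import Cfsg.Agent.H4.PMin

set_option autoImplicit false
open Cfsg

namespace Cfsg.Agent.S3003

/-- Let G be a finite group, p a prime and Q a large p-subgroup of G: C_G(Q) ≤ Q and N_G(U) ≤ N_G(Q) for every nontrivial subgroup U of C_G(Q). Let Q ≤ G₁ ≤ G, let R be a subgroup of order prime to p normalized by G₁, and let U ≤ G₁ be a p-subgroup. If U contains a nontrivial element which is G₁-conjugate to an element of Z(Q), then C_R(U) = 1. In particular, if U is elementary abelian of order at least p² and every maximal subgroup of U contains a nontrivial element G₁-conjugate into Z(Q), then R = 1. -/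
theorem result {G : Type*} [Group G] [Finite G] {p : ℕ} [Fact p.Prime] (Q : Subgroup G) (hQp : IsPGroup p ↥Q) (hlarge : Cfsg.IsLarge Q) (G₁ : Subgroup G) (hQG : Q ≤ G₁) (R : Subgroup G) (hR : (Nat.card ↥R).Coprime p) (hGR : G₁ ≤ Subgroup.normalizer (R : Set G)) (U : Subgroup G) (hUG : U ≤ G₁) (hUp : IsPGroup p ↥U) : ((∃ x ∈ U, x ≠ 1 ∧ ∃ g ∈ G₁, g * x * g⁻¹ ∈ Q ⊓ Subgroup.centralizer (Q : Set G)) → R ⊓ Subgroup.centralizer (U : Set G) = ⊥) ∧ (Cfsg.IsElementaryAbelian p U → p ^ 2 ≤ Nat.card ↥U → (∀ U₀ : Subgroup G, U₀ ≤ U → IsCoatom (U₀.subgroupOf U) → ∃ x ∈ U₀, x ≠ 1 ∧ ∃ g ∈ G₁, g * x * g⁻¹ ∈ Q ⊓ Subgroup.centralizer (Q : Set G)) → R = ⊥) := by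
  open Subgroup Cfsg.Agent.H18 Cfsg.Agent.H22 Cfsg.Agent.H4 in
  have key : ∀ U : Subgroup G, (∃ x ∈ U, x ≠ 1 ∧ ∃ g ∈ G₁, g * x * g⁻¹ ∈ Q ⊓ C[Q]) → R ⊓ C[U] = ⊥ := by
    rintro U ⟨x, hx, hx1, g, hg, hz⟩
    have h1 : g * x * g⁻¹ ≠ 1 := fun c => hx1 (by simpa using c)
    set D := R ⊓ centralizer {g * x * g⁻¹} with hD
    have hDc : (Nat.card D).Coprime p := Nat.Coprime.coprime_dvd_left (card_dvd_of_le inf_le_left) hR
    have nQ : D ≤ N[Q] := inf_le_right.trans (large_C_le_N hlarge hz.2 h1)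
    have nD : Q ≤ N[D] := by
      refine le_N_inf (hQG.trans hGR) ?_
      rw [← C_zpowers]
      exact le_N_C ((le_centralizer_iff.1 (zpowers_le.2 hz.2)).trans (C_le_N _))
    have h2 : D ≤ Q := by
      refine le_trans (le_C_iff_comm.2 (le_bot_iff.1 ?_)) hlarge.1
      rw [← pgrp_inf_eq_bot hQp hDc]
      exact le_inf (comm_le_of_le_N' nQ) (comm_le_of_le_N nD)
    have h3 : D = ⊥ := by rw [← pgrp_inf_eq_bot hQp hDc, inf_eq_right.2 h2]
    rw [← cj_eq_bot (g := g), eq_bot_iff, ← h3, cj_inf, cj_eq_of_mem_N (hGR hg), hD,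
      ← cj_centralizer_singleton]
    refine inf_le_inf_left _ (cj_mono g ?_)
    rw [← C_zpowers]; exact C_anti (zpowers_le.2 hx)
  refine ⟨key U, fun h1 h2 h3 => le_bot_iff.1 ?_⟩
  refine H1.le_of_centralizer_hyperplane_le U R ⊥ h1 (fun c => ?_) (hUG.trans hGR)
    (pgrp_coprime hUp hR).symm fun B hB hi => (key B (h3 B hB (H3.isCoatom_of_index_prime Fact.out hi))).le
  rw [c, card_bot] at h2
  exact absurd h2 (not_le.2 (Nat.one_lt_pow two_ne_zero (Fact.out : p.Prime).one_lt))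

end Cfsg.Agent.S3003
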