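import Cfsg.Statements.S3007
import Mathlib
import Cfsg.Agent.H4.CD

set_option autoImplicit false
open Cfsg

namespace Cfsg.Agent.S3007

/-- Let P be a finite p-group and Q, R minimal centrally large subgroups of P (centrally large: |Q|·|Z(Q)| maximal among subgroups of P; minimal among such under inclusion). Then Q = (Q ∩ R)·Z(Q), the derived subgroups [Q, Q] and [R, R] coincide, |Q| = |R| and |Z(Q)| = |Z(R)|; and if Q is abelian then the minimal centrally large subgroups of P are exactly the abelian subgroups of P of largest order. -/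
theorem result {p : ℕ} [Fact p.Prime] (P : Type*) [Group P] [Finite P] (hP : IsPGroup p P) (Q R : Subgroup P) (hQ : Cfsg.IsMinimalCentrallyLarge Q) (hR : Cfsg.IsMinimalCentrallyLarge R) : (Q ⊓ R) ⊔ (Q ⊓ Subgroup.centralizer (Q : Set P)) = Q ∧ ⁅Q, Q⁆ = ⁅R, R⁆ ∧ Nat.card ↥Q = Nat.card ↥R ∧ Nat.card ↥(Q ⊓ Subgroup.centralizer (Q : Set P)) = Nat.card ↥(R ⊓ Subgroup.centralizer (R : Set P)) ∧ (IsMulCommutative ↥Q → ∀ X : Subgroup P, Cfsg.IsMinimalCentrallyLarge X ↔ X ∈ Cfsg.maxAbelianSubgroups P) := by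
  open Subgroup Cfsg.Agent.H18 Cfsg.Agent.H22 Cfsg.Agent.H4 in
  have e1 : Q ⊓ C[Q] = C[Q] := inf_eq_right.2 (cl_iff.1 hQ.1).2
  have e2 : R ⊓ C[R] = C[R] := inf_eq_right.2 (cl_iff.1 hR.1).2
  have e3 := mcl_card_le hQ hR
  rw [e1, e2]
  refine ⟨mcl_eq hQ hR.1, by rw [mcl_der hQ hR.1, mcl_der hR hQ.1, inf_comm], e3, ?_,
    fun h => mcl_ab_iff hQ (isMulComm_iff.1 h)⟩
  have a1 : Nat.card Q * Nat.card C[Q] = _ := (cl_iff.1 hQ.1).1
  have a2 : Nat.card R * Nat.card C[R] = _ := (cl_iff.1 hR.1).1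
  rw [← a2, e3] at a1
  exact Nat.eq_of_mul_eq_mul_left (card_pos' R) a1

end Cfsg.Agent.S3007
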