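import Cfsg.Statements.S3008
import Mathlib
import Cfsg.Agent.H4.CD

set_option autoImplicit false
open Cfsg

namespace Cfsg.Agent.S3008

/-- Let P be a finite p-group, with J(P) generated by its abelian subgroups of largest order and J̃(P) = C_P(Z(J(P))); call R ≤ P centrally large if |R|·|Z(R)| is as large as possible, and let P_MCL be generated by the minimal centrally large subgroups. Then: for every centrally large Q, Q·J(P) ⊇ J̃(P); some minimal centrally large subgroup of P is normalized by both J(P) and P_MCL; if P = J(P) and d(P)² = |P|·|Z(P)|, where d(P) is the largest order of an abelian subgroup, then every minimal centrally large subgroup of P is abelian; and if every minimal centrally large subgroup is abelian then J̃(P) = J(P). -/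
theorem result {p : ℕ} [Fact p.Prime] (P : Type*) [Group P] [Finite P] (hP : IsPGroup p P) : (∀ Q : Subgroup P, Cfsg.IsCentrallyLarge Q → Subgroup.centralizer ((Cfsg.thompsonSubgroupA P ⊓ Subgroup.centralizer (Cfsg.thompsonSubgroupA P : Set P) : Subgroup P) : Set P) ≤ Q ⊔ Cfsg.thompsonSubgroupA P) ∧ (∃ Q : Subgroup P, Cfsg.IsMinimalCentrallyLarge Q ∧ Cfsg.thompsonSubgroupA P ≤ Subgroup.normalizer (Q : Set P) ∧ Cfsg.minimalCentrallyLargeJoin P ≤ Subgroup.normalizer (Q : Set P)) ∧ (Cfsg.thompsonSubgroupA P = ⊤ → (∀ A ∈ Cfsg.maxAbelianSubgroups P, Nat.card ↥A ^ 2 = Nat.card P * Nat.card ↥(Subgroup.center P)) → ∀ Q : Subgroup P, Cfsg.IsMinimalCentrallyLarge Q → IsMulCommutative ↥Q) ∧ ((∀ Q : Subgroup P, Cfsg.IsMinimalCentrallyLarge Q → IsMulCommutative ↥Q) → Subgroup.centralizer ((Cfsg.thompsonSubgroupA P ⊓ Subgroup.centralizer (Cfsg.thompsonSubgroupA P : Set P) : Subgroup P) : Set P) = Cfsg.thompsonSubgroupA P) := by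
  open Subgroup Cfsg.Agent.H18 Cfsg.Agent.H22 Cfsg.Agent.H4 in
  haveI := hP.isNilpotent
  obtain ⟨Q₀, h0⟩ := exists_cl (G := P)
  obtain ⟨Q₁, -, h1⟩ := exists_mcl_le h0
  refine ⟨fun Q hQ => cl_J hQ, exists_mcl_normalized, fun hJ hd Q hQ => ?_, fun h => ?_⟩
  · obtain ⟨A, hA⟩ := exists_maxAb (G := P)
    have h2 : IsCentrallyLarge (Q₀ ⊔ thompsonSubgroupA P) :=
      cl_sup_sSup h0 fun A hA R hR => (cl_maxAb hR hA).1
    rw [hJ, sup_top_eq] at h2
    have h3 : Nat.card (⊤ : Subgroup P) * Nat.card C[(⊤ : Subgroup P)] = _ := (cl_iff.1 h2).1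
    rw [C_top, card_top, ← hd A hA, pow_two] at h3
    have hAC := isMulComm_iff.1 hA.1
    exact ((mcl_ab_iff (mcl_of_ab hAC h3.ge) hAC Q).1 hQ).1
  · have h2 := (mcl_ab_iff h1 (isMulComm_iff.1 (h Q₁ h1)) Q₁).1 h1
    refine le_antisymm ((cl_J h1.1).trans (sup_le (le_sSup h2) le_rfl)) ?_
    exact le_centralizer_iff.1 inf_le_right

end Cfsg.Agent.S3008
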