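import Cfsg.Statements.S3009
import Mathlib
import Cfsg.Agent.H10.Md2

set_option autoImplicit false
open Cfsg

namespace Cfsg.Agent.S3009

open Subgroup Matrix Cfsg.Agent.H19.St Cfsg.Agent.H10.Md
open scoped MatrixGroups commutatorElement IsMulCommutative

/-- Let p be a prime and let G and V be subgroups of a finite group with V elementary abelian and normalized by G, and G isomorphic to SL₂(F) for a finite field F with pⁿ elements. Suppose G acts irreducibly and nontrivially on V by conjugation (no G-invariant subgroups of V other than 1 and V, and [V, G] ≠ 1), and let S be a Sylow p-subgroup of G and V₀ = C_V(S). If [V, S, S] = 1 or |V| ≤ |V₀|², then G acts on V as SL₂(F) on its natural two-dimensional module; in particular |V| = |F|². -/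
theorem result {X : Type*} [Group X] [Finite X] {p : ℕ} [Fact p.Prime] (G V : Subgroup X) (hV : Cfsg.IsElementaryAbelian p V) (hGV : G ≤ Subgroup.normalizer (V : Set X)) (F : Type) [Field F] [Fintype F] (n : ℕ) (hF : Fintype.card F = p ^ n) (hG : Nonempty (↥G ≃* Matrix.SpecialLinearGroup (Fin 2) F)) (hirr : ∀ U : Subgroup X, U ≤ V → G ≤ Subgroup.normalizer (U : Set X) → U = ⊥ ∨ U = V) (hnt : ⁅V, G⁆ ≠ ⊥) (S : Sylow p ↥G) (hyp : ⁅⁅V, (S : Subgroup ↥G).map G.subtype⁆, (S : Subgroup ↥G).map G.subtype⁆ = ⊥ ∨ Nat.card ↥V ≤ Nat.card ↥(V ⊓ Subgroup.centralizer (((S : Subgroup ↥G).map G.subtype : Subgroup X) : Set X)) ^ 2) : Cfsg.ActsAsSL2OnSection F ⊤ G V ⊥ := by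
  have : CharP F p := charP_of_card_eq_prime_pow hF
  obtain ⟨e, he⟩ := exists_equiv_upper hG.some S
  have := hV.1
  let φ : SL(2, F) →* MulAut V := (V.normalizerMonoidHom.comp (inclusion hGV)).comp e.symm.toMonoidHom
  let _ : DistribMulAction SL(2, F) (Additive V) :=
    { smul := fun g v => Additive.ofMul (φ g v.toMul)
      one_smul := fun v => by change Additive.ofMul (φ 1 v.toMul) = v; simp
      mul_smul := fun a b v => by change Additive.ofMul (φ (a * b) v.toMul) = _; rw [map_mul]; rfl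
      smul_zero := fun g => map_one (φ g)
      smul_add := fun g => map_mul (φ g) }
  have h1 : ∀ (g : G) (v : Additive V), (((e g • v).toMul : V) : X) = g * v.toMul * (g : X)⁻¹ := fun g v => by
    change ((φ (e g) v.toMul : V) : X) = _
    simp [φ]
  have h2 : ∀ v : Additive V, v ∈ Fxd (Additive V) (xx (k := F)) ↔
      (v.toMul : X) ∈ centralizer (((S : Subgroup G).map G.subtype : Subgroup X) : Set X) := fun v => by
    refine ⟨fun h => ?_, fun h t => ?_⟩
    · rintro _ ⟨s, hs, rfl⟩
      obtain ⟨t, ht⟩ := (he s).1 hs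
      have := h1 s v
      rw [ht, h t] at this
      exact mul_inv_eq_iff_eq_mul.1 this.symm
    · obtain ⟨s, hs⟩ := e.surjective (xx t)
      refine Additive.toMul.injective (Subtype.ext ?_)
      rw [← hs, h1, h s ⟨s, (he s).2 ⟨t, hs⟩, rfl⟩, mul_inv_cancel_right]
  obtain ⟨θ, hθ⟩ := nat_mod (F := F) (W := Additive V) (p := p) (fun w => Subtype.ext (hV.2 _ w.toMul.2))
    (fun U hU => by
      rcases hirr ((AddSubgroup.toSubgroup' U).map V.subtype) (map_subtype_le _) (FT.le_nrm_iff.2 (by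
        rintro g hg _ ⟨u, hu, rfl⟩
        exact ⟨_, hU (e ⟨g, hg⟩) _ hu, h1 _ _⟩)) with h | h
      · exact Or.inl (eq_bot_iff.2 fun u hu => Subtype.ext (h.le ⟨u.toMul, hu, rfl⟩))
      · exact Or.inr (eq_top_iff.2 fun u _ => (mem_map_iff_mem V.subtype_injective).1 (h.ge u.toMul.2)))
    (by
      by_contra! c
      refine hnt (commutator_eq_bot_iff_le_centralizer.2 fun v hv g hg => ?_)
      have := h1 ⟨g, hg⟩ (Additive.ofMul ⟨v, hv⟩)
      rw [c] at this
      exact mul_inv_eq_iff_eq_mul.1 this.symm)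
    (hyp.imp (fun h t w => (h2 _).2 (by
      obtain ⟨s, hs⟩ := e.surjective (xx t)
      refine (commutator_eq_bot_iff_le_centralizer.1 h : _ ≤ _) (show ((xx t • w - w).toMul : X) ∈ _ from ?_)
      rw [commutator_comm, ← hs, sub_eq_add_neg, toMul_add, coe_mul, h1]
      exact commutator_mem_commutator ⟨s, (he s).2 ⟨t, hs⟩, rfl⟩ w.toMul.2)) fun h => h.trans_eq (by
        congr 1
        exact Nat.card_congr ⟨fun v => ⟨Additive.ofMul ⟨v.1, v.2.1⟩, (h2 _).2 v.2.2⟩,
          fun v => ⟨v.1.toMul, v.1.toMul.2, (h2 _).1 v.2⟩, fun _ => rfl, fun _ => rfl⟩))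
  refine ⟨hGV, bot_le, e.toMonoidHom, AddMonoidHom.toMultiplicativeRight θ.symm.toAddMonoidHom,
    MonoidHom.range_eq_top.2 e.surjective, θ.symm.surjective, fun u => ?_, fun g u => ⟨(e g • Additive.ofMul u).toMul, h1 _ _, ?_⟩⟩
  · exact (map_eq_zero_iff _ θ.symm.injective (x := Additive.ofMul u)).trans Subtype.ext_iff
  · refine θ.symm_apply_eq.2 ?_
    exact ((hθ _ _).trans (congrArg _ (θ.apply_symm_apply _))).symm

end Cfsg.Agent.S3009
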