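import Cfsg.Statements.S3012
import Mathlib
import Cfsg.Agent.H22.Latt

set_option autoImplicit false
open Cfsg

namespace Cfsg.Agent.S3012

/-- Let G be a finite group, V a nontrivial elementary abelian 2-subgroup of G satisfying the Sidki pair condition (every odd-order element inverted by an element of V commutes with a nontrivial element of V), and K a normal subgroup of G with V ∩ K = 1. Then the image of V in G/K satisfies the Sidki pair condition in G/K. -/
theorem result {G : Type*} [Group G] [Finite G] (V K : Subgroup G) [K.Normal] (hV : Cfsg.IsElementaryAbelian 2 V) (hV1 : V ≠ ⊥) (hS : Cfsg.IsSidkiPair V) (hVK : V ⊓ K = ⊥) : Cfsg.IsSidkiPair (V.map (QuotientGroup.mk' K)) := by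
  open Subgroup Cfsg.Agent.H18 Cfsg.Agent.H22 in
  haveI : Fact (Nat.Prime 2) := ⟨Nat.prime_two⟩
  rintro h _ ⟨v, hv, rfl⟩ hodd hinv
  set f := QuotientGroup.mk' K with hf
  obtain ⟨m, hm⟩ := hodd
  obtain ⟨k, hk⟩ := QuotientGroup.mk'_surjective K (h ^ (m + 1))
  have hv2 : v * v = 1 := by rw [← pow_two]; exact (elemAb_iff.1 hV).2 v hv
  set y := k * (v * k⁻¹ * v⁻¹) with hy
  have hfy : f y = h := by
    have e : f v * (h ^ (m + 1))⁻¹ * (f v)⁻¹ = h ^ (m + 1) := by
      rw [← inv_pow, ← conj_pow, ← hinv]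
      rw [show f v * (f v * h * (f v)⁻¹) * (f v)⁻¹ = f (v * v) * h * (f (v * v))⁻¹ by rw [map_mul]; group,
        hv2, map_one, one_mul, inv_one, mul_one]
    rw [hy, map_mul, map_mul, map_mul, map_inv, map_inv, hk, e, ← pow_add,
      show m + 1 + (m + 1) = (2 * m + 1) + 1 by ring, ← hm, pow_succ, pow_orderOf_eq_one, one_mul]
  have hvy : v * y * v⁻¹ = y⁻¹ := by
    rw [hy, show v * (k * (v * k⁻¹ * v⁻¹)) * v⁻¹ = v * k * v⁻¹ * ((v * v) * k⁻¹ * (v * v)⁻¹) by group, hv2]
    group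
  obtain ⟨j, hj⟩ := exists_pow_coprime (p := 2) (isOfFinOrder_of_finite y)
  obtain ⟨w, hw, hw1, hc⟩ := hS (y ^ 2 ^ j) v hv (Nat.coprime_two_right.1 hj)
    (by rw [← conj_pow, hvy, inv_pow])
  refine ⟨f w, ⟨w, hw, rfl⟩, fun c => hw1 ?_, ?_⟩
  · have : w ∈ V ⊓ K := ⟨hw, (QuotientGroup.eq_one_iff _).1 c⟩
    rwa [hVK, mem_bot] at this
  · have h1 : h ^ 2 ^ j ∈ centralizer {f w} := by
      rw [mem_centralizer_singleton_iff, ← hfy, ← map_pow, ← map_mul, ← map_mul, hc]
    refine (mem_centralizer_singleton_iff.1 (mem_of_pow_mem_of_coprime h1 ?_)).symm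
    exact Nat.Coprime.pow_left j (Nat.coprime_two_left.2 ⟨m, hm⟩)

end Cfsg.Agent.S3012
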