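import Cfsg.Statements.S3013
import Mathlib
import Cfsg.Agent.H22.Latt

set_option autoImplicit false
open Cfsg

namespace Cfsg.Agent.S3013

/-- Let G be a finite group and V a nontrivial elementary abelian 2-subgroup of G satisfying the Sidki pair condition. Let v ∈ V and let x be an element of odd order inverted by v, and put C = C_G(v) ∩ C_G(x), the centralizer of the dihedral subgroup generated by v and x. Then C ∩ V is nontrivial and satisfies the Sidki pair condition inside C: every odd-order element of C inverted by an element of C ∩ V commutes with a nontrivial element of C ∩ V. -/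
theorem result {G : Type*} [Group G] [Finite G] (V : Subgroup G) (hV : Cfsg.IsElementaryAbelian 2 V) (hV1 : V ≠ ⊥) (hS : Cfsg.IsSidkiPair V) (v x : G) (hv : v ∈ V) (hx : Odd (orderOf x)) (hinv : v * x * v⁻¹ = x⁻¹) (C : Subgroup G) (hC : C = Subgroup.centralizer ({v} : Set G) ⊓ Subgroup.centralizer ({x} : Set G)) : C ⊓ V ≠ ⊥ ∧ Cfsg.IsSidkiPair ((C ⊓ V).subgroupOf C) := by
  open Subgroup Cfsg.Agent.H18 Cfsg.Agent.H22 in
  subst hC
  have hc : ∀ a ∈ V, ∀ b ∈ V, a * b = b * a := fun a ha b hb => mem_C.1 ((elemAb_iff.1 hV).1 hb) a ha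
  have hmem : ∀ w ∈ V, w * x = x * w → w ∈ centralizer {v} ⊓ centralizer {x} := fun w hw h =>
    ⟨mem_centralizer_singleton_iff.2 (hc w hw v hv), mem_centralizer_singleton_iff.2 h⟩
  refine ⟨fun c => ?_, ?_⟩
  · obtain ⟨w, hw, hw1, h⟩ := hS x v hv hx hinv
    have : w ∈ centralizer {v} ⊓ centralizer {x} ⊓ V := ⟨hmem w hw h, hw⟩
    rw [c, mem_bot] at this
    exact hw1 this
  · rintro ⟨h, hh⟩ ⟨u, hu⟩ huV hodd hi
    have huV' : u ∈ V := (mem_subgroupOf.1 huV).2
    have hi' : u * h * u⁻¹ = h⁻¹ := congrArg Subtype.val hi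
    rw [← orderOf_coe] at hodd
    have h1 : h * v = v * h := mem_centralizer_singleton_iff.1 hh.1
    have h2 : Commute h x := mem_centralizer_singleton_iff.1 hh.2
    have h3 : u * x = x * u := mem_centralizer_singleton_iff.1 hu.2
    have hvh : v * h * v⁻¹ = h := by rw [← h1]; group
    have hux : u * x⁻¹ * u⁻¹ = x⁻¹ := by rw [← conj_inv, h3]; group
    obtain ⟨w, hw, hw1, h4⟩ := hS (h * x) (u * v) (mul_mem huV' hv)
      (Odd.of_dvd_nat (hodd.mul hx) h2.orderOf_mul_dvd_mul_orderOf) (by
        calc u * v * (h * x) * (u * v)⁻¹ = u * (v * h * v⁻¹) * u⁻¹ * (u * (v * x * v⁻¹) * u⁻¹) := by group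
          _ = _ := by rw [hvh, hinv, hi', hux, mul_inv_rev, h2.inv_inv.eq])
    have h5 : h * x ∈ centralizer {w} := mem_centralizer_singleton_iff.2 h4.symm
    have h6 : v ∈ centralizer {w} := mem_centralizer_singleton_iff.2 (hc v hv w hw)
    have h7 : h * x⁻¹ ∈ centralizer {w} := by
      have := mul_mem (mul_mem h6 h5) (inv_mem h6)
      rwa [show v * (h * x) * v⁻¹ = (v * h * v⁻¹) * (v * x * v⁻¹) by group, hvh, hinv] at this
    have h8 : h ∈ centralizer {w} := by
      refine mem_of_pow_mem_of_coprime (n := 2) ?_ (Nat.coprime_two_left.2 hodd)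
      have := mul_mem h5 h7
      rwa [h2.eq, mul_assoc, ← mul_assoc h, ← pow_two, ← mul_assoc, ← (h2.pow_left 2).eq,
        mul_inv_cancel_right] at this
    have h9 : x ∈ centralizer {w} := (mul_mem_cancel_left h8).1 h5
    have h10 := hmem w hw (mem_centralizer_singleton_iff.1 h9).symm
    exact ⟨⟨w, h10⟩, mem_subgroupOf.2 ⟨h10, hw⟩, fun c => hw1 (congrArg Subtype.val c),
      Subtype.ext (mem_centralizer_singleton_iff.1 h8).symm⟩

end Cfsg.Agent.S3013
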