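import Cfsg.Statements.S3014
import Mathlib
import Cfsg.Agent.H22.Latt
import Cfsg.Agent.H6.Frobenius

set_option autoImplicit false
open Cfsg

namespace Cfsg.Agent.S3014

/-- Let G be a finite group and H ≤ M ≤ G subgroups such that for every g ∈ G the subgroup generated by H and g H g⁻¹ meets M exactly in H. If H is a maximal subgroup of M and M is a maximal subgroup of G, then the normal closure of H in G meets M exactly in H. -/
theorem result {G : Type*} [Group G] [Finite G] (H M : Subgroup G) (hHM : H ≤ M) (hcl : ∀ g : G, (H ⊔ H.map (MulAut.conj g).toMonoidHom) ⊓ M = H) (hmaxH : IsCoatom (H.subgroupOf M)) (hmaxM : IsCoatom M) : Subgroup.normalClosure (H : Set G) ⊓ M = H := by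
  open Subgroup Cfsg.Agent.H18 Cfsg.Agent.H22 in
  have hcl' : ∀ g, (H ⊔ cj g H) ⊓ M = H := hcl
  have nH : M ≤ N[H] := le_N_iff_cj.2 fun g hg =>
    (le_inf le_sup_right (cj_le_of_mem hg hHM)).trans (hcl' g).le
  suffices h : ∃ K : Subgroup G, K.Normal ∧ K ⊓ M = H by
    obtain ⟨K, hK, e⟩ := h
    refine le_antisymm (le_trans (inf_le_inf_right _ ?_) e.le) (le_inf le_normalClosure hHM)
    exact normalClosure_le_normal (e.ge.trans inf_le_left)
  by_cases h : ∀ g, g ∉ M → M ⊓ cj g M ≤ H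
  · obtain ⟨K, h1, -, h2, -⟩ := H6.exists_normal_of_TI M H hHM (fun h hh x hx => conj_mem_of_N (nH hh) hx)
      fun g hg x hx hx' => h g⁻¹ (by rwa [inv_mem_iff]) ⟨hx, mem_cj.2 (by rwa [inv_inv])⟩
    exact ⟨K, h1, h2⟩
  push Not at h
  obtain ⟨g, hg, h⟩ := h
  refine ⟨H ⊔ cj g H, normal_of_top_le_N ?_, hcl' g⟩
  have h1 : M ≤ H ⊔ (M ⊓ cj g M) := by
    have := hmaxH.2 ((H ⊔ (M ⊓ cj g M)).subgroupOf M) (lt_of_le_of_ne (comap_mono le_sup_left) fun c => h ?_)
    · exact subgroupOf_eq_top.1 this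
    · exact (le_inf inf_le_left le_sup_right).trans (subgroupOf_le_iff.1 c.ge)
  have h2 : M ≤ N[H ⊔ cj g H] := by
    refine h1.trans (sup_le (le_sup_left.trans le_normalizer) (le_N_sup (inf_le_left.trans nH) ?_))
    rw [← cj_N]; exact inf_le_right.trans (cj_mono g nH)
  rcases hmaxM.le_iff.1 h2 with c | c
  · exact c.ge
  · have h3 : H ⊔ cj g H = H := by rw [← inf_eq_left.2 (le_normalizer.trans c.le), hcl']
    rw [h3]
    rcases hmaxM.le_iff.1 nH with d | d
    · exact d.ge
    · exact absurd (d.le (mem_N_of_cj_le (le_sup_right.trans h3.le))) hg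

end Cfsg.Agent.S3014
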