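import Cfsg.Statements.S3015
import Mathlib
import Cfsg.Agent.H22.Latt
import Cfsg.Agent.H6.Frobenius
import Cfsg.Agent.H3.Basic

set_option autoImplicit false
open Cfsg

namespace Cfsg.Agent.S3015

/-- Let G be a finite non-abelian simple group, M a maximal subgroup of G and H a normal subgroup of M of prime index in M. Then G is generated by H together with one of its conjugates. -/
theorem result {G : Type*} [Group G] [Finite G] [IsSimpleGroup G] (hG : ¬ IsMulCommutative G) (M H : Subgroup G) (hmaxM : IsCoatom M) (hHM : H ≤ M) (hHn : (H.subgroupOf M).Normal) (hidx : (H.relIndex M).Prime) : ∃ g : G, H ⊔ H.map (MulAut.conj g).toMonoidHom = ⊤ := by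
  open Subgroup Cfsg.Agent.H18 Cfsg.Agent.H22 in
  by_contra hcon
  push Not at hcon
  have hcon' : ∀ g, H ⊔ cj g H ≠ ⊤ := hcon
  have nH : M ≤ N[H] := le_N_of_normal_subgroupOf hHM hHn
  haveI := Fact.mk hidx
  set p := H.relIndex M with hp
  have hMH : ¬ M ≤ H := fun c => hidx.ne_one (relIndex_eq_one.2 c)
  have hnorm : ∀ X : Subgroup G, M ≤ N[X] → (∃ g ∈ N[X], g ∉ M) → X ≠ ⊤ → X = ⊥ := fun X h1 ⟨g, h2, h3⟩ h4 => by
    rcases hmaxM.le_iff.1 h1 with c | c
    · exact ((normal_of_top_le_N c.ge).eq_bot_or_eq_top).resolve_right h4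
    · exact absurd (c.le h2) h3
  have hNM : ∀ g, g ∉ M → cj g M ≠ M := fun g hg c =>
    hMH ((hnorm M le_normalizer ⟨g, mem_N_iff_cj.2 c, hg⟩ hmaxM.1).le.trans bot_le)
  have hmax : ∀ X, H ≤ X → X ≤ M → ¬ X ≤ H → M ≤ X := fun X h1 h2 h3 =>
    subgroupOf_eq_top.1 ((H3.isCoatom_of_index_prime hidx (M := H.subgroupOf M) rfl).2 (X.subgroupOf M)
      (lt_of_le_of_ne (comap_mono h1) fun c => h3 ((le_inf h2 le_rfl).trans (subgroupOf_le_iff.1 c.ge))))
  have hres : pResidualOf p M ≤ H := pResidualOf_le_of_pow fun x hx => ⟨1, by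
    rw [pow_one]; exact mem_subgroupOf.1 ((H.subgroupOf M).pow_index_mem ⟨x, hx⟩)⟩
  have h : ∀ g, g ∉ M → M ⊓ cj g M ≤ H := fun g hg => by
    by_contra h
    have h1 : M ≤ H ⊔ (M ⊓ cj g M) :=
      hmax _ le_sup_left (sup_le hHM inf_le_left) fun c => h (le_sup_right.trans c)
    have h2 : M ≤ N[H ⊔ cj g H] := by
      refine h1.trans (sup_le (le_sup_left.trans le_normalizer) (le_N_sup (inf_le_left.trans nH) ?_))
      rw [← cj_N]; exact inf_le_right.trans (cj_mono g nH)
    have h3 : cj g H ≤ M := by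
      by_contra c
      obtain ⟨x, hx, hx'⟩ := SetLike.not_le_iff_exists.1 c
      exact c ((le_sup_right.trans (hnorm _ h2 ⟨x, le_normalizer (mem_sup_right hx), hx'⟩
        (hcon' g)).le).trans bot_le)
    have e : pResidualOf p H = pResidualOf p M := pResidualOf_eq_of_le hres hHM
    have h4 : pResidualOf p M = ⊥ := by
      refine hnorm _ (le_N_pResidualOf M) ⟨g, mem_N_of_cj_le ?_, hg⟩ fun c =>
        hmaxM.1 (top_le_iff.1 (c.ge.trans (pResidualOf_le M)))
      conv_lhs => rw [← e, cj_pResidualOf]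
      exact pResidualOf_mono h3
    have hMp : IsPGroup p M := pResidualOf_eq_bot_iff.1 h4
    have h5 : H = ⊥ := by
      have a1 : (cj g H).relIndex M = p := by
        have b1 := card_mul_relIndex h3
        rw [card_cj, ← card_mul_relIndex hHM] at b1
        exact Nat.eq_of_mul_eq_mul_left (card_pos' H) b1
      have a2 : M ≤ N[cj g H] := le_N_of_normal_subgroupOf h3
        (H3.normal_of_isCoatom hMp (H3.isCoatom_of_index_prime hidx a1))
      have a3 : ¬ cj g M ≤ M := fun c => hNM g hg (eq_of_le_of_card_ge c (card_cj g M).ge)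
      obtain ⟨x, hx, hx'⟩ := SetLike.not_le_iff_exists.1 a3
      refine cj_eq_bot.1 (hnorm _ a2 ⟨x, ?_, hx'⟩ fun c => hmaxM.1 (top_le_iff.1 (c.ge.trans h3)))
      rw [← cj_N]; exact cj_mono g nH hx
    rw [h5, bot_sup_eq] at h1
    exact hNM g hg (eq_of_le_of_card_ge (h1.trans inf_le_right) (card_cj g M).le).symm
  obtain ⟨K, h1, -, h2, h3⟩ := H6.exists_normal_of_TI M H hHM (fun h hh x hx => conj_mem_of_N (nH hh) hx)
    fun g hg x hx hx' => h g⁻¹ (by rwa [inv_mem_iff]) ⟨hx, mem_cj.2 (by rwa [inv_inv])⟩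
  rcases h1.eq_bot_or_eq_top with c | c
  · rw [c, bot_sup_eq] at h3; exact hmaxM.1 h3
  · rw [c, top_inf_eq] at h2; exact hMH h2.le

end Cfsg.Agent.S3015
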