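import Cfsg.Statements.S3021
import Mathlib
import Cfsg.Agent.H4.AG

set_option autoImplicit false
open Cfsg

namespace Cfsg.Agent.S3021

/-- Let G be a finite group, p a prime and H a p-subgroup of G that is extremely closed (for every g, the subgroup generated by H and g H g⁻¹ meets N_G(H) exactly in H). Then every p-subgroup Q of G containing H has N_G(Q) ≤ N_G(H); in particular every Sylow p-subgroup P of G containing H normalizes H, and H is strongly closed in P with respect to G. -/
theorem result {G : Type*} [Group G] [Finite G] {p : ℕ} [Fact p.Prime] (H : Subgroup G) (hHp : IsPGroup p H) (hcl : Cfsg.IsExtremelyClosed H) : (∀ Q : Subgroup G, IsPGroup p Q → H ≤ Q → Subgroup.normalizer (Q : Set G) ≤ Subgroup.normalizer (H : Set G)) ∧ ∀ P : Sylow p G, H ≤ (P : Subgroup G) → (P : Subgroup G) ≤ Subgroup.normalizer (H : Set G) ∧ Cfsg.IsStronglyClosed H (P : Subgroup G) := by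
  open Subgroup Cfsg.Agent.H18 Cfsg.Agent.H22 Cfsg.Agent.H4 in
  have key : ∀ Q : Subgroup G, IsPGroup p Q → H ≤ Q → N[Q] ≤ N[H] := by
    intro Q hQ h g hg
    have := pgrp_eq_of_inf_N_le (hQ.to_le (sup_le h (cj_le_of_mem_N hg h))) le_sup_left (hcl g).le
    exact mem_N_of_cj_le (le_sup_right.trans this.ge)
  refine ⟨key, fun P h => ⟨le_normalizer.trans (key _ P.isPGroup' h), h, fun x hx g hg => ?_⟩⟩
  exact (hcl g).le ⟨mem_sup_right (conj_mem_cj hx), key _ P.isPGroup' h (le_normalizer hg)⟩

end Cfsg.Agent.S3021
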