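import Cfsg.Statements.S3025
import Mathlib
import Cfsg.Agent.S0016
import Cfsg.Agent.FT.Nil

set_option autoImplicit false
open Cfsg

namespace Cfsg.Agent.S3025

/-- Let F be a finite group and H a nontrivial subgroup of F that is contained in every nontrivial subgroup of F which H normalizes. Then F has a nontrivial normal subgroup N contained in every nontrivial normal subgroup of F (a unique minimal normal subgroup), N is simple, and one of the following holds: C_F(N) = 1; or H = N has prime order p, C_F(N) is cyclic of order a power of p, and F/C_F(N) is cyclic of order dividing p − 1; or H = N has order 2, N is central in F, and F is a generalized quaternion group. -/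
theorem result {F : Type*} [Group F] [Finite F] (H : Subgroup F) (hH : H ≠ ⊥)
    (hmin : ∀ R : Subgroup F, R ≠ ⊥ → H ≤ Subgroup.normalizer (R : Set F) → H ≤ R) :
    ∃ N : Subgroup F, N.Normal ∧ N ≠ ⊥ ∧ (∀ M : Subgroup F, M.Normal → M ≠ ⊥ → N ≤ M) ∧ IsSimpleGroup ↥N ∧
      (Subgroup.centralizer (N : Set F) = ⊥ ∨
       (H = N ∧ (Nat.card N).Prime ∧ IsCyclic ↥(Subgroup.centralizer (N : Set F)) ∧
          (∃ k : ℕ, 1 ≤ k ∧ Nat.card ↥(Subgroup.centralizer (N : Set F)) = Nat.card N ^ k) ∧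
          (∃ g : F, Subgroup.centralizer (N : Set F) ⊔ Subgroup.zpowers g = ⊤) ∧
          (Subgroup.centralizer (N : Set F)).index ∣ Nat.card N - 1) ∨
       (H = N ∧ Nat.card N = 2 ∧ Subgroup.centralizer (N : Set F) = ⊤ ∧
          ∃ k : ℕ, 1 ≤ k ∧ Nonempty (F ≃* QuaternionGroup (2 ^ k)))) := by
  open Subgroup Cfsg.Agent.FT in
  open scoped commutatorElement Pointwise in
  obtain ⟨N, -, hN⟩ := exists_minNml (M := ⊤) (ne_bot_of_le (le_top : H ≤ ⊤) hH) (le_nrm ⊤)
  have nN : N.Normal := nml_top_iff.1 ⟨le_top, hN.nrm⟩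
  have hm : ∀ M : Subgroup F, M.Normal → M ≠ ⊥ → H ≤ M := fun M hM h => hmin M h (le_top.trans (nml_top_iff.2 hM).nrm)
  have HN := hm N nN hN.ne
  have h1 : ∀ M : Subgroup F, M.Normal → M ≠ ⊥ → N ≤ M := fun M hM h =>
    hN.le_of_inf_ne (nml_top_iff.2 hM).nrm (ne_bot_of_le (le_inf HN (hm M hM h)) hH)
  have hs : IsSimpleGroup N := by
    haveI := (nontrivial_iff_ne_bot N).2 hN.ne
    refine ⟨fun M hM => or_iff_not_imp_left.2 fun h => ?_⟩
    have n1 := nml_map_subtype M
    have : N ≤ (M.map N.subtype).normalCore := h1 _ inferInstance (ne_bot_of_le (fun x hx g => by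
      have := hmin (cj g⁻¹ (M.map N.subtype)) (fun e => h ((map_eq_bot_iff_of_injective _ N.subtype_injective).1 (cj_eq_bot.1 e)))
        (HN.trans (by have := (n1.cj g⁻¹).nrm; rwa [cj_of_mem_nrm (hN.nrm (mem_top _))] at this)) hx
      rwa [mem_cj, inv_inv] at this) hH)
    exact map_injective N.subtype_injective (by rw [map_subtype_top]; exact le_antisymm n1.le (this.trans (normalCore_le _)))
  refine ⟨N, nN, hN.ne, h1, hs, or_iff_not_imp_left.2 fun hc => ?_⟩
  have hab : Ab N := ab_iff.2 (h1 _ inferInstance hc)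
  have hp : (Nat.card N).Prime := by
    letI : CommGroup N := { (inferInstance : Group N) with mul_comm := hab.is_comm.comm }
    exact IsSimpleGroup.prime_card
  haveI := Fact.mk hp
  have e : H = N := eq_of_le_prime hp HN hH
  have h2 : ∀ R, R ≤ C(N) → R ≠ ⊥ → N ≤ R := fun R hR h => e ▸ hmin R h (e ▸ cents_norm (centsC hR))
  have h3 : PGrp (Nat.card N) C(N) := fun q hq hd => by
    obtain ⟨X, hX, cX⟩ := exists_card_prime_le hq hd
    exact ((Nat.prime_dvd_prime_iff_eq hp hq).1 (cX ▸ card_dvd (h2 X hX (ne_bot_of_prime_card (cX ▸ hq))))).symm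
  haveI : IsCyclic N := isCyclic_of_prime_card rfl
  have k : (MulAut.conjNormal : F →* MulAut N).ker = C(N) := by
    ext g
    rw [MonoidHom.mem_ker, mem_cen, MulEquiv.ext_iff]
    simp only [Subtype.ext_iff, MulAut.conjNormal_apply, MulAut.one_apply, mul_inv_eq_iff_eq_mul, Subtype.forall]
    exact forall₂_congr fun _ _ => eq_comm
  have h4 : C(N).index ∣ Nat.card N - 1 := by
    rw [← k, index_ker, ← Nat.totient_prime hp, ← IsCyclic.card_mulAut]
    exact card_subgroup_dvd_card _
  have h5 : ∃ g : F, C(N) ⊔ zpowers g = ⊤ := by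
    haveI : IsCyclic (ZMod (Nat.card N))ˣ := inferInstance
    haveI : IsCyclic (MulAut N) := isCyclic_of_surjective (IsCyclic.mulAutMulEquiv N).symm.toMonoidHom (IsCyclic.mulAutMulEquiv N).symm.surjective
    obtain ⟨x, hx⟩ := cyc_iff.1 (inferInstance : IsCyclic (MulAut.conjNormal : F →* MulAut N).range)
    obtain ⟨g, rfl⟩ : x ∈ (MulAut.conjNormal : F →* MulAut N).range := hx ▸ mem_zpowers x
    refine ⟨g, ?_⟩
    rw [← k, sup_comm, ← comap_map_eq, MonoidHom.map_zpowers, ← hx]
    exact eq_top_iff.2 fun y _ => ⟨y, rfl⟩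
  have h6 : IsCyclic C(N) → (H = N ∧ (Nat.card N).Prime ∧ IsCyclic C(N) ∧ (∃ k : ℕ, 1 ≤ k ∧ Nat.card C(N) = Nat.card N ^ k) ∧
      (∃ g : F, C(N) ⊔ zpowers g = ⊤) ∧ C(N).index ∣ Nat.card N - 1) := fun h => by
    obtain ⟨k, hk⟩ := h3.card
    refine ⟨e, hp, h, ⟨k, Nat.pos_of_ne_zero fun k0 => hc ?_, hk⟩, h5, h4⟩
    rw [eq_bot_iff_card', hk, k0, pow_zero]
  rcases S0016.result (Nat.card N) h3.isPGroup (fun A B hA hB => by
    have : ∀ A : Subgroup C(N), Nat.card A = Nat.card N → A.map C(N).subtype = N := fun A hA => by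
      have c := card_map_inj C(N).subtype_injective A
      exact (eq_of_card_eq (h2 _ (map_subtype_le _) (ne_bot_of_prime_card (by rwa [c, hA]))) (by rw [c, hA])).symm
    exact map_injective C(N).subtype_injective ((this A hA).trans (this B hB).symm)) with h | ⟨p2, n, ⟨f⟩⟩
  · exact Or.inl (h6 h)
  rcases n.eq_zero_or_pos with rfl | hn
  · haveI : IsCyclic (QuaternionGroup (2 ^ 0)) := QuaternionGroup.quaternionGroup_one_isCyclic
    exact Or.inl (h6 (isCyclic_of_surjective f.symm.toMonoidHom f.symm.surjective))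
  rw [p2] at h4
  have t := index_eq_one.1 (Nat.dvd_one.1 h4)
  exact Or.inr ⟨e, p2, t, n, hn, ⟨(topEquiv.symm.trans (MulEquiv.subgroupCongr t.symm)).trans f⟩⟩

end Cfsg.Agent.S3025
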