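import Cfsg.Statements.S3027
import Mathlib
import Cfsg.Agent.H2.Balance3

set_option autoImplicit false
open Cfsg

namespace Cfsg.Agent.S3027

open Cfsg.Agent.FT Subgroup
open scoped commutatorElement

/-- Let G be a finite group and D a normal subgroup of G such that G/D is perfect (that is, G = G′D). Then among the subnormal subgroups B of G with BD = G there is a least one, and it is normal in G. -/
theorem result {G : Type*} [Group G] [Finite G] (D : Subgroup G) [D.Normal] (hperf : ⁅(⊤ : Subgroup G), (⊤ : Subgroup G)⁆ ⊔ D = ⊤) :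
    ∃ B : Subgroup G, B.Normal ∧ B ⊔ D = ⊤ ∧ ∀ B' : Subgroup G, B'.IsSubnormal → B' ⊔ D = ⊤ → B ≤ B' := by
  have key : ∀ X : Subgroup G, X ⊔ D = ⊤ ↔ X.map (QuotientGroup.mk' D) = ⊤ := fun X => by
    constructor
    · intro h
      rw [← map_mk'_top D, ← h, Subgroup.map_sup, (map_eq_bot_iff D).2 (QuotientGroup.ker_mk' D).ge, sup_bot_eq]
    · intro h
      have := comap_map_eq (QuotientGroup.mk' D) X
      rw [h, comap_top, QuotientGroup.ker_mk'] at this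
      exact this.symm
  have hc : ∀ X Y : Subgroup G, X ⊔ D = ⊤ → Y ⊔ D = ⊤ → ⁅X, Y⁆ ⊔ D = ⊤ := fun X Y h1 h2 => by
    rw [key] at h1 h2 hperf ⊢
    rw [map_commutator] at hperf ⊢
    rw [h1, h2]; rwa [map_mk'_top] at hperf
  obtain ⟨B, -, ⟨hB, hs⟩, hm⟩ := exists_min (fun B : Subgroup G => B ⊴ ⊤ ∧ B ⊔ D = ⊤) (A := ⊤)
    ⟨Nml.refl _, top_sup_eq D⟩
  have h1 : ∀ N, N ⊴ B → N ⊔ D = ⊤ → N = B := fun N hN hN' => by
    obtain ⟨C, hle, ⟨hC, hs'⟩, hm'⟩ := exists_min (fun C : Subgroup G => C ⊴ B ∧ C ⊔ D = ⊤) (A := N) ⟨hN, hN'⟩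
    have h2 : C ⊴ ⊤ := ⟨le_top, fun g _ => by
      have h3 : cj g⁻¹ C ⊴ B := by have := hC.cj g⁻¹; rwa [cj_of_mem_nrm (hB.nrm trivial)] at this
      have h4 : cj g⁻¹ C ⊔ D = ⊤ := by
        rw [← cj_of_mem_nrm ((nml_top_iff.2 ‹D.Normal›).nrm (mem_top g⁻¹)), ← cj_sup, hs', cj_top]
      have h5 := hm' _ ⟨hC.comm h3, hc _ _ hs' h4⟩ (comm_le_left (h3.le.trans hC.nrm))
      exact mem_nrm_of_cj_le (cj_le_iff.2 (h5.ge.trans (comm_le_right (hC.le.trans h3.nrm))))⟩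
    exact le_antisymm hN.le ((hm C ⟨h2, hs'⟩ hC.le).ge.trans hle)
  refine ⟨B, nml_top_iff.1 hB, hs, fun B' hB' => ?_⟩
  refine (subn_top.2 hB').ind_down (P := fun X => X ⊔ D = ⊤ → B ≤ X) (fun _ => le_top) fun X Y hX _ ih h2 => ?_
  have h3 : B ≤ Y := ih (top_le_iff.1 (h2.ge.trans (sup_le_sup_right hX.le D)))
  have h4 : ⁅X, B⁆ ≤ B ⊓ X := le_inf (comm_le_right (le_top.trans hB.nrm)) (comm_le_left (h3.trans hX.nrm))
  have h5 := h1 _ (nml_inf_of_norms (h3.trans hX.nrm)) (top_le_iff.1 ((hc _ _ h2 hs).ge.trans (sup_le_sup_right h4 D)))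
  exact h5.ge.trans inf_le_right

end Cfsg.Agent.S3027
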