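import Cfsg.Statements.S3028
import Mathlib
import Cfsg.Agent.H2.Balance3

set_option autoImplicit false
open Cfsg

namespace Cfsg.Agent.S3028

open Cfsg.Agent.FT Subgroup
open scoped commutatorElement

theorem mn_norms {G : Type*} [Group G] [Finite G] {N J A : Subgroup G} (h : MinNml N J) (hle : N ≤ J) (hA : Subn A J) :
    N ≤ N(A) := by
  have h1 : Cfsg.Agent.H2.IsMinNormal (N.subgroupOf J) :=
    ⟨Nml.normal ⟨hle, h.nrm⟩, fun e => h.ne ((so_eq_bot hle).1 e), fun K hK hKN => by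
      refine (h.eq_bot_or_eq (K := K.map J.subtype) ((map_mono hKN).trans (map_so hle).le)
        (nml_map_subtype K).nrm).imp (fun e => ?_) fun e => ?_
      · exact (map_eq_bot_iff_of_injective _ J.subtype_injective).1 e
      · rw [← e, so_map]⟩
  have h2 := h1.le_normalizer_of_isSubnormal hA.subn
  rw [← so_nrm hA.le, so_le_so' hle] at h2
  exact h2

theorem quo_syl {G : Type*} [Group G] [Finite G] {p : ℕ} {S A J X : Subgroup G} (hS : Syl p S J) (hA : Subn A J)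
    (hX : J ≤ N(X)) : (S /ₛ X) ⊓ (A /ₛ X) = (S ⊓ A) /ₛ X :=
  ((hS.inf_subn hA).quo (hA.le.trans hX)).max ((hS.pi.quo X).inf_left _) (quo_inf_le X S A) inf_le_right

theorem nml_case {G : Type*} [Group G] [Finite G] {p : ℕ} {S X Y : Subgroup G} (hS : Syl p S (X ⊔ Y))
    (hY : Subn Y (X ⊔ Y)) (hn : Y ≤ N(X)) : S ≤ (S ⊓ X) ⊔ (S ⊓ Y) := by
  have hX := (nml_sup_left hn).nrm
  have h1 : S /ₛ X ≤ (S ⊓ Y) /ₛ X := by
    rw [← quo_syl hS hY hX]
    exact le_inf le_rfl ((quo_mono X hS.le).trans (quo_sup_left hn).le)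
  rw [quo_le_quo (hS.le.trans hX) (inf_le_right.trans hn)] at h1
  rw [← inf_sup_right (inf_le_right.trans hn) inf_le_left]
  exact le_inf le_rfl h1

theorem main.{u} {p : ℕ} (n : ℕ) : ∀ {G : Type u} [Group G] [Finite G] (S A B : Subgroup G), #(A ⊔ B) = n →
    Subn A (A ⊔ B) → Subn B (A ⊔ B) → Syl p S (A ⊔ B) → S ≤ (S ⊓ A) ⊔ (S ⊓ B) := by
  induction n using Nat.strong_induction_on with
  | _ n ih =>
  intro G _ _ S A B hn hA hB hS
  by_cases hab : ⁅A ⊔ B, A ⊔ B⁆ = ⊥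
  · exact nml_case hS hB (le_sup_right.trans ((ab_iff_der.2 hab).norms le_sup_left))
  obtain ⟨N, hle, hN⟩ := exists_minNml hab (der_nml (A ⊔ B)).nrm
  have hJ : N ⊴ A ⊔ B := ⟨hle.trans (der_le _), hN.nrm⟩
  have hAN : A ≤ N(N) := le_sup_left.trans hJ.nrm
  have hBN : B ≤ N(N) := le_sup_right.trans hJ.nrm
  have hT : (S ⊓ A) ⊔ (S ⊓ B) ≤ S := sup_le inf_le_left inf_le_left
  have hq := quo_sup hAN hBN
  have h1 := ih _ (by rw [← hn, ← hq]; exact card_quo_lt hJ hN.ne) (S /ₛ N) (A /ₛ N) (B /ₛ N) rfl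
    (hq ▸ hA.quo hJ.nrm) (hq ▸ hB.quo hJ.nrm) (hq ▸ hS.quo hJ.nrm)
  rw [quo_syl hS hA hJ.nrm, quo_syl hS hB hJ.nrm, ← quo_sup (inf_le_right.trans hAN) (inf_le_right.trans hBN),
    quo_le_quo (hS.le.trans hJ.nrm) (hT.trans (hS.le.trans hJ.nrm))] at h1
  have h2 : S = (S ⊓ N) ⊔ ((S ⊓ A) ⊔ (S ⊓ B)) := by
    rw [← inf_sup_right (hT.trans (hS.le.trans hJ.nrm)) hT]; exact (inf_eq_left.2 h1).symm
  suffices h : S ⊓ N ≤ (S ⊓ A) ⊔ (S ⊓ B) from h2.le.trans (sup_le h le_rfl)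
  have hNA := mn_norms hN hJ.le hA
  have hNB := mn_norms hN hJ.le hB
  have h0 : (N ⊓ A) ⊔ (N ⊓ B) ≤ N := sup_le inf_le_left inf_le_left
  have c1 : ⁅N, A⁆ ≤ (N ⊓ A) ⊔ (N ⊓ B) := le_sup_of_le_left (comm_le_inf hAN hNA)
  have c2 : ⁅N, B⁆ ≤ (N ⊓ A) ⊔ (N ⊓ B) := le_sup_of_le_right (comm_le_inf hBN hNB)
  have hn0 : A ⊔ B ≤ N((N ⊓ A) ⊔ (N ⊓ B)) := sup_le (norms_of_comm_le_of_le c1 h0) (norms_of_comm_le_of_le c2 h0)
  rcases hN.eq_bot_or_eq h0 hn0 with e | e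
  · have hc : N ≤ C(A ⊔ B) := centsY (comm_eq_bot.1 (eq_bot_of_le c1 e)) (comm_eq_bot.1 (eq_bot_of_le c2 e))
    have h3 : S ⊓ N ≤ ⁅S, S⁆ := (le_inf (inf_le_inf le_rfl hle) (inf_le_right.trans hc)).trans hS.isHall.inf_der_center
    have h4 : CP (S ⊓ N) ((S ⊓ A) ⊔ (S ⊓ B)) S :=
      ⟨centsC (centsS (hT.trans hS.le) (inf_le_right.trans hc)), h2.symm⟩
    rw [h4.der, comm_eq_bot.2 (centsS (inf_le_left.trans hS.le) (inf_le_right.trans hc)), bot_sup_eq] at h3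
    exact h3.trans (der_le _)
  · have h3 : Syl p (S ⊓ N) ((N ⊓ A) ⊔ (N ⊓ B)) := by rw [e]; exact hS.inf_nml hJ
    refine (nml_case h3 (by rw [e]; exact (nml_inf_of_norms hNB).subn)
      (inf_le_left.trans (nml_inf_of_norms hNA).nrm)).trans (sup_le_sup ?_ ?_)
    · exact inf_le_inf inf_le_left inf_le_right
    · exact inf_le_inf inf_le_left inf_le_right

/-- Let G be a finite group, p a prime, S a Sylow p-subgroup of G and A₁, A₂ subnormal subgroups of G. Then the join of S ∩ A₁ and S ∩ A₂ is a Sylow p-subgroup of the join of A₁ and A₂; equivalently ⟨A₁, A₂⟩ ∩ S = ⟨A₁ ∩ S, A₂ ∩ S⟩. -/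
theorem result {G : Type*} [Group G] [Finite G] {p : ℕ} [Fact p.Prime] (S : Sylow p G) (A₁ A₂ : Subgroup G)
    (h₁ : A₁.IsSubnormal) (h₂ : A₂.IsSubnormal) :
    (A₁ ⊔ A₂) ⊓ (S : Subgroup G) = (A₁ ⊓ (S : Subgroup G)) ⊔ (A₂ ⊓ (S : Subgroup G)) := by
  have hp : p.Prime := Fact.out
  have hJ : Subn (A₁ ⊔ A₂) ⊤ := (subn_top.2 h₁).sup (subn_top.2 h₂)
  refine le_antisymm ?_ (sup_le (inf_le_inf_right _ le_sup_left) (inf_le_inf_right _ le_sup_right))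
  rw [inf_comm]
  refine (main _ _ A₁ A₂ rfl ((subn_top.2 h₁).mono le_sup_left le_top) ((subn_top.2 h₂).mono le_sup_right le_top)
    ((syl_top hp S).inf_subn hJ)).trans (sup_le_sup ?_ ?_)
  · exact le_inf inf_le_right (inf_le_left.trans inf_le_left)
  · exact le_inf inf_le_right (inf_le_left.trans inf_le_left)

end Cfsg.Agent.S3028
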