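import Cfsg.Statements.S3044
import Cfsg.Agent.H22.Iso

set_option autoImplicit false
open Cfsg

namespace Cfsg.Agent.S3044

open Cfsg.Agent.FT Cfsg.Agent.P22

/-- Let G be a finite group, p a prime, S a Sylow p-subgroup of G and P a p-minimal subgroup of G containing S (S is not normal in P and lies in exactly one maximal subgroup of P). Let L be the subgroup generated by N_G(S) and all p-minimal subgroups of G containing S other than P, and suppose P is isolated: O_p(L) is not contained in O_p(P). Put Y for the normal closure of O^p(P) in G. Then G = YL; P is again isolated in the subgroup YS (the subgroup L₀ generated by N_{YS}(S) and the p-minimal subgroups of YS containing S other than P has O_p(L₀) not contained in O_p(P)); and either Y = O^p(P), or p divides |Y/O_p(Y)|, Y/O_p(Y) is generated by its components (a central product of quasisimple groups), and S permutes these components transitively by conjugation. -/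
theorem result {G : Type*} [Group G] [Finite G] {p : ℕ} [Fact p.Prime] (S : Sylow p G) (P : Subgroup G) (hSP : (S : Subgroup G) ≤ P) (hPmin : Cfsg.IsPMinimal p ↥P)
    (L Y : Subgroup G)
    (hL : L = Subgroup.normalizer ((S : Subgroup G) : Set G) ⊔ ⨆ P' : {P' : Subgroup G // (S : Subgroup G) ≤ P' ∧ Cfsg.IsPMinimal p ↥P' ∧ P' ≠ P}, (P' : Subgroup G))
    (hiso : ¬ (Cfsg.pCore p ↥L).map L.subtype ≤ (Cfsg.pCore p ↥P).map P.subtype)
    (hY : Y = Subgroup.normalClosure (((Cfsg.pResidual p ↥P).map P.subtype : Subgroup G) : Set G)) :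
    Y ⊔ L = ⊤ ∧
    ¬ (Cfsg.pCore p ↥((Subgroup.normalizer ((S : Subgroup G) : Set G) ⊓ (Y ⊔ (S : Subgroup G))) ⊔
          ⨆ P' : {P' : Subgroup G // (S : Subgroup G) ≤ P' ∧ P' ≤ Y ⊔ (S : Subgroup G) ∧ Cfsg.IsPMinimal p ↥P' ∧ P' ≠ P}, (P' : Subgroup G))).map
        (Subgroup.subtype _) ≤ (Cfsg.pCore p ↥P).map P.subtype ∧
    ((Cfsg.pResidual p ↥P).map P.subtype = Y ∨
     ∃ _ : (Cfsg.pCore p ↥Y).Normal,
       p ∣ Nat.card (↥Y ⧸ Cfsg.pCore p ↥Y) ∧ Cfsg.layer (↥Y ⧸ Cfsg.pCore p ↥Y) = ⊤ ∧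
       ∀ K₁ K₂ : Subgroup (↥Y ⧸ Cfsg.pCore p ↥Y), Cfsg.IsComponent K₁ → Cfsg.IsComponent K₂ →
         ∃ s ∈ (S : Subgroup G), ((K₂.comap (QuotientGroup.mk' (Cfsg.pCore p ↥Y))).map Y.subtype) = (((K₁.comap (QuotientGroup.mk' (Cfsg.pCore p ↥Y))).map Y.subtype)).map (MulAut.conj s).toMonoidHom) := by
  have hp : p.Prime := Fact.out
  rw [← pcore_singleton hp, ← pcore_singleton hp] at hiso ⊢
  rw [pResidual_map hp] at hY ⊢
  have h := hY ▸ isol_of S hSP hL hiso
  obtain ⟨k, o⟩ := h.quo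
  refine ⟨top_le_iff.1 (h.gen.trans (sup_le_sup_right h.eY _)), fun e => hiso (le_trans (pcore_le_pcore
    (h.qS.trans (le_sup_of_le_left (le_inf (le_nrm _) le_sup_right))) (le_trans ?_ (le_nrm L))) e), ?_⟩
  · exact hL ▸ sup_le (le_sup_of_le_left inf_le_left) (iSup_le fun P' => le_sup_of_le_right
      (le_iSup_of_le ⟨P'.1, P'.2.1, P'.2.2.2⟩ le_rfl))
  by_cases c : PiGrp {p}ᶜ (Y.map (QuotientGroup.mk' (pCore p G)))
  · obtain ⟨t, ht, ne, hT⟩ := k.pGrp o c
    exact .inl (h.eq_of_map (piGen_idem _ _) ((QuotientGroup.ker_mk' _).trans (pcoreTop p G).symm)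
      (pcore_le_syl (syl_top hp S)) (k.eq_of_pGrp o ht ne hT))
  obtain ⟨φ, i, e⟩ := exists_emb (p := p) h.nY
  have a := emb_top (QuotientGroup.mk'_surjective _) e
  refine .inr ⟨inferInstance, by_contra fun d => c (a ▸ (piGrp_map_inj i).2 (p'grp_of_not_dvd (by rwa [Subgroup.card_top]))),
    Subgroup.map_injective i (by rw [← lay_top, map_lay_inj i, a, k.lay_eq o c]), fun K₁ K₂ h1 h2 => ?_⟩
  have m : ∀ {K : Subgroup (Y ⧸ pCore p Y)}, IsComponent K → Comp (K.map φ) (Y.map (QuotientGroup.mk' _)) := fun hK =>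
    a ▸ (comp_top.2 hK).map φ fun z => (comp_top.2 hK).ne ((Subgroup.map_eq_bot_iff_of_injective _ i).1 z)
  have u : ∀ K : Subgroup (Y ⧸ pCore p Y), (K.comap (QuotientGroup.mk' _)).map Y.subtype =
      Y ⊓ (K.map φ).comap (QuotientGroup.mk' _) := fun K => by
    rw [← Subgroup.comap_map_eq_self_of_injective i K, Subgroup.comap_comap, e, ← Subgroup.comap_comap,
      Subgroup.comap_map_eq_self_of_injective i K, Subgroup.map_comap_eq, Subgroup.range_subtype]
  obtain ⟨_, ⟨s, hs, rfl⟩, b⟩ := k.comp_trans o c (m h1) (m h2)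
  refine ⟨s, hs, ?_⟩
  rw [u, u, ← cj_def, cj_inf, cj_of_mem_nrm (h.nY.nrm trivial), b]
  congr 1
  ext x
  simp only [Subgroup.mem_comap, mem_cj, map_mul, map_inv]

end Cfsg.Agent.S3044
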