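import Cfsg.Statements.S3045
import Cfsg.Agent.H22.Iso

set_option autoImplicit false
open Cfsg

namespace Cfsg.Agent.S3045

open Cfsg.Agent.FT Cfsg.Agent.P22

/-- Let G be a finite group, p a prime, S a Sylow p-subgroup of G and P a p-minimal subgroup of G containing S. Let L be the subgroup generated by N_G(S) and all p-minimal subgroups of G containing S other than P, and suppose O_p(L) is not contained in O_p(P). Put Y for the normal closure of O^p(P) in G. Then O^p(P) is contained in the preimage in G of F*(G/O_p(G)); and if Y is solvable, then Y = O^p(P) and Y/O_p(Y) is a t-group of nilpotency class at most 2 for some prime t ≠ p. -/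
theorem result {G : Type*} [Group G] [Finite G] {p : ℕ} [Fact p.Prime] (S : Sylow p G) (P : Subgroup G) (hSP : (S : Subgroup G) ≤ P) (hPmin : Cfsg.IsPMinimal p ↥P)
    (L Y : Subgroup G)
    (hL : L = Subgroup.normalizer ((S : Subgroup G) : Set G) ⊔ ⨆ P' : {P' : Subgroup G // (S : Subgroup G) ≤ P' ∧ Cfsg.IsPMinimal p ↥P' ∧ P' ≠ P}, (P' : Subgroup G))
    (hiso : ¬ (Cfsg.pCore p ↥L).map L.subtype ≤ (Cfsg.pCore p ↥P).map P.subtype)
    (hY : Y = Subgroup.normalClosure (((Cfsg.pResidual p ↥P).map P.subtype : Subgroup G) : Set G)) [hn : (Cfsg.pCore p G).Normal] :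
    (Cfsg.pResidual p ↥P).map P.subtype ≤ (Cfsg.generalizedFittingSubgroup (G ⧸ Cfsg.pCore p G)).comap (QuotientGroup.mk' (Cfsg.pCore p G)) ∧
    (Group.IsSolvable ↥Y → (Cfsg.pResidual p ↥P).map P.subtype = Y ∧
       ∃ _ : (Cfsg.pCore p ↥Y).Normal, ∃ t : ℕ, t.Prime ∧ t ≠ p ∧ IsPGroup t (↥Y ⧸ Cfsg.pCore p ↥Y) ∧
         ∃ _ : Group.IsNilpotent (↥Y ⧸ Cfsg.pCore p ↥Y), Group.nilpotencyClass (↥Y ⧸ Cfsg.pCore p ↥Y) ≤ 2) := by
  have hp : p.Prime := Fact.out
  rw [← pcore_singleton hp, ← pcore_singleton hp] at hiso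
  rw [pResidual_map hp] at hY ⊢
  have h := hY ▸ isol_of S hSP hL hiso
  obtain ⟨k, o⟩ := h.quo
  refine ⟨Subgroup.map_le_iff_le_comap.1 (k.eY.trans ((k.le_gfit o).trans gfit_top.le)), fun hs => ?_⟩
  obtain ⟨t, ht, ne, hT⟩ := k.pGrp o (by_contra fun e => e (by
    rw [← k.lay_eq o e, (Sol.map _ hs).lay_eq_bot]; exact piGrp_bot _))
  obtain ⟨φ, i, e⟩ := exists_emb (p := p) h.nY
  have a := emb_top (QuotientGroup.mk'_surjective _) e
  haveI := Fact.mk ht
  have b : IsPGroup t (Y ⧸ pCore p Y) := ((piGrp_map_inj i).1 (a ▸ hT)).isPGroup.of_equiv Subgroup.topEquiv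
  haveI := b.isNilpotent
  refine ⟨h.eq_of_map (piGen_idem _ _) ((QuotientGroup.ker_mk' _).trans (pcoreTop p G).symm)
    (pcore_le_syl (syl_top hp S)) (k.eq_of_pGrp o ht ne hT), inferInstance, t, ht, ne, b, inferInstance,
    Subgroup.lowerCentralSeries_eq_bot_iff_nilpotencyClass_le.1 (clsLE_two.2 ((map_cents_inj i).1 ?_))⟩
  rw [Subgroup.map_commutator, a]
  exact k.cls o hT

end Cfsg.Agent.S3045
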