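import Cfsg.Statements.S3048
import Mathlib
import Cfsg.Agent.S3012
import Cfsg.Agent.H22.PGV
import Cfsg.Agent.H2.GenFitting

set_option autoImplicit false
universe u
open Cfsg

namespace Cfsg.Agent.S3048

/-- Minimal counterexample reduction for the Sidki pair problem. Let G be a finite group and V a nontrivial elementary abelian 2-subgroup satisfying the Sidki pair condition with V ∩ O₂(G) = 1. Suppose that for every finite group H of smaller order, every nontrivial elementary abelian 2-subgroup W of H satisfying the Sidki pair condition meets O₂(H) nontrivially, and that the same holds in G for every such subgroup W of order smaller than that of V. Then the generalized Fitting subgroup F*(G) is a non-abelian simple group and G = V F*(G). -/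
theorem result {G : Type u} [Group G] [Finite G] (V : Subgroup G) (hV : Cfsg.IsElementaryAbelian 2 V) (hV1 : V ≠ ⊥) (hS : Cfsg.IsSidkiPair V) (hVO : V ⊓ Cfsg.pCore 2 G = ⊥) (hminG : ∀ (H : Type u) [Group H] [Finite H] (W : Subgroup H), Nat.card H < Nat.card G → Cfsg.IsElementaryAbelian 2 W → W ≠ ⊥ → Cfsg.IsSidkiPair W → W ⊓ Cfsg.pCore 2 H ≠ ⊥) (hminV : ∀ W : Subgroup G, Nat.card W < Nat.card V → Cfsg.IsElementaryAbelian 2 W → W ≠ ⊥ → Cfsg.IsSidkiPair W → W ⊓ Cfsg.pCore 2 G ≠ ⊥) : IsSimpleGroup ↥(Cfsg.generalizedFittingSubgroup G) ∧ ¬ IsMulCommutative ↥(Cfsg.generalizedFittingSubgroup G) ∧ V ⊔ Cfsg.generalizedFittingSubgroup G = ⊤ := by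
  open Subgroup Cfsg.Agent.FT Cfsg.Agent.P22 in
  open scoped commutatorElement Pointwise in
  open scoped commutatorElement in
  haveI : Fact (Nat.Prime 2) := ⟨Nat.prime_two⟩
  have aV : Abelem 2 V := hV
  have eb : ∀ {A B : Subgroup G}, B = ⊥ → A ≤ B → A = ⊥ := fun h h' => eq_bot_of_le h' h
  have ot : O[{2}]((⊤ : Subgroup G)) = pCore 2 G := (pcore_top _).trans (piCore_singleton Nat.prime_two)
  have two : PiNat ({2}ᶜ : Set ℕ)ᶜ 2 := by rw [compl_compl]; exact (piNat_prime Nat.prime_two).2 rfl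
  have od : ∀ x : G, Odd (orderOf x) ↔ PiElt {2}ᶜ x := fun x => by
    rw [p'elt_iff_coprime Nat.prime_two, Nat.coprime_two_right]
  have Q : ∀ K : Subgroup G, K.Normal → K ≠ ⊥ → V ⊓ K = ⊥ → ∃ w ∈ V, w ≠ 1 ∧ ∃ _ : K.Normal,
      w ∈ (pCore 2 (G ⧸ K)).comap (QuotientGroup.mk' K) := fun K hK k1 hi => by
    obtain ⟨_, ⟨⟨w, hw, rfl⟩, h1⟩, h2⟩ := exists_ne_one (hminG (G ⧸ K) (V.map (QuotientGroup.mk' K))
      (H2.card_quotient_lt_of_ne_bot k1) (aV.map _) (fun e => hV1 (by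
        rwa [Subgroup.map_eq_bot_iff, QuotientGroup.ker_mk', ← inf_eq_left, hi, eq_comm] at e)) (S3012.result V K hV hV1 hS hi))
    exact ⟨w, hw, fun e => h2 (by rw [e, map_one]), hK, h1⟩
  have O2 : O[{2}]((⊤ : Subgroup G)) = ⊥ := by
    by_contra e
    obtain ⟨w, hw, w1, _, h⟩ := Q _ (ot ▸ nml_top_iff.1 (pcore_nml _ _)) (ot ▸ e) hVO
    rw [H2.pCore_quotient_self, MonoidHom.comap_bot, QuotientGroup.ker_mk'] at h
    exact w1 (eq_one_of_mem_inf hVO hw h)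
  have O2' : ∀ K : Subgroup G, K ⊴ ⊤ → O[{2}](K) = ⊥ := fun K hK => eq_bot_of_le (pcore_mono_nml _ hK) O2
  have NS : ∀ H W : Subgroup G, W ≤ H → W ≤ V → W ≠ ⊥ → W ⊓ O[{2}](H) = ⊥ → H ≠ ⊤ ∨ W ≠ V →
      ∃ w ∈ W, ∃ h ∈ H, PiElt {2}ᶜ h ∧ w * h * w⁻¹ = h⁻¹ ∧ W ⊓ C[h] = ⊥ := fun H W h1 h2 h3 h4 h5 => by
    by_contra! hc
    have s : IsSidkiPair (W.subgroupOf H) := fun h v hv o e => by
      obtain ⟨w, hw, w1⟩ := exists_ne_one (hc v hv h h.2 ((od _).1 (by rwa [orderOf_coe])) (congrArg Subtype.val e))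
      exact ⟨⟨w, h1 hw.1⟩, hw.1, fun e => w1 (congrArg Subtype.val e), Subtype.ext (mem_cen1.1 hw.2)⟩
    by_cases e : H = ⊤
    · subst e
      refine hminV W (card_lt (h2.lt_of_ne (h5.resolve_left (not_not.2 rfl)))) (aV.mono h2) h3 (fun h v hv o e => ?_) (ot ▸ h4)
      obtain ⟨w, hw, w1⟩ := exists_ne_one (hc v hv h trivial ((od _).1 o) e)
      exact ⟨w, hw.1, w1, mem_cen1.1 hw.2⟩
    · refine hminG H _ (by rw [← card_top' (G := G)]; exact card_lt (lt_top_iff_ne_top.2 e)) ((aV.mono h2).so h1)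
        (fun e => h3 ((so_eq_bot h1).1 e)) s ?_
      rw [← piCore_singleton Nat.prime_two, ← pcore_subgroupOf, ← so_inf, h4, bot_subgroupOf]
  have SD : ∀ v ∈ V, ∀ h, PiElt {2}ᶜ h → v * h * v⁻¹ = h⁻¹ → V ⊓ C[h] ≠ ⊥ := fun v hv h o e => by
    obtain ⟨w, hw, w1, e⟩ := hS h v hv ((od _).2 o) e
    exact ne_bot_of_mem (mem_inf.2 ⟨hw, mem_cen1.2 e⟩) w1
  have odm : ∀ K W : Subgroup G, W ≤ V → W ≤ N(K) → ∀ h ∈ K ⊔ W, PiElt {2}ᶜ h → h ∈ K := fun K W h1 h2 h hh o =>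
    o.mem_of_relIndex hh (sup_le (le_nrm K) h2) (by
      rw [compl_compl, relIndex_sup_norm h2]; exact ((aV.pGrp Nat.prime_two).mono h1).relIndex K)
  have cO : ∀ K W : Subgroup G, W ≤ N(K) → O[{2}](K) = ⊥ → W ⊓ O[{2}](K ⊔ W) ≤ C(K) := fun K W h1 h2 =>
    inf_le_right.trans (cents_of_norms_of_inf (le_sup_left.trans (pcore_nrm _ _))
      ((pcore_le _ _).trans (sup_le (le_nrm K) h1)) (by rw [pcore_inf_nml _ (nml_sup_left h1), h2]))
  obtain ⟨K, -, hK⟩ := exists_minNml (M := ⊤) (ne_bot_of_le (le_top : V ≤ ⊤) hV1) (le_nrm ⊤)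
  have nK : K ⊴ ⊤ := ⟨le_top, hK.nrm⟩
  have nK' : ∀ X : Subgroup G, X ≤ N(K) := fun X => le_top.trans hK.nrm
  have inv1 : ∀ x : G, PiElt {2}ᶜ x → x = x⁻¹ → x = 1 := fun x o e =>
    (pElt_of_pow_eq_one Nat.prime_two (by rw [sq]; nth_rewrite 1 [e]; exact inv_mul_cancel x)).eq_one o
  have Z1 : C(K) ≠ ⊤ := fun e => by
    have kc : K ≤ C(⊤) := centsC e.ge
    obtain ⟨w, hw, w1, _, h⟩ := Q K (nml_top_iff.1 nK) hK.ne (eq_bot_of_le (pcore_max ((aV.pGrp Nat.prime_two).inf_left K)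
      ⟨le_top, cents_norm (centsC (inf_le_right.trans kc))⟩) O2)
    obtain ⟨x, x1, x2, x3⟩ := H27.exists_odd_inverted (aV.pow hw) fun e => w1 (eq_one_of_mem_inf hVO hw e)
    haveI := H2.pCore_characteristic (p := 2) (G := G ⧸ K)
    have m : x ^ 2 ∈ (pCore 2 (G ⧸ K)).comap (QuotientGroup.mk' K) := by
      have e : x ^ 2 = x * w * x⁻¹ * w⁻¹ := by
        calc _ = x * (w * x * w⁻¹)⁻¹ := by rw [x3, sq, inv_inv]
          _ = _ := by group
      rw [e]; exact mul_mem (Normal.conj_mem inferInstance _ h _) (inv_mem h)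
    obtain ⟨k, hk⟩ := H2.pCore_isPGroup (p := 2) (G := G ⧸ K) ⟨_, m⟩
    have m2 : (x ^ 2) ^ 2 ^ k ∈ K := by
      rw [← QuotientGroup.eq_one_iff, ← QuotientGroup.mk'_apply, map_pow]; exact congrArg Subtype.val hk
    have m3 := ((od _).1 x2).mem_of_pow_mem two ((((od _).1 x2).pow 2).mem_of_pow_mem (two.pow k) m2)
    rw [mem_cen.1 (kc m3) w trivial, mul_inv_cancel_right] at x3
    exact x1 (inv1 x ((od _).1 x2) x3)
  have A1 : V ⊓ C(K) = ⊥ := by
    by_contra hA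
    obtain ⟨a, ha, y, hy, oy, ey, cy⟩ := NS C(K) _ inf_le_right inf_le_left hA
      (by rw [O2' _ ⟨le_top, norms_cent hK.nrm⟩, inf_bot_eq]) (Or.inl Z1)
    have aY : a ∉ C[y] := fun e => hA (by
      rw [eq_one_of_mem_inf cy ha e, one_mul, inv_one, mul_one] at ey
      rwa [inv1 y oy ey, cen1_one, inf_top_eq] at cy)
    obtain ⟨u, hu, x, hx, ox, ex, cx⟩ := NS (K ⊔ V ⊓ C[y]) _ le_sup_right inf_le_left (SD a ha.1 y oy ey)
      (eb cy fun z hz => ⟨⟨hz.1.1, cO K _ (nK' _) (O2' K nK) hz⟩, hz.1.2⟩)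
      (Or.inr fun e => aY (e.ge ha.1).2)
    have xK := odm K _ inf_le_left (nK' _) x hx ox
    have xy : x * y = y * x := mem_cen.1 hy x xK
    have ax : a * x * a⁻¹ = x := by rw [← mem_cen.1 ha.2 x xK, mul_inv_cancel_right]
    have uy : u * y * u⁻¹ = y := by rw [mem_cen1.1 hu.2, mul_inv_cancel_right]
    refine SD _ (mul_mem ha.1 hu.1) (x * y) (ox.mul oy xy) ?_ (eb cx fun w hw => ?_)
    · calc _ = (a * (u * x * u⁻¹)⁻¹ * a⁻¹)⁻¹ * (a * (u * y * u⁻¹) * a⁻¹) := by group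
        _ = _ := by rw [ex, uy, inv_inv, ax, ey, xy, mul_inv_rev]
    · have h5 : x * y ∈ C[w] := cen1_comm.1 hw.2
      have h6 : a ∈ C[w] := aV.ab.le_cen1 hw.1 ha.1
      have h7 := mul_mem (mul_mem h6 h5) (inv_mem h6)
      rw [show a * (x * y) * a⁻¹ = a * x * a⁻¹ * (a * y * a⁻¹) by group, ax, ey] at h7
      have h8 := mul_mem (inv_mem h7) h5
      rw [show (x * y⁻¹)⁻¹ * (x * y) = y ^ 2 by rw [sq]; group] at h8
      have h9 := oy.mem_of_pow_mem two h8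
      exact ⟨⟨hw.1, cen1_comm.1 h9⟩, cen1_comm.1 ((mul_mem_cancel_right h9).1 h5)⟩
  have G1 : K ⊔ V = ⊤ := by
    by_contra e
    obtain ⟨v, hv, h, -, o, e1, e2⟩ := NS (K ⊔ V) V le_sup_right le_rfl hV1
      (eq_bot_of_le (le_inf inf_le_left (cO K V (nK' _) (O2' K nK))) A1) (Or.inl e)
    exact SD v hv h o e1 e2
  have ns : ¬ Ab K := fun ab => by
    have fp : ∀ w ∈ V, w ≠ 1 → K ⊓ C[w] = ⊥ := fun w hw w1 => (hK.eq_bot_or_eq inf_le_left (G1 ▸ sup_le (ab.norms inf_le_left)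
      (normsI (nK' _) (norms_cen1 (aV.ab.le_cen1 hw))))).resolve_right fun e =>
        w1 (eq_one_of_mem_inf A1 hw (le_cen1.1 (inf_eq_left.1 e)))
    obtain ⟨w, hw, w1⟩ := exists_ne_one hV1
    obtain ⟨h, hh, h1⟩ := exists_ne_one hK.ne
    have m : w * h * w⁻¹ ∈ K := conj_mem (nK' _ hw) hh
    have e : h * (w * h * w⁻¹) = 1 := eq_one_of_mem_inf (fp w hw w1) (mul_mem hh m) (mem_cen1.2 (by
      calc _ = h * (w * h * w⁻¹) * w ^ 2 * w⁻¹ := by rw [sq]; group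
        _ = w * h * w⁻¹ * h * w⁻¹ := by rw [aV.pow hw, mul_one, ab.comm hh m]
        _ = w * h * (w ^ 2)⁻¹ * w * h * w⁻¹ := by rw [sq]; group
        _ = _ := by rw [aV.pow hw]; group))
    have oh : PiElt {2}ᶜ h := by
      have : constt {2} h = 1 := eq_one_of_mem_inf (inf_bot_eq (⊤ : Subgroup G)) trivial
        (O2' K nK ▸ ab.nil.mem_pcore (constt_mem _ hh) (piElt_constt _ _))
      exact constt_eq_one_iff.1 this
    obtain ⟨z, hz, z1⟩ := exists_ne_one (SD w hw h oh (eq_inv_of_mul_eq_one_right e))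
    exact h1 (eq_one_of_mem_inf (fp z hz.1 z1) hh (cen1_comm.1 hz.2))
  have ZK : K ⊓ C(K) = ⊥ := (hK.eq_bot_or_eq inf_le_left (norms_center hK.nrm)).resolve_right fun e =>
    ns (ab_iff.2 (inf_eq_left.1 e))
  obtain ⟨S, SK, hSm⟩ := exists_minNml (M := K) hK.ne (le_nrm K)
  have Sc : ∀ g : G, MinNml (cj g S) K := fun g => by have := hSm.cj g; rwa [cj_of_mem_nrm (nK' ⊤ trivial)] at this
  have SK' : ∀ g : G, cj g S ≤ K := fun g => cj_le_of_nrm (nK' ⊤ trivial) SK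
  have Sd : ∀ g : G, g ∉ N(S) → cj g S ⊓ S = ⊥ := fun g hg => ((Sc g).inf_eq_bot_or_le hSm.nrm).resolve_right fun e =>
    hg (mem_nrm_of_cj_le e)
  have Sp : ∀ g : G, g ∉ N(S) → cj g S ≤ C(S) := fun g hg =>
    cents_of_norms_of_inf (SK.trans (Sc g).nrm) ((SK' g).trans hSm.nrm) (Sd g hg)
  have gen : ∀ L : Subgroup G, (∀ v ∈ V, cj v S ≤ L) → K ≤ L := fun L hL => by
    have : (⨆ v : V, cj (v : G) S) = K := (hK.eq_bot_or_eq (iSup_le fun v : V => SK' v) (G1 ▸ sup_le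
      (norms_iSup fun v => (Sc v).nrm) fun c hc => mem_nrm_of_cj_le (cj_le_iff.2 (iSup_le fun e => by
        rw [← cj_le_iff, cj_cj]; exact le_iSup (fun c : V => cj (c : G) S) ⟨_, mul_mem hc e.2⟩)))).resolve_left
      (ne_bot_of_le (le_iSup_of_le 1 (cj_one S).ge) hSm.ne)
    exact this ▸ iSup_le fun v => hL v v.2
  have ZS : S ⊓ C(S) = ⊥ := (hSm.eq_bot_or_eq inf_le_left (norms_center hSm.nrm)).resolve_right fun e =>
    hSm.ne (eq_bot_of_le (le_inf SK (centsC (gen _ fun v _ => by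
      by_cases h : v ∈ N(S)
      · rw [cj_of_mem_nrm h]; exact inf_eq_left.1 e
      · exact Sp v h))) ZK)
  have OS : O[{2}](S) = ⊥ := eq_bot_of_le (pcore_mono_nml _ ⟨SK, hSm.nrm⟩) (O2' K nK)
  have VN : V ≤ N(S) := by
    by_contra hc
    by_cases hN : V ⊓ N(S) = ⊥
    · obtain ⟨t, ht, ht'⟩ := SetLike.not_le_iff_exists.1 hc
      obtain ⟨s, hs, os, s1⟩ : ∃ s ∈ S, PiElt {2}ᶜ s ∧ s ≠ 1 := by
        by_contra! e
        exact hSm.ne (OS ▸ (PiGrp.pcore_eq (piGrp_iff_forall.2 fun x hx =>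
          constt_compl_eq_one_iff.1 (e _ (constt_mem _ hx) (piElt_constt _ _)))).symm)
      have m : t * s⁻¹ * t⁻¹ ∈ cj t S := conj_mem_cj.2 (inv_mem hs)
      have cm : s * (t * s⁻¹ * t⁻¹) = t * s⁻¹ * t⁻¹ * s := mem_cen.1 (Sp t ht' m) s hs
      have e : t * (s * (t * s⁻¹ * t⁻¹)) * t⁻¹ = (s * (t * s⁻¹ * t⁻¹))⁻¹ := by
        calc _ = t * s * t⁻¹ * (t ^ 2 * s⁻¹ * (t ^ 2)⁻¹) := by rw [sq]; group
          _ = _ := by rw [aV.pow ht]; group
      have o := os.mul (os.inv.conj t) cm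
      obtain ⟨w, hw, w1⟩ := exists_ne_one (SD t ht _ o e)
      have wn : ∀ w ∈ V, w ≠ 1 → w ∉ N(S) := fun w hw w1 e => w1 (eq_one_of_mem_inf hN hw e)
      by_cases wt : w * t = 1
      · have : t = w⁻¹ := eq_inv_of_mul_eq_one_right wt
        have tc : w⁻¹ ∈ C[s * (t * s⁻¹ * t⁻¹)] := inv_mem hw.2
        rw [← this] at tc
        rw [mem_cen1.1 tc, mul_inv_cancel_right] at e
        have e2 := eq_inv_of_mul_eq_one_left (inv1 _ o e)
        exact s1 (eq_one_of_mem_inf (Sd t ht') (e2 ▸ inv_mem m) hs)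
      · have e2 : s * (t * s⁻¹ * t⁻¹) = w * s * w⁻¹ * (w * t * s⁻¹ * (w * t)⁻¹) := by
          calc _ = w * (s * (t * s⁻¹ * t⁻¹)) * w⁻¹ := by rw [mem_cen1.1 hw.2, mul_inv_cancel_right]
            _ = _ := by group
        have m2 : s * (t * s⁻¹ * t⁻¹) ∈ C(S) := e2 ▸ mul_mem (Sp w (wn w hw.1 w1) (conj_mem_cj.2 hs))
          (Sp _ (wn _ (mul_mem hw.1 ht) wt) (conj_mem_cj.2 (inv_mem hs)))
        exact s1 (eq_one_of_mem_inf ZS hs ((mul_mem_cancel_right (Sp t ht' m)).1 m2))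
    · have c1 : V ⊓ C(S) = ⊥ := eq_bot_of_le (le_inf inf_le_left (centsC (gen _ fun v hv => by
        rw [← cj_of_mem_nrm (aV.ab.norms (inf_le_left : V ⊓ C(S) ≤ V) hv)]; exact cj_cents.2 (centsC inf_le_right)))) A1
      obtain ⟨n, hn, s, hs, os, e1, e2⟩ := NS (S ⊔ V ⊓ N(S)) _ le_sup_right inf_le_left hN
        (eb c1 fun z hz => ⟨hz.1.1, cO S _ inf_le_right OS hz⟩)
        (Or.inr fun e => hc (e.ge.trans inf_le_right))
      have sS := odm S _ inf_le_left inf_le_right s hs os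
      refine SD n hn.1 s os e1 (eb e2 fun w hw => ⟨⟨hw.1, ?_⟩, hw.2⟩)
      by_contra e
      have m : w * s * w⁻¹ ∈ cj w S := conj_mem_cj.2 sS
      rw [mem_cen1.1 hw.2, mul_inv_cancel_right] at m
      rw [eq_one_of_mem_inf (Sd w e) m sS, cen1_one, inf_top_eq] at e2
      exact hN e2
  have eS : S = K := le_antisymm SK (gen _ fun v hv => (cj_of_mem_nrm (VN hv)).le)
  subst eS
  have hs : IsSimpleGroup S := by
    haveI := (nontrivial_iff_ne_bot S).2 hK.ne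
    exact ⟨fun M hM => (hSm.eq_bot_or_eq (map_subtype_le M) (nml_map_subtype M).nrm).imp
      (map_eq_bot_iff_of_injective _ S.subtype_injective).1
      fun e => map_injective S.subtype_injective (by rw [map_subtype_top, e])⟩
  have cp : IsComponent S := ⟨(nml_top_iff.1 nK).isSubnormal, H2.isQuasisimple_of_isSimpleGroup ns⟩
  have CS : C(S) = ⊥ := eq_bot_of_le (pcore_max (π := {2}) (piGrp_iff_forall.2 fun x hx => constt_compl_eq_one_iff.1
    (eq_one_of_mem_inf ZK (odm S V le_rfl VN _ (G1.ge trivial) (piElt_constt _ _)) (constt_mem _ hx)))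
    ⟨le_top, norms_cent hK.nrm⟩) O2
  have eF : generalizedFittingSubgroup G = S := by
    refine le_antisymm (sup_le (sSup_le fun L hL => ?_) ?_) ((H2.le_layer cp).trans H2.layer_le_generalizedFitting)
    · rcases H2.component_eq_or_commutator_eq_bot hL cp with e | e
      · exact e.le
      · exact (comm_eq_bot.1 e).trans (CS ▸ bot_le)
    · exact (H2.fittingSubgroup_le_centralizer_layer.trans (cen_anti (H2.le_layer cp))).trans (CS ▸ bot_le)
  rw [eF]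
  exact ⟨hs, ns, by rw [sup_comm, G1]⟩

end Cfsg.Agent.S3048
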