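import Cfsg.Statements.S3049
import Mathlib
import Cfsg.Agent.H4.Iso

set_option autoImplicit false
open Cfsg

namespace Cfsg.Agent.S3049

/-- Let G be a finite group and p an odd prime with O_{p'}(G) = 1. Suppose that G has p-rank at most 2 (no elementary abelian subgroup of order p³) and that some element x of order p is isolated in G (no G-conjugate of x other than x commutes with x) and not central. Then the generalized Fitting subgroup F*(G) is a non-abelian simple group. Since O_{p'}(G) = 1, such an x is not central modulo O_{p'}(G): the hypotheses describe a counterexample to the Z*_p statement in p-rank at most 2. -/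
theorem result {G : Type*} [Group G] [Finite G] {p : ℕ} [Fact p.Prime] (hp : p ≠ 2) (hcore : Cfsg.pPrimeCore p G = ⊥)
    (hrank : Cfsg.PRankLE p 2 G) (x : G) (hx : orderOf x = p) (hiso : Cfsg.IsIsolated x) (hnc : x ∉ Subgroup.center G) :
    IsSimpleGroup ↥(Cfsg.generalizedFittingSubgroup G) ∧ ¬ IsMulCommutative ↥(Cfsg.generalizedFittingSubgroup G) := by
  open Subgroup Cfsg.Agent.H18 Cfsg.Agent.H22 Cfsg.Agent.H4 in
  have hpg : IsPGroup p (zpowers x) := isPGroup_zpowers_of_orderOf (k := 1) (by rw [hx, pow_one])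
  have hxp : x ^ p = 1 := hx ▸ pow_orderOf_eq_one x
  obtain ⟨S, hS, hxS⟩ := exists_sylIn_ge hpg le_top
  have hxS := hxS (mem_zpowers x)
  have hSx : S ≤ centralizer {x} := iso_le_C hiso hS.isP hxS
  have hF := H2.fittingSubgroup_eq_pCore_of_pPrimeCore_eq_bot hcore
  have hFS : fittingSubgroup G ≤ S := hF.le.trans (pCoreOf_top.ge.trans (pCoreOf_le_syl hS))
  have hxF : x ∈ C[fittingSubgroup G] :=
    mem_C.2 fun y hy => mem_centralizer_singleton_iff.1 (hSx (hFS hy))
  -- components have no normal p-complement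
  have hnpc : ∀ L : Subgroup G, IsComponent L → ¬ HasNormalPComplement p L := by
    intro L hL h
    have h1 := H2.commutator_eq_of_isQuasisimple hL.2
    obtain ⟨T, hT⟩ := exists_sylIn p L
    haveI := pgrp_solvable hT.isP
    have h2 : L ≤ pResidualOf p L := H2.le_of_perfect_of_le_sup h1 (pResidualOf_sup_syl hT).ge
      (hT.le.trans (le_N_pResidualOf L))
    have h3 : (Nat.card (pResidualOf p L)).Coprime p := by
      rw [pResidualOf, card_map_of_injective L.subtype_injective]
      exact hasNPC_iff_pResidual.1 h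
    exact H2.ne_bot_of_isQuasisimple hL.2 (le_bot_iff.1 ((H2.le_pPrimeCore_of_isSubnormal hL.1
      (Nat.Coprime.coprime_dvd_left (card_dvd_of_le h2) h3)).trans hcore.le))
  have hsyl : ∀ L : Subgroup G, IsComponent L → ¬ S ⊓ L ≤ C[L] := by
    intro L hL h
    refine hnpc L hL (hasNPC_iff_pResidual.2 ?_)
    have := coprime_res_of_central (syl_inf_sn hS (sn_top hL.1)) (le_centralizer_iff.1 h)
    rwa [pResidualOf, card_map_of_injective L.subtype_injective] at this
  obtain ⟨L, hL, hxL⟩ : ∃ L : Subgroup G, IsComponent L ∧ x ∉ C[L] := by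
    by_contra hcon
    push Not at hcon
    have h1 : x ∈ C[generalizedFittingSubgroup G] := by
      rw [generalizedFittingSubgroup, C_sup]
      exact ⟨H2.le_centralizer_sSup (H := zpowers x) (fun A hA => zpowers_le.2 (hcon A hA))
        (mem_zpowers x), hxF⟩
    have h2 := H2.centralizer_generalizedFitting_le_fittingSubgroup h1
    exact hnc (mem_center_iff.2 fun g => mul_inv_eq_iff_eq_mul.1
      (iso_eq hiso hS.isP hxS (hFS ((H2.fittingSubgroup_normal G).conj_mem _ h2 g))))
  have key : S ⊓ C[L] = ⊥ := by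
    by_contra hne
    obtain ⟨y, hy, hyo⟩ := pgrp_exists_orderOf_eq hS.isP.to_inf_left hne
    have hyp : y ^ p = 1 := hyo ▸ pow_orderOf_eq_one y
    have hy1 : y ≠ 1 := by
      rintro rfl
      exact (Fact.out : p.Prime).one_lt.ne (by simpa using hyo)
    have hyx : y ∈ C[zpowers x] := by rw [C_zpowers]; exact hSx hy.1
    have hynx : y ∉ zpowers x := by
      intro h
      refine hxL (zpowers_le.2 hy.2 ?_)
      have : zpowers y = zpowers x := eq_of_le_of_card_ge (zpowers_le.2 h)
        (by rw [Nat.card_zpowers, Nat.card_zpowers, hx, hyo])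
      rw [this]; exact mem_zpowers x
    set E := zpowers x ⊔ zpowers y with hE
    have hEe : IsElementaryAbelian p E := H3.elemAb_sup_zpowers (H3.elemAb_zpowers hxp) hyp hyx
    have hEc : Nat.card E = p ^ 2 := by
      rw [hE, H3.card_sup_zpowers_of_elemAb hyp hyx hynx, Nat.card_zpowers, hx, sq]
    set H := L ⊔ E with hH
    have hxH : x ∈ H := mem_sup_right (mem_sup_left (mem_zpowers x))
    have hHy : H ≤ C[zpowers y] := sup_le (le_centralizer_iff.1 (zpowers_le.2 hy.2))
      (sup_le (le_centralizer_iff.1 (zpowers_le.2 hyx)) (le_centralizer_self_of_comm inferInstance))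
    obtain ⟨T, hT, hET⟩ := exists_sylIn_ge (H3.isPGroup_of_elemAb hEe) (le_sup_right : E ≤ H)
    have hxT : x ∈ T := hET (mem_sup_left (mem_zpowers x))
    have hTE : T ≤ C[E] := by
      rw [hE, C_sup, C_zpowers]
      exact le_inf (iso_le_C hiso hT.isP hxT) (hT.le.trans hHy)
    have hom : ∀ z ∈ T, z ^ p = 1 → z ∈ E := by
      intro z hz hzp
      by_contra hzE
      have h1 := H3.pRankLE_iff.1 hrank _ (H3.elemAb_sup_zpowers hEe hzp (hTE hz))
      rw [H3.card_sup_zpowers_of_elemAb hzp (hTE hz) hzE, hEc] at h1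
      have := (Fact.out : p.Prime).one_lt
      nlinarith [pow_pos (zero_lt_one.trans this) 2]
    have hN : HasNormalPComplement p H := by
      obtain ⟨P, hP⟩ := hT.exists_sylow
      refine hasNPC_of_forall_le_sylow P fun Q hQ _ g hg hc => ?_
      rw [hP] at hQ
      -- `g` centralizes the elements of order `p` of `Q`
      refine H3.le_centralizer_of_fix_omegaOne hp (A := zpowers g) (by rwa [Nat.card_zpowers])
        (P.isPGroup'.to_le (hP ▸ hQ)) (zpowers_le.2 hg) (fun z hz hz1 => ?_) (mem_zpowers g)
      have hzE : (z : G) ∈ E := hom z (hQ hz) (congrArg Subtype.val hz1)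
      have hgz : (g : G) * z * (g : G)⁻¹ ∈ T := hQ (conj_mem_of_N hg hz)
      obtain ⟨a, ha, b, hb, e⟩ := (mem_sup_of_le_N' ((zpowers_le.2 hyx).trans (C_le_N _))).1 hzE
      have hgb : (g : G) * b * (g : G)⁻¹ = b :=
        mul_inv_eq_iff_eq_mul.2 (mem_C.1 (hHy g.2) b hb).symm
      have hga : (g : G) * a * (g : G)⁻¹ = a := by
        refine iso_pow_eq hiso hT.isP hxT ha ?_
        have : (g : G) * a * (g : G)⁻¹ = g * z * (g : G)⁻¹ * b⁻¹ := by
          rw [← e, eq_mul_inv_iff_mul_eq]
          calc (g : G) * a * (g : G)⁻¹ * b = g * a * (g : G)⁻¹ * (g * b * (g : G)⁻¹) := by rw [hgb]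
            _ = _ := by group
        rw [this]
        exact T.mul_mem hgz (T.inv_mem (hET (mem_sup_right hb)))
      change z ∈ C[zpowers g]
      rw [C_zpowers]
      refine mem_centralizer_singleton_iff.2 (Subtype.ext ?_)
      have : (g : G) * z * (g : G)⁻¹ = z := by
        rw [← e]
        calc (g : G) * (a * b) * (g : G)⁻¹ = g * a * (g : G)⁻¹ * (g * b * (g : G)⁻¹) := by group
          _ = _ := by rw [hga, hgb]
      exact (mul_inv_eq_iff_eq_mul.1 this).symm
    exact hnpc L hL (hasNPC_of_le le_sup_left hN)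
  have hF0 : fittingSubgroup G = ⊥ := le_bot_iff.1 ((le_inf hFS
    (H2.fittingSubgroup_le_centralizer_layer.trans (C_anti (H2.le_layer hL)))).trans key.le)
  have hE : generalizedFittingSubgroup G = L := by
    rw [generalizedFittingSubgroup, hF0, sup_bot_eq]
    refine le_antisymm (sSup_le fun K hK => ?_) (H2.le_layer hL)
    rcases H2.component_eq_or_commutator_eq_bot hK hL with e | e
    · exact e.le
    · exact absurd (((inf_le_inf_left S (le_C_iff_comm.2 e)).trans key.le).trans bot_le) (hsyl K hK)
  rw [hE]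
  refine ⟨H2.isSimpleGroup_of_isQuasisimple hL.2 ?_, fun h =>
    H2.not_le_centralizer_of_isQuasisimple hL.2 (le_centralizer_self_of_comm h)⟩
  rw [← map_eq_bot_iff_of_injective _ L.subtype_injective, H22.map_center_subtype]
  exact le_bot_iff.1 ((H2.component_center_le_fittingSubgroup hL).trans hF0.le)

end Cfsg.Agent.S3049
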