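import Cfsg.Statements.S3057
import Mathlib
import Cfsg.Agent.H4.AG
import Cfsg.Agent.H5.HH
import Cfsg.Agent.H8.Rank1

set_option autoImplicit false
open Cfsg

namespace Cfsg.Agent.S3057

/-- Let p be a prime and G a finite p-solvable group of order divisible by p, with Sylow p-subgroup P. Then the Sylow p-subgroups of G fail to be chain-connected through nontrivial intersections (equivalently, G has a strongly p-embedded subgroup) if and only if O_p(G) = 1 and P is cyclic or, for p = 2, generalized quaternion. -/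
theorem result {G : Type*} [Group G] [Finite G]
    (p : ℕ) [Fact p.Prime] (hdiv : p ∣ Nat.card G) (hsol : Cfsg.IsPSolvable p G) (P : Sylow p G) :
    ¬ Cfsg.IsSylowChainConnected p G ↔
      Cfsg.pCore p G = ⊥ ∧ (IsCyclic ↥P ∨ (p = 2 ∧ ∃ n : ℕ, Nonempty (↥P ≃* QuaternionGroup (2 ^ n)))) := by
  open Subgroup Cfsg.Agent.H18 Cfsg.Agent.H22 Cfsg.Agent.H4 in
  have hp : p.Prime := Fact.out
  have hP1 : (P : Subgroup G) ≠ ⊥ := syl_ne_bot (sylIn_top P) (by rwa [card_top])
  rw [not_chainConnected_iff]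
  constructor
  · rintro ⟨H, hH⟩
    refine ⟨hH.pCore_eq_bot, ?_⟩
    obtain ⟨P', h1, -⟩ := hH.exists_sylow
    obtain ⟨g, -, e⟩ := syl_exists_cj_eq (sylIn_top P') (sylIn_top P)
    have hH' : SPE p (cj g H) := hH.conj g
    have h2 : (P : Subgroup G) ≤ cj g H := e ▸ cj_mono g h1
    generalize cj g H = M at hH' h2
    have key : ∀ A : Subgroup G, A ≤ (P : Subgroup G) → IsMulCommutative A → IsCyclic A := by
      intro A h3 h4
      by_contra hc
      haveI := H2.pPrimeCore_characteristic (G := G) (p := p)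
      have h5 := hH'.le_of_not_isCyclic h4 (P.isPGroup'.to_le h3) hc (h3.trans h2)
        (le_N_of_normal _ (pPrimeCore p G)) H2.pPrimeCore_coprime
      have h6 : p ∣ Nat.card (pPrimePCore p G) := by
        by_contra hd
        have h7 : pCore p (G ⧸ pPrimeCore p G) = ⊥ := by
          rw [← map_mk_pPrimePCore, Subgroup.map_eq_bot_iff, QuotientGroup.ker_mk']
          exact H2.le_pPrimeCore (coprime_card_iff_not_dvd.2 hd)
        have h8 := H5b.centralizer_pCore_le (H1.isPSolvable_quotient hp hsol (pPrimeCore p G))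
          H2.pPrimeCore_quotient_self
        rw [h7] at h8
        have h9 : pPrimeCore p G = ⊤ := eq_top_iff.2 fun x _ =>
          (QuotientGroup.eq_one_iff x).1 (mem_bot.1 (h8 (C_bot.ge (mem_top _))))
        exact coprime_card_iff_not_dvd.1 (H2.pPrimeCore_eq_top_iff.1 h9) hdiv
      have h7 := isSylowIn_inf_pPrimePCore P
      refine hH'.ne_top (eq_top_iff.2 fun x _ => ?_)
      obtain ⟨d, hd, n, hn, rfl⟩ := h7.exists_pPrimeCore_mul x
      exact mul_mem (h5 hd) (hH'.normalizer_le_of_isPGroup (inf_le_left.trans h2) h7.isPGroup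
        (h7.ne_bot h6) hn)
    by_cases h2 : p = 2
    · subst h2
      obtain ⟨z, hz, hzo, hzc⟩ := exists_orderOf_center P.isPGroup' hP1
      have h3 : ∀ s : (P : Subgroup G), orderOf s = 2 → (s : G) = z := by
        intro s hs
        rw [← orderOf_coe] at hs
        have hA := H3.elemAb_sup_zpowers (H3.elemAb_zpowers (hzo ▸ pow_orderOf_eq_one z))
          (hs ▸ pow_orderOf_eq_one (s : G)) (by change _ ∈ C[zpowers z]; rw [C_zpowers]; exact hzc s.2)
        have h4 := H3.eq_of_card_eq_of_isCyclic (key _ (sup_le (zpowers_le.2 hz) (zpowers_le.2 s.2)) hA.1)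
          le_sup_left le_sup_right (by rw [Nat.card_zpowers, Nat.card_zpowers, hs, hzo])
        have h5 : (s : G) ∈ zpowers z := h4 ▸ mem_zpowers _
        classical
        rw [mem_zpowers_iff_mem_range_orderOf, hzo] at h5
        simp only [Finset.mem_image, Finset.mem_range] at h5
        obtain ⟨k, hk, e⟩ := h5
        interval_cases k
        · rw [← e] at hs; simp at hs
        · simpa using e.symm
      rcases H8.cyclic_or_quaternion P.isPGroup' fun s t hs ht =>
        Subtype.ext ((h3 s hs).trans (h3 t ht).symm) with h | ⟨n, h⟩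
      · exact Or.inl h
      · exact Or.inr ⟨rfl, n + 1, h⟩
    · left
      refine (H3.isCyclic_iff_pRankLE_one P.isPGroup' h2).2 (H3.pRankLE_subgroup_iff.2 fun A h3 h4 => ?_)
      rw [pow_one]
      exact H3.card_le_p_of_isCyclic_of_pow (key A h3 h4.1) h4.2
  · rintro ⟨h1, h2⟩
    obtain ⟨D, hD, hDc⟩ : ∃ D : Subgroup G, IsCyclic D ∧ ∀ x ∈ (P : Subgroup G), orderOf x = p → x ∈ D := by
      rcases h2 with h | ⟨rfl, n, ⟨e⟩⟩
      · exact ⟨P, h, fun x hx _ => hx⟩
      · refine ⟨zpowers (e.symm (.a 1) : (P : Subgroup G)), inferInstance, fun x hx ho => ?_⟩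
        have h3 : orderOf (e ⟨x, hx⟩) = 2 := by rw [e.orderOf_eq, ← orderOf_coe]; exact ho
        rcases h4 : e ⟨x, hx⟩ with i | i
        · have : (e.symm (.a 1)) ^ i.val = ⟨x, hx⟩ := by
            rw [← map_pow, QuaternionGroup.a_one_pow, ZMod.natCast_zmod_val, ← h4, e.symm_apply_apply]
          have h5 : ((e.symm (.a 1) : (P : Subgroup G)) : G) ^ i.val = x := congrArg Subtype.val this
          exact h5 ▸ pow_mem (mem_zpowers _) _
        · rw [h4, QuaternionGroup.orderOf_xa] at h3; omega
    obtain ⟨z, hz, hzo⟩ := pgrp_exists_orderOf_eq P.isPGroup' hP1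
    have key : ∀ x ∈ (P : Subgroup G), orderOf x = p → zpowers x = zpowers z := fun x hx ho =>
      H3.eq_of_card_eq_of_isCyclic hD (zpowers_le.2 (hDc x hx ho)) (zpowers_le.2 (hDc z hz hzo))
        (by rw [Nat.card_zpowers, Nat.card_zpowers, ho, hzo])
    have hN : N[(P : Subgroup G)] ≤ N[zpowers z] := fun g hg => mem_N_iff_cj.2 (by
      rw [cj_zpowers]; exact key _ (conj_mem_of_N hg hz) (by rw [orderOf_conj', hzo]))
    refine ⟨N[zpowers z], spe_of_centralizer (fun e => ?_)
      (IsSylowIn.sylow_of_le P (le_normalizer.trans hN)) (fun x hx ho => ?_) hN⟩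
    · have := (H22.le_pCore (normal_of_top_le_N e.ge) (isPGroup_zpowers_of_orderOf_eq hzo)).trans h1.le
      exact ne_one_of_orderOf_eq hzo (mem_bot.1 (this (mem_zpowers z)))
    · rw [← key x hx ho, ← C_zpowers]; exact C_le_N _

end Cfsg.Agent.S3057
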