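import Cfsg.Statements.S3062
import Mathlib
import Cfsg.Agent.H5.ZJ

set_option autoImplicit false
open Cfsg

namespace Cfsg.Agent.S3062

open Subgroup Cfsg.Agent.H18 Cfsg.Agent.H22 Cfsg.Agent.H5b
open scoped commutatorElement

/-- Let S be a finite p-group, J(S) the subgroup generated by the abelian subgroups of S of largest order and Z(J(S)) its centre. Then Z(S) ≤ D*(S) ≤ Z(J(S)), and every maximal normal abelian subgroup of S contains D*(S). -/
theorem result {S : Type*} [Group S] [Finite S] {p : ℕ} [Fact p.Prime]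
    (hS : IsPGroup p S) :
    Subgroup.center S ≤ Cfsg.dStar S ∧
    Cfsg.dStar S ≤ Cfsg.thompsonSubgroupA S ⊓ Subgroup.centralizer (Cfsg.thompsonSubgroupA S : Set S) ∧
    ∀ A : Subgroup S, A.Normal → IsMulCommutative A →
      (∀ B : Subgroup S, B.Normal → IsMulCommutative B → A ≤ B → B = A) → Cfsg.dStar S ≤ A := by
  have hT := pgrp_top_iff.2 hS
  rw [← dStarOf_top, ← Jn_top_zero]
  refine ⟨DFam.le_dStarOf ⟨le_top, ?_, fun x _ _ => ?_⟩, dStarOf_le_ZJn hT, fun A hn hA hmax => ?_⟩
  · rw [← C_top]; exact le_top.trans (le_C_C ⊤) |>.trans' le_top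
  · rw [← C_top]; exact le_C_C ⊤ (mem_top x)
  · haveI := hS.isNilpotent
    rw [← H3.centralizer_eq_of_max_abelian_normal A hA hmax]
    exact dStarOf_le_C hT le_top (isMulComm_iff.1 hA) (le_N_of_normal _ _)

end Cfsg.Agent.S3062
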