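import Cfsg.Statements.S3063
import Mathlib
import Cfsg.Agent.H4.Flag

set_option autoImplicit false
open Cfsg

namespace Cfsg.Agent.S3063

/-- A weak replacement Theorem for metabelian p-groups: let S be a finite p-group whose derived subgroup is abelian and A an abelian subgroup of S of largest possible order. Then the normal closure of A in S contains an abelian subgroup B of the same order as A that is normal in S. -/
theorem result {S : Type*} [Group S] [Finite S] {p : ℕ} [Fact p.Prime]
    (hS : IsPGroup p S) (hmeta : IsMulCommutative ↥(commutator S))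
    (A : Subgroup S) (hA : A ∈ Cfsg.maxAbelianSubgroups S) :
    ∃ B ∈ Cfsg.maxAbelianSubgroups S, B.Normal ∧ B ≤ Subgroup.normalClosure (A : Set S) := by
  open Subgroup Cfsg.Agent.H18 Cfsg.Agent.H22 Cfsg.Agent.H4 in
  open scoped commutatorElement in
  haveI := hS.isNilpotent
  obtain ⟨c, hc⟩ := Group.IsNilpotent.nilpotent S
  obtain ⟨B, ⟨hB, hBA⟩, hmax⟩ := Set.exists_max_image
    {B : Subgroup S | B ∈ maxAbelianSubgroups S ∧ B ≤ normalClosure (A : Set S)}
    (fun Q => ∑ i ∈ Finset.range c, Nat.card ↥(Q ⊓ Subgroup.upperCentralSeries S (i + 1)))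
    (Set.toFinite _) ⟨A, hA, le_normalClosure⟩
  refine ⟨B, hB, normal_of_top_le_N fun a _ => ?_, hBA⟩
  by_contra ha
  have hBC := isMulComm_iff.1 hB.1
  have hYle : B ⊔ cj a B ≤ normalClosure (A : Set S) :=
    sup_le hBA (cj_le_of_mem_N (mem_N_of_normal a _) hBA)
  set X := (commutator S ⊓ (B ⊔ cj a B)) ⊔ (B ⊓ cj a B) with hX
  have h1 : ∀ z ∈ B, ⁅a, z⁆ ∈ X := fun z hz => mem_sup_left ⟨commutator_mem_commutator trivial trivial,
    Subgroup.mul_mem _ (mem_sup_right (conj_mem_cj hz)) (mem_sup_left (inv_mem hz))⟩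
  have hXY : X ≤ B ⊔ cj a B := sup_le inf_le_right (inf_le_left.trans le_sup_left)
  have hD : B ⊓ cj a B ≤ C[B ⊔ cj a B] := by
    rw [C_sup, ← cj_C]; exact inf_le_inf hBC (cj_mono a hBC)
  have hXC : X ≤ C[X] := by
    refine sup_le ?_ (hD.trans (C_anti hXY))
    rw [hX, C_sup]
    exact le_inf (inf_le_left.trans ((isMulComm_iff.1 hmeta).trans (C_anti inf_le_left)))
      (le_centralizer_iff.1 (hD.trans (C_anti inf_le_right)))
  have h2 := card_le_of_comm_mem le_rfl h1 le_sup_right
  exact (flag_repl hc h1 le_sup_right ha).not_ge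
    (hmax X ⟨⟨isMulComm_iff.2 hXC, fun D hD => (hB.2 D hD).trans h2⟩, hXY.trans hYle⟩)

end Cfsg.Agent.S3063
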