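import Cfsg.Statements.S3064
import Mathlib
import Cfsg.Agent.H4.Iso

set_option autoImplicit false
open Cfsg

namespace Cfsg.Agent.S3064

/-- Let S be a Sylow p-subgroup of the finite group G and x an element of S such that (i) x is the only G-conjugate of x lying in S, and (ii) x centralizes every subgroup of order prime to p that it normalizes. Then x lies in the centre of G. -/
theorem result {G : Type*} [Group G] [Finite G] {p : ℕ} [Fact p.Prime]
    (S : Sylow p G) (x : G) (hx : x ∈ S)
    (hU : ∀ g : G, g⁻¹ * x * g ∈ S → g⁻¹ * x * g = x)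
    (hb : ∀ H : Subgroup G, (Nat.card H).Coprime p → (∀ h ∈ H, x * h * x⁻¹ ∈ H) → ∀ h ∈ H, x * h = h * x) :
    x ∈ Subgroup.center G := by
  open Subgroup Cfsg.Agent.H18 Cfsg.Agent.H22 Cfsg.Agent.H4 in
  refine center_of_iso (p := p) (iso_of_syl (sylIn_top S) hx fun g hg => ?_)
    (pgrp_zpowers_of_mem S.isPGroup' hx) fun H hc hN h hh => ?_
  · simpa using hU g⁻¹ (by rw [inv_inv]; exact hg)
  · exact mem_centralizer_singleton_iff.2 (hb H hc (fun h hh => conj_mem_of_N hN hh) h hh).symm

end Cfsg.Agent.S3064
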