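import Cfsg.Statements.S3070
import Mathlib
import Cfsg.Agent.H27.JNpc2

set_option autoImplicit false
open Cfsg

namespace Cfsg.Agent.S3070

open Cfsg.Agent Cfsg.Agent.FT

/-- Let p ≥ 5 be a prime, S a Sylow p-subgroup of the finite group G and J(S) the subgroup generated by the abelian subgroups of S of largest order. Then G has a normal p-complement if and only if N_G(J(S))/C_G(J(S)) is a p-group (every element of N_G(J(S)) of order prime to p centralizes J(S)). -/
theorem result {G : Type*} [Group G] [Finite G] {p : ℕ} [Fact p.Prime]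
    (hp : 5 ≤ p) (S : Sylow p G) :
    Cfsg.HasNormalPComplement p G ↔
      ∀ g ∈ Subgroup.normalizer (Cfsg.thompsonSubgroupAOf (S : Subgroup G) : Set G), (orderOf g).Coprime p →
        g ∈ Subgroup.centralizer (Cfsg.thompsonSubgroupAOf (S : Subgroup G) : Set G) := by
  have hS := (syl_iff_sylIn Fact.out).1 (syl_top Fact.out S)
  rw [H5b.thompsonAOf_eq_Jn]
  have hJ := (H5b.isFn_Jn 0).le (S : Subgroup G)
  refine ⟨fun h g hg hc => H4.hasNPC_mem_centralizer h (S.isPGroup'.to_le hJ) hg hc, fun h => ?_⟩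
  exact H27.hasNPC_of_J hp hS (H21.hasNPC_N_of_centric hS ((H5b.isFn_Jn 0).le_N _)
    (fun x hx => H5b.mem_Jn_of_C hx.1 (pow_zero x) hx.2) h)

end Cfsg.Agent.S3070
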