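import Cfsg.Statements.S3071
import Mathlib
import Cfsg.Agent.H5.Ctl

set_option autoImplicit false
open Cfsg

namespace Cfsg.Agent.S3071

open Subgroup Cfsg.Agent.H22 Cfsg.Agent.H5b
open Cfsg.Agent.H18 hiding cj mem_cj conj_mem_cj conj_mem_cj_iff cj_le_iff cj_cj cj_one cj_inv_cj
  cj_cj_inv cj_mono cj_inf cj_sup cj_eq_iff cj_eq_of_mem cj_eq_of_normal cj_top card_cj isPGroup_cj
open scoped commutatorElement

/-- Let p be an odd prime and S a Sylow p-subgroup of the finite group G such that, for every subgroup P with Z(S) ≤ P ≤ S, the normalizer N_G(P) has no section isomorphic to SL₂(p). Let J(S) be the subgroup generated by the abelian subgroups of S of largest order. Then two elements of S are conjugate in G if and only if they are conjugate in N_G(Z(J(S))). -/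
theorem result {G : Type*} [Group G] [Finite G] {p : ℕ} [Fact p.Prime]
    (hp : p ≠ 2) (S : Sylow p G)
    (hfree : ∀ P : Subgroup G, (S : Subgroup G) ⊓ Subgroup.centralizer ((S : Subgroup G) : Set G) ≤ P → P ≤ S →
      ¬ ∃ (H K : Subgroup G) (hK : (K.subgroupOf H).Normal), H ≤ Subgroup.normalizer (P : Set G) ∧
        Nonempty ((H ⧸ K.subgroupOf H) ≃* Matrix.SpecialLinearGroup (Fin 2) (ZMod p))) :
    ∀ x ∈ S, ∀ y ∈ S, (∃ g : G, g * x * g⁻¹ = y) ↔
      ∃ n ∈ Subgroup.normalizer (Cfsg.centerThompsonAOf (S : Subgroup G) : Set G), n * x * n⁻¹ = y := by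
  rw [centerThompsonAOf_eq]
  have h := ctl_of_local_center (cf_ZJn (p := p) (Or.inl rfl)) (fun T _ => center_le_ZJn_zero T)
    (sylIn_top S) fun U g h1 h2 _ h3 => ctl_ZJn_sub_of_qdFree hp (Or.inl rfl) (fun h => by
      refine hfree _ h1 h2 (exists_section_le_of_involves ?_)
      rw [← cj_N]
      exact (involves_congr_right (cjEquiv g _)).mp (involves_SL2_of_qd h)) h3
  refine fun x hx y hy => ⟨fun ⟨g, hg⟩ => ?_, fun ⟨n, _, hn⟩ => ⟨n, hn⟩⟩
  obtain ⟨n, hn, e⟩ := h {x} g (mem_top g) (Set.singleton_subset_iff.mpr hx)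
    (by rintro _ rfl; exact hg ▸ hy)
  exact ⟨n, hn, (e x rfl).trans hg⟩

end Cfsg.Agent.S3071
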