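import Cfsg.Statements.S3073
import Mathlib
import Cfsg.Agent.H21.NPC
import Cfsg.Agent.H21.TrMin
import Cfsg.Agent.S1988
import Cfsg.Agent.S0071

set_option autoImplicit false
universe u
open Cfsg

namespace Cfsg.Agent.S3073

/-- For an odd prime p, every finite p-group S has a characteristic subgroup K with C_S(K) ≤ K such that, whenever S is (isomorphic to) a Sylow p-subgroup of a finite group G, G has a normal p-complement if and only if N_G(K)/C_G(K) is a p-group, i.e. every element of N_G(K) of order prime to p centralizes K (K transported into G along the isomorphism). -/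
theorem result (p : ℕ) [Fact p.Prime] (hp : p ≠ 2)
    (S : Type u) [Group S] [Finite S] (hS : IsPGroup p S) :
    ∃ K : Subgroup S, K.Characteristic ∧ Subgroup.centralizer (K : Set S) ≤ K ∧
      ∀ (G : Type u) [Group G] [Finite G] (P : Sylow p G) (e : ↥(P : Subgroup G) ≃* S),
        Cfsg.HasNormalPComplement p G ↔
          ∀ g ∈ Subgroup.normalizer (((K.comap (e : ↥(P : Subgroup G) →* S)).map (P : Subgroup G).subtype : Subgroup G) : Set G),
            (orderOf g).Coprime p →
              g ∈ Subgroup.centralizer (((K.comap (e : ↥(P : Subgroup G) →* S)).map (P : Subgroup G).subtype : Subgroup G) : Set G) := by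
  open Subgroup Cfsg.Agent.H22 Cfsg.Agent.H18 Cfsg.Agent.H21 in
  open scoped commutatorElement Pointwise in
  refine ⟨kL ⊤, ⟨fun φ => ?_⟩, ?_, fun G _ _ P e => ?_⟩
  · rw [comap_equiv_eq_map_symm', map_kL φ.symm.injective, map_top_of_surjective _ φ.symm.surjective]
  · have := C_kL_le (hS.to_subgroup ⊤)
    rwa [top_inf_eq] at this
  · have k : ((kL ⊤).comap (e : ↥(P : Subgroup G) →* S)).map (P : Subgroup G).subtype =
        inducedFunctor kInfLower (P : Subgroup G) := by
      rw [inducedFunctor, kInfLower_eq, comap_equiv_eq_map_symm, map_kL e.symm.injective,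
        map_top_of_surjective _ e.symm.surjective]
    rw [k]
    refine ⟨fun ⟨P', N, h1, h2⟩ => (S0071.result P).1 ⟨N, h1, ?_⟩ _ (map_subtype_le _),
      fun h => S1988.result hp P (.inr h)⟩
    have e : Nat.card P = Nat.card P' := by rw [P.card_eq_multiplicity, P'.card_eq_multiplicity]
    exact isComplement'_of_coprime (e ▸ h2.card_mul_card) (e ▸ h2.index_eq_card ▸ P'.card_coprime_index.symm)

end Cfsg.Agent.S3073
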