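import Cfsg.Statements.S3074
import Mathlib
import Cfsg.Agent.H5.QdFree
import Cfsg.Agent.H3.Sc

set_option autoImplicit false
open Cfsg

namespace Cfsg.Agent.S3074

open Subgroup Cfsg.Agent.H18 Cfsg.Agent.H5b

theorem card_qdS (p : ℕ) [hp : Fact p.Prime] : Nat.card (qdS p) = p ^ 3 := by
  let f : ZMod p × ZMod p × ZMod p → qdS p := fun v => ⟨qdMk 1 v.1 0 1 v.2.1 v.2.2 (by simp), _, _, _, rfl⟩
  have hf : Function.Bijective f := by
    refine ⟨fun u v h => ?_, ?_⟩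
    · have h' : qdMk 1 u.1 0 1 u.2.1 u.2.2 (by simp) = qdMk 1 v.1 0 1 v.2.1 v.2.2 (by simp) := congrArg Subtype.val h
      have := qdMk_inj.1 h'
      exact Prod.ext this.2.1 (Prod.ext this.2.2.2.2.1 this.2.2.2.2.2)
    · rintro ⟨_, b, x, y, rfl⟩
      exact ⟨(b, x, y), rfl⟩
  rw [← Nat.card_eq_of_bijective f hf, Nat.card_prod, Nat.card_prod, Nat.card_zmod]
  ring

theorem pow_qdS (p : ℕ) [hp : Fact p.Prime] (h2 : p ≠ 2) (M : qd p) (hM : M ∈ qdS p) : M ^ p = 1 := by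
  obtain ⟨b, x, y, rfl⟩ := hM
  have h : ∀ n : ℕ, qdMk 1 b 0 1 x y (by simp) ^ n =
      qdMk 1 ((n : ZMod p) * b) 0 1 ((n : ZMod p) * x + (n.choose 2 : ℕ) * b * y) ((n : ZMod p) * y) (by simp) := fun n => by
    induction n with
    | zero => simp [qd_one]
    | succ n ih =>
      rw [pow_succ, ih, qdMk_mul, qdMk_inj, Nat.choose_succ_succ' n 1]
      simp only [Nat.choose_one_right]
      push_cast
      refine ⟨?_, ?_, ?_, ?_, ?_, ?_⟩ <;> ring
  have h3 : ((p.choose 2 : ℕ) : ZMod p) = 0 :=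
    (ZMod.natCast_eq_zero_iff _ _).2 (hp.out.dvd_choose_self two_ne_zero (by have := hp.out.two_le; omega))
  rw [h p, h3, qd_one, qdMk_inj]
  simp

/-- Let p be an odd prime. A Sylow p-subgroup of Qd(p), the split extension of an elementary abelian group of order p² by SL₂(p) acting naturally, is extraspecial of order p³ and exponent p. -/
theorem result (p : ℕ) [Fact p.Prime] (hp : p ≠ 2) (P : Sylow p ↥(Cfsg.qd p)) :
    Cfsg.IsExtraspecial p ↥P ∧ Nat.card P = p ^ 3 ∧ Monoid.exponent ↥P = p := by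
  obtain ⟨Q, hQ⟩ := (sylIn_qdS (p := p)).exists_sylow_top
  have e := Sylow.equiv P Q
  have hc : Nat.card P = p ^ 3 := by
    rw [← card_qdS p, ← hQ]; exact Nat.card_congr e.toEquiv
  have hpow : ∀ y : P, y ^ p = 1 := fun y => e.injective (by
    rw [map_pow, map_one]
    exact Subtype.ext (pow_qdS p hp _ (hQ ▸ (e y).2)))
  have hna : ¬ FT.Ab (P : Subgroup (qd p)) := fun h => by
    have m1 : qdMk 1 1 0 1 0 0 (by simp) ∈ (Q : Subgroup (qd p)) := hQ ▸ ⟨_, _, _, rfl⟩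
    have m2 : qdMk 1 0 0 1 0 1 (by simp) ∈ (Q : Subgroup (qd p)) := hQ ▸ ⟨_, _, _, rfl⟩
    obtain ⟨a, ha⟩ := e.surjective ⟨_, m1⟩
    obtain ⟨b, hb⟩ := e.surjective ⟨_, m2⟩
    have h1 : a * b = b * a := h.is_comm.comm a b
    have h2 := congrArg (fun z => ((e z : Q) : qd p)) h1
    simp only [map_mul, ha, hb] at h2
    change qdMk 1 1 0 1 0 0 (by simp) * qdMk 1 0 0 1 0 1 (by simp) =
      qdMk 1 0 0 1 0 1 (by simp) * qdMk 1 1 0 1 0 0 (by simp) at h2
    rw [qdMk_mul, qdMk_mul, qdMk_inj] at h2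
    simpa using h2.2.2.2.2.1
  haveI : Nontrivial P := by
    by_contra h
    haveI := not_nontrivial_iff_subsingleton.1 h
    exact hna ⟨⟨fun a b => Subsingleton.elim _ _⟩⟩
  exact ⟨H3.isExtraspecial_of_cube hc hna, hc, H3.exponent_eq_of_pow hpow⟩

end Cfsg.Agent.S3074
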