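import Cfsg.Statements.S3075
import Mathlib


set_option autoImplicit false
open Cfsg

namespace Cfsg.Agent.S3075

open Subgroup

theorem comm_cyc {N : Type*} [Group N] (B : Subgroup N) [hB : B.Normal] [IsCyclic B] (x y b : N) (hb : b ∈ B) :
    x * y * b * (x * y)⁻¹ = y * x * b * (y * x)⁻¹ := by
  obtain ⟨⟨g, hg⟩, hgen⟩ := IsCyclic.exists_generator (α := B)
  have h : ∀ c ∈ B, ∃ i : ℤ, c = g ^ i := fun c hc => by
    obtain ⟨i, hi⟩ := hgen ⟨c, hc⟩
    exact ⟨i, (congrArg Subtype.val hi).symm⟩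
  obtain ⟨i, hi⟩ := h _ (hB.conj_mem g hg x)
  obtain ⟨j, hj⟩ := h _ (hB.conj_mem g hg y)
  obtain ⟨k, rfl⟩ := h b hb
  have e1 : x * y * g * (x * y)⁻¹ = g ^ (i * j) := by
    calc x * y * g * (x * y)⁻¹ = x * (y * g * y⁻¹) * x⁻¹ := by group
      _ = (x * g * x⁻¹) ^ j := by rw [hj, conj_zpow]
      _ = _ := by rw [hi, ← zpow_mul]
  have e2 : y * x * g * (y * x)⁻¹ = g ^ (i * j) := by
    calc y * x * g * (y * x)⁻¹ = y * (x * g * x⁻¹) * y⁻¹ := by group
      _ = (y * g * y⁻¹) ^ i := by rw [hi, conj_zpow]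
      _ = _ := by rw [hj, ← zpow_mul, mul_comm]
  rw [← conj_zpow, ← conj_zpow, e1, e2]

/-- Let p be an odd prime and N a finite group with a normal elementary abelian subgroup A of order p² that is its own centralizer in N, such that N/A is isomorphic to SL₂(p) (over any field F with p elements). Then N splits over A: some subgroup U of N satisfies A ∩ U = 1 and AU = N. -/
theorem result {N : Type*} [Group N] [Finite N] {p : ℕ} [Fact p.Prime] (hp : p ≠ 2)
    (A : Subgroup N) [A.Normal] (hAcomm : IsMulCommutative A) (hAcard : Nat.card A = p ^ 2) (hAexp : Monoid.exponent ↥A = p)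
    (hAself : Subgroup.centralizer (A : Set N) = A)
    {F : Type*} [Field F] [Fintype F] (hF : Fintype.card F = p) (e : N ⧸ A ≃* Matrix.SpecialLinearGroup (Fin 2) F) :
    ∃ U : Subgroup N, A ⊓ U = ⊥ ∧ A ⊔ U = ⊤ := by
  have pp : p.Prime := Fact.out
  have hAn : A.Normal := inferInstance
  let π : N →* Matrix.SpecialLinearGroup (Fin 2) F := e.toMonoidHom.comp (QuotientGroup.mk' A)
  have hπ : Function.Surjective π := e.surjective.comp (QuotientGroup.mk'_surjective A)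
  have hker : ∀ x, π x = 1 ↔ x ∈ A := fun x => by
    simp only [π, MonoidHom.comp_apply, MulEquiv.coe_toMonoidHom, MulEquiv.map_eq_one_iff,
      QuotientGroup.mk'_apply, QuotientGroup.eq_one_iff]
  have hc : ∀ a ∈ A, ∀ b ∈ A, a * b = b * a := fun a ha b hb =>
    congrArg Subtype.val (hAcomm.is_comm.comm ⟨a, ha⟩ ⟨b, hb⟩)
  have hcen : ∀ x, (∀ a ∈ A, x * a * x⁻¹ = a) → x ∈ A := fun x hx => by
    rw [← hAself, mem_centralizer_iff]
    intro a ha
    exact (mul_inv_eq_iff_eq_mul.1 (hx a ha)).symm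
  have hfix : ∀ x ∈ A, ∀ a ∈ A, x * a * x⁻¹ = a := fun x hx a ha => by rw [hc x hx a ha]; group
  obtain ⟨k, hk⟩ := pp.odd_of_ne_two hp
  have hpow : ∀ a ∈ A, a ^ p = 1 := fun a ha =>
    congrArg Subtype.val (hAexp ▸ Monoid.pow_exponent_eq_one (⟨a, ha⟩ : A))
  have hsq : ∀ a ∈ A, (a * a) ^ (k + 1) = a := fun a ha => by
    rw [← sq, ← pow_mul, show 2 * (k + 1) = p + 1 by omega, pow_succ, hpow a ha, one_mul]
  have h2F : (2 : F) ≠ 0 := by
    intro h
    have h1 : addOrderOf (1 : F) ∣ 2 := addOrderOf_dvd_of_nsmul_eq_zero (by simpa using h)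
    have h3 : addOrderOf (1 : F) ∣ p := hF ▸ addOrderOf_dvd_card
    have h4 := Nat.dvd_gcd h1 h3
    rw [(Nat.coprime_primes Nat.prime_two pp).2 (Ne.symm hp), Nat.dvd_one, AddMonoid.addOrderOf_eq_one_iff] at h4
    exact one_ne_zero h4
  obtain ⟨t, ht⟩ := hπ (-1)
  have htA : t ∉ A := fun h => by
    have := (hker t).2 h
    rw [ht] at this
    have h1 := congrFun (congrFun (congrArg Subtype.val this) 0) 0
    simp at h1
    exact h2F (by linear_combination -h1)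
  have ht2 : t * t ∈ A := (hker _).1 (by rw [map_mul, ht]; simp)
  have hcom : ∀ n, n * t * n⁻¹ * t⁻¹ ∈ A := fun n => (hker _).1 (by
    simp only [map_mul, map_inv, ht]; simp)
  -- conjugation by `t` commutes with conjugation by `n` on `A`
  have hsw : ∀ n, ∀ a ∈ A, t * (n * a * n⁻¹) * t⁻¹ = n * (t * a * t⁻¹) * n⁻¹ := fun n a ha => by
    have h1 := hfix _ (hcom n) _ (hAn.conj_mem _ (hAn.conj_mem a ha n) t)
    rw [← h1]; group
  let P : Subgroup N := A ⊓ centralizer {t}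
  have hP : ∀ a, a ∈ P ↔ a ∈ A ∧ t * a * t⁻¹ = a := fun a => by
    simp only [P, mem_inf, mem_centralizer_singleton_iff]
    exact and_congr_right fun _ => ⟨fun h => by rw [← h]; group, fun h => (mul_inv_eq_iff_eq_mul.1 h).symm⟩
  let M : Subgroup N :=
    { carrier := {a | a ∈ A ∧ t * a * t⁻¹ = a⁻¹}
      one_mem' := ⟨A.one_mem, by simp⟩
      mul_mem' := fun {a b} ha hb => ⟨A.mul_mem ha.1 hb.1, by
        rw [hc a ha.1 b hb.1, mul_inv_rev, ← ha.2, ← hb.2, ← hc a ha.1 b hb.1]; group⟩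
      inv_mem' := fun {a} ha => ⟨A.inv_mem ha.1, by rw [← conj_inv, ha.2]⟩ }
  have hM : ∀ a, a ∈ M ↔ a ∈ A ∧ t * a * t⁻¹ = a⁻¹ := fun a => Iff.rfl
  haveI : P.Normal := ⟨fun a ha n => (hP _).2 ⟨hAn.conj_mem _ ((hP a).1 ha).1 n, by
    rw [hsw n a ((hP a).1 ha).1, ((hP a).1 ha).2]⟩⟩
  haveI : M.Normal := ⟨fun a ha n => (hM _).2 ⟨hAn.conj_mem _ ha.1 n, by rw [hsw n a ha.1, ha.2]; group⟩⟩
  have m1 : ∀ a ∈ A, a * (t * a * t⁻¹) ∈ P := fun a ha => (hP _).2 ⟨A.mul_mem ha (hAn.conj_mem a ha t), by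
    rw [hc a ha _ (hAn.conj_mem a ha t)]
    nth_rewrite 4 [← hfix _ ht2 a ha]
    rw [← hc a ha _ (hAn.conj_mem a ha t)]; group⟩
  have m2 : ∀ a ∈ A, a * (t * a * t⁻¹)⁻¹ ∈ M := fun a ha => (hM _).2 ⟨A.mul_mem ha (A.inv_mem (hAn.conj_mem a ha t)), by
    calc t * (a * (t * a * t⁻¹)⁻¹) * t⁻¹ = t * a * t⁻¹ * (t * t * a * (t * t)⁻¹)⁻¹ := by group
      _ = _ := by rw [hfix _ ht2 a ha]; group⟩
  have card_p : ∀ B : Subgroup N, B ≤ A → B ≠ ⊥ → B ≠ A → IsCyclic B := fun B h1 h2 h3 => by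
    have hd : Nat.card B ∣ p ^ 2 := hAcard ▸ card_dvd_of_le h1
    obtain ⟨i, hi, hB⟩ := (Nat.dvd_prime_pow pp).1 hd
    interval_cases i
    · exact absurd (card_eq_one.1 (by simpa using hB)) h2
    · exact isCyclic_of_prime_card (p := p) (by simpa using hB)
    · exact absurd (eq_of_le_of_card_ge h1 (by rw [hB, hAcard])) h3
  have hP0 : P = ⊥ := by
    by_contra h0
    have hPA : P ≠ A := fun h => htA (hcen t fun a ha => ((hP a).1 (h ▸ ha)).2)
    have hMA : M ≠ A := fun h => h0 (eq_bot_iff.2 fun a ha => by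
      obtain ⟨h1, h2⟩ := (hP a).1 ha
      have h3 : t * a * t⁻¹ = a⁻¹ := ((hM a).1 (h ▸ h1)).2
      rw [mem_bot, ← hsq a h1]
      nth_rewrite 2 [← h2]
      rw [h3]; simp)
    have hM0 : M ≠ ⊥ := fun h => htA (hcen t fun a ha => by
      have := m2 a ha
      rw [h, mem_bot] at this
      exact (mul_inv_eq_one.1 this).symm)
    haveI := card_p P inf_le_left h0 hPA
    haveI := card_p M (fun a ha => ha.1) hM0 hMA
    have key : ∀ x y : N, π x * π y = π y * π x := fun x y => by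
      have h1 : (y * x)⁻¹ * (x * y) ∈ A := hcen _ fun a ha => by
        have e1 := comm_cyc P x y _ (m1 a ha)
        have e2 := comm_cyc M x y _ (m2 a ha)
        have e3 : a * a = (a * (t * a * t⁻¹)) * (a * (t * a * t⁻¹)⁻¹) := by
          rw [hc a ha _ (A.inv_mem (hAn.conj_mem a ha t))]; group
        have e4 : x * y * (a * a) * (x * y)⁻¹ = y * x * (a * a) * (y * x)⁻¹ := by
          calc x * y * (a * a) * (x * y)⁻¹ = (x * y * (a * (t * a * t⁻¹)) * (x * y)⁻¹) *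
                (x * y * (a * (t * a * t⁻¹)⁻¹) * (x * y)⁻¹) := by rw [e3]; group
            _ = _ := by rw [e1, e2, e3]; group
        have e5 : x * y * a * (x * y)⁻¹ = y * x * a * (y * x)⁻¹ := by
          rw [← hsq a ha, ← conj_pow, ← conj_pow, e4]
        calc (y * x)⁻¹ * (x * y) * a * ((y * x)⁻¹ * (x * y))⁻¹
            = (y * x)⁻¹ * (x * y * a * (x * y)⁻¹) * (y * x) := by group
          _ = a := by rw [e5]; group
      have := (hker _).2 h1
      rw [map_mul, map_inv, inv_mul_eq_one, map_mul, map_mul] at this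
      exact this.symm
    obtain ⟨x, hx⟩ := hπ ⟨!![1, 1; 0, 1], by simp⟩
    obtain ⟨y, hy⟩ := hπ ⟨!![1, 0; 1, 1], by simp⟩
    have h1 := key x y
    rw [hx, hy] at h1
    have h2 : (!![1, 1; 0, 1] * !![1, 0; 1, 1] : Matrix (Fin 2) (Fin 2) F) = !![1, 0; 1, 1] * !![1, 1; 0, 1] :=
      congrArg Subtype.val h1
    have h3 := congrFun (congrFun h2 0) 0
    simp [Matrix.mul_apply, Fin.sum_univ_two] at h3
  refine ⟨centralizer {t}, hP0, eq_top_iff.2 fun n _ => ?_⟩
  have hinv : ∀ a ∈ A, t * a * t⁻¹ = a⁻¹ := fun a ha => by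
    have := m1 a ha
    rw [hP0, mem_bot] at this
    exact eq_inv_of_mul_eq_one_right this
  obtain ⟨b, hb, hbb⟩ : ∃ b ∈ A, b * b = n * t * n⁻¹ * t⁻¹ :=
    ⟨_ ^ (k + 1), A.pow_mem (hcom n) _, ((Commute.refl _).mul_pow _).symm.trans (hsq _ (hcom n))⟩
  have h1 : b⁻¹ * n ∈ centralizer {t} := by
    rw [mem_centralizer_singleton_iff]
    have h2 : t * b⁻¹ = b * t := by
      have := hinv _ (A.inv_mem hb)
      rw [inv_inv] at this
      exact mul_inv_eq_iff_eq_mul.1 this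
    calc b⁻¹ * n * t = b⁻¹ * (n * t * n⁻¹ * t⁻¹) * t * n := by group
      _ = b * t * n := by rw [← hbb]; group
      _ = t * (b⁻¹ * n) := by rw [← h2]; group
  have : n = b * (b⁻¹ * n) := by group
  rw [this]
  exact mul_mem (mem_sup_left hb) (mem_sup_right h1)

end Cfsg.Agent.S3075
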