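import Cfsg.Statements.S3078
import Mathlib
import Cfsg.Agent.H4.Flag
import Cfsg.Agent.H5.Repl

set_option autoImplicit false
open Cfsg

namespace Cfsg.Agent.S3078

/-- A replacement Theorem for abelian subgroups of p-groups, p odd. Let G be a finite p-group with p odd, A an abelian subgroup of G, and B a subgroup of nilpotency class at most 2 with [B, B] ≤ A, such that A normalizes B but B does not normalize A. Then there is an abelian subgroup A* of G of the same order as A with A ∩ B strictly contained in A* ∩ B, A* contained in N_G(A) and in the normal closure of A, the exponent of A* dividing the exponent of A, and with the subgroup generated by the elements of order dividing p in A of order at most that of the corresponding subgroup of A* (the rank of A is at most the rank of A*). -/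
theorem result {G : Type*} [Group G] [Finite G] {p : ℕ} [Fact p.Prime] (hp : p ≠ 2) (hG : IsPGroup p G) (A B : Subgroup G) (hA : IsMulCommutative A) (hB2 : ⁅⁅B, B⁆, B⁆ = ⊥) (hBA : ⁅B, B⁆ ≤ A) (hAB : A ≤ Subgroup.normalizer (B : Set G)) (hBnA : ¬ B ≤ Subgroup.normalizer (A : Set G)) : ∃ Astar : Subgroup G, IsMulCommutative Astar ∧ Nat.card Astar = Nat.card A ∧ A ⊓ B < Astar ⊓ B ∧ Astar ≤ Subgroup.normalizer (A : Set G) ∧ Astar ≤ Subgroup.normalClosure (A : Set G) ∧ Monoid.exponent Astar ∣ Monoid.exponent A ∧ Nat.card (Cfsg.omegaOne p A) ≤ Nat.card (Cfsg.omegaOne p Astar) := by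
  open Subgroup Cfsg.Agent.H18 Cfsg.Agent.H22 Cfsg.Agent.H4 Cfsg.Agent.H5b in
  open scoped commutatorElement in
  have hS : IsPGroup p ↥(A ⊔ B) := hG.to_subgroup _
  have hSB : A ⊔ B ≤ N[B] := sup_le hAB le_normalizer
  obtain ⟨b, hb, hbN, hbA⟩ := exists_repl_elt hS le_sup_right hSB hBnA
  have h := replData le_sup_left le_sup_right hSB (two_cond (hG.to_subgroup B) fun c => absurd c hp) hA hBA
    hb hbN hbA
  have hpo : Odd p := (Fact.out : p.Prime).odd_of_ne_two hp
  refine ⟨repl b A, h.ab, h.card, h.lt, h.le_N', h.le.trans (sup_le le_normalClosure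
    (cj_le_of_mem_N (mem_N_of_normal _ _) le_normalClosure)), ?_, ?_⟩
  · rw [Monoid.exponent_dvd_iff_forall_pow_eq_one]
    intro x
    refine Subtype.ext (h.pow _ (dvd_choose_two_of_odd ?_) (fun a ha => ?_) x x.2)
    · obtain ⟨n, hn⟩ := pgrp_card (hG.to_subgroup A)
      exact Odd.of_dvd_nat (hpo.pow (n := n)) (hn ▸ Group.exponent_dvd_nat_card)
    · exact congrArg Subtype.val (Monoid.pow_exponent_eq_one (⟨a, ha⟩ : A))
  · have hAC := isMulComm_iff.1 hA
    have hAN : A ≤ (A ⊔ B) ⊓ N[A] := le_inf le_sup_left le_normalizer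
    have hN0 : cj b⁻¹ ((A ⊔ B) ⊓ N[A]) = (A ⊔ B) ⊓ N[A] := cj_eq_of_mem_N (inv_mem hbN)
    have hA'A : cj b⁻¹ A ≤ N[A] := ((cj_mono _ hAN).trans hN0.le).trans inf_le_right
    have hAA' : A ≤ N[cj b⁻¹ A] := by
      refine hAN.trans ?_
      rw [← hN0, ← cj_N]; exact cj_mono _ inf_le_right
    have hA'C : cj b⁻¹ A ≤ C[cj b⁻¹ A] := by rw [← cj_C]; exact cj_mono _ hAC
    refine card_le_of_comm_mem (a := b⁻¹) (omegaOne_le A) (fun z hz => ?_) ?_
    · obtain ⟨hz1, hz2⟩ := (mem_omegaOne_iff hAC).1 hz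
      have hu : b⁻¹ * z * b⁻¹⁻¹ ∈ cj b⁻¹ A := conj_mem_cj hz1
      refine mem_omegaOne (mem_sup_right (by
        rw [commutatorElement_def, inv_inv]; exact mem_cmA b hz1)) ?_
      have hw : ⁅z⁻¹, b⁻¹ * z * b⁻¹⁻¹⁆ ∈ A ⊓ cj b⁻¹ A :=
        (le_inf (comm_le_of_le_N hA'A) (comm_le_of_le_N' hAA')) (commutator_mem_commutator (inv_mem hz1) hu)
      have c1 := commute_of_mem_C (hAC hw.1) (inv_mem hz1)
      have c2 := commute_of_mem_C (hA'C hw.2) hu
      obtain ⟨k, hk⟩ := dvd_choose_two_of_odd hpo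
      rw [commutatorElement_def, H3.mul_pow_of_class_two c2 c1, hk, pow_mul, ← H3.comm_pow_left c1, conj_pow,
        inv_pow, hz2]
      simp
    · rw [cj_omegaOne]
      rintro x ⟨hx, hx'⟩
      obtain ⟨h1, h2⟩ := (mem_omegaOne_iff hA'C).1 hx'
      exact mem_omegaOne (mem_sup_left ⟨hx, h1⟩) h2

end Cfsg.Agent.S3078
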