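import Cfsg.Statements.S3086
import Mathlib
import Cfsg.Agent.H22.PGV

set_option autoImplicit false
open Cfsg

namespace Cfsg.Agent.S3086

/-- The P(G,V)-theorem. Let p be a prime, G a finite group acting faithfully and linearly on a finite vector space V over the field with p elements, and A a nontrivial elementary abelian p-subgroup of G such that |A|·|C_V(A)| ≥ |B|·|C_V(B)| for every subgroup B of A. Then A normalizes every component (subnormal quasisimple subgroup) of G. -/
theorem result {G V : Type*} [Group G] [Finite G] [AddCommGroup V] [Finite V] (p : ℕ) [Fact p.Prime] [Module (ZMod p) V]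
    (ρ : Representation (ZMod p) G V) (hρ : Function.Injective ρ)
    (A : Subgroup G) (hA : A ≠ ⊥) (hAel : Cfsg.IsElementaryAbelian p A)
    (hP : ∀ B : Subgroup G, B ≤ A →
      Nat.card ↥B * Nat.card {v : V // ∀ b ∈ B, ρ b v = v} ≤ Nat.card ↥A * Nat.card {v : V // ∀ a ∈ A, ρ a v = v}) :
    ∀ K : Subgroup G, Cfsg.IsComponent K → A ≤ Subgroup.normalizer (K : Set G) := by
  open Subgroup Cfsg.Agent.FT Cfsg.Agent.P22 SemidirectProduct in
  open scoped commutatorElement Pointwise in
  intro K hK
  let φ : G →* MulAut (Multiplicative V) := (MulAutMultiplicative V).symm.toMonoidHom.comp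
    ((DistribMulAction.toAddAut ((V →ₗ[ZMod p] V)ˣ) V).comp ρ.asGroupHom)
  have hφ : ∀ (a : G) (v : Multiplicative V), (φ a v).toAdd = ρ a v.toAdd := fun a v => rfl
  haveI : Finite (Multiplicative V ⋊[φ] G) := Finite.of_equiv _ SemidirectProduct.equivProd.symm
  let W : Subgroup (Multiplicative V ⋊[φ] G) := (⊤ : Subgroup (Multiplicative V)).map inl
  have nW : ∀ L : Subgroup (Multiplicative V ⋊[φ] G), L ≤ N(W) := fun L => by
    have : W.Normal := by
      show ((⊤ : Subgroup (Multiplicative V)).map inl).Normal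
      rw [← MonoidHom.range_eq_map, range_inl_eq_ker_rightHom]; infer_instance
    exact le_top.trans (nml_top_iff.2 this).nrm
  have cm : ∀ (x : Multiplicative V) (a : G),
      (inr a * inl x : Multiplicative V ⋊[φ] G) = inl x * inr a ↔ ρ a x.toAdd = x.toAdd := fun x a => by
    rw [← mul_inv_eq_iff_eq_mul, ← map_inv, ← inl_aut, inl_injective.eq_iff, ← hφ]
    exact Multiplicative.toAdd.injective.eq_iff.symm
  have cd : ∀ B : Subgroup G, Nat.card {v : V // ∀ b ∈ B, ρ b v = v} = Nat.card ↥(W ⊓ C(B.map inr)) := fun B =>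
    Nat.card_congr (Equiv.ofBijective (fun v => ⟨inl (Multiplicative.ofAdd v.1), ⟨_, trivial, rfl⟩, by
      rintro _ ⟨b, hb, rfl⟩; exact (cm _ _).2 (v.2 b hb)⟩) ⟨fun v w e =>
        Subtype.ext (Multiplicative.ofAdd.injective (inl_injective (congrArg Subtype.val e))), by
      rintro ⟨_, ⟨x, -, rfl⟩, hx⟩
      exact ⟨⟨x.toAdd, fun b hb => (cm _ _).1 (hx _ ⟨b, hb, rfl⟩)⟩, rfl⟩⟩)
  have hW : Abelem p W := Abelem.map (abelem_iff.2 ⟨ab_top.2 inferInstance, fun x _ => by
    apply Multiplicative.toAdd.injective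
    rw [toAdd_pow, ← Nat.cast_smul_eq_nsmul (ZMod p), CharP.cast_eq_zero, zero_smul]; rfl⟩) _
  have hA' : Abelem p (A.map (inr : G →* Multiplicative V ⋊[φ] G)) := Abelem.map hAel _
  have pg : PG p W (A.map inr) (K.map inr) := by
    refine ⟨Fact.out, hW, hA', (H2.isQuasisimple_map_iff_of_injective inr_injective).2 hK.2, nW _, nW _, ?_, fun e => ?_⟩
    · rintro _ ⟨a, -, rfl⟩
      rcases H2.component_eq_or_commutator_eq_bot (H2.isComponent_smul hK a) hK with e | e
      · exact Or.inl (map_norms _ (zpowers_le.2 (cj_eq_self.1 e)) ⟨a, mem_zpowers a, rfl⟩)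
      · rw [← map_cj]; exact Or.inr (map_cents _ (comm_eq_bot.1 e))
    · refine H2.ne_bot_of_isQuasisimple hK.2 (eq_bot_iff.2 fun k hk => hρ ?_)
      rw [map_one]
      exact LinearMap.ext fun v => (cm (Multiplicative.ofAdd v) k).1 (e ⟨k, hk, rfl⟩ _ ⟨_, trivial, rfl⟩).symm
  refine (map_norms_inj inr_injective).1 (pg.norm ⟨fun B hB => ?_, by rw [ab_iff_der.1 hA'.ab]; exact bot_le,
    fun a ha => by rw [hA'.pow ha]; exact one_mem _⟩)
  have e : B = (B.comap inr).map inr := (map_comap_eq_self (hB.trans (map_le_range _ _))).symm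
  rw [e, ← cd, ← cd, card_map_inj inr_injective, card_map_inj inr_injective]
  exact hP _ fun b hb => (mem_map_iff_mem inr_injective).1 (hB hb)

end Cfsg.Agent.S3086
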