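import Cfsg.Statements.S3087
import Mathlib
import Cfsg.Agent.H22.Base

set_option autoImplicit false
open Cfsg

namespace Cfsg.Agent.S3087

/-- Let p be a prime, G a finite group acting linearly on a finite vector space V over the field with p elements, W a G-invariant subspace, and A a subgroup of G with |A|·|C_V(A)| ≥ |B|·|C_V(B)| for every subgroup B of A. Then |A|·|C_W(A)| ≥ |B|·|C_W(B)| for every subgroup B of A that contains C_A(W); that is, the image of A in the group induced on W satisfies the same maximality condition. -/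
theorem result {G V : Type*} [Group G] [Finite G] [AddCommGroup V] [Finite V] (p : ℕ) [Fact p.Prime] [Module (ZMod p) V]
    (ρ : Representation (ZMod p) G V) (W : Submodule (ZMod p) V) (hW : ∀ g : G, ∀ w ∈ W, ρ g w ∈ W)
    (A : Subgroup G)
    (hP : ∀ B : Subgroup G, B ≤ A →
      Nat.card ↥B * Nat.card {v : V // ∀ b ∈ B, ρ b v = v} ≤ Nat.card ↥A * Nat.card {v : V // ∀ a ∈ A, ρ a v = v})
    (B : Subgroup G) (hBA : B ≤ A) (hCB : ∀ a ∈ A, (∀ w ∈ W, ρ a w = w) → a ∈ B) :
    Nat.card ↥B * Nat.card {w : W // ∀ b ∈ B, ρ b w = w} ≤ Nat.card ↥A * Nat.card {w : W // ∀ a ∈ A, ρ a w = w} := by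
  open Subgroup Cfsg.Agent.H22 in
  let F : Subgroup G → AddSubgroup V := fun D =>
    { carrier := {v | ∀ d ∈ D, ρ d v = v}
      add_mem' := fun ha hb d hd => by rw [map_add, ha d hd, hb d hd]
      zero_mem' := fun d _ => map_zero _
      neg_mem' := fun ha d hd => by rw [map_neg, ha d hd] }
  have e1 : ∀ D : Subgroup G, Nat.card {v : V // ∀ d ∈ D, ρ d v = v} = Nat.card (F D).toSubgroup :=
    fun D => rfl
  have e2 : ∀ D : Subgroup G, Nat.card {w : W // ∀ d ∈ D, ρ d w = w} =
      Nat.card ↥((F D).toSubgroup ⊓ W.toAddSubgroup.toSubgroup) := fun D =>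
    Nat.card_congr ⟨fun w => ⟨Multiplicative.ofAdd w.1.1, w.2, w.1.2⟩,
      fun w => ⟨⟨Multiplicative.toAdd w.1, w.2.2⟩, w.2.1⟩, fun _ => rfl, fun _ => rfl⟩
  have h1 := hP B hBA
  rw [e1, e1] at h1
  rw [e2, e2]
  have hle : (F A).toSubgroup ≤ (F B).toSubgroup := fun v hv d hd => hv d (hBA hd)
  have h2 := card_mul_le_card_sup_mul (F A).toSubgroup ((F B).toSubgroup ⊓ W.toAddSubgroup.toSubgroup)
  rw [← inf_assoc, inf_eq_left.2 hle] at h2
  replace h2 := h2.trans (Nat.mul_le_mul_right _ (card_le_of_le (sup_le hle inf_le_left)))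
  refine Nat.le_of_mul_le_mul_left ?_ (card_pos' (F A).toSubgroup)
  calc _ = Nat.card B * (Nat.card (F A).toSubgroup *
        Nat.card ↥((F B).toSubgroup ⊓ W.toAddSubgroup.toSubgroup)) := by ring
    _ ≤ Nat.card B * (Nat.card (F B).toSubgroup *
        Nat.card ↥((F A).toSubgroup ⊓ W.toAddSubgroup.toSubgroup)) := Nat.mul_le_mul_left _ h2
    _ = (Nat.card B * Nat.card (F B).toSubgroup) * _ := (mul_assoc _ _ _).symm
    _ ≤ (Nat.card A * Nat.card (F A).toSubgroup) * _ := Nat.mul_le_mul_right _ h1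
    _ = _ := by ring

end Cfsg.Agent.S3087
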