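import Cfsg.Statements.S3104
import Cfsg.Agent.H17.Sx2
import Cfsg.Agent.S3103

set_option autoImplicit false
open Cfsg

namespace Cfsg.Agent.S3104

/-- Let X be a finite nonsolvable 2-constrained group with no nontrivial normal subgroup of odd order such that O₂(X) has sectional 2-rank at most 4, and write Q for X/O₂(X). Then Q is isomorphic to the projective special linear group of dimension 3 over the field with 2 elements, to an alternating group of degree n with 5 ≤ n ≤ 8, to a symmetric group of degree n with 5 ≤ n ≤ 7, or else O₃(Q) has order 3 and Q/O₃(Q) is isomorphic to the alternating or the symmetric group of degree 5 (so Q is the direct product of a group of order 3 with the alternating group of degree 5, or an extension of that direct product by a group of order 2). If moreover X itself has sectional 2-rank at most 4, then Q is not isomorphic to the symmetric group of degree 6 or 7 nor to the alternating group of degree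 8. -/
theorem result {X : Type*} [Group X] [Finite X] (hns : ¬ Group.IsSolvable X) (hc : Cfsg.IsPConstrained 2 X) (hO : Cfsg.oddCore X = ⊥)
    (h4 : Cfsg.SectionalPRankLE 2 4 ↥(Cfsg.pCore 2 X)) :
    ((∃ (F : Type) (_ : Field F) (_ : Fintype F), Fintype.card F = 2 ∧
          Nonempty (X ⧸ Cfsg.pCore 2 X ≃* Matrix.ProjectiveSpecialLinearGroup (Fin 3) F)) ∨
        (∃ n : ℕ, 5 ≤ n ∧ n ≤ 8 ∧ Nonempty (X ⧸ Cfsg.pCore 2 X ≃* ↥(alternatingGroup (Fin n)))) ∨
        (∃ n : ℕ, 5 ≤ n ∧ n ≤ 7 ∧ Nonempty (X ⧸ Cfsg.pCore 2 X ≃* Equiv.Perm (Fin n))) ∨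
        (Nat.card ↥(Cfsg.pCore 3 (X ⧸ Cfsg.pCore 2 X)) = 3 ∧
          (Nonempty ((X ⧸ Cfsg.pCore 2 X) ⧸ Cfsg.pCore 3 (X ⧸ Cfsg.pCore 2 X) ≃* ↥(alternatingGroup (Fin 5))) ∨
            Nonempty ((X ⧸ Cfsg.pCore 2 X) ⧸ Cfsg.pCore 3 (X ⧸ Cfsg.pCore 2 X) ≃* Equiv.Perm (Fin 5))))) ∧
      (Cfsg.SectionalPRankLE 2 4 X →
        ¬ (Nonempty (X ⧸ Cfsg.pCore 2 X ≃* Equiv.Perm (Fin 6)) ∨ Nonempty (X ⧸ Cfsg.pCore 2 X ≃* Equiv.Perm (Fin 7)) ∨
            Nonempty (X ⧸ Cfsg.pCore 2 X ≃* ↥(alternatingGroup (Fin 8))))) := by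
  have pQ : FT.PGrp 2 (pCore 2 X) := FT.pcore_top' Nat.prime_two (G := X) ▸ FT.pcore_pi _ _
  refine ⟨?_, fun h e => ?_⟩
  · obtain ⟨f, hf⟩ := S3103.result hc hO h4
    rcases H17.Sx.part1 f hf (fun hs => hns ((Group.isSolvable_iff_subgroup_quotient (pCore 2 X)).2 ⟨pQ.sol, hs⟩))
      H2.pCore_quotient_self with (h | h | h | ⟨⟨e⟩⟩) | h
    · exact .inr (.inl h)
    · exact .inr (.inr (.inl ⟨5, le_rfl, by norm_num, h⟩))
    · exact .inr (.inr (.inl ⟨6, by norm_num, by norm_num, h⟩))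
    · exact .inl ⟨ZMod 2, inferInstance, inferInstance, ZMod.card 2, ⟨e.trans H17.Sx.gl_psl.some⟩⟩
    · exact .inr (.inr (.inr h))
  · have k := fun {Q : Type} [Group Q] => H17.Sx.part2 (Q := Q) (GO.charP_of_con hc hO) (GO.sr_of h)
    rcases e with ⟨⟨e⟩⟩ | ⟨⟨e⟩⟩ | ⟨⟨e⟩⟩
    · exact k e (MonoidHom.id _) fun _ _ h => h
    · exact k e _ (Equiv.Perm.viaEmbeddingHom_injective (Fin.castLEEmb (show 6 ≤ 7 by norm_num)))
    · obtain ⟨j, hj⟩ := H17.Sx.s6_a8
      exact k e j hj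

end Cfsg.Agent.S3104
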