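import Cfsg.Statements.S3153
import Mathlib
import Cfsg.Agent.H2.Misc

set_option autoImplicit false
open Cfsg

namespace Cfsg.Agent.S3153

open Cfsg.Agent.FT Subgroup
open scoped commutatorElement

/-- Let X be a finite group and P a standard subgroup of X whose centralizer has 2-rank at most 1 and whose centre has odd order. Let S be a Sylow 2-subgroup of N_X(P) and t an involution of S centralizing P. Suppose some element g of X normalizes S, does not lie in S, has its square in S, and conjugates t into P·C_X(P). Then P commutes elementwise with the largest normal odd-order subgroup O(X) of X; consequently every t-invariant 2-component of X containing P is quasisimple. -/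
theorem result {X : Type*} [Group X] [Finite X] (P : Subgroup X) (hP : Cfsg.IsStandardSubgroup P)
    (hr : Cfsg.PRankLE 2 1 ↥(Subgroup.centralizer (P : Set X))) (hZ : Odd (Nat.card ↥(Subgroup.center ↥P)))
    (S : Sylow 2 ↥(Subgroup.normalizer (P : Set X))) (t : X) (ht : orderOf t = 2) (htS : t ∈ (S : Subgroup ↥(Subgroup.normalizer (P : Set X))).map (Subgroup.normalizer (P : Set X)).subtype)
    (htP : t ∈ Subgroup.centralizer (P : Set X))
    (g : X) (hgN : ∀ s ∈ (S : Subgroup ↥(Subgroup.normalizer (P : Set X))).map (Subgroup.normalizer (P : Set X)).subtype, g * s * g⁻¹ ∈ (S : Subgroup ↥(Subgroup.normalizer (P : Set X))).map (Subgroup.normalizer (P : Set X)).subtype)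
    (hgS : g ∉ (S : Subgroup ↥(Subgroup.normalizer (P : Set X))).map (Subgroup.normalizer (P : Set X)).subtype) (hg2 : g ^ 2 ∈ (S : Subgroup ↥(Subgroup.normalizer (P : Set X))).map (Subgroup.normalizer (P : Set X)).subtype)
    (hgt : g * t * g⁻¹ ∈ P ⊔ Subgroup.centralizer (P : Set X)) :
    ⁅P, Cfsg.oddCore X⁆ = ⊥ ∧
      ∀ L : Subgroup X, Cfsg.IsPComponent 2 L → P ≤ L → (∀ l ∈ L, t * l * t⁻¹ ∈ L) → Cfsg.IsQuasisimple ↥L := by
  have hp := Nat.prime_two
  have hS := syl_map_subtype hp S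
  generalize (S : Subgroup ↥N(P)).map N(P).subtype = T at *
  have hr' := (prankLE_iff_prank hp).1 hr
  have hg : g ∈ N(T) := mem_nrm.2 hgN
  have hu : ∀ u ∈ T, u ∈ C(P) → orderOf u = 2 → u = t := fun u h1 h2 h3 =>
    inv_unique (hS.pi.inf_left C(P)) ((prank_mono 2 inf_le_right).trans hr') h3 ht ⟨h1, h2⟩ ⟨htS, htP⟩
  have h1 : t ∈ C(T) := mem_cen.2 fun s hs => mul_inv_eq_iff_eq_mul.1
    (hu _ (conj_mem (le_nrm T hs) htS) (conj_mem (norms_cent hS.le hs) htP) ((orderOf_conj _ _).trans ht))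
  have h2 : g * (g * t * g⁻¹) * g⁻¹ = t := by
    rw [show g * (g * t * g⁻¹) * g⁻¹ = g ^ 2 * t * (g ^ 2)⁻¹ by rw [pow_two]; group, mem_cen.1 h1 _ hg2]; group
  have hne : g * t * g⁻¹ ≠ t := fun e => hgS (by
    have h3 : g ∈ N(P) := std_cen_le hP ht htP (mem_cen1.2 (mul_inv_eq_iff_eq_mul.1 e))
    have h4 := hS.max (piGrp_of_relIndex' hS.pi (by
      rw [H3.relIndex_sup_zpowers hp hg hgS hg2]; exact (piNat_prime hp).2 rfl)) le_sup_left
      (sup_le hS.le (zpowers_le.2 h3))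
    exact h4.le (mem_sup_right (mem_zpowers g)))
  have hO : O[{2}ᶜ]((⊤ : Subgroup X)) ⊴ ⊤ := pcore_nml _ _
  have h3 : cj g (O[{2}ᶜ](⊤) ⊓ C[t]) = O[{2}ᶜ](⊤) ⊓ C[g * t * g⁻¹] := by
    rw [cj_inf, cj_cen1, cj_of_mem_nrm (hO.nrm (mem_top g))]
  have h4 : C[t * (g * t * g⁻¹)] = cj g C[g * t * g⁻¹ * t] := by
    rw [cj_cen1, show g * (g * t * g⁻¹ * t) * g⁻¹ = g * (g * t * g⁻¹) * g⁻¹ * (g * t * g⁻¹) by group, h2]
  have hu1 := hgN t htS
  have ho : orderOf (g * t * g⁻¹) = 2 := (orderOf_conj _ _).trans ht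
  generalize g * t * g⁻¹ = u at *
  have hc : u * t = t * u := mem_cen.1 h1 u hu1
  have hu2 : u ∉ C(P) := fun h => hne (hu u hu1 h ho)
  have h5 : O[{2}ᶜ](⊤) ⊓ C[t] ≤ C(P) := centsC ((std_comp hP ht htP).cents_sol inf_le_right
    (sol_of_odd ((pcore_pi _ _).inf_left _)) (normsI (le_top.trans hO.nrm) (norms_of_le (le_cen1.2 htP))))
  have h6 : O[{2}ᶜ](⊤) ⊓ C[t] ≤ C[u * t] := by
    obtain ⟨a, ha, c, hc', e⟩ := (mem_sup_norm (cen_le_nrm P)).1 hgt
    have hac : Commute a c := mem_cen.1 hc' a ha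
    have e1 : a ^ 2 * c ^ 2 = 1 := by rw [← hac.mul_pow, ← e, ← ho, pow_orderOf_eq_one]
    have e2 : a ^ 2 ∈ Z(P) := mem_inf.2 ⟨pow_mem ha 2, by rw [eq_inv_of_mul_eq_one_left e1]; exact inv_mem (pow_mem hc' 2)⟩
    have e3 := pow_card e2
    obtain ⟨m, hm⟩ : Odd #Z(P) := by rwa [center_eq_map, card_map_subtype']
    have e4 : u = a ^ #Z(P) * c ^ #Z(P) := by
      rw [← hac.mul_pow, ← e, hm, pow_succ, pow_mul, ← ho, pow_orderOf_eq_one, one_pow, one_mul]
    have e5 : (c ^ #Z(P)) ^ 2 = 1 := by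
      rw [← pow_mul, mul_comm, pow_mul, eq_inv_of_mul_eq_one_right e1, inv_pow, e3, inv_one]
    have ha' := pow_mem ha #Z(P)
    have hc'' := pow_mem hc' #Z(P)
    generalize a ^ #Z(P) = a' at *
    generalize c ^ #Z(P) = c' at *
    have e6 : O[{2}ᶜ](⊤) ⊓ C[t] ≤ C[a'] := h5.trans (cen_le_cen1 ha')
    by_cases h7 : c' = 1
    · rw [h7, mul_one] at e4
      rw [e4]
      exact le_cen1.2 (mul_mem (le_cen1.1 e6) (le_cen1.1 inf_le_right))
    · have e7 : c' = t := eq_of_rank_one hr' (orderOf_eq_prime e5 h7) ht hc'' htP (by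
        have := mem_cen.1 htP a' ha'
        apply mul_left_cancel (a := a')
        rw [← mul_assoc, ← e4, hc, e4, ← mul_assoc, ← this, mul_assoc])
      rwa [e4, e7, mul_assoc, mul_self_of_orderOf ht, mul_one]
  have h7 : O[{2}ᶜ](⊤) ≤ C[t * u] := four_gen ht ho hc.symm hne.symm (pcore_pi _ _) (hO.nrm (mem_top t))
    (hO.nrm (mem_top u)) (hc ▸ h6) (by rw [← h3, h4]; exact cj_mono g h6) inf_le_right
  have h8 : P ≤ C(O[{2}ᶜ]((⊤ : Subgroup X))) := by
    have h9 := (Qs.comm_eq_or hP.1 (zpowers_le.2 (hS.le (mul_mem htS hu1)))).resolve_right fun h =>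
      hu2 (by simpa only [inv_mul_cancel_left] using mul_mem (inv_mem htP) (h (mem_zpowers _)))
    exact h9.ge.trans ((commSS le_rfl (zpowers_le.2 (le_cen1.1 h7))).trans
      (comm_le_right (le_top.trans (norms_cent hO.nrm))))
  refine ⟨comm_eq_bot.2 (centsS (p'core_top hp).ge h8), fun L hL hPL _ => ?_⟩
  have hL' := (isPComponent_iff hp).1 hL
  have h9 := (hL'.pqs.eq_or_npc (subcent_nml (pcore_nrm {2}ᶜ L)).subn).resolve_right fun h =>
    (Qs.pqs_two hP.1).not_npc h (le_inf hPL (centsS hL'.core_le h8))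
  exact hL'.pqs.qs (centsC (h9.ge.trans inf_le_right))

end Cfsg.Agent.S3153
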