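import Mathlib
-- Template for statement S3155 (row 3155; see /opt/grader/pristine/manifest.json for weights).
-- Copy to Cfsg/Agent/S3155.lean and replace the sorry. The statement below is byte-identical to the frozen
-- statement Cfsg.CfsgFrozen.S3155 (Cfsg/Statements/S3155.lean; the theorem Cfsg.inversion_of_homocyclic_rank_three_exponent_four_not_square);
-- the grader kernel-checks Cfsg.Agent.S3155.result against that frozen type. Keep the theorem IN THIS FILE
-- (a `result` declared elsewhere and merely imported here is not credited); helpers may live anywhere
-- under Cfsg/Agent/.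
import Cfsg.Statements.S3155
-- import your own Cfsg.Agent.* helpers here

set_option autoImplicit false
open Cfsg

namespace Cfsg.Agent.S3155

/-- Let B be the direct product of three cyclic groups of order 4. Then the automorphism of B inverting every element is not the square of any automorphism of B. -/
theorem result {B : Type*} [CommGroup B] [Finite B] (hB : Nonempty (B ≃* Multiplicative (ZMod 4 × ZMod 4 × ZMod 4)))
    (τ : B ≃* B) : τ.trans τ ≠ MulEquiv.inv B := by
  open Cfsg in
  · obtain ⟨e⟩ := hB
    intro h
    haveI : Fact (1 < 4) := ⟨by norm_num⟩
    let f : ZMod 4 × ZMod 4 × ZMod 4 →+ ZMod 4 × ZMod 4 × ZMod 4 := MonoidHom.toAdditive (e.symm.trans (τ.trans e)).toMonoidHom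
    have h1 : f.toZModLinearMap 4 ∘ₗ f.toZModLinearMap 4 = (-1 : ZMod 4) • LinearMap.id := LinearMap.ext fun x => by
      have := DFunLike.congr_fun h (e.symm (Multiplicative.ofAdd x))
      simp only [MulEquiv.trans_apply, MulEquiv.inv_apply] at this
      change Multiplicative.toAdd (e (τ (e.symm (e (τ (e.symm (Multiplicative.ofAdd x))))))) = _
      simp [this]
    have h2 := congrArg LinearMap.det h1
    rw [LinearMap.det_comp, LinearMap.det_smul, LinearMap.det_id] at h2
    simp only [Module.finrank_prod, Module.finrank_self] at h2
    revert h2
    generalize LinearMap.det (f.toZModLinearMap 4) = d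
    revert d; decide

end Cfsg.Agent.S3155
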