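import Cfsg.Statements.S3779
import Mathlib
import Cfsg.Agent.H1.Alperin

set_option autoImplicit false
open Cfsg

namespace Cfsg.Agent.S3779

open Cfsg.Agent.FT Cfsg.Agent.H1 Subgroup SemidirectProduct

/-- Let G be a finite group with an automorphism of prime order p fixing only the identity. Then G is nilpotent; if p = 2 then G is abelian, if p = 3 then G has class at most 2, and in general the class of G is at most ξ = 1 + (p−1) + (p−1)² + ⋯ + (p−1)^(n−1) with n = 2^(p−1) − 1 (the Higman–Kreknin–Kostrikin bound). -/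
theorem result {G : Type*} [Group G] [Finite G] {p : ℕ} (hp : p.Prime) (α : MulAut G) (hα : orderOf α = p) (hfpf : ∀ g : G, α g = g → g = 1) : (p = 2 → (⊤ : Subgroup G).lowerCentralSeries 1 = ⊥) ∧ (p = 3 → (⊤ : Subgroup G).lowerCentralSeries 2 = ⊥) ∧ (⊤ : Subgroup G).lowerCentralSeries (Finset.sum (Finset.range (2 ^ (p - 1) - 1)) (fun i => (p - 1) ^ i)) = ⊥ := by
  haveI : Fact p.Prime := ⟨hp⟩
  haveI := sd_finite (MonoidHom.id (MulAut G))
  have key : ∀ h, Krek.HB p h → (⊤ : Subgroup G).lowerCentralSeries h = ⊥ := fun h H => by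
    have := lcs_eq_bot_of_fpf H (sd_norms (MonoidHom.id (MulAut G)) ⊤ (mem_top (inr α)))
      (by rw [← map_pow, show α ^ p = 1 from hα ▸ pow_orderOf_eq_one α, map_one]) (le_bot_iff.1 (by
        rintro _ ⟨⟨x, -, rfl⟩, hx⟩
        rw [hfpf x ((sd_comm _).1 (mem_cen1.1 hx).symm)]; exact mem_bot.2 (MonoidHom.map_one _)))
    rwa [← map_lowerCentralSeries, map_eq_bot_iff_of_injective _ inl_injective] at this
  have h := key _ fun _ _ _ => Krek.higman
  refine ⟨?_, ?_, h⟩ <;> rintro rfl
  · simpa using h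
  · exact key _ fun _ _ _ => Krek.higman_three

end Cfsg.Agent.S3779
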