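import Cfsg.Statements.S3157
import Cfsg.Agent.H3.L34b
import Cfsg.Agent.S3779
import Cfsg.Agent.H10.SmallId
-- import your own Cfsg.Agent.* helpers here

set_option autoImplicit false
open Cfsg

namespace Cfsg.Agent.S3157

open Subgroup
open scoped commutatorElement MatrixGroups

instance f4 : Fact (∀ r : ZMod 2, r ^ 2 ≠ 1 + 1 * r) := ⟨by decide⟩

abbrev K := QuadraticAlgebra (ZMod 2) 1 1

noncomputable instance : Fintype K := Fintype.ofEquiv _ (QuadraticAlgebra.equivProd 1 1).symm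

theorem cardK : Fintype.card K = 4 := by rw [Fintype.ofEquiv_card]; rfl

theorem indK {P : K → Prop} (h1 : P ⟨1, 0⟩) (h2 : P ⟨0, 1⟩) (h : ∀ s t, P s → P t → P (s + t))
    (s : K) : P s := by
  have a : ∀ r : ZMod 2, r = 0 ∨ r = 1 := by decide
  obtain ⟨i, j⟩ := s
  rcases a i with rfl | rfl <;> rcases a j with rfl | rfl
  exacts [h _ _ h1 h1, h2, h1, h _ _ h1 h2]

section
variable {T : Type*} [Group T]

def ph (g h : T) (s : K) : T := H10.zpowZMod g s.re * H10.zpowZMod h s.im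

theorem ph_add {g h : T} (hg : g * g = 1) (hh : h * h = 1) (c : Commute g h) (s t : K) :
    ph g h (s + t) = ph g h s * ph g h t := by
  have : Commute (H10.zpowZMod h s.im) (H10.zpowZMod g t.re) := c.symm.zpow_zpow _ _
  rw [ph, ph, ph, QuadraticAlgebra.re_add, QuadraticAlgebra.im_add, H10.zpowZMod_add (by rwa [sq]),
    H10.zpowZMod_add (by rwa [sq]), mul_assoc, mul_assoc, ← mul_assoc (H10.zpowZMod h s.im),
    this.eq, mul_assoc]

theorem ph10 (g h : T) : ph g h ⟨1, 0⟩ = g := by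
  show g ^ (1 : ℤ) * h ^ (0 : ℤ) = g
  simp

theorem ph01 (g h : T) : ph g h ⟨0, 1⟩ = h := by
  show g ^ (0 : ℤ) * h ^ (1 : ℤ) = h
  simp

theorem ph11 (g h : T) : ph g h ⟨1, 1⟩ = g * h := by
  show g ^ (1 : ℤ) * h ^ (1 : ℤ) = g * h
  simp

theorem ph0 (g h : T) : ph g h 0 = 1 := by
  show g ^ (0 : ℤ) * h ^ (0 : ℤ) = 1
  simp

structure Hy (ρ : MulAut T) : Prop where
  h3 : ∀ y, ρ (ρ (ρ y)) = y
  fp : ∀ y, ρ y = y → y = 1
  cc : ∀ u v : T, ⁅u, v⁆ ∈ center T
  card : Nat.card T = 64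
  na : ∃ u, u ∉ center T

namespace Hy
variable [Finite T] {ρ : MulAut T} (h : Hy ρ)
include h

theorem prod (y : T) : y * ρ y * ρ (ρ y) = 1 := by
  simpa [List.range_succ, mul_assoc] using MonoidHom.FixedPointFree.prod_pow_eq_one (φ := ρ) h.fp
    (n := 3) (funext h.h3) y

theorem com (y : T) : Commute y (ρ y) := by
  have := h.prod y⁻¹
  rw [map_inv, map_inv, ← mul_inv_rev, ← mul_inv_rev, inv_eq_one] at this
  exact (eq_inv_of_mul_eq_one_left (h.prod y)).trans (eq_inv_of_mul_eq_one_right this).symm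

omit [Finite T] in
theorem ml (u v w : T) : ⁅u * v, w⁆ = ⁅u, w⁆ * ⁅v, w⁆ := by
  rw [mem_center_iff.1 (h.cc v w), show ⁅u * v, w⁆ = u * ⁅v, w⁆ * u⁻¹ * ⁅u, w⁆ by group,
    mem_center_iff.1 (h.cc v w), mul_inv_cancel_right]

omit [Finite T] in
theorem mr (u v w : T) : ⁅w, u * v⁆ = ⁅w, u⁆ * ⁅w, v⁆ := by
  rw [show ⁅w, u * v⁆ = ⁅w, u⁆ * (u * ⁅w, v⁆ * u⁻¹) by group, mem_center_iff.1 (h.cc w v),
    mul_inv_cancel_right]

theorem lin (u v : T) : ⁅u, ρ v⁆ = ⁅ρ u, v⁆ := by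
  have := (h.com (u * v)).commutator_eq
  rw [map_mul, h.ml, h.mr, h.mr, (h.com u).commutator_eq, (h.com v).commutator_eq, one_mul,
    mul_one, mul_eq_one_iff_eq_inv, commutatorElement_inv] at this
  exact this

theorem lin2 (u v : T) : ⁅u, ρ v⁆ = ρ (ρ ⁅u, v⁆) := by
  rw [map_commutatorElement, map_commutatorElement, ← h.lin (ρ u), ← h.lin u, h.h3]

theorem cardH (H : Subgroup T) (hH : ∀ y ∈ H, ρ y ∈ H) :
    Nat.card H = 1 ∨ Nat.card H = 4 ∨ Nat.card H = 16 ∨ Nat.card H = 64 := by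
  classical
  have := Fintype.ofFinite H
  have a := Equiv.Perm.card_fixedPoints_modEq (α := H) (f := fun y => ⟨ρ y, hH _ y.2⟩) (p := 3)
    (n := 1) (funext fun y => Subtype.ext (h.h3 y))
  have c : Nat.card (Function.fixedPoints fun y : H => (⟨ρ y, hH _ y.2⟩ : H)) = 1 :=
    Nat.card_eq_one_iff_exists.2 ⟨⟨1, Subtype.ext (map_one ρ)⟩, fun y => Subtype.ext (Subtype.ext
    (h.fp _ (congrArg Subtype.val y.2)))⟩
  rw [← Nat.card_eq_fintype_card, ← Nat.card_eq_fintype_card, c] at a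
  have b := card_subgroup_dvd_card H
  rw [h.card, show 64 = 2 ^ 6 from rfl, Nat.dvd_prime_pow Nat.prime_two] at b
  obtain ⟨k, k1, k2⟩ := b
  rw [k2] at a ⊢
  interval_cases k <;> simp_all [Nat.ModEq]

omit h [Finite T] in
theorem rz (σ : MulAut T) {y : T} (hy : y ∈ center T) : σ y ∈ center T := mem_center_iff.2 fun g => by
  obtain ⟨g, rfl⟩ := σ.surjective g
  rw [← map_mul, mem_center_iff.1 hy, map_mul]

omit h in
theorem lt {A B : Subgroup T} (l : A ≤ B) {y : T} (a : y ∉ A) (b : y ∈ B) :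
    Nat.card A < Nat.card B := by
  by_contra! e
  exact a (eq_of_le_of_card_ge l e ▸ b)

theorem inv (c : T) : ∀ y ∈ centralizer {c}, ρ y ∈ centralizer {c} := fun y hy => by
  rw [mem_centralizer_singleton_iff, eq_comm, ← commutatorElement_eq_one_iff_mul_comm] at hy ⊢
  rw [h.lin2, hy, map_one, map_one]

theorem cards {c : T} (hc : c ∉ center T) :
    Nat.card (center T) = 4 ∧ Nat.card (centralizer {c}) = 16 := by
  obtain ⟨v, hv⟩ := not_forall.1 (mt mem_center_iff.2 hc)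
  have a1 := lt (bot_le (a := center T)) (y := ⁅v, c⁆)
    (by rwa [mem_bot, commutatorElement_eq_one_iff_mul_comm]) (h.cc _ _)
  have a2 := lt (center_le_centralizer {c}) hc (mem_centralizer_singleton_iff.2 rfl)
  have a3 := lt (le_top (a := centralizer {c})) (mt mem_centralizer_singleton_iff.1 hv) trivial
  rw [card_top, h.card] at a3
  rw [card_bot] at a1
  have := h.cardH _ fun y => rz ρ
  have := h.cardH _ (h.inv c)
  omega

theorem inf {c d : T} (e : ⁅c, d⁆ ≠ 1) {y : T} (h1 : ⁅c, y⁆ = 1) (h2 : ⁅d, y⁆ = 1) :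
    y ∈ center T := by
  rw [Ne, commutatorElement_eq_one_iff_mul_comm] at e
  rw [commutatorElement_eq_one_iff_mul_comm] at h1 h2
  obtain ⟨a, b⟩ := h.cards (c := c) fun r => e (mem_center_iff.1 r d).symm
  have l : center T ≤ centralizer {c} ⊓ centralizer {d} :=
    le_inf (center_le_centralizer _) (center_le_centralizer _)
  have a1 := lt (inf_le_left (a := centralizer {c}) (b := centralizer {d})) (y := c)
    (fun r => e (mem_centralizer_singleton_iff.1 r.2)) (mem_centralizer_singleton_iff.2 rfl)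
  have := h.cardH (centralizer {c} ⊓ centralizer {d}) fun y r => ⟨h.inv c y r.1, h.inv d y r.2⟩
  have := card_le_of_le l
  rw [eq_of_le_of_card_ge l (by omega)]
  exact ⟨mem_centralizer_singleton_iff.2 h1.symm, mem_centralizer_singleton_iff.2 h2.symm⟩

theorem enum {z w : T} (hz : z ∈ center T) (z1 : z ≠ 1) (hw : w ∈ center T) :
    w = 1 ∨ w = z ∨ w = ρ z ∨ w = ρ (ρ z) := by
  obtain ⟨u, hu⟩ := h.na
  have a : ρ z ≠ z := mt (h.fp z) z1
  have b : ρ (ρ z) ≠ z := fun r => a (by rw [← congrArg ρ r, h.h3])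
  have : ({1, z, ρ z, ρ (ρ z)} : Set T) = center T := Set.eq_of_subset_of_ncard_le (by
    rintro _ (rfl | rfl | rfl | rfl)
    exacts [one_mem _, hz, rz ρ hz, rz ρ (rz ρ hz)]) (by
    rw [Set.ncard_insert_of_notMem (by simp [z1.symm, eq_comm (a := (1 : T)), z1]),
      Set.ncard_insert_of_notMem (by simp [a.symm, b.symm]), Set.ncard_pair (by simp [a.symm])]
    exact (h.cards hu).1.le)
  exact this.ge hw

theorem zsq {w : T} (hw : w ∈ center T) : w * w = 1 := by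
  obtain ⟨u, hu⟩ := h.na
  obtain ⟨⟨z, hz⟩, o⟩ := exists_prime_orderOf_dvd_card' (G := center T) 2 (by
    rw [(h.cards hu).1]; decide)
  rw [← orderOf_coe] at o
  have z2 : z * z = 1 := by rw [← sq, ← o, pow_orderOf_eq_one]
  rcases h.enum hz (fun r => by simp [r] at o) hw with rfl | rfl | rfl | rfl <;>
    simp [← map_mul, z2]

theorem usq (u : T) : u * u ∈ center T := mem_center_iff.2 fun g => by
  rw [← commutatorElement_eq_one_iff_mul_comm, h.mr, h.zsq (h.cc _ _)]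

theorem sym (u v : T) : ⁅v, u⁆ = ⁅u, v⁆ := by
  rw [← commutatorElement_inv, inv_eq_of_mul_eq_one_right (h.zsq (h.cc _ _))]

theorem sqm (u v : T) : u * v * (u * v) = ⁅u, v⁆ * (u * u) * (v * v) := by
  rw [← h.sym, show u * v * (u * v) = u * ⁅v, u⁆ * u * (v * v) by group,
    mem_center_iff.1 (h.cc v u), mul_assoc _ u u]

theorem z12 {z : T} (hz : z ∈ center T) : ρ z * ρ (ρ z) = z :=
  mul_left_cancel (a := z) (by rw [← mul_assoc, h.prod, h.zsq hz])

theorem heis {a b : T} (ha : a * a = 1) (hb : b * b = 1) (e : ⁅a, b⁆ ≠ 1) :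
    Nonempty (T ≃* H3.L34.UU K) := by
  have hz := h.cc a b
  set z := ⁅a, b⁆ with z0
  have sq : ∀ {a : T}, a * a = 1 → ρ a * ρ a = 1 := fun r => by rw [← map_mul, r, map_one]
  have pa := ph_add ha (sq ha) (h.com a)
  have pb := ph_add hb (sq hb) (h.com b)
  have pz := ph_add (h.zsq hz) (sq (sq (h.zsq hz))) (mem_center_iff.1 hz _).symm
  have zc : ∀ s, ph z (ρ (ρ z)) s ∈ center T := fun s =>
    mul_mem (zpow_mem hz _) (zpow_mem (rz ρ (rz ρ hz)) _)
  have z2 : z * ρ (ρ z) = ρ z := by simpa [h.h3, ← mem_center_iff.1 hz] using h.z12 (rz ρ hz)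
  have f : ∀ s t, ⁅ph a (ρ a) s, ph b (ρ b) t⁆ = ph z (ρ (ρ z)) (s * t) := by
    refine indK ?_ ?_ fun s s' a1 a2 t => by rw [pa, h.ml, a1, a2, add_mul, pz]
    all_goals refine indK ?_ ?_ fun t t' a1 a2 => by rw [pb, h.mr, a1, a2, mul_add, pz]
    · show _ = ph z (ρ (ρ z)) ⟨1, 0⟩
      rw [ph10, ph10, ph10]
    · show _ = ph z (ρ (ρ z)) ⟨0, 1⟩
      rw [ph10, ph01, ph01, h.lin2]
    · show _ = ph z (ρ (ρ z)) ⟨0, 1⟩
      rw [ph10, ph01, ph01, ← h.lin, h.lin2]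
    · show _ = ph z (ρ (ρ z)) ⟨1, 1⟩
      rw [ph11, ph01, ph01, ← map_commutatorElement, z2]
  have iz : ∀ s, ph z (ρ (ρ z)) s = 1 → s = 0 := by
    have a : ∀ r : ZMod 2, r = 0 ∨ r = 1 := by decide
    rintro ⟨i, j⟩ r
    rcases a i with rfl | rfl <;> rcases a j with rfl | rfl
    · rfl
    · simp [ph01, e] at r
    · simp [ph10, e] at r
    · simp [ph11, z2, e] at r
  have ca : ∀ s t, ⁅ph a (ρ a) s, ph a (ρ a) t⁆ = 1 := fun s t => by
    rw [commutatorElement_eq_one_iff_mul_comm, ← pa, ← pa, add_comm]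
  have cb : ∀ s t, ⁅ph b (ρ b) s, ph b (ρ b) t⁆ = 1 := fun s t => by
    rw [commutatorElement_eq_one_iff_mul_comm, ← pb, ← pb, add_comm]
  have cz : ∀ s (g : T), ⁅ph z (ρ (ρ z)) s, g⁆ = 1 := fun s g => by
    rw [commutatorElement_eq_one_iff_mul_comm, mem_center_iff.1 (zc s)]
  let Φ : H3.L34.UU K →* T := MonoidHom.mk' (fun g => ph z (ρ (ρ z)) (g.1.1 0 2) *
    ph b (ρ b) (g.1.1 1 2) * ph a (ρ a) (g.1.1 0 1)) (by
    rintro ⟨_, r, s, t, rfl⟩ ⟨_, r', s', t', rfl⟩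
    simp only [Subgroup.coe_mul, H3.L34.u_mul]
    show ph z _ (t + t' + r * s') * ph b _ (s + s') * ph a _ (r + r') =
      ph z _ t * ph b _ s * ph a _ r * (ph z _ t' * ph b _ s' * ph a _ r')
    rw [pa, pb, pz, pz, mul_assoc (ph z _ t * _), ← mul_assoc (ph z _ _) (ph b _ s),
      ← mem_center_iff.1 (zc (r * s')), ← f, ← mul_assoc _ (ph z _ t' * _), ← mul_assoc _ (ph z _ t'),
      mem_center_iff.1 (zc t') (_ * _), mem_center_iff.1 (zc t') (ph z _ t)]
    group)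
  refine ⟨(MulEquiv.ofBijective Φ (Function.Injective.bijective_of_nat_card_le
    ((injective_iff_map_eq_one Φ).2 ?_) ?_)).symm⟩
  · rintro ⟨_, r, s, t, rfl⟩ (q : ph z _ t * ph b _ s * ph a _ r = 1)
    have q1 := congrArg (⁅·, ph b (ρ b) 1⁆) q
    have q2 := congrArg (⁅·, ph a (ρ a) 1⁆) q
    simp only [h.ml, cz, ca, cb, f, one_mul, mul_one, commutatorElement_one_left] at q1 q2
    rw [h.sym, f, one_mul] at q2
    rw [iz _ q1, iz _ q2, ph0, ph0, mul_one, mul_one] at q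
    exact Subtype.ext (by rw [iz _ q1, iz _ q2, iz _ q]; exact H3.L34.u_zero)
  · rw [h.card, H3.L34.card_UU, Nat.card_eq_fintype_card, cardK]; rfl

variable {x : MulAut T} (x2 : ∀ y, x (x y) = y) (xr : ∀ y, x (ρ y) = ρ (ρ (x y)))
include x2 xr

theorem cd : ∃ c d : T, x c = c ∧ x d = d ∧ ⁅c, d⁆ = c * c ∧ c * c ≠ 1 ∧ (d * d = 1 ∨ d * d = c * c) ∧
    ∀ e, x e = e → e ∈ closure {c, d} := by
  obtain ⟨u, hu⟩ := h.na
  obtain ⟨z, hz, z1, xz⟩ : ∃ z ∈ center T, z ≠ 1 ∧ x z = z := by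
    obtain ⟨v, hv⟩ := not_forall.1 (mt mem_center_iff.2 hu)
    rw [← commutatorElement_eq_one_iff_mul_comm] at hv
    by_cases e : x ⁅v, u⁆ = ⁅v, u⁆
    · exact ⟨_, h.cc _ _, hv, e⟩
    · refine ⟨⁅v, u⁆ * x ⁅v, u⁆, mul_mem (h.cc _ _) (rz x (h.cc _ _)), fun r => e ?_, ?_⟩
      · exact mul_left_cancel (r.trans (h.zsq (h.cc _ _)).symm)
      · rw [map_mul, x2, mem_center_iff.1 (h.cc v u)]
  have zx : ∀ w ∈ center T, x w = w → w = 1 ∨ w = z := fun w hw e => by
    rcases h.enum hz z1 hw with r | r | rfl | rfl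
    exacts [.inl r, .inr r, absurd (h.fp _ (by simpa [xr, xz] using e)) z1,
      absurd (h.fp _ (by simpa [xr, xz, h.h3, eq_comm] using e)) z1]
  have fix : ∀ y, x y * y⁻¹ ∈ center T → ∃ w ∈ center T, x (y * w) = y * w := fun y hy => by
    have : x (x y * y⁻¹) = x y * y⁻¹ := by
      rw [map_mul, map_inv, x2, ← inv_eq_of_mul_eq_one_right (h.zsq hy), mul_inv_rev, inv_inv]
    rcases zx _ hy this with r | r
    · exact ⟨1, one_mem _, by rw [mul_one, mul_inv_eq_one.1 r]⟩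
    · refine ⟨ρ z, rz ρ hz, ?_⟩
      have := h.z12 (rz ρ hz)
      rw [h.h3] at this
      rw [map_mul, xr, xz, mul_inv_eq_iff_eq_mul.1 r, ← mem_center_iff.1 hz, mul_assoc,
        ← mem_center_iff.1 hz, this]
  have fx : ∀ v, x (v * x v) * (v * x v)⁻¹ ∈ center T := fun v => by
    rw [map_mul, x2, show x v * v * (v * x v)⁻¹ = ⁅x v, v⁆ by group]; exact h.cc _ _
  obtain ⟨c, hc, xc⟩ : ∃ c ∉ center T, x c = c := by
    obtain ⟨y, y1, y2⟩ : ∃ y ∉ center T, x y * y⁻¹ ∈ center T := by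
      by_cases e : u * x u ∈ center T
      · refine ⟨u, hu, ?_⟩
        rw [show x u * u⁻¹ = u⁻¹ * (u * x u) * u * (u * u)⁻¹ by group]
        exact mul_mem (Normal.conj_mem' inferInstance _ e u) (inv_mem (h.usq u))
      · exact ⟨_, e, fx u⟩
    obtain ⟨w, hw, e⟩ := fix y y2
    exact ⟨_, fun r => y1 ((mul_mem_cancel_right hw).1 r), e⟩
  obtain ⟨d, xd, cd⟩ : ∃ d, x d = d ∧ ⁅c, d⁆ = z := by
    obtain ⟨v, hv⟩ : ∃ v, ⁅c, v⁆ = ρ z := by
      obtain ⟨v, hv⟩ := not_forall.1 (mt mem_center_iff.2 hc)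
      rw [eq_comm, ← commutatorElement_eq_one_iff_mul_comm] at hv
      rcases h.enum hz z1 (h.cc c v) with r | r | r | r
      exacts [absurd r hv, ⟨ρ (ρ v), by rw [h.lin2, h.lin2, r, h.h3]⟩, ⟨v, r⟩,
        ⟨ρ v, by rw [h.lin2, r, h.h3]⟩]
    obtain ⟨w, hw, e⟩ := fix _ (fx v)
    refine ⟨_, e, ?_⟩
    rw [h.mr, h.mr, commutatorElement_eq_one_iff_mul_comm.2 (mem_center_iff.1 hw c), mul_one, hv,
      ← xc, ← map_commutatorElement, hv, xr, xz, h.z12 hz]
  have sq : ∀ c, x c = c → c * c = 1 ∨ c * c = z := fun c e => zx _ (h.usq c) (by rw [map_mul, e])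
  obtain ⟨c, d, xc, xd, cd, cc⟩ : ∃ c d, x c = c ∧ x d = d ∧ ⁅c, d⁆ = z ∧ c * c = z := by
    rcases sq c xc with r | r
    · rcases sq d xd with s | s
      · exact ⟨c * d, d, by rw [map_mul, xc, xd], xd, by simp [h.ml, cd], by simp [h.sqm, r, s, cd]⟩
      · exact ⟨d, c, xd, xc, by rw [h.sym, cd], s⟩
    · exact ⟨c, d, xc, xd, cd, r⟩
  refine ⟨c, d, xc, xd, cd.trans cc.symm, cc ▸ z1, cc ▸ sq d xd, ?_⟩
  have mc : c ∈ closure {c, d} := subset_closure (by simp)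
  have md : d ∈ closure {c, d} := subset_closure (by simp)
  have k : ∀ c e : T, x c = c → x e = e → ⁅c, e⁆ = 1 ∨ ⁅c, e⁆ = z := fun c e a b =>
    zx _ (h.cc _ _) (by rw [map_commutatorElement, a, b])
  have b0 : ∀ e, x e = e → ⁅c, e⁆ = 1 → ⁅d, e⁆ = 1 → e ∈ closure {c, d} := fun e a b1 b2 => by
    rcases zx e (h.inf (cd ▸ z1) b1 b2) a with r | r <;> rw [r]
    exacts [one_mem _, cc ▸ mul_mem mc mc]
  have b1 : ∀ e, x e = e → ⁅c, e⁆ = 1 → e ∈ closure {c, d} := fun e a b => by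
    rcases k d e xd a with r | r
    · exact b0 e a b r
    · exact (mul_mem_cancel_right mc).1 (b0 _ (by rw [map_mul, a, xc]) (by simp [h.mr, b])
        (by rw [h.mr, r, h.sym, cd, h.zsq hz]))
  intro e a
  rcases k c e xc a with r | r
  · exact b1 e a r
  · exact (mul_mem_cancel_right md).1 (b1 _ (by rw [map_mul, a, xd]) (by rw [h.mr, r, cd, h.zsq hz]))

theorem main : Nonempty (T ≃* H3.L34.UU K) ∧ ∀ C : Subgroup T, (∀ y, y ∈ C ↔ x y = y) →
    Nonempty (C ≃* DihedralGroup 4) ∨ Nonempty (C ≃* QuaternionGroup 2) := by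
  obtain ⟨c, d, xc, xd, cd, c1, dd, gen⟩ := h.cd x2 xr
  have hz := h.usq c
  have o : orderOf c = 2 ^ 2 := orderOf_eq_prime_pow (by rwa [pow_one, sq])
    (by rw [show 2 ^ (1 + 1) = 2 * 2 from rfl, pow_mul, sq, sq, h.zsq hz])
  have i : d * c * d⁻¹ = c⁻¹ := by
    rw [show d * c * d⁻¹ = (c⁻¹ * ⁅c, d⁆)⁻¹ by group, cd, inv_mul_cancel_left]
  have n : d ∉ zpowers c := by
    rintro ⟨k, rfl⟩
    exact c1 (cd.symm.trans ((Commute.refl c).zpow_right k).commutator_eq)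
  refine ⟨?_, fun C hC => ?_⟩
  · rcases dd with r | r
    · exact h.heis (a := c * d) (by rw [h.sqm, cd, r, mul_one, h.zsq hz]) r (by simpa [h.ml, cd])
    set z := c * c with z0
    have p := h.z12 (rz ρ (rz ρ hz))
    have q := h.z12 (rz ρ hz)
    rw [h.h3] at q
    simp only [h.h3] at p
    refine h.heis (a := c * ρ d) (b := c * ρ (ρ d)) ?_ ?_ ?_
    · rw [h.sqm, h.lin2, cd, ← map_mul, r, q, h.zsq (rz ρ hz)]
    · rw [h.sqm, h.lin2, h.lin2, h.h3, cd, ← map_mul, ← map_mul, r, mem_center_iff.1 hz, p,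
        h.zsq (rz ρ (rz ρ hz))]
    · rwa [h.ml, h.mr, h.mr, (h.com (ρ d)).commutator_eq, h.sym c (ρ d), h.lin2, h.lin2, h.h3,
        cd, commutatorElement_self, one_mul, mul_one, h.z12 hz]
  obtain rfl : C = closure {c, d} := le_antisymm (fun e a => gen e ((hC e).1 a)) (by
    rw [closure_le]; rintro _ (rfl | rfl) <;> exact (hC _).2 ‹_›)
  rcases dd with r | r
  · have := H10.nonempty_closure_equiv_dihedral r i n
    rw [o] at this
    exact .inl this
  · have c4 : c ^ (2 * 2) = 1 := by rw [pow_mul, sq, sq, h.zsq hz]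
    rw [← H10.quaternionHom_range c4 (r.trans (sq c).symm) i]
    exact .inr ⟨(MonoidHom.ofInjective (H10.quaternionHom_injective _ _ i o n)).symm⟩

end Hy
end


/-- Let T be a non-abelian group of order 64 admitting automorphisms ρ of order 3 and x of order 2 with x ρ x⁻¹ = ρ⁻¹ (so they generate a symmetric group of degree 3), where ρ fixes only the identity. Then T is isomorphic to a Sylow 2-subgroup of the projective special linear group of dimension 3 over the field with 4 elements, and the subgroup of fixed points of x is dihedral of order 8 or quaternion of order 8. -/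
theorem result {T : Type*} [Group T] [Finite T] (hT : Nat.card T = 64) (hna : ¬ IsMulCommutative T) (ρ x : MulAut T) (hρ : orderOf ρ = 3) (hx : orderOf x = 2)
    (hxr : x * ρ * x⁻¹ = ρ⁻¹) (hfp : ∀ y : T, ρ y = y → y = 1) (C : Subgroup T) (hC : ∀ y : T, y ∈ C ↔ x y = y) :
    (∃ (F : Type) (_ : Field F) (_ : Fintype F), Fintype.card F = 4 ∧
        ∃ S : Sylow 2 (Matrix.ProjectiveSpecialLinearGroup (Fin 3) F), Nonempty (T ≃* ↥(S : Subgroup (Matrix.ProjectiveSpecialLinearGroup (Fin 3) F)))) ∧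
      (Nonempty (↥C ≃* DihedralGroup 4) ∨ Nonempty (↥C ≃* QuaternionGroup 2)) := by
  have h : Hy ρ := ⟨fun y => by
      rw [← MulAut.mul_apply, ← MulAut.mul_apply, ← pow_three', ← hρ, pow_orderOf_eq_one]; rfl,
    hfp, fun u v => by
      have := (S3779.result Nat.prime_three ρ hρ hfp).2.1 rfl
      rw [Subgroup.lowerCentralSeries_succ, commutator_eq_bot_iff_le_centralizer, coe_top,
        centralizer_univ] at this
      exact this (commutator_mem_commutator trivial trivial), hT,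
    by_contra fun e => hna ⟨⟨fun a b => mem_center_iff.1 (not_not.1 (not_exists.1 e b)) a⟩⟩⟩
  obtain ⟨⟨e⟩, a⟩ := h.main (x := x) (fun y => by
    rw [← MulAut.mul_apply, ← sq, ← hx, pow_orderOf_eq_one]; rfl) fun y => by
    rw [← MulAut.mul_apply, mul_inv_eq_iff_eq_mul.1 hxr, MulAut.mul_apply, MulAut.inv_apply,
      MulEquiv.symm_apply_eq, h.h3]
  refine ⟨⟨K, inferInstance, inferInstance, cardK, ?_⟩, a C hC⟩
  have i : Function.Injective ((QuotientGroup.mk' (center SL(3, K))).comp (H3.L34.UU K).subtype) :=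
    fun a b r => Subtype.ext (H3.L34.pi_inj cardK a.2 b.2 r)
  have f := e.trans (MonoidHom.ofInjective i)
  refine ⟨Sylow.ofCard (G := Matrix.ProjectiveSpecialLinearGroup (Fin 3) K) _ ?_, ⟨f⟩⟩
  refine (Nat.card_congr f.toEquiv).symm.trans ?_
  rw [hT, H3.L34.card_PSL3 cardK]
  decide +kernel


end Cfsg.Agent.S3157
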