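import Cfsg.Statements.S3174
import Cfsg.Agent.H5.Ru2

set_option autoImplicit false
open Cfsg

namespace Cfsg.Agent.S3174

/-- Let T be a finite 2-group of order at least 2^14 in which the fourth term of the upper central series has order 16. Let W be the centralizer in T of the third term Z₃(T), and suppose the Frattini subgroup of W has order at most 8 and lies in every subgroup of W of index at most 16. Then T has order exactly 2^14; the derived subgroup of W and the Frattini subgroup of W both equal Z₃(T), which is elementary abelian of order 8; the centre of W has order 8; W is normal in T with quotient dihedral of order 8; and W modulo its derived subgroup is elementary abelian of order 2^8. -/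
theorem result {T : Type*} [Group T] [Finite T]
    (hT : IsPGroup 2 T) (ha : 2 ^ 14 ≤ Nat.card T) (hb : Nat.card ↥(Subgroup.upperCentralSeries T 4) = 16)
    (W : Subgroup T) (hW : W = Subgroup.centralizer ((Subgroup.upperCentralSeries T 3 : Subgroup T) : Set T))
    (hc : Nat.card ↥(frattini ↥W) ≤ 8) (hd : ∀ U : Subgroup ↥W, U.index ≤ 16 → frattini ↥W ≤ U) :
    Nat.card T = 2 ^ 14 ∧
      (commutator ↥W).map W.subtype = Subgroup.upperCentralSeries T 3 ∧
      (frattini ↥W).map W.subtype = Subgroup.upperCentralSeries T 3 ∧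
      Nat.card ↥(Subgroup.center ↥W) = 8 ∧
      Nat.card ↥(Subgroup.upperCentralSeries T 3) = 8 ∧ (∀ z ∈ Subgroup.upperCentralSeries T 3, z ^ 2 = 1) ∧
      (∃ (_ : W.Normal), Nonempty (T ⧸ W ≃* DihedralGroup 4)) ∧
      Nat.card (↥W ⧸ commutator ↥W) = 2 ^ 8 ∧ (∀ x : ↥W ⧸ commutator ↥W, x ^ 2 = 1) := by
  open Cfsg.Agent.FT Cfsg.Agent.P22 Cfsg.Agent.H5g Subgroup commutatorElement in
  have h : Ru ⊤ W := ⟨pGrp_of_isPGroup Nat.prime_two (hT.to_subgroup ⊤), by rwa [card_top], by rwa [ucn_top],
    by rw [ucn_top, top_inf_eq, hW], by rwa [Phi, card_map_inj W.subtype_injective], fun U hU i =>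
      map_le_iff_le_comap.2 (hd (U.subgroupOf W) i)⟩
  have hn : W.Normal := nml_top_iff.1 h.nml
  have d := h.der
  rw [der_eq_map] at d
  have c : Nat.card (commutator W) = 8 := by rw [← card_map_inj W.subtype_injective, d, h.cards.2.2]
  rw [← ucn_top]
  refine ⟨card_top.symm.trans h.sizes.2.2.1, d, h.phi_eq, by rw [card_center', h.center, h.cards.2.2], h.cards.2.2,
    fun z => h.elem, ⟨hn, ?_⟩, ?_, fun x => ?_⟩
  · obtain ⟨a, ha, t, -, e⟩ : ∃ a ∈ ⊤ ⊓ C(ucn 2 (⊤ : Subgroup T)), ∃ t ∈ (⊤ : Subgroup T), ⁅a, t⁆ ∉ W := by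
      by_contra! k; exact h.not_comm (comm_le_iff.2 k)
    obtain ⟨f⟩ := d8_equiv (Y := (⊤ : Subgroup (T ⧸ W))) (u := a) (v := t) (by
      rw [card_top, ← index_eq_card, ← relIndex_top_right, h.sizes.2.2.2.2.2]) trivial (by
        rw [← QuotientGroup.mk_mul, QuotientGroup.eq_one_iff, ← pow_two]; exact h.sqA ha) trivial fun k => e (by
          rw [← QuotientGroup.eq_one_iff, ← QuotientGroup.mk'_apply, map_commutatorElement,
            commutatorElement_eq_one_iff_mul_comm]; exact k)
    exact ⟨topEquiv.symm.trans f⟩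
  · have := card_eq_card_quotient_mul_card_subgroup (commutator W)
    rw [c, h.sizes.2.1] at this; omega
  · obtain ⟨x, rfl⟩ := QuotientGroup.mk_surjective x
    rw [← QuotientGroup.mk_pow, QuotientGroup.eq_one_iff, ← mem_map_iff_mem W.subtype_injective, d]
    exact h.sq x.2

end Cfsg.Agent.S3174
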