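import Cfsg.Statements.S3175
import Cfsg.Agent.H5.Ru2

set_option autoImplicit false
open Cfsg

namespace Cfsg.Agent.S3175

/-- Let G be a finite group whose Sylow 2-subgroup T has order at least 2^14 and whose upper central series has fourth term of order 16; let W be the centralizer in T of the third term, and suppose the Frattini subgroup of W has order at most 8 and lies in every subgroup of W of index at most 16. Then the normalizer of T in G has a normal 2-complement, and W is weakly closed in T with respect to G. -/
theorem result {G : Type*} [Group G] [Finite G]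
    (T : Sylow 2 G) (ha : 2 ^ 14 ≤ Nat.card ↥(T : Subgroup G))
    (hb : Nat.card ↥(Subgroup.upperCentralSeries ↥(T : Subgroup G) 4) = 16)
    (W : Subgroup ↥(T : Subgroup G))
    (hW : W = Subgroup.centralizer ((Subgroup.upperCentralSeries ↥(T : Subgroup G) 3 : Subgroup ↥(T : Subgroup G)) : Set ↥(T : Subgroup G)))
    (hc : Nat.card ↥(frattini ↥W) ≤ 8)
    (hd : ∀ U : Subgroup ↥W, U.index ≤ 16 → frattini ↥W ≤ U) :
    Cfsg.HasNormalPComplement 2 ↥(Subgroup.normalizer ((T : Subgroup G) : Set G)) ∧
      Cfsg.IsWeaklyClosed (W.map (T : Subgroup G).subtype) (T : Subgroup G) := by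
  open Cfsg.Agent.FT Cfsg.Agent.P22 Cfsg.Agent.H5g Subgroup in
  have sT := syl_top Nat.prime_two T
  have e := subtypeEquiv W
  have h : Ru (T : Subgroup G) (W.map (T : Subgroup G).subtype) := ⟨sT.pi, ha,
    by rwa [ucn, card_map_inj (subtype_injective _)], by rw [hW, map_subtype_cen]; rfl,
    by rwa [Phi, card_map_inj (subtype_injective _), ← map_frattini_equiv e, card_map_inj e.injective], fun U hU i => by
      rw [Phi, ← map_frattini_equiv e, map_le_iff_le_comap, map_le_iff_le_comap]
      exact hd _ (by rw [index_comap_of_surjective _ e.surjective]; exact i)⟩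
  refine ⟨(npc_iff Nat.prime_two).1 ?_, h.le, h.weak⟩
  have s := sT.subl (le_nrm _) le_top
  obtain ⟨R, r1, r2⟩ := s.exists_compl le_rfl
  exact npc_of_hall r1 (r2.sup.ge.trans (sup_le (cents_norm (centsC (h.odd_cents r1.pi r1.le))) (le_nrm R)))

end Cfsg.Agent.S3175
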