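import Cfsg.Statements.S3178
import Mathlib
import Cfsg.Agent.H4.Cyc2
import Cfsg.Agent.H21.Fus

set_option autoImplicit false
open Cfsg

namespace Cfsg.Agent.S3178

/-- Groups with a modular Sylow 2-subgroup have a normal 2-complement. Let S, of order 2^(n+1) with n ≥ 3, be a Sylow 2-subgroup of a finite group G, and suppose S contains an element a of order 2^n and an involution b with b a b⁻¹ = a^(2^(n-1) + 1); so S is the non-abelian 2-group with a cyclic subgroup of index 2 that is neither dihedral, semidihedral nor generalized quaternion. Then G has a normal 2-complement. -/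
theorem result {G : Type*} [Group G] [Finite G]
    (S : Sylow 2 G) (n : ℕ) (hn : 3 ≤ n) (hS : Nat.card ↥(S : Subgroup G) = 2 ^ (n + 1))
    (a b : G) (ha : a ∈ (S : Subgroup G)) (hb : b ∈ (S : Subgroup G))
    (hao : orderOf a = 2 ^ n) (hbo : orderOf b = 2) (hrel : b * a * b⁻¹ = a ^ (2 ^ (n - 1) + 1)) :
    Cfsg.HasNormalPComplement 2 G := by
  open Subgroup Cfsg.Agent.H22 Cfsg.Agent.H4 in
  obtain ⟨m, rfl⟩ : ∃ m, n = m + 3 := ⟨n - 3, by omega⟩
  have hi : (zpowers a).relIndex S = 2 := by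
    have h1 := H22.card_mul_relIndex (zpowers_le.2 ha)
    rw [Nat.card_zpowers, hao, hS, pow_succ 2 (m + 3)] at h1
    exact Nat.eq_of_mul_eq_mul_left (by positivity) h1
  have h0 : a ^ 2 ^ (m + 3) = 1 := by rw [← hao, pow_orderOf_eq_one]
  have h1 : b ∉ zpowers a := fun h => by
    rw [H3.comm_of_mem_zpowers h (mem_zpowers a), mul_inv_cancel_right, pow_succ, right_eq_mul,
      ← orderOf_dvd_iff_pow_eq_one, hao, Nat.pow_dvd_pow_iff_le_right one_lt_two] at hrel
    omega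
  have h2 : (S : Subgroup G) ≤ C[zpowers (a ^ 2)] := by
    rw [← H3.sup_zpowers_eq_of_prime (by rw [hi]; exact Nat.prime_two) (zpowers_le.2 ha) hb h1, C_zpowers]
    refine sup_le (zpowers_le.2 (mem_C1.2 (by group))) (zpowers_le.2 (mem_C1.2 ?_))
    rw [← conj_pow, hrel, ← pow_mul, add_mul, pow_add, show m + 3 - 1 = m + 2 by omega, ← pow_succ, h0]
    simp
  have h3 : ∀ u ∈ zpowers a, u ^ 4 = 1 → u ∈ zpowers (a ^ 2) := fun u hu e => by
    have := H3.mem_zpowers_pow_of_pow Nat.prime_two hao (j := 2) (by omega) hu e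
    exact H3.zpowers_pow_pow_le a 2 (j := 1) (by omega) this
  refine hasNPC_of_forall_tame S fun Q hQ _ hs _ g hg ho => ?_
  by_contra hc
  obtain ⟨u, h4, h5, -, h6⟩ := cyc2' S.isPGroup' (a := a) hi.dvd hQ hg ho hc
  have h7 : u ^ 2 = 1 := by
    have := mem_C.1 (h2 (hQ h6.v_mem)) u (h3 u h4 h6.four)
    have h8 := h6.inv
    rw [← this, mul_inv_cancel_right, eq_inv_iff_mul_eq_one, ← sq] at h8
    exact h8
  obtain ⟨t, ht, e⟩ : ∃ t ∈ zpowers (a ^ 2), t ^ 2 = u := by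
    have h8 := H3.mem_zpowers_pow_of_pow Nat.prime_two hao (j := 1) (by omega) h4 h7
    have h9 := H3.zpowers_pow_pow_le a 2 (j := 2) (by omega) h8
    obtain ⟨k, hk⟩ := mem_zpowers_iff.1 h9
    exact ⟨(a ^ 2) ^ k, zpow_mem_zpowers _ _, by rw [← hk]; group⟩
  have h8 : t ∈ C[Q] := le_centralizer_iff.1 (hQ.trans h2) ht
  have hs' : H18.SylIn 2 ((S : Subgroup G) ⊓ C[Q]) C[Q] := H21.sylIn_of_isSylowIn hs.inf_centralizer
  have htS : t ∈ (S : Subgroup G) := zpowers_le.2 (pow_mem ha 2) ht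
  obtain ⟨c, hc1, hc2⟩ := syl_exists_cj_le hs' (P := zpowers (g * t * g⁻¹))
    (zpowers_le.2 (conj_mem_of_N (N_le_N_C Q hg) h8))
    (by rw [← cj_zpowers]; exact isPGroup_cj g (pgrp_zpowers_of_mem S.isPGroup' htS))
  have h9 := (hc2 (conj_mem_cj (mem_zpowers _))).1
  refine h5 ?_
  have : g * u * g⁻¹ = (c * (g * t * g⁻¹) * c⁻¹) * (c * (g * t * g⁻¹) * c⁻¹) := by
    rw [← sq, conj_pow, conj_pow, e, ← mem_C.1 hc1 _ h6.v_mem, mul_inv_cancel_right]
  rw [this, H3.mul_mem_iff_of_relIndex_two hi h9 h9]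

end Cfsg.Agent.S3178
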