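import Cfsg.Statements.S3179
import Mathlib
import Cfsg.Agent.H13.SzTori
import Cfsg.Agent.H10.Congr
import Cfsg.Agent.S0280
import Cfsg.Agent.H29.Spec
import Cfsg.Agent.L0.PSL2
import Cfsg.Agent.H6.Grp

set_option autoImplicit false
open Cfsg

namespace Cfsg.Agent.S3179

open Cfsg.Agent.H29 Cfsg.Agent.H13 Subgroup

theorem no_nine : 9 ∉ spec (GL (Fin 5) (ZMod 2)) := fun ⟨g, hg⟩ => by
  let W := LinearMap.ker (Matrix.toLin' ((g ^ 3 : GL (Fin 5) (ZMod 2)) : Matrix (Fin 5) (Fin 5) (ZMod 2)) - 1)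
  have hW : ∀ v, v ∈ W ↔ g ^ 3 • v = v := fun v => by
    rw [LinearMap.mem_ker, LinearMap.sub_apply, sub_eq_zero]; rfl
  let Ω : SubMulAction (zpowers g) (Fin 5 → ZMod 2) := ⟨{v | v ∉ W}, fun ⟨_, n, rfl⟩ v h e => h (by
    rw [hW] at e ⊢
    refine MulAction.injective (g ^ n) ?_
    exact ((smul_smul _ _ _).trans (by rw [((Commute.refl g).zpow_left n).pow_right 3, mul_smul]; rfl)).trans e)⟩
  have h1 := card_dvd_of_free (Ω := Ω) (⊤ : Subgroup (zpowers g)) fun ⟨x, hx⟩ _ h1 v e => v.2 (by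
    obtain ⟨k, h2, h3⟩ := (Nat.dvd_prime_pow (m := 2) Nat.prime_three).1 ((orderOf_dvd_of_mem_zpowers hx).trans hg.dvd)
    refine (hW _).2 (zpowers_le.2 (show x ∈ MulAction.stabilizer _ v.1 from congrArg Subtype.val e)
      (H6.mem_zpowers_of_orderOf_dvd (npow_mem_zpowers g 3) hx ?_))
    rw [orderOf_pow, hg, h3]
    exact dvd_pow_self 3 fun e => h1 (Subtype.ext (orderOf_eq_one_iff.1 (by rw [h3, e]; rfl))))
  have h2 := W.toAddSubgroup.card_addSubgroup_dvd_card
  have h3 : Nat.card Ω + Nat.card W = 32 := by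
    have := Set.ncard_add_ncard_compl (W : Set (Fin 5 → ZMod 2))
    simp at this
    rw [add_comm]; exact this
  have h4 : Nat.card W ≠ 32 := fun e => by
    have : W.toAddSubgroup = ⊤ := AddSubgroup.eq_top_of_card_eq _ (by simpa using e)
    have h5 : g ^ 3 = 1 := Units.ext (Matrix.toLin'.injective (LinearMap.ext fun v =>
      ((hW v).1 (this.ge trivial)).trans (Matrix.one_mulVec v).symm))
    exact absurd (hg ▸ orderOf_dvd_of_pow_eq_one h5) (by norm_num)
  rw [card_top, Nat.card_zpowers, hg] at h1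
  simp only [Nat.card_fun, Nat.card_zmod, Nat.card_fin] at h2
  change Nat.card W ∣ 32 at h2
  have := Nat.le_of_dvd (by norm_num) h2
  generalize Nat.card W = a at *
  interval_cases a <;> omega

/-- Let X be a section of the general linear group GL(5, 2), that is, a quotient of a subgroup of it. If X is isomorphic to PSL(2, 2^n) for some n ≥ 2, to a Suzuki group over the field with 2^(2m+1) elements for some m ≥ 1, or to PSU(3, 2^n) for some n ≥ 2, then X is isomorphic to PSL(2, 4). -/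
theorem result {H : Subgroup (GL (Fin 5) (ZMod 2))}
    {K : Subgroup ↥H} [K.Normal]
    (hX : (∃ (n : ℕ) (F : Type) (_ : Field F) (_ : Fintype F), 2 ≤ n ∧ Fintype.card F = 2 ^ n ∧
        Nonempty (↥H ⧸ K ≃* Matrix.ProjectiveSpecialLinearGroup (Fin 2) F)) ∨
      (∃ (m : ℕ) (F : Type) (_ : Field F) (_ : Fintype F), 1 ≤ m ∧ Fintype.card F = 2 ^ (2 * m + 1) ∧
        Nonempty (↥H ⧸ K ≃* ↥(Cfsg.Lie.Sz F (2 ^ (m + 1))))) ∨
      (∃ (n : ℕ) (F : Type) (_ : Field F) (_ : Fintype F), 2 ≤ n ∧ Fintype.card F = 4 ^ n ∧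
        Nonempty (↥H ⧸ K ≃* Cfsg.PSU 3 F (2 ^ n)))) :
    ∃ (F : Type) (_ : Field F) (_ : Fintype F), Fintype.card F = 4 ∧
      Nonempty (↥H ⧸ K ≃* Matrix.ProjectiveSpecialLinearGroup (Fin 2) F) := by
  have h0 : Nat.card (H ⧸ K) ∣ 9999360 := by
    have := (K.card_quotient_dvd_card).trans H.card_subgroup_dvd_card
    rwa [Matrix.card_GL_field, show ∏ i : Fin 5, (Fintype.card (ZMod 2) ^ 5 - Fintype.card (ZMod 2) ^ (i : ℕ)) = 9999360 by
      simp [Fin.prod_univ_succ]] at this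
  have h1 : ∀ n N : ℕ, 2 ^ n ∣ N → N ∣ 9999360 → n ≤ 10 := fun n N h h' => by
    by_contra e
    exact absurd ((pow_dvd_pow 2 (show 11 ≤ n by omega)).trans (h.trans h')) (by norm_num)
  rcases hX with ⟨n, F, _, _, hn, hF, ⟨e⟩⟩ | ⟨n, F, _, _, hn, hF, ⟨e⟩⟩ | ⟨n, F, _, _, hn, hF, ⟨e⟩⟩
  · refine ⟨F, inferInstance, inferInstance, ?_, ⟨e⟩⟩
    have h2 := H10.card_PSL2 (F := F)
    rw [Nat.card_eq_fintype_card (α := F), hF, ← Nat.card_congr e.toEquiv, show Nat.gcd 2 (2 ^ n - 1) = 1 from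
      (Nat.Even.sub_odd Nat.one_le_two_pow (by simp [Nat.even_pow]; omega) odd_one).coprime_two_left, one_mul] at h2
    rw [h2] at h0
    have h3 := h1 n _ (Dvd.intro _ (mul_assoc _ _ _).symm) h0
    have h4 : n ≠ 3 := by
      rintro rfl
      obtain ⟨c, hc⟩ := L0.exists_orderOf_elS (F := F)
      refine no_nine (spec_mono _ H.subtype_injective (mem_spec_of_map _ (QuotientGroup.mk'_surjective K) ?_))
      rw [spec_congr e]
      exact ⟨L0.pj (L0.elS F c), by rw [L0.orderOf_pj_eq_div (by rw [hc, hF]; rfl), hc, hF]; rfl⟩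
    interval_cases n <;> simp_all
  · rw [Nat.card_congr e.toEquiv, (szDataB hn (Nat.card_eq_fintype_card.trans hF)).card_G, SzData.q, szDataB_m] at h0
    have h3 := h1 ((2 * n + 1) * 2) _ (Dvd.intro _ (by rw [pow_mul, ← mul_assoc])) h0
    have : n ≤ 2 := by omega
    interval_cases n <;> simp at h0
  · have h2 := S0280.result (q := 2 ^ n) (hF.trans (by rw [← pow_mul, mul_comm, pow_mul]; rfl)) 3 (by norm_num)
    rw [← Nat.card_congr e.toEquiv] at h2
    simp only [Finset.prod_range_succ] at h2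
    norm_num at h2
    have h3 := h1 (n * 3) _ (Nat.Coprime.dvd_of_dvd_mul_left (Nat.Coprime.pow_left _ (Odd.coprime_two_left
      ((show Odd (Nat.gcd 3 (2 ^ n + 1)) from Odd.of_dvd_nat (by decide) (Nat.gcd_dvd_left _ _)).mul
        (Even.add_one (a := 2 ^ n) (Nat.even_pow.2 ⟨even_two, by omega⟩))))) ⟨_, by rw [mul_assoc, h2, pow_mul]⟩) h0
    have : n ≤ 3 := by omega
    generalize Nat.card (H ⧸ K) = N at *
    interval_cases n <;> norm_num at h2
    · obtain rfl : N = 62400 := by omega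
      norm_num at h0
    · obtain rfl : N = 5515776 := by omega
      norm_num at h0

end Cfsg.Agent.S3179
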