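import Cfsg.Statements.S3183
import Mathlib
import Cfsg.Agent.H29.CI

set_option autoImplicit false
open Cfsg

namespace Cfsg.Agent.S3183

open Cfsg.Agent.H22

/-- Let G be a finite group in which the intersection of any two distinct Sylow 2-subgroups is contained in the centre of some Sylow 2-subgroup, and let S be a Sylow 2-subgroup. Then for every x in S the centralizer of x in S is a Sylow 2-subgroup of the centralizer of x in G (no 2-subgroup centralizing x is larger), and for every other Sylow 2-subgroup T the intersection S ∩ T lies in both the centre of S and the centre of T. -/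
theorem result {G : Type*} [Group G] [Finite G]
    (hCI : ∀ S T : Sylow 2 G, S ≠ T → ∃ U : Sylow 2 G,
      (S : Subgroup G) ⊓ (T : Subgroup G) ≤ (Subgroup.center ↥(U : Subgroup G)).map (U : Subgroup G).subtype)
    (S : Sylow 2 G) :
    (∀ x ∈ (S : Subgroup G), ∀ P : Subgroup G, IsPGroup 2 ↥P → P ≤ Subgroup.centralizer ({x} : Set G) →
        Nat.card ↥P ≤ Nat.card ↥((S : Subgroup G) ⊓ Subgroup.centralizer ({x} : Set G))) ∧
    (∀ T : Sylow 2 G, T ≠ S →
        (S : Subgroup G) ⊓ (T : Subgroup G) ≤
          (Subgroup.center ↥(S : Subgroup G)).map (S : Subgroup G).subtype ⊓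
            (Subgroup.center ↥(T : Subgroup G)).map (T : Subgroup G).subtype) := by
  refine ⟨fun x hx P hP hPx => ?_, fun T hT x hx => ?_⟩
  · have h1 : IsPGroup 2 ↥(P ⊔ Subgroup.zpowers x) :=
      pgrp_sup hP (pgrp_zpowers_of_mem S.isPGroup' hx)
        (hPx.trans ((C_zpowers x).symm.le.trans (C_le_N _)))
    obtain ⟨T, hT⟩ := h1.exists_le_sylow
    by_cases h : S = T
    · subst h
      exact Subgroup.card_le_of_le (le_inf (le_sup_left.trans hT) hPx)
    · rw [inf_eq_left.2 (H29.ci_inf hCI h hx (hT (Subgroup.mem_sup_right (Subgroup.mem_zpowers x))))]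
      exact (H18.sylIn_top S).card_le le_top hP
  · rw [map_center_subtype, map_center_subtype]
    exact ⟨⟨hx.1, mem_C.2 fun s hs => Subgroup.mem_centralizer_singleton_iff.1
        (H29.ci_inf hCI hT.symm hx.1 hx.2 hs)⟩,
      hx.2, mem_C.2 fun s hs => Subgroup.mem_centralizer_singleton_iff.1
        (H29.ci_inf hCI hT hx.2 hx.1 hs)⟩

end Cfsg.Agent.S3183
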