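import Cfsg.Statements.S3184
import Mathlib
import Cfsg.Agent.H29.CI
import Cfsg.Agent.H8.ZStar2
import Cfsg.Agent.H1.Coprime

set_option autoImplicit false
open Cfsg

namespace Cfsg.Agent.S3184

open Cfsg.Agent.H22

/-- Let G be a finite group in which the intersection of any two distinct Sylow 2-subgroups is contained in the centre of some Sylow 2-subgroup, and let S be a Sylow 2-subgroup. If C is a nontrivial cyclic characteristic subgroup of S, then the involution of C is central modulo the largest normal subgroup of odd order of G: each of its conjugates has the same image in G/O(G). -/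
theorem result {G : Type*} [Group G] [Finite G]
    (hCI : ∀ S T : Sylow 2 G, S ≠ T → ∃ U : Sylow 2 G,
      (S : Subgroup G) ⊓ (T : Subgroup G) ≤ (Subgroup.center ↥(U : Subgroup G)).map (U : Subgroup G).subtype)
    (S : Sylow 2 G) (C : Subgroup ↥(S : Subgroup G)) (hC : C ≠ ⊥) (hCc : IsCyclic ↥C) (hCh : C.Characteristic)
    (c : ↥(S : Subgroup G)) (hc : c ∈ C) (hc2 : orderOf c = 2) :
    ∀ g : G, (QuotientGroup.mk (s := Cfsg.oddCore G) (g * (c : G) * g⁻¹)) =
      QuotientGroup.mk (s := Cfsg.oddCore G) (c : G) := by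
  have hc2' : orderOf (c : G) = 2 := by rw [Subgroup.orderOf_coe, hc2]
  have hcc := H20.mul_self_of_orderOf_two hc2'
  have hc1 := H20.ne_one_of_orderOf_two hc2'
  haveI : IsCyclic (C.map (S : Subgroup G).subtype) :=
    isCyclic_of_surjective _ (C.equivMapOfInjective _ (S : Subgroup G).subtype_injective).surjective
  have hcC : (c : G) ∈ C.map (S : Subgroup G).subtype := ⟨c, hc, rfl⟩
  have hN : ∀ n ∈ N[(S : Subgroup G)], n * (c : G) * n⁻¹ = c := fun n hn =>
    H29.cyc_inv_eq this
      (conj_mem_of_N (H1.normalizer_le_normalizer_map_of_characteristic C hn) hcC) hcC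
      (by simpa using hc1) hc1
      (by calc n * (c : G) * n⁻¹ * (n * c * n⁻¹) = n * (c * c) * n⁻¹ := by group
        _ = 1 := by rw [hcc]; group) hcc
  have hS : (S : Subgroup G) ≤ Subgroup.centralizer {(c : G)} := fun s hs =>
    Subgroup.mem_centralizer_singleton_iff.2 (by
      have := hN s (Subgroup.le_normalizer hs)
      calc s * (c : G) = s * c * s⁻¹ * s := by group
        _ = _ := by rw [this])
  have hw : ∀ g : G, g * (c : G) * g⁻¹ ∈ (S : Subgroup G) → g * (c : G) * g⁻¹ = c := fun g hg => by
    obtain ⟨U, hU⟩ := (cj_top g ▸ sylIn_cj (H18.sylIn_top S) g).exists_sylow_top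
    have h1 := H29.ci_key hCI S U (x := g * c * g⁻¹)
      (by rw [hU, ← cj_centralizer_singleton]; exact cj_mono g hS) hg
    obtain ⟨n, hn, e⟩ := H29.burnside_elt (H18.sylIn_top S) hS h1
    rw [← e, hN n hn]
  intro g
  have := H8.zstar_elt S c.2 hw g
  rw [eq_comm, QuotientGroup.eq]
  have h2 := (inferInstance : (Cfsg.oddCore G).Normal).conj_mem _ this (c : G)⁻¹
  convert h2 using 1
  rw [commutatorElement_def]; group

end Cfsg.Agent.S3184
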