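import Cfsg.Statements.S3190
import Mathlib
import Cfsg.Agent.H2.Sig2

set_option autoImplicit false
open Cfsg

namespace Cfsg.Agent.S3190

open Cfsg.Agent.FT Subgroup
open scoped commutatorElement

/-- Let p be an odd prime and, inside a finite group, let P be a p-subgroup normalized by a Klein four-group T. Let R be a subgroup of P, normal in P and normalized by T, such that P is the product of R with the centralizer of T in P. If T centralizes the centre of P, then T centralizes the centre of R. -/
theorem result {X : Type*} [Group X] [Finite X]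
    {p : ℕ} (hp : p.Prime) (hodd : Odd p) (P T R : Subgroup X) (hP : IsPGroup p ↥P) (hT : IsKleinFour ↥T)
    (hTP : T ≤ Subgroup.normalizer (P : Set X)) (hRP : R ≤ P) (hRn : (R.subgroupOf P).Normal)
    (hTR : T ≤ Subgroup.normalizer (R : Set X)) (hfac : R ⊔ (P ⊓ Subgroup.centralizer (T : Set X)) = P)
    (hZ : T ≤ Subgroup.centralizer (((Subgroup.center ↥P).map P.subtype : Subgroup X) : Set X)) :
    T ≤ Subgroup.centralizer (((Subgroup.center ↥R).map R.subtype : Subgroup X) : Set X) := by
  have pP := pGrp_of_isPGroup hp hP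
  have hT' := pnElem_of_kleinFour hT
  rw [← center_eq_map] at hZ ⊢
  have nR : R ⊴ P := (nml_iff_normal hRP).2 hRn
  have hc : Cop Z(R) T := (pP.mono (inf_le_left.trans hRP)).cop_of_ne hT'.pGrp
    (by rintro rfl; exact absurd hodd (by decide))
  have nT : T ≤ N(Z(R)) := norms_center hTR
  have h1 : ⁅Z(R), T⁆ ⊴ P := ⟨(comm_le_left nT).trans (inf_le_left.trans hRP), hfac.ge.trans (sup_le
    (cents_norm (centsC ((comm_le_left nT).trans inf_le_right)))
    (normsR (inf_le_left.trans nR.center.nrm) (cents_norm inf_le_right)))⟩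
  by_contra hn
  have h2 : ⁅Z(R), T⁆ ≠ ⊥ := fun e => hn (comm_eq_bot'.1 e)
  exact pP.nil.meet_center h1 h2 (eq_bot_of_le (inf_le_inf_left _ (centsC hZ))
    (coprime_abel_cent_TI nT hc (ab_center R)))

end Cfsg.Agent.S3190
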