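import Cfsg.Statements.S3192
import Mathlib
import Cfsg.Agent.H23.Ito2
-- import your own Cfsg.Agent.* helpers here

set_option autoImplicit false
open Cfsg

namespace Cfsg.Agent.S3192

/-- Simple groups of conjugate type rank three. For a finite group G consider the set of indices of the centralizers of the non-central elements of G. Then G is a non-abelian simple group for which this set has exactly three members if and only if G is isomorphic to PSL(2, 2^m) for some m ≥ 2. -/
theorem result (G : Type*) [Group G] [Finite G] :
    (IsSimpleGroup G ∧ ¬ IsMulCommutative G ∧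
        Set.ncard {m : ℕ | ∃ x : G, x ∉ Subgroup.center G ∧ m = (Subgroup.centralizer ({x} : Set G)).index} = 3) ↔
      ∃ (m : ℕ) (F : Type) (_ : Field F) (_ : Fintype F), 2 ≤ m ∧ Fintype.card F = 2 ^ m ∧
        Nonempty (G ≃* Matrix.ProjectiveSpecialLinearGroup (Fin 2) F) := by
  refine ⟨fun ⟨_, hn, h⟩ => H23.Ito.psl_of_ab hn fun s => H23.Ito.three hn h, ?_⟩
  rintro ⟨m, F, _, _, hm, hF, ⟨e⟩⟩
  exact H23.Ito.conv hm (Nat.card_eq_fintype_card.trans hF) e

end Cfsg.Agent.S3192
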