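import Cfsg.Statements.S3195
import Mathlib
import Cfsg.Agent.H23.Sid
-- import your own Cfsg.Agent.* helpers here

set_option autoImplicit false
open Cfsg

namespace Cfsg.Agent.S3195

/-- Let A be a Klein four-subgroup of a finite group G. If every G-conjugate of every involution of A commutes with some involution of A (its centralizer meets A nontrivially), then A meets the largest normal 2-subgroup O₂(G) nontrivially. -/
theorem result {G : Type*} [Group G] [Finite G]
    (A : Subgroup G) (hA : IsKleinFour ↥A)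
    (h : ∀ a ∈ A, a ≠ 1 → ∀ g : G, A ⊓ Subgroup.centralizer ({g * a * g⁻¹} : Set G) ≠ ⊥) :
    A ⊓ Cfsg.pCore 2 G ≠ ⊥ := by
  have sq : ∀ a ∈ A, a ^ 2 = 1 := fun a ha => congrArg Subtype.val (hA.exponent_two ▸ Monoid.pow_exponent_eq_one (⟨a, ha⟩ : A))
  have cm : IsMulCommutative A := ⟨⟨mul_comm_of_exponent_two hA.exponent_two⟩⟩
  refine H23.Sid.main ⟨cm, sq⟩ (fun e => ?_) (fun x v hv hx e => ?_) hA.card_four.le
  · have := hA.card_four
    simp [e] at this
  by_cases v1 : v = 1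
  · obtain rfl := H23.Sid.inv_self hx (by simpa [v1] using e.symm)
    obtain ⟨⟨w, hw⟩, w1⟩ := Subgroup.ne_bot_iff_exists_ne_one.1 fun e : A = ⊥ => by
      have := hA.card_four
      simp [e] at this
    exact ⟨w, hw, fun k => w1 (Subtype.ext k), by simp⟩
  obtain ⟨⟨w, hw⟩, w1⟩ := Subgroup.ne_bot_iff_exists_ne_one.1 (h v hv v1 x⁻¹)
  refine ⟨w, hw.1, fun k => w1 (Subtype.ext k), (H23.Sid.comm_of_sq hx ?_).symm⟩
  have k1 : Commute v w := congrArg Subtype.val (cm.is_comm.comm ⟨v, hv⟩ ⟨w, hw.1⟩)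
  have k2 : Commute (x⁻¹ * v * x⁻¹⁻¹) w := hw.2 _ rfl
  have : x * x = v⁻¹ * (x⁻¹ * v * x⁻¹⁻¹) := by nth_rw 1 [← e]; group
  exact this ▸ k1.inv_left.mul_left k2

end Cfsg.Agent.S3195
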