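import Cfsg.Statements.S3196
import Cfsg.Agent.H2.Zipper
import Cfsg.Agent.H1.Coprime
import Cfsg.Agent.FT.Cyc
-- import your own Cfsg.Agent.* helpers here

set_option autoImplicit false
open Cfsg

namespace Cfsg.Agent.S3196

open Subgroup


/-- Let p be a prime and K a set of subgroups of order p of a finite group G, closed under conjugation, such that at least two distinct members of K commute elementwise, and whenever two distinct members X, Y of K commute: every subgroup of order p of the group XY they generate belongs to K, and every member W of K has centralizer meeting XY nontrivially. Then some member V of K commutes elementwise with every member of K and lies in O_p(G); in particular G is not simple. -/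
theorem result {G : Type*} [Group G] [Finite G]
    {p : ℕ} (hp : p.Prime) (K : Set (Subgroup G)) (hK : ∀ X ∈ K, Nat.card ↥X = p)
    (hKc : ∀ X ∈ K, ∀ g : G, X.map (MulAut.conj g).toMonoidHom ∈ K)
    (hex : ∃ X ∈ K, ∃ Y ∈ K, X ≠ Y ∧ ∀ x ∈ X, ∀ y ∈ Y, x * y = y * x)
    (ha : ∀ X ∈ K, ∀ Y ∈ K, X ≠ Y → (∀ x ∈ X, ∀ y ∈ Y, x * y = y * x) →
      ∀ Z : Subgroup G, Z ≤ X ⊔ Y → Nat.card ↥Z = p → Z ∈ K)
    (hb : ∀ X ∈ K, ∀ Y ∈ K, X ≠ Y → (∀ x ∈ X, ∀ y ∈ Y, x * y = y * x) →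
      ∀ W ∈ K, (X ⊔ Y) ⊓ Subgroup.centralizer (W : Set G) ≠ ⊥) :
    (∃ V ∈ K, (∀ W ∈ K, ∀ v ∈ V, ∀ w ∈ W, v * w = w * v) ∧ V ≤ Cfsg.pCore p G) ∧ ¬ IsSimpleGroup G := by
  haveI := Fact.mk hp
  have hc : ∀ {A B : Subgroup G}, A ≤ centralizer (B : Set G) ↔ ∀ x ∈ A, ∀ y ∈ B, x * y = y * x :=
    ⟨fun h x hx y hy => (h hx y hy).symm, fun h x hx y hy => (h x hx y hy).symm⟩
  have hz : ∀ X ∈ K, ∀ x ∈ X, x ≠ 1 → zpowers x = X := fun X hX x hx x1 =>
    eq_of_le_of_card_ge (zpowers_le.2 hx) (by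
      rw [hK X hX, Nat.card_zpowers, orderOf_eq_prime (p := p)
        (congrArg Subtype.val (hK X hX ▸ pow_card_eq_one' (x := (⟨x, hx⟩ : X)))) x1])
  have hex1 : ∀ X ∈ K, ∃ x ∈ X, x ≠ 1 := fun X hX => (X.bot_or_exists_ne_one).resolve_left fun e => by
    have := hK X hX
    rw [e, card_bot] at this
    exact hp.one_lt.ne this
  have hself : ∀ X ∈ K, X ≤ centralizer (X : Set G) := fun X hX => by
    haveI := (isCyclic_of_prime_card (hK X hX)).isMulCommutative
    exact X.le_centralizer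
  have hdec : ∀ {A B : Subgroup G}, A ≤ centralizer (B : Set G) → ∀ t ∈ A ⊔ B,
      ∃ a ∈ A, ∃ b ∈ B, t = a * b := fun {A B} h t ht => by
    obtain ⟨b, hb, a, ha, rfl⟩ := (H1.mem_sup_iff_of_le_normalizer
      (h.trans (centralizer_le_normalizer _))).1 (sup_comm A B ▸ ht)
    exact ⟨a, ha, b, hb, h ha b hb⟩
  have hpt : ∀ A ∈ K, ∀ B ∈ K, A ≠ B → A ≤ centralizer (B : Set G) → ∀ t ∈ A ⊔ B, t ≠ 1 →
      zpowers t ∈ K := fun A hA B hB hne h t ht t1 => ha A hA B hB hne (hc.1 h) _ (zpowers_le.2 ht) (by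
    obtain ⟨a, ha, b, hb, rfl⟩ := hdec h t ht
    have e1 : a ^ p = 1 := congrArg Subtype.val (hK A hA ▸ pow_card_eq_one' (x := (⟨a, ha⟩ : A)))
    have e2 : b ^ p = 1 := congrArg Subtype.val (hK B hB ▸ pow_card_eq_one' (x := (⟨b, hb⟩ : B)))
    rw [Nat.card_zpowers, orderOf_eq_prime (p := p)
      (by rw [Commute.mul_pow (hc.1 h a ha b hb), e1, e2, one_mul]) t1])
  have one : ∀ A ∈ K, ∀ B ∈ K, A ≠ B → A ≤ centralizer (B : Set G) → ∀ W ∈ K,
      ∃ T ∈ K, T ≤ A ⊔ B ∧ T ≤ centralizer (W : Set G) := fun A hA B hB hne h W hW => by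
    obtain ⟨t, ht, t1⟩ := (bot_or_exists_ne_one _).resolve_left (hb A hA B hB hne (hc.1 h) W hW)
    exact ⟨_, hpt A hA B hB hne h t ht.1 t1, zpowers_le.2 ht.1, zpowers_le.2 ht.2⟩
  have span : ∀ A ∈ K, ∀ B ∈ K, A ≤ centralizer (B : Set G) → ∀ T ∈ K, T ≤ A ⊔ B → T ≠ A →
      B ≤ A ⊔ T := fun A hA B hB h T hT hle hne => by
    obtain ⟨t, ht, t1⟩ := hex1 T hT
    obtain ⟨a, ha, b, hb, rfl⟩ := hdec h t (hle ht)
    rw [← hz B hB b hb (by
      rintro rfl; rw [mul_one] at ht t1; exact hne ((hz T hT a ht t1).symm.trans (hz A hA a ha t1))),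
      zpowers_le]
    simpa using mul_mem (mem_sup_left (inv_mem ha) : _ ∈ A ⊔ T) (mem_sup_right ht)
  obtain ⟨X₀, hX₀, Y₀, hY₀, hne₀, h₀⟩ := hex
  have main : ∃ V ∈ K, ∀ W ∈ K, V ≤ centralizer (W : Set G) := by
    obtain ⟨U, hU, hmax⟩ := K.toFinite.exists_maximalFor
      (fun U : Subgroup G => {T ∈ K | T ≤ centralizer (U : Set G)}) K ⟨X₀, hX₀⟩
    refine ⟨U, hU, fun Y hY => by_contra fun hUY => ?_⟩
    have hYU := mt le_centralizer_iff.1 hUY
    suffices h : ∃ V ∈ K, V ≠ U ∧ V ≤ centralizer (U : Set G) ∧ ∀ T ∈ K, T ≤ centralizer (U : Set G) →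
        T ≤ centralizer (Y : Set G) → T ≤ centralizer (V : Set G) by
      obtain ⟨V, hV, hVU, h1, h2⟩ := h
      obtain ⟨c, c1, c2, c3⟩ := one V hV U hU hVU h1 Y hY
      refine hYU (hmax c1 (fun S hS => ⟨hS.1, le_centralizer_iff.1 (c2.trans
        (sup_le ?_ (le_centralizer_iff.1 hS.2)))⟩) ⟨hY, le_centralizer_iff.1 c3⟩).2
      by_cases e : U = S
      · exact e ▸ h1
      obtain ⟨T, t1, t2, t3⟩ := one U hU S hS.1 e (le_centralizer_iff.1 hS.2) Y hY
      exact le_centralizer_iff.1 ((span U hU S hS.1 (le_centralizer_iff.1 hS.2) T t1 t2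
        (by rintro rfl; exact hUY t3)).trans (sup_le (le_centralizer_iff.1 h1)
          (h2 T t1 (t2.trans (sup_le (hself U hU) hS.2)) t3)))
    obtain ⟨X, hX, hXY, h1, h2⟩ : ∃ X ∈ K, X ≠ Y ∧ X ≤ centralizer (Y : Set G) ∧
        X ≤ centralizer (U : Set G) := by
      obtain ⟨A, hA, hAY, h⟩ : ∃ A ∈ K, A ≠ Y ∧ A ≤ centralizer (Y : Set G) := by
        obtain ⟨T, t1, t2, t3⟩ := one X₀ hX₀ Y₀ hY₀ hne₀ (hc.2 h₀) Y hY
        by_cases e : T = Y
        · subst e
          by_cases e : X₀ = T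
          · exact ⟨Y₀, hY₀, e ▸ hne₀.symm, e ▸ le_centralizer_iff.1 (hc.2 h₀)⟩
          · exact ⟨X₀, hX₀, e, le_centralizer_iff.1
              (t2.trans (sup_le (hself _ hX₀) (le_centralizer_iff.1 (hc.2 h₀))))⟩
        · exact ⟨T, t1, e, t3⟩
      obtain ⟨T, t1, t2, t3⟩ := one A hA Y hY hAY h U hU
      exact ⟨T, t1, by rintro rfl; exact hYU t3, t2.trans (sup_le h (hself Y hY)), t3⟩
    obtain ⟨x, hx, x1⟩ := hex1 X hX
    obtain ⟨y, hy, y1⟩ := hex1 Y hY
    have key : ∀ t g : G, t * g = g * t → t ∈ centralizer (U : Set G) →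
        (∀ u ∈ U, g * u * g⁻¹ = y * u * y⁻¹) → t ∈ centralizer (U.map (MulAut.conj y).toMonoidHom : Set G) := by
      rintro t g h1 h2 h3 _ ⟨u, hu, rfl⟩
      change y * u * y⁻¹ * t = t * (y * u * y⁻¹)
      rw [← h3 u hu, mul_assoc, Commute.inv_left (Commute.symm h1), ← mul_assoc, mul_assoc g, h2 u hu,
        ← mul_assoc, ← h1]
      group
    by_cases h : U.map (MulAut.conj y).toMonoidHom ≤ centralizer (U : Set G)
    · refine ⟨_, hKc U hU y, fun e => hYU ?_, h, fun T _ a b t ht =>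
        key t y (b ht y hy).symm (a ht) fun _ _ => rfl⟩
      refine FT.cents_of_coprime_pred hp (hK U hU) ?_ (by
        rw [hK Y hY]; exact (Nat.coprime_self_sub_right hp.one_le).2 (by simp))
      rw [← hz Y hY y hy y1, zpowers_le]
      exact mem_normalizer_fintype fun u hu => e.le ⟨u, hu, rfl⟩
    · refine ⟨X, hX, by rintro rfl; exact hUY h1, h2, fun T hT a b => ?_⟩
      have hxy : y * x ≠ 1 := fun e => hXY ((hz X hX x hx x1).symm.trans (hz Y hY x
        (eq_inv_of_mul_eq_one_right e ▸ inv_mem hy) x1))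
      have hZ := hpt X hX Y hY hXY h1 _ (mul_mem (mem_sup_right hy) (mem_sup_left hx)) hxy
      obtain ⟨S, s1, s2, s3⟩ := one T hT U hU (by rintro rfl; exact hUY b) a _ hZ
      by_cases e : S = T
      · subst e
        rw [← hz X hX x hx x1, H1.centralizer_zpowers]
        intro t ht
        have e1 := s3 ht _ (mem_zpowers _)
        rw [mul_assoc, ← mul_assoc t, ← b ht y hy, mul_assoc, mul_right_inj] at e1
        exact mem_centralizer_singleton_iff.2 e1.symm
      · refine absurd (le_centralizer_iff.1 ((span T hT U hU a S s1 s2 e).trans (sup_le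
          (fun t ht => key t y (b ht y hy).symm (a ht) fun _ _ => rfl) fun t ht =>
          key t (y * x) (s3 ht _ (mem_zpowers _)).symm (s2.trans (sup_le a (hself U hU)) ht)
            fun u hu => ?_))) h
        rw [mul_assoc y, ← h2 hx u hu]; group
  obtain ⟨V, hV, h⟩ := main
  have hVp : ∀ V ∈ K, IsPGroup p V := fun V hV => IsPGroup.of_card (n := 1) (by simp [hK V hV])
  have hO : V ≤ pCore p G := H2.le_pCore_of_forall_isPGroup_sup_conj V fun g =>
    (hVp V hV).to_sup_of_normal_right' (hVp _ (hKc V hV g))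
      ((h _ (hKc V hV g)).trans (centralizer_le_normalizer _))
  refine ⟨⟨V, hV, fun W hW => hc.1 (h W hW), hO⟩, fun hs => hne₀ ?_⟩
  obtain ⟨v, hv, v1⟩ := hex1 V hV
  have h1 : IsPGroup p G := ((((pCore_normal p G).eq_bot_or_eq_top).resolve_left fun e =>
    v1 (e.le (hO hv))) ▸ H2.pCore_isPGroup : IsPGroup p (⊤ : Subgroup G)).of_equiv topEquiv
  have h2 : center G = ⊤ := (Normal.eq_bot_or_eq_top inferInstance).resolve_left
    (nontrivial_iff_ne_bot _ |>.1 h1.center_nontrivial)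
  have h3 : ∀ X ∈ K, X = ⊤ := fun X hX => by
    obtain ⟨x, hx, x1⟩ := hex1 X hX
    have : X.Normal := ⟨fun n hn g => by
      rwa [mem_center_iff.1 (h2.ge (mem_top n)) g, mul_inv_cancel_right]⟩
    exact this.eq_bot_or_eq_top.resolve_left fun e => x1 (e.le hx)
  rw [h3 _ hX₀, h3 _ hY₀]


end Cfsg.Agent.S3196
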