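import Cfsg.Statements.S3200
import Mathlib
import Cfsg.Agent.H2.Sig2
import Cfsg.Agent.S0564

set_option autoImplicit false
open Cfsg

namespace Cfsg.Agent.S3200

open Cfsg.Agent.FT Subgroup
open scoped commutatorElement

theorem compl {K : Type*} [Group K] [Finite K] {D : Subgroup K} (h : Hall {2}ᶜ D ⊤) (hD : Ab D) :
    ∃ (P : Sylow 2 K) (D : Subgroup K), IsMulCommutative ↥D ∧ Subgroup.IsComplement' (P : Subgroup K) D := by
  obtain ⟨P⟩ : Nonempty (Sylow 2 K) := inferInstance
  have hP := syl_top Nat.prime_two P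
  refine ⟨P, D, hD, isComplement'_of_coprime ?_ (hP.pi.cop h.pi)⟩
  rw [hP.card, h.card, partn_mul_compl _ (card_ne_zero _), card_top']

/-- Let H be a finite group in which a Sylow 2-subgroup has an abelian complement (an abelian subgroup meeting it trivially whose product with it is all of H). Then H is solvable, and every subgroup and every quotient group of H again has a Sylow 2-subgroup with an abelian complement. -/
theorem result {H : Type*} [Group H] [Finite H]
    (S : Sylow 2 H) (C : Subgroup H) (hC : IsMulCommutative ↥C) (hSC : Subgroup.IsComplement' (S : Subgroup H) C) :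
    Group.IsSolvable H ∧
    (∀ L : Subgroup H, ∃ (P : Sylow 2 ↥L) (D : Subgroup ↥L), IsMulCommutative ↥D ∧ Subgroup.IsComplement' (P : Subgroup ↥L) D) ∧
    (∀ (N : Subgroup H) [N.Normal], ∃ (P : Sylow 2 (H ⧸ N)) (D : Subgroup (H ⧸ N)),
      IsMulCommutative ↥D ∧ Subgroup.IsComplement' (P : Subgroup (H ⧸ N)) D) := by
  have hm : ∀ g : H, ∃ a ∈ (S : Subgroup H), ∃ b ∈ C, g = a * b := fun g => by
    obtain ⟨⟨a, b⟩, e, -⟩ := hSC.existsUnique g
    exact ⟨a, a.2, b, b.2, e.symm⟩
  have hS := syl_top Nat.prime_two S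
  have hs := Cfsg.Agent.S0564.result (S : Subgroup H) C hS.pi.nil (Ab.nil hC) hm
  have hH : Hall {2}ᶜ C ⊤ := MulEq.hall_right ⟨le_top, le_top, fun g _ => hm g⟩ hS.pi
    (p'grp_of_not_dvd (hSC.symm.index_eq_card ▸ S.not_dvd_index))
  refine ⟨hs, fun L => ?_, fun N _ => ?_⟩
  · obtain ⟨D, hD⟩ := Hall_exists {2}ᶜ ((sol_top.2 hs).mono le_top : Sol L)
    obtain ⟨g, -, hg⟩ := Hall_Jsub (sol_top.2 hs) hH le_top hD.pi
    exact compl ((hall_so_top hD.le).2 hD) (Ab.so ((Ab.mono hC hg).of_equiv (cjEquiv g D).symm) hD.le)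
  · have := hH.map (QuotientGroup.mk' N)
    rw [map_mk'_top] at this
    exact compl this (Ab.map _ hC)

end Cfsg.Agent.S3200
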