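import Cfsg.Statements.S3206
import Mathlib
import Cfsg.Agent.H1.AbSyl2

set_option autoImplicit false
open Cfsg

namespace Cfsg.Agent.S3206

open Subgroup
open scoped commutatorElement IsMulCommutative

theorem two_ab {G : Type*} [Group G] [Finite G]
    (hab : ∀ S : Sylow 2 G, IsMulCommutative ↥(S : Subgroup G)) {Q : Subgroup G} (hQ : IsPGroup 2 Q)
    {x y : G} (hx : x ∈ Q) (hy : y ∈ Q) : x * y = y * x := by
  obtain ⟨S, hS⟩ := hQ.exists_le_sylow
  haveI := hab S
  exact le_centralizer (S : Subgroup G) (hS hy) x (hS hx)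

theorem pgrp_zp {G : Type*} [Group G] {x : G} (h : x * x = 1) : IsPGroup 2 (zpowers x) := by
  rintro ⟨_, k, rfl⟩
  refine ⟨1, Subtype.ext ?_⟩
  show (x ^ k) ^ 2 ^ 1 = 1
  rw [pow_one, ← zpow_natCast, ← zpow_mul, mul_comm, zpow_mul, zpow_natCast, pow_two, h, one_zpow]

theorem mem_zp {G : Type*} [Group G] {j x : G} (hj : j * j = 1) (hx : x ∈ zpowers j) :
    x = 1 ∨ x = j := by
  obtain ⟨k, rfl⟩ := hx
  have h2 : j ^ (2 : ℤ) = 1 := by rw [zpow_two, hj]
  rcases Int.even_or_odd' k with ⟨m, rfl | rfl⟩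
  · left; show j ^ (2 * m) = 1; rw [zpow_mul, h2, one_zpow]
  · right; show j ^ (2 * m + 1) = j; rw [zpow_add, zpow_mul, h2, one_zpow, one_mul, zpow_one]

theorem pgrp_sup {G : Type*} [Group G] {A B : Subgroup G} (hA : IsPGroup 2 A) (hB : IsPGroup 2 B)
    (h : ∀ a ∈ A, ∀ b ∈ B, a * b = b * a) : IsPGroup 2 ↥(A ⊔ B) :=
  hA.to_sup_of_normal_right' hB fun a ha => centralizer_le_normalizer _ fun b hb => (h a ha b hb).symm

theorem center_bot {G : Type*} [Group G] [IsSimpleGroup G] (hG : ¬ IsMulCommutative G) :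
    center G = ⊥ := (IsSimpleGroup.eq_bot_or_eq_top_of_normal _ inferInstance).resolve_right
  fun h => hG ⟨⟨fun a b => mem_center_iff.1 (h ▸ mem_top b) a⟩⟩

/-- The Sylow `2`-subgroup is `⟨t, u, v⟩`. -/
theorem sylow_shape {G : Type*} [Group G] [Finite G]
    (hab : ∀ S : Sylow 2 G, IsMulCommutative ↥(S : Subgroup G))
    (t : G) (ht : orderOf t = 2)
    (E : Subgroup G) (hE : Cfsg.IsInternalDirectProduct (Subgroup.zpowers t) E (Subgroup.centralizer ({t} : Set G)))
    {F : Type*} [Field F] [Fintype F] (hFo : Odd (Fintype.card F)) (hF3 : 3 < Fintype.card F)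
    (N : Subgroup ↥E) [N.Normal] (hN : Nonempty (↥N ≃* Matrix.ProjectiveSpecialLinearGroup (Fin 2) F))
    (hNc : Subgroup.centralizer (N : Set ↥E) = ⊥) :
    ∃ (S : Sylow 2 G) (u v : G), t ∈ (S : Subgroup G) ∧ u ∈ (S : Subgroup G) ∧ v ∈ (S : Subgroup G) ∧
      (∀ s ∈ (S : Subgroup G), ∃ i j k : Bool,
        s = (if i then t else 1) * (if j then u else 1) * (if k then v else 1)) ∧
      (∀ i j k : Bool, (if i then t else 1) * (if j then u else 1) * (if k then v else 1) = 1 →
        i = false ∧ j = false ∧ k = false) := by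
  obtain ⟨e⟩ := hN
  obtain ⟨u0, v0, h1, h2, h3, h4, h5, h6, h7⟩ := H1.psl2_four hFo
  obtain ⟨u, rfl⟩ := e.surjective u0
  obtain ⟨v, rfl⟩ := e.surjective v0
  simp only [← map_mul, map_eq_one_iff _ e.injective, Ne, e.apply_eq_iff_eq] at h1 h2 h3 h4 h5 h6
  have h8 : ∀ x : N, x * u = u * x → x * v = v * x → x = 1 ∨ x = u ∨ x = v ∨ x = u * v :=
    fun x a b => by
      have := h7 (e x) (by rw [← map_mul, a, map_mul]) (by rw [← map_mul, b, map_mul])
      simpa only [← map_mul, map_eq_one_iff _ e.injective, e.apply_eq_iff_eq] using this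
  haveI : IsSimpleGroup N := by
    haveI := H10.isSimpleGroup_PSL_fin (F := F) (n := 2) le_rfl
      (fun _ => by rw [Nat.card_eq_fintype_card]; omega)
    exact e.isSimpleGroup
  have htt : t * t = 1 := H20.mul_self_of_orderOf_two ht
  have ht1 : t ≠ 1 := fun h => by rw [h, orderOf_one] at ht; omega
  obtain ⟨-, hE2, hE3, hE4, hE5⟩ := hE
  set U : G := ((u : E) : G) with hU
  set V : G := ((v : E) : G) with hV
  have hUU : U * U = 1 := congrArg (fun x : N => ((x : E) : G)) h1
  have hVV : V * V = 1 := congrArg (fun x : N => ((x : E) : G)) h2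
  have hUV : U * V = V * U := congrArg (fun x : N => ((x : E) : G)) h3
  have hP : IsPGroup 2 ↥(zpowers t ⊔ (zpowers U ⊔ zpowers V)) := by
    refine pgrp_sup (pgrp_zp htt) (pgrp_sup (pgrp_zp hUU) (pgrp_zp hVV) ?_) fun a ha b hb =>
      hE3 a ha b ((sup_le (zpowers_le.2 (u : E).2) (zpowers_le.2 (v : E).2) :) hb)
    rintro _ ⟨k, rfl⟩ _ ⟨l, rfl⟩
    exact (Commute.zpow_zpow hUV k l).eq
  obtain ⟨S, hS⟩ := hP.exists_le_sylow
  have tS : t ∈ (S : Subgroup G) := hS (mem_sup_left (mem_zpowers t))
  have uS : U ∈ (S : Subgroup G) := hS (mem_sup_right (mem_sup_left (mem_zpowers U)))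
  have vS : V ∈ (S : Subgroup G) := hS (mem_sup_right (mem_sup_right (mem_zpowers V)))
  haveI := hab S
  have four : ∀ x : E, x ∈ N → (x : G) * U = U * x → (x : G) * V = V * x →
      (x : G) = 1 ∨ (x : G) = U ∨ (x : G) = V ∨ (x : G) = U * V := fun x hx a b => by
    rcases h8 ⟨x, hx⟩ (Subtype.ext (Subtype.ext a)) (Subtype.ext (Subtype.ext b)) with h | h | h | h
    · exact Or.inl (congrArg (fun x : N => ((x : E) : G)) h)
    · exact Or.inr (Or.inl (congrArg (fun x : N => ((x : E) : G)) h))
    · exact Or.inr (Or.inr (Or.inl (congrArg (fun x : N => ((x : E) : G)) h)))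
    · exact Or.inr (Or.inr (Or.inr (congrArg (fun x : N => ((x : E) : G)) h)))
  have hT : (S : Subgroup G).subgroupOf E ≤ N := by
    refine H1.le_of_ab_two N ?_ hNc _ (S.2.comap_of_injective E.subtype E.subtype_injective)
      inferInstance fun Q hQ hQN hTQ x hx => ?_
    · have := orderOf_dvd_natCard u
      rwa [orderOf_eq_prime (p := 2) (by rw [pow_two, h1]) h4] at this
    · have hQ' := hQ.map E.subtype
      have a := two_ab hab hQ' ⟨x, hx, rfl⟩ ⟨(u : E), hTQ ⟨uS, u.2⟩, rfl⟩
      have b := two_ab hab hQ' ⟨x, hx, rfl⟩ ⟨(v : E), hTQ ⟨vS, v.2⟩, rfl⟩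
      rw [mem_subgroupOf]
      rcases four x (hQN hx) a b with h | h | h | h <;> rw [h]
      exacts [one_mem _, uS, vS, mul_mem uS vS]
  have shape : ∀ s ∈ (S : Subgroup G), s ∈ E → ∃ j k : Bool,
      s = (if j then U else 1) * (if k then V else 1) := fun s hs hsE => by
    rcases four ⟨s, hsE⟩ (hT hs) (le_centralizer (S : Subgroup G) uS s hs)
      (le_centralizer (S : Subgroup G) vS s hs) with h | h | h | h
    · exact ⟨false, false, by simpa using h⟩
    · exact ⟨true, false, by simpa using h⟩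
    · exact ⟨false, true, by simpa using h⟩
    · exact ⟨true, true, by simpa using h⟩
  refine ⟨S, U, V, tS, uS, vS, fun s hs => ?_, fun i j k h => ?_⟩
  · have h9 : s ∈ zpowers t ⊔ E := by
      rw [hE5, mem_centralizer_singleton_iff]
      exact le_centralizer (S : Subgroup G) tS s hs
    have hn : zpowers t ≤ normalizer (E : Set G) := fun a ha =>
      centralizer_le_normalizer _ fun b hb => (hE3 a ha b hb).symm
    have h10 : s ∈ ((zpowers t ⊔ E : Subgroup G) : Set G) := h9
    rw [coe_mul_of_left_le_normalizer_right _ _ hn] at h10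
    obtain ⟨a, ha, b, hb, rfl⟩ := h10
    have haS : a ∈ (S : Subgroup G) := zpowers_le.2 tS ha
    obtain ⟨j, k, h⟩ := shape b ((mul_mem_cancel_left haS).1 hs) hb
    rcases mem_zp htt ha with h' | h'
    · exact ⟨false, j, k, by rw [h', h]; simp⟩
    · exact ⟨true, j, k, by rw [h', h]; simp [mul_assoc]⟩
  · have m : (if j then U else 1) * (if k then V else 1) ∈ E := by
      cases j <;> cases k <;> simp [hU, hV, mul_mem]
    cases i
    · refine ⟨rfl, ?_⟩
      cases j <;> cases k <;> simp only [if_true, Bool.false_eq_true, if_false, one_mul,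
        mul_one] at h
      · exact ⟨rfl, rfl⟩
      · exact absurd (Subtype.ext (Subtype.ext h)) h5
      · exact absurd (Subtype.ext (Subtype.ext h)) h4
      · exact absurd (Subtype.ext (Subtype.ext h)) h6
    · exfalso
      rw [mul_assoc] at h
      have : t ∈ zpowers t ⊓ E := ⟨mem_zpowers t, by
        have h' : t * ((if j then U else 1) * (if k then V else 1)) = 1 := h
        exact (eq_inv_of_mul_eq_one_left h').symm ▸ E.inv_mem m⟩
      rw [hE4] at this
      exact ht1 this

/-- Let G be a non-abelian finite simple group with abelian Sylow 2-subgroups, and let t be an involution of G whose centralizer is a maximal subgroup of G and is the direct product of the subgroup generated by t with a subgroup E having a normal subgroup isomorphic to PSL(2, q), q odd and greater than 3, with trivial centralizer in E. Then every finite perfect group having a central 2-subgroup with quotient isomorphic to G has that central subgroup trivial (G has no nontrivial perfect central extension by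 a 2-group), and every automorphism of G of 2-power order that fixes every element of some Sylow 2-subgroup of G is inner. -/
theorem result {G : Type*} [Group G] [Finite G] [IsSimpleGroup G]
    (hG : ¬ IsMulCommutative G) (hab : ∀ S : Sylow 2 G, IsMulCommutative ↥(S : Subgroup G))
    (t : G) (ht : orderOf t = 2) (hmax : IsCoatom (Subgroup.centralizer ({t} : Set G)))
    (E : Subgroup G) (hE : Cfsg.IsInternalDirectProduct (Subgroup.zpowers t) E (Subgroup.centralizer ({t} : Set G)))
    {F : Type*} [Field F] [Fintype F] (hFo : Odd (Fintype.card F)) (hF3 : 3 < Fintype.card F)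
    (N : Subgroup ↥E) [N.Normal] (hN : Nonempty (↥N ≃* Matrix.ProjectiveSpecialLinearGroup (Fin 2) F))
    (hNc : Subgroup.centralizer (N : Set ↥E) = ⊥) :
    (∀ (L : Type) (_ : Group L) (_ : Finite L) (Z : Subgroup L) (_ : Z.Normal), commutator L = ⊤ → Z ≤ Subgroup.center L →
        IsPGroup 2 ↥Z → Nonempty (L ⧸ Z ≃* G) → Z = ⊥) ∧
    (∀ (φ : G ≃* G) (k : ℕ), φ ^ (2 ^ k) = 1 → (∃ S : Sylow 2 G, ∀ s ∈ (S : Subgroup G), φ s = s) →
        ∃ g : G, ∀ x : G, φ x = g * x * g⁻¹) := by
  have hZ : center G = ⊥ := center_bot hG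
  have h2 : 2 ∣ Nat.card G := ht ▸ orderOf_dvd_natCard t
  have hO : oddCore G = ⊥ := (IsSimpleGroup.eq_bot_or_eq_top_of_normal _ inferInstance).resolve_right
    fun h => by
      have := (H2.odd_card_oddCore (G := G))
      rw [h, card_top] at this
      exact absurd (this.of_dvd_nat h2) (by decide)
  constructor
  · intro L _ _ Z _ hL hZc hZ2 ⟨e⟩
    by_contra hne
    obtain ⟨S, u, v, tS, uS, vS, hS, hind⟩ := sylow_shape hab t ht E hE hFo hF3 N hN hNc
    haveI := hab S
    let f : L →* G := e.toMonoidHom.comp (QuotientGroup.mk' Z)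
    have hf : Function.Surjective f := e.surjective.comp (QuotientGroup.mk'_surjective Z)
    have hk : ∀ x, f x = 1 ↔ x ∈ Z := fun x => by
      simp [f, QuotientGroup.eq_one_iff]
    have hker : f.ker = Z := Subgroup.ext hk
    let T : Subgroup L := (S : Subgroup G).comap f
    have hT : IsPGroup 2 T := S.2.comap_of_ker_isPGroup f (hker ▸ hZ2)
    have hZT : Z ≤ ⁅T, T⁆ := by
      refine le_trans ?_ (H4.inf_commutator_inf_center_le (H := T) ?_)
      · refine le_inf (le_inf (fun z hz => ?_) (hL ▸ le_top)) hZc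
        show f z ∈ (S : Subgroup G)
        rw [(hk z).2 hz]; exact one_mem _
      · obtain ⟨k, hk⟩ := hT.exists_card_eq
        rw [hk, index_comap_of_surjective _ hf]
        exact Nat.Coprime.pow_left _ (H4.sylow_index_coprime S).symm
    obtain ⟨M, -, -, hM⟩ := H3.exists_index_p_ge hZ2 (H := ⊥) (by
      haveI := (nontrivial_iff_ne_bot Z).2 hne
      exact bot_ne_top)
    obtain ⟨χ, hχ⟩ := H4.exists_sign_hom hM
    classical
    let σ : L → ℤˣ := fun x => if h : x ∈ Z then χ ⟨x, h⟩ else 1
    have σm : ∀ x ∈ Z, ∀ y ∈ Z, σ (x * y) = σ x * σ y := fun x hx y hy => by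
      simp only [σ, dif_pos hx, dif_pos hy, dif_pos (mul_mem hx hy)]
      rw [← map_mul]; rfl
    have σ1 : σ 1 = 1 := by
      simp only [σ, dif_pos (one_mem Z)]; exact map_one χ
    have σi : ∀ x ∈ Z, σ x⁻¹ = σ x := fun x hx => by
      have := σm x hx x⁻¹ (inv_mem hx)
      rw [mul_inv_cancel, σ1] at this
      rw [eq_inv_of_mul_eq_one_right this.symm, Int.units_inv_eq_self]
    have cZ : ∀ z ∈ Z, ∀ x, x * z = z * x := fun z hz x => mem_center_iff.1 (hZc hz) x
    have cm : ∀ x y, f x ∈ (S : Subgroup G) → f y ∈ (S : Subgroup G) → ⁅x, y⁆ ∈ Z :=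
      fun x y hx hy => by
        rw [← hk, map_commutatorElement, commutatorElement_eq_one_iff_mul_comm]
        exact le_centralizer (S : Subgroup G) hy _ hx
    have c1 : ∀ x x' y, f x = f x' → ⁅x, y⁆ = ⁅x', y⁆ := fun x x' y h => by
      have hz : x'⁻¹ * x ∈ Z := by rw [← hk, map_mul, map_inv, h, inv_mul_cancel]
      have : x = x' * (x'⁻¹ * x) := by group
      rw [this]
      generalize x'⁻¹ * x = z at hz
      calc ⁅x' * z, y⁆ = x' * (z * y) * z⁻¹ * x'⁻¹ * y⁻¹ := by rw [commutatorElement_def]; group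
        _ = _ := by rw [← cZ z hz y, commutatorElement_def]; group
    have c2 : ∀ x x' y y', f x = f x' → f y = f y' → ⁅x, y⁆ = ⁅x', y'⁆ := fun x x' y y' h h' => by
      rw [c1 x x' y h, ← commutatorElement_inv, c1 y y' x' h', commutatorElement_inv]
    let g : G → L := Function.surjInv hf
    have fg : ∀ x, f (g x) = x := Function.surjInv_eq hf
    let B : G → G → ℤˣ := fun x y => σ ⁅g x, g y⁆
    have hB : ∀ x y, B (f x) (f y) = σ ⁅x, y⁆ := fun x y => by
      simp only [B]; rw [c2 _ x _ y (fg _) (fg _)]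
    obtain ⟨r, rS, r1, hr, hr'⟩ := H1.exists_rad_eight B tS uS vS hS hind
      (fun x hx y hy z hz => by
        obtain ⟨x, rfl⟩ := hf x
        obtain ⟨y, rfl⟩ := hf y
        obtain ⟨z, rfl⟩ := hf z
        rw [← map_mul, hB, hB, hB, ← σm _ (cm x z hx hz) _ (cm y z hy hz)]
        congr 1
        calc ⁅x * y, z⁆ = x * ⁅y, z⁆ * x⁻¹ * ⁅x, z⁆ := by simp only [commutatorElement_def]; group
          _ = _ := by rw [cZ _ (cm y z hy hz) x, cZ _ (cm y z hy hz) ⁅x, z⁆]; group)
      (fun x hx y hy => by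
        obtain ⟨x, rfl⟩ := hf x
        obtain ⟨y, rfl⟩ := hf y
        rw [hB, hB, ← commutatorElement_inv, σi _ (cm y x hy hx)])
      (fun x hx => by
        obtain ⟨x, rfl⟩ := hf x
        rw [hB, commutatorElement_self, σ1])
      (by
        by_contra h
        push Not at h
        have : Z ≤ M.map Z.subtype := hZT.trans (commutator_le.2 fun x hx y hy => by
          have h1 := h _ hx _ hy
          rw [hB] at h1
          simp only [σ, dif_pos (cm x y hx hy)] at h1
          exact ⟨_, (hχ _).1 h1, rfl⟩)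
        have h3 : M = ⊤ := eq_top_iff.2 fun z _ => by
          obtain ⟨w, hw, e⟩ := this z.2
          rwa [← Subtype.ext e]
        rw [h3, index_top] at hM
        omega)
    refine r1 (H1.eq_one_of_ab_sylow_fixed S inferInstance hO hZ rS fun n hn => ?_)
    have hnr : n * r * n⁻¹ ∈ (S : Subgroup G) := (mem_normalizer_iff.1 hn r).1 rS
    refine (hr' _ hnr fun y hy => ?_).resolve_left fun h => r1 (by
      rw [← conj_eq_one_iff (a := n), h])
    have hy' : n⁻¹ * y * n ∈ (S : Subgroup G) := (mem_normalizer_iff''.1 hn y).1 hy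
    have := hr _ hy'
    obtain ⟨n, rfl⟩ := hf n
    obtain ⟨r, rfl⟩ := hf r
    obtain ⟨y, rfl⟩ := hf y
    simp only [← map_inv, ← map_mul] at this hy' ⊢
    rw [hB] at this ⊢
    rw [← this]
    congr 1
    calc ⁅n * r * n⁻¹, y⁆ = n * ⁅r, n⁻¹ * y * n⁆ * n⁻¹ := by simp only [commutatorElement_def]; group
      _ = _ := by rw [cZ _ (cm _ _ rS hy') n]; group
  · rintro φ k hφ ⟨S, hS⟩
    haveI := hab S
    let c : G →* MulAut G := MulAut.conj
    have hc : Function.Injective c := (injective_iff_map_eq_one c).2 fun x hx => by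
      have : x ∈ center G := mem_center_iff.2 fun y => by
        have := congrArg (fun ψ : MulAut G => ψ y) hx
        simp only [c, MulAut.conj_apply, MulAut.one_apply] at this
        rw [mul_inv_eq_iff_eq_mul] at this
        exact this.symm
      simpa [hZ] using this
    have cc : ∀ (ψ : MulAut G) (x : G), ψ * c x * ψ⁻¹ = c (ψ x) := fun ψ x => by
      ext y; simp [c]
    haveI : c.range.Normal := ⟨by
      rintro _ ⟨x, rfl⟩ ψ
      exact ⟨ψ x, (cc ψ x).symm⟩⟩
    haveI : IsSimpleGroup c.range := (MonoidHom.ofInjective hc).symm.isSimpleGroup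
    have hφ2 : IsPGroup 2 (zpowers (φ : MulAut G)) := by
      rintro ⟨_, m, rfl⟩
      refine ⟨k, Subtype.ext ?_⟩
      show ((φ : MulAut G) ^ m) ^ 2 ^ k = 1
      rw [← zpow_natCast, ← zpow_mul, mul_comm, zpow_mul, zpow_natCast, hφ, one_zpow]
    have hcm : ∀ a ∈ (S : Subgroup G).map c, ∀ b ∈ zpowers (φ : MulAut G), a * b = b * a := by
      rintro _ ⟨s, hs, rfl⟩ _ ⟨m, rfl⟩
      refine (Commute.zpow_right ?_ m).eq
      have := cc φ s
      rw [hS s hs, mul_inv_eq_iff_eq_mul] at this
      exact this.symm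
    have hT := pgrp_sup (S.2.map c) hφ2 hcm
    have hcomm : IsMulCommutative ↥((S : Subgroup G).map c ⊔ zpowers (φ : MulAut G)) := by
      rw [← le_centralizer_iff_isMulCommutative]
      refine sup_le ?_ ?_ <;> rw [le_centralizer_iff] <;> refine sup_le ?_ ?_
      · exact le_centralizer _
      · exact fun b hb a ha => hcm a ha b hb
      · exact fun a ha b hb => (hcm a ha b hb).symm
      · exact le_centralizer _
    obtain ⟨g, hg⟩ := H1.le_of_ab_two c.range
      (by rwa [← Nat.card_congr (MonoidHom.ofInjective hc).toEquiv]) (by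
        refine eq_bot_iff.2 fun ψ hψ => mem_bot.2 ?_
        ext x
        have := cc ψ x
        rw [← hψ (c x) ⟨x, rfl⟩, mul_inv_cancel_right] at this
        exact (hc this).symm) _ hT hcomm (fun Q hQ hQK hTQ x hx => by
        obtain ⟨y, rfl⟩ := hQK hx
        have h1 : (S : Subgroup G) ≤ Q.comap c := fun s hs =>
          hTQ ⟨mem_sup_left ⟨s, hs, rfl⟩, s, rfl⟩
        have h3 := S.3 (hQ.comap_of_injective c hc) h1
        exact mem_sup_left ⟨y, h3 ▸ hx, rfl⟩) (mem_sup_right (mem_zpowers _))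
    exact ⟨g, fun x => by rw [← hg]; rfl⟩

end Cfsg.Agent.S3206
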