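import Cfsg.Statements.S3208
import Mathlib
import Cfsg.Agent.H22.Syl
import Cfsg.Agent.H1.Coprime
import Cfsg.Agent.H29.ES

set_option autoImplicit false
open Cfsg

namespace Cfsg.Agent.S3208

open Cfsg.Agent.H22

/-- Let j be an involution of a finite group G, H a subgroup of G, and T a Sylow 2-subgroup of H ∩ C_G(j) containing j such that ⟨j⟩ is a characteristic subgroup of T. Then T is a Sylow 2-subgroup of H. -/
theorem result {G : Type*} [Group G] [Finite G]
    (j : G) (hj : orderOf j = 2) (H T : Subgroup G) (hT : T ≤ H ⊓ Subgroup.centralizer ({j} : Set G)) (h2 : IsPGroup 2 ↥T)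
    (hSyl : ¬ 2 ∣ T.relIndex (H ⊓ Subgroup.centralizer ({j} : Set G))) (hjT : j ∈ T)
    (hchar : ((Subgroup.zpowers j).subgroupOf T).Characteristic) :
    ¬ 2 ∣ T.relIndex H := by
  have h1 := H18.sylIn_of_not_dvd_relIndex hT h2 hSyl
  have h3 : N[T] ≤ N[Subgroup.zpowers j] := by
    have := H1.normalizer_le_normalizer_map_of_characteristic ((Subgroup.zpowers j).subgroupOf T)
    rwa [Subgroup.subgroupOf_map_subtype, inf_eq_left.2 (Subgroup.zpowers_le_of_mem hjT)] at this
  have h4 : T ≤ H ⊓ N[T] := le_inf (hT.trans inf_le_left) Subgroup.le_normalizer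
  refine (sylIn_of_inf_N (hT.trans inf_le_left) (h1.mono h4 (inf_le_inf_left _ (h3.trans ?_)))).not_dvd_relIndex
  rw [H29.N_zp2 (by rw [← pow_two, ← hj, pow_orderOf_eq_one])]

end Cfsg.Agent.S3208
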