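import Cfsg.Statements.S3211
import Mathlib
import Cfsg.Agent.H1.SL2Inv

set_option autoImplicit false
open Cfsg

namespace Cfsg.Agent.S3211

open Subgroup

theorem mem_sup_comm {G : Type*} [Group G] {A B : Subgroup G} (hc : ∀ x ∈ A, ∀ y ∈ B, x * y = y * x)
    {m : G} (hm : m ∈ A ⊔ B) : ∃ a ∈ A, ∃ b ∈ B, m = a * b := by
  rw [sup_eq_closure] at hm
  induction hm using closure_induction with
  | mem x hx =>
    rcases hx with hx | hx
    · exact ⟨x, hx, 1, one_mem _, (mul_one x).symm⟩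
    · exact ⟨1, one_mem _, x, hx, (one_mul x).symm⟩
  | one => exact ⟨1, one_mem _, 1, one_mem _, (mul_one 1).symm⟩
  | mul x y _ _ hx hy =>
    obtain ⟨a, ha, b, hb, rfl⟩ := hx
    obtain ⟨a', ha', b', hb', rfl⟩ := hy
    refine ⟨a * a', mul_mem ha ha', b * b', mul_mem hb hb', ?_⟩
    calc a * b * (a' * b') = a * (b * a') * b' := by group
      _ = _ := by rw [← hc a' ha' b hb]; group
  | inv x _ hx =>
    obtain ⟨a, ha, b, hb, rfl⟩ := hx
    exact ⟨a⁻¹, inv_mem ha, b⁻¹, inv_mem hb, by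
      rw [mul_inv_rev, hc _ (inv_mem ha) _ (inv_mem hb)]⟩

theorem mem_zp {G : Type*} [Group G] {j x : G} (hj : j * j = 1) (hx : x ∈ zpowers j) :
    x = 1 ∨ x = j := by
  obtain ⟨k, rfl⟩ := hx
  have h2 : j ^ (2 : ℤ) = 1 := by rw [zpow_two, hj]
  rcases Int.even_or_odd' k with ⟨m, rfl | rfl⟩
  · left; show j ^ (2 * m) = 1; rw [zpow_mul, h2, one_zpow]
  · right; show j ^ (2 * m + 1) = j; rw [zpow_add, zpow_mul, h2, one_zpow, one_mul, zpow_one]

/-- Let G be a finite group with subgroups L₁ ≅ SL₂(q₁) and L₂ ≅ SL₂(q₂), q₁ and q₂ odd prime powers, which commute elementwise and meet in ⟨j⟩ for an involution j, and suppose L₁L₂ has index 2 in C_G(j). If some n ∈ C_G(j) with n² = j interchanges L₁ and L₂ under conjugation (so that C_G(j) = L₁L₂⟨n⟩), then G = C_G(j)O(G). -/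
theorem result {G : Type*} [Group G] [Finite G]
    {F₁ : Type*} [Field F₁] [Fintype F₁] {F₂ : Type*} [Field F₂] [Fintype F₂]
    (hF₁ : Odd (Fintype.card F₁)) (hF₂ : Odd (Fintype.card F₂)) (L₁ L₂ : Subgroup G)
    (e₁ : ↥L₁ ≃* Matrix.SpecialLinearGroup (Fin 2) F₁) (e₂ : ↥L₂ ≃* Matrix.SpecialLinearGroup (Fin 2) F₂)
    (hc : ∀ x ∈ L₁, ∀ y ∈ L₂, x * y = y * x) (j : G) (hj : orderOf j = 2) (hm : L₁ ⊓ L₂ = Subgroup.zpowers j)
    (hle : L₁ ⊔ L₂ ≤ Subgroup.centralizer ({j} : Set G)) (hi : (L₁ ⊔ L₂).relIndex (Subgroup.centralizer ({j} : Set G)) = 2) (n : G) (hn : n ∈ Subgroup.centralizer ({j} : Set G))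
    (hn2 : n ^ 2 = j) (hswap : L₁.map (MulAut.conj n).toMonoidHom = L₂) :
    Subgroup.centralizer ({j} : Set G) ⊔ Cfsg.oddCore G = ⊤ := by
  have hjj : j * j = 1 := H20.mul_self_of_orderOf_two hj
  have hj1 : j ≠ 1 := fun h => by rw [h, orderOf_one] at hj; omega
  have hjL : j ∈ L₁ ⊓ L₂ := hm ▸ mem_zpowers j
  have hI : ∀ x ∈ L₁, x ∈ L₂ → x = 1 ∨ x = j := fun x h1 h2 =>
    mem_zp hjj (hm ▸ (⟨h1, h2⟩ : x ∈ L₁ ⊓ L₂))
  obtain ⟨U₁, I₁⟩ := H1.sl2_sub hF₁ e₁
  obtain ⟨U₂, I₂⟩ := H1.sl2_sub hF₂ e₂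
  have hnn : n * n = j := by rw [← hn2, pow_two]
  have c12 : ∀ x ∈ L₁, n * x * n⁻¹ ∈ L₂ := fun x hx => hswap ▸ ⟨x, hx, rfl⟩
  have cj : ∀ x ∈ L₁, j * x = x * j := fun x hx => (hc x hx j hjL.2).symm
  have cj2 : ∀ x ∈ L₂, j * x = x * j := fun x hx => hc j hjL.1 x hx
  have c21 : ∀ x ∈ L₂, n * x * n⁻¹ ∈ L₁ := fun x hx => by
    rw [← hswap] at hx
    obtain ⟨y, hy, rfl⟩ := hx
    have : n * (n * y * n⁻¹) * n⁻¹ = y := by
      calc n * (n * y * n⁻¹) * n⁻¹ = (n * n) * y * (n * n)⁻¹ := by group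
        _ = y := by rw [hnn, cj y hy]; group
    show n * (n * y * n⁻¹) * n⁻¹ ∈ L₁
    rw [this]; exact hy
  have hnM : n ∉ L₁ ⊔ L₂ := fun h => by
    obtain ⟨a, ha, b, hb, e⟩ := mem_sup_comm hc h
    have h1 : ∀ x ∈ L₁, x = 1 ∨ x = j := fun x hx => by
      have h2 := c12 (a⁻¹ * x * a) (mul_mem (mul_mem (inv_mem ha) hx) ha)
      have : n * (a⁻¹ * x * a) * n⁻¹ = x := by
        rw [e]
        calc a * b * (a⁻¹ * x * a) * (a * b)⁻¹ = a * (b * (a⁻¹ * x * a)) * (a * b)⁻¹ := by group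
          _ = x := by rw [← hc _ (mul_mem (mul_mem (inv_mem ha) hx) ha) b hb]; group
      exact hI x hx (this ▸ h2)
    have h2 : ∀ x ∈ L₂, x * x = 1 := fun x hx => by
      have : x = n⁻¹ * (n * x * n⁻¹) * n := by group
      rcases h1 _ (c21 x hx) with h | h
      · rw [this, h]; group
      · rw [this, h]
        calc n⁻¹ * j * n * (n⁻¹ * j * n) = n⁻¹ * (j * j) * n := by group
          _ = 1 := by rw [hjj]; group
    have h3 : a * a = 1 := by rcases h1 a ha with h | h <;> simp [h, hjj]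
    apply hj1
    rw [← hnn, e]
    calc a * b * (a * b) = a * (b * a) * b := by group
      _ = (a * a) * (b * b) := by rw [← hc a ha b hb]; group
      _ = 1 := by rw [h3, h2 b hb, one_mul]
  -- involutions of `C(j)` lie in `L₁ L₂`
  have hB : ∀ x, x * j = j * x → x * x = 1 → x ∈ L₁ ⊔ L₂ := fun x hx hxx => by
    by_contra hxM
    have hxC : x ∈ centralizer ({j} : Set G) := mem_centralizer_singleton_iff.2 hx
    have h1 : x * n⁻¹ ∈ L₁ ⊔ L₂ := by
      have := (Subgroup.mul_mem_iff_of_index_two (H := (L₁ ⊔ L₂).subgroupOf (centralizer {j})) hi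
        (a := ⟨x, hxC⟩) (b := ⟨n⁻¹, inv_mem hn⟩)).2 (by
          simp only [mem_subgroupOf]
          exact ⟨fun h => absurd h hxM, fun h => absurd (inv_mem_iff.1 h) hnM⟩)
      exact this
    obtain ⟨a, ha, b, hb, e⟩ := mem_sup_comm hc h1
    have ex : x = a * b * n := by rw [← e]; group
    have ha' := c12 a ha
    have hb' := c21 b hb
    have e1 : (a * (n * b * n⁻¹)) * (b * (n * a * n⁻¹)) * j = 1 := by
      rw [← hxx, ex, ← hnn]
      calc (a * (n * b * n⁻¹)) * (b * (n * a * n⁻¹)) * (n * n)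
          = a * ((n * b * n⁻¹) * (b * (n * a * n⁻¹))) * (n * n) := by group
        _ = a * ((b * (n * a * n⁻¹)) * (n * b * n⁻¹)) * (n * n) := by
          rw [hc _ hb' _ (mul_mem hb ha')]
        _ = _ := by group
    have e2 : n * (a * (n * b * n⁻¹)) * n⁻¹ = (n * a * n⁻¹) * b := by
      calc n * (a * (n * b * n⁻¹)) * n⁻¹ = (n * a * n⁻¹) * ((n * n) * b * (n * n)⁻¹) := by group
        _ = _ := by rw [hnn, cj2 b hb]; group
    have hu : a * (n * b * n⁻¹) ∈ L₂ := by
      have : a * (n * b * n⁻¹) = ((b * (n * a * n⁻¹)) * j)⁻¹ := by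
        rw [eq_inv_iff_mul_eq_one, ← mul_assoc]; exact e1
      rw [this]; exact inv_mem (mul_mem (mul_mem hb ha') hjL.2)
    have hnj : n * j * n⁻¹ = j := by rw [← hnn]; group
    rcases hI _ (mul_mem ha hb') hu with h | h
    · rw [h] at e1 e2
      have : b * (n * a * n⁻¹) = 1 := by
        rw [mul_eq_one_comm, ← e2]; group
      rw [this] at e1
      exact hj1 (by simpa using e1)
    · rw [h] at e1 e2
      rw [hnj] at e2
      have : b * (n * a * n⁻¹) = j := by
        calc b * (n * a * n⁻¹) = b * ((n * a * n⁻¹) * b) * b⁻¹ := by group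
          _ = j := by rw [← e2, ← cj2 b hb]; group
      rw [this, hjj, one_mul] at e1
      exact hj1 e1
  -- shape of the other involutions
  have hC : ∀ a ∈ L₁, ∀ b ∈ L₂, (a * b) * (a * b) = 1 → a * b ≠ 1 → a * b ≠ j →
      a * a = j ∧ b * b = j := fun a ha b hb h h1 h2 => by
    have e1 : (a * a) * (b * b) = 1 := by
      rw [← h]
      calc (a * a) * (b * b) = a * (a * b) * b := by group
        _ = a * (b * a) * b := by rw [hc a ha b hb]
        _ = _ := by group
    have e2 : a * a ∈ L₂ := by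
      rw [eq_inv_of_mul_eq_one_left e1]; exact inv_mem (mul_mem hb hb)
    rcases hI _ (mul_mem ha ha) e2 with h' | h'
    · exfalso
      rw [h', one_mul] at e1
      have a1 : a = 1 ∨ a = j := by
        by_cases k : a = 1
        · exact Or.inl k
        · exact Or.inr (U₁ a ha j hjL.1 h' k hjj hj1)
      have b1 : b = 1 ∨ b = j := by
        by_cases k : b = 1
        · exact Or.inl k
        · exact Or.inr (U₂ b hb j hjL.2 e1 k hjj hj1)
      rcases a1 with k | k <;> rcases b1 with k' | k' <;> rw [k, k'] at h1 h2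
      · exact h1 (mul_one _)
      · exact h2 (one_mul _)
      · exact h2 (mul_one _)
      · exact h1 hjj
    · refine ⟨h', ?_⟩
      rw [h'] at e1
      rw [eq_inv_of_mul_eq_one_right e1]; exact inv_eq_of_mul_eq_one_right hjj
  refine H1.cent_sup_oddCore_of_isolated ⟨hj, fun g0 hg0 => ?_⟩
  by_contra hne
  have key : ∀ k : ℕ, ∃ x ∈ L₁, ∃ b ∈ L₂, ∃ g : G, g * (x ^ 2 ^ k * b) * g⁻¹ = j ∧
      x ^ 2 ^ k * b ≠ j := by
    intro k
    induction k with
    | zero =>
      have h1 : (g0 * j * g0⁻¹) * (g0 * j * g0⁻¹) = 1 := by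
        calc _ = g0 * (j * j) * g0⁻¹ := by group
          _ = 1 := by rw [hjj]; group
      obtain ⟨a, ha, b, hb, e⟩ := mem_sup_comm hc (hB _ hg0.eq.symm h1)
      exact ⟨a, ha, b, hb, g0⁻¹, by rw [pow_zero, pow_one, ← e]; group,
        by rw [pow_zero, pow_one, ← e]; exact hne⟩
    | succ k ih =>
      obtain ⟨x, hx, b, hb, g, hg, hne'⟩ := ih
      set l := x ^ 2 ^ k with hl
      have hlL : l ∈ L₁ := pow_mem hx _
      have ht : l * b = g⁻¹ * j * g := by rw [← hg]; group
      have htt : (l * b) * (l * b) = 1 := by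
        rw [ht]
        calc _ = g⁻¹ * (j * j) * g := by group
          _ = 1 := by rw [hjj]; group
      have ht1 : l * b ≠ 1 := fun h => hj1 (by rw [← hg, h]; group)
      obtain ⟨hll, hbb⟩ := hC l hlL b hb htt ht1 hne'
      obtain ⟨w, hw, hww, hw'⟩ := I₁ l hlL (by rw [hll, hjj]) (by rw [hll]; exact hj1)
      obtain ⟨v, hv, hvv, hv'⟩ := I₂ b hb (by rw [hbb, hjj]) (by rw [hbb]; exact hj1)
      have hxl : x * l = l * x := by rw [hl]; group
      have w1 := hw' x hx hxl
      have w2 := hw' l hlL rfl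
      have v2 := hv' b hb rfl
      -- `w v` and `x w v` are involutions commuting with `t = l b`
      have s1 : (w * v) * (w * v) = 1 := by
        calc _ = w * (v * w) * v := by group
          _ = (w * w) * (v * v) := by rw [← hc w hw v hv]; group
          _ = 1 := by rw [hww, hvv, hll, hbb, hjj]
      have s2 : (x * (w * v)) * (x * (w * v)) = 1 := by
        calc _ = x * w * (v * (x * w)) * v := by group
          _ = (x * w * x) * w * (v * v) := by rw [← hc _ (mul_mem hx hw) v hv]; group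
          _ = 1 := by rw [w1, hww, hvv, hll, hbb, hjj]
      have s3 : (w * v) * (l * b) = (l * b) * (w * v) := by
        have : (l * b) * (w * v) * (l * b) = w * v := by
          calc (l * b) * (w * v) * (l * b) = l * (b * w) * (v * l) * b := by group
            _ = l * w * ((b * l) * v) * b := by
              rw [← hc w hw b hb, ← hc l hlL v hv]; group
            _ = (l * w * l) * (b * v * b) := by rw [← hc l hlL b hb]; group
            _ = _ := by rw [w2, v2]
        calc (w * v) * (l * b) = ((l * b) * (l * b)) * (w * v) * (l * b) := by rw [htt, one_mul]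
          _ = (l * b) * ((l * b) * (w * v) * (l * b)) := by group
          _ = _ := by rw [this]
      have s4 : x * (l * b) = (l * b) * x := by
        calc x * (l * b) = (x * l) * b := by group
          _ = l * (x * b) := by rw [hxl]; group
          _ = _ := by rw [hc x hx b hb]; group
      have cg : ∀ y, y * (l * b) = (l * b) * y → (g * y * g⁻¹) * j = j * (g * y * g⁻¹) :=
        fun y hy => by
          rw [← hg]
          calc _ = g * (y * (l * b)) * g⁻¹ := by group
            _ = _ := by rw [hy]; group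
      have sq : ∀ y, y * y = 1 → (g * y * g⁻¹) * (g * y * g⁻¹) = 1 := fun y hy => by
        calc _ = g * (y * y) * g⁻¹ := by group
          _ = 1 := by rw [hy]; group
      have m1 := hB _ (cg _ s3) (sq _ s1)
      have m2 := hB _ (cg (x * (w * v)) (by rw [mul_assoc, s3, ← mul_assoc, s4, mul_assoc]))
        (sq _ s2)
      have m3 : g * x * g⁻¹ ∈ L₁ ⊔ L₂ := by
        have : g * x * g⁻¹ = (g * (x * (w * v)) * g⁻¹) * (g * (w * v) * g⁻¹)⁻¹ := by group
        rw [this]; exact mul_mem m2 (inv_mem m1)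
      obtain ⟨y, hy, z, hz, e⟩ := mem_sup_comm hc m3
      have e5 : y ^ 2 ^ (k + 1) * z ^ 2 ^ (k + 1) = g * j * g⁻¹ := by
        rw [← Commute.mul_pow (hc y hy z hz), ← e, conj_pow, pow_succ, pow_mul, ← hl, pow_two, hll]
      refine ⟨y, hy, z ^ 2 ^ (k + 1), pow_mem hz _, g⁻¹, by rw [e5]; group, ?_⟩
      rw [e5]
      intro h
      apply hne'
      rw [ht]
      calc g⁻¹ * j * g = g⁻¹ * (g * j * g⁻¹) * g := by rw [h]
        _ = j := by group
  obtain ⟨x, hx, b, hb, g, hg, hne'⟩ := key (Nat.card G)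
  set k := Nat.card G with hk
  have ht : x ^ 2 ^ k * b = g⁻¹ * j * g := by rw [← hg]; group
  have htt : (x ^ 2 ^ k * b) * (x ^ 2 ^ k * b) = 1 := by
    rw [ht]
    calc _ = g⁻¹ * (j * j) * g := by group
      _ = 1 := by rw [hjj]; group
  have ht1 : x ^ 2 ^ k * b ≠ 1 := fun h => hj1 (by rw [← hg, h]; group)
  obtain ⟨hll, -⟩ := hC _ (pow_mem hx _) b hb htt ht1 hne'
  have p1 : x ^ 2 ^ (k + 1) = j := by rw [pow_succ, pow_mul, pow_two, hll]
  have p2 : orderOf x = 2 ^ (k + 1 + 1) := orderOf_eq_prime_pow (by rw [p1]; exact hj1)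
    (by rw [pow_succ 2 (k + 1), pow_mul, p1, pow_two, hjj])
  have p3 : 2 ^ (k + 1 + 1) ≤ k := by
    rw [← p2]; exact Nat.le_of_dvd Nat.card_pos (orderOf_dvd_natCard x)
  have := Nat.lt_two_pow_self (n := k + 1 + 1)
  omega

end Cfsg.Agent.S3211
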