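import Cfsg.Statements.S3213
import Mathlib
-- import your own Cfsg.Agent.* helpers here

set_option autoImplicit false
open Cfsg

namespace Cfsg.Agent.S3213

open Matrix Module
open scoped MatrixGroups

theorem fin5 : ∀ x : SL(2, ZMod 5), x ^ 3 = 1 → x ≠ 1 →
    ∃ g : SL(2, ZMod 5), ((x * (g * x * g⁻¹)) ^ 2) ^ 5 = 1 ∧ (x * (g * x * g⁻¹)) ^ 2 ≠ 1 := by
  decide +kernel

theorem five {K : Type*} [Field K] [Fintype K] (hK : Fintype.card K = 5) {x : SL(2, K)}
    (hx : orderOf x = 3) :
    ∃ g : SL(2, K), ((x * (g * x * g⁻¹)) ^ 2) ^ 5 = 1 ∧ (x * (g * x * g⁻¹)) ^ 2 ≠ 1 := by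
  let e := ZMod.ringEquivOfPrime K Nat.prime_five hK
  let f : SL(2, ZMod 5) →* SL(2, K) := SpecialLinearGroup.map e.toRingHom
  have hf : Function.Injective f := fun a b h => by
    ext i j
    exact e.injective (congrFun (congrFun (congrArg Subtype.val h) i) j)
  obtain ⟨y, rfl⟩ : ∃ y, f y = x := ⟨SpecialLinearGroup.map e.symm.toRingHom x, by
    ext i j; simp [f]⟩
  rw [orderOf_injective f hf] at hx
  obtain ⟨g, h1, h2⟩ := fin5 y (hx ▸ pow_orderOf_eq_one y) (by rintro rfl; simp at hx)
  refine ⟨f g, ?_, ?_⟩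
  · rw [← map_inv, ← map_mul, ← map_mul, ← map_mul, ← map_pow, ← map_pow, h1, map_one]
  · rw [← map_inv, ← map_mul, ← map_mul, ← map_mul, ← map_pow]
    exact fun h => h2 (hf (h.trans (map_one f).symm))

theorem ker_bot {F V : Type*} [Field F] [Fintype F] (hF : Fintype.card F = 3) [AddCommGroup V]
    [Module F V] [Fintype V] (h4 : finrank F V = 4) {T : End F V} (hT : T ^ 5 = 1) (h1 : T ≠ 1) :
    LinearMap.ker (T - 1) = ⊥ := by
  classical
  haveI := Fact.mk Nat.prime_five
  have h := Equiv.Perm.card_fixedPoints_modEq (f := (T : V → V)) (p := 5) (n := 1) (by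
    funext v
    change (T : V → V)^[5] v = v
    rw [← End.pow_apply, hT]; rfl)
  have e : Fintype.card (Function.fixedPoints (T : V → V)) = Fintype.card (LinearMap.ker (T - 1)) :=
    Fintype.card_congr (Equiv.subtypeEquivRight fun v => by
      simp [Function.IsFixedPt, sub_eq_zero])
  erw [e] at h
  rw [card_eq_pow_finrank (K := F) (V := V), card_eq_pow_finrank (K := F) (V := LinearMap.ker (T - 1)),
    hF, h4] at h
  have h2 := Submodule.finrank_lt (s := LinearMap.ker (T - 1))
    fun e => h1 (sub_eq_zero.1 (LinearMap.ker_eq_top.1 e))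
  rw [← Submodule.finrank_eq_zero]
  rw [h4] at h2
  generalize finrank F (LinearMap.ker (T - 1)) = k at *
  interval_cases k <;> first | rfl | exact absurd h (by decide)


/-- Let F be the field with 3 elements and K the field with 5 elements. For every injective homomorphism φ from SL₂(K) into the symplectic group Sp₄(F) (4 × 4 matrices g with g J gᵀ = J for the standard alternating matrix J) and every element x of order 3 of SL₂(K), the vectors of F⁴ fixed by φ(x) form a 2-dimensional subspace that is totally isotropic for the alternating form defined by J. -/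
theorem result {F : Type*} [Field F] [Fintype F] (hF : Fintype.card F = 3)
    {K : Type*} [Field K] [Fintype K] (hK : Fintype.card K = 5)
    (φ : Matrix.SpecialLinearGroup (Fin 2) K →* ↥(Matrix.symplecticGroup (Fin 2) F)) (hφ : Function.Injective φ)
    (x : Matrix.SpecialLinearGroup (Fin 2) K) (hx : orderOf x = 3) :
    Module.finrank F ↥(LinearMap.ker (Matrix.toLin' ((φ x : Matrix (Fin 2 ⊕ Fin 2) (Fin 2 ⊕ Fin 2) F)) - LinearMap.id)) = 2 ∧
      ∀ v w : Fin 2 ⊕ Fin 2 → F, (φ x : Matrix (Fin 2 ⊕ Fin 2) (Fin 2 ⊕ Fin 2) F).mulVec v = v →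
        (φ x : Matrix (Fin 2 ⊕ Fin 2) (Fin 2 ⊕ Fin 2) F).mulVec w = w →
          dotProduct v ((Matrix.J (Fin 2) F).mulVec w) = 0 := by
  classical
  let ρ : SL(2, K) →* End F (Fin 2 ⊕ Fin 2 → F) :=
    (toLinAlgEquiv' : Matrix _ _ F ≃ₐ[F] _).toMonoidHom.comp ((symplecticGroup _ F).subtype.comp φ)
  have hρ : ∀ g v, ρ g v = (φ g).1 *ᵥ v := fun _ _ => rfl
  have hi : Function.Injective ρ := toLinAlgEquiv'.injective.comp (Subtype.val_injective.comp hφ)
  have h4 : finrank F (Fin 2 ⊕ Fin 2 → F) = 4 := by simp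
  have h3 : (3 : F) = 0 := by exact_mod_cast hF ▸ FiniteField.cast_card_eq_zero F
  let B := toBilin' (J (Fin 2) F)
  have hB : ∀ v w, B v w = v ⬝ᵥ J (Fin 2) F *ᵥ w := fun v w => toBilin'_apply' _ _ _
  have hBx : ∀ v w, B (ρ x v) (ρ x w) = B v w := fun v w => by
    rw [hB, hB, hρ, hρ, mulVec_mulVec, ← vecMul_transpose, ← dotProduct_mulVec, mulVec_mulVec,
      ← Matrix.mul_assoc, SymplecticGroup.mem_iff'.1 (φ x).2]
  have hBs : ∀ v w, B v w = -B w v := fun v w => by
    rw [hB, hB, dotProduct_mulVec, ← mulVec_transpose, J_transpose, neg_mulVec, neg_dotProduct,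
      dotProduct_comm]
  have hBn : ∀ v, (∀ w, B v w = 0) → v = 0 := fun v h => by
    have h1 : v ᵥ* J (Fin 2) F = 0 := funext fun i => by
      have := h (Pi.single i 1)
      rwa [hB, dotProduct_mulVec, dotProduct_single, mul_one] at this
    have h2 := congrArg (· ᵥ* J (Fin 2) F) h1
    simpa [J_squared, vecMul_neg] using h2
  change finrank F (LinearMap.ker (ρ x - 1)) = 2 ∧ ∀ v w, ρ x v = v → ρ x w = w → _
  simp only [← hB]
  set n := ρ x - 1 with hn
  have hxn : ∀ v, ρ x v = v + n v := fun v => by simp [hn]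
  have n3 : ∀ v, n (n (n v)) = 0 := fun v => by
    have h1 : ρ x (ρ x (ρ x v)) = v := by
      rw [← End.mul_apply, ← End.mul_apply, ← map_mul, ← map_mul, mul_assoc, ← pow_three, ← hx,
        pow_orderOf_eq_one, map_one]; rfl
    simp only [hxn, map_add] at h1
    linear_combination (norm := module) h1 - h3 • (n v + n (n v))
  have hk : ∀ v w, n w = 0 → B (n v) w = 0 := fun v w h => by
    have := hBx v w
    rw [hxn, hxn, h, add_zero, map_add, LinearMap.add_apply] at this
    linear_combination this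
  have hle : finrank F (LinearMap.ker n) ≤ 2 := by
    obtain ⟨g, g1, g2⟩ := five hK hx
    have h0 := ker_bot hF h4 (T := ρ ((x * (g * x * g⁻¹)) ^ 2)) (by rw [← map_pow, g1, map_one])
      fun e => g2 (hi (e.trans (map_one ρ).symm))
    have hg : Function.Injective (ρ g) := fun a b e => by
      simpa [← End.mul_apply, ← map_mul] using congrArg (ρ g⁻¹) e
    have h1 := Submodule.finrank_add_finrank_le_of_disjoint (s := LinearMap.ker n)
      (t := (LinearMap.ker n).map (ρ g)) (by
        rw [disjoint_iff, eq_bot_iff, ← h0]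
        rintro _ ⟨hv, w, hw, rfl⟩
        have e1 : ρ x w = w := by rw [hxn, show n w = 0 from hw, add_zero]
        have e2 : ρ x (ρ g w) = ρ g w := by rw [hxn, show n _ = 0 from hv, add_zero]
        have e3 : ρ (x * (g * x * g⁻¹)) (ρ g w) = ρ g w := by
          rw [← End.mul_apply, ← map_mul, mul_assoc, inv_mul_cancel_right, map_mul, map_mul,
            End.mul_apply, End.mul_apply, e1, e2]
        rw [LinearMap.mem_ker, LinearMap.sub_apply, sq, map_mul, End.mul_apply, e3, e3]
        simp)
    rw [← (Submodule.equivMapOfInjective _ hg _).finrank_eq] at h1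
    omega
  have hrk := n.finrank_range_add_finrank_ker
  have hsub : LinearMap.range n ≤ LinearMap.ker n := by
    by_contra h
    have a1 : LinearMap.range (n * n) ≤ LinearMap.ker n := by rintro _ ⟨v, rfl⟩; exact n3 v
    have a2 : LinearMap.range (n * n) ≤ LinearMap.range n := by rintro _ ⟨v, rfl⟩; exact ⟨_, rfl⟩
    have a3 : 2 ≤ finrank F (LinearMap.range (n * n)) := by
      obtain ⟨v, hv⟩ : ∃ v, n (n v) ≠ 0 := by
        by_contra! h'
        exact h (by rintro _ ⟨v, rfl⟩; exact h' v)
      have key : ∀ v w, B (n (n v)) w = -B (n (n w)) v := fun v w => by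
        have b1 := hBx (n v) w
        have b2 := hBx v (n w)
        have b3 := hk (n v) _ (n3 w)
        have b4 := hk w _ (n3 v)
        have b5 := hk v _ (n3 w)
        simp only [hxn, map_add, LinearMap.add_apply] at b1 b2
        rw [hBs (n (n w)) v]
        rw [hBs (n w)] at b4
        linear_combination b1 - b2 + b4 + b5
      by_contra hlt
      obtain ⟨u, hu⟩ := finrank_le_one_iff.1 (Nat.lt_succ_iff.1 (not_le.1 hlt))
      refine hv (hBn _ fun w => ?_)
      obtain ⟨c, hc⟩ := hu ⟨_, v, rfl⟩
      obtain ⟨d, hd⟩ := hu ⟨_, w, rfl⟩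
      have hc' : n (n v) = c • u.1 := (congrArg Subtype.val hc).symm
      have hd' : n (n w) = d • u.1 := (congrArg Subtype.val hd).symm
      have hc0 : c ≠ 0 := by rintro rfl; exact hv (by simp [hc'])
      have b1 := key v v
      have b2 : B u v = 0 := by
        rw [hc', map_smul, LinearMap.smul_apply, smul_eq_mul] at b1
        exact (mul_eq_zero.1 (show c * B u v = 0 by
          linear_combination c * B u v * h3 - b1)).resolve_left hc0
      rw [key, hd', map_smul, LinearMap.smul_apply, b2]; simp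
    have a4 := Submodule.finrank_mono a1
    exact h ((Submodule.eq_of_le_of_finrank_le a2 (by omega)).ge.trans a1)
  have a5 := Submodule.finrank_mono hsub
  refine ⟨show finrank F (LinearMap.ker n) = 2 by omega, fun v w hv hw => ?_⟩
  obtain ⟨u, rfl⟩ := (Submodule.eq_of_le_of_finrank_le hsub (by omega)).ge
    (show v ∈ LinearMap.ker n by simp [hn, hv])
  exact hk u w (by simp [hn, hw])


end Cfsg.Agent.S3213
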