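import Cfsg.Statements.S3215
import Cfsg.Agent.H8.Rank1
import Cfsg.Agent.H16.SemiReg
import Cfsg.Agent.H16.FCStruct
import Cfsg.Agent.H4.PComp
import Cfsg.Agent.H1.Hall
import Cfsg.Agent.H1.Coprime2
-- import your own Cfsg.Agent.* helpers here

set_option autoImplicit false
open Cfsg

namespace Cfsg.Agent.S3215

open Subgroup
open scoped commutatorElement

theorem eq_one {G : Type*} [Group G] {x : G} (hx : Odd (orderOf x)) {k : ℕ} (h : x ^ 2 ^ k = 1) :
    x = 1 := orderOf_eq_one_iff.1 (Nat.eq_one_of_dvd_coprimes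
  ((Nat.coprime_two_right.2 hx).pow_right _) dvd_rfl (orderOf_dvd_of_pow_eq_one h))

theorem A {H : Type*} [Group H] [Finite H] [Group.IsSolvable H] (hO : oddCore H = ⊥)
    (hI : ∀ t : H, orderOf t = 2 → HasNormalPComplement 2 ↥(centralizer ({t} : Set H)))
    {x t : H} (hx : Odd (orderOf x)) {k : ℕ} (ht : t ^ 2 ^ k = 1) (ht1 : t ≠ 1)
    (h : Commute x t) : x = 1 := by
  obtain ⟨u, hu, hxu⟩ : ∃ u, orderOf u = 2 ∧ Commute x u := by
    obtain ⟨j, -, hj⟩ := (Nat.dvd_prime_pow Nat.prime_two).1 (orderOf_dvd_of_pow_eq_one ht)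
    rcases j with _ | j
    · exact absurd (orderOf_eq_one_iff.1 hj) ht1
    refine ⟨t ^ 2 ^ j, ?_, h.pow_right _⟩
    rw [orderOf_pow_of_dvd (by positivity) ⟨2, by rw [hj]; ring⟩, hj]
    exact Nat.div_eq_of_eq_mul_left (by norm_num) (by ring)
  have hY : IsPGroup 2 (pCore 2 H) := H2.pCore_isPGroup
  have h1 := H1.p_times_q 2 (zpowers u) (zpowers x) (pCore 2 H)
    (IsPGroup.of_card (n := 1) (by rw [Nat.card_zpowers, hu]; rfl))
    (by rw [Nat.card_zpowers]; exact Nat.coprime_two_right.2 hx) hY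
    (by rw [H1.centralizer_zpowers, zpowers_le]; exact mem_centralizer_singleton_iff.2 hxu.symm)
    le_normalizer_of_normal le_normalizer_of_normal (by
      rw [H1.centralizer_zpowers, H1.centralizer_zpowers]
      rintro y ⟨hy, hyu⟩
      let x' : centralizer ({u} : Set H) := ⟨x, mem_centralizer_singleton_iff.2 hxu⟩
      let y' : centralizer ({u} : Set H) := ⟨y, hyu⟩
      have e : orderOf x' = orderOf x := (orderOf_coe x').symm
      have h2 := H4.hasNPC_iff_mul_closed.1 (hI u hu) x' (y' * x'⁻¹ * y'⁻¹)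
        (e ▸ Nat.coprime_two_right.2 hx) (by
          rw [← MulAut.conj_apply, MulEquiv.orderOf_eq, orderOf_inv, e]
          exact Nat.coprime_two_right.2 hx)
      rw [← orderOf_coe] at h2
      have h3 : x * (y * x⁻¹ * y⁻¹) ∈ pCore 2 H := by
        simpa [mul_assoc] using mul_mem ((pCore_normal 2 H).conj_mem y hy x) (inv_mem hy)
      obtain ⟨j, hj⟩ := hY ⟨_, h3⟩
      have h4 := eq_one (Nat.coprime_two_right.1 h2) (congrArg Subtype.val hj)
      refine mem_centralizer_singleton_iff.2 ?_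
      change x * (y * x⁻¹ * y⁻¹) = 1 at h4
      calc y * x = x * (y * x⁻¹ * y⁻¹) * (y * x) := by rw [h4, one_mul]
        _ = _ := by group)
  obtain ⟨j, hj⟩ := hY ⟨x, H2.centralizer_pCore_le_of_isSolvable hO (h1 (mem_zpowers x))⟩
  exact eq_one hx (congrArg Subtype.val hj)

theorem B {Q : Type*} [Group Q] [Finite Q] [Group.IsSolvable Q] (hO : pCore 2 Q = ⊥)
    (hA : ∀ x t : Q, Odd (orderOf x) → orderOf t = 2 → Commute x t → x = 1) {X : Subgroup Q}
    (hZ : IsZGroup X) (hXodd : Odd (Nat.card X)) {k : ℕ} (hX : X.index ∣ 2 ^ k) :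
    _root_.commutator Q ≤ X ∧ ∀ T : Sylow 2 Q, IsCyclic T := by
  haveI := H2.fittingSubgroup_normal Q
  haveI := H2.fittingSubgroup_isNilpotent (G := Q)
  have hF : ¬ 2 ∣ Nat.card (fittingSubgroup Q) := fun h => by
    obtain ⟨t, ht⟩ := exists_prime_orderOf_dvd_card' 2 h
    have := H2.le_pCore_of_le_fittingSubgroup (p := 2) (P := zpowers t.1)
      (IsPGroup.of_card (n := 1) (by rw [Nat.card_zpowers, orderOf_coe, ht]; rfl)) (zpowers_le.2 t.2)
    rw [hO, le_bot_iff, zpowers_eq_bot] at this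
    rw [← orderOf_coe, this, orderOf_one] at ht
    omega
  have hodd : ∀ x ∈ fittingSubgroup Q, Odd (orderOf x) := fun x hx =>
    Nat.not_even_iff_odd.1 fun e => hF (e.two_dvd.trans (orderOf_dvd_natCard _ hx))
  have hFX : fittingSubgroup Q ≤ X := H1.le_hallOf_of_le_normalizer (π := {2}ᶜ) (K := ⊤)
    ⟨le_top, fun p _ h e => hXodd.not_two_dvd_nat (e ▸ h), fun p hp h e => h
      ((Nat.prime_dvd_prime_iff_eq hp Nat.prime_two).1 (hp.dvd_of_dvd_pow
        ((relIndex_top_right X ▸ e).trans hX)))⟩ le_top (fun p _ h e => hF (e ▸ h))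
    le_normalizer_of_normal
  haveI : IsZGroup (fittingSubgroup Q) := IsZGroup.of_injective (inclusion_injective hFX)
  have hc : _root_.commutator Q ≤ fittingSubgroup Q :=
    (H16.commutator_le_centralizer_of_isCyclic _).trans H2.centralizer_fittingSubgroup_le
  refine ⟨hc.trans hFX, fun T => ?_⟩
  have hT : ∀ a : (T : Subgroup Q), a.1 ∈ fittingSubgroup Q → a = 1 := fun a ha => by
    obtain ⟨j, hj⟩ := T.isPGroup' a
    exact Subtype.ext (eq_one (hodd _ ha) (congrArg Subtype.val hj))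
  have hinv : ∀ t : Q, orderOf t = 2 → ∀ x ∈ fittingSubgroup Q, t * x * t⁻¹ = x⁻¹ := by
    intro t ht x hx
    have hf : MonoidHom.FixedPointFree (MulAut.conjNormal (H := fittingSubgroup Q) t) :=
      fun y hy => Subtype.ext (hA _ t (hodd _ y.2) ht
        (mul_inv_eq_iff_eq_mul.1 (congrArg Subtype.val hy)).symm)
    exact congrArg Subtype.val (congrFun (hf.coe_eq_inv_of_involutive fun y => by
      rw [← MulAut.mul_apply, ← map_mul, ← sq, orderOf_dvd_iff_pow_eq_one.1 ht.dvd, map_one]; rfl)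
      ⟨x, hx⟩)
  refine H8.isCyclic_of_comm_of_unique T.isPGroup' (fun a b => commutatorElement_eq_one_iff_commute.1
    (hT _ (hc (commutator_mem_commutator (mem_top a.1) (mem_top b.1))))) fun s t hs ht => ?_
  refine inv_mul_eq_one.1 (hT _ (H2.centralizer_fittingSubgroup_le fun x hx => ?_))
  have h1 := hinv s (by simpa using hs) x hx
  rw [← hinv t (by simpa using ht) x hx] at h1
  calc x * ((s.1)⁻¹ * t.1) = s.1⁻¹ * (s.1 * x * s.1⁻¹) * t.1 := by group
    _ = (s.1)⁻¹ * t.1 * x := by rw [h1]; group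


/-- Let H be a finite solvable group with no nontrivial normal subgroup of odd order in which the centralizer of every involution has a normal 2-complement. Let X be a Hall 2'-subgroup of H (odd order, index a power of 2) and Y = O₂(H). Then no non-identity element of X commutes with a non-identity element of Y (so for X ≠ 1 the group XY is a Frobenius group with kernel Y), every Sylow subgroup of X is cyclic, XY is normal in H, and H/XY is a cyclic 2-group. -/
theorem result {H : Type*} [Group H] [Finite H] (hsol : Group.IsSolvable H)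
    (hO : Cfsg.oddCore H = ⊥)
    (hI : ∀ t : H, orderOf t = 2 → Cfsg.HasNormalPComplement 2 ↥(Subgroup.centralizer ({t} : Set H)))
    (X : Subgroup H) (hXodd : Odd (Nat.card X)) (hXidx : ∃ k : ℕ, X.index = 2 ^ k) :
    (∀ x ∈ X, x ≠ 1 → ∀ y ∈ Cfsg.pCore 2 H, y ≠ 1 → x * y ≠ y * x) ∧
      (∀ (p : ℕ) [Fact p.Prime] (P : Sylow p ↥X), IsCyclic ↥(P : Subgroup ↥X)) ∧
      (X ⊔ Cfsg.pCore 2 H).Normal ∧
      ∀ hN : (X ⊔ Cfsg.pCore 2 H).Normal, IsCyclic (H ⧸ (X ⊔ Cfsg.pCore 2 H)) ∧ IsPGroup 2 (H ⧸ (X ⊔ Cfsg.pCore 2 H)) := by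
  obtain ⟨k, hk⟩ := hXidx
  have hY : IsPGroup 2 (pCore 2 H) := H2.pCore_isPGroup
  have h1 : ∀ x ∈ X, x ≠ 1 → ∀ y ∈ pCore 2 H, y ≠ 1 → x * y ≠ y * x := fun x hx x1 y hy y1 e => by
    obtain ⟨j, hj⟩ := hY ⟨y, hy⟩
    exact x1 (A hO hI (hXodd.of_dvd_nat (orderOf_dvd_natCard _ hx)) (congrArg Subtype.val hj) y1 e)
  have hZ : IsZGroup X := by
    by_cases h : pCore 2 H = ⊥
    · have h2 := H2.centralizer_pCore_le_of_isSolvable hO
      rw [h] at h2
      haveI : Subsingleton X := ⟨fun a b => Subtype.ext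
        ((mem_bot.1 (h2 (by simp [mem_centralizer_iff]))).trans
          (mem_bot.1 (h2 (by simp [mem_centralizer_iff]))).symm)⟩
      infer_instance
    · exact H16.semiReg_isZGroup_of_odd h le_normalizer_of_normal
        (fun x hx x1 y hy e => by_contra fun y1 => h1 x hx x1 y hy y1 e) hXodd
  let π := QuotientGroup.mk' (pCore 2 H)
  have hπ : Function.Surjective π := QuotientGroup.mk'_surjective _
  obtain ⟨b1, b2⟩ := B (Q := H ⧸ pCore 2 H) H2.pCore_quotient_self (fun x t hx ht h => by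
      obtain ⟨x, rfl⟩ := hπ x
      obtain ⟨t, rfl⟩ := hπ t
      obtain ⟨j, m, hm, e⟩ := Nat.exists_eq_two_pow_mul_odd (orderOf_pos x).ne'
      have hx' : Odd (orderOf (x ^ 2 ^ j)) := by
        rwa [orderOf_pow_of_dvd (by positivity) ⟨m, e⟩, e, Nat.mul_div_cancel_left _ (by positivity)]
      obtain ⟨n, hn, hc⟩ := H1.exists_mul_mem_centralizer (zpowers (x ^ 2 ^ j)) (pCore 2 H)
        le_normalizer_of_normal (H2.card_coprime_of_isPGroup_of_coprime hY
          (by rw [Nat.card_zpowers]; exact Nat.coprime_two_right.2 hx')).symm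
        (.inl (H1.isSolvable_zpowers _)) t (by
          rintro _ ⟨i, rfl⟩
          rw [← QuotientGroup.eq_one_iff]
          change π _ = 1
          simp only [map_mul, map_inv, map_zpow, map_pow]
          rw [((h.pow_left _).zpow_left i).eq]
          group)
      have e1 : π (n * t) = π t := by
        rw [map_mul, show π n = 1 from (QuotientGroup.eq_one_iff _).2 hn, one_mul]
      obtain ⟨i, hi⟩ := hY ⟨(n * t) ^ 2, (QuotientGroup.eq_one_iff _).1 (by
        change π _ = 1
        rw [map_pow, e1, orderOf_dvd_iff_pow_eq_one.1 ht.dvd])⟩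
      have h2 := A hO hI hx' (t := n * t) (k := i + 1)
        (by rw [pow_succ', pow_mul]; exact congrArg Subtype.val hi)
        (fun e => by rw [← e1, e, map_one, orderOf_one] at ht; omega) (hc _ (mem_zpowers _))
      exact eq_one hx (k := j) (by rw [← map_pow, h2, map_one]))
    (X := X.map π) (IsZGroup.of_surjective (π.subgroupMap_surjective X))
    (hXodd.of_dvd_nat (card_map_dvd _ _)) (hk ▸ index_map_dvd _ hπ)
  have e : X ⊔ pCore 2 H = (X.map π).comap π := by rw [comap_map_eq, QuotientGroup.ker_mk']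
  refine ⟨h1, fun p _ P => inferInstance, ?_, fun hN => ?_⟩
  · rw [e]
    exact (Normal.of_commutator_le _ b1).comap π
  · have h2 : IsPGroup 2 (H ⧸ (X ⊔ pCore 2 H)) := by
      obtain ⟨j, -, hj⟩ := (Nat.dvd_prime_pow Nat.prime_two).1
        (hk ▸ index_dvd_of_le (le_sup_left : X ≤ X ⊔ pCore 2 H))
      exact IsPGroup.of_card hj
    refine ⟨?_, h2⟩
    obtain ⟨T⟩ : Nonempty (Sylow 2 (H ⧸ pCore 2 H)) := inferInstance
    let f := QuotientGroup.map (pCore 2 H) (X ⊔ pCore 2 H) (MonoidHom.id H) le_sup_right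
    have hf : Function.Surjective f := fun q => by
      obtain ⟨q, rfl⟩ := QuotientGroup.mk_surjective q
      exact ⟨q, rfl⟩
    have h3 : (T : Subgroup _).map f = ⊤ :=
      top_le_iff.1 ((T.mapSurjective hf).is_maximal' (h2.to_subgroup ⊤) le_top).le
    haveI := b2 T
    exact isCyclic_of_surjective (f.comp (T : Subgroup _).subtype) (by
      rw [← MonoidHom.range_eq_top, MonoidHom.range_comp, range_subtype, h3])


end Cfsg.Agent.S3215
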