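import Cfsg.Statements.S3225
import Mathlib
import Cfsg.Agent.H4.Transfer2

set_option autoImplicit false
open Cfsg

namespace Cfsg.Agent.S3225

/-- Let G be a finite group of even order with no subgroup of index 2, S a Sylow 2-subgroup of G and M a subgroup of index 2 in S such that, for some n ≥ 1, every element of S outside M has order greater than 2^(n−1). Then every element of S of order 2ⁿ is conjugate in G to an element of M. -/
theorem result {G : Type*} [Group G] [Finite G] (hev : Even (Nat.card G))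
    (hG : ∀ H : Subgroup G, H.index ≠ 2) (S : Sylow 2 G) (M : Subgroup G) (hMS : M ≤ (S : Subgroup G)) (hM : M.relIndex (S : Subgroup G) = 2)
    (n : ℕ) (hn : 1 ≤ n) (hord : ∀ y ∈ (S : Subgroup G), y ∉ M → 2 ^ (n - 1) < orderOf y)
    (x : G) (hx : x ∈ (S : Subgroup G)) (hxn : orderOf x = 2 ^ n) :
    ∃ g : G, g * x * g⁻¹ ∈ M := by
  by_contra hc
  push Not at hc
  obtain ⟨K, -, hK, -⟩ := H4.thompson_transfer_general (H4.odd_index_sylow S) hM (u := x) (by
    intro k t ht
    constructor
    · intro h
      by_contra hk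
      have hco : Nat.Coprime k (orderOf (t⁻¹ * x * t)) := by
        rw [show orderOf (t⁻¹ * x * t) = orderOf x from by
          simpa using (MulAut.conj t⁻¹).orderOf_eq x, hxn]
        exact Nat.Coprime.pow_right _ (Nat.coprime_two_right.mpr (Nat.not_even_iff_odd.mp hk))
      refine hc t⁻¹ ?_
      rw [inv_inv]
      refine H4.mem_of_pow_mem_of_coprime hco ?_
      rwa [show (t⁻¹ * x * t) ^ k = t⁻¹ * x ^ k * t from by simpa using conj_pow (a := t⁻¹) (b := x) (i := k)]
    · rintro ⟨j, rfl⟩
      by_contra h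
      refine absurd (hord _ ht h) (not_lt.mpr (Nat.le_of_dvd (by positivity) (orderOf_dvd_of_pow_eq_one ?_)))
      rw [show (t⁻¹ * x ^ (j + j) * t) ^ 2 ^ (n - 1) = t⁻¹ * (x ^ (j + j)) ^ 2 ^ (n - 1) * t from by
        simpa using conj_pow (a := t⁻¹) (b := x ^ (j + j)) (i := 2 ^ (n - 1)), ← pow_mul,
        show (j + j) * 2 ^ (n - 1) = 2 ^ n * j by
          obtain ⟨m, rfl⟩ := Nat.exists_eq_add_of_le' hn
          simp [pow_succ]; ring, pow_mul, ← hxn, pow_orderOf_eq_one]
      simp)
  exact hG K hK

end Cfsg.Agent.S3225
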