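import Cfsg.Statements.S3244
import Mathlib
import Cfsg.Agent.S3109
import Cfsg.Agent.S0215
import Cfsg.Agent.H2.Balance3
-- import your own Cfsg.Agent.* helpers here

set_option autoImplicit false
open Cfsg

namespace Cfsg.Agent.S3244


open Subgroup Cfsg.Agent.FT

section
variable {G : Type*} [Group G] [Finite G] {z : G}

/-- involutions that are the only central involution of the Sylow 2-subgroups of their centraliser -/
def W (w : G) : Prop := orderOf w = 2 ∧ ∀ R u, Syl 2 R C[w] → orderOf u = 2 → u ∈ C[w] → R ≤ C[u] → u = w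

theorem W.conj (h : W z) (g : G) : W (g * z * g⁻¹) := ⟨(orderOf_conj g z).trans h.1, fun R u hR ou hu hc => by
  have e : C[z] = cj g⁻¹ C[g * z * g⁻¹] := by rw [cj_cen1]; congr 1; group
  have := h.2 (cj g⁻¹ R) (g⁻¹ * u * g⁻¹⁻¹) (e ▸ hR.cj g⁻¹) ((orderOf_conj g⁻¹ u).trans ou)
    (by rw [e, mem_cj]; simpa [mul_assoc] using hu) (by rw [← cj_cen1]; exact cj_mono _ hc)
  rw [← this]; group⟩

theorem main (ex : ∀ R : Subgroup G, PGrp 2 R → R ≠ ⊥ → ∃ w, W w ∧ N(R) ≤ C[w]) (R : Subgroup G) :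
    PGrp 2 R → ∀ z z' : G, W z → W z' → z' ∈ C[z] → R ≤ C[z] → R ≤ C[z'] → z = z' := by
  induction R using WellFoundedGT.induction with
  | _ R ih =>
  intro hR z z' hz hz' hc h1 h2
  have a : ∀ z z' : G, W z → W z' → z' ∈ C[z] → R ≤ C[z] → R ≤ C[z'] → z ∉ R → z = z' :=
    fun z z' hz hz' hc h1 h2 hn => ih (R ⊔ ⟪z⟫)
      (lt_of_le_of_ne le_sup_left fun e => hn (e ▸ mem_sup_right (mem_zpowers z)))
      (hR.sup' (pGrp_zpowers Nat.prime_two hz.1) (norms_zpowers_of_cen1 h1)) z z' hz hz' hc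
      (sup_le h1 (zpowers_le_cen1 z)) (sup_le h2 (zpowers_le.2 (cen1_comm.1 hc)))
  by_contra hne
  have m1 : z ∈ R := by_contra fun h => hne (a z z' hz hz' hc h1 h2 h)
  have m2 : z' ∈ R := by_contra fun h => hne (a z' z hz' hz (cen1_comm.1 hc) h2 h1 h).symm
  obtain ⟨w, hw, hN⟩ := ex R hR fun e => ne_one_of_orderOf hz.1 (by rwa [e, mem_bot] at m1)
  have b : ∀ z z' : G, W z → W z' → z ∈ R → z' ∈ C[z] → R ≤ C[z] → R ≤ C[z'] → z' ≠ z → z = w :=
    fun z z' hz hz' m hc h1 h2 hn => by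
    obtain ⟨T, hT, hRT⟩ := hR.exists_syl h1
    refine ih _ (hT.pi.lt_subnorm (lt_of_le_of_ne hRT fun e => hn (hz.2 T z' hT hz'.1 hc (e ▸ h2))))
      (hT.pi.inf_left _) z w hz hw (cen1_comm.1 (hN (le_nrm R m))) (inf_le_left.trans hT.le) (inf_le_right.trans hN)
  exact hne ((b z z' hz hz' m1 hc h1 h2 (Ne.symm hne)).trans (b z' z hz' hz m2 (cen1_comm.1 hc) h2 h1 hne).symm)

end

/-- Say that a finite group G is of characteristic 2 type in the early sense when a Sylow 2-subgroup S of G has a self-centralizing normal subgroup of rank at least 3, S normalizes no nontrivial subgroup of odd order, and every 2-local subgroup of G is 2-constrained. If G is a non-abelian simple group of characteristic 2 type in this sense, then for some maximal 2-local subgroup M of G the centre of O₂(M) is not cyclic. -/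
theorem result {G : Type*} [Group G] [Finite G] [IsSimpleGroup G]
    (hG : ¬ IsMulCommutative G) (S : Sylow 2 G) (A : Subgroup G) (hA : Cfsg.IsSCN (S : Subgroup G) A) (hA3 : ¬ Cfsg.PRankLE 2 2 ↥A)
    (hinv : ∀ X : Subgroup G, Odd (Nat.card ↥X) → (S : Subgroup G) ≤ Subgroup.normalizer (X : Set G) → X = ⊥)
    (hcon : ∀ T : Subgroup G, IsPGroup 2 ↥T → T ≠ ⊥ → Cfsg.IsPConstrained 2 ↥(Subgroup.normalizer (T : Set G))) :
    ∃ M : Subgroup G, Cfsg.IsMaximalTwoLocal M ∧ ¬ IsCyclic ↥(Subgroup.center ↥(Cfsg.pCore 2 ↥M)) := by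
  classical
  have p2 := Nat.prime_two
  by_contra hno
  push Not at hno
  have hAab : Ab A := ab_iff.2 (hA.2.2.ge.trans inf_le_right)
  have hO := Cfsg.Agent.FT.c3109 (fun H hH => Cfsg.Agent.S1221.result H hH) hcon S (A.subgroupOf S)
    ((normal_subgroupOf_iff_le_normalizer hA.1).2 hA.2.1) (hAab.so hA.1) fun h => hA3 (by
      rw [prankLE_iff_prank p2] at h ⊢
      rwa [← prank_of_equiv (subgroupOfEquivOfLe hA.1)])
  have ex : ∀ R : Subgroup G, PGrp 2 R → R ≠ ⊥ → ∃ w, W w ∧ N(R) ≤ C[w] := fun R hR R1 => by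
    obtain ⟨M, hRM, hM⟩ := exists_maximal_ge_of_wellFoundedGT (fun M : Subgroup G => IsTwoLocal M) N(R)
      ⟨R, hR.isPGroup, R1, rfl⟩
    have hm : IsMaximalTwoLocal M := ⟨hM.1, fun K hK h => le_antisymm (hM.2 hK h) h⟩
    have hc : Cyc Z(O[{2}](M)) := by
      rw [pcore_singleton p2, center_eq_map]
      haveI := hno M hm
      refine Cyc.map _ ?_
      exact (Subgroup.centerCongr ((pCore 2 M).equivMapOfInjective _ M.subtype_injective)).isCyclic.1 ‹_›
    obtain ⟨T, pT, T1, eT⟩ := hM.1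
    have pQ : PGrp 2 O[{2}](M) := pcore_pi _ _
    have Q1 : O[{2}](M) ≠ ⊥ := fun e => T1 (le_bot_iff.1 (e ▸ pcore_max (pGrp_of_isPGroup p2 pT) (eT ▸ nml_nrm T)))
    have pZ : PGrp 2 Z(O[{2}](M)) := pQ.inf_left _
    obtain ⟨w, hw, ow⟩ := exists_elt_of_prime_dvd p2 (pZ.dvd (pQ.nil.center_ne_bot Q1))
    have uq : ∀ u ∈ Z(O[{2}](M)), orderOf u = 2 → u = w := fun u hu ou => by
      have e := hc.eq_of_card_eq (zpowers_le.2 hu) (zpowers_le.2 hw) (by rw [Nat.card_zpowers, Nat.card_zpowers, ou, ow])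
      have h : u ∈ ⟪w⟫ := e ▸ mem_zpowers u
      rw [mem_zpowers_iff_mem_range_orderOf, ow, Finset.mem_image] at h
      obtain ⟨k, hk, rfl⟩ := h
      rw [Finset.mem_range] at hk
      interval_cases k
      · simp at ou
      · simp
    have h1 : M ≤ C[w] := fun g hg => by
      have := uq _ (conj_mem (norms_center (pcore_nrm _ M) hg) hw) ((orderOf_conj g w).trans ow)
      rw [mem_cen1, ← mul_inv_eq_iff_eq_mul]; exact this
    have pw := pGrp_zpowers p2 ow
    have w1 := zpowers_ne_bot' (ne_one_of_orderOf ow)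
    have h2 : N(⟪w⟫) = M := hm.2 _ ⟨_, pw.isPGroup, w1, rfl⟩ (norms_zpowers_of_cen1 h1)
    have h3 : C[w] = M := le_antisymm (h2 ▸ norms_zpowers_of_cen1 le_rfl) h1
    have h4 : CharP' 2 M := charP'_iff_core_play.2 (sup_eq_bot_iff.2 ⟨by rw [← h3, ← cenCore_eq p2, hO w ow],
      h2 ▸ (isPConstrained_iff p2).1 (hcon _ pw.isPGroup w1)⟩)
    refine ⟨w, ⟨ow, fun R u hR ou hu hc => ?_⟩, hRM.trans h1⟩
    rw [h3] at hR hu
    have h5 : u ∈ C(O[{2}](M)) := le_cen1.1 ((pcore_le_syl hR).trans hc)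
    exact uq u ⟨h4 ⟨hu, h5⟩, h5⟩ ou
  have hS := syl_top p2 S
  have S1 : (S : Subgroup G) ≠ ⊥ := fun e => hA3 (prankLE_iff.2 fun B hB _ => by
    rw [le_bot_iff.1 (hB.trans (e ▸ hA.1)), card_bot]; norm_num)
  obtain ⟨w, hw, hN⟩ := ex S hS.pi S1
  have hSw : (S : Subgroup G) ≤ C[w] := (le_nrm _).trans hN
  have m : w ∈ (S : Subgroup G) := by
    have := hS.max (hS.pi.sup' (pGrp_zpowers p2 hw.1) (norms_zpowers_of_cen1 hSw)) le_sup_left le_top
    exact this ▸ mem_sup_right (mem_zpowers w)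
  obtain ⟨K, nK, oK, hK⟩ := Cfsg.Agent.S0215.result S w hw.1 m fun g hg =>
    (main ex ⊥ (piGrp_bot _) w _ hw (hw.conj g) (hSw hg) bot_le bot_le).symm
  rcases nK.eq_bot_or_eq_top with e | e
  · have hz : w ∈ center G := mem_center_iff.2 fun g => by
      have := hK g
      rw [e, mem_bot, mul_inv_eq_one, mul_inv_eq_iff_eq_mul] at this
      exact this.symm
    rcases (inferInstance : (center G).Normal).eq_bot_or_eq_top with e | e
    · exact ne_one_of_orderOf hw.1 (by rwa [e, mem_bot] at hz)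
    · exact hG ⟨⟨fun a b => (mem_center_iff.1 (e ▸ mem_top b : b ∈ center G) a)⟩⟩
  · have := hinv K oK (by rw [e, nrm_top]; exact le_top)
    exact ne_one_of_orderOf hw.1 (by rw [← mem_bot, ← this, e]; exact mem_top w)

end Cfsg.Agent.S3244
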