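import Cfsg.Statements.S3245
import Mathlib
import Cfsg.Agent.H20.SEc

set_option autoImplicit false
open Cfsg

namespace Cfsg.Agent.S3245

open Cfsg.Agent.FT Cfsg.Agent.H20.SEc

theorem exists_maxloc {G : Type*} [Group G] [Finite G] {T : Subgroup G} (hT : PGrp 2 T)
    (h1 : T ≠ ⊥) : ∃ M, IsMaximalTwoLocal M ∧ N(T) ≤ M := by
  obtain ⟨M, h2, h3, h4⟩ := exists_max (G := G) IsTwoLocal (A := N(T)) ⟨T, hT.isPGroup, h1, rfl⟩
  exact ⟨M, ⟨h3, h4⟩, h2⟩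

theorem maxloc_cj {G : Type*} [Group G] [Finite G] {M : Subgroup G} (h : IsMaximalTwoLocal M)
    (g : G) : IsMaximalTwoLocal (cj g M) := by
  have key : ∀ (g : G) (M : Subgroup G), IsTwoLocal M → IsTwoLocal (cj g M) := by
    rintro g M ⟨T, h1, h2, rfl⟩
    exact ⟨cj g T, ((pGrp_of_isPGroup Nat.prime_two h1).cj g).isPGroup, mt cj_eq_bot.1 h2,
      cj_nrm g T⟩
  refine ⟨key g M h.1, fun N hN hle => ?_⟩
  rw [← h.2 _ (key g⁻¹ N hN) (cj_le_iff.1 hle), cj_cj_inv]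

theorem nrm_maxloc {G : Type*} [Group G] [Finite G] {M : Subgroup G} (h : IsMaximalTwoLocal M) :
    N(M) ≤ M := by
  obtain ⟨T, h1, h2, e⟩ := h.1
  have h3 : O[{2}](M) ≠ ⊥ :=
    pcore_ne_bot (pGrp_of_isPGroup Nat.prime_two h1) (e ▸ nml_nrm T) h2
  exact (nrm_le_nrm_pcore _ M).trans
    (h.2 _ ⟨_, (pcore_pi {2} M).isPGroup, h3, rfl⟩ (pcore_nrm _ M)).le

theorem uniq {G : Type*} [Group G] [Finite G]
    (h1 : ∀ M M' : Subgroup G, IsMaximalTwoLocal M → IsMaximalTwoLocal M' → ∃ g : G, M' = cj g M)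
    {T M₁ M₂ : Subgroup G} (hT : PGrp 2 T) (hn : T ≠ ⊥) (a₁ : IsMaximalTwoLocal M₁)
    (a₂ : IsMaximalTwoLocal M₂) (b₁ : T ≤ M₁) (b₂ : T ≤ M₂) : M₁ = M₂ := by
  by_contra hne
  obtain ⟨T, -, ⟨hT, hn, M₁, M₂, a₁, a₂, b₁, b₂, hne⟩, hmax⟩ := exists_max (G := G)
    (fun T => PGrp 2 T ∧ T ≠ ⊥ ∧ ∃ M₁ M₂, IsMaximalTwoLocal M₁ ∧ IsMaximalTwoLocal M₂ ∧ T ≤ M₁ ∧
      T ≤ M₂ ∧ M₁ ≠ M₂) (A := T) ⟨hT, hn, M₁, M₂, a₁, a₂, b₁, b₂, hne⟩
  obtain ⟨M, a, b⟩ := exists_maxloc hT hn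
  have key : ∀ M', IsMaximalTwoLocal M' → T ≤ M' → M' = M := fun M' a' b' => by
    by_contra e
    obtain ⟨P, hP, hTP⟩ := hT.exists_syl b'
    rcases hTP.eq_or_lt with rfl | hlt
    · obtain ⟨g, rfl⟩ := h1 M M' a a'
      have c1 : Syl 2 (cj g⁻¹ T) M := by simpa only [cj_inv_cj] using hP.cj g⁻¹
      have c2 : Syl 2 T M := c1.of_card_eq ((le_nrm T).trans b) (card_cj _ _).symm
      obtain ⟨m, hm, e'⟩ := c2.syl_trans c1
      have c3 : m⁻¹ * g⁻¹ ∈ M := b (cj_eq_cj_iff.1 e')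
      exact e (cj_of_mem (by simpa using inv_mem ((mul_mem_cancel_left (inv_mem hm)).1 c3)))
    · have c1 := hP.pi.lt_subnorm hlt
      exact c1.ne' (hmax _ ⟨hP.pi.inf_left _, ne_bot_of_le c1.le hn, M', M, a', a,
        inf_le_left.trans hP.le, inf_le_right.trans b, e⟩ c1.le)
  exact hne ((key _ a₁ b₁).trans (key _ a₂ b₂).symm)

/-- A finite non-abelian simple group in which all maximal 2-local subgroups are conjugate is isomorphic to L₂(2ⁿ), Sz(2ⁿ) or U₃(2ⁿ) for some n ≥ 2. -/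
theorem result {G : Type*} [Group G] [Finite G] [IsSimpleGroup G] (hG : ¬ IsMulCommutative G)
    (h1 : ∀ M M' : Subgroup G, Cfsg.IsMaximalTwoLocal M → Cfsg.IsMaximalTwoLocal M' → ∃ g : G, M' = M.map (MulAut.conj g).toMonoidHom) :
    (∃ (F : Type) (_ : Field F) (_ : Fintype F) (n : ℕ), 2 ≤ n ∧ Fintype.card F = 2 ^ n ∧
        Nonempty (G ≃* Matrix.ProjectiveSpecialLinearGroup (Fin 2) F)) ∨
      Cfsg.Lie.IsoSuzuki G ∨
      (∃ (F : Type) (_ : Field F) (_ : Fintype F) (n : ℕ), 2 ≤ n ∧ Fintype.card F = (2 ^ n) ^ 2 ∧ Nonempty (G ≃* Cfsg.PSU 3 F (2 ^ n))) := by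
  obtain ⟨t, -, ht⟩ := exists_elt_of_prime_dvd Nat.prime_two
    (two_dvd_of_not_sol (not_sol_of_simple hG))
  have c : ∀ t : G, orderOf t = 2 → PGrp 2 ⟪t⟫ ∧ ⟪t⟫ ≠ ⊥ := fun t ht =>
    ⟨pGrp_of_card_prime Nat.prime_two ((card_zpowers' t).trans ht),
      ne_bot_of_prime_card (by rw [card_zpowers', ht]; exact Nat.prime_two)⟩
  obtain ⟨M, a, b⟩ := exists_maxloc (c t ht).1 (c t ht).2
  have hM : IsStronglyEmbedded M := by
    refine se_of_invol ?_ (ht ▸ orderOf_dvd_card' (b (le_nrm _ (Subgroup.mem_zpowers t))))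
      fun g s hs h2 h3 => nrm_maxloc a (cj_eq_self.1 (uniq h1 (c s hs).1 (c s hs).2 (maxloc_cj a g) a
        (Subgroup.zpowers_le.2 h3) (Subgroup.zpowers_le.2 h2)))
    obtain ⟨T, h1, h2, rfl⟩ := a.1
    exact nrm_ne_top hG h2 (pGrp_of_isPGroup Nat.prime_two h1).sol
  obtain ⟨S, -⟩ := BS.bender_simple hG hM
  rcases S.isBender with ⟨F, _, _, ⟨n, h1, h2⟩, h3⟩ | h | h
  · exact Or.inl ⟨F, _, _, n, h1, h2, h3⟩
  · exact Or.inr (Or.inl h)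
  · exact Or.inr (Or.inr h)

end Cfsg.Agent.S3245
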