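import Cfsg.Statements.S3246
import Mathlib
import Cfsg.Agent.H2.Sig2

set_option autoImplicit false
open Cfsg

namespace Cfsg.Agent.S3246

open Cfsg.Agent.FT Subgroup
open scoped commutatorElement

theorem comm_le {G : Type*} [Group G] {D Q Y : Subgroup G} (h : Ix2 D Q) (hY : Y ≤ N(Q)) (hD : Y ≤ N(D)) :
    ⁅Q, Y⁆ ≤ D := by
  refine commutator_le.2 fun x hx y hy => ?_
  have e : ⁅x, y⁆ = x⁻¹⁻¹ * (y * x⁻¹ * y⁻¹) := by rw [commutatorElement_def]; group
  rw [e]
  by_cases h1 : x⁻¹ ∈ D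
  · exact mul_mem (inv_mem h1) (conj_mem (hD hy) h1)
  · refine h _ (inv_mem hx) _ (conj_mem (hY hy) (inv_mem hx)) h1 fun h2 => h1 ?_
    simpa [mul_assoc] using conj_mem' (hD hy) h2

/-- Let G be a finite group whose Sylow 2-subgroup S has a self-centralizing normal subgroup of rank at least 3. Suppose that either every maximal 2-local subgroup of G is 2-constrained with no nontrivial normal subgroup of odd order, or the centralizer of every involution of G is 2-constrained with no nontrivial normal subgroup of odd order. Then S normalizes no nontrivial subgroup of G of odd order and every 2-local subgroup of G is 2-constrained. -/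
theorem result {G : Type*} [Group G] [Finite G]
    (S : Sylow 2 G) (A : Subgroup G) (hA : Cfsg.IsSCN (S : Subgroup G) A) (hA3 : ¬ Cfsg.PRankLE 2 2 ↥A)
    (h : (∀ M : Subgroup G, Cfsg.IsMaximalTwoLocal M → Cfsg.IsPConstrained 2 ↥M ∧ Cfsg.oddCore ↥M = ⊥) ∨
      (∀ t : G, orderOf t = 2 → Cfsg.IsPConstrained 2 ↥(Subgroup.centralizer ({t} : Set G)) ∧
        Cfsg.oddCore ↥(Subgroup.centralizer ({t} : Set G)) = ⊥)) :
    (∀ X : Subgroup G, Odd (Nat.card ↥X) → (S : Subgroup G) ≤ Subgroup.normalizer (X : Set G) → X = ⊥) ∧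
      (∀ T : Subgroup G, IsPGroup 2 ↥T → T ≠ ⊥ → Cfsg.IsPConstrained 2 ↥(Subgroup.normalizer (T : Set G))) := by
  have p2 := Nat.prime_two
  have H : ∀ t : G, orderOf t = 2 → CharP' 2 C[t] := by
    intro t ht
    rcases h with h | h
    · obtain ⟨M, hle, h1, hmax⟩ := exists_max (fun M : Subgroup G => IsTwoLocal M) (A := N(⟪t⟫))
        ⟨⟪t⟫, (pGrp_zpowers p2 ht).isPGroup, zpowers_ne_bot' (ne_one_of_orderOf ht), rfl⟩
      obtain ⟨h2, h3⟩ := h M ⟨h1, hmax⟩
      have h4 : CharP' 2 M := charP'_iff_core_play.2 (by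
        rw [(isPConstrained_iff p2).1 h2, ← oddCore_map, h3, Subgroup.map_bot, sup_idem])
      have := h4.subcent (pGrp_zpowers p2 ht) (norms_of_le ((le_nrm _).trans hle))
      rwa [inf_eq_right.2 ((cen_le_nrm _).trans hle), cen_zpowers] at this
    · obtain ⟨h2, h3⟩ := h t ht
      exact charP'_iff_core_play.2 (by
        rw [(isPConstrained_iff p2).1 h2, ← oddCore_map, h3, Subgroup.map_bot, sup_idem])
  refine ⟨fun X hX hn => ?_, fun T hT hT1 => ?_⟩
  · have hS := syl_top p2 S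
    have oX := odd_iff_piGrp.1 hX
    obtain ⟨B, hB, hBA⟩ := exists_e8 hA3
    obtain ⟨U, hU, nU⟩ := hB.exists_four hS.pi (hBA.trans hA.1)
    refine le_bot_iff.1 (coprime_abelian_gen_cent1 hU.ab hU.not_cyc (hU.le.trans hn) (oX.cop' hU.pGrp)
      fun u hu h1 => ?_)
    have hu2 := hU.abelem.orderOf p2 hu h1
    have i1 : Ix2 C[u] S := (hU.ix2_cen hS.pi nU).mono (inf_le_left.trans (cen_le_cen1 hu)) le_rfl
    obtain ⟨T, hT, hle⟩ := (hS.pi.mono inf_le_right : PGrp 2 (C[u] ⊓ S)).exists_syl inf_le_left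
    have i2 : Ix2 (C[u] ⊓ S) T := ix2_of_card hle ((hS.card_le hT.pi le_top).trans i1.card)
    have nQ : X ⊓ C[u] ≤ N(O[{2}](C[u])) := inf_le_right.trans (pcore_nrm _ _)
    have hc : Cop O[{2}](C[u]) (X ⊓ C[u]) := (pcore_pi _ _).cop (oX.inf_left _)
    have i3 : Ix2 (O[{2}](C[u]) ⊓ C(X ⊓ C[u])) O[{2}](C[u]) := by
      refine i2.mono (le_inf inf_le_right (comm_eq_bot.1 (le_bot_iff.1 ?_))) (pcore_le_syl hT)
      rw [← hc.inf]
      refine le_inf ((commSS inf_le_right le_rfl).trans (comm_le_left nQ)) (comm_le_right ?_)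
      exact normsI ((inf_le_left.trans inf_le_right).trans hn) (norms_of_le (inf_le_left.trans inf_le_left))
    have h2 := stable_factor_cent nQ hc (comm_le i3 nQ (normsI nQ (norms_cent (le_nrm _)))) (centsC inf_le_right)
    rw [← hc.inf]
    exact le_inf ((le_inf inf_le_right h2).trans (H u hu2)) le_rfl
  · have pT := pGrp_of_isPGroup p2 hT
    rw [isPConstrained_iff p2, play_nrm_eq pT]
    obtain ⟨x, hx, ho⟩ := (pT.mono inf_le_left : PGrp 2 Z(T)).exists_elt (pT.center_ne_bot hT1)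
    have hM : L[2](C[x]) = ⊥ := eq_bot_of_le le_sup_right (charP'_iff_core_play.1 (H x ho))
    have := (constrained_local hM pT (le_cen1.2 hx.2)).1
    rwa [inf_eq_right.2 (cen_le_cen1 hx.1)] at this

end Cfsg.Agent.S3246
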