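import Cfsg.Statements.S3247
import Mathlib
import Cfsg.Agent.H2.Sig2

set_option autoImplicit false
open Cfsg

namespace Cfsg.Agent.S3247

open Cfsg.Agent.FT Subgroup
open scoped commutatorElement

/-- Let G be a finite group and p a prime; here a p-local subgroup means the normalizer of a nontrivial p-subgroup, other than G itself. If every p-local subgroup of G that is maximal among p-local subgroups is p-constrained, or if the centralizer of every element of order p of G is p-constrained, then every p-local subgroup of G is p-constrained. -/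
theorem result {G : Type*} [Group G] [Finite G] (p : ℕ) [hp : Fact p.Prime]
    (h : (∀ M : Subgroup G, (∃ T : Subgroup G, IsPGroup p ↥T ∧ T ≠ ⊥ ∧ M = Subgroup.normalizer (T : Set G)) → M ≠ ⊤ →
        (∀ M' : Subgroup G, (∃ T' : Subgroup G, IsPGroup p ↥T' ∧ T' ≠ ⊥ ∧ M' = Subgroup.normalizer (T' : Set G)) → M' ≠ ⊤ → M ≤ M' → M = M') →
        Cfsg.IsPConstrained p ↥M) ∨
      (∀ x : G, orderOf x = p → Cfsg.IsPConstrained p ↥(Subgroup.centralizer ({x} : Set G))))
    (T : Subgroup G) (hT : IsPGroup p ↥T) (hT1 : T ≠ ⊥) (hTG : Subgroup.normalizer (T : Set G) ≠ ⊤) :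
    Cfsg.IsPConstrained p ↥(Subgroup.normalizer (T : Set G)) := by
  have hp' := hp.out
  have pT := pGrp_of_isPGroup hp' hT
  rw [isPConstrained_iff hp', play_nrm_eq pT]
  rcases h with h | h
  · obtain ⟨M, hle, ⟨h1, h2⟩, hmax⟩ := exists_max
      (fun M => (∃ T : Subgroup G, IsPGroup p ↥T ∧ T ≠ ⊥ ∧ M = N(T)) ∧ M ≠ ⊤) (A := N(T)) ⟨⟨T, hT, hT1, rfl⟩, hTG⟩
    have hM := (isPConstrained_iff hp').1 (h M h1 h2 fun M' a b c => (hmax M' ⟨a, b⟩ c).symm)
    have := (constrained_local hM pT ((le_nrm T).trans hle)).1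
    rwa [inf_eq_right.2 ((cen_le_nrm T).trans hle)] at this
  · obtain ⟨x, hx, ho⟩ := (pT.mono inf_le_left : PGrp p Z(T)).exists_elt (pT.center_ne_bot hT1)
    have hM := (isPConstrained_iff hp').1 (h x ho)
    have := (constrained_local hM pT (le_cen1.2 hx.2)).1
    rwa [inf_eq_right.2 (cen_le_cen1 hx.1)] at this

end Cfsg.Agent.S3247
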