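import Cfsg.Statements.S3261
import Mathlib
import Cfsg.Agent.GW.Cons1

set_option autoImplicit false
open Cfsg

namespace Cfsg.Agent.S3261



open Subgroup Cfsg.Agent.FT Cfsg.Agent.GW

theorem map_cen1_equiv {G G' : Type*} [Group G] [Group G'] (φ : G ≃* G') (x : G) :
    C[x].map φ.toMonoidHom = C[φ x] := by
  ext y
  obtain ⟨y, rfl⟩ := φ.surjective y
  rw [mem_cen1, ← map_mul, ← map_mul, φ.injective.eq_iff, ← mem_cen1]
  exact mem_map_iff_mem φ.injective

def a6a : alternatingGroup (Fin 6) := ⟨c[0, 1, 2, 3] * c[4, 5], Equiv.Perm.mem_alternatingGroup.2 (by decide)⟩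

theorem a6_cen : (Finset.univ.filter fun x : alternatingGroup (Fin 6) => x * a6a ^ 2 = a6a ^ 2 * x).card = 8 ∧
    (∀ x, x * a6a ^ 2 = a6a ^ 2 * x → x * x = 1 ∨ x = a6a ∨ x = a6a⁻¹) ∧ a6a ^ 2 ≠ 1 ∧ a6a ^ 2 ^ 2 = 1 ∧
    ((a6a ^ 2 : alternatingGroup (Fin 6)) : Equiv.Perm (Fin 6)).support.card = 4 := by
  decide +kernel

theorem a6_d8 {α : alternatingGroup (Fin 6)} (h : orderOf α = 2)
    (hs : (α : Equiv.Perm (Fin 6)).support.card = 4) : Nonempty (C[α] ≃* DihedralGroup 4) := by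
  obtain ⟨h1, h2, h3, h4, h5⟩ := a6_cen
  have o4 : orderOf a6a = 2 ^ 2 := orderOf_eq_prime_pow (by simpa using h3) h4
  have i2 : Invo (a6a ^ 2) := invo_of (by rw [← pow_add]; exact h4) h3
  have k : ∀ β : alternatingGroup (Fin 6), orderOf β = 2 → (β : Equiv.Perm (Fin 6)).support.card = 4 →
      (β : Equiv.Perm (Fin 6)).cycleType = Multiset.replicate 2 2 := fun β h hs => by
    rw [← orderOf_coe] at h
    obtain ⟨n, hn⟩ := Equiv.Perm.cycleType_prime_order (σ := (β : Equiv.Perm (Fin 6))) (h ▸ Nat.prime_two)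
    have := Equiv.Perm.sum_cycleType (β : Equiv.Perm (Fin 6))
    rw [hn, h, hs, Multiset.sum_replicate, smul_eq_mul] at this
    rw [hn, h, show n + 1 = 2 by omega]
  obtain ⟨σ, hσ⟩ := isConj_iff.1 (Equiv.Perm.isConj_iff_cycleType_eq.2 ((k α h hs).trans (k _ i2 h5).symm))
  have d : Dh C[a6a ^ 2] ⟪a6a⟫ (a6a ^ 2) := by
    have c : #C[a6a ^ 2] = 2 ^ 3 := by
      rw [← Fintype.card_subtype] at h1
      rw [← show 8 = 2 ^ 3 from rfl, ← h1, ← Nat.card_eq_fintype_card]
      exact Nat.card_congr (Equiv.subtypeEquivRight fun x => mem_cen1)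
    have l : ⟪a6a⟫ ≤ C[a6a ^ 2] := zpowers_le.2 (mem_cen1.2 (by group))
    refine ⟨pGrp_of_card Nat.prime_two c, cyc_zpowers _, l, H3.relIndex_of_card_mul l
      (by rw [c, card_zpowers', o4]; rfl), i2, pow_mem (mem_zpowers _) 2, fun s hs hs' =>
        invo_of ((h2 s (mem_cen1.1 hs)).resolve_right ?_) fun e => hs' (e ▸ one_mem _)⟩
    rintro (rfl | rfl)
    exacts [hs' (mem_zpowers _), hs' (inv_mem (mem_zpowers _))]
  have e : α = MulAut.conjNormal σ⁻¹ (a6a ^ 2) := Subtype.ext (by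
    rw [MulAut.conjNormal_apply, ← hσ]; group)
  generalize (MulAut.conjNormal σ⁻¹ : MulAut (alternatingGroup (Fin 6))) = φ at e
  have := (d.map φ.toMonoidHom fun x _ e => φ.injective (e.trans (map_one _).symm)).iso
  rwa [map_cen1_equiv, card_map_inj φ.injective, card_zpowers', o4, ← e] at this


/-- Let α̃ be an involution of the alternating group A₆ that is a product of two disjoint transpositions (it lies in the centre of a Sylow 2-subgroup of A₆; its centralizer is dihedral of order 8). Let G be a finite group that has no subgroup of index 2 and contains an involution α, central in some Sylow 2-subgroup of G, with C_G(α) ≅ C_{A₆}(α̃). Then G is isomorphic to A₆ or to PSL₂(7). -/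
theorem result {G : Type*} [Group G] [Finite G]
    (hG : ∀ H : Subgroup G, H.index ≠ 2)
    (αt : ↥(alternatingGroup (Fin 6))) (hαt : orderOf αt = 2) (hsupp : (αt : Equiv.Perm (Fin 6)).support.card = 4)
    (α : G) (hα : orderOf α = 2) (S : Sylow 2 G) (hαS : α ∈ (S : Subgroup G)) (hαc : ∀ s ∈ (S : Subgroup G), s * α = α * s)
    (e : ↥(Subgroup.centralizer ({α} : Set G)) ≃* ↥(Subgroup.centralizer ({αt} : Set ↥(alternatingGroup (Fin 6))))) :
    Nonempty (G ≃* ↥(alternatingGroup (Fin 6))) ∨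
      (∃ (F : Type) (_ : Field F) (_ : Fintype F), Fintype.card F = 7 ∧ Nonempty (G ≃* Matrix.ProjectiveSpecialLinearGroup (Fin 2) F)) := by
  obtain ⟨e'⟩ := a6_d8 hαt hsupp
  obtain ⟨T, h, h4⟩ := GW.dh_of_d8 hα (e.trans e')
  exact h.d8 h4 (GW.no2_top hG)

end Cfsg.Agent.S3261
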