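import Cfsg.Statements.S3266
import Mathlib
import Cfsg.Agent.H20.Invol

set_option autoImplicit false
open Cfsg

namespace Cfsg.Agent.S3266

open Matrix

theorem lfg {G : Type*} [Group G] (t : G)
    (K : ∀ x y, IsConj t x → IsConj t y →
      ∃ z, IsConj t z ∧ Odd (orderOf (x * z)) ∧ Odd (orderOf (y * z)))
    (N : ∃ x y, IsConj t x ∧ IsConj t y ∧ x ≠ y ∧ orderOf (x * y) = 2) :
    (SimpleGraph.fromRel fun x y : {x : G // IsConj t x} => Odd (orderOf (x.1 * y.1))).Connected ∧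
      (SimpleGraph.fromRel fun x y : {x : G // IsConj t x} =>
        Odd (orderOf (x.1 * y.1))).diam = 2 := by
  set Γ := (SimpleGraph.fromRel fun x y : {x : G // IsConj t x} => Odd (orderOf (x.1 * y.1)))
  haveI : Nonempty {x : G // IsConj t x} := ⟨⟨t, IsConj.refl t⟩⟩
  have h1 : ∀ x z : {x : G // IsConj t x}, Odd (orderOf (x.1 * z.1)) → Γ.edist x z ≤ 1 := by
    intro x z h
    rw [SimpleGraph.edist_le_one_iff_adj_or_eq]
    by_cases e : x = z
    · exact Or.inr e
    · exact Or.inl ((SimpleGraph.fromRel_adj _ _ _).2 ⟨e, Or.inl h⟩)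
  have h2 : Γ.ediam ≤ 2 := by
    refine SimpleGraph.ediam_le_of_edist_le fun x y => ?_
    obtain ⟨z, hz, a1, a2⟩ := K x.1 y.1 x.2 y.2
    have b1 := h1 x ⟨z, hz⟩ a1
    have b2 := h1 y ⟨z, hz⟩ a2
    rw [SimpleGraph.edist_comm] at b2
    calc Γ.edist x y ≤ _ := SimpleGraph.edist_triangle (v := ⟨z, hz⟩)
      _ ≤ 1 + 1 := add_le_add b1 b2
      _ = 2 := one_add_one_eq_two
  have h3 : 2 ≤ Γ.ediam := by
    obtain ⟨x, y, hx, hy, hxy, ho⟩ := N
    refine le_trans ?_ (SimpleGraph.edist_le_ediam (u := ⟨x, hx⟩) (v := ⟨y, hy⟩))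
    by_contra hc
    have : Γ.edist ⟨x, hx⟩ ⟨y, hy⟩ ≤ 1 := by
      push Not at hc
      exact Order.le_of_lt_succ (by simpa [one_add_one_eq_two] using hc)
    rw [SimpleGraph.edist_le_one_iff_adj_or_eq] at this
    rcases this with h | h
    · rw [SimpleGraph.fromRel_adj] at h
      have hc' : orderOf (y * x) = 2 := by
        rw [← ho]
        exact (SemiconjBy.orderOf_eq x (by simp [SemiconjBy, mul_assoc]))
      rcases h.2 with h | h
      · simp only [ho] at h; exact absurd h (by decide)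
      · simp only [hc'] at h; exact absurd h (by decide)
    · exact hxy (congrArg Subtype.val h)
  have h4 : Γ.ediam = 2 := le_antisymm h2 h3
  refine ⟨SimpleGraph.connected_of_ediam_ne_top (by rw [h4]; decide), ?_⟩
  rw [SimpleGraph.diam, h4]; rfl

section
variable {F : Type*} [Field F]

abbrev SL2 (F : Type*) [Field F] := SpecialLinearGroup (Fin 2) F
abbrev PP (F : Type*) [Field F] := ProjectiveSpecialLinearGroup (Fin 2) F
abbrev pr (x : SL2 F) : PP F := QuotientGroup.mk x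

def tr (x : SL2 F) : F := x 0 0 + x 1 1

theorem det2 (x : SL2 F) : x 0 0 * x 1 1 - x 0 1 * x 1 0 = 1 := by
  have := x.det_coe
  rwa [det_fin_two] at this

theorem pr_eq_one (x : SL2 F) : pr x = 1 ↔ x 0 1 = 0 ∧ x 1 0 = 0 ∧ x 0 0 = x 1 1 := by
  rw [QuotientGroup.eq_one_iff, Matrix.SpecialLinearGroup.mem_center_iff]
  constructor
  · rintro ⟨r, -, h⟩
    have h' : ∀ i j, x i j = scalar (Fin 2) r i j := fun i j => by rw [h]
    simp [h']
  · rintro ⟨h1, h2, h3⟩
    have := det2 x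
    refine ⟨x 0 0, by simp; grind, ?_⟩
    ext i j
    fin_cases i <;> fin_cases j <;> simp [h1, h2, h3]

theorem ch (x : SL2 F) : (x : Matrix (Fin 2) (Fin 2) F) * x = tr x • (x : Matrix (Fin 2) (Fin 2) F) - 1 := by
  have := det2 x
  ext i j
  fin_cases i <;> fin_cases j <;> simp [mul_apply, Fin.sum_univ_two, tr] <;> grind

theorem pr_pow_of (x : SL2 F) (k : ℕ) (c : F)
    (h : (x : Matrix (Fin 2) (Fin 2) F) ^ k = c • (1 : Matrix (Fin 2) (Fin 2) F)) : pr x ^ k = 1 := by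
  rw [← QuotientGroup.mk_pow, pr_eq_one]
  have h' : ∀ i j, (x ^ k) i j = (c • (1 : Matrix (Fin 2) (Fin 2) F)) i j := fun i j => by
    rw [← h]; rfl
  simp [h']

theorem odd_of_pow {G : Type*} [Group G] {x : G} {k : ℕ} (hk : Odd k) (h : x ^ k = 1) :
    Odd (orderOf x) := hk.of_dvd_nat (orderOf_dvd_of_pow_eq_one h)

theorem inv_tr {x : SL2 F} (h : orderOf (pr x) = 2) : tr x = 0 ∧ pr x ≠ 1 := by
  have h1 : pr x ≠ 1 := by
    intro h'; rw [h', orderOf_one] at h; omega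
  refine ⟨?_, h1⟩
  have h2 : pr (x * x) = 1 := by
    exact H20.mul_self_of_orderOf_two h
  rw [pr_eq_one] at h2
  simp only [Ne, pr_eq_one] at h1
  simp only [Matrix.SpecialLinearGroup.coe_mul, mul_apply, Fin.sum_univ_two] at h2
  unfold tr
  by_contra hc
  apply h1
  obtain ⟨h3, h4, h5⟩ := h2
  refine ⟨?_, ?_, ?_⟩
  · apply mul_left_cancel₀ hc; linear_combination h3
  · apply mul_left_cancel₀ hc; linear_combination h4
  · apply mul_left_cancel₀ hc; linear_combination h5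

theorem inv_of_tr {x : SL2 F} (h : tr x = 0) (h1 : pr x ≠ 1) : orderOf (pr x) = 2 := by
  haveI := Nat.fact_prime_two
  refine orderOf_eq_prime (pr_pow_of x 2 (-1) ?_) h1
  rw [pow_two, ch, h]; simp

theorem ne_one_of_tr (h2 : (2 : F) ≠ 0) {x : SL2 F} (h : tr x = 0) : pr x ≠ 1 := by
  rw [Ne, pr_eq_one]
  rintro ⟨h3, h4, h5⟩
  have := det2 x
  unfold tr at h
  have h6 : x 1 1 = 0 := by
    apply mul_left_cancel₀ h2; linear_combination h - h5
  rw [h6, h3] at this; simp at this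

theorem odd_unip (p : ℕ) [CharP F p] (hp : Odd p) (m : SL2 F) (ε : F) (hε : ε * ε = 1)
    (h : tr m = 2 * ε) : Odd (orderOf (pr m)) := by
  have key : ∀ k : ℕ, (m : Matrix (Fin 2) (Fin 2) F) ^ k =
      (ε ^ k * (1 - k)) • (1 : Matrix (Fin 2) (Fin 2) F) + (ε ^ (k + 1) * k) • (m : Matrix (Fin 2) (Fin 2) F) := by
    intro k
    induction k with
    | zero => simp
    | succ k ih =>
      rw [pow_succ, ih, add_mul, smul_mul_assoc, smul_mul_assoc, ch, h, one_mul]
      push_cast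
      match_scalars
      · linear_combination (ε ^ k * (k - 1)) * hε
      · ring
  refine odd_of_pow hp (pr_pow_of m p (ε ^ p) ?_)
  rw [key]; simp

theorem odd_split [Fintype F] (h3 : Fintype.card F % 4 = 3) (m : SL2 F) (u : F) (hu : u ≠ 0)
    (hu1 : u * u ≠ 1) (h : tr m = u + u⁻¹) : Odd (orderOf (pr m)) := by
  have hch : ringChar F ≠ 2 := by
    intro hc
    have := FiniteField.even_card_of_char_two hc
    omega
  have key : ∀ k : ℕ, (u - u⁻¹) • (m : Matrix (Fin 2) (Fin 2) F) ^ k =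
      (u ^ k - u⁻¹ ^ k) • (m : Matrix (Fin 2) (Fin 2) F) +
        (u * u⁻¹ ^ k - u⁻¹ * u ^ k) • (1 : Matrix (Fin 2) (Fin 2) F) := by
    intro k
    have hi : u * u⁻¹ = 1 := mul_inv_cancel₀ hu
    induction k with
    | zero => simp
    | succ k ih =>
      rw [pow_succ, ← smul_mul_assoc, ih, add_mul, smul_mul_assoc, smul_mul_assoc, ch, h, one_mul]
      match_scalars
      · ring
      · linear_combination (u ^ k - u⁻¹ ^ k) * hi
  have hne : u - u⁻¹ ≠ 0 := by
    intro hc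
    apply hu1
    have : u = u⁻¹ := sub_eq_zero.1 hc
    nth_rewrite 2 [this]
    exact mul_inv_cancel₀ hu
  have hk : Odd (Fintype.card F / 2) := by
    rw [Nat.odd_iff]; omega
  obtain ⟨ε, h1, h2⟩ : ∃ ε, u ^ (Fintype.card F / 2) = ε ∧ u⁻¹ ^ (Fintype.card F / 2) = ε := by
    rcases FiniteField.pow_dichotomy hch hu with h1 | h1
    · exact ⟨1, h1, by rw [inv_pow, h1, inv_one]⟩
    · exact ⟨-1, h1, by rw [inv_pow, h1, inv_neg, inv_one]⟩
  refine odd_of_pow hk (pr_pow_of m _ ε ?_)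
  apply smul_right_injective _ hne
  simp only [key, h1, h2, sub_self, zero_smul, zero_add, smul_smul]
  congr 1; ring

theorem pow_lin (m : SL2 F) (k : ℕ) : ∃ α β : F, (m : Matrix (Fin 2) (Fin 2) F) ^ k =
    α • (m : Matrix (Fin 2) (Fin 2) F) + β • (1 : Matrix (Fin 2) (Fin 2) F) := by
  induction k with
  | zero => exact ⟨0, 1, by simp⟩
  | succ k ih =>
    obtain ⟨α, β, h⟩ := ih
    refine ⟨α * tr m + β, -α, ?_⟩
    rw [pow_succ, h, add_mul, smul_mul_assoc, smul_mul_assoc, ch, one_mul]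
    match_scalars <;> ring

theorem odd_two [Finite F] (h2 : (2 : F) = 0) (m : SL2 F) (h : tr m ≠ 0) :
    Odd (orderOf (pr m)) := by
  rw [← Nat.not_even_iff_odd]
  rintro ⟨k, hk⟩
  have hpos : 0 < orderOf (pr m) := orderOf_pos _
  have : orderOf (pr (m ^ k)) = 2 := by
    rw [pr, QuotientGroup.mk_pow, orderOf_pow' _ (by omega), hk, ← two_mul, Nat.gcd_mul_left_left,
      Nat.mul_div_cancel _ (by omega)]
  obtain ⟨h3, h4⟩ := inv_tr this
  obtain ⟨α, β, h5⟩ := pow_lin m k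
  have h' : ∀ i j, (m ^ k) i j = (α • (m : Matrix (Fin 2) (Fin 2) F) +
      β • (1 : Matrix (Fin 2) (Fin 2) F)) i j := fun i j => by rw [← h5]; rfl
  have h6 : α = 0 := by
    apply mul_right_cancel₀ h
    simp only [tr, h'] at h3 ⊢
    simp at h3
    linear_combination h3 - β * h2
  apply h4
  rw [pr_eq_one]
  simp [h', h6]

def mk0 (a b c : F) (h : a * a + b * c = -1) : SL2 F :=
  ⟨!![a, b; c, -a], by rw [det_fin_two_of]; linear_combination -h⟩

@[simp] theorem mk00 (a b c : F) (h : a * a + b * c = -1) : mk0 a b c h 0 0 = a := rfl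
@[simp] theorem mk01 (a b c : F) (h : a * a + b * c = -1) : mk0 a b c h 0 1 = b := rfl
@[simp] theorem mk10 (a b c : F) (h : a * a + b * c = -1) : mk0 a b c h 1 0 = c := rfl
@[simp] theorem mk11 (a b c : F) (h : a * a + b * c = -1) : mk0 a b c h 1 1 = -a := rfl

theorem tr_mk0 (a b c : F) (h : a * a + b * c = -1) : tr (mk0 a b c h) = 0 := by
  simp [tr]

theorem tr_mul_mk0 (x : SL2 F) (hx : tr x = 0) (a b c : F) (h : a * a + b * c = -1) :
    tr (x * mk0 a b c h) = 2 * x 0 0 * a + x 0 1 * c + x 1 0 * b := by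
  simp only [tr, Matrix.SpecialLinearGroup.coe_mul, mul_apply, Fin.sum_univ_two] at hx ⊢
  simp
  linear_combination (-a) * hx

theorem tr_mul (x y : SL2 F) (hx : tr x = 0) (hy : tr y = 0) :
    tr (x * y) = 2 * x 0 0 * y 0 0 + x 0 1 * y 1 0 + x 1 0 * y 0 1 := by
  simp only [tr, Matrix.SpecialLinearGroup.coe_mul, mul_apply, Fin.sum_univ_two] at hx hy ⊢
  linear_combination (x 1 1) * hy - (y 0 0) * hx

theorem gram (h2 : (2 : F) ≠ 0) (x y : SL2 F) (hx : tr x = 0) (hy : tr y = 0)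
    (hτ : 4 - tr (x * y) ^ 2 ≠ 0) (s t r : F)
    (h : 4 - tr (x * y) ^ 2 - s ^ 2 - t ^ 2 - tr (x * y) * s * t = r ^ 2) :
    ∃ z : SL2 F, tr z = 0 ∧ tr (x * z) = s ∧ tr (y * z) = t := by
  have d1 := det2 x
  have d2 := det2 y
  have hτ' := tr_mul x y hx hy
  have e1 : x 1 1 = - x 0 0 := by unfold tr at hx; linear_combination hx
  have e2 : y 1 1 = - y 0 0 := by unfold tr at hy; linear_combination hy
  rw [e1] at d1
  rw [e2] at d2
  generalize tr (x * y) = τ at *
  set D := 4 - τ ^ 2 with hD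
  have hDi : D * D⁻¹ = 1 := mul_inv_cancel₀ hτ
  generalize D⁻¹ = E at hDi
  obtain ⟨a, ha⟩ : ∃ a, a = x 0 0 := ⟨_, rfl⟩
  obtain ⟨b, hb⟩ : ∃ a, a = x 0 1 := ⟨_, rfl⟩
  obtain ⟨c, hc⟩ : ∃ a, a = x 1 0 := ⟨_, rfl⟩
  obtain ⟨d, hd⟩ : ∃ a, a = y 0 0 := ⟨_, rfl⟩
  obtain ⟨e, he⟩ : ∃ a, a = y 0 1 := ⟨_, rfl⟩
  obtain ⟨f, hf⟩ : ∃ a, a = y 1 0 := ⟨_, rfl⟩
  rw [← ha, ← hb, ← hc] at d1
  rw [← hd, ← he, ← hf] at d2
  rw [← ha, ← hb, ← hc, ← hd, ← he, ← hf] at hτ'
  -- z = l x + m y + n (xy - yx)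
  obtain ⟨l, hl⟩ : ∃ l, l = -(2 * s + τ * t) * E := ⟨_, rfl⟩
  obtain ⟨m, hm⟩ : ∃ l, l = -(2 * t + τ * s) * E := ⟨_, rfl⟩
  obtain ⟨n, hn⟩ : ∃ l, l = r * E := ⟨_, rfl⟩
  have q1 : -2 * l + τ * m = s := by rw [hl, hm]; linear_combination s * hDi - s * E * hD
  have q2 : τ * l - 2 * m = t := by rw [hl, hm]; linear_combination t * hDi - t * E * hD
  have q3 : l ^ 2 + m ^ 2 - τ * l * m + n ^ 2 * D = 1 := by
    apply mul_left_cancel₀ hτ
    have : D * n = r := by rw [hn]; linear_combination r * hDi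
    rw [← this, ← q1, ← q2] at h
    linear_combination (-1 : F) * h - (l ^ 2 + m ^ 2 - τ * l * m - 1) * hD
  have hz : (l * a + m * d + n * (b * f - e * c)) * (l * a + m * d + n * (b * f - e * c)) +
      (l * b + m * e + n * (2 * (a * e - b * d))) * (l * c + m * f + n * (2 * (c * d - a * f))) = -1 := by
    rw [hD, hτ'] at q3
    linear_combination (-l ^ 2 - 4 * n ^ 2) * d1 + (-m ^ 2 - 4 * n ^ 2 * (-(a * a) - b * c)) * d2 - q3
  refine ⟨mk0 _ _ _ hz, tr_mk0 _ _ _ _, ?_, ?_⟩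
  · rw [tr_mul_mk0 x hx, ← ha, ← hb, ← hc, ← q1, hτ']
    linear_combination (-2 * l) * d1
  · rw [tr_mul_mk0 y hy, ← hd, ← he, ← hf, ← q2, hτ']
    linear_combination (-2 * m) * d2

theorem sq_or [Fintype F] (h1 : ¬ IsSquare (-1 : F)) (a : F) : IsSquare a ∨ IsSquare (-a) := by
  classical
  by_cases ha : a = 0
  · left; rw [ha]; exact IsSquare.zero
  by_contra hc
  push Not at hc
  have e1 := quadraticChar_neg_one_iff_not_isSquare.2 h1
  have e2 := quadraticChar_neg_one_iff_not_isSquare.2 hc.1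
  have e3 := quadraticChar_neg_one_iff_not_isSquare.2 hc.2
  rw [← neg_one_mul, map_mul, e1, e2] at e3
  omega

theorem ex3 [Fintype F] (hF : 4 ≤ Fintype.card F) : ∃ m : F, m ≠ 0 ∧ m ≠ 1 ∧ m ≠ -1 := by
  classical
  by_contra hc
  push Not at hc
  have : (Finset.univ : Finset F) ⊆ {0, 1, -1} := by
    intro m _
    by_cases h0 : m = 0
    · simp [h0]
    by_cases h1 : m = 1
    · simp [h1]
    simp [hc m h0 h1]
  have h1 := Finset.card_le_card this
  have h2 : ({0, 1, -1} : Finset F).card ≤ 3 := Finset.card_le_three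
  rw [Finset.card_univ] at h1
  omega

theorem exw [Fintype F] (hF : 4 ≤ Fintype.card F) (h2 : (2 : F) ≠ 0) (h1 : ¬ IsSquare (-1 : F))
    (τ D : F) (hD : 4 - τ ^ 2 = D ^ 2) (hD0 : D ≠ 0) :
    ∃ w r : F, w ≠ 0 ∧ -(2 + τ) * (w ^ 2 + τ * w + 1) = r ^ 2 := by
  have h2i : 2 * (2 : F)⁻¹ = 1 := mul_inv_cancel₀ h2
  generalize (2 : F)⁻¹ = i at h2i
  rcases sq_or h1 (2 + τ) with ⟨k, hk⟩ | ⟨k, hk⟩
  · obtain ⟨a, b, hab⟩ : ∃ a b : F, a ^ 2 + b ^ 2 = -1 := by
      obtain ⟨p, hp⟩ := CharP.exists F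
      haveI : NeZero p := ⟨CharP.char_ne_zero_of_finite F p⟩
      obtain ⟨a, b, h⟩ := CharP.sq_add_sq F p (-1)
      exact ⟨a, b, by simpa using h⟩
    have ha : a ≠ 0 := by
      rintro rfl
      exact h1 ⟨b, by linear_combination -hab⟩
    by_cases hw : D * a - τ = 0
    · refine ⟨(-D * a - τ) * i, k * D * b * i, ?_, ?_⟩
      · intro hc
        have : D * a * 2 = 0 := by linear_combination hw - 2 * hc + (-D * a - τ) * h2i
        simp [hD0, ha, h2] at this
      · rw [hk]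
        have : τ = D * a := by linear_combination -hw
        grind
    · refine ⟨(D * a - τ) * i, k * D * b * i, ?_, ?_⟩
      · intro hc
        apply hw
        linear_combination 2 * hc - (D * a - τ) * h2i
      · rw [hk]
        grind
  · by_cases hτ : τ = 0
    · obtain ⟨m, m0, m1, m2⟩ := ex3 hF
      have hm : m * m⁻¹ = 1 := mul_inv_cancel₀ m0
      refine ⟨(m - m⁻¹) * i, k * (m + m⁻¹) * i, ?_, ?_⟩
      · intro hc
        have : (m - 1) * (m + 1) = 0 := by
          linear_combination 2 * m * hc + hm - m * (m - m⁻¹) * h2i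
        rcases mul_eq_zero.1 this with h | h
        · exact m1 (sub_eq_zero.1 h)
        · exact m2 (eq_neg_of_add_eq_zero_left h)
      · rw [hk, hτ]
        grind
    · refine ⟨-τ * i, k * D * i, ?_, ?_⟩
      · intro hc
        apply hτ
        linear_combination -2 * hc - τ * h2i
      · rw [hk]
        grind

theorem key [Fintype F] (hF : 4 ≤ Fintype.card F) (X Y : PP F) (hX : orderOf X = 2)
    (hY : orderOf Y = 2) :
    ∃ Z : PP F, orderOf Z = 2 ∧ Odd (orderOf (X * Z)) ∧ Odd (orderOf (Y * Z)) := by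
  obtain ⟨x, rfl⟩ := QuotientGroup.mk_surjective X
  obtain ⟨y, rfl⟩ := QuotientGroup.mk_surjective Y
  obtain ⟨hx, hx1⟩ := inv_tr hX
  obtain ⟨hy, hy1⟩ := inv_tr hY
  have adj : Odd (orderOf (pr (x * y))) →
      ∃ Z : PP F, orderOf Z = 2 ∧ Odd (orderOf (pr x * Z)) ∧ Odd (orderOf (pr y * Z)) := by
    intro h
    refine ⟨pr y, hY, h, ?_⟩
    rw [H20.mul_self_of_orderOf_two hY, orderOf_one]; exact odd_one
  by_cases h2 : (2 : F) = 0
  · have fin : ∀ a b c (h : a * a + b * c = -1), x 0 1 * c + x 1 0 * b ≠ 0 →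
        y 0 1 * c + y 1 0 * b ≠ 0 →
        ∃ Z : PP F, orderOf Z = 2 ∧ Odd (orderOf (pr x * Z)) ∧ Odd (orderOf (pr y * Z)) := by
      intro a b c h k1 k2
      refine ⟨pr (mk0 a b c h), inv_of_tr (tr_mk0 _ _ _ _) ?_, odd_two h2 (x * _) ?_,
        odd_two h2 (y * _) ?_⟩
      · rw [Ne, pr_eq_one]
        rintro ⟨k3, k4, -⟩
        simp at k3 k4
        simp [k3, k4] at k1
      · rw [tr_mul_mk0 x hx, h2]; simpa using k1
      · rw [tr_mul_mk0 y hy, h2]; simpa using k2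
    have nz : ∀ x : SL2 F, tr x = 0 → pr x ≠ 1 → x 0 1 ≠ 0 ∨ x 1 0 ≠ 0 := by
      intro x hx hx1
      by_contra hc
      push Not at hc
      apply hx1
      rw [pr_eq_one]
      unfold tr at hx
      exact ⟨hc.1, hc.2, by linear_combination hx - x 1 1 * h2⟩
    have n1 := nz x hx hx1
    have n2 := nz y hy hy1
    by_cases c1 : x 1 0 ≠ 0 ∧ y 1 0 ≠ 0
    · exact fin 1 1 0 (by linear_combination h2) (by simp [c1.1]) (by simp [c1.2])
    by_cases c2 : x 0 1 ≠ 0 ∧ y 0 1 ≠ 0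
    · exact fin 1 0 1 (by linear_combination h2) (by simp [c2.1]) (by simp [c2.2])
    exact fin 0 1 1 (by linear_combination h2) (by grind) (by grind)
  obtain ⟨p, hp⟩ := CharP.exists F
  have hpo : Odd p := by
    have hpp := CharP.char_is_prime F p
    refine hpp.odd_of_ne_two ?_
    rintro rfl
    exact h2 (by simpa using CharP.cast_eq_zero F 2)
  by_cases hτ : 4 - tr (x * y) ^ 2 = 0
  · have : (tr (x * y) - 2) * (tr (x * y) + 2) = 0 := by linear_combination -hτ
    rcases mul_eq_zero.1 this with h | h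
    · exact adj (odd_unip p hpo _ 1 (by simp) (by linear_combination h))
    · exact adj (odd_unip p hpo _ (-1) (by simp) (by linear_combination h))
  by_cases h1 : IsSquare (-1 : F)
  · obtain ⟨i, hi⟩ := h1
    obtain ⟨z, z1, z2, z3⟩ := gram h2 x y hx hy hτ 2 2 (i * (tr (x * y) + 2))
      (by linear_combination (tr (x * y) + 2) ^ 2 * hi)
    exact ⟨pr z, inv_of_tr z1 (ne_one_of_tr h2 z1), odd_unip p hpo (x * z) 1 (by simp) (by simp [z2]),
      odd_unip p hpo (y * z) 1 (by simp) (by simp [z3])⟩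
  have h3 : Fintype.card F % 4 = 3 := by
    by_contra hc
    exact h1 (FiniteField.isSquare_neg_one_iff.2 hc)
  generalize hτd : tr (x * y) = τ at hτ
  rcases sq_or h1 (4 - τ ^ 2) with ⟨D, hD⟩ | ⟨D, hD⟩
  · have hD0 : D ≠ 0 := by rintro rfl; exact hτ (by simpa using hD)
    obtain ⟨w, r, hw, hr⟩ := exw hF h2 h1 τ D (by rw [hD]; ring) hD0
    have hk : 2 + τ ≠ 0 := by
      intro hc; apply hτ; linear_combination (2 - τ) * hc
    have hw1 : w ≠ 1 := by
      rintro rfl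
      apply h1
      refine ⟨r / (2 + τ), ?_⟩
      field_simp
      linear_combination hr
    have hw2 : w ≠ -1 := by
      rintro rfl
      apply h1
      refine ⟨r / D, ?_⟩
      field_simp
      linear_combination hr + hD
    rcases sq_or h1 w with ⟨u, hu⟩ | ⟨u, hu⟩
    · have hu0 : u ≠ 0 := by rintro rfl; exact hw (by simpa using hu)
      obtain ⟨z, z1, z2, z3⟩ := gram h2 x y hx hy (by rwa [hτd]) (u + u⁻¹) (u + u⁻¹) (r / u)
        (by rw [hτd]; rw [hu] at hr; field_simp; linear_combination hr)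
      have hu1 : u * u ≠ 1 := by rwa [← hu]
      exact ⟨pr z, inv_of_tr z1 (ne_one_of_tr h2 z1), odd_split h3 (x * z) u hu0 hu1 z2,
        odd_split h3 (y * z) u hu0 hu1 z3⟩
    · have hu0 : u ≠ 0 := by rintro rfl; exact hw (by simpa using hu)
      have hu' : w = -(u * u) := by linear_combination -hu
      obtain ⟨z, z1, z2, z3⟩ := gram h2 x y hx hy (by rwa [hτd]) (u + u⁻¹) (-u + (-u)⁻¹)
        (D * r / ((2 + τ) * u))
        (by
          rw [hτd]; rw [hu'] at hr; field_simp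
          linear_combination D ^ 2 * hr - (2 + τ) * (u ^ 4 - τ * u ^ 2 + 1) * hD)
      have hu1 : u * u ≠ 1 := by
        intro hc; apply hw2; rw [hu', hc]
      exact ⟨pr z, inv_of_tr z1 (ne_one_of_tr h2 z1), odd_split h3 (x * z) u hu0 hu1 z2,
        odd_split h3 (y * z) (-u) (neg_ne_zero.2 hu0) (by simpa using hu1) z3⟩
  · have hD0 : D ≠ 0 := by rintro rfl; exact hτ (by linear_combination -hD)
    have h2i : 2 * (2 : F)⁻¹ = 1 := mul_inv_cancel₀ h2
    generalize (2 : F)⁻¹ = i at h2i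
    have e : ((τ + D) * i) * ((τ - D) * i) = 1 := by grind
    refine adj (odd_split h3 _ ((τ + D) * i) (left_ne_zero_of_mul_eq_one e) ?_ ?_)
    · intro hc
      have := mul_left_cancel₀ (left_ne_zero_of_mul_eq_one e) (hc.trans e.symm)
      apply hD0
      linear_combination this - D * h2i
    · rw [hτd, inv_eq_of_mul_eq_one_right e]
      linear_combination -τ * h2i

theorem klein [Fintype F] (hF : 4 ≤ Fintype.card F) :
    ∃ X Y : PP F, orderOf X = 2 ∧ orderOf Y = 2 ∧ orderOf (X * Y) = 2 := by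
  by_cases h2 : (2 : F) = 0
  · obtain ⟨m, m0, m1, m2⟩ := ex3 hF
    have h : ∀ c : F, (1 : F) * 1 + c * 0 = -1 := fun c => by linear_combination h2
    refine ⟨pr (mk0 1 1 0 (h _)), pr (mk0 1 m 0 (h _)), inv_of_tr (tr_mk0 _ _ _ _) ?_,
      inv_of_tr (tr_mk0 _ _ _ _) ?_, inv_of_tr (x := _ * _) ?_ ?_⟩
    · rw [Ne, pr_eq_one]; simp
    · rw [Ne, pr_eq_one]; simp [m0]
    · rw [tr_mul_mk0 _ (tr_mk0 _ _ _ _), h2]; simp
    · rw [Ne, pr_eq_one]
      simp [mul_apply, Fin.sum_univ_two]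
      intro h
      exact absurd (by linear_combination h) m1
  · obtain ⟨a, b, hab⟩ : ∃ a b : F, a * a + b * b = -1 := by
      obtain ⟨p, hp⟩ := CharP.exists F
      haveI : NeZero p := ⟨CharP.char_ne_zero_of_finite F p⟩
      obtain ⟨a, b, h⟩ := CharP.sq_add_sq F p (-1)
      exact ⟨a, b, by simpa [sq] using h⟩
    have h0 : (0 : F) * 0 + 1 * (-1) = -1 := by ring
    have t3 : tr (mk0 0 1 (-1) h0 * mk0 a b b hab) = 0 := by
      rw [tr_mul_mk0 _ (tr_mk0 _ _ _ _)]; simp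
    exact ⟨pr (mk0 0 1 (-1) h0), pr (mk0 a b b hab),
      inv_of_tr (tr_mk0 _ _ _ _) (ne_one_of_tr h2 (tr_mk0 _ _ _ _)),
      inv_of_tr (tr_mk0 _ _ _ _) (ne_one_of_tr h2 (tr_mk0 _ _ _ _)),
      inv_of_tr t3 (ne_one_of_tr h2 t3)⟩
end

theorem sq_one {G : Type*} [Group G] {x : G} (h : orderOf x = 2) : x * x = 1 := by
  rw [← pow_two, ← h, pow_orderOf_eq_one]

theorem ord_conj {G : Type*} [Group G] {x y : G} (h : IsConj x y) : orderOf x = orderOf y := by
  obtain ⟨c, hc⟩ := h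
  exact SemiconjBy.orderOf_eq _ hc

/-- Let F be a finite field with at least 4 elements and let X be a conjugacy class of involutions of PSL(2, F). The graph on X joining two distinct involutions whose product has odd order is connected and has diameter exactly 2. -/
theorem result {F : Type*} [Field F] [Fintype F] (hF : 4 ≤ Fintype.card F)
    (t : Matrix.ProjectiveSpecialLinearGroup (Fin 2) F) (ht : orderOf t = 2) :
    (SimpleGraph.fromRel fun x y : {x : Matrix.ProjectiveSpecialLinearGroup (Fin 2) F // IsConj t x} =>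
        Odd (orderOf (x.1 * y.1))).Connected ∧
      (SimpleGraph.fromRel fun x y : {x : Matrix.ProjectiveSpecialLinearGroup (Fin 2) F // IsConj t x} =>
        Odd (orderOf (x.1 * y.1))).diam = 2 := by
  have hc : ∀ x, orderOf x = 2 → IsConj t x := by
    intro x hx
    obtain ⟨z, hz, h1, h2⟩ := key hF t x ht hx
    exact (H20.isConj_of_odd_orderOf_mul (sq_one ht) (sq_one hz) h1).trans
      (H20.isConj_of_odd_orderOf_mul (sq_one hx) (sq_one hz) h2).symm
  refine lfg t (fun x y hx hy => ?_) ?_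
  · obtain ⟨z, hz, h1, h2⟩ := key hF x y (by rw [← ord_conj hx, ht]) (by rw [← ord_conj hy, ht])
    exact ⟨z, hc z hz, h1, h2⟩
  · obtain ⟨x, y, hx, hy, hxy⟩ := klein hF
    refine ⟨x, y, hc x hx, hc y hy, ?_, hxy⟩
    rintro rfl
    rw [sq_one hx, orderOf_one] at hxy
    omega

end Cfsg.Agent.S3266
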