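import Cfsg.Statements.S3265
import Mathlib
import Cfsg.Agent.S3266

set_option autoImplicit false
open Cfsg

namespace Cfsg.Agent.S3265

open Equiv Finset

section
variable {Ω : Type} [Fintype Ω] [DecidableEq Ω]

omit [DecidableEq Ω] in
theorem odd_iff (σ : Perm Ω) : Odd (orderOf σ) ↔ ∀ p, ∃ k, Odd k ∧ (σ ^ k) p = p := by
  constructor
  · intro h p
    exact ⟨_, h, by rw [pow_orderOf_eq_one]; rfl⟩
  · intro h
    choose k h1 h2 using h
    refine S3266.odd_of_pow (k := ∏ p, k p) (Finset.prod_induction _ Odd (fun _ _ => Odd.mul) odd_one fun p _ => h1 p) ?_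
    ext p
    obtain ⟨m, hm⟩ := Finset.dvd_prod_of_mem k (mem_univ p)
    rw [hm, pow_mul]
    exact Perm.pow_apply_eq_self_of_apply_eq_self (h2 p) m

theorem ins {σ : Perm Ω} (h : Odd (orderOf σ)) {b c d : Ω} (hb : σ b = b) (hc : σ c = c)
    (bc : b ≠ c) (db : d ≠ b) (dc : d ≠ c) : Odd (orderOf (swap c d * swap b c * σ)) := by
  set τ := swap c d * swap b c * σ with hτ
  have hfix : ∀ q, σ q ≠ b → σ q ≠ c → σ q ≠ d → τ q = σ q := fun q h1 h2 h3 => by
    simp [hτ, swap_apply_of_ne_of_ne h1 h2, swap_apply_of_ne_of_ne h2 h3]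
  have nb : ∀ (j : ℕ) p q, σ q = q → p ≠ q → (σ ^ j) p ≠ q := fun j p q hq hp h =>
    hp ((σ ^ j).injective (h.trans (Perm.pow_apply_eq_self_of_apply_eq_self hq j).symm))
  set m := Function.minimalPeriod σ d with hm
  have hper : Function.IsPeriodicPt σ (orderOf σ) d := by
    rw [Function.IsPeriodicPt, Function.IsFixedPt, ← Perm.coe_pow, pow_orderOf_eq_one]; rfl
  have hmo : Odd m := h.of_dvd_nat hper.minimalPeriod_dvd
  have hm0 : 0 < m := hmo.pos
  have hmd : (σ ^ m) d = d := Function.iterate_minimalPeriod (f := σ) (x := d)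
  have h1 : ∀ i < m, (τ ^ i) d = (σ ^ i) d := by
    intro i hi
    induction i with
    | zero => rfl
    | succ i ih =>
      rw [pow_succ', Perm.mul_apply, ih (by omega), pow_succ', Perm.mul_apply]
      have e : σ ((σ ^ i) d) = (σ ^ (i + 1)) d := by rw [pow_succ', Perm.mul_apply]
      refine hfix _ (e ▸ nb _ _ _ hb db) (e ▸ nb _ _ _ hc dc) (e ▸ fun h => ?_)
      exact Function.not_isPeriodicPt_of_pos_of_lt_minimalPeriod (Nat.succ_ne_zero i) hi h
  have h2 : (τ ^ m) d = c := by
    obtain ⟨i, hi⟩ : ∃ i, m = i + 1 := ⟨m - 1, by omega⟩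
    rw [hi, pow_succ', Perm.mul_apply] at hmd ⊢
    rw [h1 i (by omega)]
    simp [hτ, hmd, swap_apply_of_ne_of_ne db dc]
  have h3 : (τ ^ (m + 1)) d = b := by
    rw [pow_succ', Perm.mul_apply, h2]
    simp [hτ, hc, swap_apply_of_ne_of_ne bc db.symm]
  have h4 : (τ ^ (m + 2)) d = d := by
    rw [pow_succ', Perm.mul_apply, h3]
    simp [hτ, hb]
  have h5 : ∀ (i : ℕ) p, (τ ^ i) d = p → ∃ k, Odd k ∧ (τ ^ k) p = p := by
    rintro i _ rfl
    refine ⟨m + 2, hmo.add_even (by decide), ?_⟩
    rw [← Perm.mul_apply, ← pow_add, add_comm, pow_add, Perm.mul_apply, h4]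
  rw [odd_iff]
  intro p
  by_cases pb : p = b
  · exact h5 _ _ (h3.trans pb.symm)
  by_cases pc : p = c
  · exact h5 _ _ (h2.trans pc.symm)
  by_cases pd : ∃ j : ℕ, (σ ^ j) d = p
  · obtain ⟨j, rfl⟩ := pd
    refine h5 (j % m) _ ?_
    rw [h1 _ (Nat.mod_lt _ hm0)]
    exact Function.iterate_mod_minimalPeriod_eq (f := σ)
  have h6 : ∀ j : ℕ, (τ ^ j) p = (σ ^ j) p := by
    intro j
    induction j with
    | zero => rfl
    | succ i ih =>
      rw [pow_succ', Perm.mul_apply, ih, pow_succ', Perm.mul_apply]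
      have e : σ ((σ ^ i) p) = (σ ^ (i + 1)) p := by rw [pow_succ', Perm.mul_apply]
      refine hfix _ (e ▸ nb _ _ _ hb pb) (e ▸ nb _ _ _ hc pc) (e ▸ fun h => pd ?_)
      have : Perm.SameCycle σ d p := Perm.SameCycle.symm ⟨(i + 1 : ℕ), by rw [zpow_natCast]; exact h⟩
      obtain ⟨j, -, hj⟩ := this.exists_pow_eq'
      exact ⟨j, hj⟩
  exact ⟨orderOf σ, h, by rw [h6, pow_orderOf_eq_one]; rfl⟩

structure In (S : Finset Ω) (x : Perm Ω) : Prop where
  sq : ∀ p, x (x p) = p
  out : ∀ p, p ∉ S → x p = p

omit [Fintype Ω] [DecidableEq Ω] in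
theorem In.mem {S : Finset Ω} {x : Perm Ω} (h : In S x) {p : Ω} (hp : x p ≠ p) : p ∈ S := by
  by_contra hc; exact hp (h.out p hc)

theorem card_rm {x : Perm Ω} {b c : Ω} (h1 : x b = c) (h2 : x c = b) (bc : b ≠ c) :
    (x * swap b c).support.card + 2 = x.support.card := by
  have : x.support = insert b (insert c (x * swap b c).support) := by
    ext p
    simp only [Perm.mem_support, mem_insert, Perm.mul_apply, swap_apply_def]
    grind
  rw [this, card_insert_of_notMem, card_insert_of_notMem]
  · simp [h1]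
  · simp [h2, bc]

def Sol (S : Finset Ω) (x y : Perm Ω) : Prop :=
  ∃ z, In S z ∧ Odd (orderOf (x * z)) ∧ Odd (orderOf (y * z))

def Exc (S : Finset Ω) (x y : Perm Ω) : Prop :=
  S.card = 4 ∧ ∀ p ∈ S, x p ≠ p ∧ y p ≠ p ∧ x p ≠ y p

omit [Fintype Ω] [DecidableEq Ω] in
theorem Sol.symm {S : Finset Ω} {x y : Perm Ω} (h : Sol S x y) : Sol S y x :=
  let ⟨z, h1, h2, h3⟩ := h; ⟨z, h1, h3, h2⟩

omit [Fintype Ω] [DecidableEq Ω] in
theorem Exc.symm {S : Finset Ω} {x y : Perm Ω} (h : Exc S x y) : Exc S y x :=
  ⟨h.1, fun p hp => ⟨(h.2 p hp).2.1, (h.2 p hp).1, (h.2 p hp).2.2.symm⟩⟩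

def Four (x y : Perm Ω) : Prop := ∃ a, x a ≠ a ∧ y a ≠ a ∧ x a ≠ y a ∧ y (x a) = x (y a)

omit [Fintype Ω] in
theorem Exc.eq {S : Finset Ω} {x y : Perm Ω} (h : Exc S x y) (hx : In S x) (hy : In S y) {a : Ω}
    (ha : a ∈ S) : y (x a) = x (y a) ∧ ∀ p ∈ S, p = a ∨ p = x a ∨ p = y a ∨ p = x (y a) := by
  have m1 : x a ∈ S := hx.mem (by have := h.2 a ha; have := hx.sq a; grind)
  have m2 : y a ∈ S := hy.mem (by have := h.2 a ha; have := hy.sq a; grind)
  have m3 : x (y a) ∈ S := hx.mem (by have := h.2 _ m2; have := hx.sq (y a); grind)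
  have m4 : y (x a) ∈ S := hy.mem (by have := h.2 _ m1; have := hy.sq (x a); grind)
  have a1 := h.2 a ha
  have a2 := h.2 _ m1
  have a3 := h.2 _ m2
  have s1 := hx.sq a
  have s2 := hy.sq a
  have s3 := hx.sq (y a)
  have s4 := hy.sq (x a)
  have e : ({a, x a, y a, x (y a)} : Finset Ω) = S := by
    apply Finset.eq_of_subset_of_card_le
    · intro p hp
      simp only [mem_insert, mem_singleton] at hp
      rcases hp with rfl | rfl | rfl | rfl <;> assumption
    · rw [h.1, card_insert_of_notMem, card_insert_of_notMem, card_pair] <;> grind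
  have k : ∀ p ∈ S, p = a ∨ p = x a ∨ p = y a ∨ p = x (y a) := fun p hp => by
    rw [← e] at hp; simpa using hp
  have := k _ m4
  exact ⟨by grind, k⟩

omit [Fintype Ω] in
theorem Exc.four {S : Finset Ω} {x y x' y' : Perm Ω} (h : Exc S x' y') (hx : In S x') (hy : In S y')
    (e1 : ∀ p ∈ S, x' p = x p) (e2 : ∀ p ∈ S, y' p = y p) : Four x y := by
  obtain ⟨a, ha⟩ : S.Nonempty := by rw [← card_pos, h.1]; decide
  have m1 : x' a ∈ S := hx.mem (by have := h.2 a ha; have := hx.sq a; grind)
  have m2 : y' a ∈ S := hy.mem (by have := h.2 a ha; have := hy.sq a; grind)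
  have := (h.eq hx hy ha).1
  have := h.2 a ha
  have := e1 _ ha
  have := e2 _ ha
  have := e1 _ m2
  have := e2 _ m1
  exact ⟨a, by grind⟩

theorem direct {S : Finset Ω} {x y : Perm Ω} (f : Fin 8 → Ω) (hf : Function.Injective f)
    (hS : ∀ p, p ∈ S ↔ ∃ i, f i = p) (hx : In S x) (hy : In S y) (x0 y0 z0 : Perm (Fin 8))
    (e1 : ∀ i, x (f i) = f (x0 i)) (e2 : ∀ i, y (f i) = f (y0 i)) (h1 : z0 * z0 = 1)
    (h2 : (x0 * z0) ^ 3 = 1) (h3 : (y0 * z0) ^ 3 = 1) : Sol S x y := by
  let φ := Perm.viaEmbeddingHom (⟨f, hf⟩ : Fin 8 ↪ Ω)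
  have a1 : ∀ w i, φ w (f i) = f (w i) := fun w i => Perm.viaEmbedding_apply w ⟨f, hf⟩ i
  have a2 : ∀ w p, p ∉ S → φ w p = p := fun w p hp =>
    Perm.viaEmbedding_apply_of_notMem w ⟨f, hf⟩ p (fun h => hp ((hS p).2 h))
  have a3 : ∀ x x0, In S x → (∀ i, x (f i) = f (x0 i)) → x = φ x0 := by
    intro x x0 hx e
    ext p
    by_cases hp : p ∈ S
    · obtain ⟨i, rfl⟩ := (hS p).1 hp
      rw [e, a1]
    · rw [hx.out p hp, a2 _ p hp]
  rw [a3 x x0 hx e1, a3 y y0 hy e2]
  refine ⟨φ z0, ⟨fun p => ?_, a2 z0⟩, S3266.odd_of_pow (k := 3) (by decide) ?_,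
    S3266.odd_of_pow (k := 3) (by decide) ?_⟩
  · rw [← Perm.mul_apply, ← map_mul, h1, map_one]; rfl
  · rw [← map_mul, ← map_pow, h2, map_one]
  · rw [← map_mul, ← map_pow, h3, map_one]

theorem odd_comm {a b : Perm Ω} (h : Odd (orderOf (a * b))) : Odd (orderOf (b * a)) := by
  rwa [← SemiconjBy.orderOf_eq a (x := b * a) (y := a * b) (by simp [SemiconjBy, mul_assoc])] at h

theorem ins' {σ : Perm Ω} (h : Odd (orderOf σ)) {b c d : Ω} (hb : σ b = b) (hc : σ c = c)
    (bc : b ≠ c) (db : d ≠ b) (dc : d ≠ c) : Odd (orderOf (σ * (swap c d * swap b c))) :=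
  odd_comm (ins h hb hc bc db dc)

omit [Fintype Ω] in
theorem swid {k : ℕ} (f : Fin k → Ω) (hf : Function.Injective f) :
    ∃ φ : Perm (Fin k) →* Perm Ω, ∀ i j, φ (swap i j) = swap (f i) (f j) := by
  refine ⟨Perm.viaEmbeddingHom (⟨f, hf⟩ : Fin k ↪ Ω), fun i j => ?_⟩
  ext p
  by_cases hp : p ∈ Set.range f
  · obtain ⟨l, rfl⟩ := hp
    rw [hf.swap_apply]
    exact Perm.viaEmbedding_apply _ ⟨f, hf⟩ l
  · rw [swap_apply_of_ne_of_ne (fun h => hp ⟨i, h.symm⟩) (fun h => hp ⟨j, h.symm⟩)]
    exact Perm.viaEmbedding_apply_of_notMem _ ⟨f, hf⟩ p hp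

omit [Fintype Ω] in
theorem cswap {z : Perm Ω} {a b : Ω} (ha : z a = a) (hb : z b = b) : swap a b * z = z * swap a b := by
  rw [mul_swap_eq_swap_mul, ha, hb]

omit [Fintype Ω] in
theorem idA {a b c d u w : Ω} (n : [a, b, c, d, u, w].Nodup) :
    swap a b * swap c d * (swap u w * swap u a * swap w c * swap b d) =
      (swap d w * swap a d) * (swap b u * swap c b) := by
  obtain ⟨φ, h⟩ := swid ![a, b, c, d, u, w] (List.nodup_ofFn.1 n)
  have := congrArg φ (by decide : (swap 0 1 * swap 2 3 * (swap 4 5 * swap 4 0 * swap 5 2 * swap 1 3) : Perm (Fin 6)) =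
      (swap 3 5 * swap 0 3) * (swap 1 4 * swap 2 1))
  simp only [map_mul, h] at this
  exact this

omit [Fintype Ω] in
theorem idB {a b c d u : Ω} (n : [a, b, c, d, u].Nodup) :
    swap a b * swap c d * (swap u a * swap b d) = (swap b u * swap a b) * (swap c b * swap d c) := by
  obtain ⟨φ, h⟩ := swid ![a, b, c, d, u] (List.nodup_ofFn.1 n)
  have := congrArg φ (by decide : (swap 0 1 * swap 2 3 * (swap 4 0 * swap 1 3) : Perm (Fin 5)) =
      (swap 1 4 * swap 0 1) * (swap 2 1 * swap 3 2))
  simp only [map_mul, h] at this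
  exact this

omit [Fintype Ω] in
theorem idC {a b c d e f : Ω} (n : [a, b, c, d, e, f].Nodup) :
    swap a b * swap c d * swap e f * swap a f * (swap b c * swap d e) =
      swap b f * swap d b * (swap e a * swap c e) := by
  obtain ⟨φ, h⟩ := swid ![a, b, c, d, e, f] (List.nodup_ofFn.1 n)
  have := congrArg φ (by decide : (swap 0 1 * swap 2 3 * swap 4 5 * swap 0 5 * (swap 1 2 * swap 3 4) : Perm (Fin 6)) =
      swap 1 5 * swap 3 1 * (swap 4 0 * swap 2 4))
  simp only [map_mul, h] at this
  exact this

theorem absA {x x' z : Perm Ω} {a b c d u w : Ω} (n : [a, b, c, d, u, w].Nodup)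
    (hx : x = x' * (swap a b * swap c d)) (x1 : x' a = a) (x2 : x' b = b) (x3 : x' c = c) (x4 : x' d = d)
    (za : z a = a) (zb : z b = b) (zc : z c = c) (zd : z d = d) (h : Odd (orderOf (x' * z))) :
    Odd (orderOf (x * (z * (swap u w * swap u a * swap w c * swap b d)))) := by
  have e := idA n
  simp only [List.nodup_cons, List.mem_cons, not_or, List.not_mem_nil, not_false_eq_true,
    and_true, List.nodup_nil] at n
  have o1 := ins' h (b := a) (c := d) (d := w) (by simp [za, x1]) (by simp [zd, x4])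
    (by grind) (by grind) (by grind)
  have o2 := ins' o1 (b := c) (c := b) (d := u)
    (by simp only [Perm.mul_apply, swap_apply_def]; grind)
    (by simp only [Perm.mul_apply, swap_apply_def]; grind) (by grind) (by grind) (by grind)
  rwa [mul_assoc, ← e, ← mul_assoc, mul_assoc x', ← mul_assoc z, ← cswap za zb, mul_assoc _ z,
    ← cswap zc zd, ← mul_assoc (swap a b), ← mul_assoc x', ← hx, mul_assoc] at o2

theorem absB {x x' z : Perm Ω} {a b c d u : Ω} (n : [a, b, c, d, u].Nodup)
    (hx : x = x' * (swap a b * swap c d)) (x1 : x' a = a) (x2 : x' b = b) (x3 : x' c = c) (x4 : x' d = d)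
    (za : z a = a) (zb : z b = b) (zc : z c = c) (zd : z d = d) (h : Odd (orderOf (x' * z))) :
    Odd (orderOf (x * (z * (swap u a * swap b d)))) := by
  have e := idB n
  simp only [List.nodup_cons, List.mem_cons, not_or, List.not_mem_nil, not_false_eq_true,
    and_true, List.nodup_nil] at n
  have o1 := ins' h (b := a) (c := b) (d := u) (by simp [za, x1]) (by simp [zb, x2])
    (by grind) (by grind) (by grind)
  have o2 := ins' o1 (b := d) (c := c) (d := b)
    (by simp only [Perm.mul_apply, swap_apply_def]; grind)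
    (by simp only [Perm.mul_apply, swap_apply_def]; grind) (by grind) (by grind) (by grind)
  rwa [mul_assoc, ← e, ← mul_assoc, mul_assoc x', ← mul_assoc z, ← cswap za zb, mul_assoc _ z,
    ← cswap zc zd, ← mul_assoc (swap a b), ← mul_assoc x', ← hx, mul_assoc] at o2

abbrev IH (S : Finset Ω) : Prop := ∀ S' : Finset Ω, S'.card < S.card → ∀ x y, In S' x → In S' y →
  x.support.card = y.support.card → Sol S' x y ∨ Exc S' x y

theorem caseE {S : Finset Ω} {x y : Perm Ω} (ih : IH S) (hx : In S x) (hy : In S y)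
    (hc : x.support.card = y.support.card) (h4 : ¬ Four x y) {b c : Ω} (bc : b ≠ c) (h1 : x b = c)
    (h2 : y b = c) : Sol S x y := by
  have h1' : x c = b := h1 ▸ hx.sq b
  have h2' : y c = b := h2 ▸ hy.sq b
  have mb : b ∈ S := hx.mem (by grind)
  have mc : c ∈ S := hx.mem (by grind)
  have i1 : In (S \ {b, c}) (x * swap b c) := ⟨fun p => by
    have := hx.sq; simp only [Perm.mul_apply, swap_apply_def]; grind, fun p hp => by
    have := hx.out p; simp only [Perm.mul_apply, swap_apply_def]; grind⟩
  have i2 : In (S \ {b, c}) (y * swap b c) := ⟨fun p => by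
    have := hy.sq; simp only [Perm.mul_apply, swap_apply_def]; grind, fun p hp => by
    have := hy.out p; simp only [Perm.mul_apply, swap_apply_def]; grind⟩
  rcases ih (S \ {b, c}) (card_lt_card (sdiff_ssubset (by grind) (by simp))) _ _ i1 i2
    (by have := card_rm h1 h1' bc; have := card_rm h2 h2' bc; omega) with ⟨z, z1, z2, z3⟩ | h
  · have zb : z b = b := z1.out b (by simp)
    have zc : z c = c := z1.out c (by simp)
    refine ⟨swap b c * z, ⟨fun p => ?_, fun p hp => ?_⟩, by rwa [← mul_assoc], by rwa [← mul_assoc]⟩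
    · have := z1.sq; simp only [Perm.mul_apply, swap_apply_def]; grind
    · have := z1.out p; simp only [Perm.mul_apply, swap_apply_def]; grind
  · exact absurd (h.four i1 i2 (fun p hp => by simp only [Perm.mul_apply, swap_apply_def]; grind)
      (fun p hp => by simp only [Perm.mul_apply, swap_apply_def]; grind)) h4

theorem caseP {S : Finset Ω} {x y : Perm Ω} (ih : IH S) (hx : In S x) (hy : In S y)
    (hc : x.support.card = y.support.card) {b c d : Ω} (bc : b ≠ c) (cd : c ≠ d) (h0 : y b = b)
    (h1 : x b = c) (h2 : y c = d) : Sol S x y := by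
  have h1' : x c = b := h1 ▸ hx.sq b
  have h2' : y d = c := h2 ▸ hy.sq c
  have db : d ≠ b := by grind
  have mb : b ∈ S := hx.mem (by grind)
  have mc : c ∈ S := hx.mem (by grind)
  have md : d ∈ S := hy.mem (by grind)
  have i1 : In (S \ {b, c}) (x * swap b c) := ⟨fun p => by
    have := hx.sq; simp only [Perm.mul_apply, swap_apply_def]; grind, fun p hp => by
    have := hx.out p; simp only [Perm.mul_apply, swap_apply_def]; grind⟩
  have i2 : In (S \ {b, c}) (y * swap c d) := ⟨fun p => by
    have := hy.sq; simp only [Perm.mul_apply, swap_apply_def]; grind, fun p hp => by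
    have := hy.out p; simp only [Perm.mul_apply, swap_apply_def]; grind⟩
  rcases ih (S \ {b, c}) (card_lt_card (sdiff_ssubset (by grind) (by simp))) _ _ i1 i2
    (by have := card_rm h1 h1' bc; have := card_rm h2 h2' cd; omega) with ⟨z, z1, z2, z3⟩ | h
  · have zb : z b = b := z1.out b (by simp)
    have zc : z c = c := z1.out c (by simp)
    refine ⟨swap b c * z, ⟨fun p => ?_, fun p hp => ?_⟩, by rwa [← mul_assoc], ?_⟩
    · have := z1.sq; simp only [Perm.mul_apply, swap_apply_def]; grind
    · have := z1.out p; simp only [Perm.mul_apply, swap_apply_def]; grind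
    · have := ins z3 (b := b) (c := c) (d := d)
        (by simp only [Perm.mul_apply, swap_apply_def]; grind)
        (by simp only [Perm.mul_apply, swap_apply_def]; grind) bc db cd.symm
      convert this using 2
      ext p
      have := hy.sq
      simp only [Perm.mul_apply]
      generalize z p = q
      simp only [swap_apply_def]; grind
  · exact absurd (h.2 d (by grind)).2.1 (by simp [h2])

theorem caseT {S : Finset Ω} {x y : Perm Ω} (ih : IH S) (hx : In S x) (hy : In S y)
    (hc : x.support.card = y.support.card) (h4 : ¬ Four x y) {p q r s : Ω} (pq : p ≠ q) (rs : r ≠ s)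
    (h1 : x p = q) (h2 : y p = p) (h3 : y q = q) (k1 : y r = s) (k2 : x r = r) (k3 : x s = s) :
    Sol S x y := by
  have h1' : x q = p := h1 ▸ hx.sq p
  have k1' : y s = r := k1 ▸ hy.sq r
  have mp : p ∈ S := hx.mem (by grind)
  have mq : q ∈ S := hx.mem (by grind)
  have mr : r ∈ S := hy.mem (by grind)
  have ms : s ∈ S := hy.mem (by grind)
  have i1 : In (S \ {p, q, r, s}) (x * swap p q) := ⟨fun p => by
    have := hx.sq; simp only [Perm.mul_apply, swap_apply_def]; grind, fun p hp => by
    have := hx.out p; simp only [Perm.mul_apply, swap_apply_def]; grind⟩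
  have i2 : In (S \ {p, q, r, s}) (y * swap r s) := ⟨fun p => by
    have := hy.sq; simp only [Perm.mul_apply, swap_apply_def]; grind, fun p hp => by
    have := hy.out p; simp only [Perm.mul_apply, swap_apply_def]; grind⟩
  rcases ih (S \ {p, q, r, s}) (card_lt_card (sdiff_ssubset (by grind) (by simp))) _ _ i1 i2
    (by have := card_rm h1 h1' pq; have := card_rm k1 k1' rs; omega) with ⟨z, z1, z2, z3⟩ | h
  · have zp : z p = p := z1.out p (by simp)
    have zq : z q = q := z1.out q (by simp)
    have zr : z r = r := z1.out r (by simp)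
    have zs : z s = s := z1.out s (by simp)
    refine ⟨swap q r * z, ⟨fun p => ?_, fun p hp => ?_⟩, ?_, ?_⟩
    · have := z1.sq; simp only [Perm.mul_apply, swap_apply_def]; grind
    · have := z1.out p; simp only [Perm.mul_apply, swap_apply_def]; grind
    · have := ins z2 (b := r) (c := q) (d := p)
        (by simp only [Perm.mul_apply, swap_apply_def]; grind)
        (by simp only [Perm.mul_apply, swap_apply_def]; grind) (by grind) (by grind) pq
      convert this using 2
      ext u
      have := hx.sq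
      simp only [Perm.mul_apply]
      generalize z u = v
      simp only [swap_apply_def]; grind
    · have := ins z3 (b := q) (c := r) (d := s)
        (by simp only [Perm.mul_apply, swap_apply_def]; grind)
        (by simp only [Perm.mul_apply, swap_apply_def]; grind) (by grind) (by grind) rs.symm
      convert this using 2
      ext u
      have := hy.sq
      simp only [Perm.mul_apply]
      generalize z u = v
      simp only [swap_apply_def]; grind
  · exact absurd (h.four i1 i2 (fun p hp => by simp only [Perm.mul_apply, swap_apply_def]; grind)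
      (fun p hp => by simp only [Perm.mul_apply, swap_apply_def]; grind)) h4

theorem caseC {S : Finset Ω} {x y : Perm Ω} (ih : IH S) (hx : In S x) (hy : In S y)
    (hc : x.support.card = y.support.card) {a b c d e f : Ω} (n : [a, b, c, d, e, f].Nodup)
    (h1 : y a = b) (h2 : x b = c) (h3 : y c = d) (h4 : x d = e) (h5 : y e = f) : Sol S x y := by
  have n0 := n
  simp only [List.nodup_cons, List.mem_cons, not_or, List.not_mem_nil, not_false_eq_true,
    and_true, List.nodup_nil] at n
  obtain ⟨⟨ab, ac, ad, ae, af⟩, ⟨bc, bd, be, bf⟩, ⟨cd, ce, cf⟩, ⟨de, df⟩, ef⟩ := n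
  have h1' : y b = a := h1 ▸ hy.sq a
  have h2' : x c = b := h2 ▸ hx.sq b
  have h3' : y d = c := h3 ▸ hy.sq c
  have h4' : x e = d := h4 ▸ hx.sq d
  have h5' : y f = e := h5 ▸ hy.sq e
  have ma : a ∈ S := hy.mem (by grind)
  have mb : b ∈ S := hy.mem (by grind)
  have mc : c ∈ S := hy.mem (by grind)
  have md : d ∈ S := hy.mem (by grind)
  have me : e ∈ S := hy.mem (by grind)
  have mf : f ∈ S := hy.mem (by grind)
  obtain ⟨x', hx', x1, x2, x3, x4, x5⟩ : ∃ x' : Perm Ω, x'.support.card + 4 = x.support.card ∧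
      x' b = b ∧ x' c = c ∧ x' d = d ∧ x' e = e ∧ ∀ p, p = b ∨ p = c ∨ p = d ∨ p = e ∨ x' p = x p := by
    have c1 := card_rm h2 h2' bc
    have c2 := card_rm (x := x * swap b c) (b := d) (c := e)
      (by simp only [Perm.mul_apply, swap_apply_def]; grind)
      (by simp only [Perm.mul_apply, swap_apply_def]; grind) de
    refine ⟨x * swap b c * swap d e, by omega, ?_⟩
    simp only [Perm.mul_apply, swap_apply_def]; grind
  obtain ⟨y', hy', y1, y2, y3, y4, y5, y6, y7⟩ : ∃ y' : Perm Ω, y'.support.card + 4 = y.support.card ∧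
      y' b = b ∧ y' c = c ∧ y' d = d ∧ y' e = e ∧ y' a = f ∧ y' f = a ∧
      ∀ p, p = b ∨ p = c ∨ p = d ∨ p = e ∨ p = a ∨ p = f ∨ y' p = y p := by
    have c1 := card_rm h1 h1' ab
    have c2 := card_rm (x := y * swap a b) (b := c) (c := d)
      (by simp only [Perm.mul_apply, swap_apply_def]; grind)
      (by simp only [Perm.mul_apply, swap_apply_def]; grind) cd
    have c3 := card_rm (x := y * swap a b * swap c d) (b := e) (c := f)
      (by simp only [Perm.mul_apply, swap_apply_def]; grind)
      (by simp only [Perm.mul_apply, swap_apply_def]; grind) ef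
    have c4 := card_rm (x := y * swap a b * swap c d * swap e f * swap a f) (b := a) (c := f)
      (by simp only [Perm.mul_apply, swap_apply_def]; grind)
      (by simp only [Perm.mul_apply, swap_apply_def]; grind) af
    rw [mul_swap_mul_self] at c4
    refine ⟨y * swap a b * swap c d * swap e f * swap a f, by omega, ?_⟩
    simp only [Perm.mul_apply, swap_apply_def]; grind
  have i1 : In (S \ {b, c, d, e}) x' := ⟨fun p => by
    have := hx.sq p; have := x5 p; have := x5 (x p); grind, fun p hp => by
    have := hx.out p; have := x5 p; grind⟩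
  have i2 : In (S \ {b, c, d, e}) y' := ⟨fun p => by
    have := hy.sq p
    have := y7 (y p)
    rcases y7 p with h | h | h | h | h | h | h <;> grind, fun p hp => by
    have := hy.out p; have := y7 p; grind⟩
  rcases ih (S \ {b, c, d, e}) (card_lt_card (sdiff_ssubset (by grind) (by simp))) _ _ i1 i2
    (by omega) with ⟨z, z1, z2, z3⟩ | h
  · have zb : z b = b := z1.out b (by simp)
    have zc : z c = c := z1.out c (by simp)
    have zd : z d = d := z1.out d (by simp)
    have ze : z e = e := z1.out e (by simp)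
    refine ⟨swap b c * swap d e * z, ⟨fun p => ?_, fun p hp => ?_⟩, ?_, ?_⟩
    · have := z1.sq; simp only [Perm.mul_apply, swap_apply_def]; grind
    · have := z1.out p; simp only [Perm.mul_apply, swap_apply_def]; grind
    · convert z2 using 2
      ext u
      simp only [Perm.mul_apply]
      generalize z u = v
      have := x5 v
      simp only [swap_apply_def]; grind
    · have o1 := ins z3 (b := c) (c := e) (d := a) (by simp [zc, y2]) (by simp [ze, y4]) ce ac ae
      have o2 := ins o1 (b := d) (c := b) (d := f)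
        (by simp only [Perm.mul_apply, swap_apply_def, zd, y3]; grind)
        (by simp only [Perm.mul_apply, swap_apply_def, zb, y1]; grind) (Ne.symm bd) (Ne.symm df) (Ne.symm bf)
      have e1 : y = swap a b * swap c d * swap e f * swap a f * y' := by
        ext v
        have := hy.sq v
        rcases y7 v with h | h | h | h | h | h | h
        iterate 6 (subst h; simp only [Perm.mul_apply, swap_apply_def]; grind)
        have t : ∀ p q, y q = p → q ≠ v → y v ≠ p := fun p q h1 h2 h3 => h2 (y.injective (h1.trans h3.symm))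
        by_cases c1 : v = a ∨ v = b ∨ v = c ∨ v = d ∨ v = e ∨ v = f
        · rcases c1 with h | h | h | h | h | h <;> subst h <;>
            simp only [Perm.mul_apply, swap_apply_def] <;> grind
        · have := t _ _ h1
          have := t _ _ h1'
          have := t _ _ h3
          have := t _ _ h3'
          have := t _ _ h5
          have := t _ _ h5'
          simp only [Perm.mul_apply, swap_apply_def]; grind
      rwa [← mul_assoc, ← idC n0, mul_assoc _ (swap b c * swap d e), mul_assoc (swap b c), ← mul_assoc (swap d e),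
        cswap y3 y4, ← mul_assoc (swap b c), ← mul_assoc (swap b c), cswap y1 y2, mul_assoc y',
        mul_assoc y', ← mul_assoc, ← e1] at o2
  · have ma' : a ∈ S \ {b, c, d, e} := by grind
    obtain ⟨k1, k2⟩ := h.eq i1 i2 ma'
    have k3 := h.2 a ma'
    have k4 := h.2 f (by grind)
    have s1 := i1.sq a
    have s2 := i1.sq f
    have s3 := i2.sq (x' a)
    have m1 : x' a ∈ S \ {b, c, d, e} := i1.mem (by grind)
    have m2 : x' f ∈ S \ {b, c, d, e} := i1.mem (by grind)
    rw [y5] at k1 k2
    generalize hg : x' a = g at *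
    generalize hh : x' f = k at *
    have t1 := x5 a
    have t2 := x5 f
    have t3 := x5 g
    have t4 := x5 k
    have t5 := y7 g
    have t6 := y7 k
    refine direct ![a, b, c, d, e, f, k, g] ?_ ?_ hx hy
      (swap 1 2 * swap 3 4 * swap 5 6 * swap 7 0) (swap 0 1 * swap 2 3 * swap 4 5 * swap 6 7)
      (swap 2 3 * swap 4 6 * swap 5 1 * swap 7 0) ?_ ?_ (by decide) (by decide) (by decide)
    · rw [← List.nodup_ofFn]
      simp
      grind
    · intro p
      have := k2 p
      simp [Fin.exists_fin_succ]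
      grind
    · simp [Fin.forall_fin_succ, swap_apply_def]
      grind
    · simp [Fin.forall_fin_succ, swap_apply_def]
      grind

theorem caseA {S : Finset Ω} {x y : Perm Ω} (ih : IH S) (hx : In S x) (hy : In S y)
    (hc : x.support.card = y.support.card) (h4 : Four x y) : Sol S x y ∨ Exc S x y := by
  obtain ⟨a, n1, n2, n3, n4⟩ := h4
  obtain ⟨b, h1⟩ : ∃ b, x a = b := ⟨_, rfl⟩
  obtain ⟨d, h4'⟩ : ∃ b, y a = b := ⟨_, rfl⟩
  obtain ⟨c, h3'⟩ : ∃ b, x d = b := ⟨_, rfl⟩
  have h2 : y b = c := by grind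
  have h1' : x b = a := h1 ▸ hx.sq a
  have h2' : y c = b := h2 ▸ hy.sq b
  have h3 : x c = d := h3' ▸ hx.sq d
  have h4 : y d = a := h4' ▸ hy.sq a
  have ab : a ≠ b := by grind
  have ad : a ≠ d := by grind
  have bd : b ≠ d := by grind
  have ac : a ≠ c := by grind
  have bc : b ≠ c := by grind
  have cd : c ≠ d := by grind
  have ma : a ∈ S := hy.mem (by grind)
  have mb : b ∈ S := hy.mem (by grind)
  have mc : c ∈ S := hy.mem (by grind)
  have md : d ∈ S := hy.mem (by grind)
  obtain ⟨x', hx', x1, x2, x3, x4, x5⟩ : ∃ x' : Perm Ω, x'.support.card + 4 = x.support.card ∧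
      x' a = a ∧ x' b = b ∧ x' c = c ∧ x' d = d ∧ ∀ p, p = a ∨ p = b ∨ p = c ∨ p = d ∨ x' p = x p := by
    have c1 := card_rm h1 h1' ab
    have c2 := card_rm (x := x * swap a b) (b := c) (c := d)
      (by simp only [Perm.mul_apply, swap_apply_def]; grind)
      (by simp only [Perm.mul_apply, swap_apply_def]; grind) cd
    refine ⟨x * swap a b * swap c d, by omega, ?_⟩
    simp only [Perm.mul_apply, swap_apply_def]; grind
  obtain ⟨y', hy', y1, y2, y3, y4, y5⟩ : ∃ x' : Perm Ω, x'.support.card + 4 = y.support.card ∧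
      x' a = a ∧ x' b = b ∧ x' c = c ∧ x' d = d ∧ ∀ p, p = a ∨ p = b ∨ p = c ∨ p = d ∨ x' p = y p := by
    have c1 := card_rm h2 h2' bc
    have c2 := card_rm (x := y * swap b c) (b := d) (c := a)
      (by simp only [Perm.mul_apply, swap_apply_def]; grind)
      (by simp only [Perm.mul_apply, swap_apply_def]; grind) ad.symm
    refine ⟨y * swap b c * swap d a, by omega, ?_⟩
    simp only [Perm.mul_apply, swap_apply_def]; grind
  have i1 : In (S \ {a, b, c, d}) x' := ⟨fun p => by
    have := hx.sq p; have := x5 p; have := x5 (x p); grind, fun p hp => by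
    have := hx.out p; have := x5 p; grind⟩
  have i2 : In (S \ {a, b, c, d}) y' := ⟨fun p => by
    have := hy.sq p; have := y5 p; have := y5 (y p); grind, fun p hp => by
    have := hy.out p; have := y5 p; grind⟩
  rcases (S \ {a, b, c, d}).eq_empty_or_nonempty with hS | ⟨u, hu⟩
  · right
    have e : S = {a, b, c, d} := by
      rw [sdiff_eq_empty_iff_subset] at hS
      exact hS.antisymm (by grind)
    refine ⟨by rw [e, card_insert_of_notMem, card_insert_of_notMem, card_pair] <;> grind, ?_⟩
    intro p hp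
    rw [e] at hp
    simp only [mem_insert, mem_singleton] at hp
    rcases hp with h | h | h | h <;> subst h <;> grind
  left
  rcases ih (S \ {a, b, c, d}) (card_lt_card (sdiff_ssubset (by grind) (by simp))) _ _ i1 i2
    (by omega) with ⟨z, z1, z2, z3⟩ | h
  · have za : z a = a := z1.out a (by simp)
    have zb : z b = b := z1.out b (by simp)
    have zc : z c = c := z1.out c (by simp)
    have zd : z d = d := z1.out d (by simp)
    obtain ⟨w, hw⟩ : ∃ w, z u = w := ⟨_, rfl⟩
    have hw' : z w = u := hw ▸ z1.sq u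
    simp only [mem_sdiff, mem_insert, mem_singleton, not_or] at hu
    obtain ⟨mu, ua, ub, uc, ud⟩ := hu
    have ex : x = x' * (swap a b * swap c d) := by
      ext p
      by_cases c1 : p = a ∨ p = b ∨ p = c ∨ p = d
      · rcases c1 with h | h | h | h <;> subst h <;>
          simp only [Perm.mul_apply, swap_apply_def] <;> grind
      · have := x5 p
        simp only [Perm.mul_apply, swap_apply_def]; grind
    have ey : y = y' * (swap a d * swap c b) := by
      ext p
      by_cases c1 : p = a ∨ p = b ∨ p = c ∨ p = d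
      · rcases c1 with h | h | h | h <;> subst h <;>
          simp only [Perm.mul_apply, swap_apply_def] <;> grind
      · have := y5 p
        simp only [Perm.mul_apply, swap_apply_def]; grind
    by_cases uw : u = w
    · subst uw
      refine ⟨z * (swap u a * swap b d), ⟨fun p => ?_, fun p hp => ?_⟩, ?_, ?_⟩
      · have := z1.sq; simp only [Perm.mul_apply, swap_apply_def]; grind
      · have := z1.out p; simp only [Perm.mul_apply, swap_apply_def]; grind
      · exact absB (by simp; grind) ex x1 x2 x3 x4 za zb zc zd z2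
      · rw [swap_comm b d]
        exact absB (by simp; grind) ey y1 y4 y3 y2 za zd zc zb z3
    · have mw : w ∈ S \ {a, b, c, d} := z1.mem (by grind)
      simp only [mem_sdiff, mem_insert, mem_singleton, not_or] at mw
      obtain ⟨mw, wa, wb, wc, wd⟩ := mw
      refine ⟨z * (swap u w * swap u a * swap w c * swap b d), ⟨fun p => ?_, fun p hp => ?_⟩, ?_, ?_⟩
      · have := z1.sq p
        by_cases c1 : p = a ∨ p = b ∨ p = c ∨ p = d ∨ p = u ∨ p = w
        · rcases c1 with h | h | h | h | h | h <;> subst h <;>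
            simp only [Perm.mul_apply, swap_apply_def] <;> grind
        · have t : ∀ r q, z q = r → q ≠ p → z p ≠ r := fun r q h1 h2 h3 => h2 (z.injective (h1.trans h3.symm))
          have := t _ _ za
          have := t _ _ zb
          have := t _ _ zc
          have := t _ _ zd
          have := t _ _ hw
          have := t _ _ hw'
          simp only [Perm.mul_apply, swap_apply_def]; grind
      · have := z1.out p; simp only [Perm.mul_apply, swap_apply_def]; grind
      · exact absA (by simp; grind) ex x1 x2 x3 x4 za zb zc zd z2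
      · rw [swap_comm b d]
        exact absA (by simp; grind) ey y1 y4 y3 y2 za zd zc zb z3
  · obtain ⟨k1, k2⟩ := h.eq i1 i2 hu
    have k3 := h.2 u hu
    have s1 := i1.sq u
    have s2 := i2.sq u
    have s3 := i2.sq (x' u)
    have s4 := i1.sq (y' u)
    have m1 : x' u ∈ S \ {a, b, c, d} := i1.mem (by grind)
    have m2 : y' u ∈ S \ {a, b, c, d} := i2.mem (by grind)
    have k4 := h.2 _ m2
    have m3 : x' (y' u) ∈ S \ {a, b, c, d} := i1.mem (by grind)
    generalize hg : x' u = g at *
    generalize hk : y' u = k at *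
    generalize hh : x' k = l at *
    have t1 := x5 u
    have t2 := x5 g
    have t3 := x5 k
    have t4 := x5 l
    have t5 := y5 u
    have t6 := y5 g
    have t7 := y5 k
    have t8 := y5 l
    refine direct ![a, b, c, d, u, g, l, k] ?_ ?_ hx hy
      (swap 0 1 * swap 2 3 * swap 4 5 * swap 6 7) (swap 1 2 * swap 3 0 * swap 5 6 * swap 7 4)
      (swap 0 1 * swap 5 6 * swap 2 4 * swap 3 7) ?_ ?_ (by decide) (by decide) (by decide)
    · rw [← List.nodup_ofFn]
      simp
      grind
    · intro p
      have := k2 p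
      simp [Fin.exists_fin_succ]
      grind
    · simp [Fin.forall_fin_succ, swap_apply_def]
      grind
    · simp [Fin.forall_fin_succ, swap_apply_def]
      grind

theorem isolated {S : Finset Ω} {x y : Perm Ω} (ih : IH S) (hx : In S x) (hy : In S y)
    (hc : x.support.card = y.support.card) (h4 : ¬ Four x y) (hn : ¬ Sol S x y) {c : Ω}
    (h : x c ≠ c) : y c = c := by
  by_contra h'
  have s1 := hx.sq c
  have s2 := hy.sq c
  have s3 := hx.sq (y c)
  have s4 := hy.sq (x c)
  have s5 := hy.sq (x (y c))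
  have n1 : y (x c) ≠ x c := fun e => hn (caseP ih hx hy hc h (Ne.symm h') e s1 rfl)
  have n2 : x c ≠ y c := fun e => hn (caseE ih hx hy hc h4 h.symm rfl e.symm)
  have n3 : x (y c) ≠ y c := fun e => hn (caseP ih hy hx hc.symm h' (Ne.symm h) e s2 rfl).symm
  have n4 : y (x (y c)) ≠ x (y c) := fun e => hn (caseP ih hx hy hc n3 h' e s3 s2)
  have n5 : y (x c) ≠ x (y c) := fun e => h4 ⟨c, h, h', n2, e⟩
  refine hn (caseC ih hx hy hc (a := y (x c)) (b := x c) (c := c) (d := y c) (e := x (y c))
    (f := y (x (y c))) ?_ s4 s1 rfl rfl rfl)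
  simp only [List.nodup_cons, List.mem_cons, not_or, List.not_mem_nil, not_false_eq_true,
    and_true, List.nodup_nil]
  grind

theorem main (S : Finset Ω) : ∀ x y, In S x → In S y → x.support.card = y.support.card →
    Sol S x y ∨ Exc S x y := by
  induction hn : S.card using Nat.strong_induction_on generalizing S with
  | _ n ih0 =>
  have ih : IH S := fun S' h => ih0 _ (hn ▸ h) S' rfl
  intro x y hx hy hc
  by_cases h4 : Four x y
  · exact caseA ih hx hy hc h4
  left
  by_contra hs
  have h4' : ¬ Four y x := fun ⟨a, h1, h2, h3, h5⟩ => h4 ⟨a, h2, h1, h3.symm, h5.symm⟩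
  rcases x.support.eq_empty_or_nonempty with h | ⟨p, hp⟩
  · have hx1 : x = 1 := Perm.support_eq_empty_iff.1 h
    have hy1 : y = 1 := by
      rw [h, card_empty] at hc
      exact Perm.card_support_eq_zero.1 hc.symm
    exact hs ⟨1, ⟨fun _ => rfl, fun _ _ => rfl⟩, by simp [hx1], by simp [hy1]⟩
  obtain ⟨r, hr⟩ : y.support.Nonempty := by
    rw [← card_pos, ← hc, card_pos]; exact ⟨p, hp⟩
  rw [Perm.mem_support] at hp hr
  have i1 := fun c => isolated ih hx hy hc h4 hs (c := c)
  have i2 := fun c => isolated ih hy hx hc.symm h4' (fun h => hs h.symm) (c := c)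
  exact hs (caseT ih hx hy hc h4 hp.symm hr.symm rfl (i1 p hp) (i1 _ (by rw [hx.sq]; exact hp.symm))
    rfl (i2 r hr) (i2 _ (by rw [hy.sq]; exact hr.symm)))

theorem nonadj (h5 : 5 ≤ Fintype.card Ω) {t : Perm Ω} (ht : ∀ p, t (t p) = p) (h1 : t ≠ 1) :
    ∃ g : Perm Ω, t * (g * t * g⁻¹) ≠ 1 ∧ (t * (g * t * g⁻¹)) ^ 2 = 1 := by
  obtain ⟨a, ha⟩ : ∃ a, t a ≠ a := by
    by_contra hc
    push Not at hc
    exact h1 (Equiv.ext hc)
  have sa := ht a
  by_cases h : ∃ c, c ≠ a ∧ c ≠ t a ∧ t c ≠ c
  · obtain ⟨c, c1, c2, c3⟩ := h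
    have sc := ht c
    refine ⟨swap (t a) c, fun e => ?_, ?_⟩
    · have := congrArg (fun g : Perm Ω => g a) e
      simp only [Perm.mul_apply, swap_inv, swap_apply_def, Perm.one_apply] at this
      grind
    · ext p
      have := ht p
      have := ht (t p)
      simp only [pow_two, Perm.mul_apply, swap_inv, swap_apply_def, Perm.one_apply]
      grind
  · push Not at h
    obtain ⟨c, -, hc⟩ := Finset.exists_mem_notMem_of_card_lt_card (s := {a, t a})
      (t := Finset.univ) (Finset.card_le_two.trans_lt (by simp; omega))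
    obtain ⟨d, -, hd⟩ := Finset.exists_mem_notMem_of_card_lt_card (s := {a, t a, c})
      (t := Finset.univ) (Finset.card_le_three.trans_lt (by simp; omega))
    simp only [Finset.mem_insert, Finset.mem_singleton, not_or] at hc hd
    have sc := h c
    have sd := h d
    refine ⟨swap (t a) d * swap a c, fun e => ?_, ?_⟩
    · have := congrArg (fun g : Perm Ω => g a) e
      simp only [Perm.mul_apply, mul_inv_rev, swap_inv, swap_apply_def, Perm.one_apply] at this
      grind
    · ext p
      have := h p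
      by_cases c1 : p = a ∨ p = t a ∨ p = c ∨ p = d
      · rcases c1 with h | h | h | h <;> subst h <;>
        simp only [pow_two, Perm.mul_apply, mul_inv_rev, swap_inv, swap_apply_def, Perm.one_apply] <;>
        grind
      · simp only [pow_two, Perm.mul_apply, mul_inv_rev, swap_inv, swap_apply_def, Perm.one_apply]
        grind
end

/-- Let n ≥ 5 and let X be a conjugacy class of involutions of the symmetric group of degree n. The graph on X joining two distinct involutions whose product has odd order is connected and has diameter exactly 2. -/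
theorem result (n : ℕ) (hn : 5 ≤ n) (t : Equiv.Perm (Fin n)) (ht : orderOf t = 2) :
    (SimpleGraph.fromRel fun x y : {x : Equiv.Perm (Fin n) // IsConj t x} =>
        Odd (orderOf (x.1 * y.1))).Connected ∧
      (SimpleGraph.fromRel fun x y : {x : Equiv.Perm (Fin n) // IsConj t x} =>
        Odd (orderOf (x.1 * y.1))).diam = 2 := by
  have sq : ∀ x : Equiv.Perm (Fin n), IsConj t x → x * x = 1 := fun x hx =>
    S3266.sq_one (by rw [← S3266.ord_conj hx, ht])
  have hin : ∀ x : Equiv.Perm (Fin n), IsConj t x → In Finset.univ x := fun x hx =>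
    ⟨fun p => by rw [← Equiv.Perm.mul_apply, sq x hx]; rfl, by simp⟩
  refine S3266.lfg t (fun x y hx hy => ?_) ?_
  · rcases main Finset.univ x y (hin x hx) (hin y hy)
      (by obtain ⟨c, rfl⟩ := isConj_iff.1 (hx.symm.trans hy); rw [Equiv.Perm.card_support_conj]) with ⟨z, z1, z2, z3⟩ | h
    · exact ⟨z, hx.trans (H20.isConj_of_odd_orderOf_mul (sq x hx) (Equiv.ext z1.sq) z2), z2, z3⟩
    · have := h.1
      simp at this
      omega
  · obtain ⟨g, h1, h2⟩ := nonadj (by simpa using hn) (hin t (IsConj.refl t)).sq (by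
      rintro rfl
      simp at ht)
    haveI := Nat.fact_prime_two
    refine ⟨t, g * t * g⁻¹, IsConj.refl t, isConj_iff.2 ⟨g, rfl⟩, fun e => h1 ?_, orderOf_eq_prime h2 h1⟩
    rw [← e, sq t (IsConj.refl t)]

end Cfsg.Agent.S3265
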