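import Cfsg.Statements.S3269
import Mathlib
import Cfsg.Agent.H8.ZStar2
import Cfsg.Agent.H4.Small
import Cfsg.Agent.H1.Coprime

set_option autoImplicit false
open Cfsg

namespace Cfsg.Agent.S3269

/-- Let G be a finite group whose Sylow 2-subgroup S is an internal direct product Q × R with Q generalized quaternion (of order at least 8) and R a subgroup all of whose involutions are central in R. Then G is not simple. In particular no finite simple group has a Sylow 2-subgroup that is a direct product of one or more generalized quaternion groups. -/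
theorem result {G : Type*} [Group G] [Finite G]
    (S : Sylow 2 G) (Q R : Subgroup G) (hQR : Cfsg.IsInternalDirectProduct Q R (S : Subgroup G))
    (n : ℕ) (hn : 1 ≤ n) (eQ : ↥Q ≃* QuaternionGroup (2 ^ n))
    (hR : ∀ r ∈ R, orderOf r = 2 → ∀ s ∈ R, r * s = s * r) :
    ¬ IsSimpleGroup G := by
  classical
  intro hG
  obtain ⟨hQ, hRS, hc, hinf, hsup⟩ := hQR
  obtain ⟨x, y, h⟩ := H6.exists_quatData eQ
  have hn0 : 2 ^ n ≠ 0 := by positivity
  set z := x ^ 2 ^ n with hz
  have hzz : z * z = 1 := h.pow_m_mul_self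
  have hz1 : z ≠ 1 := fun e => by
    have := Nat.le_of_dvd (by positivity) (orderOf_dvd_of_pow_eq_one e)
    rw [h.ord] at this
    omega
  have hzQ : z ∈ Q := pow_mem h.x_mem _
  have hdec : ∀ s ∈ (S : Subgroup G), ∃ q ∈ Q, ∃ r ∈ R, s = q * r := fun s hs =>
    (H1.mem_sup_iff_of_le_normalizer (H4.le_normalizer_of_forall_conj_mem fun r hr q hq => by
      rwa [← hc q hq r hr, mul_inv_cancel_right])).1 (hsup.ge hs)
  have hbot : ∀ a ∈ Q, a ∈ R → a = 1 := fun a h1 h2 => hinf.le ⟨h1, h2⟩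
  have hcen : ∀ s ∈ (S : Subgroup G), s * s = 1 →
      s ∈ Subgroup.centralizer ((S : Subgroup G) : Set G) := by
    intro s hs hss t ht
    obtain ⟨q, hq, r, hr, rfl⟩ := hdec s hs
    obtain ⟨q', hq', r', hr', rfl⟩ := hdec t ht
    rw [(Commute.symm (hc q hq r hr)).mul_mul_mul_comm] at hss
    have h1 : q * q = 1 := hbot _ (mul_mem hq hq) (by
      rw [eq_inv_of_mul_eq_one_left hss]; exact inv_mem (mul_mem hr hr))
    rw [h1, one_mul] at hss
    have h2 : Commute q q' := by
      rcases h.eq_of_mul_self hn0 hq h1 with rfl | rfl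
      · exact Commute.one_left _
      · refine (H20.commute_iff_conj.2 ((h.eq_of_mul_self hn0 (mul_mem (mul_mem hq' hq) (inv_mem hq'))
          (by rw [conj_mul, h1]; simp)).resolve_left (by simpa using hz1))).symm
    have h3 : Commute r r' := by
      by_cases hr1 : r = 1
      · rw [hr1]; exact Commute.one_left _
      · exact hR r hr (H20.orderOf_two_of hss hr1) r' hr'
    exact ((h2.mul_right (hc q hq r' hr')).mul_left
      ((Commute.symm (hc q' hq' r hr)).mul_right h3)).symm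
  have hN : ∀ {k s : G}, k ∈ Subgroup.normalizer ((S : Subgroup G) : Set G) →
      s ∈ (S : Subgroup G) → k * s * k⁻¹ ∈ (S : Subgroup G) :=
    fun hk hs => (Subgroup.mem_normalizer_iff.1 hk _).1 hs
  have horb : ∀ k ∈ Subgroup.normalizer ((S : Subgroup G) : Set G),
      k * z * k⁻¹ = z ∨ k * z * k⁻¹ ∈ R := by
    intro k hk
    refine or_iff_not_imp_right.2 fun hkR => ?_
    have h1 : ∀ a ∈ Q, k * a * k⁻¹ ∈ R → a = 1 := fun a ha h2 => by_contra fun hne => by
      have := H8.mem_zpowers_of_mul_self (S.2.to_le hQ) (fun s t hs ht => Subtype.ext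
        (((h.eq_of_mul_self hn0 s.2 (congrArg Subtype.val (H20.mul_self_of_orderOf_two hs))).resolve_left
          (by simpa using H20.ne_one_of_orderOf_two hs)).trans
        ((h.eq_of_mul_self hn0 t.2 (congrArg Subtype.val (H20.mul_self_of_orderOf_two ht))).resolve_left
          (by simpa using H20.ne_one_of_orderOf_two ht)).symm)) (c := ⟨a, ha⟩) (t := ⟨z, hzQ⟩)
          (by simpa using hne) (Subtype.ext hzz)
      obtain ⟨j, hj⟩ := this
      have hj' : a ^ j = z := congrArg Subtype.val hj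
      exact hkR (by rw [← hj', ← conj_zpow]; exact zpow_mem h2 j)
    have h2 : ∀ a ∈ Q, ∀ r ∈ R, Commute (k * a * k⁻¹) r := fun a ha r hr => by
      obtain ⟨q, hq, r', hr', e⟩ := hdec _ (hN (inv_mem hk) (hRS hr))
      obtain ⟨q₁, hq₁, r₁, hr₁, e₁⟩ := hdec _ (hN hk (hQ ha))
      have h3 := h1 (a * (q * a⁻¹ * q⁻¹)) (mul_mem ha (mul_mem (mul_mem hq (inv_mem ha)) (inv_mem hq))) (by
        have : k * (a * (q * a⁻¹ * q⁻¹)) * k⁻¹ = (k * a * k⁻¹) * r * (k * a * k⁻¹)⁻¹ * r⁻¹ := by
          have h4 : r' * a⁻¹ * r'⁻¹ = a⁻¹ := by rw [← hc _ (inv_mem ha) r' hr', mul_inv_cancel_right]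
          calc _ = k * (a * (q * (r' * a⁻¹ * r'⁻¹) * q⁻¹)) * k⁻¹ := by rw [h4]
            _ = k * (a * ((q * r') * a⁻¹ * (q * r')⁻¹)) * k⁻¹ := by group
            _ = _ := by rw [← e]; group
        rw [this, e₁]
        have h5 : q₁ * (r₁ * r * r₁⁻¹) * q₁⁻¹ = r₁ * r * r₁⁻¹ := by
          rw [hc _ hq₁ _ (mul_mem (mul_mem hr₁ hr) (inv_mem hr₁)), mul_inv_cancel_right]
        rw [show q₁ * r₁ * r * (q₁ * r₁)⁻¹ = q₁ * (r₁ * r * r₁⁻¹) * q₁⁻¹ by group, h5]
        exact mul_mem (mul_mem (mul_mem hr₁ hr) (inv_mem hr₁)) (inv_mem hr))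
      have h6 : Commute a (q * r') := (show Commute a q from by
        rw [← mul_assoc, ← mul_assoc] at h3
        exact commutatorElement_eq_one_iff_commute.1 h3).mul_right (hc a ha r' hr')
      have := (H20.commute_conj_iff (g := k)).2 (e ▸ h6)
      simpa [mul_assoc] using this
    have h3 : ⁅Q, Q⁆ ≤ Q.comap (MulAut.conj k).toMonoidHom := Subgroup.commutator_le.2 fun a ha b hb => by
      change k * (a * b * a⁻¹ * b⁻¹) * k⁻¹ ∈ Q
      obtain ⟨q, hq, r, hr, e⟩ := hdec _ (hN hk (hQ ha))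
      obtain ⟨q', hq', r', hr', e'⟩ := hdec _ (hN hk (hQ hb))
      have c1 := h2 b hb r hr
      have c2 := h2 a ha r' hr'
      have c3 : Commute q r' := hc q hq r' hr'
      rw [show k * (a * b * a⁻¹ * b⁻¹) * k⁻¹ =
        k * a * k⁻¹ * (k * b * k⁻¹) * (k * a * k⁻¹)⁻¹ * (k * b * k⁻¹)⁻¹ by group, e,
        show q * r * (k * b * k⁻¹) * (q * r)⁻¹ = q * (r * (k * b * k⁻¹) * r⁻¹) * q⁻¹ by group,
        ← c1.eq, mul_inv_cancel_right, e',
        show q * (q' * r') * q⁻¹ * (q' * r')⁻¹ = q * q' * (r' * q⁻¹ * r'⁻¹) * q'⁻¹ by group,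
        ← c3.inv_left.eq, mul_inv_cancel_right]
      exact mul_mem (mul_mem (mul_mem hq hq') (inv_mem hq)) (inv_mem hq')
    have h4 : k * z * k⁻¹ ∈ Q := h3 (h.commutator_eq.ge ⟨(2 ^ (n - 1) : ℕ), by
      simp only [zpow_natCast, ← pow_mul, hz]
      rw [← pow_succ', Nat.sub_add_cancel hn]⟩)
    exact (h.eq_of_mul_self hn0 h4 (by rw [conj_mul, hzz]; simp)).resolve_left (by simpa using hz1)
  let C := (S : Subgroup G) ⊓ Subgroup.centralizer ((S : Subgroup G) : Set G)
  letI : CommGroup C := { mul_comm := fun a b => Subtype.ext (b.2.2 a a.2.1) }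
  have := Fintype.ofFinite C
  let O : Finset C := Finset.univ.filter fun a =>
    ∃ k ∈ Subgroup.normalizer ((S : Subgroup G) : Set G), k * z * k⁻¹ = a
  let z' : C := ⟨z, hQ hzQ, hcen z (hQ hzQ) hzz⟩
  have hz' : z' ∈ O := by simpa [O] using ⟨1, one_mem _, by simp [z']⟩
  let w : C := ∏ a ∈ O, a
  have hw2 : orderOf (w : G) = 2 := by
    refine H20.orderOf_two_of ?_ fun e => hz1 (hbot z hzQ ?_)
    · rw [← Subgroup.coe_mul, ← Finset.prod_mul_distrib, Finset.prod_eq_one, Subgroup.coe_one]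
      intro a ha
      obtain ⟨k, -, e⟩ := (Finset.mem_filter.1 ha).2
      exact Subtype.ext (by rw [Subgroup.coe_mul, ← e, conj_mul, hzz]; simp)
    · have h1 : z' * ∏ a ∈ O.erase z', a = 1 := (Finset.mul_prod_erase O id hz').trans (Subtype.ext e)
      have h2 : (∏ a ∈ O.erase z', a) ∈ R.subgroupOf C := prod_mem fun a ha => by
        obtain ⟨k, hk, e⟩ := (Finset.mem_filter.1 (Finset.mem_of_mem_erase ha)).2
        exact (horb k hk).elim (fun e' => (Finset.ne_of_mem_erase ha (Subtype.ext (e.symm.trans e'))).elim)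
          fun e' => show (a : G) ∈ R from e ▸ e'
      rw [eq_inv_of_mul_eq_one_right h1, inv_mem_iff] at h2
      exact h2
  have hfix : ∀ k ∈ Subgroup.normalizer ((S : Subgroup G) : Set G), k * w * k⁻¹ = w := by
    intro k hk
    let e := C.normalizerMonoidHom ⟨k, H1.le_normalizer_inf le_rfl
      (H1.le_normalizer_centralizer le_rfl) hk⟩
    refine congrArg Subtype.val (show e w = w from ?_)
    rw [map_prod]
    refine Finset.prod_equiv e.toEquiv (fun a => ?_) fun _ _ => rfl
    simp only [O, Finset.mem_filter, Finset.mem_univ, true_and]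
    constructor
    · rintro ⟨j, hj, h1⟩
      exact ⟨k * j, mul_mem hk hj, show _ = k * a * k⁻¹ by rw [← h1]; group⟩
    · rintro ⟨j, hj, h1⟩
      refine ⟨k⁻¹ * j, mul_mem (inv_mem hk) hj, ?_⟩
      change _ = k * a * k⁻¹ at h1
      calc _ = k⁻¹ * (j * z * j⁻¹) * k := by group
        _ = a := by rw [h1]; group
  have h2 := H8.not_simple_of_isolated (H20.isolated_of_sylow hw2 S fun g hg => by
    obtain ⟨k, hk, h1⟩ := H4.exists_normalizer_conj_of_le_centralizer S (A := {(w : G)}) (g := g)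
      (by rintro _ rfl; exact w.2.2) (by
        rintro _ rfl
        exact hcen _ hg (by rw [conj_mul, H20.mul_self_of_orderOf_two hw2]; simp))
    rw [← h1 _ rfl, hfix k hk])
  have h3 := Nat.le_of_dvd two_pos (h2 ▸ orderOf_dvd_natCard x)
  rw [h.ord] at h3
  have := Nat.one_lt_two_pow (show n ≠ 0 by omega)
  omega

end Cfsg.Agent.S3269
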