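import Cfsg.Statements.S3276
import Mathlib
import Cfsg.Agent.H29.Two
import Cfsg.Agent.H20.Invol

set_option autoImplicit false
open Cfsg

namespace Cfsg.Agent.S3276

open Cfsg.Agent.H22

/-- Let x and y be commuting, non-conjugate involutions of a finite group G, and suppose that for every involution u commuting with x, each conjugate of y that commutes with u also commutes with y. Then the normal closure of y is a proper, normal, elementary abelian 2-subgroup of G; and if y is the only involution of that normal closure commuting with x, it has order at most 4. -/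
theorem result {G : Type*} [Group G] [Finite G] (x y : G) (hx : orderOf x = 2) (hy : orderOf y = 2)
    (hxy : Commute x y) (hnc : ¬ IsConj x y)
    (hstar : ∀ u : G, orderOf u = 2 → Commute u x → ∀ g : G, Commute (g * y * g⁻¹) u → Commute (g * y * g⁻¹) y) :
    Subgroup.normalClosure ({y} : Set G) ≠ ⊤ ∧ Cfsg.IsElementaryAbelian 2 (Subgroup.normalClosure ({y} : Set G)) ∧
      ((∀ u ∈ Subgroup.normalClosure ({y} : Set G), orderOf u = 2 → Commute u x → u = y) →
        Nat.card ↥(Subgroup.normalClosure ({y} : Set G)) ≤ 4) := by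
  have hx2 := H20.mul_self_of_orderOf_two hx
  have hy2 := H20.mul_self_of_orderOf_two hy
  have hc : ∀ g : G, Commute (g * y * g⁻¹) y := fun g => by
    have h2 : g * y * g⁻¹ * (g * y * g⁻¹) = 1 := by
      calc _ = g * (y * y) * g⁻¹ := by group
        _ = 1 := by rw [hy2]; group
    have he : Even (orderOf (x * (g * y * g⁻¹))) := Nat.not_odd_iff_even.1 fun h =>
      hnc ((H20.isConj_of_odd_orderOf_mul hx2 h2 h).trans (isConj_iff.2 ⟨g⁻¹, by group⟩))
    obtain ⟨h3, h4, h5⟩ := H20.half_pow_spec hx2 h2 he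
    exact hstar _ h3 h4 g h5.symm
  have hm : ∀ {a : G}, a ∈ Group.conjugatesOfSet ({y} : Set G) → IsConj y a := fun ha => by
    obtain ⟨b, h1, h2⟩ := Group.mem_conjugatesOfSet_iff.1 ha
    rwa [Set.mem_singleton_iff.1 h1] at h2
  have hcc : ∀ a ∈ Group.conjugatesOfSet ({y} : Set G), ∀ b ∈ Group.conjugatesOfSet ({y} : Set G),
      a * b = b * a := fun a ha b hb => by
    obtain ⟨g, rfl⟩ := isConj_iff.1 (hm ha)
    obtain ⟨h, rfl⟩ := isConj_iff.1 (hm hb)
    have := (hc (h⁻¹ * g)).eq
    calc _ = h * (h⁻¹ * g * y * (h⁻¹ * g)⁻¹ * y) * h⁻¹ := by group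
      _ = _ := by rw [this]; group
  have hab : Subgroup.normalClosure ({y} : Set G) ≤ C[Subgroup.normalClosure ({y} : Set G)] := by
    refine (Subgroup.closure_le _).2 fun a ha => ?_
    exact (Subgroup.zpowers_le (H := C[Subgroup.normalClosure ({y} : Set G)])).1
      (Subgroup.le_centralizer_iff.1 ((Subgroup.closure_le _).2 fun b hb => by
        rw [C_zpowers]; exact H29.mem_C1.2 (hcc b hb a ha)))
  have hea : IsElementaryAbelian 2 (Subgroup.normalClosure ({y} : Set G)) := by
    refine elemAb_iff.2 ⟨hab, fun a ha => pow_eq_one_of_mem_omegaOne hab ?_⟩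
    refine (Subgroup.closure_le _).2 (fun b hb => mem_omegaOne (Subgroup.subset_closure hb) ?_) ha
    rw [← hy, H20.orderOf_eq_of_isConj (hm hb), pow_orderOf_eq_one]
  refine ⟨fun h => ?_, hea, fun h => ?_⟩
  · have h1 : Subgroup.normalClosure ({y} : Set G) ≤ Subgroup.zpowers y := by
      refine (Subgroup.closure_le _).2 fun b hb => ?_
      obtain ⟨g, rfl⟩ := isConj_iff.1 (hm hb)
      rw [h] at hab
      rw [mem_C.1 (hab (Subgroup.mem_top _)) g (Subgroup.mem_top _)]
      simp
    rcases (H29.mem_zp2 hy2).1 (h1 (h ▸ Subgroup.mem_top x)) with h2 | h2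
    · exact H20.ne_one_of_orderOf_two hx h2
    · exact hnc (h2 ▸ IsConj.refl _)
  · have h1 := H29.card_le_sq hea (mem_N_of_normal x _) (by rw [hx2]; exact one_mem _)
    have h2 : Subgroup.normalClosure ({y} : Set G) ⊓ Subgroup.centralizer {x} ≤ Subgroup.zpowers y :=
      fun u hu => by
        by_cases hu1 : u = 1
        · rw [hu1]; exact one_mem _
        · rw [h u hu.1 (orderOf_eq_prime (hea.2 u hu.1) hu1) (H29.mem_C1.1 hu.2)]
          exact Subgroup.mem_zpowers y
    have h3 := Subgroup.card_le_of_le h2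
    rw [Nat.card_zpowers, hy] at h3
    exact h1.trans (Nat.pow_le_pow_left h3 2)

end Cfsg.Agent.S3276
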