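import Cfsg.Statements.S3278
import Mathlib
import Cfsg.Agent.H20.SEc
import Cfsg.Agent.S0494

set_option autoImplicit false
open Cfsg

namespace Cfsg.Agent.S3278

open Cfsg.Agent.FT Cfsg.Agent.H20.SEc

/-- Let G be a finite simple group with an involution x such that a Sylow 2-subgroup of C_G(x) is a Klein four-group which is normal in C_G(x). Then G is isomorphic to the alternating group of degree 5 (that is, to PSL(2, 5)). -/
theorem result {G : Type*} [Group G] [Finite G] [IsSimpleGroup G] (x : G) (hx : orderOf x = 2)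
    (S₀ : Subgroup G) (hle : S₀ ≤ Subgroup.centralizer ({x} : Set G)) (hK : IsKleinFour ↥S₀)
    (hodd : ¬ 2 ∣ S₀.relIndex (Subgroup.centralizer ({x} : Set G))) (hn : (S₀.subgroupOf (Subgroup.centralizer ({x} : Set G))).Normal) :
    Nonempty (G ≃* ↥(alternatingGroup (Fin 5))) := by
  have h4 : #S₀ = 2 ^ 2 := hK.card_four
  have hd : 4 ∣ Nat.card G := by simpa [h4] using S₀.card_subgroup_dvd_card
  have hG : ¬ IsMulCommutative G := fun h => by
    letI : CommGroup G := { ‹Group G› with mul_comm := h.is_comm.comm }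
    have hp := IsSimpleGroup.prime_card (α := G)
    rcases (Nat.dvd_prime hp).1 hd with e | e
    · omega
    · rw [← e] at hp; norm_num at hp
  have hP : PGrp 2 S₀ := pGrp_of_card Nat.prime_two h4
  have hS : Syl 2 S₀ C[x] := syl_of_not_dvd hle hP hodd
  have hN : C[x] ≤ N(S₀) := ((nml_iff_normal hle).2 hn).nrm
  have hx2 : PiElt {2} x := (piElt_of_orderOf_prime Nat.prime_two hx).2 rfl
  have hxS : x ∈ S₀ := hS.mem_of_nml hN (self_mem_cen1 x) hx2
  have hxx : x ^ 2 = 1 := hx ▸ pow_orderOf_eq_one x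
  have x1 : x ≠ 1 := by rintro rfl; simp at hx
  have th : ∀ T Q : Subgroup G, Syl 2 T ⊤ → Q.relIndex T = 2 → ∃ g : G, g * x * g⁻¹ ∈ Q := by
    intro T Q hT hQ
    by_contra! h
    obtain ⟨M, h1, h2, -⟩ := H4.thompson_transfer (H := T) (by
      rw [← Subgroup.relIndex_top_right]
      exact Nat.odd_iff.2 (Nat.two_dvd_ne_zero.1 (hT.not_dvd Nat.prime_two))) hQ hxx h
    rcases h1.eq_bot_or_eq_top with rfl | rfl
    · rw [Subgroup.index_bot] at h2; omega
    · simp at h2
  obtain ⟨T, hT, hST⟩ := hP.exists_syl (le_top (a := S₀))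
  have hTC : T ⊓ C[x] = S₀ := hS.max (hT.pi.inf_left _) (le_inf hST hle) inf_le_right
  have hT4 : T = S₀ := by
    by_contra e
    obtain ⟨n, hn⟩ := hT.pi.card
    have h3 : 2 < n := (Nat.pow_lt_pow_iff_right (a := 2) one_lt_two).1
      (by rw [← h4, ← hn]; exact card_lt (lt_of_le_of_ne hST (Ne.symm e)))
    obtain ⟨m, rfl⟩ : ∃ m, n = m + 1 := ⟨n - 1, by omega⟩
    obtain ⟨a, b, h⟩ := (H3.maxCl_of_cen1' Nat.prime_two hn (by omega) (hST hxS)
      (by rw [hTC, h4])).mc (by omega)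
    obtain ⟨g, hg⟩ := th T _ hT h.relIndex
    have e1 := h.eq_z hg (by rw [conj_pow, hxx]; simp) (conj_ne_one.2 x1)
    have e2 : T ≤ cj g C[x] := by rw [cj_cen1, e1]; exact le_cen1.2 h.z_cen
    have := (hS.cj g).card_le hT.pi e2
    rw [card_cj, h4, hn] at this
    have := (Nat.pow_le_pow_iff_right (a := 2) one_lt_two).1 this
    omega
  subst hT4
  have hab : Ab T := ab_of_card_sq Nat.prime_two h4
  have hC : ∀ y ∈ T, orderOf y = 2 → C[y] ≤ N(T) := fun y hy h2 => by
    obtain ⟨g, hg⟩ := th T ⟪y⟫ hT (H3.relIndex_of_card_mul (Subgroup.zpowers_le.2 hy)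
      (by rw [card_zpowers', h2, h4]; rfl))
    rcases (H3.mem_zpowers_two (h2 ▸ pow_orderOf_eq_one y)).1 hg with e | e
    · exact absurd e (conj_ne_one.2 x1)
    · have e1 : cj g C[x] = C[y] := by rw [cj_cen1, e]
      have e2 : T = cj g T := eq_of_card_eq ((hS.cj g).le_of_nml (cj_norms.2 hN) hP
        (e1 ▸ hab.le_cen1 hy)) (card_cj _ _).symm
      rw [← e1]
      nth_rewrite 1 [e2]
      exact cj_norms.2 hN
  have hse : IsStronglyEmbedded N(T) := se_nrm_syl hT (ne_bot_of_mem hxS x1)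
    (nrm_ne_top hG (ne_bot_of_mem hxS x1) hP.sol) fun g t ht h1 h2 => mem_nrm_of_cj_le
      ((hT.subl (hab.le_cen1 h1) le_top).le_of_nml (hC t h1 ht) (hP.cj g) ((hab.cj g).le_cen1 h2))
  obtain ⟨S, -⟩ := BS.bender_simple hG hse
  obtain ⟨P, hPQ⟩ := S.exists_sylow_eq
  have hQ : #S.Q = 4 := by rw [← hPQ, (syl_top Nat.prime_two P).card_eq hT, h4]; rfl
  have hq := S.four_le_q
  refine S0494.result ?_
  rcases S.known.2 with h | h | h
  · have e : S.q = 4 := by rw [← hQ, h.Q_eq]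
    rw [S.card_G, S.card_D, S.card_K, S.card_I0, h.V_eq, hQ, e, card_bot']
  · have := h.card
    rw [hQ] at this
    nlinarith
  · have := h.card
    rw [hQ] at this
    nlinarith [Nat.pow_le_pow_left hq 3]

end Cfsg.Agent.S3278
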