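import Cfsg.Statements.S3279
import Mathlib
import Cfsg.Agent.H20.Isolated
import Cfsg.Agent.H20.Simple

set_option autoImplicit false
open Cfsg

namespace Cfsg.Agent.S3279

open Cfsg.Agent.H20

theorem dih {G : Type*} [Group G] [Finite G] {a b : G} (ha : orderOf a = 2) (hb : orderOf b = 2)
    (h : ¬ IsConj a b) : ∃ z : G, orderOf z = 2 ∧ z ≠ a ∧ Commute z a ∧ Commute z b ∧
      (IsConj a (a * z) ∨ IsConj a (b * z)) := by
  have ha' := mul_self_of_orderOf_two ha
  have hb' := mul_self_of_orderOf_two hb
  have hev : Even (orderOf (a * b)) := by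
    by_contra hc
    exact h (isConj_of_odd_orderOf_mul ha' hb' (Nat.not_even_iff_odd.1 hc))
  obtain ⟨h1, h2, h3⟩ := half_pow_spec ha' hb' hev
  have hab : a ≠ b := fun e => h (e ▸ IsConj.refl a)
  refine ⟨_, h1, fun e => not_mem_zpowers_mul ha hb hab ?_, h2, h3, ?_⟩
  · have := Subgroup.pow_mem _ (Subgroup.mem_zpowers (a * b)) (orderOf (a * b) / 2)
    rwa [e] at this
  have e := inverts_mul_left ha' hb'
  set m := orderOf (a * b) / 2
  rcases Nat.even_or_odd' m with ⟨k, hk | hk⟩
  · left
    have := zpow_conj_mul_zpow_of_inverts e 0 k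
    rw [zpow_zero, mul_one] at this
    refine isConj_iff.2 ⟨(a * b) ^ (-(k : ℤ)), ?_⟩
    rw [this, hk, ← zpow_natCast]; simp
  · right
    have := zpow_conj_mul_zpow_of_inverts e 0 (k + 1)
    rw [zpow_zero, mul_one] at this
    refine isConj_iff.2 ⟨(a * b) ^ (-((k : ℤ) + 1)), ?_⟩
    rw [this, hk]
    have e2 : b = a * (a * b) := by rw [← mul_assoc, ha', one_mul]
    generalize a * b = c at e2 ⊢
    rw [e2]
    group

theorem three {G : Type*} [Group G] [Finite G] {x : G} (hx : orderOf x = 2)
    (h3 : Nat.card {u : ↥(Subgroup.centralizer ({x} : Set G)) // orderOf u = 2} ≤ 3)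
    {a u v w : G} (ha : IsConj x a) (hu : orderOf u = 2) (hv : orderOf v = 2) (hw : orderOf w = 2)
    (cu : Commute u a) (cv : Commute v a) (cw : Commute w a) (hua : u ≠ a) (hva : v ≠ a)
    (huv : u ≠ v) : w = a ∨ w = u ∨ w = v := by
  classical
  obtain ⟨g, rfl⟩ := isConj_iff.1 ha
  by_contra hc
  push Not at hc
  obtain ⟨h1, h2, h4⟩ := hc
  have ho : orderOf (g * x * g⁻¹) = 2 := by rw [H20.orderOf_conj, hx]
  let S := {t : G // orderOf t = 2 ∧ Commute t (g * x * g⁻¹)}
  let f : S → {u : ↥(Subgroup.centralizer ({x} : Set G)) // orderOf u = 2} := fun t =>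
    ⟨⟨g⁻¹ * t.1 * g, by
      rw [mem_cent_iff]
      have := t.2.2
      rw [← commute_conj_iff (g := g)]
      simpa [mul_assoc] using this⟩, by
      rw [← Subgroup.orderOf_coe]; simpa [orderOf_conj'] using t.2.1⟩
  have hf : Function.Injective f := by
    intro s t h
    apply Subtype.ext
    have := congrArg (fun z => (z.1.1 : G)) h
    simpa [f] using this
  have hS : Nat.card S ≤ 3 := (Nat.card_le_card_of_injective f hf).trans h3
  let e : Fin 4 → S := ![⟨_, ho, Commute.refl _⟩, ⟨u, hu, cu⟩, ⟨v, hv, cv⟩, ⟨w, hw, cw⟩]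
  have he : Function.Injective e := by
    intro i j hij
    have := congrArg Subtype.val hij
    clear hij
    have k1 := hua.symm
    have k2 := hva.symm
    have k3 := huv.symm
    have k4 := h1.symm
    have k5 := h2.symm
    have k6 := h4.symm
    fin_cases i <;> fin_cases j <;> first | rfl | (exfalso; simp only [e] at this; contradiction)
  have := Nat.card_le_card_of_injective e he
  simp at this
  omega

theorem orderOf_mul_two {G : Type*} [Group G] {a b : G} (ha : orderOf a = 2) (hb : orderOf b = 2)
    (h : Commute a b) (hne : a ≠ b) : orderOf (a * b) = 2 := by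
  have ha' := mul_self_of_orderOf_two ha
  have hb' := mul_self_of_orderOf_two hb
  refine orderOf_two_of ?_ fun e => hne ?_
  · calc a * b * (a * b) = a * (b * a) * b := by group
      _ = a * (a * b) * b := by rw [h.eq]
      _ = (a * a) * (b * b) := by group
      _ = 1 := by rw [ha', hb', one_mul]
  · rw [eq_inv_of_mul_eq_one_left e, inv_eq_self_of_orderOf_two hb]

theorem commute_of_two {G : Type*} [Group G] {a b : G} (ha : orderOf a = 2) (hb : orderOf b = 2)
    (h : orderOf (a * b) = 2) : Commute a b := by
  have := inv_eq_self_of_orderOf_two h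
  rw [mul_inv_rev, inv_eq_self_of_orderOf_two ha, inv_eq_self_of_orderOf_two hb] at this
  exact this.symm

/-- an element commuting with all conjugates of a nontrivial element makes a simple group abelian -/
theorem comm_of_cent {G : Type*} [Group G] [IsSimpleGroup G] {w y : G} (hw : w ≠ 1) (hy : y ≠ 1)
    (h : ∀ g : G, Commute w (g * y * g⁻¹)) : IsMulCommutative G := by
  by_contra hG
  have h1 : Subgroup.normalClosure ({y} : Set G) = ⊤ := by
    rcases (inferInstance : (Subgroup.normalClosure ({y} : Set G)).Normal).eq_bot_or_eq_top with h1 | h1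
    · exact absurd (Subgroup.mem_bot.1 (h1 ▸ Subgroup.subset_normalClosure (Set.mem_singleton y))) hy
    · exact h1
  apply simple_cent_ne_top hG hw
  rw [eq_top_iff, ← h1, Subgroup.normalClosure, Subgroup.closure_le]
  intro t ht
  obtain ⟨a, ha, hc⟩ := Group.mem_conjugatesOfSet_iff.1 ht
  rw [Set.mem_singleton_iff.1 ha] at hc
  obtain ⟨g, rfl⟩ := isConj_iff.1 hc
  exact mem_cent_iff.2 (h g).symm

theorem one_class {G : Type*} [Group G] [Finite G] [IsSimpleGroup G] {x : G} (hx : orderOf x = 2)
    (h3 : Nat.card {u : ↥(Subgroup.centralizer ({x} : Set G)) // orderOf u = 2} ≤ 3)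
    {b : G} (hb : orderOf b = 2) : IsConj x b := by
  by_contra hxb
  have hx' := mul_self_of_orderOf_two hx
  have hG : ¬ IsMulCommutative G := by
    intro hG
    have hp := simple_comm_card_prime hG
    have h2 : Nat.card G = 2 := by
      have := hx ▸ orderOf_dvd_natCard x
      exact ((Nat.prime_dvd_prime_iff_eq Nat.prime_two hp).1 this).symm
    obtain ⟨t, -, ht⟩ := (Nat.card_eq_two_iff' (1 : G)).1 h2
    exact hxb (by rw [ht x (ne_one_of_orderOf_two hx), ht b (ne_one_of_orderOf_two hb)])
  have cc : ∀ {s t : G} (g : G), IsConj s (g * t * g⁻¹) ↔ IsConj s t := fun g =>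
    ⟨fun h => h.trans (isConj_iff.2 ⟨g, rfl⟩).symm, fun h => h.trans (isConj_iff.2 ⟨g, rfl⟩)⟩
  by_cases hiso : ∃ y : G, IsConj x y ∧ y ≠ x ∧ Commute y x
  · obtain ⟨y, hy, hyx, cy⟩ := hiso
    have oy : orderOf y = 2 := (orderOf_eq_of_isConj hy) ▸ hx
    have ow : orderOf (x * y) = 2 := orderOf_mul_two hx oy cy.symm hyx.symm
    have cw : Commute (x * y) x := (Commute.refl x).mul_left cy
    have cwy : Commute (x * y) y := cy.symm.mul_left (Commute.refl y)
    have wx : x * y ≠ x := fun e => ne_one_of_orderOf_two oy (by simpa using e)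
    have wy : x * y ≠ y := fun e => ne_one_of_orderOf_two hx (by simpa using e)
    -- every involution not conjugate to `x` commutes with `x y`
    have key : ∀ c : G, orderOf c = 2 → ¬ IsConj x c → c = x * y ∨ (Commute c (x * y) ∧ True) := by
      intro c hc hxc
      obtain ⟨z, oz, zx, czx, czc, -⟩ := dih hx hc hxc
      rcases three hx h3 (IsConj.refl x) oy ow oz cy cw czx hyx wx wy.symm with h | h | h
      · exact absurd h zx
      · subst h
        rcases three hx h3 hy hx ow hc cy.symm cwy czc.symm hyx.symm wy wx.symm with h | h | h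
        · exact absurd (h ▸ hy) hxc
        · exact absurd (h ▸ IsConj.refl _) hxc
        · exact Or.inl h
      · exact Or.inr ⟨h ▸ czc.symm, trivial⟩
    by_cases hw : IsConj x (x * y)
    · rcases key b hb hxb with h | ⟨h, -⟩
      · exact hxb (h ▸ hw)
      · rcases three hx h3 hw hx oy hb cw.symm cwy.symm h wx.symm wy.symm hyx.symm with h | h | h
        · exact hxb (h ▸ hw)
        · exact hxb (h ▸ IsConj.refl _)
        · exact hxb (h ▸ hy)
    · refine hG (comm_of_cent (ne_one_of_orderOf_two ow) (ne_one_of_orderOf_two ow) fun g => ?_)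
      rcases key (g * (x * y) * g⁻¹) (by rw [H20.orderOf_conj, ow]) (by rwa [cc]) with h | ⟨h, -⟩
      · rw [h]
      · exact h.symm
  · push Not at hiso
    have iso : ∀ a c : G, IsConj x a → IsConj x c → Commute c a → c = a := by
      intro a c ha hc h
      obtain ⟨g, rfl⟩ := isConj_iff.1 ha
      have h1 : g⁻¹ * c * g = x := by
        by_contra hne
        refine hiso (g⁻¹ * c * g) ?_ hne ?_
        · have := (cc (s := x) (t := c) g⁻¹).2 hc
          simpa using this
        · rw [← commute_conj_iff (g := g)]
          simpa [mul_assoc] using h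
      rw [← h1]; group
    have claim : ∀ c d e : G, orderOf c = 2 → ¬ IsConj x c → orderOf d = 2 → ¬ IsConj x d →
        orderOf e = 2 → ¬ IsConj x e → IsConj x (c * d) → IsConj x (e * c) ∨ IsConj x (e * d) := by
      intro c d e oc nc od nd oe ne h
      have oa : orderOf (c * d) = 2 := (orderOf_eq_of_isConj h) ▸ hx
      have ccd := commute_of_two oc od oa
      have hcd : c ≠ d := fun e => ne_one_of_orderOf_two oa (by rw [e, mul_self_of_orderOf_two od])
      obtain ⟨z, oz, za, cza, cze, hz⟩ := dih oa oe (fun h' => ne (h.trans h'))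
      have ca : c ≠ c * d := fun e => nc (e ▸ h)
      have da : d ≠ c * d := fun e => nd (e ▸ h)
      rcases three hx h3 h oc od oz ((Commute.refl c).mul_right ccd)
        (ccd.symm.mul_right (Commute.refl d)) cza ca da hcd with h1 | h1 | h1
      · exact absurd h1 za
      · subst h1
        rcases hz with hz | hz
        · have : z * d * z = d := by
            rw [ccd.eq, mul_assoc, mul_self_of_orderOf_two oc, mul_one]
          rw [this] at hz
          exact absurd (h.trans hz) nd
        · exact Or.inl (h.trans hz)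
      · subst h1
        rcases hz with hz | hz
        · have : c * z * z = c := by rw [mul_assoc, mul_self_of_orderOf_two od, mul_one]
          rw [this] at hz
          exact absurd (h.trans hz) nc
        · exact Or.inr (h.trans hz)
    obtain ⟨y, oy, yx, cy, -, -⟩ := dih hx hb hxb
    have ny : ¬ IsConj x y := fun h => yx (iso x y (IsConj.refl x) h cy)
    have ow : orderOf (x * y) = 2 := orderOf_mul_two hx oy cy.symm yx.symm
    have wx : x * y ≠ x := fun e => ne_one_of_orderOf_two oy (by simpa using e)
    have nw : ¬ IsConj x (x * y) := fun h =>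
      wx (iso x _ (IsConj.refl x) h ((Commute.refl x).mul_left cy))
    have n1 : ¬ IsConj x 1 := fun h => ne_one_of_orderOf_two hx (by simpa using h)
    have sw : ∀ s t : G, IsConj x (s * t) → IsConj x (t * s) := fun s t h =>
      h.trans (isConj_iff.2 ⟨t, by group⟩)
    let H : Subgroup G :=
      { carrier := {g | ∀ u : G, orderOf u = 2 → ¬ IsConj x u → ¬ IsConj x (g * u * g⁻¹ * u)}
        one_mem' := fun u ou _ => by simpa [mul_self_of_orderOf_two ou] using n1
        mul_mem' := by
          intro g h hg hh u ou nu hc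
          have o1 : orderOf (h * u * h⁻¹) = 2 := by rw [H20.orderOf_conj, ou]
          have n1' : ¬ IsConj x (h * u * h⁻¹) := by rwa [cc]
          have o2 : orderOf (g * h * u * (g * h)⁻¹) = 2 := by rw [H20.orderOf_conj, ou]
          have n2 : ¬ IsConj x (g * h * u * (g * h)⁻¹) := by rwa [cc]
          rcases claim _ _ _ o2 n2 ou nu o1 n1' hc with h1 | h1
          · apply hg _ o1 n1'
            have := sw _ _ h1
            convert this using 1; group
          · exact hh u ou nu h1
        inv_mem' := by
          intro g hg u ou nu hc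
          apply hg u ou nu
          have := (cc (s := x) g).2 (sw _ _ hc)
          convert this using 1; group }
    have hN : H.Normal := ⟨fun n hn g u ou nu hc => by
      apply hn (g⁻¹ * u * g) (by rw [orderOf_conj', ou])
        (by have := (cc (s := x) (t := u) g⁻¹).not.2 nu; simpa using this)
      have := (cc (s := x) g⁻¹).2 hc
      convert this using 1; group⟩
    have hyH : y ∈ H := by
      intro u ou nu hc
      have o2 : orderOf (y * u * y⁻¹) = 2 := by rw [H20.orderOf_conj, ou]
      have n2 : ¬ IsConj x (y * u * y⁻¹) := by rwa [cc]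
      have hyu : IsConj x (y * u) := by
        rcases claim _ _ _ o2 n2 ou nu oy ny hc with h1 | h1
        · have := (cc (s := x) y⁻¹).2 h1
          convert this using 1; group
        · exact h1
      have := commute_of_two oy ou ((orderOf_eq_of_isConj hyu) ▸ hx)
      rw [this.eq, mul_inv_cancel_right, mul_self_of_orderOf_two ou] at hc
      exact n1 hc
    have hH : H = ⊤ := hN.eq_bot_or_eq_top.resolve_left fun h =>
      ne_one_of_orderOf_two oy (Subgroup.mem_bot.1 (h ▸ hyH))
    refine hG (comm_of_cent (ne_one_of_orderOf_two ow) (ne_one_of_orderOf_two oy) fun g => ?_)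
    have o2 : orderOf (g * y * g⁻¹) = 2 := by rw [H20.orderOf_conj, oy]
    have n2 : ¬ IsConj x (g * y * g⁻¹) := by rwa [cc]
    have e : x * y * y = x := by rw [mul_assoc, mul_self_of_orderOf_two oy, mul_one]
    rcases claim _ _ _ ow nw oy ny o2 n2 (by rw [e]) with h1 | h1
    · exact (commute_of_two o2 ow ((orderOf_eq_of_isConj h1) ▸ hx)).symm
    · exact absurd h1 ((hH ▸ Subgroup.mem_top g : g ∈ H) y oy ny)


/-- Let G be a finite simple group and x an involution of G whose centralizer contains at most three involutions. Then C_G(x) contains a Sylow 2-subgroup of G, and all involutions of G are conjugate. -/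
theorem result {G : Type*} [Group G] [Finite G] [IsSimpleGroup G] (x : G) (hx : orderOf x = 2)
    (h3 : Nat.card {u : ↥(Subgroup.centralizer ({x} : Set G)) // orderOf u = 2} ≤ 3) :
    (∃ S : Sylow 2 G, (S : Subgroup G) ≤ Subgroup.centralizer ({x} : Set G)) ∧
      ∀ u v : G, orderOf u = 2 → orderOf v = 2 → IsConj u v := by
  refine ⟨?_, fun u v hu hv => (one_class hx h3 hu).symm.trans (one_class hx h3 hv)⟩
  obtain ⟨S, hS⟩ := (isPGroup_zpowers_of_mul_self (mul_self_of_orderOf_two hx)).exists_le_sylow
  have hS1 : Nontrivial S := by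
    rw [Subgroup.nontrivial_iff_exists_ne_one]
    exact ⟨x, hS (Subgroup.mem_zpowers x), ne_one_of_orderOf_two hx⟩
  have hZ := S.isPGroup'.center_nontrivial
  obtain ⟨n, hn⟩ := (S.isPGroup'.to_subgroup (Subgroup.center S)).exists_card_eq
  have h2 : 2 ∣ Nat.card (Subgroup.center S) := by
    rw [hn]
    refine dvd_pow_self 2 fun h0 => ?_
    have := Finite.one_lt_card (α := Subgroup.center S)
    rw [hn, h0] at this
    simp at this
  obtain ⟨z, hz⟩ := exists_prime_orderOf_dvd_card' 2 h2
  have oz : orderOf ((z : S) : G) = 2 := by rw [Subgroup.orderOf_coe, Subgroup.orderOf_coe, hz]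
  obtain ⟨g, hg⟩ := isConj_iff.1 (one_class hx h3 oz).symm
  refine ⟨g • S, fun s hs => ?_⟩
  replace hs := mem_smul_sylow.1 hs
  rw [mem_cent_iff, ← hg, ← commute_conj_iff (g := g⁻¹)]
  have := Subgroup.mem_center_iff.1 z.2 ⟨_, hs⟩
  have h4 : Commute (g⁻¹ * s * g) ((z : S) : G) := congrArg Subtype.val this
  simpa [mul_assoc] using h4

end Cfsg.Agent.S3279
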