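import Cfsg.Statements.S3287
import Mathlib
import Cfsg.Agent.GW.Fin2

set_option autoImplicit false
open Cfsg

namespace Cfsg.Agent.S3287



/-- Let G be a finite simple group whose Sylow 2-subgroups are dihedral, and suppose the centralizer of some involution of G is properly contained in a subgroup whose generalized Fitting subgroup equals its Fitting subgroup (a subgroup without components). Then G is isomorphic to the alternating group of degree 5 or 7, to PSL(3, 2), or to PSL(2, 9). -/
theorem result {G : Type*} [Group G] [Finite G] [IsSimpleGroup G] (S : Sylow 2 G) (m : ℕ) (eS : ↥(S : Subgroup G) ≃* DihedralGroup m)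
    (t : G) (ht : orderOf t = 2) (K : Subgroup G) (hlt : Subgroup.centralizer ({t} : Set G) < K)
    (hK : Cfsg.generalizedFittingSubgroup ↥K = Cfsg.fittingSubgroup ↥K) :
    Nonempty (G ≃* ↥(alternatingGroup (Fin 5))) ∨ Nonempty (G ≃* ↥(alternatingGroup (Fin 7))) ∨
      (∃ (F : Type) (_ : Field F) (_ : Fintype F), Fintype.card F = 2 ∧ Nonempty (G ≃* Matrix.ProjectiveSpecialLinearGroup (Fin 3) F)) ∨
      (∃ (F : Type) (_ : Field F) (_ : Fintype F), Fintype.card F = 9 ∧ Nonempty (G ≃* Matrix.ProjectiveSpecialLinearGroup (Fin 2) F)) := by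
  have hs := GW.not_sol_of_not_comm (G := G) fun e =>
    hlt.not_ge fun x _ => FT.mem_cen1.2 (e.is_comm.comm _ _)
  have h := FT.syl_top Nat.prime_two S
  have hm : 2 ≤ m := by
    have e := Nat.card_congr eS.toEquiv
    rw [DihedralGroup.nat_card] at e
    have := FT.card_pos (S : Subgroup G)
    by_contra! c
    exact hs (GW.sol_npc (GW.npc_of_cyc h (isCyclic_of_prime_card (p := 2) (by omega))))
  obtain ⟨T, u, hd, -⟩ := GW.dh_of_iso h.pi hm eS
  refine GW.small_of_lay hs (hd.d2.dg h) ht hlt (FT.perf_eq_bot (FT.lay_perf K)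
    ((FT.fitting_nil K).sol.mono ((FT.lay_le_gfit K).trans ?_)))
  rw [FT.gfit_def, hK, FT.fitting_def]

end Cfsg.Agent.S3287
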