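import Cfsg.Statements.S3299
import Mathlib
import Cfsg.Agent.H29.TT
import Cfsg.Agent.H29.Large

set_option autoImplicit false
open Cfsg

namespace Cfsg.Agent.S3299

open Cfsg.Agent.H22

/-- Let G be a finite group with no nontrivial 2-group quotient (O^2(G) = G), z an involution of G with H = C_G(z), and suppose E = O_2(H) is extraspecial with C_G(E) ≤ E and of order 2^(2n+1) with n ≥ 2. Then E is contained in every normal subgroup of H of index 2. -/
theorem result {G : Type*} [Group G] [Finite G] (hres : Cfsg.pResidual 2 G = ⊤) (z : G) (hz : orderOf z = 2)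
    (E : Subgroup G) (hE : E = (Cfsg.pCore 2 ↥(Subgroup.centralizer ({z} : Set G))).map (Subgroup.centralizer ({z} : Set G)).subtype)
    (hext : Cfsg.IsExtraspecial 2 ↥E) (hcent : Subgroup.centralizer (E : Set G) ≤ E) (n : ℕ) (hn : 2 ≤ n) (hcard : Nat.card ↥E = 2 ^ (2 * n + 1))
    (K : Subgroup G) (hKH : K ≤ Subgroup.centralizer ({z} : Set G))
    (hKn : ∀ h ∈ Subgroup.centralizer ({z} : Set G), K.map (MulAut.conj h).toMonoidHom = K)
    (hKi : K.relIndex (Subgroup.centralizer ({z} : Set G)) = 2) : E ≤ K := by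
  have h : H29.LE E z := by
    subst hE; exact H29.le_of_pCore hz hext hcent
  have h8 : 8 < Nat.card E := by
    rw [hcard]; exact Nat.pow_lt_pow_right (a := 2) (m := 3) (by norm_num) (by omega)
  have hi : ∀ a ∈ Subgroup.centralizer ({z} : Set G), ∀ b ∈ Subgroup.centralizer ({z} : Set G),
      (a * b ∈ K ↔ (a ∈ K ↔ b ∈ K)) := fun a ha b hb =>
    Subgroup.mul_mem_iff_of_index_two (H := K.subgroupOf _) hKi (a := ⟨a, ha⟩) (b := ⟨b, hb⟩)
  have hsq : ∀ a ∈ Subgroup.centralizer ({z} : Set G), a * a ∈ K := fun a ha => (hi a ha a ha).2 Iff.rfl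
  have hzK : z ∈ K := by
    obtain ⟨r, hr, e⟩ := h.exists_sq
    exact e ▸ hsq r (h.le_Cz hr)
  by_contra hne
  obtain ⟨x, hx, hxK, hx2⟩ : ∃ x ∈ E, x ∉ K ∧ x * x = 1 := by
    by_contra hn
    push Not at hn
    obtain ⟨y, hy, hyK⟩ := SetLike.not_le_iff_exists.1 hne
    have h1 : ∀ a ∈ E, a ∉ K → a * a = z := fun a ha haK => (h.sq a ha).resolve_left (hn a ha haK)
    have h2 : ∀ m ∈ E ⊓ K, y⁻¹ * m * y = m⁻¹ := fun m hm => by
      have := h1 _ (mul_mem hy hm.1) fun e => hyK ((K.mul_mem_cancel_right hm.2).1 e)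
      rw [← h1 y hy hyK] at this
      calc _ = (y * y)⁻¹ * (y * m * (y * m)) * m⁻¹ := by group
        _ = _ := by rw [this]; group
    have h3 : E ⊓ K ≤ E ⊓ C[E ⊓ K] := fun a ha => ⟨ha.1, mem_C.2 fun b hb => by
      have := h2 _ (mul_mem ha hb)
      rw [show y⁻¹ * (a * b) * y = (y⁻¹ * a * y) * (y⁻¹ * b * y) by group, h2 a ha, h2 b hb, ← mul_inv_rev] at this
      exact inv_injective this⟩
    have h4 := (h.card_perp (inf_le_left : E ⊓ K ≤ E) ⟨h.mem, hzK⟩).1
    have h5 := Subgroup.card_le_of_le h3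
    have h6 := card_inf_mul_relIndex K E
    have h7 : K.relIndex E ≤ 2 := hKi ▸ Subgroup.relIndex_le_of_le_right h.le_Cz (by rw [hKi]; norm_num)
    rw [inf_comm] at h6
    have := card_pos' (E ⊓ K)
    generalize Nat.card ↥(E ⊓ K) = a at *
    have h9 : a * a ≤ a * 4 := by nlinarith
    have := Nat.le_of_mul_le_mul_left h9 this
    nlinarith
  obtain ⟨S, hS⟩ := exists_sylIn 2 (⊤ ⊓ Subgroup.centralizer ({z} : Set G))
  have hodd : Odd (Subgroup.centralizer ({z} : Set G)).index := by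
    have := not_dvd_relIndex_of_syl_le (h.lx.syl le_top hS).1 (hS.1.trans inf_le_right)
    rw [Subgroup.relIndex_top_right] at this
    exact Nat.not_even_iff_odd.1 fun h => this (even_iff_two_dvd.1 h)
  obtain ⟨g, hg, hP⟩ := H29.tt_extremal hodd hKH hKi hx2 (H29.mem_of_index_two hres x)
    (h.pgrp.to_le inf_le_left) (inf_le_right : E ⊓ Subgroup.centralizer {x} ≤ _)
  rw [cj_centralizer_singleton] at hP
  have h' := h.cj g
  have hc : g * z * g⁻¹ ∈ C[E ⊓ Subgroup.centralizer {x}] := mem_C.2 fun a ha => H29.mem_C1.1 (hP ha)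
  have hzx : z ∈ E ⊓ Subgroup.centralizer {x} := ⟨h.mem, H29.mem_C1.2 (h.comm_z hx).symm⟩
  have hne' : g * z * g⁻¹ ≠ z := fun e => hxK (by
    rw [← hKn g (H29.mem_C1'.2 e)]; exact mem_cj.2 hg)
  have h1 : g * z * g⁻¹ * x ∈ Subgroup.zpowers z :=
    (h.mem_of_cent hx hx2 (H29.mem_C1.2 (mem_C.1 hc z hzx).symm) hc).resolve_left fun e =>
      ((H29.mem_zp2 h.zz).1 e).elim h'.ne hne'
  have h2 : g * z * g⁻¹ ∈ E := (E.mul_mem_cancel_right hx).1 (h.zle h1)
  obtain ⟨r, hr, e⟩ := h'.exists_sq_cent (by rwa [card_cj]) (h.sym h8 h2 hne') h.zz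
  exact hxK ((K.mul_mem_cancel_left (e ▸ hsq r hr.2)).1 (Subgroup.zpowers_le.2 hzK h1))

end Cfsg.Agent.S3299
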