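import Cfsg.Statements.S3303
import Mathlib
import Cfsg.Agent.H23.CI
-- import your own Cfsg.Agent.* helpers here

set_option autoImplicit false
open Cfsg

namespace Cfsg.Agent.S3303

/-- Let G be a finite solvable group in which the intersection of any two distinct Sylow 2-subgroups is cyclic. Then G/O(G) has a normal Sylow 2-subgroup, where O(G) is the largest normal subgroup of odd order. -/
theorem result {G : Type*} [Group G] [Finite G] (hs : Group.IsSolvable G)
    (hC : ∀ S T : Sylow 2 G, S ≠ T → IsCyclic ↥((S : Subgroup G) ⊓ (T : Subgroup G))) :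
    ∃ P : Sylow 2 (G ⧸ Cfsg.oddCore G), (P : Subgroup (G ⧸ Cfsg.oddCore G)).Normal := by
  obtain ⟨P⟩ : Nonempty (Sylow 2 (G ⧸ Cfsg.oddCore G)) := inferInstance
  exact ⟨P, FT.nml_top_iff.1 ⟨le_top, ((H23.ci_top.2 hC).surj _ (QuotientGroup.mk'_surjective _)).closed
    (FT.sol_top.2 inferInstance) GW.Cor.od_quo (FT.syl_top Nat.prime_two P)⟩⟩

end Cfsg.Agent.S3303
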