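import Cfsg.Statements.S3307
import Cfsg.Agent.H4.GWC2
import Cfsg.Agent.GW.Main

set_option autoImplicit false
open Cfsg

namespace Cfsg.Agent.S3307

/-- Let G be a finite nonsolvable group whose Sylow 2-subgroups are generalized quaternion and in which any two distinct Sylow 2-subgroups intersect in a cyclic group. Then the Sylow 2-subgroups are quaternion of order 8, and G has a normal subgroup G₁ of odd index containing O(G) (the largest normal subgroup of odd order) with G₁/O(G) isomorphic to SL(2,q) for some prime power q > 3 with q ≡ 3 or 5 mod 8. -/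
theorem result {G : Type*} [Group G] [Finite G] (hns : ¬ Group.IsSolvable G)
    (hQ : ∀ S : Sylow 2 G, ∃ n : ℕ, Nonempty (↥(S : Subgroup G) ≃* QuaternionGroup (2 ^ (n + 1))))
    (hC : ∀ S T : Sylow 2 G, S ≠ T → IsCyclic ↥((S : Subgroup G) ⊓ (T : Subgroup G))) :
    (∀ S : Sylow 2 G, Nonempty (↥(S : Subgroup G) ≃* QuaternionGroup 2)) ∧
    ∃ (G₁ : Subgroup G) (_ : G₁.Normal) (_ : ((Cfsg.oddCore G).subgroupOf G₁).Normal),
      Odd G₁.index ∧ Cfsg.oddCore G ≤ G₁ ∧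
      ∃ (F : Type) (_ : Field F) (_ : Fintype F), (Fintype.card F % 8 = 3 ∨ Fintype.card F % 8 = 5) ∧ 3 < Fintype.card F ∧
        Nonempty (↥G₁ ⧸ (Cfsg.oddCore G).subgroupOf G₁ ≃* Matrix.SpecialLinearGroup (Fin 2) F) := by
  have hC' : ∀ A B : Subgroup G, FT.Syl 2 A ⊤ → FT.Syl 2 B ⊤ → A ≠ B → FT.Cyc (A ⊓ B) := fun A B hA hB h => by
    obtain ⟨A, rfl⟩ := (FT.syl_top_iff Nat.prime_two).1 hA
    obtain ⟨B, rfl⟩ := (FT.syl_top_iff Nat.prime_two).1 hB
    exact hC A B fun e => h (e ▸ rfl)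
  refine ⟨fun S => ?_, ?_⟩
  · obtain ⟨n, ⟨e⟩⟩ := hQ S
    obtain ⟨a, b, h⟩ := H3.exists_mcq_of_iso (m := n + 2) (by omega) e
    have := h.iso
    rwa [(GW.Cor.s3307 GW.gw hns hC' (FT.syl_top Nat.prime_two S) h).1] at this
  · obtain ⟨n, ⟨e⟩⟩ := hQ default
    obtain ⟨a, b, h⟩ := H3.exists_mcq_of_iso (m := n + 2) (by omega) e
    exact (GW.Cor.s3307 GW.gw hns hC' (FT.syl_top Nat.prime_two _) h).2

end Cfsg.Agent.S3307
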