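import Cfsg.Statements.S3309
import Mathlib
import Cfsg.Agent.H23.Sid
import Cfsg.Agent.H4.Transfer2
-- import your own Cfsg.Agent.* helpers here

set_option autoImplicit false
open Cfsg

namespace Cfsg.Agent.S3309

open Cfsg.Agent.FT Subgroup DihedralGroup

/-- the model -/
abbrev D := Multiplicative (ZMod 2) × DihedralGroup 4

/-- the dihedral subgroups of index two -/
def Mx (e f : Multiplicative (ZMod 2)) : Subgroup D where
  carrier := {d | d ∈ [1, (e * f, r 1), (1, r 2), (e * f, r 3), (e, sr 0), (f, sr 1), (e, sr 2), (f, sr 3)]}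
  mul_mem' := by revert e f; decide
  one_mem' := by revert e f; decide
  inv_mem' := by revert e f; decide

theorem mem_Mx {e f : Multiplicative (ZMod 2)} {d : D} :
    d ∈ Mx e f ↔ d ∈ [1, (e * f, r 1), (1, r 2), (e * f, r 3), (e, sr 0), (f, sr 1), (e, sr 2), (f, sr 3)] := Iff.rfl

theorem idx1 (e f : Multiplicative (ZMod 2)) : (Mx e f).index = 2 :=
  index_eq_two_iff.2 ⟨(.ofAdd 1, 1), by simp only [mem_Mx]; revert e f; decide⟩

theorem idx2 (u : D) (h : u = (1, r 1) ∨ u = (1, sr 0) ∨ u = (1, sr 1)) : C[u].index = 2 :=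
  index_eq_two_iff.2 ⟨if u = (1, r 1) then (1, sr 0) else (1, r 1), by
    simp only [mem_cen1]; rcases h with rfl | rfl | rfl <;> decide⟩

set_option synthInstance.maxSize 2000 in
theorem d1 : ∀ c d : D, (∀ k, k * c = c * k) → (∀ k, k * d = d * k) → c ≠ d → c = 1 ∨ d = 1 ∨ c = (1, r 2) ∨
    d = (1, r 2) ∨ d = c * (1, r 2) ∧ c = d * (1, r 2) := by decide

set_option synthInstance.maxSize 2000 in
theorem d2 : ∀ (i : ZMod 4) (d : D), d * (1, sr i) = (1, sr i) * d → (∀ k, k * d = d * k) ∨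
    ∃ ε k, (ε, sr i) = k * d * k⁻¹ := by decide

set_option synthInstance.maxSize 2000 in
theorem d3 : ∀ (ε δ : Multiplicative (ZMod 2)) (d : D), d ∈ [1, (ε * δ, r 1), (1, r 2), (ε * δ, r 3), (ε, sr 0),
    (δ, sr 1), (ε, sr 2), (δ, sr 3)] → d * d = 1 → d = 1 ∨ d = (1, r 2) ∨ ∃ k, (ε, sr 0) = k * d * k⁻¹ ∨
      (δ, sr 1) = k * d * k⁻¹ := by decide

/-- A finite group whose Sylow 2-subgroups are isomorphic to the direct product of a group of order 2 and the dihedral group of order 8 is not a non-abelian simple group. -/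
theorem result {G : Type*} [Group G] [Finite G] (S : Sylow 2 G) (hS : Nonempty (↥(S : Subgroup G) ≃* Multiplicative (ZMod 2) × DihedralGroup 4))
    [IsSimpleGroup G] (hG : ¬ IsMulCommutative G) : False := by
  obtain ⟨e⟩ := hS
  have h2 := Nat.prime_two
  have hS := syl_top h2 S
  generalize (S : Subgroup G) = S at e hS
  let φ : D →* G := S.subtype.comp e.symm.toMonoidHom
  have inj : Function.Injective φ := S.subtype_injective.comp e.symm.injective
  have mem : ∀ d, φ d ∈ S := fun d => (e.symm d).2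
  have sur : ∀ x ∈ S, ∃ d, φ d = x := fun x hx => ⟨e ⟨x, hx⟩, by simp [φ]⟩
  have cen : ∀ d, φ d ∈ C(S) ↔ ∀ k, k * d = d * k := fun d => by
    refine ⟨fun h k => inj (by rw [map_mul, map_mul]; exact mem_cen.1 h _ (mem k)), fun h => mem_cen.2 fun y hy => ?_⟩
    obtain ⟨k, rfl⟩ := sur y hy
    rw [← map_mul, h, map_mul]
  have cj' : ∀ k d : D, IsConj (φ d) (φ (k * d * k⁻¹)) := fun k d => isConj_iff.2 ⟨φ k, by simp⟩
  have nf : ∀ c d : D, (∀ k, k * c = c * k) → (∀ k, k * d = d * k) → IsConj (φ c) (φ d) → c = d := fun c d hc hd h => by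
    obtain ⟨g, hg⟩ := isConj_iff.1 h
    obtain ⟨x, hx, ex⟩ := (hS.subl (le_cen1.2 ((cen d).2 hd)) le_top).syl_trans ((hS.cj_mem (mem_top g)).subl
      (by rw [← hg, ← cj_cen1]; exact cj_mono g (le_cen1.2 ((cen c).2 hc))) le_top)
    have hn : x⁻¹ * g ∈ N(S) := cj_eq_cj_iff.1 ex
    have e1 : x⁻¹ * g * φ c * (x⁻¹ * g)⁻¹ = φ d := by
      calc _ = x⁻¹ * (g * φ c * g⁻¹) * x := by group
        _ = _ := by rw [hg, mul_assoc, ← mem_cen1.1 hx, inv_mul_cancel_left]
    have k1 := hS.subnorm.mem_of_nml inf_le_right ⟨mem_top _, constt_mem {2} hn⟩ (piElt_constt _ _)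
    have k2 := constt_mem {2}ᶜ hn
    have k3 : Odd (orderOf (constt {2}ᶜ (x⁻¹ * g))) := Nat.coprime_two_right.1 ((p'elt_iff_coprime h2).1 (piElt_constt _ _))
    rw [← constt_compl_mul {2} (x⁻¹ * g), mul_assoc _ _ (φ c), mem_cen.1 ((cen c).2 hc) _ k1, mul_inv_rev, ← mul_assoc,
      ← mul_assoc, mul_inv_cancel_right] at e1
    generalize constt {2}ᶜ (x⁻¹ * g) = m at k2 k3 e1
    obtain ⟨w, hw⟩ := sur _ (conj_mem k2 (mem (1, r 1)))
    have e2 : m * φ (1, r 2) * m⁻¹ = φ (w * w) := by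
      rw [map_mul, hw, show ((1, r 2) : D) = (1, r 1) * (1, r 1) by decide, map_mul]; group
    have e3 : w * w = (1, r 2) := ((by decide : ∀ w : D, w * w = 1 ∨ w * w = (1, r 2)) w).resolve_left fun h => by
      rw [h, map_one, conj_eq_one_iff, map_eq_one_iff _ inj] at e2
      exact absurd e2 (by decide)
    rw [e3] at e2
    by_contra ne
    rcases d1 c d hc hd ne with k | k | k | k | ⟨k, k'⟩
    · exact ne (inj (by rw [← e1, k]; simp))
    · rw [k, map_one, conj_eq_one_iff, map_eq_one_iff _ inj] at e1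
      exact ne (e1.trans k.symm)
    · exact ne (inj (by rw [← e1, k, e2]))
    · rw [k, ← e2, mul_left_inj, mul_right_inj] at e1
      exact ne ((inj e1).trans k.symm)
    · refine ne (inj ?_)
      rw [← e1, (H23.Sid.comm_of_sq k3 (x := φ c) ?_).eq, mul_inv_cancel_right]
      rw [Commute, SemiconjBy, ← mul_inv_eq_iff_eq_mul]
      calc _ = m * (m * φ c * m⁻¹) * m⁻¹ := by group
        _ = m * φ c * m⁻¹ * (m * φ (1, r 2) * m⁻¹) := by nth_rw 1 [e1]; rw [k, map_mul]; group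
        _ = _ := by rw [e1, e2, ← map_mul, ← k']
  have top : S = (⊤ : Subgroup D).map φ := le_antisymm (fun x hx => by
    obtain ⟨d, rfl⟩ := sur x hx; exact mem_map_of_mem φ (mem_top d)) (map_le_iff_le_comap.2 fun d _ => mem d)
  have rel : ∀ Q : Subgroup D, Q.index = 2 → (Q.map φ).relIndex S = 2 := fun Q hQ => by
    rw [top, relIndex_map_map_of_injective _ _ inj, relIndex_top_right, hQ]
  have TT : ∀ Q : Subgroup D, Q.index = 2 → ∀ c : D, c * c = 1 → ∃ d ∈ Q, d * d = 1 ∧ IsConj (φ c) (φ d) := fun Q hQ c hc => by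
    by_contra! k
    obtain ⟨M, hM, hi, -⟩ := H4.thompson_transfer (H := S) (Q := Q.map φ) (u := φ c) (Nat.not_even_iff_odd.1 fun h =>
      (relIndex_top_right S ▸ hS.idx).not_dvd h2 rfl h.two_dvd) (rel Q hQ) (by rw [pow_two, ← map_mul, hc, map_one])
      fun g ⟨d, hd, e⟩ => k d hd (inj (by rw [map_mul, e, conj_mul, ← map_mul, hc]; simp)) (isConj_iff.2 ⟨g, e.symm⟩)
    rcases hM.eq_bot_or_eq_top with rfl | rfl
    · have := Fact.mk h2
      have := isCyclic_of_prime_card (index_bot (G := G) ▸ hi)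
      exact hG inferInstance
    · simp at hi
  have K : ∀ i, i = 0 ∨ i = 1 → ∃ ε, IsConj (φ (1, r 2)) (φ (ε, sr i)) := fun i hi => by_contra fun k => by
    obtain ⟨c, hc, c2, h⟩ := TT _ (idx2 _ (Or.inl rfl)) (1, sr i) (by simp)
    have hc := (by decide : ∀ c : D, c * (1, r 1) = (1, r 1) * c → c * c = 1 → ∀ k, k * c = c * k) c (mem_cen1.1 hc) c2
    obtain ⟨g, hg⟩ := isConj_iff.1 h
    have i2 := idx2 (1, sr i) (by rcases hi with rfl | rfl <;> simp)
    have hE : C[((1, sr i) : D)].map φ ≤ S := map_le_iff_le_comap.2 fun d _ => mem d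
    obtain ⟨x, hx, ex⟩ := (hS.subl (le_cen1.2 ((cen c).2 hc)) le_top).syl_Jsub ((hS.pi.mono hE).cj g) (by
      rw [← hg, ← cj_cen1]
      refine cj_mono g (map_le_iff_le_comap.2 fun d hd => mem_cen1.2 ?_)
      rw [← map_mul, mem_cen1.1 hd, map_mul])
    rw [cj_cj] at ex
    have e1 : x * g * φ (1, sr i) * (x * g)⁻¹ = φ c := by
      calc _ = x * (g * φ (1, sr i) * g⁻¹) * x⁻¹ := by group
        _ = _ := by rw [hg, mem_cen1.1 hx, mul_inv_cancel_right]
    generalize x * g = y at ex e1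
    have e2 : (cj y (C[((1, sr i) : D)].map φ)).relIndex S = 2 := by
      have a := card_mul_relIndex ex
      rw [card_cj, ← card_mul_relIndex hE, rel _ i2] at a
      exact Nat.eq_of_mul_eq_mul_left (card_pos _) a
    obtain ⟨d, hd, e3⟩ := mem_cj.1 (mem_subgroupOf.1 (mul_self_mem_of_index_two e2 ⟨_, mem (1, r 1)⟩))
    have e4 : φ d = y⁻¹ * φ (1, r 2) * y := by
      rw [e3, show ((1, r 2) : D) = (1, r 1) * (1, r 1) by decide, map_mul]; rfl
    have e5 : IsConj (φ (1, r 2)) (φ d) := isConj_iff.2 ⟨y⁻¹, by simp [e4]⟩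
    rcases d2 i d (mem_cen1.1 hd) with k' | ⟨ε, l, k'⟩
    · rw [← nf _ _ (by decide) k' e5] at e4
      have := nf c (c * (1, r 2)) hc (fun k => by
        rw [← mul_assoc, hc, mul_assoc, mul_assoc, (by decide : ∀ k : D, k * (1, r 2) = (1, r 2) * k)])
        (h.symm.trans ((cj' (1, r 1) _).trans (isConj_iff.2 ⟨y, by
          rw [(by decide : ∀ i : ZMod 4, ((1, r 1) * (1, sr i) * (1, r 1)⁻¹ : D) = (1, sr i) * (1, r 2)), map_mul, map_mul,
            ← e1]
          nth_rw 1 [e4]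
          group⟩)))
      exact absurd (left_eq_mul.1 this) (by decide)
    · exact k ⟨ε, k' ▸ e5.trans (cj' l d)⟩
  obtain ⟨ε, h0⟩ := K 0 (Or.inl rfl)
  obtain ⟨δ, h1⟩ := K 1 (Or.inr rfl)
  obtain ⟨d, hd, d2, h⟩ := TT _ (idx1 ε δ) (.ofAdd 1, 1) (by decide)
  have fin : ¬ IsConj (φ (.ofAdd 1, 1)) (φ (1, r 2)) := fun h => absurd (nf _ _ (by decide) (by decide) h) (by decide)
  rcases d3 ε δ d hd d2 with rfl | rfl | ⟨k, e | e⟩
  · exact absurd (nf _ _ (by decide) (by decide) h) (by decide)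
  · exact fin h
  · exact fin ((h.trans (cj' k d)).trans (e ▸ h0.symm))
  · exact fin ((h.trans (cj' k d)).trans (e ▸ h1.symm))

end Cfsg.Agent.S3309
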