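import Cfsg.Statements.S3349
import Mathlib
import Cfsg.Agent.H3.Aut

set_option autoImplicit false
open Cfsg

namespace Cfsg.Agent.S3349

/-- Let Q be a finite extraspecial p-group and α an automorphism of Q fixing every element of some maximal abelian subgroup of Q. Then the order of α is a power of p. -/
theorem result {Q : Type*} [Group Q] [Finite Q]
    (p : ℕ) [Fact p.Prime] (hQ : Cfsg.IsExtraspecial p Q) (α : MulAut Q)
    (A : Subgroup Q) (hA : IsMulCommutative A) (hmax : ∀ B : Subgroup Q, A ≤ B → IsMulCommutative B → B = A)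
    (hfix : ∀ a ∈ A, α a = a) :
    ∃ k : ℕ, orderOf α = p ^ k := by
  refine H3.exists_orderOf_eq_pow fun k hk => H3.aut_eq_one_of_centralizer_le hQ.1.1 (H := A) (fun x hx => ?_) hk
    fun x hx => H3.aut_pow_apply_eq (hfix x hx) k
  rw [← hmax (A ⊔ Subgroup.zpowers x) le_sup_left (H3.isMulCommutative_sup_zpowers hA hx)]
  exact Subgroup.mem_sup_right (Subgroup.mem_zpowers x)

end Cfsg.Agent.S3349
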