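import Cfsg.Statements.S3389
import Mathlib
import Cfsg.Agent.H16.Derang
import Cfsg.Agent.H16.Supp

set_option autoImplicit false
open Cfsg

namespace Cfsg.Agent.S3389

/-- Let G be a finite group acting faithfully and transitively on a finite set Ω with fixity k ≥ 1: every non-identity element fixes at most k points and some non-identity element fixes exactly k points. Then |Z(G)| divides k; if k = 2 then |G| is even; and for every prime p > k dividing |G| and every point α, either p does not divide |G_α| or G_α contains a Sylow p-subgroup of G. -/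
theorem result {G : Type*} [Group G] [Finite G] {Ω : Type*} [Fintype Ω] [MulAction G Ω] [FaithfulSMul G Ω]
    (htr : MulAction.IsPretransitive G Ω) (k : ℕ) (hk : 1 ≤ k)
    (hfix : ∀ g : G, g ≠ 1 → Nat.card (MulAction.fixedBy Ω g) ≤ k) (hex : ∃ g : G, g ≠ 1 ∧ Nat.card (MulAction.fixedBy Ω g) = k) :
    Nat.card (Subgroup.center G) ∣ k ∧ (k = 2 → 2 ∣ Nat.card G) ∧
      ∀ (p : ℕ), p.Prime → k < p → p ∣ Nat.card G → ∀ α : Ω,
        ¬ p ∣ Nat.card (MulAction.stabilizer G α) ∨ ¬ p ∣ (MulAction.stabilizer G α).index := by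
  classical
  obtain ⟨g, hg1, hg⟩ := hex
  refine ⟨?_, ?_, ?_⟩
  · rw [← hg]
    apply H16.dvd_ncard_of_orbits (G := Subgroup.center G) (MulAction.fixedBy Ω g) (Set.toFinite _)
    · intro z x hx
      change g • (z : G) • x = (z : G) • x
      rw [← mul_smul, Subgroup.mem_center_iff.1 z.2 g, mul_smul, show g • x = x from hx]
    · intro x _
      rw [H16.card_eq_orbit_mul_stabilizer (G := Subgroup.center G) x]
      have : MulAction.stabilizer (Subgroup.center G) x = ⊥ := by
        rw [eq_bot_iff]
        intro z hz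
        rw [Subgroup.mem_bot]
        apply Subtype.ext
        have : MulAction.IsPretransitive (⊤ : Subgroup G) Ω :=
          ⟨fun a b => by obtain ⟨g, hg⟩ := htr.exists_smul_eq a b; exact ⟨⟨g, trivial⟩, hg⟩⟩
        exact H16.eq_one_of_centralizes_trans ⊤ (fun n _ => Subgroup.mem_center_iff.1 z.2 n) hz
      rw [this]; simp
  · rintro rfl
    obtain ⟨a, b, hab, he⟩ := Set.ncard_eq_two.1 (show (MulAction.fixedBy Ω g).ncard = 2 from hg)
    have ha : g • a = a := (show a ∈ MulAction.fixedBy Ω g by rw [he]; simp)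
    have hb : g • b = b := (show b ∈ MulAction.fixedBy Ω g by rw [he]; simp)
    have hfx : ∀ h : G, h ≠ 1 → h • a = a → h • b = b → ∀ x, h • x = x → x = a ∨ x = b := by
      intro h h1 h2 h3 x hx
      have : ({a, b} : Set Ω) = MulAction.fixedBy Ω h := Set.eq_of_subset_of_ncard_le
        (by rintro y (rfl | rfl) <;> assumption) (by rw [Set.ncard_pair hab]; exact hfix h h1)
      have h4 : x ∈ ({a, b} : Set Ω) := by rw [this]; exact hx
      exact h4
    by_contra hodd
    have hsw : ∀ s : G, s • a = b → s • b ≠ a := by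
      intro s h1 h2
      obtain ⟨m, k, h3, h4, -⟩ := H16.exists_two_elt_swap h1 h2
      obtain ⟨j, -, hj⟩ := (Nat.dvd_prime_pow Nat.prime_two).1 (orderOf_dvd_of_pow_eq_one h3)
      rcases j with _ | j
      · rw [pow_zero, orderOf_eq_one_iff] at hj
        rw [hj, one_smul] at h4
        exact hab h4
      · exact hodd ((Dvd.intro_left _ (pow_succ 2 j).symm).trans (hj ▸ orderOf_dvd_natCard _))
    let D := MulAction.stabilizer G a ⊓ MulAction.stabilizer G b
    have hD : D ≠ ⊥ := fun e => hg1 (by rw [← Subgroup.mem_bot, ← e]; exact ⟨ha, hb⟩)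
    obtain ⟨p, hp, hd⟩ := Nat.exists_prime_and_dvd ((Subgroup.one_lt_card_iff_ne_bot D).2 hD).ne'
    have := Fact.mk hp
    obtain ⟨P, hP⟩ := H4.IsSylowIn.exists_isSylowIn p D
    have hP1 : P ≠ ⊥ := by
      rintro rfl
      exact hP.not_dvd (by rwa [Subgroup.relIndex_bot_left])
    obtain ⟨u, hu1⟩ := Subgroup.ne_bot_iff_exists_ne_one.1 hP1
    have hN : ∀ z ∈ Subgroup.normalizer (P : Set G), ∀ x, (x = a ∨ x = b) →
        (z • x = a ∨ z • x = b) := by
      intro z hz x hx
      apply hfx u (fun e => hu1 (Subtype.ext e)) (hP.le u.2).1 (hP.le u.2).2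
      have h1 := hP.le ((Subgroup.mem_normalizer_iff''.1 hz u).1 u.2)
      rw [← inv_smul_eq_iff, ← mul_smul, ← mul_smul]
      rcases hx with rfl | rfl
      · exact h1.1
      · exact h1.2
    have hQ : H4.IsSylowIn p P (fixingSubgroup G ({a} : Set Ω)) := by
      have hle : P ≤ fixingSubgroup G ({a} : Set Ω) := fun x hx =>
        (mem_fixingSubgroup_iff G).2 (by rintro _ rfl; exact (hP.le hx).1)
      apply H4.IsSylowIn.of_maximal hP.isPGroup hle
      intro R hR hRa hPR
      by_contra hn
      have h1 := H4.lt_inf_normalizer_of_isPGroup hR (lt_of_le_not_ge hPR hn)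
      refine h1.ne (hP.eq_of_le (hR.to_le inf_le_left) ?_ h1.le).symm
      intro z hz
      have h2 : z • a = a := (mem_fixingSubgroup_iff G).1 (hRa hz.1) a rfl
      refine ⟨h2, (hN z hz.2 b (Or.inr rfl)).resolve_left fun e => hab ?_⟩
      exact smul_left_cancel z (h2.trans e.symm)
    obtain ⟨y, hy⟩ := htr.exists_smul_eq a b
    obtain ⟨z, hz, hzy⟩ := H16.witt_fixing hQ y (by
      rintro q hq _ rfl; rw [hy]; exact (hP.le hq).2)
    have h1 : z • a = b := (hzy a rfl).trans hy
    exact hsw z h1 ((hN z hz b (Or.inr rfl)).resolve_right fun e =>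
      hab (smul_left_cancel z (h1.trans e.symm)))
  · intro p hp hkp _ a
    have := Fact.mk hp
    by_contra hcon
    push Not at hcon
    obtain ⟨P, hP⟩ := H4.IsSylowIn.exists_isSylowIn p (MulAction.stabilizer G a)
    have hP1 : P ≠ ⊥ := by
      rintro rfl
      exact hP.not_dvd (by rw [Subgroup.relIndex_bot_left]; exact hcon.1)
    obtain ⟨u, hu1⟩ := Subgroup.ne_bot_iff_exists_ne_one.1 hP1
    have hQ : H4.IsSylowIn p P ⊤ := by
      apply H4.IsSylowIn.of_maximal hP.isPGroup le_top
      intro R hR _ hPR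
      by_contra hn
      have h1 := H4.lt_inf_normalizer_of_isPGroup hR (lt_of_le_not_ge hPR hn)
      refine h1.ne (hP.eq_of_le (hR.to_le inf_le_left) ?_ h1.le).symm
      set N := R ⊓ Subgroup.normalizer (P : Set G)
      have hN : IsPGroup p N := hR.to_le inf_le_left
      obtain ⟨n, hn⟩ := IsPGroup.iff_card.1 hN
      obtain ⟨j, -, hj⟩ := (Nat.dvd_prime_pow hp).1 (hn ▸ H16.ncard_orbit_dvd (G := N) a)
      have h2 : MulAction.orbit N a ⊆ MulAction.fixedBy Ω (u : G) := by
        rintro _ ⟨z, rfl⟩
        have h1 := hP.le ((Subgroup.mem_normalizer_iff''.1 z.2.2 u).1 u.2)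
        change (u : G) • (z : G) • a = (z : G) • a
        rw [← inv_smul_eq_iff, ← mul_smul, ← mul_smul]
        exact h1
      have h3 := (Set.ncard_le_ncard h2).trans (hfix u fun e => hu1 (Subtype.ext e))
      rcases j with _ | j
      · rwa [pow_zero, H16.ncard_orbit_subgroup, Subgroup.relIndex_eq_one] at hj
      · rw [hj, pow_succ] at h3
        have := Nat.le_mul_of_pos_left p (pow_pos hp.pos j)
        omega
    apply hQ.not_dvd
    rw [Subgroup.relIndex_top_right]
    exact hcon.2.trans (Subgroup.index_dvd_of_le hP.le)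

end Cfsg.Agent.S3389
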