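import Cfsg.Statements.S3396
import Mathlib
import Cfsg.Agent.H21.Epo2

set_option autoImplicit false
open Cfsg

namespace Cfsg.Agent.S3396

/-- Let G be a finite group whose order has at least three distinct prime divisors, and suppose every nonidentity element of G has order a power of 2 or a prime other than 5. Then G is isomorphic to PSL₂(7) (here F is any field with 7 elements). In particular a finite group whose set of element orders is {1, 2, 3, 4, 7} is PSL₂(7). -/
theorem result {G : Type*} [Group G] [Finite G]
    {F : Type*} [Field F] [Fintype F] (hF : Fintype.card F = 7)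
    (h3 : 3 ≤ (Nat.card G).primeFactors.card)
    (hord : ∀ g : G, g ≠ 1 → (∃ k : ℕ, orderOf g = 2 ^ k) ∨ ((orderOf g).Prime ∧ orderOf g ≠ 5)) :
    Nonempty (G ≃* Matrix.ProjectiveSpecialLinearGroup (Fin 2) F) := by
  have e : H21.EP G := fun g hg => by
    rcases hord g hg with ⟨k, h⟩ | h
    · exact h ▸ Nat.prime_two.isPrimePow.pow fun e => hg (orderOf_eq_one_iff.1 (by simpa [e] using h))
    · exact h.1.isPrimePow
  have no : ∀ n, n = 5 ∨ n = 9 → ¬ H21.HasO G n := by
    rintro n hn ⟨g, hg⟩
    rcases hord g (by rintro rfl; simp at hg; omega) with ⟨k, h⟩ | h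
    · rcases k with _ | k
      · omega
      · omega
    · rcases hn with rfl | rfl
      · exact h.2 hg
      · exact absurd (hg ▸ h.1) (by norm_num)
  have five : ∀ {H : Type _} [Group H] [Finite H], 5 ∣ Nat.card H → H21.HasO H 5 :=
    H21.hasO_of_prime Nat.prime_five
  rcases e.struct with h1 | (h1 | h1 | h1 | h1) | (h1 | h1 | h1) | h1 | h1
  · exact absurd h1 (e.not_sol h3)
  · exact absurd (h1.hasO (by norm_num)).quo (no 5 (by simp))
  · exact absurd (h1.hasO (by norm_num)).quo (no 9 (by simp))
  · exact absurd (five (h1.five le_rfl)).quo (no 5 (by simp))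
  · exact absurd (five (h1.five one_le_two)).quo (no 5 (by simp))
  · exact H21.PSLq.equiv (hF ▸ h1)
  · exact absurd (h1.hasO (by norm_num)) (no 5 (by simp))
  · exact absurd (h1.hasO (by norm_num)) (no 9 (by simp))
  · exact absurd (five (by rw [h1.card]; norm_num)) (no 5 (by simp))
  · exact absurd (five (by rw [h1.card]; norm_num)) (no 5 (by simp))

end Cfsg.Agent.S3396
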