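import Cfsg.Statements.S3412
import Mathlib
import Cfsg.Agent.H23.L33b
-- import your own Cfsg.Agent.* helpers here

set_option autoImplicit false
open Cfsg

namespace Cfsg.Agent.S3412

/-- Let H be a finite group whose commuting graph (vertices the non-identity elements, two joined when they commute) is isomorphic to that of PSL_3(3): there is a bijection between the non-identity elements of H and of PSL_3(3) under which two elements commute exactly when their images do. Then H ≅ PSL_3(3). -/
theorem result {H : Type*} [Group H] [Finite H]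
    (f : {h : H // h ≠ 1} ≃ {g : Matrix.ProjectiveSpecialLinearGroup (Fin 3) (ZMod 3) // g ≠ 1})
    (hf : ∀ x y : {h : H // h ≠ 1}, (x : H) * y = y * x ↔ ((f x) : Matrix.ProjectiveSpecialLinearGroup (Fin 3) (ZMod 3)) * (f y) = (f y) * (f x)) :
    Nonempty (H ≃* Matrix.ProjectiveSpecialLinearGroup (Fin 3) (ZMod 3)) := by
  have := H10.isSimpleGroup_PSL (ι := Fin 3) (F := ZMod 3) (by simp)
  obtain ⟨z, hz⟩ := exists_prime_orderOf_dvd_card'
    (G := Matrix.ProjectiveSpecialLinearGroup (Fin 3) (ZMod 3)) 13
    (by rw [H23.L33.card_psl]; norm_num)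
  obtain ⟨h1, y, hs⟩ := H23.cg_sc f hf (H23.L33.sc13 H23.L33.card_psl hz).1
  rw [H23.L33.card_psl] at h1
  have h2 := H23.sc_card hs
  have h3 := hs.syl1.relIndex_dvd
  have h4 : _ % 13 = 1 := hs.syl1.index_modEq
  have h5 := Nat.le_of_dvd (by norm_num) h3
  have he : (H24.D1.CC y).relIndex (H24.D1.NN y) = 3 := by
    interval_cases (H24.D1.CC y).relIndex (H24.D1.NN y) <;> omega
  have hk : (H24.D1.NN y).index = 144 := by rw [he] at h2; omega
  have := H23.simple_of_sc hs (he ▸ Nat.prime_three) (by omega) fun S _ hS => by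
    have a1 := hk ▸ hs.card_dvd_index hS
    have a2 : _ % 13 = 1 := hs.card_modEq hS
    have a3 := H23.fact_modEq hs hS Nat.prime_two
    have a4 := Nat.le_of_dvd (by norm_num) a1
    rw [← Subgroup.card_eq_one]
    interval_cases Nat.card S <;> first | omega | (revert a3; decide +kernel)
  exact H23.L33.iso h1

end Cfsg.Agent.S3412
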