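import Cfsg.Statements.S3413
import Mathlib
import Cfsg.Agent.H23.M11c
import Cfsg.Agent.H14.M24f
-- import your own Cfsg.Agent.* helpers here

set_option autoImplicit false
open Cfsg

namespace Cfsg.Agent.S3413

/-- Let H be a finite group whose commuting graph (vertices the non-identity elements, two joined when they commute) is isomorphic to that of the Mathieu group M_11: there is a bijection between the non-identity elements of H and of M_11 under which two elements commute exactly when their images do. Then H ≅ M_11. -/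
theorem result {H : Type*} [Group H] [Finite H]
    (f : {h : H // h ≠ 1} ≃ {g : ↥Cfsg.Spor.M11 // g ≠ 1})
    (hf : ∀ x y : {h : H // h ≠ 1}, (x : H) * y = y * x ↔ ((f x) : ↥Cfsg.Spor.M11) * (f y) = (f y) * (f x)) :
    Nonempty (H ≃* ↥Cfsg.Spor.M11) := by
  have := H14.simple_M11
  obtain ⟨z, hz⟩ := exists_prime_orderOf_dvd_card' (G := Spor.M11) 11 (by rw [H14.card_M11]; norm_num)
  obtain ⟨h1, y, h2⟩ := H23.cg_sc f hf (H23.M11.sc11 H14.card_M11 hz).1
  rw [H14.card_M11] at h1
  have := H23.M11.simple_of_sc11 h1 h2
  obtain ⟨e⟩ := H23.M11.iso h1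
  obtain ⟨g⟩ := H23.M11.iso H14.card_M11
  exact ⟨e.trans g.symm⟩

end Cfsg.Agent.S3413
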