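import Cfsg.Statements.S3421
import Mathlib
import Cfsg.Agent.GW.Sp2

set_option autoImplicit false
open Cfsg

namespace Cfsg.Agent.S3421



/-- Let F be a finite field with more than 3 elements. A finite group G is isomorphic to PSL(2, F) if and only if G has the same set of element orders and the same order as PSL(2, F). -/
theorem result {G : Type*} [Group G] [Finite G] {F : Type*} [Field F] [Fintype F] (hF : 3 < Fintype.card F) :
    Nonempty (G ≃* Matrix.ProjectiveSpecialLinearGroup (Fin 2) F) ↔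
      (Set.range (orderOf : G → ℕ) = Set.range (orderOf : Matrix.ProjectiveSpecialLinearGroup (Fin 2) F → ℕ) ∧
        Nat.card G = Nat.card (Matrix.ProjectiveSpecialLinearGroup (Fin 2) F)) := by
  refine ⟨fun ⟨e⟩ => ⟨?_, Nat.card_congr e.toEquiv⟩, fun h => GW.psl2_spec hF h.1 h.2⟩
  ext n
  exact ⟨fun ⟨g, h⟩ => ⟨e g, (e.orderOf_eq g).trans h⟩, fun ⟨g, h⟩ => ⟨e.symm g, (e.symm.orderOf_eq g).trans h⟩⟩

end Cfsg.Agent.S3421
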