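import Cfsg.Statements.S3493
import Mathlib
import Cfsg.Agent.FT.Main
import Cfsg.Agent.FT.Nil

set_option autoImplicit false
open Cfsg

namespace Cfsg.Agent.S3493

open Subgroup Cfsg.Agent.FT MulAction

section
variable {G : Type*} [Group G] {Ω : Type*} [MulAction G Ω]

theorem max_stab {α β : Ω} (h : IsPreprimitive (stabilizer G α) (orbit (stabilizer G α) β))
    (K : Subgroup G) (h1 : stabilizer G α ⊓ stabilizer G β ≤ K) :
    stabilizer G α ⊓ K ≤ stabilizer G β ∨ stabilizer G α ≤ K := by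
  let b : orbit (stabilizer G α) β := ⟨β, mem_orbit_self β⟩
  have hb : ∀ x : stabilizer G α, x ∈ stabilizer (stabilizer G α) b ↔ (x : G) • β = β := fun x => by
    rw [mem_stabilizer_iff, Subtype.ext_iff]; rfl
  rcases subsingleton_or_nontrivial (orbit (stabilizer G α) β) with hs | hs
  · exact Or.inl fun x hx => (hb ⟨x, hx.1⟩).1 (Subsingleton.elim _ _)
  have hc := IsPreprimitive.isCoatom_stabilizer_of_isPreprimitive (stabilizer G α) b
  have h2 : stabilizer (stabilizer G α) b ≤ K.subgroupOf (stabilizer G α) := fun x hx =>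
    h1 ⟨x.2, (hb x).1 hx⟩
  rcases h2.eq_or_lt with e | e
  · exact Or.inl fun x hx => (hb ⟨x, hx.1⟩).1 (e ▸ (hx.2 : (⟨x, hx.1⟩ : stabilizer G α) ∈ K.subgroupOf _))
  · exact Or.inr (subgroupOf_eq_top.1 (hc.2 _ e))

theorem semireg [FaithfulSMul G Ω] {C : Subgroup G} {α : Ω} (hC : ∀ w, ∃ c ∈ C, c • α = w) {x : G}
    (hx : ∀ c ∈ C, c * x = x * c) (h : x • α = α) : x = 1 :=
  eq_of_smul_eq_smul fun w : Ω => by
    obtain ⟨c, hc, rfl⟩ := hC w
    rw [← mul_smul, ← hx c hc, mul_smul, h, one_smul]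

theorem normal_trans [FaithfulSMul G Ω] [IsPreprimitive G Ω] {N : Subgroup G} [N.Normal]
    (hN : N ≠ ⊥) (α w : Ω) : ∃ c ∈ N, c • α = w := by
  have : IsPretransitive N Ω := IsQuasiPreprimitive.isPretransitive_of_normal (by
    intro h
    refine hN (eq_bot_iff.2 fun x hx => mem_bot.2 (eq_of_smul_eq_smul fun w : Ω => ?_))
    rw [one_smul]
    exact (h ▸ Set.mem_univ w : w ∈ fixedPoints N Ω) ⟨x, hx⟩)
  obtain ⟨c, hc⟩ := exists_smul_eq N α w
  exact ⟨c, c.2, hc⟩

theorem exists_real [Finite G] {T : Subgroup G} (hF : F(T) = ⊥) (hT : T ≠ ⊥) :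
    ∃ x ∈ T, ∃ t ∈ T, t * x * t⁻¹ = x⁻¹ ∧ x⁻¹ ≠ x := by
  have h2 : 2 ∣ #T := by
    by_contra h
    exact Sol.fitting_ne_bot (odd_order_solvable (Nat.odd_iff.2 (by omega))) hT hF
  haveI : Fact (Nat.Prime 2) := ⟨Nat.prime_two⟩
  obtain ⟨⟨t, ht⟩, ho⟩ := exists_prime_orderOf_dvd_card' 2 h2
  rw [← Subgroup.orderOf_coe] at ho
  have htt : t * t = 1 := by rw [← pow_two, ← ho]; exact pow_orderOf_eq_one _
  have hi : t⁻¹ = t := inv_eq_of_mul_eq_one_right htt
  by_contra hne
  push Not at hne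
  have c1 : ∀ g ∈ T, t * (g * t * g⁻¹) = (g * t * g⁻¹) * t := fun g hg => by
    have e : (t * (g * t * g⁻¹))⁻¹ = (g * t * g⁻¹) * t := by
      simp only [mul_inv_rev, hi, inv_inv, mul_assoc]
    rw [← e]
    refine (hne _ (mul_mem ht (mul_mem (mul_mem hg ht) (inv_mem hg))) t ht ?_).symm
    rw [e, hi, ← mul_assoc, ← mul_assoc, htt, one_mul]
  let s : Set G := {y | ∃ g ∈ T, y = g * t * g⁻¹}
  have hA : closure s ⊴ T := ⟨(closure_le _).2 (by
      rintro _ ⟨g, hg, rfl⟩; exact mul_mem (mul_mem hg ht) (inv_mem hg)),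
    norms_closure (by
      rintro g hg _ ⟨k, hk, rfl⟩; exact ⟨g * k, mul_mem hg hk, by group⟩)⟩
  have hab : Ab (closure s) := Subgroup.isMulCommutative_closure (by
    rintro _ ⟨g, hg, rfl⟩ _ ⟨k, hk, rfl⟩
    calc _ = g * (t * ((g⁻¹ * k) * t * (g⁻¹ * k)⁻¹)) * g⁻¹ := by group
      _ = _ := by rw [c1 _ (mul_mem (inv_mem hg) hk)]; group)
  have : t ∈ F(T) := hab.le_fitting hA (subset_closure ⟨1, one_mem _, by group⟩)
  rw [hF, mem_bot] at this
  simp only [this, orderOf_one] at ho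
  omega

theorem two_regular [Finite G] [FaithfulSMul G Ω] {α : Ω}
    (hep : ∀ w : Ω, IsPreprimitive (stabilizer G α) (orbit (stabilizer G α) w))
    {T C : Subgroup G} (hF : F(T) = ⊥) (hT : T ≠ ⊥) (hC : ∀ w, ∃ c ∈ C, c • α = w)
    (hCT : C ≤ C(T)) (hcj : ∀ g : G, g ∈ N(T) ∨ cj g T ≤ C(T)) : False := by
  obtain ⟨x, hx, t, ht, e1, e2⟩ := exists_real hF hT
  have sr : ∀ y ∈ T, ∀ z ∈ T, y • α = z • α → y = z := fun y hy z hz h => by
    have := semireg hC (x := z⁻¹ * y) (fun c hc => (hCT hc _ (mul_mem (inv_mem hz) hy)).symm)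
      (by rw [mul_smul, h, inv_smul_smul])
    exact (inv_mul_eq_one.1 this).symm
  have P : ∀ h ∈ stabilizer G α, ∀ y ∈ T, ∀ z ∈ T, h • y • α = z • α → h • y⁻¹ • α = z⁻¹ • α := by
    intro h hh y hy z hz e
    have hh' : h⁻¹ • α = α := inv_mem hh
    have e3 : (h * y * h⁻¹) • α = z • α := by rw [mul_smul, mul_smul, hh', e]
    have e4 : (h * y * h⁻¹) * z = z * (h * y * h⁻¹) := by
      rcases hcj h with h1 | h1
      · rw [sr _ (conj_mem h1 hy) z hz e3]
      · exact (h1 (conj_mem_cj.2 hy) z hz).symm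
    calc h • y⁻¹ • α = (h * y * h⁻¹)⁻¹ • α := by
          rw [mul_inv_rev, mul_inv_rev, inv_inv, mul_smul, mul_smul, hh']
      _ = ((h * y * h⁻¹)⁻¹ * z⁻¹) • (h * y * h⁻¹) • α := by
          rw [e3, mul_smul ((h * y * h⁻¹)⁻¹), inv_smul_smul]
      _ = _ := by rw [← mul_inv_rev, ← e4, mul_inv_rev, mul_smul, inv_smul_smul]
  let K : Subgroup G :=
    { carrier := {h | h ∈ stabilizer G α ∧ (h • x • α = x • α ∨ h • x • α = x⁻¹ • α)}
      one_mem' := ⟨one_mem _, Or.inl (one_smul _ _)⟩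
      mul_mem' := by
        rintro a b ⟨ha, ha'⟩ ⟨hb, hb'⟩
        refine ⟨mul_mem ha hb, ?_⟩
        rw [mul_smul]
        rcases hb' with h | h <;> rw [h]
        · exact ha'
        · rcases ha' with h' | h'
          · exact Or.inr (P a ha x hx x hx h')
          · exact Or.inl (by simpa using P a ha x hx _ (inv_mem hx) h')
      inv_mem' := by
        rintro a ⟨ha, ha'⟩
        refine ⟨inv_mem ha, ?_⟩
        rw [inv_smul_eq_iff, inv_smul_eq_iff]
        rcases ha' with h' | h'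
        · exact Or.inl h'.symm
        · exact Or.inr (by simpa using (P a ha x hx _ (inv_mem hx) h').symm) }
  have cjH : ∀ u ∈ T, ∃ r ∈ stabilizer G α, r • x • α = (u * x * u⁻¹) • α := fun u hu => by
    obtain ⟨c, hc, e⟩ := hC (u⁻¹ • α)
    refine ⟨u * c, by rw [mem_stabilizer_iff, mul_smul, e, smul_inv_smul], ?_⟩
    rw [mul_smul, ← mul_smul c, ← hCT hc x hx, mul_smul, e, mul_smul, mul_smul]
  rcases max_stab (hep (x • α)) K (fun h hh => ⟨hh.1, Or.inl hh.2⟩) with h | h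
  · obtain ⟨r, hr, e⟩ := cjH t ht
    rw [e1] at e
    have : r • x • α = x • α := h ⟨hr, hr, Or.inr e⟩
    exact e2 (sr _ (inv_mem hx) x hx (e.symm.trans this))
  · have hn : ⟪x⟫ ⊴ T := ⟨zpowers_le.2 hx, le_nrm_iff.2 fun u hu y hy => by
      obtain ⟨k, rfl⟩ := hy
      obtain ⟨r, hr, e⟩ := cjH u hu
      have m := mul_mem (mul_mem hu hx) (inv_mem hu)
      show u * x ^ k * u⁻¹ ∈ ⟪x⟫
      rw [← conj_zpow]
      refine zpow_mem ?_ k
      rcases (h hr).2 with h' | h'
      · rw [sr _ m x hx (e.symm.trans h')]; exact mem_zpowers x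
      · rw [sr _ m _ (inv_mem hx) (e.symm.trans h')]; exact inv_mem (mem_zpowers x)⟩
    have : x ∈ F(T) := (ab_zpowers x).le_fitting hn (mem_zpowers x)
    rw [hF, mem_bot] at this
    exact e2 (by rw [this, inv_one])

end

/-- An extremely primitive permutation group is of affine type or almost simple. Let a finite group G act faithfully and primitively on a finite set Ω with at least two points, in such a way that every point stabilizer acts primitively on each of its own orbits in Ω (an orbit of size one counts as primitive). Then either G has a non-trivial abelian normal subgroup whose elements other than the identity fix no point (affine type), or G has a non-abelian simple normal subgroup with trivial centralizer (almost simple). -/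
theorem result {G : Type*} [Group G] [Finite G] {Ω : Type*} [Fintype Ω] [MulAction G Ω] [FaithfulSMul G Ω] (hΩ : 2 ≤ Fintype.card Ω) (hprim : MulAction.IsPreprimitive G Ω) (hep : ∀ (α : Ω) (ω : Ω), MulAction.IsPreprimitive (MulAction.stabilizer G α) (MulAction.orbit (MulAction.stabilizer G α) ω)) :
    (∃ N : Subgroup G, N.Normal ∧ N ≠ ⊥ ∧ IsMulCommutative N ∧ ∀ ω : Ω, MulAction.stabilizer N ω = ⊥) ∨ (∃ T : Subgroup G, T.Normal ∧ IsSimpleGroup T ∧ ¬ IsMulCommutative T ∧ Subgroup.centralizer (T : Set G) = ⊥) := by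
  have : Nontrivial Ω := Fintype.one_lt_card_iff_nontrivial.1 hΩ
  obtain ⟨α, β0, hαβ⟩ := exists_pair_ne Ω
  by_cases hF : F((⊤ : Subgroup G)) = ⊥
  swap
  · left
    have hn : Z(F((⊤ : Subgroup G))).Normal := nml_top_iff.1 (fitting_nml ⊤).center
    have h1 := (fitting_nil (⊤ : Subgroup G)).center_ne_bot hF
    refine ⟨_, hn, h1, ab_center _, fun w => eq_bot_iff.2 fun x hx => mem_bot.2 (Subtype.ext ?_)⟩
    exact semireg (normal_trans h1 w) (fun c hc => (ab_center _).comm hc x.2) hx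
  right
  have hG : (⊤ : Subgroup G) ≠ ⊥ := fun h => by
    obtain ⟨g, hg⟩ := exists_smul_eq G α β0
    rw [mem_bot.1 (h ▸ mem_top g : g ∈ (⊥ : Subgroup G)), one_smul] at hg
    exact hαβ hg
  obtain ⟨N, -, hN⟩ := exists_minNml hG (le_nrm ⊤)
  have hNn : N ⊴ ⊤ := ⟨le_top, hN.nrm⟩
  have : N.Normal := nml_top_iff.1 hNn
  have hFN : F(N) = ⊥ := le_bot_iff.1 (hF ▸ fitting_mono_nml hNn)
  have hNab : ¬ Ab N := fun h => hN.ne (le_bot_iff.1 (hFN ▸ h.le_fitting (Nml.refl N)))
  obtain ⟨T, hTN, hT⟩ := exists_minNml hN.ne (le_nrm N)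
  have hFT : F(T) = ⊥ := le_bot_iff.1 (hFN ▸ fitting_mono_nml ⟨hTN, hT.nrm⟩)
  have hcj : ∀ g : G, g ∈ N(T) ∨ cj g T ≤ C(T) := fun g => by
    have h1 := hT.cj g
    rw [cj_of_mem_nrm (hN.nrm (mem_top g))] at h1
    have h2 : cj g T ≤ N := cj_le_of_nrm (hN.nrm (mem_top g)) hTN
    rcases h1.inf_eq_bot_or_le hT.nrm with h | h
    · exact Or.inr (cents_of_norms_of_inf (hTN.trans h1.nrm) (h2.trans hT.nrm) h)
    · exact Or.inl (mem_nrm_of_cj_le h)
  have trN := normal_trans hN.ne α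
  by_cases hTe : T = N
  · subst hTe
    refine ⟨T, this, ?_, hNab, ?_⟩
    · haveI : Nontrivial T := (nontrivial_iff_ne_bot T).2 hN.ne
      refine ⟨fun K hK => (eq_or_ne K ⊥).imp_right fun h => ?_⟩
      have := hT.min (K.map T.subtype) (map_subtype_le _)
        (fun e => h ((Subgroup.map_eq_bot_iff_of_injective _ T.subtype_injective).1 e))
        (nml_map_subtype K).nrm
      refine eq_top_iff.2 fun x _ => ?_
      obtain ⟨y, hy, e⟩ := this.ge x.2
      rwa [← Subtype.ext e]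
    · by_contra h
      exact two_regular (hep α) hFT hN.ne (normal_trans h α) le_rfl hcj
  exfalso
  have hHT : ¬ stabilizer G α ≤ N(T) := fun h => hTe (hN.min T hTN hT.ne fun g _ => by
    obtain ⟨n, hn, e⟩ := trN (g • α)
    have : g = n * (n⁻¹ * g) := by group
    rw [this]
    exact mul_mem (hT.nrm hn) (h (by rw [mem_stabilizer_iff, mul_smul, ← e, inv_smul_smul])))
  have hco := IsPreprimitive.isCoatom_stabilizer_of_isPreprimitive G α
  have core : ∀ X : Subgroup G, X ≤ stabilizer G α → X.Normal → X = ⊥ := fun X h1 h2 => by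
    by_contra h
    obtain ⟨c, hc, e⟩ := normal_trans h α β0
    exact hαβ ((h1 hc).symm.trans e)
  obtain ⟨⟨t, ht⟩, ht1⟩ := ne_bot_iff_exists_ne_one.1 hT.ne
  replace ht1 : t ≠ 1 := fun h => ht1 (Subtype.ext h)
  by_cases hR : stabilizer G α ⊓ N = ⊥
  · have sr : ∀ y ∈ N, ∀ z ∈ N, y • α = z • α → y = z := fun y hy z hz h => by
      have : z⁻¹ * y ∈ stabilizer G α ⊓ N :=
        mem_inf.2 ⟨by rw [mem_stabilizer_iff, mul_smul, h, inv_smul_smul], mul_mem (inv_mem hz) hy⟩
      rw [hR, mem_bot] at this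
      exact (inv_mul_eq_one.1 this).symm
    have fx : ∀ h ∈ stabilizer G α, h • t • α = t • α → h * t * h⁻¹ = t := fun h hh e =>
      sr _ (this.conj_mem _ (hTN ht) h) t (hTN ht) (by
        have hh' : h⁻¹ • α = α := inv_mem hh
        rw [mul_smul, mul_smul, hh', e])
    have hK := (max_stab (hep α (t • α)) N(T) (fun h hh => (hcj h).resolve_right fun h1 => by
      have h2 := h1 (conj_mem_cj.2 ht)
      rw [fx h hh.1 hh.2] at h2
      have : t ∈ F(T) := center_le_fitting T ⟨ht, h2⟩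
      rw [hFT, mem_bot] at this
      exact ht1 this)).resolve_right hHT
    let s : Set G := {y | ∃ g ∈ stabilizer G α, y = g * t * g⁻¹}
    have hab : Ab (closure s) := Subgroup.isMulCommutative_closure (by
      rintro _ ⟨g, hg, rfl⟩ _ ⟨k, hk, rfl⟩
      have c1 : t * ((g⁻¹ * k) * t * (g⁻¹ * k)⁻¹) = ((g⁻¹ * k) * t * (g⁻¹ * k)⁻¹) * t := by
        have m := mul_mem (inv_mem hg) hk
        rcases hcj (g⁻¹ * k) with h | h
        · rw [fx _ m (hK ⟨m, h⟩)]
        · exact h (conj_mem_cj.2 ht) t ht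
      calc _ = g * (t * ((g⁻¹ * k) * t * (g⁻¹ * k)⁻¹)) * g⁻¹ := by group
        _ = _ := by rw [c1]; group)
    have hs : closure s ≤ N := (closure_le _).2 (by
      rintro _ ⟨g, hg, rfl⟩; exact this.conj_mem _ (hTN ht) g)
    have hn : stabilizer G α ≤ N(closure s) := norms_closure (by
      rintro g hg _ ⟨k, hk, rfl⟩; exact ⟨g * k, mul_mem hg hk, by group⟩)
    have hts : t ∈ closure s := subset_closure ⟨1, one_mem _, by group⟩
    have htH : t ∉ stabilizer G α := fun h => ht1 (mem_bot.1 (hR ▸ (⟨h, hTN ht⟩ : t ∈ _ ⊓ N)))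
    have h3 : N(closure s) = ⊤ := hco.2 _ (lt_of_le_of_ne hn fun e => htH (e ▸ le_nrm _ hts))
    exact hNab (hN.min _ hs (fun e => ht1 (mem_bot.1 (e ▸ hts))) h3.ge ▸ hab)
  · set R := stabilizer G α ⊓ N with hRd
    have hHR : stabilizer G α ≤ N(R) := normsI (le_nrm _) (le_top.trans hN.nrm)
    have fixR : ∀ β, R ≤ stabilizer G β → β = α := fun β h => by
      obtain ⟨n, hn, rfl⟩ := trN β
      have h1 : n⁻¹ ∈ N(R) := mem_nrm.2 fun x hx => mem_inf.2 ⟨by
        have := h hx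
        rw [mem_stabilizer_iff] at this ⊢
        rw [inv_inv, mul_smul, mul_smul, this, inv_smul_smul], this.conj_mem _ hx.2 _⟩
      rcases hHR.eq_or_lt with e | e
      · exact inv_mem_iff.1 (e ▸ h1 : n⁻¹ ∈ stabilizer G α)
      · exact absurd (core R inf_le_left (nml_top_iff.1 ⟨le_top, (hco.2 _ e).ge⟩)) hR
    have inv : ∀ h ∈ stabilizer G α, ∀ u ∈ T, ∃ v ∈ T, h • u • α = v • α := fun h hh u hu => by
      by_cases e : u • α = α
      · exact ⟨1, one_mem _, by rw [e, one_smul]; exact hh⟩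
      have h1 := (max_stab (hep α (u • α)) (R ⊔ (stabilizer G α ⊓ stabilizer G (u • α)))
        le_sup_right).resolve_left fun h => e (fixR _ fun x hx => h ⟨hx.1, mem_sup_left hx⟩)
      have h2 : h ∈ ((R ⊔ (stabilizer G α ⊓ stabilizer G (u • α)) : Subgroup G) : Set G) := h1 hh
      rw [coe_mul_of_right_le_normalizer_left _ _ (inf_le_left.trans hHR)] at h2
      obtain ⟨r, hr, y, hy, rfl⟩ := h2
      have y2 : y • u • α = u • α := hy.2
      have r1 : r⁻¹ • α = α := (stabilizer G α).inv_mem hr.1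
      exact ⟨r * u * r⁻¹, conj_mem (hT.nrm hr.2) hu, by
        rw [mul_smul, y2, mul_smul, mul_smul, r1]⟩
    let K : Subgroup G :=
      { carrier := {g | ∀ w, (∃ u ∈ T, w = u • α) ↔ ∃ u ∈ T, g • w = u • α}
        one_mem' := fun w => by rw [one_smul]
        mul_mem' := fun {a b} ha hb w => by rw [mul_smul, ← ha, ← hb]
        inv_mem' := fun {a} ha w => by rw [ha (a⁻¹ • w), smul_inv_smul] }
    have mK : ∀ X : Subgroup G, (∀ h ∈ X, ∀ u ∈ T, ∃ v ∈ T, h • u • α = v • α) → X ≤ K := by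
      intro X hX g hg w
      constructor
      · rintro ⟨u, hu, rfl⟩; exact hX g hg u hu
      · rintro ⟨u, hu, e⟩
        rw [← inv_smul_smul g w, e]
        exact hX _ (inv_mem hg) u hu
    have hTH : ¬ T ≤ stabilizer G α := fun h => by
      have : ∀ w, t • w = w := fun w => by
        obtain ⟨n, hn, rfl⟩ := trN w
        have : (n⁻¹ * t * n) • α = α := h (conj_mem' (hT.nrm hn) ht)
        rwa [mul_smul, mul_smul, inv_smul_eq_iff] at this
      exact ht1 (eq_of_smul_eq_smul fun w : Ω => (this w).trans (one_smul G w).symm)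
    have hK : K = ⊤ := hco.2 _ (lt_of_le_of_ne (mK _ inv) fun e => hTH (e ▸ mK T fun h hh u hu =>
      ⟨h * u, mul_mem hh hu, (mul_smul _ _ _).symm⟩))
    obtain ⟨g, hg, hg'⟩ := SetLike.not_le_iff_exists.1 hHT
    refine two_regular (hep α) hFT hT.ne (C := cj g T) (fun w => ?_) ((hcj g).resolve_left hg') hcj
    obtain ⟨k, hk⟩ := exists_smul_eq G α (g⁻¹ • w)
    obtain ⟨u, hu, e⟩ := ((hK ▸ mem_top k : k ∈ K) α).1 ⟨1, one_mem _, (one_smul _ _).symm⟩
    have g1 : g⁻¹ • α = α := inv_mem hg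
    exact ⟨g * u * g⁻¹, conj_mem_cj.2 hu, by
      rw [mul_smul, mul_smul, g1, ← e, hk, smul_inv_smul]⟩

end Cfsg.Agent.S3493
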