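import Cfsg.Statements.S3498
import Mathlib
import Cfsg.Agent.H4.SylowIn
import Cfsg.Agent.H6.Frobenius
import Cfsg.Agent.H2.Subnormal

set_option autoImplicit false
open Cfsg

namespace Cfsg.Agent.S3498

/-- A maximal subgroup of a finite almost simple group does not have prime order. Here G is almost simple in the sense that it has a non-abelian simple normal subgroup T with trivial centralizer. -/
theorem result {G : Type*} [Group G] [Finite G] (T : Subgroup G) [T.Normal] (hT : IsSimpleGroup T) (hTc : ¬ IsMulCommutative T)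
    (hC : Subgroup.centralizer (T : Set G) = ⊥) (H : Subgroup G) (hmax : IsCoatom H) : ¬ (Nat.card H).Prime := by
  intro hp
  set p := Nat.card H with hpdef
  have := Fact.mk hp
  have hcyc : IsCyclic H := isCyclic_of_prime_card hpdef.symm
  have hHp : IsPGroup p H := IsPGroup.of_card (n := 1) (by rw [pow_one])
  have hH1 : H ≠ ⊥ := fun e => by rw [e] at hpdef; simp at hpdef; exact hp.one_lt.ne' hpdef
  have hnn : ¬ H.Normal := by
    intro hn
    rcases hT.eq_bot_or_eq_top_of_normal (H.subgroupOf T) inferInstance with h | h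
    · apply hH1
      rw [eq_bot_iff, ← hC]
      intro x hx t ht
      exact (Subgroup.commute_of_normal_of_disjoint H T hn inferInstance
        (Subgroup.subgroupOf_eq_bot.1 h) x t hx ht).symm
    · rw [Subgroup.subgroupOf_eq_top] at h
      apply hTc
      refine ⟨⟨fun a b => Subtype.ext ?_⟩⟩
      have := hcyc.isMulCommutative.is_comm.comm ⟨a, h a.2⟩ ⟨b, h b.2⟩
      exact congrArg (fun x : H => (x : G)) this
  have hN : Subgroup.normalizer (H : Set G) = H := by
    by_contra h
    exact hnn (Subgroup.normalizer_eq_top_iff.1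
      (hmax.2 _ (lt_of_le_of_ne Subgroup.le_normalizer (Ne.symm h))))
  have hS : H4.IsSylowIn p H ⊤ := by
    apply H4.IsSylowIn.of_maximal hHp le_top
    intro R hR _ hPR
    by_contra hn
    have h1 := H4.lt_inf_normalizer_of_isPGroup hR (lt_of_le_not_ge hPR hn)
    rw [hN] at h1
    exact h1.not_ge inf_le_right
  obtain ⟨P, hP⟩ := hS.exists_sylow_of_top
  have h1 : Subgroup.normalizer ((P : Subgroup G) : Set G) ≤
      Subgroup.centralizer ((P : Subgroup G) : Set G) := by
    rw [hP, hN]; exact Subgroup.le_centralizer_iff_isMulCommutative.2 hcyc.isMulCommutative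
  have h2 := MonoidHom.ker_transferSylow_isComplement' P h1
  have h3 := MonoidHom.not_dvd_card_ker_transferSylow P h1
  set K := (MonoidHom.transferSylow P h1).ker
  have hK1 : K ≠ ⊥ := by
    intro e
    have := h2.sup_eq_top
    rw [e, bot_sup_eq, hP] at this
    exact hmax.1 this
  obtain ⟨q, hq, hd⟩ := Nat.exists_prime_and_dvd ((Subgroup.one_lt_card_iff_ne_bot K).2 hK1).ne'
  have := Fact.mk hq
  have hqp : q ≠ p := fun e => h3 (e ▸ hd)
  have hcard : Nat.card K * p = Nat.card G := by rw [← h2.card_mul, hP]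
  have hQK : ∀ Q : Sylow q G, (Q : Subgroup G) ≤ K := by
    intro Q
    rw [← Subgroup.relIndex_eq_one]
    obtain ⟨n, hn⟩ := IsPGroup.iff_card.1 Q.isPGroup'
    have a1 : K.relIndex Q ∣ p := by
      have := Subgroup.relIndex_dvd_index_of_normal K (Q : Subgroup G)
      rwa [h2.symm.index_eq_card, hP] at this
    have a2 : K.relIndex Q ∣ q ^ n := hn ▸ Subgroup.relIndex_dvd_card K (Q : Subgroup G)
    exact Nat.eq_one_of_dvd_coprimes
      (Nat.Coprime.pow_right n ((Nat.coprime_primes hp hq).2 hqp.symm)) a1 a2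
  obtain ⟨Q, hQ⟩ := hHp.nonempty_fixed_point_of_prime_not_dvd_card (Sylow q G) (by
    intro h
    obtain ⟨Q⟩ : Nonempty (Sylow q G) := inferInstance
    apply h3
    rw [Q.card_eq_index_normalizer, ← Subgroup.relIndex_top_right,
      ← Q.normalizer_sup_eq_top' (hQK Q), H2.relIndex_sup_of_le_normalizer (by
        rw [Subgroup.normalizer_eq_top]; exact le_top)] at h
    exact h.trans (Subgroup.relIndex_dvd_card _ _))
  have hHQ : H ≤ Subgroup.normalizer ((Q : Subgroup G) : Set G) := fun g hg =>
    Sylow.smul_eq_iff_mem_normalizer.1 (hQ ⟨g, hg⟩)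
  have hQH : ¬ (Q : Subgroup G) ≤ H := by
    intro h
    have := (Q.dvd_card_of_dvd_card (hd.trans (Subgroup.card_subgroup_dvd_card K))).trans
      (Subgroup.card_dvd_of_le h)
    exact hqp ((Nat.prime_dvd_prime_iff_eq hq hp).1 this)
  have htop : H ⊔ Q = ⊤ := hmax.2 _ (lt_of_le_of_ne le_sup_left fun e => hQH (e ▸ le_sup_right))
  obtain ⟨n, hn⟩ := IsPGroup.iff_card.1 Q.isPGroup'
  have h5 := H2.card_sup_dvd_of_le_normalizer hHQ
  rw [htop, Subgroup.card_top, hn] at h5
  have hs : Group.IsSolvable G := H6.isSolvable_of_card_dvd (a := 1) hp hq (by rwa [pow_one])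
  exact hTc ⟨⟨IsSimpleGroup.comm_iff_isSolvable.2 inferInstance⟩⟩

end Cfsg.Agent.S3498
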