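import Cfsg.Statements.S3504
import Mathlib

set_option autoImplicit false
open Cfsg

namespace Cfsg.Agent.S3504

/-- For n ≥ 5, the fixed-point-free permutations of prime order in the symmetric group of degree n form a single conjugacy class if and only if n is a prime power. -/
theorem result (n : ℕ) (hn : 5 ≤ n) :
    Nat.card {c : ConjClasses (Equiv.Perm (Fin n)) // ∃ g : Equiv.Perm (Fin n), ConjClasses.mk g = c ∧ (orderOf g).Prime ∧ ∀ i : Fin n, g i ≠ i} = 1 ↔ IsPrimePow n := by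
  classical
  have key : ∀ g : Equiv.Perm (Fin n), (orderOf g).Prime → (∀ i, g i ≠ i) →
      g.cycleType = Multiset.replicate (n / orderOf g) (orderOf g) ∧ orderOf g ∣ n := by
    intro g hg hi
    obtain ⟨k, hk⟩ := Equiv.Perm.cycleType_prime_order hg
    have h1 := g.sum_cycleType
    rw [Finset.eq_univ_iff_forall.2 (fun i => Equiv.Perm.mem_support.2 (hi i)), Finset.card_univ,
      Fintype.card_fin, hk, Multiset.sum_replicate, smul_eq_mul] at h1
    refine ⟨?_, Dvd.intro_left _ h1⟩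
    rw [hk, Nat.div_eq_of_eq_mul_left hg.pos h1.symm]
  have ex : ∀ p : ℕ, p.Prime → p ∣ n → ∃ g : Equiv.Perm (Fin n), orderOf g = p ∧ ∀ i, g i ≠ i := by
    rintro p hp ⟨k, hk⟩
    obtain ⟨g, hg⟩ := (Equiv.Perm.exists_with_cycleType_iff (Fin n)
      (m := Multiset.replicate k p)).2 ⟨by simp [hk, mul_comm], fun a ha => by
        rw [Multiset.eq_of_mem_replicate ha]; exact hp.two_le⟩
    have hk0 : k ≠ 0 := by rintro rfl; omega
    refine ⟨g, ?_, fun i => ?_⟩
    · rw [← Equiv.Perm.lcm_cycleType, hg]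
      obtain ⟨k, rfl⟩ := Nat.exists_eq_succ_of_ne_zero hk0
      apply Nat.dvd_antisymm
      · rw [Multiset.lcm_dvd]; intro b hb; rw [Multiset.eq_of_mem_replicate hb]
      · exact Multiset.dvd_lcm (by simp)
    · have h1 := g.sum_cycleType
      rw [hg, Multiset.sum_replicate, smul_eq_mul] at h1
      have : g.support = Finset.univ := Finset.eq_univ_of_card _ (by
        rw [← h1, Fintype.card_fin, hk, mul_comm])
      exact Equiv.Perm.mem_support.1 (this ▸ Finset.mem_univ i)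
  rw [isPrimePow_iff_unique_prime_dvd, Nat.card_eq_one_iff_exists]
  constructor
  · rintro ⟨⟨c, g, rfl, hg, hi⟩, h⟩
    refine ⟨orderOf g, ⟨hg, (key g hg hi).2⟩, fun q hq => ?_⟩
    obtain ⟨g', hg', hi'⟩ := ex q hq.1 hq.2
    have := congrArg Subtype.val (h ⟨_, g', rfl, hg' ▸ hq.1, hi'⟩)
    simp only [ConjClasses.mk_eq_mk_iff_isConj] at this
    obtain ⟨x, rfl⟩ := isConj_iff.1 this
    rw [← hg']
    exact ((MulAut.conj x).orderOf_eq g').symm
  · rintro ⟨p, hp, hu⟩
    obtain ⟨g, hg, hi⟩ := ex p hp.1 hp.2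
    refine ⟨⟨_, g, rfl, hg ▸ hp.1, hi⟩, ?_⟩
    rintro ⟨c, g', rfl, hg', hi'⟩
    apply Subtype.ext
    simp only [ConjClasses.mk_eq_mk_iff_isConj]
    rw [Equiv.Perm.isConj_iff_cycleType_eq, (key g' hg' hi').1, (key g (hg ▸ hp.1) hi).1, hg,
      hu _ ⟨hg', (key g' hg' hi').2⟩]

end Cfsg.Agent.S3504
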