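import Cfsg.Statements.S3508
import Mathlib
import Cfsg.Agent.FT.Elem

set_option autoImplicit false
open Cfsg

namespace Cfsg.Agent.S3508

open Cfsg.Agent.FT Subgroup Polynomial

theorem geom_eq {p : ℕ} [Fact p.Prime] (s : ℕ) :
    ∑ i ∈ Finset.range (p ^ s), (X : (ZMod p)[X]) ^ i = (X - 1) ^ (p ^ s - 1) := by
  have h1 : (X - 1 : (ZMod p)[X]) ≠ 0 := by simpa using X_sub_C_ne_zero (1 : ZMod p)
  refine mul_right_cancel₀ h1 ?_
  rw [geom_sum_mul, ← pow_succ, Nat.sub_add_cancel (Nat.one_le_pow _ _ (Fact.out : p.Prime).pos),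
    sub_pow_char_pow, one_pow]

theorem unip {p : ℕ} [Fact p.Prime] {V : Type*} [AddCommGroup V] [Module (ZMod p) V] [Module.Finite (ZMod p) V]
    (f : Module.End (ZMod p) V) {r s : ℕ} (hf : f ^ p ^ r = 1) (hs : Module.finrank (ZMod p) V < p ^ s) :
    f ^ p ^ s = 1 ∧ ∑ i ∈ Finset.range (p ^ s), f ^ i = 0 := by
  have h0 : ∀ k : ℕ, (f - 1) ^ p ^ k = f ^ p ^ k - 1 := fun k => by
    have := congrArg (aeval f) (sub_pow_char_pow (X : (ZMod p)[X]) 1 (p := p) (n := k))
    simpa using this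
  have h1 : IsNilpotent (f - 1) := ⟨p ^ r, by rw [h0, hf, sub_self]⟩
  have h2 : (f - 1) ^ Module.finrank (ZMod p) V = 0 := by
    have := LinearMap.aeval_self_charpoly (f - 1)
    rwa [h1.charpoly_eq_X_pow_finrank, map_pow, aeval_X] at this
  refine ⟨?_, ?_⟩
  · rw [← sub_eq_zero, ← h0]; exact pow_eq_zero_of_le hs.le h2
  · have := congrArg (aeval f) (geom_eq (p := p) s)
    simp only [map_sum, map_pow, aeval_X, map_sub, map_one] at this
    rw [this]; exact pow_eq_zero_of_le (by omega) h2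

theorem unip2 {p : ℕ} [Fact p.Prime] {V : Type*} [AddCommGroup V] [Module (ZMod p) V] [Finite V] {m : ℕ}
    (hA : Nat.card V = p ^ m) (φ : V →+ V) {r s : ℕ} (hf : ∀ x, φ^[p ^ r] x = x) (hs : m < p ^ s) (x : V) :
    φ^[p ^ s] x = x ∧ ∑ i ∈ Finset.range (p ^ s), φ^[i] x = 0 := by
  have hfin : Module.finrank (ZMod p) V = m := by
    have := Module.natCard_eq_pow_finrank (K := ZMod p) (V := V)
    rw [Nat.card_zmod] at this
    exact Nat.pow_right_injective (Fact.out : p.Prime).two_le (this.symm.trans hA)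
  let f : Module.End (ZMod p) V := φ.toZModLinearMap p
  have h0 : ∀ (k : ℕ) (x : V), (f ^ k) x = φ^[k] x := fun k x => by
    rw [Module.End.pow_apply]; rfl
  obtain ⟨h1, h2⟩ := unip f (r := r) (s := s) (LinearMap.ext fun x => by rw [h0, hf]; rfl) (hfin ▸ hs)
  refine ⟨by rw [← h0, h1]; rfl, ?_⟩
  have := LinearMap.congr_fun h2 x
  rw [LinearMap.sum_apply] at this
  simp only [h0] at this
  exact this

theorem unip' {p : ℕ} [Fact p.Prime] {A : Type*} [CommGroup A] [Finite A] {m : ℕ} (hA : Nat.card A = p ^ m)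
    (hp : ∀ x : A, x ^ p = 1) (φ : A →* A) {r s : ℕ} (hf : ∀ x, φ^[p ^ r] x = x) (hs : m < p ^ s) (x : A) :
    φ^[p ^ s] x = x ∧ ∏ i ∈ Finset.range (p ^ s), φ^[i] x = 1 :=
  @unip2 p _ (Additive A) _ (AddCommGroup.zmodModule fun x => hp (Additive.toMul x)) _ m hA
    (MonoidHom.toAdditive φ) r s hf hs x

/-- Let a finite group G act faithfully on a set Ω with p ^ m points (p prime) and have an elementary abelian normal p-subgroup N acting regularly on Ω (so G is a group of affine transformations of an m-dimensional space over the field with p elements). If G contains an element of order p ^ r with r ≥ 1, then p ^ (r − 1) ≤ m. In particular an element of order p ^ m forces m ≤ 2, and m ≤ 1 when p is odd. -/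
theorem result {G : Type*} [Group G] [Finite G] {Ω : Type*} [Fintype Ω] [MulAction G Ω] [FaithfulSMul G Ω] (p m : ℕ) (hp : p.Prime) (hcard : Fintype.card Ω = p ^ m)
    (N : Subgroup G) [N.Normal] (hNc : IsMulCommutative N) (hNp : ∀ n ∈ N, n ^ p = 1)
    (hNtr : MulAction.IsPretransitive N Ω) (hNreg : ∀ ω : Ω, MulAction.stabilizer N ω = ⊥)
    (g : G) (r : ℕ) (hr : 1 ≤ r) (hg : orderOf g = p ^ r) :
    p ^ (r - 1) ≤ m ∧ (r = m → m ≤ 2 ∧ (2 < p → m ≤ 1)) := by
  have : Fact p.Prime := ⟨hp⟩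
  suffices h : p ^ (r - 1) ≤ m by
    refine ⟨h, fun e => ?_⟩
    subst e
    obtain ⟨k, rfl⟩ : ∃ k, r = k + 1 := ⟨r - 1, by omega⟩
    rw [Nat.add_sub_cancel] at h
    refine ⟨?_, fun h3 => ?_⟩
    · by_contra h2
      obtain ⟨j, rfl⟩ : ∃ j, k = j + 2 := ⟨k - 2, by omega⟩
      have h4 := (Nat.pow_le_pow_left hp.two_le (j + 2)).trans h
      have := Nat.lt_two_pow_self (n := j)
      rw [pow_add] at h4
      omega
    · by_contra h2
      obtain ⟨j, rfl⟩ : ∃ j, k = j + 1 := ⟨k - 1, by omega⟩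
      have h4 := (Nat.pow_le_pow_left (show 3 ≤ p from h3) (j + 1)).trans h
      have := Nat.lt_pow_self (show 1 < 3 by norm_num) (n := j)
      rw [pow_add] at h4
      omega
  by_contra hlt
  push Not at hlt
  have hΩ : Nonempty Ω := Fintype.card_pos_iff.1 (hcard ▸ pow_pos hp.pos m)
  obtain ⟨a⟩ := hΩ
  have hN : Nat.card N = p ^ m := by
    rw [← hcard, ← Nat.card_eq_fintype_card, ← MulAction.index_stabilizer_of_transitive N a, hNreg, index_bot]
  let : CommGroup N := { (inferInstance : Group N) with mul_comm := hNc.is_comm.comm }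
  let φ : N →* N := (MulAut.conjNormal (H := N) g).toMonoidHom
  have hf : ∀ (k : ℕ) (x : N), ((φ^[k] x : N) : G) = g ^ k * x * (g ^ k)⁻¹ := by
    intro k
    induction k with
    | zero => intro x; simp
    | succ k ih =>
      intro x
      rw [Function.iterate_succ_apply']
      change g * ((φ^[k] x : N) : G) * g⁻¹ = _
      rw [ih]; group
  have h1 := unip' hN (fun x => Subtype.ext (hNp x x.2)) φ (r := r) (s := r - 1) (fun x => Subtype.ext (by
    rw [hf, ← hg, pow_orderOf_eq_one, one_mul, inv_one, mul_one])) hlt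
  obtain ⟨n, hn⟩ := hNtr.exists_smul_eq (g • a) a
  have h3 : ∀ k : ℕ, ((n : G) * g) ^ k = ((∏ i ∈ Finset.range k, φ^[i] n : N) : G) * g ^ k := fun k => by
    induction k with
    | zero => simp
    | succ k ih =>
      rw [pow_succ, ih, Finset.prod_range_succ, Subgroup.coe_mul, hf]
      group
  have h4 : g ^ p ^ (r - 1) • a = a := by
    have := h3 (p ^ (r - 1))
    rw [(h1 n).2, OneMemClass.coe_one, one_mul] at this
    rw [← this]
    exact (MulAction.stabilizer G a).pow_mem (show ((n : G) * g) • a = a by rw [mul_smul]; exact hn) _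
  have h5 : g ^ p ^ (r - 1) = 1 := FaithfulSMul.eq_of_smul_eq_smul (α := Ω) fun c => by
    obtain ⟨x, rfl⟩ := hNtr.exists_smul_eq a c
    have := hf (p ^ (r - 1)) x
    rw [(h1 x).1, eq_mul_inv_iff_mul_eq] at this
    change g ^ p ^ (r - 1) • (x : G) • a = (1 : G) • (x : G) • a
    rw [one_smul, ← mul_smul, ← this, mul_smul, h4]
  have h6 := orderOf_dvd_of_pow_eq_one h5
  rw [hg, Nat.pow_dvd_pow_iff_le_right hp.one_lt] at h6
  omega

end Cfsg.Agent.S3508
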