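import Cfsg.Statements.S3511
import Mathlib

set_option autoImplicit false
open Cfsg

namespace Cfsg.Agent.S3511

/-- Let a finite group G act faithfully on a set Ω. If every element of G of square-free order has a regular cycle (an orbit of the cyclic group it generates with trivial stabilizer), then every element of G has a regular cycle. -/
theorem result {G : Type*} [Group G] [Finite G] {Ω : Type*} [MulAction G Ω] [FaithfulSMul G Ω]
    (h : ∀ g : G, Squarefree (orderOf g) → ∃ ω : Ω, MulAction.stabilizer (Subgroup.zpowers g) ω = ⊥) (g : G) :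
    ∃ ω : Ω, MulAction.stabilizer (Subgroup.zpowers g) ω = ⊥ := by
  have hm : 0 < orderOf g := orderOf_pos g
  set m := orderOf g with hmdef
  have hr : UniqueFactorizationMonoid.radical m ∣ m := UniqueFactorizationMonoid.radical_dvd_self
  obtain ⟨k, hk⟩ := hr
  set r := UniqueFactorizationMonoid.radical m with hrdef
  have hk0 : 0 < k := Nat.pos_of_ne_zero fun e => by rw [e] at hk; omega
  have ho : orderOf (g ^ k) = r := by
    rw [orderOf_pow_of_dvd hk0.ne' ⟨r, by rw [← hmdef, hk, mul_comm]⟩, ← hmdef, hk,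
      Nat.mul_div_cancel _ hk0]
  obtain ⟨ω, hω⟩ := h (g ^ k) (ho ▸ UniqueFactorizationMonoid.squarefree_radical)
  refine ⟨ω, ?_⟩
  by_contra hne
  obtain ⟨p, hp, hd⟩ := Nat.exists_prime_and_dvd ((Subgroup.one_lt_card_iff_ne_bot _).2 hne).ne'
  have := Fact.mk hp
  obtain ⟨x, hx⟩ := exists_prime_orderOf_dvd_card' p hd
  obtain ⟨⟨y, hy⟩, hyω⟩ := x
  rw [Subgroup.orderOf_mk, Subgroup.orderOf_mk] at hx
  obtain ⟨j, rfl⟩ := (mem_powers_iff_mem_zpowers.2 hy)
  simp only at hx hyω
  have h1 : m ∣ j * p := by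
    rw [hmdef, orderOf_dvd_iff_pow_eq_one, pow_mul, ← hx, pow_orderOf_eq_one]
  have h2 : p ∣ m := by rw [← hx]; exact orderOf_pow_dvd j
  obtain ⟨s, hs⟩ : p ∣ r :=
    (UniqueFactorizationMonoid.dvd_radical_iff_of_irreducible hp hm.ne').2 h2
  have h3 : k ∣ j := by
    rw [hk, hs, mul_assoc, mul_comm j] at h1
    exact (Dvd.intro_left _ rfl).trans (Nat.dvd_of_mul_dvd_mul_left hp.pos h1)
  obtain ⟨i, rfl⟩ := h3
  have h4 : (⟨g ^ (k * i), ⟨i, by simp [pow_mul]⟩⟩ : Subgroup.zpowers (g ^ k)) ∈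
      MulAction.stabilizer (Subgroup.zpowers (g ^ k)) ω := hyω
  rw [hω, Subgroup.mem_bot, Subtype.ext_iff] at h4
  simp only [OneMemClass.coe_one] at h4
  rw [h4, orderOf_one] at hx
  exact hp.one_lt.ne hx

end Cfsg.Agent.S3511
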