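import Cfsg.Statements.S3514
import Mathlib
import Cfsg.Agent.FT.Card

set_option autoImplicit false
open Cfsg

namespace Cfsg.Agent.S3514

open Cfsg.Agent.FT

theorem card_orb {G V : Type*} [Group G] [MulAction G V] (K : Subgroup G) (v : V) :
    Nat.card {u : V | ∃ k ∈ K, k • v = u} = (MulAction.stabilizer G v).relIndex K := by
  have : {u : V | ∃ k ∈ K, k • v = u} = MulAction.orbit K v := by
    ext u
    exact ⟨fun ⟨k, hk, e⟩ => ⟨⟨k, hk⟩, e⟩, fun ⟨k, e⟩ => ⟨k, k.2, e⟩⟩
  rw [this, Nat.card_coe_set_eq, ← MulAction.index_stabilizer]; rfl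

/-- Let p be a prime, V a finite vector space over the field with p elements, and H a group of linear transformations of V all of whose orbits on V have size coprime to p. (i) Every normal subgroup K of H has all its orbits on V of size coprime to p. (ii) If N is a group of linear transformations of V of order coprime to p that is normalized by H, then the group generated by N and H has all its orbits on V of size coprime to p. -/
theorem result (p : ℕ) [Fact p.Prime] {V : Type*} [AddCommGroup V] [Module (ZMod p) V] [Finite V]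
    (H : Subgroup (V ≃ₗ[ZMod p] V)) (hH : ∀ v : V, ¬ p ∣ Nat.card {u : V | ∃ h ∈ H, h v = u}) :
    (∀ K : Subgroup (V ≃ₗ[ZMod p] V), K ≤ H → H ≤ Subgroup.normalizer (K : Set (V ≃ₗ[ZMod p] V)) →
        ∀ v : V, ¬ p ∣ Nat.card {u : V | ∃ k ∈ K, k v = u}) ∧
    (∀ N : Subgroup (V ≃ₗ[ZMod p] V), ¬ p ∣ Nat.card N → H ≤ Subgroup.normalizer (N : Set (V ≃ₗ[ZMod p] V)) →
        ∀ v : V, ¬ p ∣ Nat.card {u : V | ∃ x ∈ N ⊔ H, x v = u}) := by
  have : Finite (V ≃ₗ[ZMod p] V) := Finite.of_injective (fun f => (f : V → V)) DFunLike.coe_injective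
  have hp : p.Prime := Fact.out
  have key : ∀ (K : Subgroup (V ≃ₗ[ZMod p] V)) (v : V), Nat.card {u : V | ∃ k ∈ K, k v = u} =
      (MulAction.stabilizer (V ≃ₗ[ZMod p] V) v).relIndex K := fun K v => card_orb K v
  simp only [key] at hH ⊢
  refine ⟨fun K hK hn v h => hH v (h.trans ?_), fun N hN hn v h => ?_⟩
  · rw [← Subgroup.inf_relIndex_right _ H]
    have e : (MulAction.stabilizer (V ≃ₗ[ZMod p] V) v).relIndex K =
        (MulAction.stabilizer (V ≃ₗ[ZMod p] V) v ⊓ H).relIndex K := by
      rw [← Subgroup.inf_relIndex_right _ K, ← Subgroup.inf_relIndex_right (_ ⊓ H) K, inf_assoc, inf_eq_right.2 hK]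
    rw [e, ← (mulEq_sup' (inf_le_right.trans hn)).relIndex_left]
    exact relIndex_dvd_of_le' le_sup_left (sup_le inf_le_right hK)
  · have h1 := h.trans (relIndex_dvd_of_le (inf_le_left (b := H)) _)
    rw [← relIndex_mul inf_le_right le_sup_right, Subgroup.inf_relIndex_right, (mulEq_sup hn).relIndex_right] at h1
    rcases (Nat.Prime.dvd_mul hp).1 h1 with a | a
    · exact hH v a
    · exact hN (a.trans (relIndex_dvd _ _))

end Cfsg.Agent.S3514
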