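import Cfsg.Statements.S3515
import Mathlib

set_option autoImplicit false
open Cfsg

namespace Cfsg.Agent.S3515

theorem aux1 : ∀ x : Fin 2 → ZMod 2, x = 0 ∨ x = ![1, 0] ∨ x = ![0, 1] ∨ x = ![1, 0] + ![0, 1] := by
  decide

theorem aux2 : (![1, 0] + ![0, 1] : Fin 2 → ZMod 2) ≠ 0 ∧
    (![1, 0] + ![0, 1] : Fin 2 → ZMod 2) ≠ ![1, 0] ∧ (![1, 0] + ![0, 1] : Fin 2 → ZMod 2) ≠ ![0, 1] := by
  decide

/-- Every primitive affine permutation group of degree p² is 3-closed. Let p be a prime and G a group of permutations of the plane V = F_p² consisting of affine maps x ↦ Ax + b, containing all translations, and acting primitively on V. Then any permutation σ of V that agrees on every triple of points with some element of G (σ preserves every G-orbit on ordered triples) already lies in G. -/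
theorem result (p : ℕ) [Fact p.Prime] (G : Subgroup (Equiv.Perm (Fin 2 → ZMod p)))
    (haff : (G : Set (Equiv.Perm (Fin 2 → ZMod p))) ⊆ {τ : Equiv.Perm (Fin 2 → ZMod p) | ∃ (A : (Fin 2 → ZMod p) ≃ₗ[ZMod p] (Fin 2 → ZMod p)) (b : Fin 2 → ZMod p), ∀ x, τ x = A x + b})
    (htrans : ∀ b : Fin 2 → ZMod p, ∃ g ∈ G, ∀ x, g x = x + b) (hprim : MulAction.IsPreprimitive G (Fin 2 → ZMod p))
    (σ : Equiv.Perm (Fin 2 → ZMod p)) (hσ : (∀ t : Fin 3 → (Fin 2 → ZMod p), ∃ g ∈ G, ∀ i, σ (t i) = g (t i))) : σ ∈ G := by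
  have hp : p.Prime := Fact.out
  let e0 : Fin 2 → ZMod p := ![1, 0]
  let e1 : Fin 2 → ZMod p := ![0, 1]
  obtain ⟨g0, hg0, h0⟩ := hσ ![0, e0, e1]
  suffices h : g0⁻¹ * σ = 1 by
    rw [inv_mul_eq_one] at h; exact h ▸ hg0
  set τ := g0⁻¹ * σ with hτ
  have hτ' : ∀ x y z : Fin 2 → ZMod p, ∃ (A : (Fin 2 → ZMod p) ≃ₗ[ZMod p] (Fin 2 → ZMod p))
      (b : Fin 2 → ZMod p), τ x = A x + b ∧ τ y = A y + b ∧ τ z = A z + b := by
    intro x y z
    obtain ⟨g, hg, h⟩ := hσ ![x, y, z]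
    obtain ⟨A, b, hA⟩ := haff (G.mul_mem (G.inv_mem hg0) hg)
    refine ⟨A, b, ?_, ?_, ?_⟩ <;> rw [← hA, hτ, Equiv.Perm.mul_apply, Equiv.Perm.mul_apply]
    · exact congrArg _ (h 0)
    · exact congrArg _ (h 1)
    · exact congrArg _ (h 2)
  have f0 : τ 0 = 0 := by
    rw [hτ, Equiv.Perm.mul_apply, Equiv.Perm.inv_eq_iff_eq]; exact h0 0
  have f1 : τ e0 = e0 := by
    rw [hτ, Equiv.Perm.mul_apply, Equiv.Perm.inv_eq_iff_eq]; exact h0 1
  have f2 : τ e1 = e1 := by
    rw [hτ, Equiv.Perm.mul_apply, Equiv.Perm.inv_eq_iff_eq]; exact h0 2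
  have hsm : ∀ (c : ZMod p) x, τ (c • x) = c • τ x := by
    intro c x
    obtain ⟨A, b, h1, h2, h3⟩ := hτ' 0 x (c • x)
    rw [f0, map_zero, zero_add] at h1
    rw [h2, h3, ← h1, map_smul, add_zero, add_zero]
  have hx : ∀ x : Fin 2 → ZMod p, x = x 0 • e0 + x 1 • e1 := fun x => by
    funext i; fin_cases i <;> simp [e0, e1]
  by_cases h2 : (2 : ZMod p) = 0
  · have hp2 : p = 2 := by
      have : ((2 : ℕ) : ZMod p) = 0 := by exact_mod_cast h2
      rw [ZMod.natCast_eq_zero_iff] at this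
      exact (Nat.prime_dvd_prime_iff_eq hp Nat.prime_two).1 this
    subst hp2
    have hall : ∀ x : Fin 2 → ZMod 2, x = 0 ∨ x = e0 ∨ x = e1 ∨ x = e0 + e1 := aux1
    have hne : e0 + e1 ≠ 0 ∧ e0 + e1 ≠ e0 ∧ e0 + e1 ≠ e1 := aux2
    have f3 : τ (e0 + e1) = e0 + e1 := by
      rcases hall (τ (e0 + e1)) with h | h | h | h
      · exact absurd (τ.injective (h.trans f0.symm)) hne.1
      · exact absurd (τ.injective (h.trans f1.symm)) hne.2.1
      · exact absurd (τ.injective (h.trans f2.symm)) hne.2.2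
      · exact h
    apply Equiv.ext
    intro x
    rcases hall x with rfl | rfl | rfl | rfl <;> assumption
  · apply Equiv.ext
    intro x
    obtain ⟨A, b, h1, h3, h4⟩ := hτ' ((2 * x 0) • e0) ((2 * x 1) • e1) x
    rw [hsm, f1] at h1
    rw [hsm, f2] at h3
    change τ x = x
    have h5 : (2 : ZMod p) • x = (2 * x 0) • e0 + (2 * x 1) • e1 := by
      conv_lhs => rw [hx x]
      rw [smul_add, smul_smul, smul_smul]
    have h6 : (2 : ZMod p) • τ x = (2 : ZMod p) • x := by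
      rw [h4, smul_add, ← map_smul, h5, map_add]
      conv_rhs => rw [h1, h3]
      rw [two_smul]; abel
    exact smul_right_injective _ h2 h6

end Cfsg.Agent.S3515
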