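import Cfsg.Statements.S3516
import Mathlib

set_option autoImplicit false
open Cfsg

namespace Cfsg.Agent.S3516

/-- Let p be an odd prime, d ≥ 3, and G a group of affine permutations x ↦ Ax + b of V = F_p^d containing all translations and all maps x ↦ Ax with A of determinant 1. Then the 3-closure of G is the full affine group: a permutation σ of V agrees on every triple of points with some element of G if and only if σ is an affine map. -/
theorem result (p : ℕ) [Fact p.Prime] (hp : p ≠ 2) (d : ℕ) (hd : 3 ≤ d) (G : Subgroup (Equiv.Perm (Fin d → ZMod p)))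
    (haff : (G : Set (Equiv.Perm (Fin d → ZMod p))) ⊆ {τ : Equiv.Perm (Fin d → ZMod p) | ∃ (A : (Fin d → ZMod p) ≃ₗ[ZMod p] (Fin d → ZMod p)) (b : Fin d → ZMod p), ∀ x, τ x = A x + b})
    (htrans : ∀ b : Fin d → ZMod p, ∃ g ∈ G, ∀ x, g x = x + b)
    (hsl : ∀ A : (Fin d → ZMod p) ≃ₗ[ZMod p] (Fin d → ZMod p), LinearMap.det (A : (Fin d → ZMod p) →ₗ[ZMod p] (Fin d → ZMod p)) = 1 → ∃ g ∈ G, ∀ x, g x = A x)
    (σ : Equiv.Perm (Fin d → ZMod p)) :
    (∀ t : Fin 3 → (Fin d → ZMod p), ∃ g ∈ G, ∀ i, σ (t i) = g (t i)) ↔ σ ∈ {τ : Equiv.Perm (Fin d → ZMod p) | ∃ (A : (Fin d → ZMod p) ≃ₗ[ZMod p] (Fin d → ZMod p)) (b : Fin d → ZMod p), ∀ x, τ x = A x + b} := by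
  have hp2 : (2 : ZMod p) ≠ 0 := fun h => hp ((Nat.prime_dvd_prime_iff_eq Fact.out Nat.prime_two).1
    ((ZMod.natCast_eq_zero_iff 2 p).1 (by exact_mod_cast h)))
  constructor
  · intro h
    have key : ∀ x y : Fin d → ZMod p, ∀ c : ZMod p, σ ((1 - c) • x + c • y) = (1 - c) • σ x + c • σ y := by
      intro x y c
      obtain ⟨g, hg, ht⟩ := h ![x, y, (1 - c) • x + c • y]
      obtain ⟨A, b, hA⟩ := haff hg
      have h0 : σ x = A x + b := (ht 0).trans (hA _)
      have h1 : σ y = A y + b := (ht 1).trans (hA _)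
      have h2 : σ ((1 - c) • x + c • y) = A ((1 - c) • x + c • y) + b := (ht 2).trans (hA _)
      rw [h0, h1, h2, map_add, map_smul, map_smul]
      module
    have hs : ∀ (c : ZMod p) y, σ (c • y) - σ 0 = c • (σ y - σ 0) := fun c y => by
      have := key 0 y c
      rw [smul_zero, zero_add] at this
      rw [this]; module
    have ha : ∀ x y, σ (x + y) - σ 0 = (σ x - σ 0) + (σ y - σ 0) := fun x y => by
      have e : (1 - (2 : ZMod p)⁻¹) = 2⁻¹ := by field_simp; ring
      have h1 := key x y 2⁻¹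
      rw [e, ← smul_add] at h1
      have h2 := hs 2 ((2 : ZMod p)⁻¹ • (x + y))
      rw [smul_smul, mul_inv_cancel₀ hp2, one_smul, h1, ← smul_add, smul_sub, smul_smul, mul_inv_cancel₀ hp2,
        one_smul] at h2
      rw [h2]; module
    let L : (Fin d → ZMod p) →ₗ[ZMod p] (Fin d → ZMod p) := ⟨⟨fun x => σ x - σ 0, ha⟩, hs⟩
    have hL : Function.Injective L := fun x y e => σ.injective (sub_left_injective e)
    exact ⟨LinearEquiv.ofInjectiveEndo L hL, σ 0, fun x => by simp [L]⟩
  · rintro ⟨A, b, hA⟩ t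
    have hlt : Submodule.span (ZMod p) {t 1 - t 0, t 2 - t 0} < ⊤ := by
      refine Submodule.lt_top_of_finrank_lt_finrank ((finrank_span_le_card _).trans_lt ?_)
      rw [Module.finrank_fin_fun, Set.toFinset_card]
      have := Finset.card_le_two (a := t 1 - t 0) (b := t 2 - t 0)
      simp only [Fintype.card_ofFinset, Set.toFinset_insert, Set.toFinset_singleton] at this ⊢
      omega
    obtain ⟨f, hf, hf0⟩ := Submodule.exists_le_ker_of_lt_top _ hlt
    obtain ⟨v, hv⟩ := LinearMap.surjective_of_ne_zero hf ((LinearMap.det (A : (Fin d → ZMod p) →ₗ[ZMod p] (Fin d → ZMod p)))⁻¹ - 1)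
    have hdet : LinearMap.det (A : (Fin d → ZMod p) →ₗ[ZMod p] (Fin d → ZMod p)) ≠ 0 := A.isUnit_det'.ne_zero
    have hu : IsUnit (1 + f v) := by rw [hv, add_sub_cancel]; exact (inv_ne_zero hdet).isUnit
    obtain ⟨g, hg, hgA⟩ := hsl ((LinearEquiv.dilatransvection hu).trans A) (by
      rw [LinearEquiv.coe_trans, LinearMap.det_comp, LinearEquiv.dilatransvection.coe_toLinearMap,
        LinearMap.transvection.det, hv, add_sub_cancel, mul_inv_cancel₀ hdet])
    obtain ⟨k, hk, hkb⟩ := htrans (A (t 0) + b)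
    obtain ⟨l, hl, hlb⟩ := htrans (-t 0)
    refine ⟨k * g * l, G.mul_mem (G.mul_mem hk hg) hl, fun i => ?_⟩
    have h0 : f (t i - t 0) = 0 := by
      fin_cases i
      · simp
      · exact hf0 (Submodule.subset_span (by simp))
      · exact hf0 (Submodule.subset_span (by simp))
    rw [Equiv.Perm.mul_apply, Equiv.Perm.mul_apply, hlb, hgA, hkb, hA, ← sub_eq_add_neg, LinearEquiv.trans_apply,
      LinearEquiv.dilatransvection.apply, h0, zero_smul, add_zero, map_sub]
    abel

end Cfsg.Agent.S3516
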