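import Cfsg.Statements.S3517
import Mathlib

set_option autoImplicit false
open Cfsg

namespace Cfsg.Agent.S3517

theorem aux {V : Type*} [AddCommGroup V] [Module (ZMod 2) V] {ι : Type*} [Finite ι] {u w : ι → V}
    (hu : LinearIndependent (ZMod 2) u) (hw : LinearIndependent (ZMod 2) w) :
    ∃ A : V ≃ₗ[ZMod 2] V, ∀ i, A (u i) = w i := by
  have : FiniteDimensional (ZMod 2) (Submodule.span (ZMod 2) (Set.range u)) :=
    FiniteDimensional.span_of_finite _ (Set.finite_range u)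
  obtain ⟨A, hA⟩ := Submodule.exists_linearEquiv_restrict_eq
    ((Module.Basis.span hu).equiv (Module.Basis.span hw) (Equiv.refl ι))
  refine ⟨A, fun i => ?_⟩
  have := hA (Module.Basis.span hu i)
  rw [Module.Basis.equiv_apply, Module.Basis.coe_span_apply, Module.Basis.coe_span_apply] at this
  exact this.symm

theorem aux1 {V : Type*} [AddCommGroup V] [Module (ZMod 2) V] {u w : V} (h : u = 0 ↔ w = 0) :
    ∃ A : V ≃ₗ[ZMod 2] V, A u = w := by
  by_cases hu : u = 0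
  · exact ⟨LinearEquiv.refl _ _, by rw [hu, h.1 hu]; rfl⟩
  · obtain ⟨A, hA⟩ := aux (ι := Unit) (u := fun _ => u) (w := fun _ => w)
      (linearIndependent_unique_iff.2 hu) (linearIndependent_unique_iff.2 fun e => hu (h.2 e))
    exact ⟨A, hA ()⟩

theorem aux2 {V : Type*} [AddCommGroup V] [Module (ZMod 2) V] {u v : V} (hu : u ≠ 0) (hv : v ≠ 0)
    (huv : u ≠ v) : LinearIndependent (ZMod 2) ![u, v] := by
  rw [LinearIndependent.pair_iff' hu]
  intro a
  have : a = 0 ∨ a = 1 := by revert a; decide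
  rcases this with rfl | rfl
  · simpa using hv.symm
  · simpa using huv

/-- For d ≥ 3, the 3-closure of the affine group AGL_d(2) acting on F_2^d is the full symmetric group: every permutation of F_2^d agrees on every ordered triple of points with some affine map (AGL_d(2) is 3-transitive). -/
theorem result (d : ℕ) (hd : 3 ≤ d) (σ : Equiv.Perm (Fin d → ZMod 2)) (t : Fin 3 → (Fin d → ZMod 2)) :
    ∃ (A : (Fin d → ZMod 2) ≃ₗ[ZMod 2] (Fin d → ZMod 2)) (b : Fin d → ZMod 2), ∀ i, σ (t i) = A (t i) + b := by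
  have h0 : ∀ i j, t i - t j = 0 ↔ σ (t i) - σ (t j) = 0 := fun i j => by
    simp [sub_eq_zero]
  suffices h : ∃ A : (Fin d → ZMod 2) ≃ₗ[ZMod 2] (Fin d → ZMod 2),
      A (t 1 - t 0) = σ (t 1) - σ (t 0) ∧ A (t 2 - t 0) = σ (t 2) - σ (t 0) by
    obtain ⟨A, h1, h2⟩ := h
    refine ⟨A, σ (t 0) - A (t 0), fun i => ?_⟩
    rw [map_sub] at h1 h2
    fin_cases i
    · simp
    · simp only [Fin.mk_one]; linear_combination -h1
    · simp only [Fin.reduceFinMk]; linear_combination -h2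
  by_cases a1 : t 1 - t 0 = 0
  · obtain ⟨A, hA⟩ := aux1 (h0 2 0)
    exact ⟨A, by rw [(h0 1 0).1 a1, a1, map_zero], hA⟩
  by_cases a2 : t 2 - t 0 = 0
  · obtain ⟨A, hA⟩ := aux1 (h0 1 0)
    exact ⟨A, hA, by rw [(h0 2 0).1 a2, a2, map_zero]⟩
  by_cases a3 : t 1 = t 2
  · obtain ⟨A, hA⟩ := aux1 (h0 1 0)
    exact ⟨A, hA, a3 ▸ hA⟩
  obtain ⟨A, hA⟩ := aux (aux2 a1 a2 (by simpa using a3))
    (aux2 (fun e => a1 ((h0 1 0).2 e)) (fun e => a2 ((h0 2 0).2 e)) (by simpa using a3))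
  exact ⟨A, hA 0, hA 1⟩

end Cfsg.Agent.S3517
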