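import Cfsg.Statements.S3518
import Mathlib
import Cfsg.Agent.S0675
import Cfsg.Agent.H16.PrimeDeg2
import Cfsg.Agent.H16.Basic
import Cfsg.Agent.FT.Nil

set_option autoImplicit false
open Cfsg

namespace Cfsg.Agent.S3518

open Cfsg.Agent.FT

theorem lin_of_step {p : ℕ} [NeZero p] (f : ZMod p → ZMod p) (c : ZMod p) (h : ∀ x, f (x + 1) = f x + c)
    (x : ZMod p) : f x = c * x + f 0 := by
  obtain ⟨n, rfl⟩ := ZMod.natCast_zmod_surjective x
  induction n with
  | zero => simp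
  | succ n ih => rw [Nat.cast_succ, h, ih]; ring

/-- the 2-closure -/
def clo {α : Type*} (G : Subgroup (Equiv.Perm α)) : Subgroup (Equiv.Perm α) where
  carrier := {σ | ∀ x y, ∃ g ∈ G, σ x = g x ∧ σ y = g y}
  one_mem' := fun _ _ => ⟨1, G.one_mem, rfl, rfl⟩
  mul_mem' := fun {σ τ} hσ hτ x y => by
    obtain ⟨g, hg, h1, h2⟩ := hτ x y
    obtain ⟨k, hk, h3, h4⟩ := hσ (τ x) (τ y)
    exact ⟨k * g, G.mul_mem hk hg, by simp [← h1, ← h3], by simp [← h2, ← h4]⟩
  inv_mem' := fun {σ} hσ x y => by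
    obtain ⟨g, hg, h1, h2⟩ := hσ (σ⁻¹ x) (σ⁻¹ y)
    refine ⟨g⁻¹, G.inv_mem hg, ?_, ?_⟩
    · rw [eq_comm, Equiv.Perm.inv_eq_iff_eq, ← h1]; simp
    · rw [eq_comm, Equiv.Perm.inv_eq_iff_eq, ← h2]; simp

theorem aff_ext {p : ℕ} {f : ZMod p → ZMod p} {a b : ZMod p} (hf : ∀ x, f x = a * x + b) {g : Equiv.Perm (ZMod p)}
    (hg : g ∈ Cfsg.affineGroup (ZMod p)) (h0 : f 0 = g 0) (h1 : f 1 = g 1) (x : ZMod p) : f x = g x := by
  obtain ⟨c, d, hc⟩ := hg
  rw [hf, hc] at h0 h1 ⊢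
  simp only [mul_zero, zero_add, mul_one] at h0 h1
  rw [h0] at h1 ⊢
  rw [add_right_cancel h1]

/-- Closures of subgroups of the one-dimensional affine group. Let p be a prime and G a group of permutations of F_p lying in the affine group AGL₁(p) = {x ↦ ax + b, a ≠ 0} and containing all translations. (1) If G is a proper subgroup of AGL₁(p), then G is 2-closed: a permutation of F_p agreeing on every ordered pair of points with some element of G lies in G. (2) Every permutation of F_p agrees on every ordered pair with some element of AGL₁(p) (the 2-closure of AGL₁(p) is the symmetric group). (3) AGL₁(p) is 3-closed: a permutation agreeing on every ordered triple with some affine map is affine. -/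
theorem result (p : ℕ) [Fact p.Prime] (G : Subgroup (Equiv.Perm (ZMod p))) (hG : G ≤ Cfsg.affineGroup (ZMod p))
    (htrans : ∀ b : ZMod p, ∃ g ∈ G, ∀ x, g x = x + b) :
    (G ≠ Cfsg.affineGroup (ZMod p) → ∀ σ : Equiv.Perm (ZMod p), (∀ t : Fin 2 → ZMod p, ∃ g ∈ G, ∀ i, σ (t i) = g (t i)) → σ ∈ G) ∧
    (∀ σ : Equiv.Perm (ZMod p), (∀ t : Fin 2 → ZMod p, ∃ g ∈ Cfsg.affineGroup (ZMod p), ∀ i, σ (t i) = g (t i))) ∧
    (∀ σ : Equiv.Perm (ZMod p), (∀ t : Fin 3 → ZMod p, ∃ g ∈ Cfsg.affineGroup (ZMod p), ∀ i, σ (t i) = g (t i)) → σ ∈ Cfsg.affineGroup (ZMod p)) := by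
  have hp : p.Prime := Fact.out
  refine ⟨fun hne σ hσ => ?_, fun σ t => ?_, fun σ hσ => ?_⟩
  · have hσ' : σ ∈ clo G := fun x y => by
      obtain ⟨g, hg, h⟩ := hσ ![x, y]
      exact ⟨g, hg, h 0, h 1⟩
    have hle : G ≤ clo G := fun g hg x y => ⟨g, hg, rfl, rfl⟩
    have : MulAction.IsPretransitive (clo G) (ZMod p) := ⟨fun x y => by
      obtain ⟨g, hg, h⟩ := htrans (y - x)
      exact ⟨⟨g, hle hg⟩, by change g x = y; rw [h]; ring⟩⟩
    rcases Cfsg.Agent.S0675.result (by rwa [ZMod.card]) (clo G) with h | h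
    · obtain ⟨τ, hτ, hτ1⟩ := htrans 1
      have hn : ∀ n : ℕ, ∀ x, (τ ^ n) x = x + n := fun n => by
        induction n with
        | zero => simp
        | succ n ih => intro x; rw [pow_succ, Equiv.Perm.mul_apply, ih, hτ1]; push_cast; ring
      let t : clo G := ⟨τ, hle hτ⟩
      have ht : t ^ p = 1 := Subtype.ext (Equiv.ext fun x => by simpa using hn p x)
      have ht1 : t ≠ 1 := fun e => by
        have := hτ1 0
        rw [show τ = 1 from congrArg Subtype.val e] at this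
        simp at this
      obtain ⟨P, hP⟩ := (show IsPGroup p (Subgroup.zpowers t) from
        IsPGroup.of_card (n := 1) (by rw [Nat.card_zpowers, orderOf_eq_prime ht ht1, pow_one])).exists_le_sylow
      have h1 : (⊤ : Subgroup (clo G)) ≠ ⊥ := ne_bot_of_mem (Subgroup.mem_top t) ht1
      have h2 : Z(F((⊤ : Subgroup (clo G)))) ≠ ⊥ := (fitting_nil _).center_ne_bot ((sol_top.2 h).fitting_ne_bot h1)
      have h3 := nml_top_iff.1 (fitting_nml (⊤ : Subgroup (clo G))).center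
      have h4 := H16.sylow_le_normal_prime_deg (α := ZMod p) (Nat.card_zmod p) P _ h2 (hP (Subgroup.mem_zpowers t))
      have h5 := (ab_center _).comm h4 (h3.conj_mem t h4 ⟨σ, hσ'⟩)
      have h6 : ∀ x, (σ * τ * σ⁻¹) (x + 1) = (σ * τ * σ⁻¹) x + 1 := fun x => by
        have := Equiv.congr_fun (congrArg Subtype.val h5) x
        change τ ((σ * τ * σ⁻¹) x) = (σ * τ * σ⁻¹) (τ x) at this
        rw [← hτ1, ← hτ1, this]
      have h7 := lin_of_step σ ((σ * τ * σ⁻¹) 0) fun x => by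
        have := lin_of_step _ 1 h6 (σ x)
        rw [one_mul] at this
        rw [← this, ← hτ1]; simp
      obtain ⟨g, hg, e0, e1⟩ := hσ' 0 1
      rwa [show σ = g from Equiv.ext (aff_ext h7 (hG hg) e0 e1)]
    · refine (hne (le_antisymm hG fun s hs => ?_)).elim
      obtain ⟨k, hk0, hk1⟩ := (MulAction.is_two_pretransitive_iff.1 h) (zero_ne_one (α := ZMod p))
        (s.injective.ne (zero_ne_one (α := ZMod p)))
      obtain ⟨g, hg, e0, e1⟩ := k.2 0 1
      obtain ⟨a, b, hab⟩ := hs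
      rwa [show s = g from Equiv.ext (aff_ext hab (hG hg) (hk0.symm.trans e0) (hk1.symm.trans e1))]
  · by_cases h : t 0 = t 1
    · refine ⟨Equiv.addRight (σ (t 0) - t 0), ⟨1, σ (t 0) - t 0, fun x => by simp⟩, fun i => ?_⟩
      fin_cases i <;> simp [h]
    · have h1 : t 0 - t 1 ≠ 0 := sub_ne_zero.2 h
      have h2 : σ (t 0) - σ (t 1) ≠ 0 := sub_ne_zero.2 (σ.injective.ne h)
      have h3 : (σ (t 0) - σ (t 1)) / (t 0 - t 1) ≠ 0 := div_ne_zero h2 h1
      refine ⟨(Equiv.mulLeft₀ _ h3).trans (Equiv.addRight (σ (t 0) - (σ (t 0) - σ (t 1)) / (t 0 - t 1) * t 0)),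
        ⟨Units.mk0 _ h3, _, fun x => rfl⟩, fun i => ?_⟩
      fin_cases i
      · simp
      · simp only [Fin.mk_one, Equiv.trans_apply, Equiv.mulLeft₀_apply, Equiv.coe_addRight]
        field_simp
        ring
  · obtain ⟨g, ⟨a, b, hab⟩, hg⟩ := hσ ![0, 1, 0]
    refine ⟨a, b, fun x => ?_⟩
    obtain ⟨k, hk, h⟩ := hσ ![0, 1, x]
    rw [← hab, aff_ext hab hk ((hg 0).symm.trans (h 0)) ((hg 1).symm.trans (h 1))]
    exact h 2

end Cfsg.Agent.S3518
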