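import Cfsg.Statements.S3547
import Mathlib
import Cfsg.Agent.H16.Derang

set_option autoImplicit false
open Cfsg

namespace Cfsg.Agent.S3547

/-- Let G act faithfully and transitively on a finite set Ω, let D be the subgroup generated by the derangements, and let r_G and r_D be the numbers of orbits of G and of D on ordered pairs of points (the permutation ranks). Then r_D − 1 = (r_G − 1)·[G : D]. -/
theorem result {G Ω : Type*} [Group G] [Finite G] [MulAction G Ω] [FaithfulSMul G Ω] [Finite Ω]
    (htrans : MulAction.IsPretransitive G Ω) :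
    Nat.card (MulAction.orbitRel.Quotient ↥(Subgroup.closure {g : G | ∀ ω : Ω, g • ω ≠ ω}) (Ω × Ω)) - 1 =
      (Nat.card (MulAction.orbitRel.Quotient G (Ω × Ω)) - 1) * (Subgroup.closure {g : G | ∀ ω : Ω, g • ω ≠ ω}).index := by
  classical
  have := Fintype.ofFinite G
  rcases isEmpty_or_nonempty Ω with he | hne
  · have h1 : ∀ (H : Type _) [Group H] [MulAction H Ω],
        Nat.card (MulAction.orbitRel.Quotient H (Ω × Ω)) = 0 := fun H _ _ => by
      have : IsEmpty (MulAction.orbitRel.Quotient H (Ω × Ω)) :=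
        ⟨fun q => Quotient.inductionOn' q fun z => he.elim z.1⟩
      exact Nat.card_of_isEmpty
    rw [h1, h1]; simp
  have h1 := H16.sum_nfix (G := G) (α := Ω × Ω)
  rw [← Finset.sum_filter_add_sum_filter_not _ (· ∈ H16.derSub G Ω), H16.sum_nfix_subgroup,
    Finset.sum_congr rfl (g := fun _ => 1) (fun g hg => by
      rw [H16.nfix_prod, H16.derSub_spec.2 g (Finset.mem_filter.1 hg).2]),
    ← Finset.card_eq_sum_ones] at h1
  have h4 := Finset.card_filter_add_card_filter_not (s := Finset.univ) (· ∈ H16.derSub G Ω)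
  have h5 : (Finset.univ.filter (· ∈ H16.derSub G Ω)).card = Nat.card (H16.derSub G Ω) := by
    rw [Nat.card_eq_fintype_card, Fintype.card_subtype]
  rw [Finset.card_univ, ← Nat.card_eq_fintype_card, h5] at h4
  have h6 := (H16.derSub G Ω).index_mul_card
  have h7 : 0 < Nat.card (H16.derSub G Ω) := Nat.card_pos
  have h8 : ∀ (H : Type _) [Group H] [MulAction H Ω],
      0 < Nat.card (MulAction.orbitRel.Quotient H (Ω × Ω)) := fun H _ _ => by
    have : Nonempty (MulAction.orbitRel.Quotient H (Ω × Ω)) :=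
      ⟨Quotient.mk'' (Classical.arbitrary _)⟩
    have : Finite (MulAction.orbitRel.Quotient H (Ω × Ω)) := Quotient.finite _
    exact Nat.card_pos
  obtain ⟨r, hr⟩ := Nat.exists_eq_add_one_of_ne_zero (h8 G).ne'
  obtain ⟨s, hs⟩ := Nat.exists_eq_add_one_of_ne_zero (h8 (H16.derSub G Ω)).ne'
  change Nat.card (MulAction.orbitRel.Quotient (H16.derSub G Ω) (Ω × Ω)) - 1 = _ * (H16.derSub G Ω).index
  rw [hr, hs] at h1 ⊢
  apply Nat.eq_of_mul_eq_mul_right h7
  simp only [Nat.add_sub_cancel]
  rw [mul_assoc, h6]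
  nlinarith

end Cfsg.Agent.S3547
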