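import Cfsg.Statements.S3548
import Mathlib
import Cfsg.Agent.H16.Derang

set_option autoImplicit false
open Cfsg

namespace Cfsg.Agent.S3548

/-- Let G act faithfully and transitively on a finite set with n ≥ 2 points and let D be the subgroup generated by the derangements. Then the index of D in G divides n − 1, and if it equals n − 1 then n is a prime power. -/
theorem result {G Ω : Type*} [Group G] [Finite G] [MulAction G Ω] [FaithfulSMul G Ω] [Finite Ω]
    (htrans : MulAction.IsPretransitive G Ω) (hΩ : 2 ≤ Nat.card Ω) :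
    (Subgroup.closure {g : G | ∀ ω : Ω, g • ω ≠ ω}).index ∣ Nat.card Ω - 1 ∧
    ((Subgroup.closure {g : G | ∀ ω : Ω, g • ω ≠ ω}).index = Nat.card Ω - 1 → IsPrimePow (Nat.card Ω)) := by
  have hnt : Nontrivial Ω := Finite.one_lt_card_iff_nontrivial.1 hΩ
  obtain ⟨a⟩ : Nonempty Ω := inferInstance
  have hc : ({a}ᶜ : Set Ω).ncard = Nat.card Ω - 1 := by
    rw [← Set.ncard_add_ncard_compl {a}, Set.ncard_singleton]; omega
  have hinv : ∀ g : G, g • a = a → ∀ x ∈ ({a}ᶜ : Set Ω), g • x ∈ ({a}ᶜ : Set Ω) :=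
    fun g hg x hx e => hx (smul_left_cancel g (e.trans hg.symm))
  refine ⟨hc ▸ H16.index_derSub_dvd _ (by simp) hinv, fun h => ?_⟩
  have hD := (H16.derSub_spec (G := G) (α := Ω)).1
  have key : ∀ b, b ≠ a → MulAction.orbit (MulAction.stabilizer G a) b = {a}ᶜ ∧
      (MulAction.orbit (MulAction.stabilizer (H16.derSub G Ω) a) b).ncard = 1 := by
    intro b hb
    have h1 := H16.index_mul_ncard_orbit (G := G) hb.symm
    have h2 : MulAction.orbit (MulAction.stabilizer G a) b ⊆ {a}ᶜ := by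
      rintro _ ⟨g, rfl⟩; exact hinv g g.2 b hb
    have h3 := Set.ncard_le_ncard h2
    have h4 : 0 < (MulAction.orbit (MulAction.stabilizer (H16.derSub G Ω) a) b).ncard :=
      (Set.ncard_pos (Set.toFinite _)).2 ⟨b, MulAction.mem_orbit_self b⟩
    change (H16.derSub G Ω).index = _ at h
    rw [h] at h1
    have h5 : (MulAction.orbit (MulAction.stabilizer (H16.derSub G Ω) a) b).ncard = 1 := by
      by_contra h6
      have := Nat.mul_le_mul_left (Nat.card Ω - 1) (show 2 ≤ _ from lt_of_le_of_ne h4 (Ne.symm h6))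
      omega
    exact ⟨Set.eq_of_subset_of_ncard_le h2 (by rw [← h1, h5, hc, mul_one]), h5⟩
  have h2 : MulAction.IsMultiplyPretransitive G Ω 2 := H16.two_trans_of_one htrans a
    fun c d hc hd => by
      have : d ∈ MulAction.orbit (MulAction.stabilizer G a) c := by rw [(key c hc).1]; exact hd
      obtain ⟨g, hg⟩ := this
      exact ⟨g, g.2, hg⟩
  have hreg : MulAction.stabilizer (H16.derSub G Ω) a = ⊥ := by
    rw [eq_bot_iff]
    intro g hg
    rw [Subgroup.mem_bot]
    apply Subtype.ext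
    apply H16.eq_one_of_smul_eq (α := Ω)
    intro b
    by_cases hb : b = a
    · rw [hb]; exact hg
    · obtain ⟨c, hc⟩ := Set.ncard_eq_one.1 (key b hb).2
      have h3 : b ∈ ({c} : Set Ω) := hc ▸ MulAction.mem_orbit_self b
      have h4 : (g : G) • b ∈ ({c} : Set Ω) := hc ▸ ⟨⟨g, hg⟩, rfl⟩
      exact h4.trans h3.symm
  obtain ⟨-, p, hp, hpN⟩ := H16.elemAb_of_two_trans h2 _ hreg
  obtain ⟨m, hm⟩ := H16.card_eq_pow_of_exponent hp hpN
  rw [H16.card_eq_of_regular a hreg] at hm
  rw [hm] at hΩ ⊢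
  refine (isPrimePow_nat_iff _).2 ⟨p, m, hp, Nat.pos_of_ne_zero ?_, rfl⟩
  rintro rfl
  simp at hΩ

end Cfsg.Agent.S3548
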