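import Cfsg.Statements.S3549
import Mathlib
import Cfsg.Agent.H16.Derang

set_option autoImplicit false
open Cfsg

namespace Cfsg.Agent.S3549

/-- Let G act faithfully, transitively but imprimitively on a finite set with n points, and let D be the subgroup generated by the derangements. Then the index of D in G is at most √n − 1. -/
theorem result {G Ω : Type*} [Group G] [Finite G] [MulAction G Ω] [FaithfulSMul G Ω] [Finite Ω]
    (htrans : MulAction.IsPretransitive G Ω) (himp : ¬ MulAction.IsPreprimitive G Ω) :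
    ((Subgroup.closure {g : G | ∀ ω : Ω, g • ω ≠ ω}).index : ℝ) ≤ Real.sqrt (Nat.card Ω) - 1 := by
  obtain ⟨B, hB, hnt⟩ : ∃ B : Set Ω, MulAction.IsBlock G B ∧ ¬ MulAction.IsTrivialBlock B := by
    by_contra h
    push Not at h
    exact himp ⟨fun {B} hB => h B hB⟩
  rw [MulAction.IsTrivialBlock, not_or, Set.not_subsingleton_iff] at hnt
  obtain ⟨a, ha⟩ := hnt.1.nonempty
  have h1 : ∀ g : G, g • a = a → ∀ x, g • x ∈ B ↔ x ∈ B := by
    intro g hg x
    open Pointwise in have : g • B = B := hB.stabilizer_le ha hg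
    conv_lhs => rw [← this]
    exact Set.smul_mem_smul_set_iff
  have d1 := H16.index_derSub_dvd (G := G) (a := a) (B \ {a}) (by simp) fun g hg x hx =>
    ⟨(h1 g hg x).2 hx.1, fun e => hx.2 (smul_left_cancel g (e.trans hg.symm))⟩
  have d2 := H16.index_derSub_dvd (G := G) (a := a) Bᶜ (by simpa) fun g hg x hx h =>
    hx ((h1 g hg x).1 h)
  rw [Set.ncard_diff_singleton_of_mem ha] at d1
  obtain ⟨c, hc⟩ := hB.ncard_dvd_card ⟨a, ha⟩
  have h2 := Set.ncard_add_ncard_compl B
  have hb : 1 < B.ncard := (Set.one_lt_ncard_iff_nontrivial).2 hnt.1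
  have hb2 : 0 < Bᶜ.ncard := (Set.ncard_pos).2 (Set.nonempty_compl.2 hnt.2)
  change ((H16.derSub G Ω).index : ℝ) ≤ _
  generalize (H16.derSub G Ω).index = d at *
  generalize B.ncard = b at *
  obtain ⟨b, rfl⟩ : ∃ b', b = b' + 1 := ⟨b - 1, by omega⟩
  obtain ⟨c, rfl⟩ : ∃ c', c = c' + 1 := ⟨c - 1, by
    rcases c with _ | c
    · omega
    · rfl⟩
  have h3 : Bᶜ.ncard = (b + 1) * c := by rw [hc] at h2; linarith
  rw [h3] at d2 hb2
  rw [Nat.add_sub_cancel] at d1
  have h4 : d ∣ c := by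
    rw [add_mul, one_mul] at d2
    exact (Nat.dvd_add_right (d1.mul_right c)).1 d2
  have h5 := Nat.le_of_dvd (by omega) d1
  have h6 := Nat.le_of_dvd (Nat.pos_of_mul_pos_left hb2) h4
  rw [le_sub_iff_add_le]
  apply Real.le_sqrt_of_sq_le
  rw [hc]
  have : (d + 1) ^ 2 ≤ (b + 1) * (c + 1) := by
    rw [pow_two]; exact Nat.mul_le_mul (by omega) (by omega)
  exact_mod_cast this

end Cfsg.Agent.S3549
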