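import Cfsg.Statements.S3559
import Mathlib
import Cfsg.Agent.H1.SRing

set_option autoImplicit false
open Cfsg

namespace Cfsg.Agent.S3559

/-- Let G act faithfully and transitively on a finite set whose number of points n ≥ 2 is not a prime power, and suppose G has a cyclic subgroup acting regularly (transitively with trivial point stabilizers). Then G is imprimitive or doubly transitive. -/
theorem result {G Ω : Type*} [Group G] [Finite G] [MulAction G Ω] [FaithfulSMul G Ω] [Finite Ω]
    (htrans : MulAction.IsPretransitive G Ω) (hn : 2 ≤ Nat.card Ω) (hnp : ¬ IsPrimePow (Nat.card Ω))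
    (C : Subgroup G) (hcyc : IsCyclic ↥C) (hC : MulAction.IsPretransitive ↥C Ω ∧ ∀ a : Ω, MulAction.stabilizer ↥C a = ⊥) :
    ¬ MulAction.IsPreprimitive G Ω ∨ MulAction.IsMultiplyPretransitive G Ω 2 := by
  by_cases hp : MulAction.IsPreprimitive G Ω
  · right
    have : Nonempty Ω := by
      rw [← Finite.card_pos_iff]; omega
    obtain ⟨a⟩ := this
    have := hC.1
    have hb := Cfsg.Agent.H16.bijective_smul_of_regular (G := C) a (hC.2 a)
    refine Cfsg.Agent.H1.two_trans_of_cyclic C.subtype a hb fun h => hnp ?_
    rw [← Cfsg.Agent.H16.card_eq_of_regular (G := C) a (hC.2 a)]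
    exact h.isPrimePow
  · exact Or.inl hp

end Cfsg.Agent.S3559
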