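import Cfsg.Statements.S3560
import Mathlib
import Cfsg.Agent.H16.Basic

set_option autoImplicit false
open Cfsg

namespace Cfsg.Agent.S3560

open MulAction Equiv

/-- two words at Hamming distance one -/
def Adj {ι X : Type*} (x y : ι → X) : Prop := ∃ i, x i ≠ y i ∧ ∀ j, j ≠ i → x j = y j

/-- the automorphism group of the Hamming graph, transported along a bijection -/
def hamG {ι X Y : Type*} (φ : Y ≃ (ι → X)) : Subgroup (Perm Y) where
  carrier := {σ | ∀ a b, Adj (φ (σ a)) (φ (σ b)) ↔ Adj (φ a) (φ b)}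
  one_mem' := by simp
  mul_mem' := by
    intro σ τ hσ hτ a b
    rw [Perm.mul_apply, Perm.mul_apply, hσ, hτ]
  inv_mem' := by
    intro σ hσ a b
    rw [← hσ]; simp

theorem mem_hamG {ι X Y : Type*} (φ : Y ≃ (ι → X)) (π : Perm ι) (s : ι → Perm X) (σ : Perm Y)
    (h : ∀ a i, φ (σ a) (π i) = s i (φ a i)) : σ ∈ hamG φ := by
  intro a b
  constructor
  · rintro ⟨i, h1, h2⟩
    obtain ⟨i, rfl⟩ := π.surjective i
    refine ⟨i, fun e => h1 (by rw [h, h, e]), fun j hj => ?_⟩
    have := h2 (π j) (fun e => hj (π.injective e))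
    rw [h, h] at this
    exact (s j).injective this
  · rintro ⟨i, h1, h2⟩
    refine ⟨π i, fun e => h1 ?_, fun j hj => ?_⟩
    · rw [h, h] at e; exact (s i).injective e
    · obtain ⟨j, rfl⟩ := π.surjective j
      rw [h, h, h2 j (fun e => hj (by rw [e]))]

theorem exists_hamG {ι X Y : Type*} (φ : Y ≃ (ι → X)) (π : Perm ι) (s : ι → Perm X) :
    ∃ σ ∈ hamG φ, ∀ a i, φ (σ a) (π i) = s i (φ a i) := by
  let σ : Perm Y := (φ.trans ((Equiv.piCongrRight s).trans (Equiv.arrowCongr π (Equiv.refl X)))).trans φ.symm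
  have h : ∀ a i, φ (σ a) (π i) = s i (φ a i) := by
    intro a i; simp [σ]
  exact ⟨σ, mem_hamG φ π s σ h, h⟩

theorem exists_perm_two {X : Type*} {a b c d : X} (h : a ≠ b) (h' : c ≠ d) :
    ∃ s : Perm X, s a = c ∧ s b = d := by
  classical
  refine ⟨swap (swap a c b) d * swap a c, ?_, by simp⟩
  rw [Perm.mul_apply, swap_apply_left, swap_apply_of_ne_of_ne _ h']
  intro e
  apply h
  apply (swap a c).injective
  rw [← e, swap_apply_left]

theorem adj_trans {ι X Y : Type*} (φ : Y ≃ (ι → X)) {a b c d : Y} (h : Adj (φ a) (φ b))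
    (h' : Adj (φ c) (φ d)) : ∃ σ ∈ hamG φ, σ a = c ∧ σ b = d := by
  classical
  obtain ⟨i, h1, h2⟩ := h
  obtain ⟨k, k1, k2⟩ := h'
  obtain ⟨t, t1, t2⟩ := exists_perm_two h1 k1
  obtain ⟨σ, hσ, e⟩ := exists_hamG φ (swap i k)
    (fun j => if j = i then t else swap (φ a j) (φ c (swap i k j)))
  refine ⟨σ, hσ, φ.injective (funext fun j => ?_), φ.injective (funext fun j => ?_)⟩
  · obtain ⟨j, rfl⟩ := (swap i k).surjective j
    rw [e]
    split_ifs with hj
    · rw [hj, t1, swap_apply_left]
    · rw [swap_apply_left]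
  · obtain ⟨j, rfl⟩ := (swap i k).surjective j
    rw [e]
    split_ifs with hj
    · rw [hj, t2, swap_apply_left]
    · rw [← h2 j hj, swap_apply_left, k2]
      intro e'
      apply hj
      apply (swap i k).injective
      rw [e', swap_apply_left]

theorem ham_prim {ι X Y : Type*} [Finite ι] [Finite X] (φ : Y ≃ (ι → X)) (hX : 3 ≤ Nat.card X) :
    IsPreprimitive (hamG φ) Y := by
  classical
  have : Nonempty X := by rw [← Finite.card_pos_iff]; omega
  have ht : IsPretransitive (hamG φ) Y := by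
    constructor
    intro a b
    obtain ⟨σ, hσ, e⟩ := exists_hamG φ 1 (fun j => swap (φ a j) (φ b j))
    exact ⟨⟨σ, hσ⟩, φ.injective (funext fun j => by simpa using e a j)⟩
  refine ⟨fun {B} hB => ?_⟩
  rw [IsTrivialBlock, or_iff_not_imp_left, Set.not_subsingleton_iff]
  rintro ⟨x, hx, y, hy, hxy⟩
  have hmove : ∀ σ ∈ hamG φ, ∀ u ∈ B, σ u ∈ B → ∀ v ∈ B, σ v ∈ B := by
    intro σ hσ u hu hu' v hv
    have := hB.smul_eq_of_mem (g := (⟨σ, hσ⟩ : hamG φ)) hu hu'
    rw [← this]
    exact ⟨v, hv, rfl⟩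
  obtain ⟨i, hi⟩ : ∃ i, φ x i ≠ φ y i := by
    by_contra h
    push Not at h
    exact hxy (φ.injective (funext h))
  obtain ⟨c, hc1, hc2⟩ : ∃ c, c ≠ φ x i ∧ c ≠ φ y i := by
    by_contra h
    push Not at h
    have := Fintype.ofFinite X
    have h1 : (Finset.univ : Finset X) ⊆ {φ x i, φ y i} := by
      intro c _
      by_cases e : c = φ x i
      · simp [e]
      · simp [h c e]
    have h2 := (Finset.card_le_card h1).trans Finset.card_le_two
    rw [Finset.card_univ, ← Nat.card_eq_fintype_card] at h2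
    omega
  obtain ⟨σ, hσ, e⟩ := exists_hamG φ 1 (fun j => if j = i then swap (φ y i) c else 1)
  have hσx : σ x = x := by
    refine φ.injective (funext fun j => ?_)
    have := e x j
    simp only [Perm.coe_one, id_eq] at this
    rw [this]
    split_ifs with hj
    · rw [hj, swap_apply_of_ne_of_ne hi hc1.symm]
    · rfl
  have hy' : σ y ∈ B := hmove σ hσ x hx (hσx.symm ▸ hx) y hy
  have hadj : Adj (φ y) (φ (σ y)) := by
    refine ⟨i, ?_, fun j hj => ?_⟩
    · have := e y i
      simp only [Perm.coe_one, id_eq, if_true, swap_apply_left] at this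
      rw [this]; exact hc2.symm
    · have := e y j
      simp only [Perm.coe_one, id_eq, if_neg hj] at this
      exact this.symm
  have hstep : ∀ u ∈ B, ∀ v, Adj (φ u) (φ v) → v ∈ B := by
    intro u hu v huv
    obtain ⟨τ, hτ, e1, e2⟩ := adj_trans φ hadj huv
    rw [← e2]
    exact hmove τ hτ y hy (e1.symm ▸ hu) _ hy'
  have := Fintype.ofFinite ι
  have hall : ∀ s : Finset ι, ∀ v, (∀ j, j ∉ s → φ v j = φ x j) → v ∈ B := by
    intro s
    induction s using Finset.induction_on with
    | empty =>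
      intro v hv
      rwa [φ.injective (funext fun j => hv j (by simp))]
    | insert k s hk ih =>
      intro v hv
      have h1 : φ.symm (Function.update (φ v) k (φ x k)) ∈ B := by
        apply ih
        intro j hj
        rw [apply_symm_apply]
        by_cases e : j = k
        · rw [e, Function.update_self]
        · rw [Function.update_of_ne e, hv j (by simp [e, hj])]
      by_cases e : φ v k = φ x k
      · rwa [← e, Function.update_eq_self, symm_apply_apply] at h1
      · refine hstep _ h1 v ⟨k, ?_, fun j hj => ?_⟩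
        · rw [apply_symm_apply, Function.update_self]; exact Ne.symm e
        · rw [apply_symm_apply, Function.update_of_ne hj]
  exact Set.eq_univ_of_forall fun v => hall Finset.univ v (by simp)

/-- Let K be a finite group isomorphic to a direct product of r ≥ 2 groups all of the same order m ≥ 3. Then K is not a B-group: there is a primitive but not doubly transitive permutation group (on some finite set) containing a regular subgroup isomorphic to K. -/
theorem result {K : Type*} [Group K] [Finite K] {ι : Type*} [Fintype ι] (F : ι → Type*) [∀ i, Group (F i)]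
    (hr : 2 ≤ Fintype.card ι) (m : ℕ) (hm : 3 ≤ m) (hcard : ∀ i, Nat.card (F i) = m) (e : K ≃* (∀ i, F i)) :
    ∃ (n : ℕ) (G R : Subgroup (Equiv.Perm (Fin n))), R ≤ G ∧ Nonempty (↥R ≃* K) ∧
      MulAction.IsPretransitive ↥R (Fin n) ∧ (∀ a : Fin n, MulAction.stabilizer ↥R a = ⊥) ∧
      MulAction.IsPreprimitive ↥G (Fin n) ∧ ¬ MulAction.IsMultiplyPretransitive ↥G (Fin n) 2 := by
  classical
  have hfin : ∀ i, Finite (F i) := fun i => Nat.finite_of_card_ne_zero (by rw [hcard]; omega)
  let ψ : ∀ i, F i ≃ Fin m := fun i => Finite.equivFinOfCardEq (hcard i)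
  let η : K ≃ Fin (Nat.card K) := Finite.equivFin K
  let φ : Fin (Nat.card K) ≃ (ι → Fin m) := (η.symm.trans e.toEquiv).trans (Equiv.piCongrRight ψ)
  let ρ : K →* Perm (Fin (Nat.card K)) := η.permCongrHom.toMonoidHom.comp (toPermHom K K)
  have hρ : ∀ k a, ρ k a = η (k * η.symm a) := fun k a => rfl
  have hinj : Function.Injective ρ := η.permCongrHom.injective.comp (toPerm_injective (α := K) (β := K))
  refine ⟨Nat.card K, hamG φ, ρ.range, ?_, ⟨(MonoidHom.ofInjective hinj).symm⟩, ?_, ?_,
    ham_prim φ (by simpa using hm), ?_⟩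
  · rintro _ ⟨k, rfl⟩
    refine mem_hamG φ 1 (fun i => (ψ i).permCongr (toPerm (e k i))) _ fun a i => ?_
    simp [φ, hρ]
  · constructor
    intro a b
    refine ⟨⟨ρ (η.symm b * (η.symm a)⁻¹), _, rfl⟩, ?_⟩
    change ρ _ a = b
    rw [hρ]; simp
  · intro a
    rw [eq_bot_iff]
    rintro ⟨_, k, rfl⟩ h
    have h1 : ρ k a = a := h
    rw [hρ, ← Equiv.eq_symm_apply, mul_eq_right] at h1
    simp [h1]
  · intro h2
    obtain ⟨i, j, hij⟩ := Fintype.exists_pair_of_one_lt_card (α := ι) (by omega)
    let z : Fin m := ⟨0, by omega⟩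
    let o : Fin m := ⟨1, by omega⟩
    have hzo : z ≠ o := by simp [z, o]
    let a := φ.symm (fun _ => z)
    let b := φ.symm (Function.update (fun _ => z) i o)
    let c := φ.symm (fun _ => o)
    have hab : a ≠ b := by
      intro h
      have := congrFun (φ.symm.injective h) i
      simp [hzo] at this
    have hac : a ≠ c := fun h => hzo (congrFun (φ.symm.injective h) i)
    obtain ⟨σ, e1, e2⟩ := Cfsg.Agent.H16.two_trans h2 hab hac
    have h3 : Adj (φ a) (φ b) := by
      refine ⟨i, by simp [a, b, hzo], fun k hk => by simp [a, b, hk]⟩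
    rw [← σ.2 a b] at h3
    change Adj (φ (σ • a)) (φ (σ • b)) at h3
    rw [e1, e2] at h3
    obtain ⟨k, -, h4⟩ := h3
    by_cases hk : i = k
    · exact hzo (by simpa [a, c] using h4 j (hk ▸ hij.symm))
    · exact hzo (by simpa [a, c] using h4 i hk)

end Cfsg.Agent.S3560
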