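import Cfsg.Statements.S3571
import Mathlib
import Cfsg.Agent.H27.Der2
import Cfsg.Agent.H10.Sym3

set_option autoImplicit false
open Cfsg

namespace Cfsg.Agent.S3571

open Cfsg.Agent Subgroup MulAction Equiv

/-- Let G be an almost simple group whose socle is an alternating group of degree m ≥ 5 (G has a normal subgroup T isomorphic to that alternating group with trivial centralizer), acting faithfully and primitively on a finite set Ω with at least two points, and let r be the largest prime divisor of the number of points. Then G contains an element of order r fixing no point. -/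
theorem result {G Ω : Type*} [Group G] [Finite G] [MulAction G Ω] [FaithfulSMul G Ω] [Finite Ω]
    (T : Subgroup G) (hT : T.Normal) (hTc : Subgroup.centralizer (T : Set G) = ⊥) (m : ℕ) (hm : 5 ≤ m)
    (eT : ↥T ≃* ↥(alternatingGroup (Fin m))) (hprim : MulAction.IsPreprimitive G Ω) (hΩ : 2 ≤ Nat.card Ω)
    (r : ℕ) (hr : r.Prime) (hrd : r ∣ Nat.card Ω) (hmax : ∀ s : ℕ, s.Prime → s ∣ Nat.card Ω → s ≤ r) :
    ∃ g : G, orderOf g = r ∧ ∀ ω : Ω, g • ω ≠ ω := by
  classical
  haveI : Nontrivial Ω := Finite.one_lt_card_iff_nontrivial.1 hΩ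
  obtain ⟨ω⟩ : Nonempty Ω := inferInstance
  set A := alternatingGroup (Fin m)
  haveI : IsSimpleGroup A := alternatingGroup.isSimpleGroup (by simpa using hm)
  haveI : IsSimpleGroup T := eT.isSimpleGroup
  haveI : IsPretransitive T Ω := IsQuasiPreprimitive.isPretransitive_of_normal fun h => by
    obtain ⟨t, ht⟩ := exists_ne (1 : T)
    exact ht (Subtype.ext (eq_of_smul_eq_smul fun x : Ω => (h.ge (Set.mem_univ x) t).trans (one_smul G x).symm))
  let φ : T →* Perm (Fin m) := A.subtype.comp eT.toMonoidHom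
  have hφ : Function.Injective φ := Subtype.val_injective.comp eT.injective
  have hs : ∀ a ∈ A, ∃ t, φ t = a := fun a ha => ⟨eT.symm ⟨a, ha⟩, by simp [φ]⟩
  have hA : (⊤ : Subgroup T).map φ = A := le_antisymm (by rintro _ ⟨t, -, rfl⟩; exact (eT t).2) fun a ha =>
    (hs a ha).imp fun _ h => ⟨trivial, h⟩
  have hi : ((stabilizer T ω).map φ).relIndex A = Nat.card Ω := by
    rw [← hA, relIndex_map_map_of_injective _ _ hφ, relIndex_top_right, index_stabilizer_of_transitive]
  obtain ⟨g, a1, a2, a3⟩ := H27.Der.core (by simpa using hm) (H := (stabilizer T ω).map φ) ((map_mono le_top).trans hA.le) hr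
    (hi ▸ hrd) (hi ▸ hmax) (or_iff_not_imp_left.2 fun h6 M b1 b2 b3 => by
      have c1 : stabilizer G ω ≤ normalizer ((M.comap φ).map T.subtype : Set G) := fun x hx => by
        obtain ⟨σ, hσ⟩ := H10.alt_aut_conj (by simp; omega) (MulAut.congr eT (MulAut.conjNormal x)) (.inl h6)
        have c2 : ∀ t, φ (MulAut.conjNormal x t) = σ * φ t * σ⁻¹ := fun t => by simpa [φ] using hσ (eT t)
        have c3 := b3 (mem_normalizer_fintype (x := σ) (by
          rintro _ ⟨t, ht, rfl⟩
          refine ⟨_, ?_, c2 t⟩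
          have h1 : (t : G) • ω = ω := ht
          have h2 : x⁻¹ • ω = ω := inv_mem hx
          show (x * t * x⁻¹) • ω = ω
          rw [mul_smul, mul_smul, h2, h1, hx]))
        refine mem_normalizer_fintype ?_
        rintro _ ⟨t, ht, rfl⟩
        exact ⟨MulAut.conjNormal x t, show φ _ ∈ M from c2 t ▸ (mem_normalizer_iff.1 c3 _).1 ht, rfl⟩
      intro a ha
      obtain ⟨t, rfl⟩ := hs a (b1 ha)
      refine mem_map_of_mem _ (by_contra fun ht => ?_)
      have c4 := (IsPreprimitive.isCoatom_stabilizer_of_isPreprimitive G ω).2 _ (lt_of_le_of_ne c1 fun e => ht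
        (e.ge (le_normalizer (mem_map_of_mem T.subtype (show t ∈ M.comap φ from ha)))))
      have c5 := (normalizer_eq_top_iff.1 c4).comap T.subtype
      rw [comap_map_eq_self_of_injective T.subtype_injective] at c5
      rcases c5.eq_bot_or_eq_top with h | h
      · exact ht ((mem_bot.1 (h.le ha)).symm ▸ one_mem _)
      · exact b2 (hA.ge.trans (map_le_iff_le_comap.2 h.ge)))
  obtain ⟨t, rfl⟩ := hs g a1
  refine ⟨t, by rw [← a2, orderOf_injective φ hφ, orderOf_coe], fun x hx => ?_⟩
  obtain ⟨a, rfl⟩ := exists_smul_eq T ω x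
  refine a3 (φ a⁻¹) ?_
  rw [← map_inv, ← map_mul, ← map_mul]
  refine mem_map_of_mem _ ?_
  rw [mem_stabilizer_iff, inv_inv, mul_smul, mul_smul, inv_smul_eq_iff]
  exact hx

end Cfsg.Agent.S3571
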