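import Cfsg.Statements.S3572
import Mathlib
import Cfsg.Agent.H16.SRD4

set_option autoImplicit false
open Cfsg

namespace Cfsg.Agent.S3572

/-- A finite primitive permutation group containing a dihedral subgroup that acts regularly (transitively with trivial point stabilizers) is doubly transitive. -/
theorem result {G Ω : Type*} [Group G] [Finite G] [MulAction G Ω] [FaithfulSMul G Ω] [Finite Ω]
    (hprim : MulAction.IsPreprimitive G Ω) (D : Subgroup G) (m : ℕ) (hD : Nonempty (↥D ≃* DihedralGroup m))
    (hDreg : MulAction.IsPretransitive ↥D Ω ∧ ∀ a : Ω, MulAction.stabilizer ↥D a = ⊥) :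
    MulAction.IsMultiplyPretransitive G Ω 2 := by
  obtain ⟨e⟩ := hD
  have := hDreg.1
  have : Finite (DihedralGroup m) := .of_equiv _ e.toEquiv
  have m0 : m ≠ 0 := by rintro rfl; exact not_finite (DihedralGroup 0)
  have := NeZero.mk m0
  rcases isEmpty_or_nonempty Ω with h | ⟨⟨a⟩⟩
  · exact ⟨fun x => h.elim (x 0)⟩
  refine H16.two_trans_of_dihT (C := Subgroup.zpowers (DihedralGroup.r (1 : ZMod m)))
    ⟨inferInstance, ?_, ?_⟩ (D.subtype.comp e.symm.toMonoidHom) a
    ((H16.bijective_smul_of_regular (G := D) a (hDreg.2 a)).comp e.symm.bijective)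
  · have := (Subgroup.zpowers (DihedralGroup.r (1 : ZMod m))).card_mul_index
    rw [Nat.card_zpowers, DihedralGroup.orderOf_r_one, DihedralGroup.nat_card, mul_comm 2] at this
    exact Nat.eq_of_mul_eq_mul_left (Nat.pos_of_ne_zero m0) this
  · rintro (i | i) h
    · exact absurd ⟨i.val, by simp⟩ h
    · exact DihedralGroup.sr_mul_self i

end Cfsg.Agent.S3572
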