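import Cfsg.Statements.S3573
import Mathlib

set_option autoImplicit false
open Cfsg

namespace Cfsg.Agent.S3573

open Equiv Finset

theorem exists_inv {α : Type*} [Fintype α] [DecidableEq α] (σ : Perm α) {r : ℕ} (hr : r.Prime) (hσ : orderOf σ = r)
    (i : ℕ) (hi : r * i ≤ σ.support.card) :
    ∃ A : Finset α, A ⊆ σ.support ∧ A.card = r * i ∧ ∀ x, σ x ∈ A ↔ x ∈ A := by
  induction i with
  | zero => exact ⟨∅, by simp, by simp, by simp⟩
  | succ i ih =>
    have h0 : r * i < σ.support.card := lt_of_lt_of_le (Nat.mul_lt_mul_of_pos_left (Nat.lt_succ_self i) hr.pos) hi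
    obtain ⟨A, hA, hc, hinv⟩ := ih h0.le
    obtain ⟨x, hx, hxA⟩ := exists_mem_notMem_of_card_lt_card (hc ▸ h0)
    have h1 : (σ.cycleOf x).support.card = r := by
      obtain ⟨n, hn⟩ := Perm.cycleType_prime_order (hσ ▸ hr)
      have : (σ.cycleOf x).support.card ∈ σ.cycleType := by
        rw [Perm.cycleType_def, Multiset.mem_map]
        exact ⟨_, Perm.cycleOf_mem_cycleFactorsFinset_iff.2 hx, rfl⟩
      rw [hn] at this
      exact (Multiset.eq_of_mem_replicate this).trans hσ
    have h2 : ∀ n : ℕ, (σ ^ n) x ∉ A := fun n => by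
      induction n with
      | zero => exact hxA
      | succ n ih => rw [pow_succ', Perm.mul_apply, hinv]; exact ih
    refine ⟨A ∪ (σ.cycleOf x).support, union_subset hA (Perm.support_cycleOf_le σ x), ?_, fun y => ?_⟩
    · rw [card_union_of_disjoint, hc, h1, mul_add, mul_one]
      refine disjoint_left.2 fun y hy hy' => ?_
      obtain ⟨n, -, rfl⟩ := (Perm.mem_support_cycleOf_iff.1 hy').1.exists_pow_eq'
      exact h2 _ (by simpa using hy)
    · rw [mem_union, mem_union, hinv, Perm.mem_support_cycleOf_iff, Perm.mem_support_cycleOf_iff,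
        Perm.sameCycle_apply_right]

theorem dvd_supp {α : Type*} [Fintype α] [DecidableEq α] (σ : Perm α) {r : ℕ} (hr : r.Prime) (hσ : orderOf σ = r) :
    r ∣ σ.support.card := by
  obtain ⟨n, hn⟩ := Perm.cycleType_prime_order (hσ ▸ hr)
  rw [← Perm.sum_cycleType, hn, hσ, Multiset.sum_replicate]
  exact Dvd.intro_left _ rfl

theorem key (n k : ℕ) (hkn : k ≤ n) (r : ℕ) (hr : r.Prime) (hrn : r ≤ n) :
    (∀ σ : Perm (Fin n), orderOf σ = r → ∃ s : Finset (Fin n), s.card = k ∧ s.image σ = s) ↔ k % r ≤ n % r := by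
  constructor
  · intro h
    have h1 : 0 < n / r := Nat.div_pos hrn hr.pos
    obtain ⟨σ, hσ⟩ := (Perm.exists_with_cycleType_iff (Fin n) (m := Multiset.replicate (n / r) r)).2
      ⟨by rw [Multiset.sum_replicate, Fintype.card_fin]; exact Nat.div_mul_le_self n r,
        fun a ha => Multiset.eq_of_mem_replicate ha ▸ hr.two_le⟩
    have ho : orderOf σ = r := by
      rw [← Perm.lcm_cycleType, hσ]
      exact Nat.dvd_antisymm (Multiset.lcm_dvd.2 fun b hb => dvd_of_eq (Multiset.eq_of_mem_replicate hb))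
        (Multiset.dvd_lcm (Multiset.mem_replicate.2 ⟨h1.ne', rfl⟩))
    obtain ⟨s, hs, hi⟩ := h σ ho
    have hinv : ∀ x, σ x ∈ s ↔ x ∈ s := fun x => by
      nth_rw 1 [← hi]
      exact σ.injective.mem_finset_image
    have : Fact r.Prime := ⟨hr⟩
    have h2 := Perm.card_compl_support_modEq (p := r) (n := 1) (σ := σ.subtypePerm (p := (· ∈ s)) hinv) (by
      rw [pow_one, Perm.subtypePerm_pow, ← ho]
      ext x; simp)
    rw [Fintype.card_coe, hs] at h2
    have h3 : ((σ.subtypePerm (p := (· ∈ s)) hinv).supportᶜ).card ≤ σ.supportᶜ.card := by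
      refine card_le_card_of_injOn Subtype.val (fun x hx => ?_) Subtype.val_injective.injOn
      simpa [Subtype.ext_iff] using hx
    rw [card_compl σ.support, ← Perm.sum_cycleType, hσ, Multiset.sum_replicate, Fintype.card_fin, smul_eq_mul,
      ← Nat.mod_eq_sub_div_mul] at h3
    rw [← h2]
    exact (Nat.mod_le _ _).trans h3
  · intro h σ hσ
    obtain ⟨c, hc⟩ := dvd_supp σ hr hσ
    have hn : σ.supportᶜ.card + r * c = n := by
      rw [← hc, card_compl, Fintype.card_fin, Nat.sub_add_cancel (by simpa using card_le_univ σ.support)]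
    obtain ⟨i, hi, h1, h2⟩ : ∃ i, i ≤ c ∧ r * i ≤ k ∧ k - r * i ≤ σ.supportᶜ.card := by
      by_cases e : k / r ≤ c
      · refine ⟨k / r, e, Nat.mul_div_le k r, ?_⟩
        rw [← Nat.mod_eq_sub_mul_div]
        refine h.trans ?_
        have : n % r = σ.supportᶜ.card % r := by
          conv_lhs => rw [← hn]
          exact Nat.add_mul_mod_self_left _ _ _
        exact this ▸ Nat.mod_le _ _
      · exact ⟨c, le_rfl, (Nat.mul_le_mul_left r (not_le.1 e).le).trans (Nat.mul_div_le k r), by omega⟩
    obtain ⟨A, hA, hAc, hinv⟩ := exists_inv σ hr hσ i (hc ▸ Nat.mul_le_mul_left r hi)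
    obtain ⟨B, hB, hBc⟩ := exists_subset_card_eq h2
    refine ⟨A ∪ B, ?_, ?_⟩
    · rw [card_union_of_disjoint (disjoint_compl_right.mono hA hB), hAc, hBc]; omega
    · refine eq_of_subset_of_card_le (fun y hy => ?_) (card_image_of_injective _ σ.injective).ge
      obtain ⟨x, hx, rfl⟩ := mem_image.1 hy
      rcases mem_union.1 hx with a | a
      · exact mem_union_left _ ((hinv x).2 a)
      · rw [Perm.notMem_support.1 (mem_compl.1 (hB a))]; exact mem_union_right _ a

/-- Let 1 ≤ k with 2k < n and consider the symmetric group of degree n acting on the k-subsets of an n-set. Let r be a prime dividing the number C(n,k) of k-subsets. If r is odd, then every permutation of order r fixes some k-subset if and only if r ≤ k and the remainder of k modulo r is at most the remainder of n modulo r. If r = 2, then every involution fixes some k-subset if and only if k is even or n is odd. -/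
theorem result (n k : ℕ) (hk : 1 ≤ k) (hkn : 2 * k < n) (r : ℕ) (hr : r.Prime) (hrd : r ∣ Nat.choose n k) :
    (r ≠ 2 → ((∀ σ : Equiv.Perm (Fin n), orderOf σ = r → ∃ s : Finset (Fin n), s.card = k ∧ s.image σ = s) ↔
      (r ≤ k ∧ k % r ≤ n % r))) ∧
    (r = 2 → ((∀ σ : Equiv.Perm (Fin n), orderOf σ = 2 → ∃ s : Finset (Fin n), s.card = k ∧ s.image σ = s) ↔
      (Even k ∨ Odd n))) := by
  have hkn' : k ≤ n := by omega
  have hrn : r ≤ n := hr.dvd_factorial.1 (hrd.trans (Dvd.intro _ (by
    rw [← Nat.choose_mul_factorial_mul_factorial hkn', mul_assoc])))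
  refine ⟨fun _ => (key n k hkn' r hr hrn).trans ⟨fun h => ⟨?_, h⟩, fun h => h.2⟩, fun h => ?_⟩
  · by_contra hlt
    push Not at hlt
    have : Fact r.Prime := ⟨hr⟩
    have h1 := Choose.choose_modEq_choose_mod_mul_choose_div_nat (n := n) (k := k) (p := r)
    rw [Nat.div_eq_of_lt hlt, Nat.choose_zero_right, mul_one] at h1
    have h2 := (h1.dvd_iff dvd_rfl).1 hrd
    have h3 := hr.dvd_factorial.1 (h2.trans (Dvd.intro _ (by
      rw [← Nat.choose_mul_factorial_mul_factorial h, mul_assoc])))
    exact absurd (Nat.mod_lt n hr.pos) (not_lt.2 h3)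
  · subst h
    rw [key n k hkn' 2 hr hrn, Nat.even_iff, Nat.odd_iff]
    omega

end Cfsg.Agent.S3573
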