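import Cfsg.Statements.S3575
import Mathlib


set_option autoImplicit false
open Cfsg

namespace Cfsg.Agent.S3575

open Equiv Finset

section
variable {α : Type} [Fintype α] [DecidableEq α]

theorem dvd_supp {r : ℕ} (hr : r.Prime) {σ : Perm α} (h : σ ^ r = 1) : r ∣ σ.support.card := by
  haveI := Fact.mk hr
  rw [← Perm.sum_cycleType, Perm.cycleType_of_pow_prime_eq_one h]
  simp

theorem dvd_inv {r : ℕ} (hr : r.Prime) {σ : Perm α} (h : σ ^ r = 1) (P : α → Prop)
    [DecidablePred P] (hP : ∀ x, P (σ x) ↔ P x) : r ∣ (σ.support.filter P).card := by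
  have h1 : (σ.subtypePerm hP) ^ r = 1 := by
    rw [Perm.subtypePerm_pow]
    ext x
    simp [h]
  have h2 := dvd_supp hr h1
  have h3 : (σ.subtypePerm hP).support.card = (σ.support.filter P).card := by
    refine Finset.card_bij (fun x _ => x.1) ?_ ?_ ?_
    · intro x hx
      simp only [Perm.mem_support, ne_eq, Subtype.ext_iff, Perm.subtypePerm_apply] at hx
      simp [hx, x.2]
    · intro x _ y _ h
      exact Subtype.ext h
    · intro x hx
      simp only [mem_filter, Perm.mem_support] at hx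
      exact ⟨⟨x, hx.2⟩, by simpa [Subtype.ext_iff] using hx.1, rfl⟩
  rwa [h3] at h2

theorem exists_perm {r : ℕ} (hr : r.Prime) (k : ℕ) (h : r * k ≤ Fintype.card α) :
    ∃ σ : Perm α, σ ^ r = 1 ∧ σ.support.card = r * k := by
  haveI := Fact.mk hr
  obtain ⟨σ, hσ⟩ := (Perm.exists_with_cycleType_iff α (m := Multiset.replicate k r)).2
    ⟨by simpa [mul_comm] using h, fun a ha => by
      rw [Multiset.eq_of_mem_replicate ha]; exact hr.two_le⟩
  refine ⟨σ, Perm.pow_prime_eq_one_iff.2 fun c hc => ?_, ?_⟩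
  · rw [hσ] at hc; exact Multiset.eq_of_mem_replicate hc
  · rw [← Perm.sum_cycleType, hσ]; simp [mul_comm]

theorem conj_of {r : ℕ} (hr : r.Prime) {σ τ : Perm α} (h1 : σ ^ r = 1) (h2 : τ ^ r = 1)
    (h : σ.support.card = τ.support.card) : IsConj σ τ := by
  haveI := Fact.mk hr
  rw [Perm.isConj_iff_cycleType_eq]
  rw [← Perm.sum_cycleType, ← Perm.sum_cycleType, Perm.cycleType_of_pow_prime_eq_one h1,
    Perm.cycleType_of_pow_prime_eq_one h2] at h
  simp only [Multiset.sum_replicate, smul_eq_mul] at h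
  rw [Perm.cycleType_of_pow_prime_eq_one h1, Perm.cycleType_of_pow_prime_eq_one h2,
    Nat.eq_of_mul_eq_mul_right hr.pos h]

theorem distrib (J : Finset α) (A i : ℕ) (h : i ≤ J.card * A) :
    ∃ g : α → ℕ, (∀ j, g j ≤ A) ∧ (∀ j, j ∉ J → g j = 0) ∧ ∑ j ∈ J, g j = i := by
  induction J using Finset.induction_on generalizing i with
  | empty => exact ⟨fun _ => 0, by simp, by simp, by simpa using h.antisymm' (by simp)⟩
  | insert x J hx ih =>
    rw [card_insert_of_notMem hx, add_mul, one_mul] at h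
    obtain ⟨g, h1, h2, h3⟩ := ih (i - A) (by omega)
    refine ⟨Function.update g x (min i A), ?_, ?_, ?_⟩
    · intro j
      by_cases e : j = x
      · subst e; simp
      · simp [e, h1]
    · intro j hj
      simp only [mem_insert, not_or] at hj
      simp [hj.1, h2 j hj.2]
    · rw [sum_insert hx, Function.update_self, sum_update_of_notMem hx, h3]
      omega

theorem nec {a b r : ℕ} (ha : 1 ≤ a) (hr : r.Prime) (σ : Perm α) (hσ : σ ^ r = 1) (f : α → Fin b)
    (hf : ∀ j, Nat.card {x // f x = j} = a) (π : Perm (Fin b)) (hπ : ∀ x, f (σ x) = π (f x)) :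
    ∃ m i, r * m ≤ b ∧ i ≤ (b - r * m) * (a / r) ∧ σ.support.card = r * (m * a + i) := by
  have hf' : ∀ j, (univ.filter fun x => f x = j).card = a := fun j => by
    rw [← hf j, Nat.card_eq_fintype_card, Fintype.card_subtype]
  have hk : ∀ (k : ℕ) x, f ((σ ^ k) x) = (π ^ k) (f x) := by
    intro k
    induction k with
    | zero => simp
    | succ k ih => intro x; rw [pow_succ', pow_succ', Perm.mul_apply, Perm.mul_apply, hπ, ih]
  have hπr : π ^ r = 1 := by
    ext j
    obtain ⟨x, hx⟩ : (univ.filter fun x => f x = j).Nonempty := by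
      rw [← card_pos, hf']; omega
    have hx' : f x = j := by simpa using hx
    rw [← hx', ← hk, hσ]; simp
  obtain ⟨m, hm⟩ := dvd_supp hr hπr
  have h1 : ∀ j, j ∉ π.support → ∃ i, i ≤ a / r ∧ (σ.support.filter fun x => f x = j).card = r * i := by
    intro j hj
    have hj' : π j = j := by simpa using hj
    obtain ⟨i, hi⟩ := dvd_inv hr hσ (fun x => f x = j) (fun x => by
      rw [hπ]; nth_rewrite 1 [← hj']; exact π.injective.eq_iff)
    refine ⟨i, ?_, hi⟩
    rw [Nat.le_div_iff_mul_le hr.pos, mul_comm, ← hi, ← hf' j]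
    exact card_le_card (filter_subset_filter _ (subset_univ _))
  choose! g hg1 hg2 using h1
  have h2 : ∀ j ∈ π.support, (σ.support.filter fun x => f x = j).card = a := by
    intro j hj
    rw [← hf' j]
    congr 1
    ext x
    simp only [mem_filter, Perm.mem_support, mem_univ, true_and, and_iff_right_iff_imp]
    intro hx hx'
    rw [Perm.mem_support, ← hx, ← hπ, hx'] at hj
    exact hj rfl
  have hb : π.support.card ≤ b := by simpa using card_le_univ π.support
  refine ⟨m, ∑ j ∈ π.supportᶜ, g j, hm ▸ hb, ?_, ?_⟩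
  · have := sum_le_card_nsmul π.supportᶜ g (a / r) (fun j hj => hg1 j (by simpa using hj))
    rwa [card_compl, Fintype.card_fin, hm, smul_eq_mul] at this
  · rw [card_eq_sum_card_fiberwise (f := f) (t := univ) (fun _ _ => mem_univ _),
      ← sum_add_sum_compl π.support, sum_congr rfl h2,
      sum_congr rfl (fun j hj => hg2 j (by simpa using hj)), ← mul_sum, sum_const, hm, smul_eq_mul]
    ring
end

theorem model {a b r : ℕ} (hr : r.Prime) (m i : ℕ) (hm : r * m ≤ b) (hi : i ≤ (b - r * m) * (a / r)) :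
    ∃ (σ : Perm (Fin b × Fin a)) (π : Perm (Fin b)), σ ^ r = 1 ∧ σ.support.card = r * (m * a + i) ∧
      ∀ x, (σ x).1 = π x.1 := by
  obtain ⟨π, hπ, hπc⟩ := exists_perm (α := Fin b) hr m (by simpa using hm)
  obtain ⟨g, g1, g2, g3⟩ := distrib π.supportᶜ (a / r) i
    (by rwa [card_compl, Fintype.card_fin, hπc])
  have h1 : ∀ j, ∃ τ : Perm (Fin a), τ ^ r = 1 ∧ τ.support.card = r * g j := fun j =>
    exists_perm hr _ (by
      rw [Fintype.card_fin, mul_comm, ← Nat.le_div_iff_mul_le hr.pos]; exact g1 j)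
  choose τ t1 t2 using h1
  have t3 : ∀ j ∈ π.support, τ j = 1 := by
    intro j hj
    rw [← Perm.card_support_eq_zero, t2, g2 j (by simpa using hj), mul_zero]
  have t4 : ∀ j, τ (π j) = τ j := by
    intro j
    by_cases hj : j ∈ π.support
    · rw [t3 j hj, t3 _ (by simpa using hj)]
    · rw [Perm.notMem_support.1 hj]
  let σ : Perm (Fin b × Fin a) := Equiv.prodShear π τ
  have hσ : ∀ x, σ x = (π x.1, τ x.1 x.2) := fun x => rfl
  have t5 : ∀ (k : ℕ) j, τ ((π ^ k) j) = τ j := by
    intro k j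
    induction k with
    | zero => simp
    | succ k ih => rw [pow_succ', Perm.mul_apply, t4, ih]
  have hk : ∀ (k : ℕ) x, (σ ^ k) x = ((π ^ k) x.1, (τ x.1 ^ k) x.2) := by
    intro k x
    induction k with
    | zero => simp
    | succ k ih => rw [pow_succ', Perm.mul_apply, ih, hσ, t5, pow_succ', pow_succ']; rfl
  refine ⟨σ, π, ?_, ?_, fun x => rfl⟩
  · ext1 x
    rw [hk, hπ, t1]; rfl
  · have h2 : ∀ j, (σ.support.filter fun x => x.1 = j).card =
        (univ.filter fun y : Fin a => π j ≠ j ∨ τ j y ≠ y).card := by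
      intro j
      refine Finset.card_bij (fun x _ => x.2) ?_ ?_ ?_
      · rintro ⟨x, y⟩ hx
        simp only [mem_filter, Perm.mem_support, hσ, ne_eq, Prod.mk.injEq] at hx
        obtain ⟨hx, rfl⟩ := hx
        simp only [mem_filter, mem_univ, true_and]
        tauto
      · rintro ⟨x, y⟩ hx ⟨x', y'⟩ hx' h
        simp only [mem_filter] at hx hx'
        exact Prod.ext (hx.2.trans hx'.2.symm) h
      · intro y hy
        refine ⟨(j, y), ?_, rfl⟩
        simp only [mem_filter, Perm.mem_support, hσ, ne_eq, Prod.mk.injEq, mem_univ, true_and] at hy ⊢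
        tauto
    rw [card_eq_sum_card_fiberwise (f := Prod.fst) (t := univ) (fun _ _ => mem_univ _),
      sum_congr rfl (fun j _ => h2 j), ← sum_add_sum_compl π.support,
      sum_congr rfl (g := fun _ => a), sum_congr (s₁ := π.supportᶜ) rfl (g := fun j => r * g j),
      ← mul_sum, g3, sum_const, hπc, smul_eq_mul]
    · ring
    · intro j hj
      have hj' : π j = j := by simpa using hj
      rw [← t2]
      congr 1
      ext y
      simp [hj']
    · intro j hj
      have hj' : π j ≠ j := by simpa using hj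
      simp [hj']

theorem suf {a b r : ℕ} (hr : r.Prime) (σ : Perm (Fin (a * b))) (hσ : σ ^ r = 1) (m i : ℕ)
    (hm : r * m ≤ b) (hi : i ≤ (b - r * m) * (a / r)) (hc : σ.support.card = r * (m * a + i)) :
    ∃ f : Fin (a * b) → Fin b, (∀ j : Fin b, Nat.card {x : Fin (a * b) // f x = j} = a) ∧
      ∃ π : Equiv.Perm (Fin b), ∀ x : Fin (a * b), f (σ x) = π (f x) := by
  obtain ⟨σ0, π, h1, h2, h3⟩ := model (a := a) hr m i hm hi
  let e : Fin b × Fin a ≃ Fin (a * b) := Fintype.equivOfCardEq (by simp [mul_comm])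
  let σ1 : Perm (Fin (a * b)) := e.permCongrHom σ0
  have h4 : σ1 ^ r = 1 := by
    rw [← map_pow, h1, map_one]
  have h5 : σ1.support.card = σ0.support.card := by
    refine (Finset.card_bij (fun x _ => e x) ?_ ?_ ?_).symm
    · intro x hx
      simpa [σ1] using hx
    · intro x _ y _ h
      exact e.injective h
    · intro x hx
      refine ⟨e.symm x, ?_, by simp⟩
      simp only [Perm.mem_support, σ1] at hx ⊢
      intro h
      apply hx
      simp [h]
  obtain ⟨c, hc'⟩ := isConj_iff.1 (conj_of hr hσ h4 (by rw [h5, h2, hc]))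
  refine ⟨fun x => (e.symm (c x)).1, fun j => ?_, π, fun x => ?_⟩
  · refine (Nat.card_congr (Equiv.subtypeEquiv (q := fun y : Fin b × Fin a => y.1 = j)
      (c.trans e.symm) (fun x => Iff.rfl))).trans ?_
    have : {y : Fin b × Fin a // y.1 = j} ≃ Fin a :=
      ⟨fun y => y.1.2, fun y => ⟨(j, y), rfl⟩, fun ⟨⟨_, _⟩, h⟩ => by subst h; rfl, fun _ => rfl⟩
    rw [Nat.card_congr this]; simp
  · have : c (σ x) = σ1 (c x) := by rw [← hc']; simp
    simp only [this, ← h3]
    simp [σ1]

theorem arith {a b r : ℕ} (ha : 2 ≤ a) (hb : 2 ≤ b) (hr : 0 < r) (hab : r ≤ a * b) :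
    (∀ c, 1 ≤ c → r * c ≤ a * b → ∃ m i, r * m ≤ b ∧ i ≤ (b - r * m) * (a / r) ∧ c = m * a + i) ↔
    (r ≤ a ∧ (a % r = 0 ∨ (b % r = 0 ∧ a % r = 1) ∨
        (a % r ≠ 0 ∧ b % r ≠ 0 ∧ (b % r) * (a % r) < r ∧
          (b < r ∨ (b % r + r) * (a % r) ≤ (b % r) * a + r)))) := by
  obtain ⟨A, hA⟩ : ∃ A, A = a / r := ⟨_, rfl⟩
  obtain ⟨l, hl⟩ : ∃ A, A = a % r := ⟨_, rfl⟩
  obtain ⟨B, hB⟩ : ∃ A, A = b / r := ⟨_, rfl⟩
  obtain ⟨k, hk⟩ : ∃ A, A = b % r := ⟨_, rfl⟩
  have e1 : a = r * A + l := by rw [hA, hl, Nat.div_add_mod]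
  have e2 : b = r * B + k := by rw [hB, hk, Nat.div_add_mod]
  have l1 : l < r := hl ▸ Nat.mod_lt _ hr
  have k1 : k < r := hk ▸ Nat.mod_lt _ hr
  rw [← hA, ← hl, ← hk]
  -- reformulate coverage
  have cov : ∀ c, (∃ m i, r * m ≤ b ∧ i ≤ (b - r * m) * A ∧ c = m * a + i) ↔
      ∃ m, m ≤ B ∧ m * a ≤ c ∧ c ≤ m * l + b * A := by
    intro c
    have hm : ∀ m, r * m ≤ b ↔ m ≤ B := fun m => by
      rw [hB, Nat.le_div_iff_mul_le hr, mul_comm]
    constructor
    · rintro ⟨m, i, h1, h2, rfl⟩
      refine ⟨m, (hm m).1 h1, by omega, ?_⟩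
      obtain ⟨d, hd⟩ := Nat.exists_eq_add_of_le h1
      rw [hd, Nat.add_sub_cancel_left] at h2
      rw [hd, e1]
      nlinarith
    · rintro ⟨m, h1, h2, h3⟩
      refine ⟨m, c - m * a, (hm m).2 h1, ?_, by omega⟩
      obtain ⟨d, hd⟩ := Nat.exists_eq_add_of_le ((hm m).2 h1)
      rw [hd, Nat.add_sub_cancel_left]
      rw [hd] at h3
      have : m * a = m * (r * A + l) := by rw [← e1]
      have : c ≤ m * a + d * A := by nlinarith
      omega
  simp only [cov]
  have eab : a * b = r * (B * l + b * A) + k * l := by rw [e1, e2]; ring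
  have gap : (k + r) * l ≤ k * a + r ↔ l ≤ k * A + 1 := by
    rw [e1, show (k + r) * l = k * l + r * l by ring,
      show k * (r * A + l) + r = k * l + r * (k * A + 1) by ring, Nat.add_le_add_iff_left,
      Nat.mul_le_mul_left_iff hr]
  have hBr : b < r ↔ B = 0 := by
    rw [hB, Nat.div_eq_zero_iff]; omega
  rw [gap, hBr]
  constructor
  · intro H
    have c1 : r ≤ a := by
      by_contra hc
      have hA0 : A = 0 := by rw [hA]; exact Nat.div_eq_of_lt (by omega)
      obtain ⟨m, h1, h2, h3⟩ := H 1 le_rfl (by omega)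
      rw [hA0] at h3
      rcases Nat.eq_zero_or_pos m with rfl | hm
      · omega
      · nlinarith
    have c2 : k * l < r := by
      by_contra hc
      obtain ⟨m, h1, h2, h3⟩ := H (B * l + b * A + 1) (by omega) (by rw [eab]; nlinarith)
      nlinarith
    have c3 : l = 0 ∨ B = 0 ∨ l ≤ k * A + 1 := by
      by_contra hc
      push Not at hc
      obtain ⟨h4, h5, h6⟩ := hc
      obtain ⟨B', rfl⟩ := Nat.exists_eq_succ_of_ne_zero h5
      have hl1 : 1 ≤ l := by omega
      obtain ⟨m, h1, h2, h3⟩ := H (B' * l + b * A + 1) (by omega) (by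
        rw [eab, Nat.succ_eq_add_one]; nlinarith [Nat.mul_le_mul_left r hl1])
      have hm : m = B' + 1 := by
        by_contra hm
        have : m ≤ B' := by omega
        nlinarith
      subst hm
      rw [e1, e2, Nat.succ_eq_add_one] at h2
      nlinarith
    refine ⟨c1, ?_⟩
    by_cases hl0 : l = 0
    · exact Or.inl hl0
    by_cases hk0 : k = 0
    · refine Or.inr (Or.inl ⟨hk0, ?_⟩)
      rcases c3 with h | h | h
      · exact absurd h hl0
      · rw [h, hk0] at e2; omega
      · rw [hk0] at h; omega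
    · exact Or.inr (Or.inr ⟨hl0, hk0, c2, c3.resolve_left hl0⟩)
  · rintro ⟨c1, H⟩ c hc1 hc
    have c2 : k * l < r := by
      rcases H with h | h | h
      · rw [h]; omega
      · rw [h.1]; omega
      · exact h.2.2.1
    have c3 : l = 0 ∨ B = 0 ∨ l ≤ k * A + 1 := by
      rcases H with h | h | h
      · exact Or.inl h
      · exact Or.inr (Or.inr (by omega))
      · exact Or.inr h.2.2.2
    have c4 : c ≤ B * l + b * A := by
      by_contra h
      rw [eab] at hc
      nlinarith
    by_cases hm : B ≤ c / a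
    · refine ⟨B, le_rfl, ?_, c4⟩
      rwa [Nat.le_div_iff_mul_le (by omega)] at hm
    · refine ⟨c / a, by omega, Nat.div_mul_le_self _ _, ?_⟩
      have h1 : c < (c / a + 1) * a := by
        rw [mul_comm]; exact Nat.lt_mul_div_succ c (by omega)
      generalize c / a = m at *
      rcases c3 with h | h | h
      · rw [h] at c4 ⊢; omega
      · omega
      · obtain ⟨d, hd⟩ : ∃ d, B = m + 1 + d := ⟨B - (m + 1), by omega⟩
        rw [e2, hd]
        rw [e1] at h1
        nlinarith [Nat.zero_le (r * d * A)]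

/-- Let a, b ≥ 2 and consider the symmetric group of degree a·b acting on the partitions of an (a·b)-set into b parts of size a (encoded as maps onto a b-element set all of whose fibres have a elements; a permutation fixes such a partition when it permutes the fibres). Let r be a prime dividing the number (ab)!/((a!)^b·b!) of such partitions, and let ℓ and k be the remainders of a and b modulo r. Then every permutation of order r fixes some such partition if and only if r ≤ a and one of the following holds: ℓ = 0; or k = 0 and ℓ = 1; or ℓ and k are non-zero, k·ℓ < r, and either b < r or (k + r)·ℓ ≤ k·a + r. -/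
theorem result (a b : ℕ) (ha : 2 ≤ a) (hb : 2 ≤ b) (r : ℕ) (hr : r.Prime)
    (hrd : r ∣ (a * b).factorial / (a.factorial ^ b * b.factorial)) :
    (∀ σ : Equiv.Perm (Fin (a * b)), orderOf σ = r →
        ∃ f : Fin (a * b) → Fin b, (∀ j : Fin b, Nat.card {x : Fin (a * b) // f x = j} = a) ∧
          ∃ π : Equiv.Perm (Fin b), ∀ x : Fin (a * b), f (σ x) = π (f x)) ↔
      (r ≤ a ∧ (a % r = 0 ∨ (b % r = 0 ∧ a % r = 1) ∨
        (a % r ≠ 0 ∧ b % r ≠ 0 ∧ (b % r) * (a % r) < r ∧ (b < r ∨ (b % r + r) * (a % r) ≤ (b % r) * a + r)))) := by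
  have hab : r ≤ a * b := by
    have h1 := Nat.uniformBell_mul_eq b (n := a) (by omega)
    have h2 : a.factorial ^ b * b.factorial ∣ (a * b).factorial :=
      ⟨Nat.uniformBell b a, by rw [mul_comm a b, ← h1]; ring⟩
    exact (hr.dvd_factorial).1 (hrd.trans (Nat.div_dvd_of_dvd h2))
  haveI := Fact.mk hr
  rw [← arith ha hb hr.pos hab]
  constructor
  · intro H c hc1 hc
    obtain ⟨σ, h1, h2⟩ := exists_perm (α := Fin (a * b)) hr c (by simpa using hc)
    have h3 : σ ≠ 1 := by
      rintro rfl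
      have := Nat.mul_pos hr.pos hc1
      rw [← h2] at this
      simp at this
    obtain ⟨f, hf, π, hπ⟩ := H σ (orderOf_eq_prime h1 h3)
    obtain ⟨m, i, k1, k2, k3⟩ := nec (by omega) hr σ h1 f hf π hπ
    exact ⟨m, i, k1, k2, Nat.eq_of_mul_eq_mul_left hr.pos (h2.symm.trans k3)⟩
  · intro H σ hσ
    have h1 : σ ^ r = 1 := hσ ▸ pow_orderOf_eq_one σ
    obtain ⟨c, hc⟩ := dvd_supp hr h1
    have h2 : 1 ≤ c := by
      by_contra h
      have : c = 0 := by omega
      rw [this, mul_zero, Equiv.Perm.card_support_eq_zero] at hc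
      rw [hc, orderOf_one] at hσ
      exact hr.one_lt.ne hσ
    obtain ⟨m, i, k1, k2, k3⟩ := H c h2 (by rw [← hc]; simpa using Finset.card_le_univ σ.support)
    exact suf hr σ h1 m i k1 k2 (by rw [hc, k3])

end Cfsg.Agent.S3575
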