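import Cfsg.Statements.S3592
import Mathlib
import Cfsg.Agent.H23.M11c
import Cfsg.Agent.H14.M24f
-- import your own Cfsg.Agent.* helpers here

set_option autoImplicit false
open Cfsg

namespace Cfsg.Agent.S3592

/-- Let M be the Mathieu group M₁₁ (order 7920). If a finite group G has the same order as M and the same set of values of the function 'number of elements of order n' (taken over the element orders n that occur), then G is isomorphic to M. -/
theorem result {G : Type*} [Group G] [Finite G]
    (hcard : Nat.card G = Nat.card ↥Cfsg.Spor.M11)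
    (hnse : {c : ℕ | 0 < c ∧ ∃ n : ℕ, c = Nat.card {g : G // orderOf g = n}} =
      {c : ℕ | 0 < c ∧ ∃ n : ℕ, c = Nat.card {g : ↥Cfsg.Spor.M11 // orderOf g = n}}) :
    Nonempty (G ≃* ↥Cfsg.Spor.M11) := by
  have := H14.simple_M11
  obtain ⟨z, hz⟩ := exists_prime_orderOf_dvd_card' (G := Spor.M11) 11 (by rw [H14.card_M11]; norm_num)
  obtain ⟨h1, -, h2⟩ := H23.M11.sc11 H14.card_M11 hz
  obtain ⟨y, h3, -⟩ := H23.nse_sc h1 H23.M11.fact5.out h2 (by norm_num) hcard hnse
  rw [H14.card_M11] at hcard
  have := H23.M11.simple_of_sc11 hcard h3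
  obtain ⟨e⟩ := H23.M11.iso hcard
  obtain ⟨g⟩ := H23.M11.iso H14.card_M11
  exact ⟨e.trans g.symm⟩

end Cfsg.Agent.S3592
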