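import Cfsg.Statements.S3599
import Mathlib


set_option autoImplicit false
open Cfsg

namespace Cfsg.Agent.S3599

@[ext] structure Aff (F : Type) [Field F] (U : Subgroup Fˣ) where
  b : F
  a : U

section
variable {F : Type} [Field F] {U : Subgroup Fˣ}

instance instMulAff : Mul (Aff F U) := ⟨fun x y => ⟨x.b + ((x.a : Fˣ) : F) * y.b, x.a * y.a⟩⟩
instance instOneAff : One (Aff F U) := ⟨⟨0, 1⟩⟩
instance instInvAff : Inv (Aff F U) := ⟨fun x => ⟨-(((x.a⁻¹ : U) : Fˣ) : F) * x.b, x.a⁻¹⟩⟩

@[simp] theorem mul_b (x y : Aff F U) : (x * y).b = x.b + ((x.a : Fˣ) : F) * y.b := rfl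
@[simp] theorem mul_a (x y : Aff F U) : (x * y).a = x.a * y.a := rfl
@[simp] theorem one_b : (1 : Aff F U).b = 0 := rfl
@[simp] theorem one_a : (1 : Aff F U).a = 1 := rfl
@[simp] theorem inv_b (x : Aff F U) : (x⁻¹).b = -(((x.a⁻¹ : U) : Fˣ) : F) * x.b := rfl
@[simp] theorem inv_a (x : Aff F U) : (x⁻¹).a = x.a⁻¹ := rfl

instance instGroupAff : Group (Aff F U) :=
  Group.ofLeftAxioms
    (fun x y z => by ext <;> simp [mul_add, add_assoc, mul_assoc])
    (fun x => by ext <;> simp)
    (fun x => by ext <;> simp)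

instance instFiniteAff [Finite F] : Finite (Aff F U) :=
  Finite.of_injective (fun x : Aff F U => (x.b, x.a)) (fun x y h => by
    simp only [Prod.mk.injEq] at h
    exact Aff.ext h.1 h.2)

theorem pow_a (x : Aff F U) (n : ℕ) : (x ^ n).a = x.a ^ n := by
  induction n with
  | zero => simp
  | succ n ih => rw [pow_succ, mul_a, ih, pow_succ]

theorem pow_b (x : Aff F U) (n : ℕ) :
    (x ^ n).b = (∑ i ∈ Finset.range n, ((x.a : Fˣ) : F) ^ i) * x.b := by
  induction n with
  | zero => simp
  | succ n ih =>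
    rw [pow_succ, mul_b, ih, pow_a, Finset.sum_range_succ, add_mul]
    simp

theorem pow_char (p : ℕ) [CharP F p] (x : Aff F U) (h : x.a = 1) : x ^ p = 1 := by
  ext
  · rw [pow_b, h]; simp
  · rw [pow_a, h]; simp

theorem pow_root (q : ℕ) (x : Aff F U) (h : x.a ≠ 1) (hq : x.a ^ q = 1) : x ^ q = 1 := by
  ext
  · rw [pow_b]
    have h1 : ((x.a : Fˣ) : F) ≠ 1 := fun h' => h (by ext; simpa using h')
    have h2 : ((x.a : Fˣ) : F) ^ q = 1 := by
      have := congrArg (fun u : U => ((u : Fˣ) : F)) hq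
      simpa using this
    have := mul_geom_sum ((x.a : Fˣ) : F) q
    rw [h2, sub_self] at this
    rcases mul_eq_zero.1 this with h3 | h3
    · exact absurd (sub_eq_zero.1 h3) h1
    · rw [h3]; simp
  · rw [pow_a, hq]; simp
end

theorem frob (p q : ℕ) (hp : p.Prime) (hq : q.Prime) (hpq : p ≠ q) :
    ∃ (A : Type) (_ : Group A) (_ : Finite A), (∀ x : A, x ^ p = 1 ∨ x ^ q = 1) ∧
      (∃ x : A, orderOf x = p) ∧ (∃ x : A, orderOf x = q) ∧
      (∀ (x y : A) (m : ℕ), q ∣ m → (x ^ m * y ^ m) ^ p = 1) := by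
  haveI := Fact.mk hp
  haveI := Fact.mk hq
  have hq1 : q - 1 ≠ 0 := by have := hq.two_le; omega
  let F := GaloisField p (q - 1)
  have hcard : Nat.card F = p ^ (q - 1) := GaloisField.card p (q - 1) hq1
  have hdvd : q ∣ Nat.card Fˣ := by
    rw [Nat.card_units, hcard]
    have hc : p.Coprime q := (Nat.coprime_primes hp hq).2 hpq
    have := Nat.ModEq.pow_totient hc
    rw [Nat.totient_prime hq] at this
    exact (Nat.modEq_iff_dvd' (Nat.one_le_pow _ _ hp.pos)).1 this.symm
  obtain ⟨ζ, hζ⟩ := exists_prime_orderOf_dvd_card' q hdvd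
  have hU : ∀ a : Subgroup.zpowers ζ, a ^ q = 1 := by
    intro a
    have := pow_card_eq_one' (x := a)
    rwa [Nat.card_zpowers, hζ] at this
  refine ⟨Aff F (Subgroup.zpowers ζ), inferInstance, inferInstance, ?_, ?_, ?_, ?_⟩
  · intro x
    by_cases h : x.a = 1
    · exact Or.inl (pow_char p x h)
    · exact Or.inr (pow_root q x h (hU _))
  · refine ⟨⟨1, 1⟩, orderOf_eq_prime (pow_char p _ rfl) ?_⟩
    intro h
    have := congrArg Aff.b h
    simp at this
  · have hne : (⟨ζ, Subgroup.mem_zpowers ζ⟩ : Subgroup.zpowers ζ) ≠ 1 := by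
      intro h
      have : ζ = 1 := by simpa using congrArg Subtype.val h
      rw [this, orderOf_one] at hζ
      exact hq.one_lt.ne hζ
    refine ⟨⟨0, ⟨ζ, Subgroup.mem_zpowers ζ⟩⟩, orderOf_eq_prime (pow_root q _ hne (hU _)) ?_⟩
    intro h
    exact hne (congrArg Aff.a h)
  · rintro x y m ⟨k, rfl⟩
    apply pow_char p
    rw [mul_a, pow_a, pow_a, pow_mul, pow_mul, hU, hU]; simp

/-- the law -/
def Law (K : Type*) [Group K] (m r : ℕ) : Prop := ∀ x y : K, (x ^ m * y ^ m) ^ r = 1

theorem Law.sec {K : Type*} [Group K] {m r : ℕ} (h : Law K m r) (H : Subgroup K) (N : Subgroup H)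
    [N.Normal] : Law (H ⧸ N) m r := by
  intro x y
  obtain ⟨x, rfl⟩ := QuotientGroup.mk_surjective x
  obtain ⟨y, rfl⟩ := QuotientGroup.mk_surjective y
  have : (x ^ m * y ^ m) ^ r = 1 := by
    ext; simpa using h x y
  rw [← QuotientGroup.mk_pow, ← QuotientGroup.mk_pow, ← QuotientGroup.mk_mul,
    ← QuotientGroup.mk_pow, this, QuotientGroup.mk_one]

theorem Law.equiv {K L : Type*} [Group K] [Group L] {m r : ℕ} (h : Law K m r) (e : L ≃* K) :
    Law L m r := by
  intro x y
  apply e.injective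
  simpa using h (e x) (e y)

theorem Law.mul {K : Type*} [Group K] {m r : ℕ} (h : Law K m r) (hc : m.Coprime r) (hr : 1 < r)
    {x y : K} (hx : x ^ r = 1) (hy : y ^ r = 1) : (x * y) ^ r = 1 := by
  obtain ⟨a, -, ha⟩ := Nat.exists_mul_mod_eq_one_of_coprime hc hr
  have key : ∀ z : K, z ^ r = 1 → (z ^ a) ^ m = z := by
    intro z hz
    rw [← pow_mul, mul_comm, ← Nat.div_add_mod (m * a) r, ha, pow_add, pow_mul, hz]; simp
  have := h (x ^ a) (y ^ a)
  rwa [key x hx, key y hy] at this

def rootSub {K : Type*} [Group K] {m r : ℕ} (h : Law K m r) (hc : m.Coprime r) (hr : 1 < r) :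
    Subgroup K where
  carrier := {x | x ^ r = 1}
  mul_mem' hx hy := h.mul hc hr hx hy
  one_mem' := by simp
  inv_mem' {x} hx := by
    simp only [Set.mem_setOf_eq] at hx ⊢
    rw [inv_pow, hx, inv_one]

theorem rootSub_normal {K : Type*} [Group K] {m r : ℕ} (h : Law K m r) (hc : m.Coprime r)
    (hr : 1 < r) : (rootSub h hc hr).Normal := ⟨fun x hx g => by
  change (g * x * g⁻¹) ^ r = 1
  have : x ^ r = 1 := hx
  rw [conj_pow, this]; simp⟩

theorem two_laws {K : Type*} [Group K] {m r m' r' : ℕ} (h : Law K m r) (hc : m.Coprime r)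
    (h' : Law K m' r') (hc' : m'.Coprime r') (hr : r.Prime) (hr' : r'.Prime) (hne : r ≠ r')
    {x y : K} (hx : orderOf x = r) (hy : orderOf y = r') : orderOf (x * y) = r * r' := by
  have hcop : r.Coprime r' := (Nat.coprime_primes hr hr').2 hne
  have hcomm : Commute x y := by
    refine Subgroup.commute_of_normal_of_disjoint _ _ (rootSub_normal h hc hr.one_lt)
      (rootSub_normal h' hc' hr'.one_lt) ?_ x y ?_ ?_
    · rw [Subgroup.disjoint_def]
      intro z hz hz'
      have h1 : orderOf z ∣ r := orderOf_dvd_of_pow_eq_one hz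
      have h2 : orderOf z ∣ r' := orderOf_dvd_of_pow_eq_one hz'
      exact orderOf_eq_one_iff.1 (Nat.eq_one_of_dvd_coprimes hcop h1 h2)
    · change x ^ r = 1
      rw [← hx]; exact pow_orderOf_eq_one x
    · change y ^ r' = 1
      rw [← hy]; exact pow_orderOf_eq_one y
  rw [hcomm.orderOf_mul_eq_mul_orderOf_of_coprime (by rw [hx, hy]; exact hcop), hx, hy]

theorem exists_min (P : ∀ (K : Type) [Group K], Prop) (h : ∃ (K : Type) (_ : Group K) (_ : Finite K), P K) :
    ∃ (K : Type) (_ : Group K) (_ : Finite K), P K ∧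
      ∀ (L : Type) [Group L] [Finite L], P L → Nat.card K ≤ Nat.card L := by
  classical
  have h' : ∃ n, ∃ (K : Type) (_ : Group K) (_ : Finite K), P K ∧ Nat.card K = n := by
    obtain ⟨K, _, _, hK⟩ := h
    exact ⟨_, K, _, inferInstance, hK, rfl⟩
  obtain ⟨K, _, _, hK, hn⟩ := Nat.find_spec h'
  refine ⟨K, _, inferInstance, hK, fun L _ _ hL => ?_⟩
  rw [hn]
  exact Nat.find_min' h' ⟨L, _, inferInstance, hL, rfl⟩

theorem card_sec_lt {K : Type*} [Group K] [Finite K] (H : Subgroup K) (N : Subgroup H) [N.Normal]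
    (h : H ≠ ⊤ ∨ N ≠ ⊥) : Nat.card (H ⧸ N) < Nat.card K := by
  have h1 := Subgroup.card_eq_card_quotient_mul_card_subgroup N
  have h2 : Nat.card H ≤ Nat.card K := Subgroup.card_le_card_group H
  have h3 : 0 < Nat.card N := Nat.card_pos
  have h4 : 0 < Nat.card (H ⧸ N) := Nat.card_pos
  rcases h with h | h
  · have : Nat.card H ≠ Nat.card K := fun h' => h (Subgroup.eq_top_of_card_eq H h')
    nlinarith [lt_of_le_of_ne h2 this]
  · have : Nat.card N ≠ 1 := fun h' => h (Subgroup.card_eq_one.1 h')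
    have : 2 ≤ Nat.card N := by omega
    nlinarith

/-- A finite group is critical with respect to a set Ω of natural numbers when its set of element orders is Ω while no proper section H/N (H a subgroup, N normal in H, (H, N) ≠ (whole group, 1)) has Ω as its set of element orders. Let s ≥ 1 and let p(j,0), p(j,1) (j < s) be 2s pairwise distinct primes, and let Ω be the set of all products c(0)·…·c(s−1) with each c(j) ∈ {1, p(j,0), p(j,1)}. Then there are 2^s pairwise non-isomorphic finite groups critical with respect to Ω. -/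
theorem result (s : ℕ) (hs : 1 ≤ s) (p : Fin s → Fin 2 → ℕ)
    (hp : ∀ j i, (p j i).Prime) (hinj : ∀ j i j' i', p j i = p j' i' → j = j' ∧ i = i') :
    ∃ (G : Fin (2 ^ s) → Type) (_ : ∀ a, Group (G a)) (_ : ∀ a, Fintype (G a)),
      (∀ a b, a ≠ b → ¬ Nonempty (G a ≃* G b)) ∧
      ∀ a, Set.range (orderOf : (G a) → ℕ) = {m : ℕ | ∃ c : Fin s → ℕ, (∀ j, c j = 1 ∨ c j = p j 0 ∨ c j = p j 1) ∧ m = ∏ j, c j} ∧
      ∀ (H : Subgroup (G a)) (N : Subgroup ↥H) [N.Normal], (H ≠ ⊤ ∨ N ≠ ⊥) → Set.range (orderOf : (↥H ⧸ N) → ℕ) ≠ {m : ℕ | ∃ c : Fin s → ℕ, (∀ j, c j = 1 ∨ c j = p j 0 ∨ c j = p j 1) ∧ m = ∏ j, c j} := by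
  classical
  set Ω : Set ℕ := {m : ℕ | ∃ c : Fin s → ℕ, (∀ j, c j = 1 ∨ c j = p j 0 ∨ c j = p j 1) ∧ m = ∏ j, c j} with hΩ
  have hcop : ∀ j i j' i', ¬ (j = j' ∧ i = i') → (p j i).Coprime (p j' i') := fun j i j' i' h =>
    (Nat.coprime_primes (hp _ _) (hp _ _)).2 (fun h' => h (hinj _ _ _ _ h'))
  let M : Fin s → Fin 2 → ℕ := fun j i =>
    ∏ x ∈ (Finset.univ : Finset (Fin s × Fin 2)).erase (j, i), p x.1 x.2
  have hMc : ∀ j i, (M j i).Coprime (p j i) := by
    intro j i
    apply Nat.Coprime.prod_left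
    intro x hx
    apply hcop
    rintro ⟨h1, h2⟩
    exact (Finset.mem_erase.1 hx).1 (Prod.ext h1 h2)
  have hMd : ∀ j i j' i', ¬ (j' = j ∧ i' = i) → p j' i' ∣ M j i := by
    intro j i j' i' h
    exact Finset.dvd_prod_of_mem (fun x : Fin s × Fin 2 => p x.1 x.2) (a := (j', i'))
      (Finset.mem_erase.2 ⟨fun h' => h (by simpa using h'), Finset.mem_univ _⟩)
  have hrev : ∀ i : Fin 2, i.rev ≠ i := by decide
  have hex : ∀ ε : Fin s → Fin 2, ∃ (K : Type) (_ : Group K) (_ : Finite K),
      Set.range (orderOf : K → ℕ) = Ω ∧ ∀ j, Law K (M j (ε j)) (p j (ε j)) := by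
    intro ε
    have hA := fun j => frob (p j (ε j)) (p j (ε j).rev) (hp _ _) (hp _ _)
      (fun h => hrev _ (hinj _ _ _ _ h).2.symm)
    choose A gA fA h1 h2 h3 h4 using hA
    have hor : ∀ j (x : A j), orderOf x = 1 ∨ orderOf x = p j 0 ∨ orderOf x = p j 1 := by
      intro j x
      have : ∀ i, x ^ p j i = 1 → orderOf x = 1 ∨ orderOf x = p j 0 ∨ orderOf x = p j 1 := by
        intro i hi
        rcases (Nat.dvd_prime (hp j i)).1 (orderOf_dvd_of_pow_eq_one hi) with h | h
        · exact Or.inl h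
        · fin_cases i
          · exact Or.inr (Or.inl h)
          · exact Or.inr (Or.inr h)
      rcases h1 j x with h | h
      · exact this _ h
      · exact this _ h
    have hord : ∀ x : ∀ j, A j, orderOf x = ∏ j, orderOf (x j) := by
      intro x
      rw [Pi.orderOf]
      apply Finset.lcm_eq_prod
      intro j _ j' _ hjj
      have hc := fun i i' => hcop j i j' i' (fun h => hjj h.1)
      change (orderOf (x j)).Coprime (orderOf (x j'))
      rcases hor j (x j) with h | h | h <;> rcases hor j' (x j') with h' | h' | h' <;>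
        rw [h, h'] <;> first | exact hc _ _ | simp
    refine ⟨∀ j, A j, inferInstance, inferInstance, ?_, ?_⟩
    · ext m
      constructor
      · rintro ⟨x, rfl⟩
        exact ⟨fun j => orderOf (x j), fun j => hor j _, hord x⟩
      · rintro ⟨c, hc, rfl⟩
        have : ∀ j, ∃ x : A j, orderOf x = c j := by
          intro j
          have h5 : ∀ i, ∃ x : A j, orderOf x = p j i := by
            intro i
            by_cases hi : i = ε j
            · rw [hi]; exact h2 j
            · have : i = (ε j).rev := by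
                revert hi; generalize ε j = e; revert i e; decide
              rw [this]; exact h3 j
          rcases hc j with h | h | h <;> rw [h]
          · exact ⟨1, orderOf_one⟩
          · exact h5 _
          · exact h5 _
        choose x hx using this
        exact ⟨x, by rw [hord]; simp [hx]⟩
    · intro j x y
      funext j'
      simp only [Pi.pow_apply, Pi.mul_apply, Pi.one_apply]
      by_cases hj : j' = j
      · subst hj
        exact h4 j' _ _ _ (hMd _ _ _ _ (fun h => hrev _ h.2))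
      · have : ∀ z : A j', z ^ M j (ε j) = 1 := by
          intro z
          apply orderOf_dvd_iff_pow_eq_one.1
          rcases hor j' z with h | h | h <;> rw [h]
          · exact one_dvd _
          · exact hMd _ _ _ _ (fun h => hj h.1)
          · exact hMd _ _ _ _ (fun h => hj h.1)
        rw [this, this]; simp
  have hmin := fun ε : Fin s → Fin 2 => exists_min
    (fun K _ => Set.range (orderOf : K → ℕ) = Ω ∧ ∀ j, Law K (M j (ε j)) (p j (ε j))) (hex ε)
  choose K gK fK hK hKmin using hmin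
  let e : Fin (2 ^ s) ≃ (Fin s → Fin 2) := finFunctionFinEquiv.symm
  refine ⟨fun a => K (e a), fun a => gK (e a), fun a => @Fintype.ofFinite _ (fK (e a)), ?_, ?_⟩
  · rintro a b hab ⟨f⟩
    have hne : e a ≠ e b := fun h => hab (e.injective h)
    obtain ⟨j, hj⟩ := Function.ne_iff.1 hne
    have hmem : ∀ i, p j i ∈ Ω := by
      intro i
      refine ⟨fun j' => if j' = j then p j i else 1, ?_, by simp⟩
      intro j'
      by_cases h : j' = j
      · subst h
        fin_cases i <;> simp
      · simp [h]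
    obtain ⟨x, hx⟩ : p j (e a j) ∈ Set.range (orderOf : K (e a) → ℕ) := by
      rw [(hK _).1]; exact hmem _
    obtain ⟨y, hy⟩ : p j (e b j) ∈ Set.range (orderOf : K (e a) → ℕ) := by
      rw [(hK _).1]; exact hmem _
    have hpp : p j (e a j) ≠ p j (e b j) := fun h => hj (hinj _ _ _ _ h).2
    have h2 := two_laws ((hK (e a)).2 j) (hMc _ _) (((hK (e b)).2 j).equiv f) (hMc _ _)
      (hp _ _) (hp _ _) hpp hx hy
    have : p j (e a j) * p j (e b j) ∈ Ω := by
      rw [← (hK (e a)).1]; exact ⟨_, h2⟩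
    obtain ⟨c, hc, hcp⟩ := this
    have hkey : ∀ i, p j i ∣ ∏ j, c j → c j = p j i := by
      intro i hi
      obtain ⟨j', -, hj'⟩ := (Prime.dvd_finset_prod_iff (hp j i).prime _).1 hi
      rcases hc j' with h | h | h <;> rw [h] at hj'
      · exact absurd (Nat.dvd_one.1 hj') (hp j i).one_lt.ne'
      · have h3 := (Nat.prime_dvd_prime_iff_eq (hp _ _) (hp _ _)).1 hj'
        obtain ⟨rfl, rfl⟩ := hinj _ _ _ _ h3
        exact h
      · have h3 := (Nat.prime_dvd_prime_iff_eq (hp _ _) (hp _ _)).1 hj'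
        obtain ⟨rfl, rfl⟩ := hinj _ _ _ _ h3
        exact h
    apply hpp
    rw [← hkey _ (hcp ▸ dvd_mul_right _ _), ← hkey _ (hcp ▸ dvd_mul_left _ _)]
  · intro a
    refine ⟨(hK _).1, fun H N _ hHN hr => ?_⟩
    haveI := fK (e a)
    have := hKmin (e a) (H ⧸ N) ⟨hr, fun j => ((hK _).2 j).sec H N⟩
    exact absurd (card_sec_lt H N hHN) (not_lt.2 this)

end Cfsg.Agent.S3599
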