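import Cfsg.Statements.S3600
import Mathlib
import Cfsg.Agent.H21.Hig3

set_option autoImplicit false
open Cfsg

namespace Cfsg.Agent.S3600

open Subgroup Cfsg.Agent.FT Cfsg.Agent.H21 Cfsg.Agent.H19.St Matrix

/-- A finite group is critical with respect to a set Ω of natural numbers when its set of element orders is Ω while no proper section has Ω as its set of element orders. A finite group critical with respect to {1, 2, 3, 4, 5} (the set of element orders of the alternating group of degree 6) is isomorphic either to the alternating group of degree 6 or to the affine group F² ⋊ SL(2,F) over the field F with four elements (realised as the matrices of SL(3,F) with last row (0, 0, 1)). -/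
theorem result {G : Type*} [Group G] [Finite G]
    (hcrit : Set.range (orderOf : G → ℕ) = ({1, 2, 3, 4, 5} : Set ℕ) ∧
      ∀ (H : Subgroup G) (N : Subgroup ↥H) [N.Normal], (H ≠ ⊤ ∨ N ≠ ⊥) → Set.range (orderOf : (↥H ⧸ N) → ℕ) ≠ ({1, 2, 3, 4, 5} : Set ℕ)) :
    Nonempty (G ≃* alternatingGroup (Fin 6)) ∨
      ∃ (F : Type) (_ : Field F) (_ : Fintype F), Fintype.card F = 4 ∧
        Nonempty (G ≃* ↥(Subgroup.closure {M : Matrix.SpecialLinearGroup (Fin 3) F |
          (M : Matrix (Fin 3) (Fin 3) F) 2 0 = 0 ∧ (M : Matrix (Fin 3) (Fin 3) F) 2 1 = 0 ∧ (M : Matrix (Fin 3) (Fin 3) F) 2 2 = 1})) := by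
  have e5 : ∀ n : ℕ, n ∈ ({1, 2, 3, 4, 5} : Set ℕ) ↔ 1 ≤ n ∧ n ≤ 5 := fun n => by simp; omega
  have h' : ∀ n, HasO G n ↔ 1 ≤ n ∧ n ≤ 5 := fun n => (Set.ext_iff.1 hcrit.1 n).trans (e5 n)
  rcases spec_five h' with ⟨F, _, _, hF, ⟨e⟩⟩ | e
  · obtain ⟨f⟩ := H10.PSL2_nine_equiv (F := F) (Nat.card_eq_fintype_card.trans hF)
    exact Or.inl ⟨e.trans f⟩
  have hc := (ep_of_le_five fun n hn => ((h' n).1 hn).2).cit
  obtain ⟨hQ, F, _, _, _, hF, π, hπ, hk, k, Φ, h⟩ := hc.higman pGrp_pCore le_rfl e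
  obtain ⟨H, sd⟩ := hc.split hF hπ hk hQ
  rw [← hk] at hQ h sd
  rcases k with _ | k
  · obtain ⟨x, hx⟩ := (h' 4).2 (by norm_num)
    have inj : Function.Injective π := (injective_iff_map_eq_one _).2 fun g hg =>
      (h.ker g hg).1 (Subsingleton.elim _ _)
    rw [← orderOf_injective π inj] at hx
    exact absurd (hx ▸ sl2_odd fun e => absurd (hx ▸ orderOf_dvd_of_pow_eq_one ((sq _).trans e))
      (by norm_num)) (by decide)
  let N := h.pre (AddSubgroup.pi {0} fun _ => ⊥)
  have mN : ∀ v, v ∈ N ↔ v ∈ π.ker ∧ Φ v 0 = 0 := fun v => and_congr_right fun _ => by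
    simp [AddSubgroup.mem_pi]
  haveI hN : N.Normal := ⟨fun v hv g => (mN _).2 ⟨π.normal_ker.conj_mem _ hv.1 g, by
    rw [h.eqv g v hv.1, ((mN v).1 hv).2, mulVec_zero]⟩⟩
  have N0 : N = ⊥ := by
    by_contra N1
    refine hcrit.2 ⊤ (N.subgroupOf ⊤) (Or.inr (by simpa using N1)) (Set.ext fun n => ?_)
    have f := QuotientGroup.congr N (N.subgroupOf ⊤) topEquiv.symm (by ext x; exact mem_map_equiv)
    rw [e5]
    refine ⟨fun e => (h' n).1 (HasO.equiv f e).quo, fun hn => HasO.equiv f.symm ?_⟩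
    have h4 : HasO (G ⧸ N) 4 := by
      have key : ∀ g, π g = xx 1 → g * g ∉ N → HasO (G ⧸ N) 4 := fun g hg e =>
        ⟨QuotientGroup.mk g, orderOf_eq_prime_pow (p := 2) (n := 1) (by
          rwa [pow_one, ← QuotientGroup.mk_pow, QuotientGroup.eq_one_iff, sq]) (by
          rw [← QuotientGroup.mk_pow, sq, pow_mul, hQ.pow (by
            rw [MonoidHom.mem_ker, sq, map_mul, hg, xx_sq]), QuotientGroup.mk_one])⟩
      obtain ⟨g, hg⟩ := hπ (xx 1)
      obtain ⟨v, hv, e⟩ := h.surj (Pi.single 0 ![0, 1])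
      refine by_contra fun hc => ?_
      have h1 := (mN _).1 (by_contra fun e => hc (key g hg e))
      have h2 := (mN _).1 (by_contra fun e => hc (key (v * g) (by
        rw [map_mul, (hv : π v = 1), one_mul, hg]) e))
      have n := π.normal_ker.conj_mem _ hv g
      have h3 := h2.2
      rw [show v * g * (v * g) = v * (g * v * g⁻¹) * (g * g) by group, h.add _ (mul_mem hv n) _ h1.1,
        h.add _ hv _ n, Pi.add_apply, Pi.add_apply, h1.2, h.eqv g v hv, hg, e] at h3
      simpa [mulVec, dotProduct, vecHead, vecTail] using congrFun h3 0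
    have h5 : ∀ p, p.Prime → p ∣ 60 → HasO (G ⧸ N) p := fun p hp hd => hasO_of_prime hp (by
      refine hd.trans (Dvd.dvd.trans ?_ (index_dvd_of_le (show N ≤ π.ker from fun v hv => hv.1)))
      rw [index_ker, MonoidHom.range_eq_top.2 hπ, card_top, H10.card_SL2,
        Nat.card_eq_fintype_card (α := F), hF]
      norm_num)
    obtain ⟨h1, h2⟩ := hn
    interval_cases n
    · exact h4.dvd (by norm_num)
    · exact h4.dvd (by norm_num)
    · exact h5 3 Nat.prime_three (by norm_num)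
    · exact h4
    · exact h5 5 Nat.prime_five (by norm_num)
  refine Or.inr ⟨F, _, _, hF, affine (ψ := (Φ · 0)) ⟨⟨fun v hv w hw => by rw [h.add v hv w hw]; rfl,
    fun c => (h.surj (Pi.single 0 c)).imp fun v hv => ⟨hv.1, by simp [hv.2]⟩, fun v hv => by
      rw [← N0, mN, and_iff_right hv]⟩, (nml_top_iff.2 π.normal_ker).nrm, bot_le,
    fun g _ k _ => map_mul _ _ _, fun s => (hπ s).imp fun _ e => ⟨trivial, e⟩,
    fun g _ v hv => h.eqv g v hv 0⟩ rfl sd⟩

end Cfsg.Agent.S3600
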