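import Cfsg.Statements.S3619
import Mathlib
import Cfsg.Agent.H1.Jordan

set_option autoImplicit false
open Cfsg

namespace Cfsg.Agent.S3619

open MulAction Cfsg.Agent.H1
open scoped Pointwise

/-- Let G act faithfully on a finite set in such a way that every non-trivial normal subgroup of G is transitive (G is quasiprimitive). Let Γ be a subset with more than one point and not the whole set, such that the pointwise stabilizer of the complement of Γ acts transitively on Γ (a Jordan set). If that pointwise stabilizer acts primitively on Γ, then G is k-fold transitive where k is one more than the number of points outside Γ (the Jordan set is a trivial one). -/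
theorem result {G Ω : Type*} [Group G] [Finite G] [MulAction G Ω] [FaithfulSMul G Ω] [Finite Ω]
    (hqp : ∀ N : Subgroup G, N.Normal → N ≠ ⊥ → MulAction.IsPretransitive ↥N Ω)
    (Γ : Set Ω) (hΓ1 : 1 < Γ.ncard) (hΓ2 : Γ.ncard < Nat.card Ω)
    (hJ : MulAction.IsPretransitive ↥(fixingSubgroup G Γᶜ) ↥(SubMulAction.ofFixingSubgroup G Γᶜ))
    (hJp : MulAction.IsPreprimitive ↥(fixingSubgroup G Γᶜ) ↥(SubMulAction.ofFixingSubgroup G Γᶜ)) :
    MulAction.IsMultiplyPretransitive G Ω (Nat.card Ω - Γ.ncard + 1) := by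
  classical
  have := Fintype.ofFinite Ω
  have hΔ : JC G Γᶜ.toFinset := by
    intro x y hx hy
    obtain ⟨g, hg⟩ := hJ.exists_smul_eq ⟨x, by simpa [SubMulAction.mem_ofFixingSubgroup_iff] using hx⟩ ⟨y, by simpa [SubMulAction.mem_ofFixingSubgroup_iff] using hy⟩
    exact ⟨g, fun z hz => (mem_fixingSubgroup_iff G).1 g.2 z (by simpa using hz),
      congrArg Subtype.val hg⟩
  have hprim : IsPreprimitive G Ω := by
    by_contra hnp
    obtain ⟨x, hx, y, hy, hxy⟩ := (Set.one_lt_ncard).1 hΓ1
    have hx' : x ∉ Γᶜ.toFinset := by simpa using hx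
    have hy' : y ∉ Γᶜ.toFinset := by simpa using hy
    have := trans_of_qp hqp hΔ hx' hy' hxy
    have : Nontrivial Ω := ⟨x, y, hxy⟩
    obtain ⟨M, hM, π, hs, hπ, hf, hfib⟩ := exists_quot hqp hnp
    obtain ⟨z, hz, hxz⟩ := exists_two_fibres hπ hs hf hΔ hx' hy' hxy
    obtain ⟨x', h1, h2⟩ := hfib x
    have hx'' := not_mem_of_fibre hπ hΔ hx' hz hxz hx' h2
    have hB : IsBlock (fixingSubgroup G Γᶜ)
        {u : SubMulAction.ofFixingSubgroup G Γᶜ | π u = π x} := by
      rw [isBlock_iff_smul_eq_of_mem]
      intro g a ha hga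
      have e : (g : G) • π x = π x := by
        have h3 : π ((g : G) • (a : Ω)) = π x := hga
        rwa [hπ, show π a = π x from ha] at h3
      ext u
      rw [Set.mem_smul_set_iff_inv_smul_mem]
      change π ((g : G)⁻¹ • (u : Ω)) = π x ↔ π u = π x
      rw [hπ, inv_smul_eq_iff, e]
    rcases hJp.isTrivialBlock_of_isBlock hB with h | h
    · have := h (x := ⟨x', by simpa [SubMulAction.mem_ofFixingSubgroup_iff] using hx''⟩) h2 (y := ⟨x, by simpa [SubMulAction.mem_ofFixingSubgroup_iff] using hx⟩) rfl
      exact h1 (congrArg Subtype.val this)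
    · have : (⟨z, by simpa [SubMulAction.mem_ofFixingSubgroup_iff] using hz⟩ : SubMulAction.ofFixingSubgroup G Γᶜ) ∈
          {u : SubMulAction.ofFixingSubgroup G Γᶜ | π u = π x} := h ▸ Set.mem_univ _
      exact hxz this
  have e := Set.ncard_add_ncard_compl Γ
  have := hprim.isMultiplyPreprimitive (s := Γᶜ) (n := Nat.card Ω - Γ.ncard - 1) (by omega) (by omega) hJp
  rw [show Nat.card Ω - Γ.ncard - 1 + 2 = Nat.card Ω - Γ.ncard + 1 by omega] at this
  exact this.isMultiplyPretransitive

end Cfsg.Agent.S3619
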