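import Cfsg.Statements.S3620
import Mathlib
import Cfsg.Agent.H1.Jordan

set_option autoImplicit false
open Cfsg

namespace Cfsg.Agent.S3620

open MulAction Cfsg.Agent.H1

/-- Let G act faithfully on a finite set in such a way that every non-trivial normal subgroup of G is transitive (G is quasiprimitive). Let Γ be a subset with more than one point and fewer than half of the points, such that the pointwise stabilizer of the complement of Γ acts transitively on Γ. Then G induces every even permutation of the set (G is the alternating or the symmetric group). -/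
theorem result {G Ω : Type*} [Group G] [Finite G] [MulAction G Ω] [FaithfulSMul G Ω] [Fintype Ω] [DecidableEq Ω]
    (hqp : ∀ N : Subgroup G, N.Normal → N ≠ ⊥ → MulAction.IsPretransitive ↥N Ω)
    (Γ : Set Ω) (hΓ1 : 1 < Γ.ncard) (hΓ2 : 2 * Γ.ncard < Fintype.card Ω)
    (hJ : MulAction.IsPretransitive ↥(fixingSubgroup G Γᶜ) ↥(SubMulAction.ofFixingSubgroup G Γᶜ)) :
    ∀ σ : Equiv.Perm Ω, Equiv.Perm.sign σ = 1 → ∃ x : G, (MulAction.toPerm x : Equiv.Perm Ω) = σ := by
  classical
  have e : (Γᶜ.toFinset).card + Γ.ncard = Fintype.card Ω := by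
    rw [← Set.ncard_eq_toFinset_card', add_comm, Set.ncard_add_ncard_compl, Nat.card_eq_fintype_card]
  have hΔ : JC G Γᶜ.toFinset := by
    intro x y hx hy
    obtain ⟨g, hg⟩ := hJ.exists_smul_eq ⟨x, by simpa [SubMulAction.mem_ofFixingSubgroup_iff] using hx⟩ ⟨y, by simpa [SubMulAction.mem_ofFixingSubgroup_iff] using hy⟩
    exact ⟨g, fun z hz => (mem_fixingSubgroup_iff G).1 g.2 z (by simpa using hz),
      congrArg Subtype.val hg⟩
  have := prim_of_qp_jc hqp hΔ (by omega) (by omega)
  intro σ hσ
  exact alt_le_of_jc hΔ (by omega) (by omega) hσ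

end Cfsg.Agent.S3620
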