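import Cfsg.Statements.S3633
import Mathlib
import Cfsg.Agent.H29.Maz

set_option autoImplicit false
open Cfsg

namespace Cfsg.Agent.S3633

open Cfsg.Agent.FT Cfsg.Agent.H29

/-- Let G be a finite group and ρ a set of at least three prime divisors of the order of G that are pairwise non-adjacent in the prime graph (no element of order rs for distinct r, s ∈ ρ). Then at most one prime of ρ divides the order of any given solvable normal subgroup of G; in particular G is not solvable. -/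
theorem result {G : Type*} [Group G] [Finite G] (ρ : Finset ℕ) (hρ : 3 ≤ ρ.card) (hc : ((∀ r ∈ ρ, r.Prime ∧ r ∣ Nat.card G) ∧ (∀ r ∈ ρ, ∀ s ∈ ρ, r ≠ s → ¬ ∃ x : G, orderOf x = r * s)))
    (K : Subgroup G) [K.Normal] (hK : Group.IsSolvable ↥K) :
    (∀ r ∈ ρ, ∀ s ∈ ρ, r ∣ Nat.card ↥K → s ∣ Nat.card ↥K → r = s) ∧ ¬ Group.IsSolvable G := by
  have e : ∀ r ∈ ρ, ∀ s ∈ ρ, r ≠ s → ∀ x : G, orderOf x ≠ r * s := fun r hr s hs h x e =>
    hc.2 r hr s hs h ⟨x, e⟩
  refine ⟨fun r hr s hs d1 d2 => by_contra fun hne => ?_, fun hs => ?_⟩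
  · obtain ⟨t, ht, h2⟩ : ∃ t ∈ ρ, t ∉ ({r, s} : Finset ℕ) :=
      Finset.exists_mem_notMem_of_card_lt_card (lt_of_le_of_lt Finset.card_le_two hρ)
    simp only [Finset.mem_insert, Finset.mem_singleton, not_or] at h2
    haveI := Fact.mk (hc.1 t ht).1
    obtain ⟨x, hx⟩ := exists_prime_orderOf_dvd_card' t (hc.1 t ht).2
    exact sol_three (M := K ⊔ Subgroup.zpowers x) (Sol.sup hK (sol_zpowers x)
      (le_top.trans (nml_top_iff.2 ‹_›).nrm)) (hc.1 r hr).1 (hc.1 s hs).1 (hc.1 t ht).1 hne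
      (Ne.symm h2.1) (Ne.symm h2.2) (d1.trans (card_dvd le_sup_left)) (d2.trans (card_dvd le_sup_left))
      ((hx ▸ (card_zpowers' x).symm.dvd).trans (card_dvd le_sup_right)) (e r hr s hs hne)
      (e r hr t ht (Ne.symm h2.1)) (e s hs t ht (Ne.symm h2.2))
  · obtain ⟨a, ha, b, hb, c, hc', n1, n2, n3⟩ := Finset.two_lt_card.1 hρ
    exact sol_three (sol_top.2 hs) (hc.1 a ha).1 (hc.1 b hb).1 (hc.1 c hc').1 n1 n2 n3
      (card_top' (G := G) ▸ (hc.1 a ha).2) (card_top' (G := G) ▸ (hc.1 b hb).2)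
      (card_top' (G := G) ▸ (hc.1 c hc').2) (e a ha b hb n1) (e a ha c hc' n2) (e b hb c hc' n3)

end Cfsg.Agent.S3633
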