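import Cfsg.Statements.S3670
import Mathlib
import Cfsg.Agent.H7.U33

set_option autoImplicit false
open Cfsg

namespace Cfsg.Agent.S3670

/-- The character degree graph of a finite group has as vertices the primes dividing some irreducible complex character degree, two distinct primes being joined when their product divides some irreducible character degree; two groups have the same character degree graph when they have the same vertices and the same joined pairs. Let F be the field with 9 elements and L = PSU(3,3) realised over F (order 6048). There is a finite solvable group of order 6048 with the same character degree graph as L; so L is not determined by its order together with its character degree graph. -/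
theorem result {F : Type*} [Field F] [Fintype F] (hF : Fintype.card F = 9) :
    ∃ (H : Type) (_ : Group H) (_ : Fintype H), Group.IsSolvable H ∧ Nat.card H = 6048 ∧ Cfsg.degreePrimes H = Cfsg.degreePrimes (Cfsg.PSU 3 F 3) ∧ Cfsg.degreeGraph H = Cfsg.degreeGraph (Cfsg.PSU 3 F 3) := by
  obtain ⟨H, _, _, hs, hc, h⟩ := H7.exists_solvable_6048
  obtain ⟨c, h1, h2, h3⟩ := H7.psu33_degrees hF
  have : Finite (Cfsg.PSU 3 F 3) := Nat.finite_of_card_ne_zero (by omega)
  have a := H7.graph_complete hc ⟨_, h, by norm_num⟩ ⟨_, h, by norm_num⟩ ⟨_, h, by norm_num⟩
  have b := H7.graph_complete c h1 ⟨_, h2, by norm_num⟩ ⟨_, h3, dvd_rfl⟩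
  refine ⟨H, _, inferInstance, hs, hc, a.1.trans b.1.symm, ?_⟩
  ext p q
  rw [a.2, b.2]

end Cfsg.Agent.S3670
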