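import Cfsg.Statements.S3681
import Mathlib
import Cfsg.Agent.H1.Jordan

set_option autoImplicit false
open Cfsg

namespace Cfsg.Agent.S3681

open MulAction Cfsg.Agent.H1 Finset

/-- Bochert's bound for primitive groups. Let a finite group G act faithfully and primitively on a finite set Ω with n elements, and suppose the image of G in the symmetric group of Ω does not contain the alternating group of Ω. Then |G| · ⌊(n + 1)/2⌋! ≤ n!, that is, the index of G in the symmetric group is at least ⌊(n + 1)/2⌋!. -/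
theorem result {G Ω : Type*} [Group G] [Finite G] [MulAction G Ω] [FaithfulSMul G Ω] [Fintype Ω] [DecidableEq Ω]
    (hprim : MulAction.IsPreprimitive G Ω) (hA : ¬ alternatingGroup Ω ≤ (MulAction.toPermHom G Ω).range) :
    Nat.card G * Nat.factorial ((Fintype.card Ω + 1) / 2) ≤ Nat.factorial (Fintype.card Ω) := by
  classical
  obtain ⟨Δ, hΔ, hmin⟩ := (measure Finset.card).wf.has_min
    {Δ : Finset Ω | ∀ g : G, (∀ z ∈ Δ, g • z = z) → g = 1}
    ⟨univ, fun g hg => Cfsg.Agent.H16.eq_one_of_smul_eq fun a => hg a (mem_univ a)⟩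
  have hnb : ∀ D : Finset Ω, D.card < Δ.card → ∃ g : G, (∀ z ∈ D, g • z = z) ∧ g ≠ 1 := by
    intro D hD
    by_contra h
    push Not at h
    exact hmin D h hD
  have hk : 2 * Δ.card ≤ Fintype.card Ω := by
    by_contra hlt
    obtain ⟨g, g1, g2⟩ := hnb Δᶜ (by rw [card_compl]; omega)
    obtain ⟨a, ha⟩ := Cfsg.Agent.H16.exists_smul_ne (α := Ω) g2
    have haΔ : a ∈ Δ := by
      by_contra h
      exact ha (g1 a (mem_compl.2 h))
    obtain ⟨h, h1, h2⟩ := hnb (Δ.erase a) (card_erase_lt_of_mem haΔ)
    refine hA (alt_le_of_supp_inter (g := g) (h := h) ha (fun e => h2 (hΔ h fun z hz => ?_)) ?_)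
    · by_cases c : z = a
      · rw [c, e]
      · exact h1 z (mem_erase.2 ⟨c, hz⟩)
    · intro x hx hx'
      by_contra c
      refine hx' (h1 x (mem_erase.2 ⟨c, ?_⟩))
      by_contra d
      exact hx (g1 x (mem_compl.2 d))
  have h1 : Nat.card G ≤ (Fintype.card Ω).descFactorial Δ.card := by
    have := Nat.card_le_card_of_injective
      (fun g : G => (⟨fun z : Δ => g • (z : Ω), fun a b h => Subtype.ext (smul_left_cancel g h)⟩ :
        Δ ↪ Ω)) (fun g g' e => by
        rw [← inv_mul_eq_one]
        apply hΔ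
        intro z hz
        have : g • z = g' • z := congrArg (fun f : Δ ↪ Ω => f ⟨z, hz⟩) e
        rw [mul_smul, ← this, inv_smul_smul])
    rwa [Nat.card_eq_fintype_card (α := Δ ↪ Ω), Fintype.card_embedding_eq, Fintype.card_coe] at this
  rw [← Nat.factorial_mul_descFactorial (n := Fintype.card Ω) (k := Δ.card) (by omega), mul_comm]
  exact Nat.mul_le_mul (Nat.factorial_le (by omega)) h1

end Cfsg.Agent.S3681
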