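import Cfsg.Statements.S3682
import Mathlib
import Cfsg.Agent.H1.TW

set_option autoImplicit false
open Cfsg

namespace Cfsg.Agent.S3682

open Cfsg.Agent.FT Cfsg.Agent.H1

/-- Wielandt's bound toward the Sims conjecture. Let a finite group G act faithfully and primitively on a set Ω, let a and b be points, and suppose the orbit of b under the stabilizer of a has length d ≥ 2. Then there are a prime p and a normal p-subgroup P of the stabilizer of a, all of whose elements fix b, such that the index of P in the stabilizer of a divides d! · ((d - 1)!)^d. -/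
theorem result {G Ω : Type*} [Group G] [Finite G] [MulAction G Ω] [FaithfulSMul G Ω] [Finite Ω]
    (hprim : MulAction.IsPreprimitive G Ω) (a b : Ω) (d : ℕ) (hd : Nat.card (MulAction.orbit (MulAction.stabilizer G a) b) = d) (h2 : 2 ≤ d) :
    ∃ p : ℕ, p.Prime ∧ ∃ P : Subgroup (MulAction.stabilizer G a), P.Normal ∧ IsPGroup p P ∧ (∀ g : P, ((g : MulAction.stabilizer G a) : G) • b = b) ∧
      P.index ∣ Nat.factorial d * (Nat.factorial (d - 1)) ^ d := by
  obtain ⟨hM, ⟨g, e⟩, hne, hi⟩ := tw_setup hprim a b hd h2
  by_cases h : cor (MulAction.stabilizer G a) (cor (MulAction.stabilizer G a) (MulAction.stabilizer G a ⊓ MulAction.stabilizer G b) ⊓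
      cor (MulAction.stabilizer G b) (MulAction.stabilizer G a ⊓ MulAction.stabilizer G b)) = ⊥ ∨
    cor (MulAction.stabilizer G b) (cor (MulAction.stabilizer G a) (MulAction.stabilizer G a ⊓ MulAction.stabilizer G b) ⊓
      cor (MulAction.stabilizer G b) (MulAction.stabilizer G a ⊓ MulAction.stabilizer G b)) = ⊥
  · refine ⟨2, Nat.prime_two, ⊥, inferInstance, IsPGroup.of_bot, fun x => ?_, ?_⟩
    · rw [Subgroup.mem_bot.1 x.2]; simp
    · have := tw_card e h
      rwa [hi, ← Subgroup.index_bot] at this
  · rw [not_or] at h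
    obtain ⟨p, hp, -, -, p1, -⟩ := tw_main hM e hne h.1 h.2
    refine ⟨p, hp, Subgroup.subgroupOf _ _, (cor_nml _ _).normal, ((piGrp_so (cor_nml _ _).le).2 p1).isPGroup,
      fun x => ((cor_le _ _).trans (inf_le_right.trans (cor_nml _ _).le)) x.2, ?_⟩
    have := relIndex_cor2_dvd (relIndex_inf_eq e)
    rwa [hi] at this

end Cfsg.Agent.S3682
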