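import Cfsg.Statements.S3684
import Mathlib
import Cfsg.Agent.H16.Centr
import Cfsg.Agent.H10.SmallId
import Cfsg.Agent.FT.Card
import Cfsg.Agent.H20.Invol

set_option autoImplicit false
open Cfsg

namespace Cfsg.Agent.S3684

open MulAction Subgroup Cfsg.Agent.H16 Cfsg.Agent.FT

theorem gen_of_two {G : Type*} [Group G] [Finite G] {H : Subgroup G} (h : Nat.card H = 2) :
    ∃ s : G, orderOf s = 2 ∧ H = zpowers s := by
  have : Fact (Nat.Prime 2) := ⟨Nat.prime_two⟩
  obtain ⟨s, hs⟩ := exists_prime_orderOf_dvd_card' (G := H) 2 (h ▸ dvd_rfl)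
  have e : orderOf (s : G) = 2 := by rw [Subgroup.orderOf_coe, hs]
  exact ⟨s, e, (eq_of_le_of_card_ge (zpowers_le.2 s.2) (by rw [Nat.card_zpowers, e, h])).symm⟩

/-- Let a finite group G act faithfully and primitively on a set Ω, and suppose the stabilizer of a point a has an orbit of length 2. Then the stabilizer of a has order 2 and G is isomorphic to the dihedral group of order 2p for some prime p. -/
theorem result {G Ω : Type*} [Group G] [Finite G] [MulAction G Ω] [FaithfulSMul G Ω] [Finite Ω]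
    (hprim : MulAction.IsPreprimitive G Ω) (a b : Ω) (h2 : Nat.card (MulAction.orbit (MulAction.stabilizer G a) b) = 2) :
    Nat.card (MulAction.stabilizer G a) = 2 ∧ ∃ p : ℕ, p.Prime ∧ Nonempty (G ≃* DihedralGroup p) := by
  have hba : b ≠ a := by
    rintro rfl
    have : orbit (stabilizer G b) b = {b} := by
      ext x; constructor
      · rintro ⟨g, rfl⟩; exact g.2
      · rintro rfl; exact mem_orbit_self _
    rw [this] at h2; simp at h2
  have : Nontrivial Ω := ⟨b, a, hba⟩
  set H := stabilizer G a with hH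
  set K := stabilizer G b with hK
  have hco : IsCoatom H := IsPreprimitive.isCoatom_stabilizer_of_isPreprimitive G a
  have hc : Nat.card H = Nat.card K := card_stabilizer_eq a b
  have i1 : K.relIndex H = 2 := by rw [← ncard_orbit_subgroup]; exact h2
  have i2 : (H ⊓ K).relIndex H = 2 := by rw [inf_relIndex_left, i1]
  have c1 := card_mul_relIndex (inf_le_left : H ⊓ K ≤ H)
  have c2 := card_mul_relIndex (inf_le_right : H ⊓ K ≤ K)
  have pos : 0 < Nat.card ↥(H ⊓ K) := Nat.card_pos
  have i3 : (H ⊓ K).relIndex K = 2 := by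
    rw [i2] at c1
    exact Nat.eq_of_mul_eq_mul_left pos (by omega)
  have hKH : ¬ K ≤ H := fun h => by
    rw [inf_eq_right.2 h, relIndex_self] at i3; omega
  have top : H ⊔ K = ⊤ := hco.2 _ (lt_of_le_of_ne le_sup_left fun e => hKH (e ▸ le_sup_right))
  have nD : (H ⊓ K).Normal := by
    rw [← normalizer_eq_top_iff, eq_top_iff, ← top]
    exact sup_le ((normal_subgroupOf_iff_le_normalizer inf_le_left).1 (normal_of_index_eq_two i2))
      ((normal_subgroupOf_iff_le_normalizer inf_le_right).1 (normal_of_index_eq_two i3))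
  have hD : H ⊓ K = ⊥ := normal_le_stabilizer_eq_bot (α := Ω) _ inf_le_left
  rw [i2, hD, card_bot, one_mul] at c1
  refine ⟨c1.symm, ?_⟩
  obtain ⟨s, hs, eH⟩ := gen_of_two c1.symm
  obtain ⟨t, ht, eK⟩ := gen_of_two (hc ▸ c1.symm)
  have hst : s ≠ t := fun e => hKH (by rw [eH, eK, e])
  have s2 := H20.mul_self_of_orderOf_two hs
  have t2 := H20.mul_self_of_orderOf_two ht
  have si : s⁻¹ = s := inv_eq_of_mul_eq_one_right s2
  have ti : t⁻¹ = t := inv_eq_of_mul_eq_one_right t2
  have e1 : s * (s * t) * s⁻¹ = (s * t)⁻¹ := by rw [← mul_assoc, s2, one_mul, mul_inv_rev, ti]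
  have e2 : t * (s * t) * t⁻¹ = (s * t)⁻¹ := by
    rw [mul_inv_rev, ti, si, mul_assoc, mul_assoc, t2, mul_one]
  have cl : closure {s * t, s} = ⊤ := by
    rw [eq_top_iff, ← top, eH, eK]
    have m1 : s ∈ closure {s * t, s} := subset_closure (by simp)
    have m2 : s * t ∈ closure {s * t, s} := subset_closure (by simp)
    refine sup_le (zpowers_le.2 m1) (zpowers_le.2 ?_)
    simpa using mul_mem (inv_mem m1) m2
  obtain ⟨e⟩ := H10.nonempty_closure_equiv_dihedral s2 e1 (H20.not_mem_zpowers_mul hs ht hst)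
  rw [cl] at e
  have e' := topEquiv.symm.trans e
  refine ⟨orderOf (s * t), ?_, ⟨e'⟩⟩
  have cG : Nat.card G = 2 * orderOf (s * t) := by
    rw [Nat.card_congr e'.toEquiv, DihedralGroup.nat_card]
  have n1 : orderOf (s * t) ≠ 1 := fun h => hst (by
    rw [orderOf_eq_one_iff] at h; rw [← ti]; exact eq_inv_of_mul_eq_one_left h)
  have n0 := orderOf_pos (s * t)
  refine Nat.prime_def.2 ⟨by omega, fun d hd => ?_⟩
  have d0 : d ≠ 0 := by rintro rfl; rw [zero_dvd_iff] at hd; omega
  have nC : (zpowers ((s * t) ^ d)).Normal := by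
    rw [← normalizer_eq_top_iff, eq_top_iff, ← top, eH, eK]
    have k : ∀ x : G, x * (s * t) * x⁻¹ = (s * t)⁻¹ →
        x ∈ normalizer (zpowers ((s * t) ^ d) : Set G) := fun x hx => by
      refine mem_normalizer_fintype ?_
      rintro _ ⟨n, rfl⟩
      refine ⟨-n, ?_⟩
      simp only
      rw [← conj_zpow, ← conj_pow, hx, inv_pow, inv_zpow, zpow_neg]
    exact sup_le (zpowers_le.2 (k s e1)) (zpowers_le.2 (k t e2))
  by_cases hle : zpowers ((s * t) ^ d) ≤ H
  · right
    have := normal_le_stabilizer_eq_bot (α := Ω) _ hle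
    rw [zpowers_eq_bot] at this
    exact Nat.dvd_antisymm hd (orderOf_dvd_of_pow_eq_one this)
  · left
    have tp : H ⊔ zpowers ((s * t) ^ d) = ⊤ :=
      hco.2 _ (lt_of_le_of_ne le_sup_left fun e => hle (e ▸ le_sup_right))
    have : Nat.card G ≤ Nat.card H * Nat.card (zpowers ((s * t) ^ d)) := by
      rw [← card_top (G := G), ← tp, sup_comm, mul_comm]
      exact Nat.le_of_dvd (Nat.mul_pos Nat.card_pos Nat.card_pos)
        (card_sup_dvd (normalizer_eq_top (zpowers ((s * t) ^ d)) ▸ le_top))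
    rw [← c1, Nat.card_zpowers, orderOf_pow_of_dvd d0 hd, cG] at this
    obtain ⟨m, hm⟩ := hd
    rw [hm, Nat.mul_div_cancel_left _ (Nat.pos_of_ne_zero d0)] at this
    have m0 : 0 < m := by rcases m with _ | m <;> simp_all
    nlinarith [Nat.pos_of_ne_zero d0]

end Cfsg.Agent.S3684
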