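import Cfsg.Statements.S3687
import Mathlib
import Cfsg.Agent.H2.Rel
import Cfsg.Agent.H19.CoxA

set_option autoImplicit false
open Cfsg

namespace Cfsg.Agent.S3687

open Subgroup Cfsg.Agent.FT Equiv

section
variable {X : Type} [Fintype X] [DecidableEq X]

theorem cen_alt (h : 4 ≤ Fintype.card X) {σ : Perm X}
    (hc : ∀ a ∈ alternatingGroup X, a * σ = σ * a) : σ = 1 := by
  ext x
  by_contra hx
  simp only [Perm.one_apply] at hx
  obtain ⟨y, -, hy⟩ := Finset.exists_mem_notMem_of_card_lt_card (s := {x, σ x})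
      (t := Finset.univ) (Finset.card_le_two.trans_lt (by simp; omega))
  obtain ⟨z, -, hz⟩ := Finset.exists_mem_notMem_of_card_lt_card (s := {x, σ x, y})
      (t := Finset.univ) (Finset.card_le_three.trans_lt (by simp; omega))
  simp only [Finset.mem_insert, Finset.mem_singleton, not_or] at hy hz
  have h1 := congrArg (fun g : Perm X => g x) (hc (swap (σ x) y * swap (σ x) z)
    (Perm.mul_mem_alternatingGroup_of_isSwap ⟨_, _, Ne.symm hy.2, rfl⟩ ⟨_, _, Ne.symm hz.2.1, rfl⟩))
  have hx' : x ≠ σ x := Ne.symm hx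
  simp [swap_apply_of_ne_of_ne hx' (Ne.symm hy.1), swap_apply_of_ne_of_ne hx'
    (Ne.symm hz.1), swap_apply_of_ne_of_ne hz.2.1 hz.2.2] at h1
  exact hz.2.1 h1

theorem alt_dich (h : 5 ≤ Fintype.card X) {U V : Subgroup (Perm X)} (hU : U ⊴ V)
    (hV : alternatingGroup X ≤ V) : U = ⊥ ∨ alternatingGroup X ≤ U := by
  haveI := alternatingGroup.isSimpleGroup (α := X) (by simpa using h)
  have hn : (U.subgroupOf (alternatingGroup X)).Normal :=
    ⟨fun u hu a => hU.conj_mem (hV a.2) hu⟩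
  rcases hn.eq_bot_or_eq_top with h1 | h1
  · left
    rw [eq_bot_iff]
    intro u hu
    refine cen_alt (by omega) fun a ha => ?_
    have h2 : (⟨a * u * a⁻¹ * u⁻¹, by
        rw [Perm.mem_alternatingGroup] at ha ⊢
        simp [ha]⟩ : alternatingGroup X) ∈ U.subgroupOf (alternatingGroup X) :=
      U.mul_mem (hU.conj_mem (hV ha) hu) (U.inv_mem hu)
    rw [h1, mem_bot, Subtype.ext_iff] at h2
    have h3 : a * u * a⁻¹ * u⁻¹ = 1 := h2
    rw [mul_inv_eq_one, mul_inv_eq_iff_eq_mul] at h3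
    exact h3
  · exact Or.inr (subgroupOf_eq_top.1 h1)

theorem alt_dich' (h : 5 ≤ Fintype.card X) {U V : Subgroup (Perm X)} (hU : Subn U V)
    (hV : alternatingGroup X ≤ V) : U = ⊥ ∨ alternatingGroup X ≤ U := by
  refine hU.ind_down (P := fun U => U = ⊥ ∨ alternatingGroup X ≤ U) (Or.inr hV) ?_
  rintro A B hAB - (rfl | hB)
  · exact Or.inl (le_bot_iff.1 hAB.le)
  · exact alt_dich h hAB hB

theorem alt_ne_bot (h : 3 ≤ Fintype.card X) : alternatingGroup X ≠ ⊥ := by
  haveI := alternatingGroup.nontrivial_of_three_le_card (α := X) (by simpa using h)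
  exact (nontrivial_iff_ne_bot _).1 inferInstance

theorem not_cents (h : 5 ≤ Fintype.card X) {U V : Subgroup (Perm X)} (hU : alternatingGroup X ≤ U)
    (hV : alternatingGroup X ≤ V) : ¬ U ≤ C(V) := by
  intro hc
  apply alt_ne_bot (X := X) (by omega)
  rw [eq_bot_iff]
  intro u hu
  exact cen_alt (by omega) fun a ha => (hc (hU hu)) a (hV ha)

theorem not_nil (h : 5 ≤ Fintype.card X) {U : Subgroup (Perm X)} (hU : alternatingGroup X ≤ U) :
    ¬ Nil U := by
  intro hn
  have h1 : Nil (alternatingGroup X) := hn.mono hU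
  haveI := alternatingGroup.isSimpleGroup (α := X) (by simpa using h)
  haveI : Group.IsNilpotent (alternatingGroup X) := h1
  haveI : IsMulCommutative (alternatingGroup X) :=
    IsSimpleGroup.comm_iff_isSolvable.2 inferInstance |> fun h => ⟨⟨h⟩⟩
  refine not_cents h le_rfl le_rfl fun u hu a ha => ?_
  exact congrArg Subtype.val (mul_comm' (⟨a, ha⟩ : alternatingGroup X) ⟨u, hu⟩)

variable {G : Type*} [Group G] [Finite G]

omit [Finite G] in
theorem pdich (h : 5 ≤ Fintype.card X) {D A B : Subgroup G} (f : D →* Perm X) (hA : A ⊴ B)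
    (hB : B ≤ D) (hV : alternatingGroup X ≤ pmap f B) : A ≤ pker f ∨ alternatingGroup X ≤ pmap f A :=
  (alt_dich h (hA.pmap f) hV).imp_left (pmap_eq_bot (hA.le.trans hB)).1

theorem uniq (h : 5 ≤ Fintype.card X) {D A B : Subgroup G} (f : D →* Perm X)
    (hV : alternatingGroup X ≤ pmap f D) (hA : Comp A D) (hB : Comp B D) (h1 : ¬ A ≤ pker f)
    (h2 : ¬ B ≤ pker f) : A = B := by
  refine hA.eq_of_not_cents hB fun hc => ?_
  have k1 := (alt_dich' h (hA.subn.pmap f le_rfl) hV).resolve_left (mt (pmap_eq_bot hA.le).1 h1)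
  have k2 := (alt_dich' h (hB.subn.pmap f le_rfl) hV).resolve_left (mt (pmap_eq_bot hB.le).1 h2)
  exact not_cents h k1 k2 (pmap_cents f hc)

omit [Finite G] [Fintype X] in
theorem restr {M D : Subgroup G} (α : M →* Perm X) (a : X) (hD : D ≤ M)
    (h : ∀ x ∈ D, pfun α x a = a) :
    ∃ α' : D →* Perm {x // x ≠ a}, ∀ x ∈ D, Perm.ofSubtype (pfun α' x) = pfun α x := by
  have h1 : ∀ x : D, ∀ y, α ⟨x, hD x.2⟩ y ≠ a ↔ y ≠ a := by
    intro x y
    have := h x x.2
    rw [pfun_of_mem α (hD x.2)] at this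
    nth_rewrite 1 [← this]
    simp
  refine ⟨{ toFun x := (α ⟨x, hD x.2⟩).subtypePerm (h1 x)
            map_one' := by
              ext y
              change (α 1 y : X) = y
              simp
            map_mul' x y := by
              ext z
              change (α (⟨x, hD x.2⟩ * ⟨y, hD y.2⟩) z : X) = α ⟨x, hD x.2⟩ (α ⟨y, hD y.2⟩ z)
              rw [map_mul, Perm.mul_apply] }, fun x hx => ?_⟩
  rw [pfun_of_mem _ hx, pfun_of_mem α (hD hx)]
  refine Perm.ofSubtype_subtypePerm (h1 ⟨x, hx⟩) fun y hy => ?_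
  rintro rfl
  have := h x hx
  rw [pfun_of_mem α (hD hx)] at this
  exact hy this

/-- no action on fewer than `d` points -/
def Pf (d : ℕ) (Y : Subgroup G) : Prop :=
  ∀ (Z : Type) [Fintype Z] (f : Y →* Perm Z), Fintype.card Z < d → ∀ y, f y = 1

omit [Finite G] in
theorem Pf.cj {d : ℕ} {Y : Subgroup G} (h : Pf d Y) (g : G) : Pf d (cj g Y) := by
  intro Z _ f hZ y
  obtain ⟨y, rfl⟩ := (cjEquiv g Y).surjective y
  exact h Z (f.comp (cjEquiv g Y).toMonoidHom) hZ y

omit [Finite G] in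
theorem Pf.le {d : ℕ} {Y D : Subgroup G} (h : Pf d Y) (hY : Y ≤ D) {Z : Type} [Fintype Z]
    (f : D →* Perm Z) (hZ : Fintype.card Z < d) : Y ≤ pker f := fun y hy =>
  mem_pker.2 ⟨hY hy, by rw [pfun_of_mem f (hY hy)]; exact h Z (f.comp (inclusion hY)) hZ ⟨y, hy⟩⟩

theorem U_nml (d : ℕ) {K M : Subgroup G} (h : K ⊴ M) : sSup {Y | Y ≤ K ∧ Pf d Y} ⊴ M := by
  refine ⟨(sSup_le fun Y hY => hY.1).trans h.le, fun m hm => mem_nrm_of_cj_le ?_⟩
  rw [cj_le_iff]
  refine sSup_le fun Y hY => ?_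
  rw [← cj_le_iff]
  exact le_sSup ⟨cj_le_of_nrm (h.nrm hm) hY.1, hY.2.cj m⟩

theorem exists_Pf (h : 5 ≤ Fintype.card X) {D H : Subgroup G} (f : D →* Perm X) (hH : H ≤ D)
    (hV : alternatingGroup X ≤ pmap f H) : ∃ Y ≤ H, Y ≠ ⊥ ∧ Pf (Fintype.card X) Y := by
  classical
  obtain ⟨Y, ⟨h1, h2⟩, hmin⟩ := (wellFounded_lt (α := Subgroup G)).has_min
    {Y | Y ≤ H ∧ alternatingGroup X ≤ pmap f Y} ⟨H, le_rfl, hV⟩
  refine ⟨Y, h1, ?_, fun Z _ φ hZ y => ?_⟩
  · rintro rfl
    rw [pmap_bot, le_bot_iff] at h2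
    exact alt_ne_bot (by omega) h2
  rcases pdich h f (pker_nml φ) (h1.trans hH) h2 with h3 | h3
  · exfalso
    have e1 := card_pmap f (h1.trans hH)
    have e2 := card_pmap φ (le_refl Y)
    have e3 : (pker f).relIndex Y ≤ (pker φ).relIndex Y :=
      Nat.le_of_dvd (e2 ▸ Nat.card_pos) (relIndex_dvd_of_le_left Y h3)
    have e4 : Nat.card (pmap φ Y) ≤ (Fintype.card Z).factorial := by
      rw [← Fintype.card_perm, ← Nat.card_eq_fintype_card]
      exact card_le_card_group _
    have e5 := card_le_of_le h2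
    haveI : Nontrivial X := Fintype.one_lt_card_iff_nontrivial.1 (by omega)
    have e6 := two_mul_nat_card_alternatingGroup (α := X)
    rw [Nat.card_perm, Nat.card_eq_fintype_card (α := X)] at e6
    obtain ⟨n, hn⟩ : ∃ n, Fintype.card X = n + 1 := ⟨Fintype.card X - 1, by omega⟩
    have e7 : (Fintype.card Z).factorial ≤ n.factorial := Nat.factorial_le (by omega)
    rw [hn, Nat.factorial_succ] at e6
    have := Nat.factorial_pos n
    nlinarith
  · have : ¬ pker φ < Y := hmin _ ⟨(pker_le φ).trans h1, h3⟩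
    have e : pker φ = Y := (pker_le φ).eq_of_not_lt this
    have : (y : G) ∈ pker φ := by rw [e]; exact y.2
    rw [mem_pker, pfun_coe] at this
    exact this.2

/-- one side of the amalgam -/
structure Side (M N : Subgroup G) (α : M →* Perm X) (a : X) : Prop where
  fix : ∀ x ∈ M, pfun α x a = a ↔ x ∈ N

variable {M N : Subgroup G} {α : M →* Perm X} {β : N →* Perm X} {a b : X}

omit [Finite G] [Fintype X] [DecidableEq X] in
theorem Side.ker_le (h : Side M N α a) : pker α ≤ M ⊓ N := fun x hx =>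
  ⟨pker_le α hx, (h.fix x (pker_le α hx)).1 (by rw [(mem_pker.1 hx).2]; rfl)⟩

omit [Finite G] in
theorem Side.res (h : Side M N α a) {D : Subgroup G} (hD : D = M ⊓ N) :
    ∃ α' : D →* Perm {x // x ≠ a}, pker α' = pker α ∧
      (∀ x ∈ D, Perm.sign (pfun α' x) = Perm.sign (pfun α x)) ∧
      (alternatingGroup X ≤ pmap α M → alternatingGroup _ ≤ pmap α' D) := by
  subst hD
  obtain ⟨α', h1⟩ := restr α a (D := M ⊓ N) inf_le_left (fun x hx => (h.fix x hx.1).2 hx.2)
  refine ⟨α', ?_, fun x hx => by rw [← h1 x hx, Perm.sign_ofSubtype], fun hV σ hσ => ?_⟩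
  · ext x
    simp only [mem_pker]
    constructor
    · rintro ⟨h2, h3⟩
      exact ⟨h2.1, by rw [← h1 x h2, h3, map_one]⟩
    · rintro ⟨h2, h3⟩
      have h4 := h.ker_le (mem_pker.2 ⟨h2, h3⟩)
      exact ⟨h4, Perm.ofSubtype_injective (by rw [h1 x h4, h3, map_one])⟩
  · have : Perm.ofSubtype σ ∈ alternatingGroup X := by
      rw [Perm.mem_alternatingGroup] at hσ ⊢
      rw [Perm.sign_ofSubtype, hσ]
    obtain ⟨x, hx, -, e⟩ := mem_pmap.1 (hV this)
    have hxD : x ∈ M ⊓ N := ⟨hx, (h.fix x hx).1 (by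
      rw [e]; exact Perm.ofSubtype_apply_of_not_mem _ (by simp))⟩
    exact mem_pmap.2 ⟨x, hxD, hxD, Perm.ofSubtype_injective (by rw [h1 x hxD, e])⟩

theorem card_ne (a : X) : Fintype.card {x // x ≠ a} = Fintype.card X - 1 := by
  simp

theorem noPf (hX : 5 ≤ Fintype.card X) (h0 : ∀ K, K ⊴ M → K ⊴ N → K = ⊥) (hα : Side M N α a)
    (hβ : Side N M β b) {Y : Subgroup G} (hY : Y ≤ M ⊓ N) (hP : Pf (Fintype.card X) Y) : Y = ⊥ := by
  obtain ⟨α', h1, -, -⟩ := hα.res rfl
  obtain ⟨β', h2, -, -⟩ := hβ.res (inf_comm M N)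
  have k1 : ∀ Y ≤ M ⊓ N, Pf (Fintype.card X) Y → Y ≤ pker α := fun Y hY hP =>
    h1 ▸ hP.le hY α' (by rw [card_ne]; omega)
  have k2 : ∀ Y ≤ M ⊓ N, Pf (Fintype.card X) Y → Y ≤ pker β := fun Y hY hP =>
    h2 ▸ hP.le hY β' (by rw [card_ne]; omega)
  have e : {Y | Y ≤ pker α ∧ Pf (Fintype.card X) Y} = {Y | Y ≤ pker β ∧ Pf (Fintype.card X) Y} := by
    ext Y
    exact ⟨fun h => ⟨k2 Y (h.1.trans hα.ker_le) h.2, h.2⟩,
      fun h => ⟨k1 Y (h.1.trans (hβ.ker_le.trans (inf_comm N M).le)) h.2, h.2⟩⟩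
  have := h0 _ (U_nml (Fintype.card X) (pker_nml α)) (e ▸ U_nml (Fintype.card X) (pker_nml β))
  rw [← le_bot_iff, ← this]
  exact le_sSup ⟨k1 Y hY hP, hP⟩

theorem kle (hX : 5 ≤ Fintype.card X) (h0 : ∀ K, K ⊴ M → K ⊴ N → K = ⊥) (hα : Side M N α a)
    (hβ : Side N M β b) {g : G} (hg : cj g N = M) (hV : alternatingGroup X ≤ pmap α M) :
    cj g (pker β) ≤ pker α := by
  refine (pdich hX α (hg ▸ (pker_nml β).cj g) le_rfl hV).resolve_right fun h => ?_
  obtain ⟨Y, h1, h2, h3⟩ := exists_Pf hX α (hg ▸ cj_mono g (pker_le β)) h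
  rw [le_cj_iff] at h1
  exact h2 (cj_eq_bot.1 (noPf hX h0 hα hβ (h1.trans (hβ.ker_le.trans (inf_comm N M).le)) (h3.cj _)))

theorem frat (hX : 5 ≤ Fintype.card X) (hα : Side M N α a) (hV : alternatingGroup X ≤ pmap α M)
    {Y : Subgroup G} (hY : Y ⊴ M) (hn : ¬ Y ≤ pker α) {m : G} (hm : m ∈ M) :
    ∃ y ∈ Y, ∃ δ ∈ M ⊓ N, m = y * δ := by
  have h1 := (pdich hX α hY le_rfl hV).resolve_left hn
  haveI := alternatingGroup.isPretransitive_of_three_le_card X (by simp; omega)
  obtain ⟨σ, hσ⟩ := MulAction.exists_smul_eq (alternatingGroup X) a (pfun α m a)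
  obtain ⟨y, hy, hyM, e⟩ := mem_pmap.1 (h1 σ.2)
  have h2 : y⁻¹ * m ∈ M := M.mul_mem (M.inv_mem hyM) hm
  refine ⟨y, hy, y⁻¹ * m, ⟨h2, (hα.fix _ h2).1 ?_⟩, by simp⟩
  rw [pfun_mul α (M.inv_mem hyM) hm, pfun_inv α hyM, e, Perm.mul_apply, Perm.inv_eq_iff_eq]
  exact hσ.symm

theorem lay_nml' (hX : 6 ≤ Fintype.card X) (h0 : ∀ K, K ⊴ M → K ⊴ N → K = ⊥) (hα : Side M N α a)
    (hβ : Side N M β b) (hV : alternatingGroup X ≤ pmap α M) (hW : alternatingGroup X ≤ pmap β N)
    (hc : Nat.card E(pker α) = Nat.card E(pker β)) : E(pker α ⊓ pker β) ⊴ M := by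
  obtain ⟨β', h2, -, h4⟩ := hβ.res (inf_comm M N)
  replace h4 := h4 hW
  have nA : pker α ⊴ M ⊓ N := (pker_nml α).mono hα.ker_le inf_le_left
  have nB : pker β ⊴ M ⊓ N := h2 ▸ pker_nml β'
  have nL : pker α ⊓ pker β ⊴ pker α := nml_inf_of_norms (nA.le.trans nB.nrm)
  refine ⟨(lay_le _).trans (inf_le_left.trans (pker_le α)), fun m hm => mem_nrm_of_cj_le ?_⟩
  rw [cj_le_iff, lay_le_iff]
  intro C hC
  rw [← cj_le_iff]
  have hC1 : Comp C (pker α) := hC.trans nL.subn
  have hC2 : Comp (cj m C) (pker α) := hC1.cj_of_nrm ((pker_nml α).nrm hm)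
  by_cases hle : cj m C ≤ pker β
  · exact (hC2.mono (le_inf hC2.le hle) inf_le_left).le_lay
  exfalso
  have hC3 := hC2.trans nA.subn
  have hD : M ⊓ N ≤ N(cj m C) := fun x hx => cj_eq_self.1 <|
    uniq (by rw [card_ne]; omega) β' h4 (hC3.cj_of_mem hx) hC3
      (by rw [h2, cj_le_iff, cj_of_mem_nrm (inv_mem (nB.nrm hx))]; exact hle) (by rwa [h2])
  have hE : ¬ E(M ⊓ N) ≤ pker α := by
    intro h
    have e1 := lay_eq_of_le nA.subn h
    have e2 : E(pker β) = E(M ⊓ N) := eq_of_card_eq (lay_mono_nml nB) (by rw [← hc, e1])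
    have := h0 _ (e1 ▸ (pker_nml α).lay) (e2 ▸ (pker_nml β).lay)
    exact hC3.ne (le_bot_iff.1 (this ▸ hC3.le_lay))
  let Y : Subgroup G := M ⊓ ⨅ x ∈ M, N(cj x (cj m C))
  have hY : Y ⊴ M := by
    refine ⟨inf_le_left, fun y hy => mem_nrm_of_cj_le fun z hz => ?_⟩
    rw [mem_cj] at hz
    have hzM : z ∈ M := by
      have := M.mul_mem (M.mul_mem hy hz.1) (M.inv_mem hy)
      simpa [mul_assoc] using this
    refine ⟨hzM, mem_iInf.2 fun x => mem_iInf.2 fun hx => ?_⟩
    have := mem_iInf.1 (mem_iInf.1 hz.2 (y⁻¹ * x)) (M.mul_mem (M.inv_mem hy) hx)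
    rw [← cj_cj, ← cj_nrm, mem_cj] at this
    simpa [mul_assoc] using this
  have hEY : E(M ⊓ N) ≤ Y := by
    refine le_inf ((lay_le _).trans inf_le_left) (le_iInf fun x => le_iInf fun hx => ?_)
    exact lay_norms_subn ((hC2.cj_of_nrm ((pker_nml α).nrm hx)).trans nA.subn).subn
  obtain ⟨y, hy, δ, hδ, e⟩ := frat (by omega) hα hV hY (fun h => hE (hEY.trans h)) (M.inv_mem hm)
  have hy' : y ∈ N(cj m C) := by
    have := mem_iInf.1 (mem_iInf.1 hy.2 1) M.one_mem
    rwa [cj_one] at this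
  have := cj_eq_self.2 (mul_mem hy' (hD hδ))
  rw [← e, cj_inv_cj] at this
  exact hle (this ▸ hC.le.trans inf_le_right)

theorem core {Z : Type} [Fintype Z] [DecidableEq Z] (hZ : Fintype.card Z = Fintype.card X - 1)
    (hX : 6 ≤ Fintype.card X) (h0 : ∀ K, K ⊴ M → K ⊴ N → K = ⊥) (hα : Side M N α a)
    (hβ : Side N M β b) {g : G} (hg : cj g N = M) (hV : alternatingGroup X ≤ pmap α M)
    (hK : pker α ≠ ⊥) :
    ∃ γ : M →* Perm Z, Function.Injective (α.prod γ) ∧
      (∀ σ ∈ alternatingGroup X, (σ, 1) ∈ (α.prod γ).range) ∧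
      (∀ σ ∈ alternatingGroup Z, (1, σ) ∈ (α.prod γ).range) ∧
      (α.range = alternatingGroup X → ∀ m, Perm.sign (γ m) = 1) := by
  have h0' : ∀ K, K ⊴ N → K ⊴ M → K = ⊥ := fun K h1 h2 => h0 K h2 h1
  haveI : Nontrivial X := Fintype.one_lt_card_iff_nontrivial.1 (by omega)
  have k1 := kle (by omega) h0 hα hβ hg hV
  have c1 := card_pmap_mul α (le_refl M)
  have c2 := card_pmap_mul β (le_refl N)
  rw [inf_eq_left.2 (pker_le _)] at c1 c2
  have c3 : Nat.card N = Nat.card M := by rw [← hg, card_cj]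
  have c4 : Nat.card (pker β) ≤ Nat.card (pker α) := by
    rw [← card_cj g]; exact card_le_of_le k1
  have c5 : Nat.card (pmap α M) ≤ Nat.card (pmap β N) := by
    by_contra hc
    have : 0 < Nat.card (pker β) := Nat.card_pos
    nlinarith
  have hW : alternatingGroup X ≤ pmap β N := by
    apply Perm.alternatingGroup_le_of_index_le_two
    have e1 := (pmap β N).index_mul_card
    have e2 := two_mul_nat_card_alternatingGroup (α := X)
    have e3 := card_le_of_le hV
    have : 0 < Nat.card (pmap β N) := Nat.card_pos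
    by_contra hc
    nlinarith
  have k2 := kle (by omega) h0' hβ hα (g := g⁻¹) (by rw [← hg, cj_inv_cj]) hW
  have k3 : cj g (pker β) = pker α := le_antisymm k1 (by rwa [le_cj_iff])
  have c6 : Nat.card (pker α) = Nat.card (pker β) := by rw [← k3, card_cj]
  have c7 : Nat.card E(pker α) = Nat.card E(pker β) := by rw [← k3, ← cj_lay, card_cj]
  obtain ⟨α', a1, -, a3⟩ := hα.res rfl
  obtain ⟨β', b1, b2, b3⟩ := hβ.res (inf_comm M N)
  replace a3 := a3 hV
  replace b3 := b3 hW
  have nA : pker α ⊴ M ⊓ N := a1 ▸ pker_nml α'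
  have nB : pker β ⊴ M ⊓ N := b1 ▸ pker_nml β'
  have ca : 5 ≤ Fintype.card {x // x ≠ a} := by rw [card_ne]; omega
  have cb : 5 ≤ Fintype.card {x // x ≠ b} := by rw [card_ne]; omega
  have hF : F(M ⊓ N) = ⊥ := by
    have f1 : F(M ⊓ N) ≤ pker α := a1 ▸ (pdich ca α' (fitting_nml _) le_rfl a3).resolve_right
      fun h => not_nil ca h ((fitting_nil _).pmap α')
    have f2 : F(M ⊓ N) ≤ pker β := b1 ▸ (pdich cb β' (fitting_nml _) le_rfl b3).resolve_right
      fun h => not_nil cb h ((fitting_nil _).pmap β')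
    exact h0 _ (fitting_eq_of_le nA f1 ▸ (pker_nml α).fitting)
      (fitting_eq_of_le nB f2 ▸ (pker_nml β).fitting)
  have hL : pker α ⊓ pker β = ⊥ := by
    by_contra hL
    apply gfit_ne_bot hL
    rw [gfit_eq, h0 _ (lay_nml' hX h0 hα hβ hV hW c7)
      (inf_comm (pker β) _ ▸ lay_nml' hX h0' hβ hα hW hV c7.symm), bot_sup_eq, ← le_bot_iff, ← hF]
    exact fitting_mono_nml (nA.inf nB)
  have hK' : pker β ≠ ⊥ := fun h => hK (by rw [← k3, h, cj_bot])
  have hAB : ¬ pker α ≤ pker β := fun h => hK (by rw [← hL, inf_eq_left.2 h])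
  have hBA : ¬ pker β ≤ pker α := fun h => hK' (by rw [← hL, inf_eq_right.2 h])
  have hcen : pker β ≤ C(pker α) := fun x hx y hy => by
    have h1 : y * x * y⁻¹ * x⁻¹ ∈ pker α ⊓ pker β :=
      ⟨by rw [mul_assoc, mul_assoc, ← mul_assoc x]
          exact (pker α).mul_mem hy (nA.conj_mem (nB.le hx) ((pker α).inv_mem hy)),
        (pker β).mul_mem (nB.conj_mem (nA.le hy) hx) ((pker β).inv_mem hx)⟩
    rw [hL, mem_bot, mul_inv_eq_one, mul_inv_eq_iff_eq_mul] at h1
    exact h1
  have hC : M ⊓ C(pker α) ⊴ M := (Nml.refl M).subcent (pker_nml α).nrm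
  have hC' : ¬ M ⊓ C(pker α) ≤ pker α := fun h =>
    hBA ((le_inf (nB.le.trans inf_le_left) hcen).trans h)
  have hKalt := (pdich cb β' nA le_rfl b3).resolve_left (b1 ▸ hAB)
  let Γ : Subgroup (Perm {x // x ≠ b} × M) :=
    { carrier := {p | ∀ k ∈ pker α, pfun β' (p.2 * k * (p.2 : G)⁻¹) = p.1 * pfun β' k * p.1⁻¹}
      one_mem' := by intro k hk; simp
      mul_mem' := by
        intro p q hp hq k hk
        have := hp _ ((pker_nml α).conj_mem q.2.2 hk)
        rw [hq k hk] at this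
        simpa [mul_assoc] using this
      inv_mem' := by
        intro p hp k hk
        have := hp _ ((pker_nml α).conj_mem (inv_mem p.2.2) hk)
        simp only [mul_assoc, inv_inv, inv_mul_cancel, mul_one, mul_inv_cancel_left, mul_inv_cancel] at this
        simp [this, mul_assoc] }
  have g1 : ∀ δ (hδ : δ ∈ M ⊓ N), (pfun β' δ, (⟨δ, hδ.1⟩ : M)) ∈ Γ := fun δ hδ k hk =>
    pfun_conj β' hδ (nA.le hk)
  have g2 : ∀ c (hc : c ∈ M ⊓ C(pker α)), (1, (⟨c, hc.1⟩ : M)) ∈ Γ := fun c hc k hk => by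
    simp [← hc.2 k hk]
  obtain ⟨γ, hγ⟩ := H19.hom_of_graph Γ (fun m => by
    obtain ⟨c, hc, δ, hδ, e⟩ := frat (by omega) hα hV hC hC' m.2
    exact ⟨_, mul_mem (g2 c hc) (g1 δ hδ), Subtype.ext e.symm⟩) (fun p hp h => by
    refine cen_alt (by omega) fun σ hσ => ?_
    obtain ⟨k, hk, -, rfl⟩ := mem_pmap.1 (hKalt hσ)
    have := hp k hk
    rw [h] at this
    simp only [OneMemClass.coe_one, one_mul, inv_one, mul_one] at this
    rw [eq_mul_inv_iff_mul_eq] at this
    exact this)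
  let e : {x // x ≠ b} ≃ Z := Fintype.equivOfCardEq (by rw [card_ne, hZ])
  refine ⟨e.permCongrHom.toMonoidHom.comp γ, ?_, fun σ hσ => ?_, fun σ hσ => ?_, fun hr m => ?_⟩
  · rw [injective_iff_map_eq_one]
    intro m hm
    simp only [MonoidHom.prod_apply, Prod.mk_eq_one, MonoidHom.comp_apply, MulEquiv.coe_toMonoidHom,
      EmbeddingLike.map_eq_one_iff] at hm
    have h1 : (m : G) ∈ pker α := mem_pker.2 ⟨m.2, by rw [pfun_coe, hm.1]⟩
    have h2 := hγ _ (g1 m (nA.le h1))
    have h3 : (m : G) ∈ pker β := b1 ▸ mem_pker.2 ⟨nA.le h1, h2.symm.trans hm.2⟩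
    exact Subtype.ext (mem_bot.1 (hL ▸ ⟨h1, h3⟩))
  · obtain ⟨c, hc, -, rfl⟩ := mem_pmap.1 ((pdich (by omega) α hC le_rfl hV).resolve_left hC' hσ)
    refine ⟨⟨c, hc.1⟩, Prod.ext (pfun_of_mem α hc.1).symm ?_⟩
    have := hγ _ (g2 c hc)
    simp only at this
    ext z
    simp [this]
  · have : e.symm.permCongr σ ∈ alternatingGroup _ := by
      rw [Perm.mem_alternatingGroup] at hσ ⊢
      rwa [Perm.sign_permCongr]
    obtain ⟨k, hk, hk', h1⟩ := mem_pmap.1 (hKalt this)
    refine ⟨⟨k, hk'.1⟩, Prod.ext ?_ ?_⟩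
    · exact (pfun_of_mem α hk'.1).symm.trans (mem_pker.1 hk).2
    · have := hγ _ (g1 k hk')
      simp only at this
      ext z
      simp [this, h1]
  · obtain ⟨c, hc, δ, hδ, e1⟩ := frat (by omega) hα hV hC hC' m.2
    have h1 := hγ _ (mul_mem (g2 c hc) (g1 δ hδ))
    have h2 : m = ⟨c, hc.1⟩ * ⟨δ, hδ.1⟩ := Subtype.ext e1
    simp only [Prod.mk_mul_mk, one_mul, ← h2] at h1
    have h3 : pmap β N = alternatingGroup X := by
      refine (eq_of_card_eq hW ?_).symm
      rw [← hr, ← pmap_dom]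
      rw [c6, ← c3, ← c2] at c1
      exact Nat.eq_of_mul_eq_mul_left Nat.card_pos c1
    have h4 : pfun β δ ∈ alternatingGroup X := h3 ▸ mem_pmap_of_mem β hδ.2 hδ.2
    simp only [MonoidHom.comp_apply, MulEquiv.coe_toMonoidHom, permCongrHom_coe, Perm.sign_permCongr,
      h1, b2 δ hδ]
    exact h4

theorem classify {Z : Type} [Fintype Z] [DecidableEq Z] (R : Subgroup (Perm X × Perm Z))
    (h1 : ∀ σ ∈ alternatingGroup X, (σ, 1) ∈ R) (h2 : ∀ σ ∈ alternatingGroup Z, (1, σ) ∈ R)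
    (p : Perm X × Perm Z) (hp : p ∈ R) (q : Perm X × Perm Z) (e1 : Perm.sign q.1 = Perm.sign p.1)
    (e2 : Perm.sign q.2 = Perm.sign p.2) : q ∈ R := by
  have := mul_mem (mul_mem (h1 (q.1 * p.1⁻¹) (by simp [Perm.mem_alternatingGroup, e1]))
    (h2 (q.2 * p.2⁻¹) (by simp [Perm.mem_alternatingGroup, e2]))) hp
  convert this using 1
  ext1 <;> simp

theorem final {Z : Type} [Fintype Z] [DecidableEq Z] [Nontrivial X] {H : Type*} [Group H]
    (α : H →* Perm X) (γ : H →* Perm Z) (hi : Function.Injective (α.prod γ))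
    (h1 : ∀ σ ∈ alternatingGroup X, (σ, 1) ∈ (α.prod γ).range)
    (h2 : ∀ σ ∈ alternatingGroup Z, (1, σ) ∈ (α.prod γ).range)
    (h3 : α.range = alternatingGroup X → ∀ m, Perm.sign (γ m) = 1) :
    (α.range.index = 2 ∧ Nonempty (H ≃* alternatingGroup X × alternatingGroup Z)) ∨
    (α.range = ⊤ ∧ (Nonempty (H ≃* Perm X × Perm Z) ∨ Nonempty (H ≃* Perm X × alternatingGroup Z) ∨
      Nonempty (H ≃* ((Perm.sign.comp (MonoidHom.fst (Perm X) (Perm Z))) *
         (Perm.sign.comp (MonoidHom.snd (Perm X) (Perm Z)))).ker))) := by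
  have cl := classify _ h1 h2
  have hV : alternatingGroup X ≤ α.range := fun σ hσ => by
    obtain ⟨m, hm⟩ := h1 σ hσ
    exact ⟨m, congrArg Prod.fst hm⟩
  have eq : ∀ R, (α.prod γ).range = R → Nonempty (H ≃* R) := fun R hR =>
    ⟨(MonoidHom.ofInjective hi).trans (MulEquiv.subgroupCongr hR)⟩
  by_cases ho : ∀ m, Perm.sign (α m) = 1
  · have hr : α.range = alternatingGroup X := le_antisymm (by rintro _ ⟨m, rfl⟩; exact ho m) hV
    refine Or.inl ⟨by rw [hr, alternatingGroup.index_eq_two], ?_⟩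
    obtain ⟨e⟩ := eq ((alternatingGroup X).prod (alternatingGroup Z)) (le_antisymm (by
      rintro _ ⟨m, rfl⟩; exact ⟨ho m, h3 hr m⟩) fun q hq =>
        cl 1 (one_mem _) q (by simpa using hq.1) (by simpa using hq.2))
    exact ⟨e.trans (prodEquiv _ _)⟩
  push Not at ho
  obtain ⟨m, hm⟩ := ho
  have hm' : Perm.sign (α m) = -1 := (Int.units_eq_one_or _).resolve_left hm
  refine Or.inr ⟨?_, ?_⟩
  · rw [eq_top_iff]
    intro σ _
    rcases Int.units_eq_one_or (Perm.sign σ) with h | h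
    · exact hV h
    · have := mul_mem (hV (show σ * (α m)⁻¹ ∈ alternatingGroup X by
        simp [Perm.mem_alternatingGroup, h, hm'])) (⟨m, rfl⟩ : α m ∈ α.range)
      simpa using this
  have mm : ∀ m, (α m, γ m) ∈ (α.prod γ).range := fun m => ⟨m, rfl⟩
  by_cases hb : ∃ k, Perm.sign (α k) = 1 ∧ Perm.sign (γ k) = -1
  · obtain ⟨k, k1, k2⟩ := hb
    obtain ⟨e⟩ := eq ⊤ (eq_top_iff.2 fun q _ => by
      rcases Int.units_eq_one_or (Perm.sign q.1) with a1 | a1 <;>
      rcases Int.units_eq_one_or (Perm.sign q.2) with a2 | a2 <;>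
      rcases Int.units_eq_one_or (Perm.sign (γ m)) with a3 | a3 <;>
      first
      | (refine cl _ (mm 1) q ?_ ?_ <;> simp [a1, a2]; done)
      | (refine cl _ (mm k) q ?_ ?_ <;> simp [a1, a2, k1, k2]; done)
      | (refine cl _ (mm m) q ?_ ?_ <;> simp [a1, a2, a3, hm']; done)
      | (refine cl _ (mm (m * k)) q ?_ ?_ <;> simp [a1, a2, a3, hm', k1, k2]; done))
    exact Or.inl ⟨e.trans topEquiv⟩
  have hb' : ∀ k, Perm.sign (α k) = 1 → Perm.sign (γ k) = 1 := fun k hk =>
    (Int.units_eq_one_or _).resolve_right fun h => hb ⟨k, hk, h⟩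
  have hb2 : ∀ k, Perm.sign (α k) = -1 → Perm.sign (γ k) = Perm.sign (γ m) := fun k hk => by
    have := hb' (k * m⁻¹) (by simp [hk, hm'])
    rw [map_mul, map_mul, map_inv, map_inv, mul_inv_eq_one] at this
    exact this
  rcases Int.units_eq_one_or (Perm.sign (γ m)) with a3 | a3
  · obtain ⟨e⟩ := eq ((⊤ : Subgroup (Perm X)).prod (alternatingGroup Z)) (le_antisymm (by
      rintro _ ⟨k, rfl⟩
      refine ⟨trivial, ?_⟩
      rcases Int.units_eq_one_or (Perm.sign (α k)) with h | h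
      · exact hb' k h
      · exact (hb2 k h).trans a3) fun q hq => by
      have a2 : Perm.sign q.2 = 1 := hq.2
      rcases Int.units_eq_one_or (Perm.sign q.1) with a1 | a1
      · exact cl _ (mm 1) q (by simp [a1]) (by simp [a2])
      · exact cl _ (mm m) q (by simp [a1, hm']) (by simp [a2, a3]))
    exact Or.inr (Or.inl ⟨e.trans ((prodEquiv _ _).trans (MulEquiv.prodCongr topEquiv (MulEquiv.refl _)))⟩)
  · refine Or.inr (Or.inr (eq _ (le_antisymm ?_ fun q hq => ?_)))
    · rintro _ ⟨k, rfl⟩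
      rw [MonoidHom.mem_ker]
      rcases Int.units_eq_one_or (Perm.sign (α k)) with h | h
      · simp [h, hb' k h]
      · simp [h, hb2 k h, a3]
    · rw [MonoidHom.mem_ker] at hq
      have hq' : Perm.sign q.1 * Perm.sign q.2 = 1 := hq
      rcases Int.units_eq_one_or (Perm.sign q.1) with a1 | a1 <;>
      rcases Int.units_eq_one_or (Perm.sign q.2) with a2 | a2
      · exact cl _ (mm 1) q (by simp [a1]) (by simp [a2])
      · simp [a1, a2] at hq'
      · simp [a1, a2] at hq'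
      · exact cl _ (mm m) q (by simp [a1, hm']) (by simp [a2, a3])
end

theorem index_congr {A B H : Type*} [Group H] [Finite A] [Finite B] (e : A ≃ B) (f : H →* Perm A) :
    (e.permCongrHom.toMonoidHom.comp f).range.index = f.range.index := by
  rw [MonoidHom.range_comp]
  exact index_map_equiv _ e.permCongrHom

theorem side {G Ω : Type*} [Group G] [MulAction G Ω] (a b : Ω) {d : ℕ}
    (e : MulAction.orbit (MulAction.stabilizer G a) b ≃ Fin d) :
    Side (MulAction.stabilizer G a) (MulAction.stabilizer G b)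
      (e.permCongrHom.toMonoidHom.comp (MulAction.toPermHom (MulAction.stabilizer G a)
        (MulAction.orbit (MulAction.stabilizer G a) b))) (e ⟨b, MulAction.mem_orbit_self b⟩) := by
  refine ⟨fun x hx => ?_⟩
  rw [pfun_of_mem _ hx]
  simp only [MonoidHom.comp_apply, MulEquiv.coe_toMonoidHom, permCongrHom_coe, permCongr_apply,
    symm_apply_apply, EmbeddingLike.apply_eq_iff_eq, Subtype.ext_iff]
  rfl

theorem card_orb {G Ω : Type*} [Group G] [MulAction G Ω] (a b : Ω) :
    Nat.card (MulAction.orbit (MulAction.stabilizer G a) b) =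
      (MulAction.stabilizer G a ⊓ MulAction.stabilizer G b).relIndex (MulAction.stabilizer G a) := by
  rw [inf_relIndex_left, Nat.card_coe_set_eq, ← MulAction.index_stabilizer]; rfl

/-- Let a finite group G act faithfully and primitively on a set Ω, let a and b be points such that the orbit Δ of b under the stabilizer H of a has d ≥ 6 elements, and suppose that the permutation group induced by H on Δ contains the alternating group of Δ (the image of H in the symmetric group of Δ has index at most 2) while H does not act faithfully on Δ. Then either H induces exactly the alternating group of Δ and H is isomorphic to the direct product of the alternating groups of degrees d and d - 1; or H induces the full symmetric group of Δ and H is isomorphic to one of: the direct product of the symmetric groups of degrees d and d - 1, the direct product of the symmetric group of degree d with the alternating group of degree d - 1, or the subgroup of the direct product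 of the symmetric groups of degrees d and d - 1 consisting of the pairs of permutations with equal signs. -/
theorem result {G Ω : Type*} [Group G] [Finite G] [MulAction G Ω] [FaithfulSMul G Ω] [Finite Ω]
    (hprim : MulAction.IsPreprimitive G Ω) (a b : Ω) (d : ℕ) (hd : Nat.card (MulAction.orbit (MulAction.stabilizer G a) b) = d) (h6 : 6 ≤ d)
    (halt : (MulAction.toPermHom (MulAction.stabilizer G a) (MulAction.orbit (MulAction.stabilizer G a) b)).range.index ≤ 2)
    (hunf : ¬ Function.Injective (MulAction.toPermHom (MulAction.stabilizer G a) (MulAction.orbit (MulAction.stabilizer G a) b))) :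
    ((MulAction.toPermHom (MulAction.stabilizer G a) (MulAction.orbit (MulAction.stabilizer G a) b)).range.index = 2 ∧
      Nonempty (MulAction.stabilizer G a ≃* alternatingGroup (Fin d) × alternatingGroup (Fin (d - 1)))) ∨
    ((MulAction.toPermHom (MulAction.stabilizer G a) (MulAction.orbit (MulAction.stabilizer G a) b)).range = ⊤ ∧
      (Nonempty (MulAction.stabilizer G a ≃* Equiv.Perm (Fin d) × Equiv.Perm (Fin (d - 1))) ∨
       Nonempty (MulAction.stabilizer G a ≃* Equiv.Perm (Fin d) × alternatingGroup (Fin (d - 1))) ∨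
       Nonempty (MulAction.stabilizer G a ≃* ((Equiv.Perm.sign.comp (MonoidHom.fst (Equiv.Perm (Fin d)) (Equiv.Perm (Fin (d - 1))))) *
         (Equiv.Perm.sign.comp (MonoidHom.snd (Equiv.Perm (Fin d)) (Equiv.Perm (Fin (d - 1)))))).ker))) := by
  set M := MulAction.stabilizer G a with hM
  set N := MulAction.stabilizer G b with hN
  obtain ⟨g, hg⟩ := MulAction.exists_smul_eq G b a
  have hcj : cj g N = M := by
    rw [hM, hN, ← hg, MulAction.stabilizer_smul_eq_stabilizer_map_conj]; rfl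
  have hd' : Nat.card (MulAction.orbit N a) = d := by
    rw [← hd, card_orb, card_orb, inf_comm]
    have e1 := card_mul_relIndex (inf_le_left : M ⊓ N ≤ M)
    have e2 := card_mul_relIndex (inf_le_right : M ⊓ N ≤ N)
    have e3 : Nat.card M = Nat.card N := by rw [← hcj, card_cj]
    rw [e3, ← e2] at e1
    exact (Nat.eq_of_mul_eq_mul_left Nat.card_pos e1).symm
  have hne : M ≠ N := fun e => by
    rw [card_orb, ← hM, ← hN, ← e, inf_idem, relIndex_self] at hd
    omega
  haveI : Nontrivial Ω := ⟨a, b, fun e => hne (by rw [hM, hN, e])⟩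
  have hco : IsCoatom M := MulAction.IsPreprimitive.isCoatom_stabilizer_of_isPreprimitive G a
  have hco' : IsCoatom N := isCoatom_cj.1 (hcj ▸ hco)
  have h0 : ∀ K, K ⊴ M → K ⊴ N → K = ⊥ := by
    intro K h1 h2
    have hT : N(K) = ⊤ := by
      by_contra hT
      exact hne ((hco.le_iff_eq hT).1 h1.nrm ▸ (hco'.le_iff_eq hT).1 h2.nrm)
    refine eq_bot_iff.2 fun x hx => FaithfulSMul.eq_of_smul_eq_smul (α := Ω) fun c => ?_
    obtain ⟨k, rfl⟩ := MulAction.exists_smul_eq G a c
    have : k⁻¹ * x * k ∈ K := by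
      have := (mem_normalizer_iff.1 (hT ▸ mem_top k⁻¹ : k⁻¹ ∈ N(K)) x).1 hx
      simpa using this
    have := h1.le this
    rw [MulAction.mem_stabilizer_iff, mul_smul, mul_smul, inv_smul_eq_iff] at this
    rw [this, one_smul]
  let e1 : MulAction.orbit M b ≃ Fin d := Finite.equivFinOfCardEq hd
  let e2 : MulAction.orbit N a ≃ Fin d := Finite.equivFinOfCardEq hd'
  haveI : Nontrivial (Fin d) := Fin.nontrivial_iff_two_le.2 (by omega)
  obtain ⟨γ, k1, k2, k3, k4⟩ := core (Z := Fin (d - 1)) (by simp) (by simpa using h6) h0 (side a b e1)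
    (side b a e2) hcj (by
      rw [pmap_dom]
      apply Perm.alternatingGroup_le_of_index_le_two
      rwa [index_congr]) (by
      intro h
      apply hunf
      rw [injective_iff_map_eq_one]
      intro m hm
      have : (m : G) ∈ pker (e1.permCongrHom.toMonoidHom.comp (MulAction.toPermHom M
        (MulAction.orbit M b))) := mem_pker.2 ⟨m.2, by rw [pfun_coe, MonoidHom.comp_apply, hm, map_one]⟩
      rw [h] at this
      exact Subtype.ext this)
  have := final _ γ k1 k2 k3 k4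
  rwa [← index_eq_one, index_congr, index_eq_one] at this

end Cfsg.Agent.S3687
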