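import Cfsg.Statements.S3693
import Mathlib
import Cfsg.Agent.H1.TW

set_option autoImplicit false
open Cfsg

namespace Cfsg.Agent.S3693

open Cfsg.Agent.FT Cfsg.Agent.H1

/-- Let a finite group G act faithfully and primitively on a set Ω, let a and b be points such that the orbit Δ of b under the stabilizer H of a has length d ≥ 2, and consider the permutation group induced on Δ by the elements of H fixing b. If that induced group has trivial Fitting subgroup (no non-trivial nilpotent normal subgroup), then the two-point stabilizer of a and b has trivial Fitting subgroup and the order of H divides d! · ((d - 1)!)^d. -/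
theorem result {G Ω : Type*} [Group G] [Finite G] [MulAction G Ω] [FaithfulSMul G Ω] [Finite Ω]
    (hprim : MulAction.IsPreprimitive G Ω) (a b : Ω) (d : ℕ) (hd : Nat.card (MulAction.orbit (MulAction.stabilizer G a) b) = d) (h2 : 2 ≤ d)
    (hF : Cfsg.fittingSubgroup ↥(((MulAction.stabilizer G b).subgroupOf (MulAction.stabilizer G a)).map (MulAction.toPermHom (MulAction.stabilizer G a) (MulAction.orbit (MulAction.stabilizer G a) b))) = ⊥) :
    Cfsg.fittingSubgroup ↥(MulAction.stabilizer G a ⊓ MulAction.stabilizer G b) = ⊥ ∧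
      Nat.card (MulAction.stabilizer G a) ∣ Nat.factorial d * (Nat.factorial (d - 1)) ^ d := by
  obtain ⟨hM, ⟨g, e⟩, hne, hi⟩ := tw_setup hprim a b hd h2
  have hF1 : F(MulAction.stabilizer G a ⊓ MulAction.stabilizer G b) = ⊥ := by
    refine fitting_eq_bot_of_le hM e hne fun x hx => ?_
    have hx1 := (fitting_le _ hx).1
    refine mem_cor.2 ⟨hx1, fun m hm => ⟨Subgroup.mul_mem _ (Subgroup.mul_mem _ hm hx1) (Subgroup.inv_mem _ hm), ?_⟩⟩
    have h1 := map_fitting_le (MulAction.toPermHom (MulAction.stabilizer G a) (MulAction.orbit (MulAction.stabilizer G a) b))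
      ((MulAction.stabilizer G b).subgroupOf (MulAction.stabilizer G a))
    rw [fitting_def (Subgroup.map _ _), hF, Subgroup.map_bot, ← Subgroup.inf_subgroupOf_left, ← so_fitting inf_le_left,
      le_bot_iff, Subgroup.map_eq_bot_iff] at h1
    have h3 := h1 (x := ⟨x, hx1⟩) hx
    have h4 := congrArg Subtype.val (Equiv.congr_fun (MonoidHom.mem_ker.1 h3) ⟨(⟨m, hm⟩ : MulAction.stabilizer G a)⁻¹ • b, MulAction.mem_orbit _ _⟩)
    change x • m⁻¹ • b = m⁻¹ • b at h4
    change (m * x * m⁻¹) • b = b
    rw [mul_smul, mul_smul, h4, smul_inv_smul]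
  refine ⟨?_, ?_⟩
  · rwa [fitting_def, Subgroup.map_eq_bot_iff_of_injective _ (Subgroup.subtype_injective _)] at hF1
  rw [← hi]
  refine tw_card e ?_
  by_contra h
  rw [not_or] at h
  obtain ⟨p, hp, -, -, p1, -⟩ := tw_main hM e hne h.1 h.2
  exact h.1 (eq_bot_of_le (p1.le_fitting ((cor_nml _ _).mono ((cor_le _ _).trans (inf_le_left.trans (cor_le _ _)))
    inf_le_left)) hF1)

end Cfsg.Agent.S3693
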