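import Cfsg.Statements.S3696
import Mathlib
import Cfsg.Agent.FT.Elem

set_option autoImplicit false
open Cfsg

namespace Cfsg.Agent.S3696

open Cfsg.Agent.FT Subgroup

theorem amgm2 {x y : ℝ} (hx : 0 ≤ x) (hy : 0 ≤ y) (a b : ℕ) (hb : 0 < b) :
    x ^ a * y ^ b ≤ ((a * x + b * y) / (a + b : ℕ)) ^ (a + b) := by
  have h0 : (0 : ℝ) < (a + b : ℕ) := by positivity
  have h1 := Real.geom_mean_le_arith_mean2_weighted (w₁ := a / (a + b : ℕ)) (w₂ := b / (a + b : ℕ))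
    (by positivity) (by positivity) hx hy (by field_simp; push_cast; ring)
  have h2 := pow_le_pow_left₀ (by positivity) h1 (a + b)
  rw [mul_pow, ← Real.rpow_mul_natCast hx, ← Real.rpow_mul_natCast hy, div_mul_cancel₀ _ h0.ne',
    div_mul_cancel₀ _ h0.ne', Real.rpow_natCast, Real.rpow_natCast] at h2
  rwa [div_mul_eq_mul_div, div_mul_eq_mul_div, ← add_div] at h2

theorem le_div_pow {m r : ℕ} (hr : 0 < r) (h : 2 ^ r ≤ m) : (m : ℝ) ≤ (m / r : ℝ) ^ r := by
  rw [div_pow, le_div_iff₀ (by positivity)]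
  obtain ⟨s, rfl⟩ : ∃ s, r = s + 1 := ⟨r - 1, by omega⟩
  have h1 : (s + 1) ^ (s + 1) ≤ m ^ s := calc
    (s + 1) ^ (s + 1) ≤ (2 ^ s) ^ (s + 1) := Nat.pow_le_pow_left Nat.lt_two_pow_self _
    _ = (2 ^ (s + 1)) ^ s := by rw [← pow_mul, ← pow_mul, mul_comm]
    _ ≤ m ^ s := Nat.pow_le_pow_left h _
  have h2 := Nat.mul_le_mul_left m h1
  rw [← pow_succ'] at h2
  exact_mod_cast h2

theorem main {Ω : Type*} [Fintype Ω] [DecidableEq Ω] {p : ℕ} (hp : p.Prime) (c : ℕ) :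
    ∀ (A : Subgroup (Equiv.Perm Ω)), #A = c → PGrp p A → Ab A → ∀ S : Finset Ω, (∀ g ∈ A, ∀ x, g x ≠ x → x ∈ S) →
      ∀ k : ℕ, #Ω[p](A) = p ^ k → (#A : ℝ) ≤ (S.card / k : ℝ) ^ k := by
  classical
  induction c using Nat.strong_induction_on with
  | _ c ih =>
  intro A hc hA hab S hS k hk
  by_cases h1 : A = ⊥
  · rw [h1, Ohm_bot, card_bot', eq_comm, Nat.pow_eq_one, or_iff_right hp.one_lt.ne'] at hk
    rw [h1, card_bot', hk]; simp
  obtain ⟨g, hg, g1⟩ := exists_ne_one (hA.Ohm_ne_bot h1)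
  obtain ⟨x, hx⟩ : ∃ x, g x ≠ x := by
    by_contra e
    push Not at e
    exact g1 (Equiv.ext e)
  let T := MulAction.stabilizer (Equiv.Perm Ω) x
  let O : Finset Ω := (MulAction.orbit A x).toFinset
  have hO : O.card = T.relIndex A := by
    rw [← Set.ncard_eq_toFinset_card', ← MulAction.index_stabilizer]; rfl
  have hOS : O ⊆ S := fun y hy => by
    obtain ⟨h, rfl⟩ := Set.mem_toFinset.1 hy
    refine hS g (Ohm_le _ _ hg) _ fun e => hx (h.1.injective ?_)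
    exact (Equiv.congr_fun (hab.comm h.2 (Ohm_le _ _ hg)) x).trans e
  have hlt : T ⊓ A < A := lt_of_le_of_ne inf_le_right fun e => hx (e.ge (Ohm_le _ _ hg)).1
  have hK := hab.mono hlt.le
  have e1 : Ω[p](T ⊓ A) = T ⊓ Ω[p](A) := by
    ext y
    rw [hK.mem_Ohm_iff, mem_inf, mem_inf, hab.mem_Ohm_iff, and_assoc]
  have e2 := card_inf_mul_relIndex T Ω[p](A)
  rw [hk, ← e1] at e2
  obtain ⟨a, -, ha⟩ := (Nat.dvd_prime_pow hp).1 (Dvd.intro _ e2)
  obtain ⟨r, -, hr⟩ := (Nat.dvd_prime_pow hp).1 (Dvd.intro_left _ e2)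
  have e3 : a + r = k := Nat.pow_right_injective hp.two_le (by simp only; rw [pow_add, ← ha, ← hr, e2])
  have r0 : 0 < r := Nat.pos_of_ne_zero fun e => hx (relIndex_eq_one.1 (by rw [hr, e, pow_zero]) hg)
  have h2 : 2 ^ r ≤ O.card := by
    rw [hO]
    exact (Nat.pow_le_pow_left hp.two_le r).trans (hr ▸ relIndex_le_of_le_right (Ohm_le _ _) (relIndex_pos _ _).ne')
  have h3 := ih _ (hc ▸ card_lt hlt) (T ⊓ A) rfl (hA.mono hlt.le) hK (S \ O) (fun k hk y hy =>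
    Finset.mem_sdiff.2 ⟨hS k hk.2 y hy, fun e => by
      obtain ⟨h, rfl⟩ := Set.mem_toFinset.1 e
      exact hy ((Equiv.congr_fun (hab.comm hk.2 h.2) x).trans (congrArg h.1 hk.1))⟩) a ha
  rw [← card_inf_mul_relIndex T A, ← hO, Nat.cast_mul, ← e3]
  refine (mul_le_mul h3 (le_div_pow r0 h2) (by positivity) (by positivity)).trans
    ((amgm2 (by positivity) (by positivity) a r r0).trans (pow_le_pow_left₀ (by positivity) ?_ _))
  refine div_le_div_of_nonneg_right ?_ (by positivity)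
  rw [mul_div_cancel₀ _ (by positivity : (r : ℝ) ≠ 0), ← Finset.card_sdiff_add_card_eq_card hOS, Nat.cast_add]
  refine add_le_add_left ?_ _
  rcases Nat.eq_zero_or_pos a with e | e
  · rw [e]; simp
  · rw [mul_div_cancel₀ _ (by positivity : (a : ℝ) ≠ 0)]

/-- Let p be a prime, Ω a finite set with n ≥ p elements, and A an abelian p-subgroup of the symmetric group on Ω whose elements of order dividing p number p^k (so k is the rank of A). Then |A| · k^k ≤ n^k, that is, |A| ≤ (n/k)^k. -/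
theorem result {Ω : Type*} [Fintype Ω] [DecidableEq Ω]
    (p : ℕ) (hp : p.Prime) (hn : p ≤ Fintype.card Ω) (A : Subgroup (Equiv.Perm Ω)) (hA : IsPGroup p A) (hab : IsMulCommutative A)
    (k : ℕ) (hk : Nat.card {x : A // x ^ p = 1} = p ^ k) :
    Nat.card A * k ^ k ≤ Fintype.card Ω ^ k := by
  have h1 : #Ω[p](A) = p ^ k := by
    rw [← hk]
    exact Nat.card_congr ⟨fun x => ⟨⟨x, ((Ab.mem_Ohm_iff hab).1 x.2).1⟩, Subtype.ext ((Ab.mem_Ohm_iff hab).1 x.2).2⟩,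
      fun x => ⟨x.1, mem_Ohm x.1.2 (congrArg Subtype.val x.2)⟩, fun _ => rfl, fun _ => rfl⟩
  have h2 := main hp _ A rfl (pGrp_of_isPGroup hp hA) hab Finset.univ (fun _ _ _ _ => Finset.mem_univ _) k h1
  rw [div_pow, le_div_iff₀ (by rcases Nat.eq_zero_or_pos k with e | e; simp [e]; positivity)] at h2
  exact_mod_cast h2

end Cfsg.Agent.S3696
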