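import Cfsg.Statements.S3703
import Mathlib
import Cfsg.Agent.H29.Maz

set_option autoImplicit false
open Cfsg

namespace Cfsg.Agent.S3703

open Cfsg.Agent.FT Cfsg.Agent.H29

/-- Let N be a normal subgroup of the finite group G such that G/N is a Frobenius group with kernel F and cyclic complement H, where the order of F is coprime to that of N and F is not contained in the image of C_G(N) in G/N. Then G has an element of order p·#H for some prime p dividing the order of N. (A standard tool in recognising groups by their element orders.) -/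
theorem result {G : Type*} [Group G] [Finite G] (N : Subgroup G) [N.Normal]
    (Fb Hb : Subgroup (G ⧸ N)) [Fb.Normal] (hHb : Cfsg.IsFrobeniusComplement Hb) (hker : Cfsg.frobeniusKernel Hb = (Fb : Set (G ⧸ N)))
    (hcyc : IsCyclic Hb) (hcop : (Nat.card Fb).Coprime (Nat.card N))
    (hnot : ¬ Fb ≤ (Subgroup.centralizer (N : Set G)).map (QuotientGroup.mk' N)) :
    ∃ p : ℕ, p.Prime ∧ p ∣ Nat.card N ∧ ∃ g : G, orderOf g = p * Nat.card Hb := by
  by_contra h
  refine hnot (mazurov _ (QuotientGroup.mk'_surjective N) (QuotientGroup.ker_mk' N) Fb Hb hHb.1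
    (fun y hy y1 f hf c => ?_) hcyc hcop fun p hp hd g e => h ⟨p, hp, hd, g, e⟩)
  have h1 : f ∈ Hb := by_contra fun hn => y1 (eq_one_of_mem_inf (hHb.2.2 f hn) hy
    ⟨y, hy, by simp [c]⟩)
  have h2 : f ∈ Cfsg.frobeniusKernel Hb := hker ▸ hf
  exact h2.resolve_right fun h3 => h3 1 (by simpa using h1)

end Cfsg.Agent.S3703
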