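import Cfsg.Statements.S3710
import Mathlib
import Cfsg.Agent.H12.Ph10

set_option autoImplicit false
open Cfsg

namespace Cfsg.Agent.S3710

open Cfsg.Agent.H12

/-- Recognition of unitary groups over the field with 9 elements from a weak Phan system. Let F be a field with 9 elements and n ≥ 4. Let G be a group with subgroups U_0, …, U_{n−1}, each isomorphic to SU(2, 9), and, for consecutive indices, subgroups V_{i,i+1} in which U_i and U_{i+1} form a standard pair (via an isomorphism from SU(3, 9) or PSU(3, 9) carrying the block-diagonal subgroups, or their images, onto U_i and U_{i+1}); suppose U_i and U_j commute elementwise whenever the indices differ by at least 2, that G is generated by the U_i and the V_{i,i+1}, and moreover that for each i the subgroup generated by V_{i,i+1} and V_{i+1,i+2} is a homomorphic image of SU(4, 9). Then G is a homomorphic image of SU(n+1, 9). (G is not assumed finite.) -/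
theorem result {G : Type*} [Group G] (n : ℕ) (hn : 4 ≤ n)
    (F : Type*) [Field F] [Fintype F] (hF : Fintype.card F = 9)
    (U : Fin n → Subgroup G) (e : ∀ i, ↥(Cfsg.SU 2 F 3) ≃* ↥(U i))
    (V : Fin n → Fin n → Subgroup G)
    (h1 : ∀ i j : Fin n, (i : ℕ) + 2 ≤ j → ∀ x ∈ U i, ∀ y ∈ U j, x * y = y * x)
    (h2 : ∀ i j : Fin n, (i : ℕ) + 1 = j → Cfsg.IsStandardUnitaryPair (V i j) (U i) (U j) F 3)
    (hgen : (⨆ i, U i) ⊔ (⨆ (i : Fin n) (j : Fin n) (_ : (i : ℕ) + 1 = j), V i j) = ⊤)
    (h4 : ∀ i j k : Fin n, (i : ℕ) + 1 = j → (j : ℕ) + 1 = k →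
      ∃ g : ↥(Cfsg.SU 4 F 3) →* ↥(V i j ⊔ V j k), Function.Surjective g) :
    ∃ f : ↥(Cfsg.SU (n + 1) F 3) →* G, Function.Surjective f := by
  have hq := H11.qConj_conjQ (q := 3) hF
  have hV := fun i j h => (Ph.good_of_std hq le_rfl (e i) (e j) (h2 i j h)).1
  have h5 : ∀ i j k : Fin n, (j : ℕ) + 1 = k → ((i : ℕ) + 2 ≤ j ∨ (k : ℕ) + 2 ≤ i) →
      ∀ x ∈ U i, ∀ y ∈ V j k, x * y = y * x := fun i j k h h' x hx y hy => by
    rw [hV j k h] at hy
    refine (Subgroup.mem_centralizer_singleton_iff.1 (sup_le (c := Subgroup.centralizer {x})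
      (fun z hz => Subgroup.mem_centralizer_singleton_iff.2 ?_)
      (fun z hz => Subgroup.mem_centralizer_singleton_iff.2 ?_) hy)).symm
    · rcases h' with h' | h'
      exacts [(h1 i j h' x hx z hz).symm, h1 j i (by omega) z hz x hx]
    · rcases h' with h' | h'
      exacts [(h1 i k (by omega) x hx z hz).symm, h1 k i h' z hz x hx]
  refine Ph.phan_small hq (.inr rfl) (by omega) U e V h1 h2 hgen h4 h5
    fun i j k l h h' h'' x hx y hy => ?_
  rw [hV i j h] at hx
  exact Subgroup.mem_centralizer_singleton_iff.1 (sup_le (c := Subgroup.centralizer {y})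
    (fun z hz => Subgroup.mem_centralizer_singleton_iff.2 (h5 i k l h' (.inl (by omega)) z hz y hy))
    (fun z hz => Subgroup.mem_centralizer_singleton_iff.2 (h5 j k l h' (.inl h'') z hz y hy)) hx)

end Cfsg.Agent.S3710
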