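import Cfsg.Statements.S3713
import Mathlib
import Cfsg.Agent.H12.Am4
import Cfsg.Agent.H12.CT3

set_option autoImplicit false
open Cfsg

namespace Cfsg.Agent.S3713

open Cfsg.Agent.H12

open Cfsg.Agent.H10 Cfsg.Agent.H11 Cfsg.Agent.H17 Cfsg.Agent.H7.Pr Cfsg.Agent.H12.Sp

theorem sp_l {n : ℕ} {F : Type*} [Field F] (k : Fin n) (x : Fin n ⊕ Fin n → F) :
    spBilin (Fin n) F (Pi.single (.inl k) 1) x = -x (.inr k) := by
  simp [spBilin_apply_sum, Pi.single_apply]

theorem sp_r {n : ℕ} {F : Type*} [Field F] (k : Fin n) (x : Fin n ⊕ Fin n → F) :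
    spBilin (Fin n) F (-Pi.single (.inr k) 1) x = -x (.inl k) := by
  simp [spBilin_apply_sum, Pi.single_apply]

/-- the standard hyperbolic basis -/
def sf (n : ℕ) (F : Type*) [Field F] : Fin n ⊕ Fin n → Fin n ⊕ Fin n → F :=
  Sum.elim (fun k => Pi.single (.inl k) 1) fun k => -Pi.single (.inr k) 1

theorem sf_sep {n : ℕ} {F : Type*} [Field F] {x : Fin n ⊕ Fin n → F}
    (h : ∀ a, spBilin (Fin n) F (sf n F a) x = 0) : x = 0 := funext fun c => by
  rcases c with c | c
  · exact neg_eq_zero.1 ((sp_r c x).symm.trans (h (.inr c)))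
  · exact neg_eq_zero.1 ((sp_l c x).symm.trans (h (.inl c)))

theorem sf_perp {n : ℕ} {F : Type*} [Field F] (a b : Fin n ⊕ Fin n) (h : b ≠ a.swap) :
    spBilin (Fin n) F (sf n F a) (sf n F b) = 0 := by
  rcases a with a | a <;> rcases b with b | b <;>
    simp only [sf, Sum.elim_inl, Sum.elim_inr, sp_l, sp_r] <;> simp_all [Pi.single_apply, eq_comm]

/-- type `C` -/
abbrev ct (n : ℕ) : H17.CT := ⟨n, false, true, by simp⟩

/-- the standard frame -/
noncomputable def std (n : ℕ) (F : Type*) [Field F] :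
    Frame (σ := RingHom.id F) (ct n) ℤ (-1) 0 0 (spBilin (Fin n) F) (fun _ => 0) where
  cl := clSp n F
  f := sf n F
  Qf := fun _ => rfl
  perp := sf_perp
  one := fun i => (sp_l i _).trans (by simp [sf])
  anis := fun _ h _ => sf_sep h
  hD := fun h => by simp at h
  hY := fun _ => .inl nq_zero
  h1 := fun _ => ⟨1, one_pos, rfl⟩
  h2 := fun ⟨_, h0, h⟩ => absurd (sf_sep h) h0

theorem fix_iff {n : ℕ} {F : Type*} [Field F] (A : Matrix.symplecticGroup (Fin n) F)
    (c : Fin n ⊕ Fin n) : (spOm n F A).1 ((std n F).f c) = (std n F).f c ↔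
      A.1.mulVec (Pi.single c 1) = Pi.single c 1 := by
  rw [show (spOm n F A).1 ((std n F).f c) = _ from spIso_apply A _]
  rcases c with c | c
  · rfl
  · change A.1.mulVec (-_) = -_ ↔ _
    rw [Matrix.mulVec_neg, neg_inj]

theorem inj_gr {A H G : Type*} [Group A] [Group H] [Group G] (e : A ≃* G) {L : Subgroup A}
    (φ : L →* H) : InjS (e.toMonoidHom.comp (MonoidHom.snd H A)) (φ.prod L.subtype).range := by
  rintro _ ⟨a, rfl⟩ h
  rw [show a = 1 from Subtype.ext (by simpa using h), map_one]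

theorem inj_gr2 {A H G : Type*} [Group A] [Group H] [Group G] (e : A ≃* G) {L M : Subgroup A}
    {φ : L →* H} {ψ : M →* H} (h : ∃ Ψ : ↥(L ⊔ M) →* H,
      (∀ g hg, Ψ ⟨g, Subgroup.mem_sup_left hg⟩ = φ ⟨g, hg⟩) ∧
        ∀ g hg, Ψ ⟨g, Subgroup.mem_sup_right hg⟩ = ψ ⟨g, hg⟩) :
    InjS (e.toMonoidHom.comp (MonoidHom.snd H A))
      ((φ.prod L.subtype).range ⊔ (ψ.prod M.subtype).range) := by
  obtain ⟨Ψ, h1, h2⟩ := h
  refine (inj_gr e Ψ).mono (sup_le ?_ ?_) <;> rintro _ ⟨g, rfl⟩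
  exacts [⟨⟨g, _⟩, Prod.ext (h1 g g.2) rfl⟩, ⟨⟨g, _⟩, Prod.ext (h2 g g.2) rfl⟩]

theorem map_gr {A H G : Type*} [Group A] [Group H] [Group G] (e : A ≃* G) {L : Subgroup A}
    (φ : L →* H) {K : Subgroup G} (h : L = K.comap e.toMonoidHom) :
    (φ.prod L.subtype).range.map (e.toMonoidHom.comp (MonoidHom.snd H A)) = K := by
  rw [← Subgroup.map_map, MonoidHom.map_range, MonoidHom.snd_comp_prod, Subgroup.range_subtype, h,
    Subgroup.map_comap_eq_self_of_surjective e.surjective]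


/-- A presentation of the symplectic group as the universal completion of an amalgam of small subgroups. Let F be a field with more than two elements, n ≥ 2, and Sp the group of 2n × 2n matrices over F preserving the standard alternating form, acting on column vectors; write e_k, f_k for the standard basis vectors of the two halves (a hyperbolic basis). For each k let S_k be the subgroup of Sp fixing e_l and f_l for all l ≠ k (a copy of SL(2, F) on the plane of e_k, f_k), and for each i with i + 1 < n let M_i be the subgroup fixing every e_l and fixing f_l for all l other than i, i+1 (an abelian group isomorphic to the additive group of F³). Then Sp is the universal completion of the amalgam formed by the S_k, the M_i and the subgroups generated by two of them: for every group H and homomorphisms σ_k : S_k → H, μ_i : M_i → H such that for each pair of these subgroups some homomorphism on the subgroup they generate restricts to the given ones,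 there is exactly one homomorphism Sp → H restricting to every σ_k and μ_i. -/
theorem result
    (F : Type*) [Field F] (hF : ∃ a : F, a ≠ 0 ∧ a ≠ 1) (n : ℕ) (hn : 2 ≤ n)
    (S M : Fin n → Subgroup ↥(Matrix.symplecticGroup (Fin n) F))
    (hS : ∀ j : Fin n, S j = Subgroup.closure {A : ↥(Matrix.symplecticGroup (Fin n) F) | ∀ k : Fin n, k ≠ j →
      ((A : ↥(Matrix.symplecticGroup (Fin n) F)) : Matrix (Fin n ⊕ Fin n) (Fin n ⊕ Fin n) F).mulVec (Pi.single (Sum.inl k) (1 : F)) = (Pi.single (Sum.inl k) (1 : F)) ∧ ((A : ↥(Matrix.symplecticGroup (Fin n) F)) : Matrix (Fin n ⊕ Fin n) (Fin n ⊕ Fin n) F).mulVec (Pi.single (Sum.inr k) (1 : F)) = (Pi.single (Sum.inr k) (1 : F))})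
    (hM : ∀ i : Fin n, (i : ℕ) + 1 < n → M i = Subgroup.closure {A : ↥(Matrix.symplecticGroup (Fin n) F) |
      (∀ k : Fin n, ((A : ↥(Matrix.symplecticGroup (Fin n) F)) : Matrix (Fin n ⊕ Fin n) (Fin n ⊕ Fin n) F).mulVec (Pi.single (Sum.inl k) (1 : F)) = (Pi.single (Sum.inl k) (1 : F))) ∧
        ∀ k : Fin n, (k : ℕ) ≠ i → (k : ℕ) ≠ (i : ℕ) + 1 → ((A : ↥(Matrix.symplecticGroup (Fin n) F)) : Matrix (Fin n ⊕ Fin n) (Fin n ⊕ Fin n) F).mulVec (Pi.single (Sum.inr k) (1 : F)) = (Pi.single (Sum.inr k) (1 : F))})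
    {H : Type*} [Group H] (σ : ∀ j : Fin n, ↥(S j) →* H) (μ : ∀ i : Fin n, ↥(M i) →* H)
    (hSS : ∀ j l : Fin n, j ≠ l → ∃ Ψ : ↥(S j ⊔ S l) →* H,
      (∀ (g : ↥(Matrix.symplecticGroup (Fin n) F)) (hg : g ∈ S j), Ψ ⟨g, Subgroup.mem_sup_left hg⟩ = σ j ⟨g, hg⟩) ∧
        (∀ (g : ↥(Matrix.symplecticGroup (Fin n) F)) (hg : g ∈ S l), Ψ ⟨g, Subgroup.mem_sup_right hg⟩ = σ l ⟨g, hg⟩))
    (hMM : ∀ i i' : Fin n, i ≠ i' → (i : ℕ) + 1 < n → (i' : ℕ) + 1 < n → ∃ Ψ : ↥(M i ⊔ M i') →* H,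
      (∀ (g : ↥(Matrix.symplecticGroup (Fin n) F)) (hg : g ∈ M i), Ψ ⟨g, Subgroup.mem_sup_left hg⟩ = μ i ⟨g, hg⟩) ∧
        (∀ (g : ↥(Matrix.symplecticGroup (Fin n) F)) (hg : g ∈ M i'), Ψ ⟨g, Subgroup.mem_sup_right hg⟩ = μ i' ⟨g, hg⟩))
    (hMS : ∀ i j : Fin n, (i : ℕ) + 1 < n → ∃ Ψ : ↥(M i ⊔ S j) →* H,
      (∀ (g : ↥(Matrix.symplecticGroup (Fin n) F)) (hg : g ∈ M i), Ψ ⟨g, Subgroup.mem_sup_left hg⟩ = μ i ⟨g, hg⟩) ∧
        (∀ (g : ↥(Matrix.symplecticGroup (Fin n) F)) (hg : g ∈ S j), Ψ ⟨g, Subgroup.mem_sup_right hg⟩ = σ j ⟨g, hg⟩)) :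
    ∃! Φ : ↥(Matrix.symplecticGroup (Fin n) F) →* H,
      (∀ (j : Fin n) (g : ↥(Matrix.symplecticGroup (Fin n) F)) (hg : g ∈ S j), Φ g = σ j ⟨g, hg⟩) ∧
        (∀ (i : Fin n), (i : ℕ) + 1 < n → ∀ (g : ↥(Matrix.symplecticGroup (Fin n) F)) (hg : g ∈ M i), Φ g = μ i ⟨g, hg⟩) := by
  have a1 : ∀ i j : Fin n, Adj i j → (min i j).1 + 1 < n := fun i j h => by
    have := i.2; have := j.2
    rcases h with h | h <;> simp only [Fin.coe_min] <;> omega
  let A : Am (std n F) ((spOm n F).toMonoidHom.comp (MonoidHom.snd H _)) :=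
    { S := fun k => ((σ k).prod (S k).subtype).range
      M := fun i j => ((μ (min i j)).prod (M _).subtype).range
      sym := fun i j => by rw [min_comm]
      mS := fun k => map_gr _ _ (by
        rw [hS, ← Subgroup.closure_eq (Subgroup.comap _ _)]
        congr 1
        ext g
        exact ⟨fun h c hc => (fix_iff g c).2 (by
          rcases c with c | c
          exacts [(h c hc).1, (h c hc).2]), fun h c hc =>
            ⟨(fix_iff g _).1 (h (.inl c) hc), (fix_iff g _).1 (h (.inr c) hc)⟩⟩)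
      mM := fun i j h => map_gr _ _ (by
        rw [hM _ (a1 i j h), ← Subgroup.closure_eq (Subgroup.comap _ _)]
        congr 1
        ext g
        refine ⟨fun h' c c1 c2 => (fix_iff g c).2 ?_, fun h' => ⟨fun c => (fix_iff g _).1
          (h' (.inl c) (by simp) (by simp)), fun c c1 c2 => (fix_iff g _).1 (h' (.inr c) ?_ ?_)⟩⟩
        · rcases c with c | c
          · exact h'.1 c
          · simp only [ne_eq, Sum.inr.injEq, Fin.ext_iff] at c1 c2
            refine h'.2 c ?_ ?_ <;> rcases h with h | h <;> simp only [Fin.coe_min] <;> omega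
        all_goals
          simp only [ne_eq, Sum.inr.injEq, Fin.ext_iff, Fin.coe_min] at c1 c2 ⊢
          rcases h with h | h <;> omega)
      iSS := fun k l => by
        by_cases e : k = l
        · rw [e, sup_idem]; exact inj_gr _ _
        · exact inj_gr2 _ (hSS k l e)
      iMM := fun i j k l h h' => by
        by_cases e : min i j = min k l
        · rw [e, sup_idem]; exact inj_gr _ _
        · exact inj_gr2 _ (hMM _ _ e (a1 i j h) (a1 k l h'))
      iMS := fun i j k h => inj_gr2 _ (hMS _ k (a1 i j h)) }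
  obtain ⟨h1, h2⟩ := A.main hF (by change 0 < n; omega)
  have h3 : (A.G Set.univ).map (MonoidHom.snd H _) = ⊤ := by
    rw [← Subgroup.map_map, ← Subgroup.map_top_of_surjective (spOm n F).toMonoidHom
      (spOm n F).surjective] at h2
    exact Subgroup.map_injective (spOm n F).injective h2
  obtain ⟨π, hπ⟩ := RGD.exists_hom_of_graph _ h3 fun g hg e => h1 g hg (by simp [e])
  refine ⟨π, ⟨fun j g hg => hπ _ (A.S_le (J := Set.univ) (k := j) trivial ⟨⟨g, hg⟩, rfl⟩), fun i hi g hg => ?_⟩,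
    fun Φ ⟨k1, k2⟩ => MonoidHom.ext fun g => ?_⟩
  · have e : min i ⟨i + 1, hi⟩ = i := min_eq_left (Fin.le_def.2 (by simp))
    have := A.M_le (J := Set.univ) (i := i) (j := ⟨i + 1, hi⟩) trivial trivial (.inl rfl)
    change ((μ (min i _)).prod (M _).subtype).range ≤ _ at this
    rw [e] at this
    exact hπ _ (this ⟨⟨g, hg⟩, rfl⟩)
  · obtain ⟨g, hg, rfl⟩ := h3.ge (Subgroup.mem_top g)
    refine Eq.trans ?_ (hπ g hg).symm
    refine A.G_le (H := (Φ.comp (MonoidHom.snd H _)).eqLocus (MonoidHom.fst H _)) ?_ ?_ hg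
    · rintro k - _ ⟨a, rfl⟩
      exact k1 k a a.2
    · rintro i - j - h _ ⟨a, rfl⟩
      exact k2 _ (a1 i j h) a a.2

end Cfsg.Agent.S3713
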