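import Cfsg.Statements.S3726
import Mathlib
import Cfsg.Agent.BS.ZassF
import Cfsg.Agent.H16.Normal

set_option autoImplicit false
open Cfsg

namespace Cfsg.Agent.S3726

open MulAction Subgroup
open scoped Pointwise

section

variable {G Ω : Type*} [Group G] [Finite G] [Finite Ω] [MulAction G Ω] {i : ℕ} {t : G}

theorem os (H : Subgroup G) (b : Ω) : (orbit H b).ncard * Nat.card (H ⊓ stabilizer G b : Subgroup G) = Nat.card H := by
  rw [← index_stabilizer, ← (stabilizer H b).index_mul_card, ← card_map_of_injective (K := stabilizer H b) H.subtype_injective]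
  exact congrArg (fun K : Subgroup G => _ * Nat.card K) (inf_comm H _ ▸ (subgroupOf_map_subtype _ H).symm)

theorem modfix {p : ℕ} (hp : p.Prime) {g : G} (hg : g ^ p = 1) {S : Set Ω} (hS : ∀ x ∈ S, g • x ∈ S) :
    S.ncard ≡ (S ∩ fixedBy Ω g).ncard [MOD p] := by
  classical
  haveI := Fact.mk hp
  haveI := Fintype.ofFinite S
  let f : Function.End S := fun x => ⟨g • x.1, hS _ x.2⟩
  have h1 : ∀ (k : ℕ) (x : S), ((f ^ k) x).1 = g ^ k • x.1 := fun k => by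
    induction k with
    | zero => simp [Function.End.one_def]
    | succ k ih => intro x; rw [pow_succ, pow_succ, mul_smul]; exact ih _
  have := Equiv.Perm.card_fixedPoints_modEq (f := f) (p := p) (n := 1) (funext fun x => Subtype.ext (by
    rw [h1, pow_one, hg, one_smul]; rfl))
  rw [← Nat.card_eq_fintype_card, ← Nat.card_eq_fintype_card] at this
  exact this.trans (by
    rw [← Nat.card_coe_set_eq]
    exact congrArg (· % p) (Nat.card_congr ⟨fun x => ⟨x.1.1, x.1.2, congrArg Subtype.val x.2⟩,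
      fun x => ⟨⟨x.1, x.2.1⟩, Subtype.ext x.2.2⟩, fun _ => rfl, fun _ => rfl⟩))

variable (Ω) in
structure Hy (i : ℕ) (t : G) : Prop where
  fa : ∀ g : G, g ≠ 1 → ∃ x : Ω, g • x ≠ x
  two : ∀ {a b c d : Ω}, a ≠ b → c ≠ d → ∃ g : G, g • a = c ∧ g • b = d
  sq : t * t = 1
  ne : t ≠ 1
  hC : ∀ g : G, g * t = t * g → g ≠ 1 → (fixedBy Ω g).ncard = i

namespace Hy

variable (h : Hy Ω i t) {a b c : Ω} {g d e s v : G}
include h

theorem conj (k : G) : Hy Ω i (k * t * k⁻¹) :=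
  ⟨h.fa, h.two, by rw [conj_mul, h.sq]; simp, by simpa using h.ne, fun g h1 h2 => by
    rw [← h.hC (k⁻¹ * g * k) (by
      calc _ = k⁻¹ * (g * (k * t * k⁻¹)) * k := by group
        _ = _ := by rw [h1]; group) (by simpa [mul_assoc, inv_mul_eq_one] using h2)]
    have := smul_fixedBy Ω g k⁻¹
    rw [inv_inv] at this
    rw [← this, Set.ncard_smul_set]⟩

theorem dvd : Nat.card (centralizer {t}) ∣ (fixedBy Ω t)ᶜ.ncard := by
  classical
  haveI := Fintype.ofFinite G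
  haveI := Fintype.ofFinite Ω
  have h1 := sum_card_fixedBy_eq_card_orbits_mul_card_group (centralizer {t}) Ω
  rw [← Finset.add_sum_erase _ _ (Finset.mem_univ 1), Finset.sum_congr rfl (g := fun _ => i) fun c hc => by
    rw [← Nat.card_eq_fintype_card]
    exact h.hC c (mem_centralizer_singleton_iff.1 c.2) fun e => (Finset.mem_erase.1 hc).1 (Subtype.ext e)] at h1
  have h2 := Set.ncard_add_ncard_compl (fixedBy Ω t)
  rw [h.hC t rfl h.ne, Nat.card_eq_fintype_card] at h2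
  simp only [fixedBy_one_eq_univ, Finset.sum_const, Finset.card_erase_of_mem (Finset.mem_univ _), Finset.card_univ,
    smul_eq_mul, Fintype.card_setUniv] at h1
  rw [Nat.card_eq_fintype_card]
  obtain ⟨k, hk⟩ := Nat.exists_eq_add_one_of_ne_zero (Fintype.card_pos (α := centralizer {t})).ne'
  rw [hk] at h1 ⊢
  exact (Nat.dvd_add_right (dvd_mul_right (k + 1) i)).1 (by
    rw [show (k + 1) * i + _ = _ * (k + 1) by rw [← h1, ← h2]; simp; ring]; exact dvd_mul_left ..)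

theorem main (hab : a ≠ b) : Nat.card (centralizer {t}) = (fixedBy Ω t)ᶜ.ncard ∧
    ∀ v : G, v • a = b → v • b = a → IsConj t v := by
  obtain ⟨x, hx⟩ := h.fa t h.ne
  have h1 := Nat.le_of_dvd ((Set.ncard_pos).2 ⟨x, hx⟩) h.dvd
  obtain ⟨w, w1, w2⟩ := h.two hab hab.symm
  let D := stabilizer G a ⊓ stabilizer G b
  have h2 : ∀ x : ((fixedBy Ω t)ᶜ : Set Ω), ∃ g : G, g • x.1 = a ∧ g • t • x.1 = b := fun x => h.two (Ne.symm x.2) hab
  choose r r1 r2 using h2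
  let T := {v : G | IsConj t v ∧ v • a = b ∧ v • b = a}
  have h3 : ∀ s : T, ∃ k, k * t * k⁻¹ = s := fun s => isConj_iff.1 s.2.1
  choose k hk using h3
  let f : ((fixedBy Ω t)ᶜ : Set Ω) × D → T := fun p => ⟨p.2 * r p.1 * t * (p.2 * r p.1)⁻¹, isConj_iff.2 ⟨_, rfl⟩, by
    rw [mul_smul, mul_smul, show (p.2 * r p.1)⁻¹ • a = p.1 by rw [inv_smul_eq_iff, mul_smul, r1, p.2.2.1], mul_smul, r2, p.2.2.2], by
    rw [mul_smul, mul_smul, show (p.2 * r p.1)⁻¹ • b = t • p.1.1 by rw [inv_smul_eq_iff, mul_smul, r2, p.2.2.2],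
      ← mul_smul t, h.sq, one_smul, mul_smul, r1, p.2.2.1]⟩
  have h4 := Nat.card_le_card_of_injective (fun p => ((⟨(k (f p))⁻¹ * (p.2 * r p.1), mem_centralizer_singleton_iff.2 (by
      calc _ = (k (f p))⁻¹ * (f p) * (p.2 * r p.1) := by simp [f, mul_assoc]
        _ = _ := by rw [← hk]; group)⟩ : centralizer {t}), f p)) fun p q e => by
    obtain ⟨e1, e2⟩ := Prod.ext_iff.1 e
    replace e1 := congrArg Subtype.val e1
    dsimp only at e1 e2
    rw [e2, mul_right_inj] at e1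
    have e3 : p.1 = q.1 := Subtype.ext (smul_left_cancel (q.2 * r q.1) (by
      rw [← e1, mul_smul, r1, e1, mul_smul, r1, p.2.2.1, q.2.2.1]))
    exact Prod.ext e3 (Subtype.ext (by rwa [e3, mul_left_inj] at e1))
  have h0 : ∀ v : G, v • a = b → v • b = a → v ∈ (w * ·) '' D := fun v e1 e2 => ⟨w⁻¹ * v, ⟨mem_stabilizer_iff.2 (by
    rw [mul_smul, e1, inv_smul_eq_iff, w1]), mem_stabilizer_iff.2 (by rw [mul_smul, e2, inv_smul_eq_iff, w2])⟩, by simp⟩
  have h5 : T ⊆ (w * ·) '' D := fun v hv => h0 v hv.2.1 hv.2.2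
  have h6 : ((w * ·) '' D).ncard = Nat.card D := Set.ncard_image_of_injective _ (mul_right_injective w)
  have h7 := h6 ▸ Set.ncard_le_ncard h5
  rw [Nat.card_prod, Nat.card_prod, Nat.card_coe_set_eq, Nat.card_coe_set_eq T] at h4
  have h8 : 0 < Nat.card D := Nat.card_pos
  have h9 : 0 < Nat.card (centralizer {t}) := Nat.card_pos
  exact ⟨h1.antisymm (by nlinarith), fun v e1 e2 => ((Set.eq_of_subset_of_ncard_le h5 (by nlinarith)).ge (h0 v e1 e2)).1⟩

theorem sw (hab : a ≠ b) (h1 : v • a = b) (h2 : v • b = a) : Hy Ω i v :=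
  let ⟨k, e⟩ := isConj_iff.1 ((h.main hab).2 v h1 h2); e ▸ h.conj k

theorem isConj (h1 : s * s = 1) (h2 : s ≠ 1) : IsConj t s :=
  let ⟨x, e⟩ := h.fa s h2; (h.main e.symm).2 s rfl (by rw [← mul_smul, h1, one_smul])

theorem invo (h1 : s * s = 1) (h2 : s ≠ 1) : Hy Ω i s :=
  let ⟨k, e⟩ := isConj_iff.1 (h.isConj h1 h2); e ▸ h.conj k

theorem inv (hab : a ≠ b) (h1 : v • a = b) (h2 : v • b = a) (h3 : d • a = a) (h4 : d • b = b) : v * d * v⁻¹ = d⁻¹ := by
  have e1 := (h.sw hab (v := v * d) (by rw [mul_smul, h3, h1]) (by rw [mul_smul, h4, h2])).sq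
  rw [inv_eq_of_mul_eq_one_right (h.sw hab h1 h2).sq, eq_inv_iff_mul_eq_one, mul_assoc, e1]

theorem comm (hab : a ≠ b) (h1 : e • a = a) (h2 : e • b = b) (h3 : d • a = a) (h4 : d • b = b) : d * e = e * d := by
  obtain ⟨v, e1, e2⟩ := h.two hab hab.symm
  rw [← inv_inj, ← h.inv hab e1 e2 (by rw [mul_smul, h1, h3]) (by rw [mul_smul, h2, h4]), mul_inv_rev,
    ← h.inv hab e1 e2 h1 h2, ← h.inv hab e1 e2 h3 h4, conj_mul]

theorem big (hi : 2 < i) : False := by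
  have h0 := h.hC t rfl h.ne
  obtain ⟨a, ha, b, hb, c, hc, hab, hac, hbc⟩ := (Set.two_lt_ncard).1 (h0 ▸ hi)
  have h1 : ∀ {x y : Ω}, x ∈ fixedBy Ω t → y ∈ fixedBy Ω t → x ≠ y → ∃ v : G, v * t = t * v ∧ v • x = y ∧ v • y = x :=
    fun hx hy e => let ⟨v, e1, e2⟩ := h.two e e.symm; ⟨v, mul_inv_eq_iff_eq_mul.1 ((h.inv e e1 e2 hx hy).trans
      (inv_eq_of_mul_eq_one_right h.sq)), e1, e2⟩
  have h2 : ∀ {k : G}, k * t = t * k → ∀ {x}, x ∈ fixedBy Ω t → k • x ≠ x → k * k = 1 := fun {k} hk x hx e => by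
    by_contra c
    have key : ∀ k' : G, k' * t = t * k' → k' * k' = k * k → fixedBy Ω k' = fixedBy Ω (k * k) := fun k' e1 e2 =>
      Set.eq_of_subset_of_ncard_le (fun y hy => by rw [← e2, mem_fixedBy, mul_smul, hy, hy]) (by
        rw [h.hC k' e1 (by rintro rfl; exact c (by simpa using e2.symm)), h.hC _ (by rw [mul_assoc, hk, ← mul_assoc, hk, mul_assoc]) c])
    have e1 := (key (k * t) (by rw [← mul_assoc t, hk]) (by
      rw [mul_assoc, ← mul_assoc t, ← hk, mul_assoc k t, h.sq, mul_one])).trans (key k hk rfl).symm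
    refine e ((Set.eq_of_subset_of_ncard_le (s := fixedBy Ω k) (t := fixedBy Ω t) (fun y hy => smul_left_cancel k ?_) (by
      rw [h0, h.hC k hk (by rintro rfl; simp at c)])).ge hx)
    rw [← mul_smul, e1.ge hy, hy]
  have h3 : ∀ k : centralizer {t}, k * k = 1 := fun ⟨k, hk⟩ => Subtype.ext (by
    rw [mem_centralizer_singleton_iff] at hk
    by_contra c
    obtain ⟨v, e1, e2, e3⟩ := h1 ha hb hab
    obtain ⟨w, e4, e5, e6⟩ := h1 ha hc hac
    have e7 : ∀ {x}, x ∈ fixedBy Ω t → k • x = x := fun hx => by_contra fun e => c (h2 hk hx e)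
    have e8 : (v * w) • a ≠ a := by rw [mul_smul, e5, ← e3]; exact fun e => hbc (smul_left_cancel v e).symm
    have e9 : v * w * t = t * (v * w) := by rw [mul_assoc, e4, ← mul_assoc, e1, mul_assoc]
    have e10 := h2 (k := v * w * k) (by rw [mul_assoc, hk, ← mul_assoc, e9, mul_assoc]) ha (by rwa [mul_smul, e7 ha])
    have e11 : v * w * k = k * (v * w) := by
      calc _ = v * (w * k * w⁻¹) * v⁻¹ * (v * w) := by group
        _ = _ := by rw [h.inv hac e5 e6 (e7 ha) (e7 hc), ← conj_inv, h.inv hab e2 e3 (e7 ha) (e7 hb), inv_inv]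
    exact c (by rwa [e11, mul_assoc, ← mul_assoc (v * w), e11, mul_assoc k, h2 e9 ha e8, mul_one] at e10))
  have h3' : ∀ k l : centralizer {t}, k * l = l * k := fun k l => by
    rw [← inv_eq_of_mul_eq_one_right (h3 (k * l)), mul_inv_rev, inv_eq_of_mul_eq_one_right (h3 k),
      inv_eq_of_mul_eq_one_right (h3 l)]
  have h4 : orbit (centralizer {t}) a = fixedBy Ω t := Set.Subset.antisymm (by
    rintro _ ⟨k, rfl⟩
    exact (show t • k.1 • a = k.1 • a by rw [← mul_smul, ← mem_centralizer_singleton_iff.1 k.2, mul_smul, ha])) fun x hx => by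
      by_cases e : a = x
      · exact e ▸ mem_orbit_self a
      obtain ⟨v, e1, e2, -⟩ := h1 ha hx e
      exact ⟨⟨v, mem_centralizer_singleton_iff.2 e1⟩, e2⟩
  have h5 : ∀ {k : G} {y}, y ∈ fixedBy Ω t → y ≠ a → k • a = a → k • y = y → fixedBy Ω t ⊆ fixedBy Ω k := by
    intro k y hy e e1 e2
    rw [← h4]
    rintro _ ⟨l, rfl⟩
    have := congrArg Subtype.val (h3' ⟨k, mem_centralizer_singleton_iff.2 (h.comm e hy ha e2 e1)⟩ l)
    exact (mul_smul ..).symm.trans (by rw [show k * l = l * k from this, mul_smul, e1]; rfl)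
  haveI := Fact.mk Nat.prime_two
  obtain ⟨n, hn⟩ := IsPGroup.iff_card.1 (show IsPGroup 2 (centralizer {t}) from fun k => ⟨1, by
    rw [pow_one, _root_.sq, h3]⟩)
  let M := stabilizer G a ⊓ stabilizer G (fixedBy Ω t)
  have h6 : orbit M b = fixedBy Ω t \ {a} := Set.Subset.antisymm (by
    rintro _ ⟨k, rfl⟩
    exact ⟨k.2.2.le (Set.smul_mem_smul_set hb), fun e => hab (smul_left_cancel k.1 (k.2.1.trans e.symm))⟩) fun y hy => by
      obtain ⟨g, e1, e2⟩ := h.two hab (Ne.symm hy.2)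
      refine ⟨⟨g, e1, (Set.eq_of_subset_of_ncard_le ?_ (Set.ncard_smul_set ..).le).symm⟩, e2⟩
      rw [smul_fixedBy]
      exact h5 hy.1 hy.2 (by rw [mul_smul, mul_smul, inv_smul_eq_iff.2 e1.symm, ha, e1])
        (by rw [mul_smul, mul_smul, inv_smul_eq_iff.2 e2.symm, hb, e2])
  have h7 : orbit (stabilizer G a) b = {a}ᶜ := Set.Subset.antisymm (by
    rintro _ ⟨k, rfl⟩
    exact fun e => hab (smul_left_cancel k.1 (k.2.trans e.symm))) fun y hy =>
      let ⟨g, e1, e2⟩ := h.two hab (Ne.symm hy); ⟨⟨g, e1⟩, e2⟩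
  have h8 := card_dvd_of_le (inf_le_left : M ≤ _)
  rw [← os M b, ← os (stabilizer G a) b, h6, h7, show M ⊓ stabilizer G b = stabilizer G a ⊓ stabilizer G b from le_antisymm
    (inf_le_inf_right _ inf_le_left) fun k hk => ⟨⟨hk.1, Set.eq_of_subset_of_ncard_le (by
      rintro _ ⟨x, hx, rfl⟩; exact (congrArg (· ∈ _) (h5 hb hab.symm hk.1 hk.2 hx)).mpr hx) (Set.ncard_smul_set ..).ge⟩, hk.2⟩,
    Nat.mul_dvd_mul_iff_right Nat.card_pos, Set.ncard_diff_singleton_of_mem ha, h0] at h8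
  have h9 := Set.ncard_add_ncard_compl (fixedBy Ω t)
  have h10 := Set.ncard_add_ncard_compl ({a} : Set Ω)
  rw [← (h.main hab).1, h0, hn] at h9
  rw [Set.ncard_singleton] at h10
  have h11 := Dvd.intro _ (os (centralizer {t}) a)
  rw [h4, h0, hn] at h11
  obtain ⟨j, -, rfl⟩ := (Nat.dvd_prime_pow Nat.prime_two).1 h11
  obtain ⟨l, -, e⟩ := (Nat.dvd_prime_pow Nat.prime_two).1 ((Nat.dvd_add_right (dvd_refl _)).1
    ((show ({a}ᶜ : Set Ω).ncard = 2 ^ j - 1 + 2 ^ n by omega) ▸ h8))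
  rcases j with _ | j <;> rcases l with _ | l <;> simp only [pow_succ, pow_zero] at * <;> omega

theorem exi (hi : i ≤ 1) (hab : a ≠ b) (hac : a ≠ c) (hbc : b ≠ c) (h1 : d • a = a) (h2 : d • b = b) (h3 : d • c = c)
    (hd : d ≠ 1) : ∃ w : G, Hy Ω i w ∧ w • a = a ∧ w * d * w⁻¹ = d⁻¹ := by
  have h4 : orbit (centralizer {d}) a = fixedBy Ω d := Set.Subset.antisymm (by
    rintro _ ⟨k, rfl⟩
    exact (show d • k.1 • a = k.1 • a by rw [← mul_smul, ← mem_centralizer_singleton_iff.1 k.2, mul_smul, h1])) fun x hx => by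
      by_cases e : a = x
      · exact e ▸ mem_orbit_self a
      obtain ⟨z, e1, e2, e3⟩ : ∃ z, a ≠ z ∧ z ≠ x ∧ d • z = z := by
        by_cases e : b = x
        exacts [⟨c, hac, e ▸ hbc.symm, h3⟩, ⟨b, hab, e, h2⟩]
      obtain ⟨v, e4, e5⟩ := h.two e1 e1.symm
      obtain ⟨w, e6, e7⟩ := h.two e2 e2.symm
      refine ⟨⟨w * v, mem_centralizer_singleton_iff.2 ?_⟩, by rw [← e6, ← e4]; exact mul_smul ..⟩
      calc _ = w * (v * d * v⁻¹) * w⁻¹ * (w * v) := by group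
        _ = _ := by rw [h.inv e1 e4 e5 h1 e3, ← conj_inv, h.inv e2 e6 e7 e3 hx, inv_inv]
  have h5 : ¬ 2 ∣ (fixedBy Ω d).ncard := fun e => by
    obtain ⟨u, hu⟩ := exists_prime_orderOf_dvd_card' (G := centralizer {d}) 2 (hp := ⟨Nat.prime_two⟩)
      (e.trans (h4 ▸ Dvd.intro _ (os _ a)))
    rw [← orderOf_coe, orderOf_eq_prime_iff (hp := ⟨Nat.prime_two⟩), _root_.sq] at hu
    have := (h.invo hu.1 hu.2).hC d (mem_centralizer_singleton_iff.1 u.2).symm hd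
    exact absurd ((Set.one_lt_ncard (s := fixedBy Ω d)).2 ⟨a, h1, b, h2, hab⟩) (by omega)
  obtain ⟨v, e1, e2⟩ := h.two hab hab.symm
  have e3 := h.inv hab e1 e2 h1 h2
  obtain ⟨x, e4, e5⟩ : (fixedBy Ω d ∩ fixedBy Ω v).Nonempty := Set.nonempty_of_ncard_ne_zero fun e => h5
    (Nat.modEq_zero_iff_dvd.1 (e ▸ modfix Nat.prime_two (by rw [_root_.sq, (h.sw hab e1 e2).sq]) fun x hx => by
      rw [← fixedBy_inv, ← e3, ← smul_fixedBy]; exact Set.smul_mem_smul_set hx))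
  obtain ⟨k, rfl⟩ := h4.ge e4
  have e6 := mem_centralizer_singleton_iff.1 k.2
  refine ⟨_, (h.sw hab e1 e2).conj k.1⁻¹, by rw [inv_inv, mul_smul, mul_smul, inv_smul_eq_iff]; exact e5, ?_⟩
  calc _ = k.1⁻¹ * (v * (k * d * k.1⁻¹) * v⁻¹) * k := by group
    _ = _ := by rw [e6, mul_inv_cancel_right, e3, mul_assoc, inv_mul_eq_iff_eq_mul, (Commute.inv_right e6).eq]

theorem cj (hi : i ≤ 1) (ha : t • a = a) (hab : a ≠ b) (h1 : s * s = 1) (h2 : s ≠ 1) (h3 : s • a = a) :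
    ∃ e : G, e • a = a ∧ e • b = b ∧ e * t * e⁻¹ = s := by
  have h4 : ∀ g : G, g * t = t * g → g ≠ 1 → ∀ x ∈ fixedBy Ω g, ∀ y ∈ fixedBy Ω g, x = y := fun g e1 e2 =>
    (Set.ncard_le_one_iff_subsingleton.1 ((h.hC g e1 e2).trans_le hi))
  have h5 : fixedBy Ω t = {a} := Set.eq_singleton_iff_unique_mem.2 ⟨ha, fun x hx => h4 t rfl h.ne _ hx _ ha⟩
  have h6 : ∀ k : G, k * t = t * k → k • a = a := fun k e => h5.le (show t • k • a = _ by rw [← mul_smul, ← e, mul_smul, ha])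
  obtain ⟨g, rfl⟩ := isConj_iff.1 (h.isConj h1 h2)
  have h7 : g⁻¹ • a = a := h5.le (show t • g⁻¹ • a = _ by rwa [eq_inv_smul_iff, ← mul_smul, ← mul_smul])
  have h8 := os (centralizer {t}) b
  rw [show centralizer {t} ⊓ stabilizer G b = ⊥ from eq_bot_iff.2 fun k hk => by_contra fun e => hab (h4 k
    (mem_centralizer_singleton_iff.1 hk.1) e _ (h6 k (mem_centralizer_singleton_iff.1 hk.1)) _ hk.2), card_bot, mul_one,
    (h.main hab).1, h5] at h8
  obtain ⟨k, e⟩ := (Set.eq_of_subset_of_ncard_le (by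
    rintro _ ⟨k, rfl⟩ e
    exact hab (smul_left_cancel k.1 ((h6 k (mem_centralizer_singleton_iff.1 k.2)).trans e.symm))) h8.ge).ge
      (show g⁻¹ • b ∈ ({a}ᶜ : Set Ω) from fun e => hab (smul_left_cancel g⁻¹ (h7.trans e.symm)))
  have e1 := mem_centralizer_singleton_iff.1 k.2
  exact ⟨g * k, by rw [mul_smul, h6 k e1, ← h7, smul_inv_smul, h7], by rw [mul_smul, ← eq_inv_smul_iff]; exact e,
    by rw [mul_assoc g, e1]; group⟩

theorem z3 (hab : a ≠ b) (hac : a ≠ c) (hbc : b ≠ c) (h1 : d • a = a) (h2 : d • b = b) (h3 : d • c = c) : d = 1 := by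
  by_contra hd
  rcases le_or_gt i 1 with hi | hi
  swap
  · obtain ⟨x, hx, y, hy, e⟩ := (Set.one_lt_ncard).1 (h.hC t rfl h.ne ▸ hi)
    obtain ⟨g, rfl, rfl⟩ := h.two e hab
    exact h.big ((h.conj g).hC d (h.comm hab (by simp [mul_smul, show t • x = x from hx])
      (by simp [mul_smul, show t • y = y from hy]) h1 h2) hd ▸ (Set.two_lt_ncard).2 ⟨_, h1, _, h2, _, h3, hab, hac, hbc⟩)
  obtain ⟨t, h, ha, -⟩ := h.exi hi hab hac hbc h1 h2 h3 hd
  have h0 : ∀ {g : G}, t * g * t⁻¹ = g⁻¹ → t * g * (t * g) = 1 := fun e => by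
    rw [inv_eq_of_mul_eq_one_right h.sq] at e
    rw [← mul_assoc, e, inv_mul_cancel]
  have h4 : ∀ {g k : G}, (g • a = a ∧ ∀ s : G, s * s = 1 → s ≠ 1 → s • a = a → s * g * s⁻¹ = g⁻¹) →
      (k • a = a ∧ ∀ s : G, s * s = 1 → s ≠ 1 → s • a = a → s * k * s⁻¹ = k⁻¹) → t * g ≠ 1 → g * k = k * g := fun {g k} hg hk e => by
    have e1 := hk.2 (t * g) (h0 (hg.2 t h.sq h.ne ha)) e (by rw [mul_smul, hg.1, ha])
    rw [← hk.2 t h.sq h.ne ha, mul_inv_rev, ← mul_assoc, mul_left_inj, mul_assoc t, mul_assoc t, mul_right_inj] at e1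
    exact mul_inv_eq_iff_eq_mul.1 e1
  let W : Subgroup G := ⟨⟨⟨{g | g • a = a ∧ ∀ s : G, s * s = 1 → s ≠ 1 → s • a = a → s * g * s⁻¹ = g⁻¹},
    fun {g k} hg hk => ⟨by rw [mul_smul, hk.1, hg.1], fun s e1 e2 e3 => by
      rw [← conj_mul, hg.2 s e1 e2 e3, hk.2 s e1 e2 e3, ← mul_inv_rev, inv_inj]
      by_cases e : t * g = 1
      · by_cases e' : t * k = 1
        · rw [mul_left_cancel (e.trans e'.symm)]
        exact h4 hk hg e'
      exact (h4 hg hk e).symm⟩⟩, by simp⟩, fun {g} hg => ⟨inv_smul_eq_iff.2 hg.1.symm, fun s e1 e2 e3 => by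
        rw [← conj_inv, hg.2 s e1 e2 e3]⟩⟩
  have h5 : ∀ {b c : Ω} {d : G}, a ≠ b → a ≠ c → b ≠ c → d • a = a → d • b = b → d • c = c → d ∈ W :=
    fun {b c d} hab hac hbc h1 h2 h3 => ⟨h1, fun s e1 e2 e3 => by
      by_cases hd : d = 1
      · simp [hd]
      obtain ⟨w, h, e4, e5⟩ := h.exi hi hab hac hbc h1 h2 h3 hd
      obtain ⟨e, e6, e7, rfl⟩ := h.cj hi e4 hab e1 e2 e3
      have e8 : Commute e d := h.comm hab h1 h2 e6 e7
      calc _ = e * (w * (e⁻¹ * d * e) * w⁻¹) * e⁻¹ := by group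
        _ = _ := by rw [e8.inv_left.eq, inv_mul_cancel_right, e5, e8.inv_right.eq, mul_inv_cancel_right]⟩
  have h6 : ∀ w ∈ W, t * w ≠ 1 := fun w hw e => by
    have := h.hC d (by
      have := h4 (h5 hab hac hbc h1 h2 h3) hw fun e => by
        rw [← inv_eq_of_mul_eq_one_right e, inv_eq_of_mul_eq_one_right h.sq] at h1 h2
        exact absurd ((Set.one_lt_ncard (s := fixedBy Ω t)).2 ⟨a, h1, b, h2, hab⟩) (h.hC t rfl h.ne ▸ hi.not_gt)
      rwa [← inv_eq_of_mul_eq_one_right e, inv_eq_of_mul_eq_one_right h.sq] at this) hd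
    exact absurd ((Set.one_lt_ncard (s := fixedBy Ω d)).2 ⟨a, h1, b, h2, hab⟩) (this ▸ hi.not_gt)
  let D := stabilizer G a ⊓ stabilizer G b
  have h7 : ∀ w : W, ∃ e : D, e * t * e.1⁻¹ = t * w := fun w =>
    let ⟨e, e1, e2, e3⟩ := h.cj hi ha hab (s := t * w) (h0 (w.2.2 t h.sq h.ne ha)) (h6 w w.2) (by rw [mul_smul, w.2.1, ha]); ⟨⟨e, e1, e2⟩, e3⟩
  choose f hf using h7
  have h8 := Nat.card_le_card_of_injective f fun w w' e => Subtype.ext (mul_left_cancel (a := t) (by rw [← hf, e, hf]))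
  have h9 : ∀ {k w : G}, k • a = a → w ∈ W → k * w * k⁻¹ ∈ W := fun {k w} e hw => ⟨by
    rw [mul_smul, mul_smul, inv_smul_eq_iff.2 e.symm, hw.1, e], fun s e1 e2 e3 => by
      calc _ = k * (k⁻¹ * s * k⁻¹⁻¹ * w * (k⁻¹ * s * k⁻¹⁻¹)⁻¹) * k⁻¹ := by group
        _ = _ := by
          rw [hw.2 _ (by rw [conj_mul, e1]; simp) (mt conj_eq_one_iff.1 e2) (by
            rw [inv_inv, mul_smul, mul_smul, e, e3, inv_smul_eq_iff, e]), conj_inv]⟩
  obtain ⟨y, hy⟩ := h.fa d hd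
  obtain ⟨k, e1, e0⟩ := h.two (a := a) (b := y) (fun e => hy (e ▸ h1)) hab
  have e2 := h9 e1 (h5 hab hac hbc h1 h2 h3)
  have e3 : (k * d * k⁻¹) • b ≠ b := by simpa [← e0, mul_smul] using hy
  generalize k * d * k⁻¹ = w at e2 e3
  rw [← os W b, ← os D (w • b)] at h8
  refine h8.not_gt (Nat.mul_lt_mul_of_lt_of_le (Set.ncard_lt_ncard ⟨?_, fun e => ?_⟩) (card_le_of_le fun g hg =>
    ⟨h5 hab (fun e => hab (smul_left_cancel w (e2.1.trans e))) e3.symm hg.1.1 hg.1.2 hg.2, hg.1.2⟩) Nat.card_pos)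
  · rintro _ ⟨g, rfl⟩
    exact ⟨⟨_, h9 g.2.1 e2⟩, show (g.1 * w * g.1⁻¹) • b = g.1 • w • b by
      rw [mul_smul, mul_smul, inv_smul_eq_iff.2 g.2.2.symm]⟩
  obtain ⟨g, e4⟩ := e (mem_orbit_self b)
  exact e3 (smul_left_cancel g.1 (e4.trans g.2.2.symm))

theorem top {N : Subgroup G} [hN : N.Normal] (hT : ∀ a b : Ω, ∃ n ∈ N, n • a = b) (hab : a ≠ b) (h0 : d ∈ N) (h1 : d • a = a)
    (h2 : d • b = b) (hd : d ≠ 1) : N = ⊤ := by
  obtain ⟨p, hp, u, hu⟩ : ∃ p : ℕ, p.Prime ∧ ∃ u : (N ⊓ stabilizer G a ⊓ stabilizer G b : Subgroup G), orderOf u = p := by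
    obtain ⟨p, hp, e⟩ := Nat.exists_prime_and_dvd (mt card_eq_one.1 fun e => hd (e.le (show d ∈ N ⊓ stabilizer G a ⊓
      stabilizer G b from ⟨⟨h0, h1⟩, h2⟩)))
    exact ⟨p, hp, exists_prime_orderOf_dvd_card' p (hp := ⟨hp⟩) e⟩
  rw [← orderOf_coe, orderOf_eq_prime_iff (hp := ⟨hp⟩)] at hu
  have h3 : ∀ {x y z : Ω}, x ≠ y → x ≠ z → ∃ n ∈ N, n • x = x ∧ n • y = z := fun {x y z} hy hz => by
    have key : ∀ {w : Ω}, x ≠ w → (orbit (N ⊓ stabilizer G x : Subgroup G) y).ncard ≡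
        (orbit (N ⊓ stabilizer G x : Subgroup G) y ∩ {w}).ncard [MOD p] := fun {w} hw => by
      obtain ⟨k, rfl, rfl⟩ := h.two hab hw
      have e1 : ∀ {c : Ω}, u.1 • c = c → (k * u * k⁻¹) • k • c = k • c := fun e => by simp [mul_smul, e]
      convert modfix hp (g := k * u * k⁻¹) (S := orbit (N ⊓ stabilizer G (k • a) : Subgroup G) y) (by rw [conj_pow, hu.1]; simp) (by
        rintro _ ⟨g, rfl⟩
        exact ⟨⟨_, hN.conj_mem _ u.2.1.1 k, e1 u.2.1.2⟩ * g, mul_smul ..⟩) using 2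
      refine Set.ext fun c => and_congr_right ?_
      rintro ⟨g, rfl⟩
      refine ⟨fun e => e ▸ e1 u.2.2, fun e => by_contra fun e' => hu.2 ?_⟩
      simpa using h.z3 hw (fun e => hy (smul_left_cancel g.1 (g.2.2.trans e))) (Ne.symm e') (e1 u.2.1.2) (e1 u.2.2) e
    by_contra! c
    have e1 := (key hy).symm.trans (key hz)
    rw [Set.inter_singleton_of_mem (mem_orbit_self y), Set.inter_singleton_of_notMem (show z ∉ orbit (N ⊓ stabilizer G x : Subgroup G) y from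
      fun ⟨g, e⟩ => c g g.2.1 g.2.2 e),
      Set.ncard_singleton, Set.ncard_empty, Nat.modEq_zero_iff_dvd, Nat.dvd_one] at e1
    exact hp.ne_one e1
  have h4 : ∀ {x y : Ω}, x ≠ y → ∃ n ∈ N, n • a = x ∧ n • b = y := fun {x y} e => by
    obtain ⟨n, e1, rfl⟩ := hT a x
    obtain ⟨m, e2, e3, rfl⟩ := h3 (fun e => hab (smul_left_cancel n e)) e
    exact ⟨m * n, mul_mem e2 e1, by rw [mul_smul, e3], mul_smul ..⟩
  obtain ⟨v, e1, e2, e3⟩ := h4 hab.symm
  refine eq_top_iff.2 fun g _ => ?_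
  obtain ⟨n, e4, e5, e6⟩ := h4 (fun e => hab (smul_left_cancel g e))
  obtain ⟨k, e7⟩ := isConj_iff.1 (((h.main hab).2 v e2 e3).symm.trans ((h.main hab).2 (v * (n⁻¹ * g))
    (by rw [mul_smul, mul_smul, ← e5, inv_smul_smul, e2]) (by rw [mul_smul, mul_smul, ← e6, inv_smul_smul, e3])))
  exact (N.mul_mem_cancel_left (inv_mem e4)).1 ((N.mul_mem_cancel_left e1).1 (e7 ▸ hN.conj_mem _ e1 k))

end Hy

end

/-- Let a finite group G act faithfully and 2-transitively on a finite set Ω, and suppose there is an involution t of G, fixing exactly i points, such that every non-identity element of the centralizer of t also fixes exactly i points. Then G is isomorphic to PSL₂(q) for some finite field of order q, or to a Suzuki group Sz(q) (q = 2^(2m+1) ≥ 8), or G has a normal subgroup acting regularly on Ω. -/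
theorem result {G Ω : Type*} [Group G] [Finite G] [Fintype Ω] [MulAction G Ω] [FaithfulSMul G Ω]
    (h2 : MulAction.IsMultiplyPretransitive G Ω 2) (i : ℕ) (t : G) (ht : orderOf t = 2)
    (hti : Nat.card {x : Ω // t • x = x} = i)
    (hC : ∀ g : G, Commute g t → g ≠ 1 → Nat.card {x : Ω // g • x = x} = i) :
    (∃ (F : Type) (_ : Field F) (_ : Fintype F), Nonempty (G ≃* Matrix.ProjectiveSpecialLinearGroup (Fin 2) F)) ∨
    Cfsg.Lie.IsoSuzuki G ∨
    (∃ R : Subgroup G, R.Normal ∧ (∀ x y : Ω, ∃ r ∈ R, r • x = y) ∧ ∀ x : Ω, ∀ r ∈ R, r • x = x → r = 1) := by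
  rw [orderOf_eq_prime_iff (hp := ⟨Nat.prime_two⟩), sq] at ht
  have h : Hy Ω i t := ⟨fun g hg => by_contra fun c => hg (eq_of_smul_eq_smul (α := Ω) (by simpa using c)),
    MulAction.is_two_pretransitive_iff.1 h2, ht.1, ht.2, hC⟩
  rw [← or_assoc, or_iff_not_imp_right]
  intro hR
  obtain ⟨x, hx⟩ := h.fa t h.ne
  haveI : Nontrivial Ω := ⟨_, _, hx⟩
  have h1 : ∀ N : Subgroup G, N.Normal → MulAction.IsPretransitive N Ω → ∃ g ∈ N, ∃ a b : Ω, a ≠ b ∧ g • a = a ∧ g • b = b ∧ g ≠ 1 :=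
    fun N _ _ => by
    by_contra! c
    obtain ⟨K, e1, -, -, e2, e3⟩ := H16.exists_frob_kernel_of_normal N c
    exact hR ⟨K, e1, fun x y => let ⟨g, e⟩ := e2.1 x y; ⟨g, g.2, e⟩, fun x r hr e =>
      congrArg Subtype.val ((e3 x).le (show (⟨r, hr⟩ : K) ∈ _ from e))⟩
  have h3 : ∀ N : Subgroup G, N.Normal → N ≠ ⊥ → ∀ a b : Ω, ∃ n ∈ N, n • a = b := fun N hN e a b => by
    by_cases e1 : a = b
    · exact ⟨1, one_mem _, by simpa⟩
    obtain ⟨⟨n, hn⟩, e⟩ := Subgroup.ne_bot_iff_exists_ne_one.1 e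
    obtain ⟨y, hy⟩ := h.fa n fun c => e (Subtype.ext c)
    obtain ⟨k, rfl, rfl⟩ := h.two hy.symm e1
    exact ⟨_, hN.conj_mem _ hn k, by simp [mul_smul]⟩
  haveI : Nontrivial G := ⟨t, 1, h.ne⟩
  haveI : IsSimpleGroup G := ⟨fun N hN => or_iff_not_imp_left.2 fun e =>
    let ⟨_, e1, _, _, e2, e3, e4, e5⟩ := h1 N hN ⟨fun a b => let ⟨n, e1, e2⟩ := h3 N hN e a b; ⟨⟨n, e1⟩, e2⟩⟩
    h.top (h3 N hN e) e2 e1 e3 e4 e5⟩
  refine BS.zass_simple (Ω := Ω) ⟨inferInstance, h2, fun g a b c e1 e2 e3 => h.z3 e1 e3 e2, ?_, fun N hN hT => ?_⟩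
  · obtain ⟨g, -, a, b, e1, e2, e3, e4⟩ := h1 ⊤ inferInstance ⟨fun a b => let ⟨n, e1, e2⟩ := h3 ⊤ inferInstance top_ne_bot a b
      ⟨⟨n, e1⟩, e2⟩⟩
    exact ⟨g, e4, a, b, e1, e2, e3⟩
  obtain ⟨g, e0, a, b, -, e2, -, e4⟩ := h1 N hN hT
  exact ⟨a, fun e => e4 (congrArg Subtype.val (e.le (show (⟨g, e0⟩ : N) ∈ _ from e2)))⟩

end Cfsg.Agent.S3726
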