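import Cfsg.Statements.S3728
import Mathlib
import Cfsg.Agent.H29.Sz3
import Cfsg.Agent.H5.HS1

set_option autoImplicit false
open Cfsg

namespace Cfsg.Agent.S3728

/-- Let q = 2^(2m+1) with m ≥ 1 and let G be a finite group whose set of orders of maximal subgroups equals that of the Suzuki group Sz(q). Then G is isomorphic to Sz(q). -/
theorem result {G : Type*} [Group G] [Finite G] {F : Type*} [Field F] [Fintype F] (m : ℕ) (hm : 1 ≤ m)
    (hF : Fintype.card F = 2 ^ (2 * m + 1))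
    (h : {k : ℕ | ∃ M : Subgroup G, IsCoatom M ∧ k = Nat.card ↥M} = {k : ℕ | ∃ M : Subgroup ↥(Cfsg.Lie.Sz F (2 ^ (m + 1))), IsCoatom M ∧ k = Nat.card ↥M}) :
    Nonempty (G ≃* ↥(Cfsg.Lie.Sz F (2 ^ (m + 1)))) := by
  exact H29.equiv_of_coatoms (fun _ _ _ _ => H5c.three'_sz) (H13.szDataB hm (Nat.card_eq_fintype_card.trans hF)) h

end Cfsg.Agent.S3728
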