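import Cfsg.Statements.S3803
import Mathlib
import Cfsg.Agent.FT.BG01
import Cfsg.Agent.H3.Aut
import Cfsg.Agent.H3.Two

set_option autoImplicit false
open Cfsg

namespace Cfsg.Agent.S3803

open Subgroup Cfsg.Agent.FT
open scoped commutatorElement

theorem cents_of_max {G : Type*} [Group G] [Finite G] {R A : Subgroup G} (hR : PGrp 2 R) (hA : Odd #A)
    (hc : ¬ Cyc R) (h : ∀ M, MaxIn M R → A ≤ N(M)) : A ≤ C(R) := by
  have h1 : R ≠ ⊥ := by rintro rfl; exact hc cyc_bot
  obtain ⟨M, -, hM⟩ := exists_maxIn (bot_lt_iff_ne_bot.2 h1)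
  obtain ⟨x, hx, hxM⟩ := SetLike.exists_of_lt hM.lt
  have h2 : ⟪x⟫ < R := lt_of_le_of_ne (zpowers_le.2 hx) fun e => hc (e ▸ cyc_zpowers x)
  obtain ⟨M', hM1, hM'⟩ := exists_maxIn h2
  have h3 : M ⊔ M' = R := hM.sup_eq hM'.lt.le fun e => hxM (e (hM1 (mem_zpowers x)))
  have hn : A ≤ N(R) := h3 ▸ normsY (h M hM) (h M' hM')
  have hcop : Cop R A := by
    obtain ⟨n, hn⟩ := hR.card
    show Nat.Coprime #R #A
    rw [hn]
    exact (Nat.coprime_two_left.2 hA).pow_left n
  refine coprime_cent_Phi hcop (le_Phi (comm_le_left hn) fun H hH => ?_)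
  rw [commutator_le]
  intro r hr a ha
  have e : ⁅r, a⁆ = r * (a * r⁻¹ * a⁻¹) := by rw [commutatorElement_def]; group
  rw [e, H3.mul_mem_iff_of_relIndex_two (hR.maxIn_relIndex hH) hr ((mem_normalizer_iff.1 (hn ha) _).1 (inv_mem hr)),
    ← mem_normalizer_iff.1 (h H hH ha), inv_mem_iff]

/-- Let P be a 2-subgroup and A a subgroup of odd order of a finite group, with A normalizing P. Let D ≤ P with 1 < |D| < |P|. If every subgroup of P of order |D|, and also every subgroup of P of order 4 in case |D| = 2, is normalized by A, then A centralizes P. -/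
theorem result {X : Type*} [Group X] [Finite X] (P A D : Subgroup X) (hP : IsPGroup 2 P) (hA : Odd (Nat.card A))
    (hAP : A ≤ Subgroup.normalizer (P : Set X)) (hDP : D ≤ P) (hD1 : 1 < Nat.card D) (hD2 : Nat.card D < Nat.card P)
    (hinv : ∀ E : Subgroup X, E ≤ P → (Nat.card E = Nat.card D ∨ (Nat.card D = 2 ∧ Nat.card E = 4)) → A ≤ Subgroup.normalizer (E : Set X)) :
    A ≤ Subgroup.centralizer (P : Set X) := by
  have hP' : PGrp 2 P := (pGrp_iff Nat.prime_two).2 hP
  obtain ⟨n, hn⟩ := hP'.card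
  obtain ⟨d, hd⟩ := (hP'.mono hDP).card
  have hd1 : 1 ≤ d := by
    rcases d with _ | d
    · rw [hd] at hD1; simp at hD1
    · omega
  have hdn : d + 1 ≤ n := by
    rw [hd, hn] at hD2
    exact (Nat.pow_lt_pow_iff_right one_lt_two).1 hD2
  have hcyc : ∀ E, E ≤ P → Cyc E → A ≤ N(E) → A ≤ C(E) := fun E hE hc hAE => by
    obtain ⟨k, hk⟩ := (hP'.mono hE).card
    refine hc.cents_of_coprime hAE ?_
    rw [hk]
    rcases k with _ | k
    · simp
    · rw [Nat.totient_prime_pow_succ Nat.prime_two]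
      simpa using (Nat.coprime_two_right.2 hA).pow_right k
  refine H3.le_centralizer_of_fix_four (Nat.coprime_two_right.2 hA) hP hAP fun x hx h4 => ?_
  have hx4 : #⟪x⟫ ≤ 2 ^ 2 := by
    rw [card_zpowers']; exact orderOf_le_of_pow_eq_one (by norm_num) h4
  have fin : ∀ E, x ∈ E → A ≤ C(E) → x ∈ C(A) := fun E hE h => centsC h hE
  obtain ⟨R, hR1, hR2, hR3⟩ := hP'.exists_between Nat.prime_two (zpowers_le.2 hx)
    (hx4.trans (Nat.pow_le_pow_right two_pos (by omega : 2 ≤ d + 1))) (hn ▸ Nat.pow_le_pow_right two_pos hdn)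
  have hxR : x ∈ R := hR1 (mem_zpowers x)
  by_cases hc : Cyc R
  · by_cases h2 : d = 1
    · subst h2
      exact fin R hxR (hcyc R hR2 hc (hinv R hR2 (Or.inr ⟨by rw [hd]; rfl, by rw [hR3]; rfl⟩)))
    · obtain ⟨E, hE1, hE2, hE3⟩ := (hP'.mono hR2).exists_between Nat.prime_two hR1
        (hx4.trans (Nat.pow_le_pow_right two_pos (by omega : 2 ≤ d))) (hR3 ▸ Nat.pow_le_pow_right two_pos (Nat.le_succ d))
      exact fin E (hE1 (mem_zpowers x)) (hcyc E (hE2.trans hR2) (hc.mono hE2)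
        (hinv E (hE2.trans hR2) (Or.inl (hE3.trans hd.symm))))
  · refine fin R hxR (cents_of_max (hP'.mono hR2) hA hc fun M hM => hinv M (hM.lt.le.trans hR2) (Or.inl ?_))
    have := card_mul_relIndex hM.lt.le
    rw [(hP'.mono hR2).maxIn_relIndex hM, hR3, pow_succ] at this
    rw [hd]; omega

end Cfsg.Agent.S3803
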