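import Cfsg.Statements.S3816
import Mathlib
import Cfsg.Agent.FV.Fix

set_option autoImplicit false
open Cfsg

namespace Cfsg.Agent.S3816

open Cfsg.Agent.FT Subgroup SemidirectProduct

/-- Let p be an odd prime, H a finite solvable group of order prime to p, and x an automorphism of H of order p (so P = ⟨x⟩ has prime order p > 2 and acts coprimely on H). For h ∈ H let [h, P] be the subgroup generated by the commutators h⁻¹·xⁱ(h), and let [H, P] be the subgroup generated by all of these. Then the fixed points of x in [H, P] are generated by the fixed points of x in the subgroups [h, P], h ∈ H. -/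
theorem result {H : Type*} [Group H] [Finite H]
    [Group.IsSolvable H] {p : ℕ} [Fact p.Prime] (hp : p ≠ 2) (hcop : (Nat.card H).Coprime p)
    (x : MulAut H) (hx : orderOf x = p) :
    Subgroup.closure {c : H | ∃ h : H, ∃ i : ℕ, c = h⁻¹ * (x ^ i) h} ⊓ (x : H →* H).eqLocus (MonoidHom.id H) =
      ⨆ h : H, Subgroup.closure {c : H | ∃ i : ℕ, c = h⁻¹ * (x ^ i) h} ⊓ (x : H →* H).eqLocus (MonoidHom.id H) := by
  refine le_antisymm ?_ (iSup_le fun h => inf_le_inf_right _ (closure_mono fun c ⟨i, e⟩ => ⟨h, i, e⟩))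
  let Γ := H ⋊[MonoidHom.id (MulAut H)] MulAut H
  have : Finite Γ := Finite.of_equiv _ SemidirectProduct.equivProd.symm
  let ι : H →* Γ := inl
  let y : Γ := inr x
  have hι : Function.Injective ι := inl_injective
  have cy : ∀ (i : ℕ) h, y ^ i * ι h * (y ^ i)⁻¹ = ι ((x ^ i) h) := fun i h => by
    rw [← map_pow, ← map_inv]
    exact (inl_aut (φ := MonoidHom.id _) (x ^ i) h).symm
  have cy1 : ∀ h, y * ι h * y⁻¹ = ι (x h) := fun h => by simpa using cy 1 h
  have nr : ∀ T : Subgroup H, (∀ c ∈ T, x c ∈ T) → ⟪y⟫ ≤ N(T.map ι) := fun T hT =>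
    zpowers_le.2 (mem_nrm.2 fun _ ⟨c, hc, e⟩ => ⟨_, hT c hc, by rw [← e, cy1]⟩)
  have hP : #⟪y⟫ = p := by rw [card_zpowers', orderOf_injective _ inr_injective, hx]
  have hc : Cop ((⊤ : Subgroup H).map ι) ⟪y⟫ := by
    rw [Cop, card_map_inj hι, hP, card_top']
    exact hcop
  have ce : ∀ h, ι h ∈ C(⟪y⟫) ↔ x h = h := fun h => by
    rw [← hι.eq_iff, ← cy1, mul_inv_eq_iff_eq_mul]
    exact ⟨fun c => mem_cen.1 c y (mem_zpowers y), fun c => mem_cen.2 fun _ ⟨n, e⟩ =>
      e ▸ ((show Commute y (ι h) from c).zpow_left n).eq⟩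
  have := FV.fx Fact.out hp _ Γ _ ⟪y⟫ (Nat.lt_succ_self _) ((sol_top.2 inferInstance).map (f := ι))
    (nr ⊤ fun _ _ => trivial) hP hc
  rintro c ⟨h1, h2⟩
  refine (mem_map_iff_mem hι).1 ((this.trans (iSup₂_le ?_)) ⟨((closure_le (comap ι ⁅map ι ⊤, ⟪y⟫⁆)).2 ?_) h1, (ce c).2 h2⟩)
  · rintro _ ⟨h, -, rfl⟩ g ⟨h1, h2⟩
    obtain ⟨T, hT⟩ : ∃ T, T = closure {c : H | ∃ i : ℕ, c = h⁻¹⁻¹ * (x ^ i) h⁻¹} := ⟨_, rfl⟩
    have mT : ∀ i : ℕ, h⁻¹⁻¹ * (x ^ i) h⁻¹ ∈ T := fun i => hT ▸ subset_closure ⟨i, rfl⟩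
    have n := nr T fun c hc => (closure_le (comap (x : H →* H) T)).2 (by
      rintro _ ⟨i, rfl⟩
      have := mul_mem (inv_mem (mT 1)) (mT (i + 1))
      simpa [pow_succ', mul_assoc] using this) (hT ▸ hc)
    have l : FV.Tc (map ι ⊤) ⟪y⟫ (ι h) ≤ T.map ι := by
      have := inf_sup_left n (map_mono (le_top (a := T)))
      rw [hc.inf, sup_bot_eq] at this
      refine (inf_le_inf_left _ (sup_le le_sup_right ?_)).trans this.le
      rw [cj_zpowers, zpowers_le]
      have := mul_mem (mem_sup_left (mem_map_of_mem ι (mT 1))) (mem_sup_right (mem_zpowers y))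
      rw [map_mul, pow_one, ← cy1] at this
      simpa [mul_assoc] using this
    obtain ⟨c, hc, rfl⟩ := l h1
    exact mem_map_of_mem ι (mem_iSup_of_mem h⁻¹ ⟨hT ▸ hc, (ce c).1 h2⟩)
  · rintro _ ⟨h, i, rfl⟩
    have := commutator_mem_commutator (mem_map_of_mem ι (mem_top h⁻¹)) (pow_mem (mem_zpowers y) i)
    rw [SetLike.mem_coe, mem_comap, map_mul, ← cy]
    rw [map_inv, commutatorElement_def, inv_inv] at this
    simpa [mul_assoc] using this

end Cfsg.Agent.S3816
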