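import Cfsg.Statements.S3818
import Mathlib
import Cfsg.Agent.FV.Half

set_option autoImplicit false
open Cfsg

namespace Cfsg.Agent.S3818

/-- Let G be a finite solvable group and P a subgroup of G of prime order p > 3 whose conjugates generate G. Let V be a faithful irreducible representation of G over a field of positive characteristic, finite-dimensional. Then the subspace of V fixed by P has dimension less than half the dimension of V. -/
theorem result {G : Type*} [Group G] [Finite G] [Group.IsSolvable G]
    {p : ℕ} [Fact p.Prime] (hp : 3 < p) (P : Subgroup G) (hP : Nat.card P = p) (hgen : Subgroup.normalClosure (P : Set G) = ⊤)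
    {k : Type*} [Field k] (ℓ : ℕ) [Fact ℓ.Prime] [CharP k ℓ]
    {V : Type*} [AddCommGroup V] [Module k V] [FiniteDimensional k V]
    (ρ : Representation k G V) [ρ.IsIrreducible] (hfaith : Function.Injective ρ) :
    2 * Module.finrank k ↥(⨅ g : ↥P, LinearMap.ker (ρ (g : G) - LinearMap.id)) < Module.finrank k V := by
  have pp : p.Prime := Fact.out
  obtain ⟨⟨x, xP⟩, hx⟩ := (isCyclic_of_prime_card hP).exists_generator
  have e : P = Subgroup.zpowers x := le_antisymm (fun y hy => by
    obtain ⟨n, h⟩ := hx ⟨y, hy⟩
    exact ⟨n, congrArg Subtype.val h⟩) (Subgroup.zpowers_le.2 xP)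
  have r : (⨅ g : P, LinearMap.ker (ρ (g : G) - LinearMap.id)) = H28.rfix ρ P := by
    ext v
    simp [H28.mem_rfix, sub_eq_zero]
  rw [r, e]
  refine FV.half (FT.sol_top.2 inferInstance) pp (pp.five_le_of_ne_two_of_ne_three (by omega) (by omega))
    (by rw [← hP, e, Nat.card_zpowers, pow_orderOf_eq_one])
    (fun N _ h => eq_top_iff.2 (hgen ▸ Subgroup.normalClosure_le_normal (e.le.trans (Subgroup.zpowers_le.2 h))))
    (fun U hU => (eq_bot_or_eq_top (⟨U, fun g v h => hU g (Subgroup.mem_top g) v h⟩ : Subrepresentation ρ)).imp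
      (congrArg Subrepresentation.toSubmodule) (congrArg Subrepresentation.toSubmodule)) ⟨x, fun c => ?_⟩
  rw [e, hfaith (c.trans ρ.map_one.symm), Subgroup.zpowers_one_eq_bot, Subgroup.card_bot] at hP
  omega

end Cfsg.Agent.S3818
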