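import Cfsg.Statements.S3819
import Mathlib
import Cfsg.Agent.H1.Wt

set_option autoImplicit false
open Cfsg

namespace Cfsg.Agent.S3819

open Cfsg.Agent.FT Subgroup
open scoped commutatorElement

theorem core {G : Type*} [Group G] [Finite G] {q : ℕ} {H P Z : Subgroup G} (hn : P ≤ N(H)) (hc : Cop H P) (hP : Sol P)
    (hs : Sol ⁅H, P⁆) (hZ : PGrp q Z) (ZH : Z ≤ H) (ZP : Z ≤ C(P)) (h0 : O[{q}ᶜ](H) = ⊥) :
    O[{q}ᶜ](H ⊓ C(Z)) ⊓ O[{q}ᶜ](H ⊓ C(P)) ⊔ ⁅O[{q}ᶜ](H ⊓ C(Z)), P⁆ ≤ ⊥ := by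
  have nK : ⁅H, P⁆ ⊴ H := comm_nml_left hn
  have nQ := nK.pcore {q}
  have K0 : O[{q}ᶜ](⁅H, P⁆) = ⊥ := eq_bot_of_le (pcore_mono_nml _ nK) h0
  have cK := cent_sub_pcore hs K0
  have XH : O[{q}ᶜ](H ⊓ C(Z)) ≤ H := (pcore_le _ _).trans inf_le_left
  have PX : P ≤ N(O[{q}ᶜ](H ⊓ C(Z))) := norms_pcore _ (normsI hn (norms_of_le (centsC ZP)))
  have XQ := p_times_q hZ (pcore_pi {q} ⁅H, P⁆) (pcore_pi {q}ᶜ (H ⊓ C(Z))) (centsC ((pcore_le _ _).trans inf_le_right))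
    (ZH.trans nQ.nrm) (XH.trans nQ.nrm) ((pcore_max ((pcore_pi _ _).mono inf_le_left) ⟨inf_le_inf_right _ nQ.le,
      normsI (inf_le_left.trans nQ.nrm) (norms_of_le inf_le_right)⟩).trans (pcore_cents {q} _))
  refine sup_le ?_ ((le_inf ((le_inf (commSS XH le_rfl) ((comm_le_left PX).trans XQ)).trans cK) (comm_le_left PX)).trans
    (pcore_inf_compl _ _ _).le)
  set Y := O[{q}ᶜ](H ⊓ C(Z)) ⊓ O[{q}ᶜ](H ⊓ C(P))
  have YH : Y ≤ H := inf_le_left.trans XH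
  have YK := YH.trans nK.nrm
  have l : ⁅⁅H, P⁆, Y⁆ ≤ O[{q}](⁅H, P⁆) := (le_inf (comm_le_left YK) ((commSS le_rfl (inf_le_left.trans XQ)).trans
    (comm_le_right (norms_cent (pcore_nrm _ _))))).trans cK
  have c : Y ≤ C(⁅H, P⁆) := comm_eq_bot'.1 (by
    rw [← coprimeR_commGid YK (((pcore_pi _ _).mono l).cop ((pcore_pi _ _).mono inf_le_left))
      (.inl (hs.mono (comm_le_left YK)))]
    exact comm_eq_bot'.2 (centSS l inf_le_left XQ))
  have d := coprime_cent_prod_or hn hc (.inr hP)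
  have nC : H ⊓ C(P) ⊓ C(⁅H, P⁆) ⊴ H := ⟨inf_le_left.trans inf_le_left, d.sup.ge.trans (sup_le
    (cents_norm (centsC inf_le_right)) (norms_subcent (le_nrm _) (inf_le_left.trans nK.nrm)))⟩
  exact (le_inf inf_le_right (le_inf (inf_le_right.trans (pcore_le _ _)) c)).trans ((pcore_inf_le _ inf_le_left).trans
    ((pcore_mono_nml _ nC).trans h0.le))

/-- Let G be a finite group with Sylow p-subgroup P and H = O_{p'}(G), and suppose G = PH and the commutator subgroup [H, P] is solvable. Let q be a prime and z an element of q-power order of C_H(P). Then (O_{q'}(C_H(z)) ∩ O_{q'}(C_H(P))) · [O_{q'}(C_H(z)), P] ≤ O_{q'}(H). -/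
theorem result {G : Type*} [Group G] [Finite G] {p : ℕ} [Fact p.Prime]
    (P : Sylow p G) (hPH : Cfsg.pPrimeCore p G ⊔ (P : Subgroup G) = ⊤)
    (hsol : Group.IsSolvable ↥⁅Cfsg.pPrimeCore p G, (P : Subgroup G)⁆)
    {q : ℕ} [Fact q.Prime] (z : G) (hzH : z ∈ Cfsg.pPrimeCore p G) (hzP : z ∈ Subgroup.centralizer ((P : Subgroup G) : Set G))
    (hz : ∃ k : ℕ, orderOf z = q ^ k) :
    ((Cfsg.pPrimeCore q ↥(Cfsg.pPrimeCore p G ⊓ Subgroup.centralizer ({z} : Set G))).map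
        (Cfsg.pPrimeCore p G ⊓ Subgroup.centralizer ({z} : Set G)).subtype ⊓
      (Cfsg.pPrimeCore q ↥(Cfsg.pPrimeCore p G ⊓ Subgroup.centralizer ((P : Subgroup G) : Set G))).map
        (Cfsg.pPrimeCore p G ⊓ Subgroup.centralizer ((P : Subgroup G) : Set G)).subtype) ⊔
    ⁅(Cfsg.pPrimeCore q ↥(Cfsg.pPrimeCore p G ⊓ Subgroup.centralizer ({z} : Set G))).map
        (Cfsg.pPrimeCore p G ⊓ Subgroup.centralizer ({z} : Set G)).subtype, (P : Subgroup G)⁆ ≤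
    (Cfsg.pPrimeCore q ↥(Cfsg.pPrimeCore p G)).map (Cfsg.pPrimeCore p G).subtype := by
  have hq : q.Prime := Fact.out
  rw [← pcore_compl_singleton hq, ← pcore_compl_singleton hq, ← pcore_compl_singleton hq, ← cen_zpowers]
  have hH : PiGrp {p}ᶜ (pPrimeCore p G) := by
    rw [← piCore_compl_singleton Fact.out, ← pcore_top]
    exact pcore_pi _ _
  have hn : (P : Subgroup G) ≤ N(pPrimeCore p G) := by
    rw [← piCore_compl_singleton Fact.out, ← pcore_top]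
    exact le_top.trans (pcore_nrm _ _)
  have hP : PGrp p (P : Subgroup G) := (pGrp_iff Fact.out).2 P.isPGroup'
  have hZ : PGrp q ⟪z⟫ := (pGrp_iff hq).2 (IsPGroup.of_card (hz.choose_spec ▸ Nat.card_zpowers z))
  generalize pPrimeCore p G = H at *
  generalize (P : Subgroup G) = P at *
  have ZH := zpowers_le.2 hzH
  have nN := pcore_nml {q}ᶜ H
  have PN := norms_pcore {q}ᶜ hn
  have c := hH.cop' hP
  have XN : O[{q}ᶜ](H ⊓ C(⟪z⟫)) ≤ N(O[{q}ᶜ](H)) := (pcore_le _ _).trans (inf_le_left.trans nN.nrm)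
  have := core (quo_norms _ hn) (c.quo O[{q}ᶜ](H)) (hP.nil.sol.quo _) (quo_comm nN.nrm PN ▸ Sol.quo hsol _) (hZ.quo _)
    (quo_mono _ ZH) (quo_cents _ (zpowers_le.2 hzP)) (pcore_quo_pcore _ H)
  rw [← coprime_subcent_quotient_pgroup hZ (pcore_pi _ _) (ZH.trans nN.nrm) nN.le,
    ← coprime_quotient_cent_or nN.le PN (c.mono_left nN.le) (.inr hP.nil.sol),
    ← quo_pcore (pcore_pi _ _) (inf_le_left.trans nN.nrm), ← quo_pcore (pcore_pi _ _) (inf_le_left.trans nN.nrm),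
    ← quo_comm XN PN] at this
  exact sup_le ((quo_eq_bot (inf_le_left.trans XN)).1 (eq_bot_iff.2 ((quo_inf_le _ _ _).trans (le_sup_left.trans this))))
    ((quo_eq_bot (comm_le_of_le XN PN)).1 (eq_bot_iff.2 (le_sup_right.trans this)))

end Cfsg.Agent.S3819
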