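import Cfsg.Statements.S3821
import Mathlib
import Cfsg.Agent.H1.Coprime
import Cfsg.Agent.H2.Zipper

set_option autoImplicit false
open Cfsg

namespace Cfsg.Agent.S3821

open Subgroup
open scoped Pointwise

theorem pron_iff {G : Type*} [Group G] (A H : Subgroup G) (hHA : H ≤ A) :
    IsPronormal (H.subgroupOf A) ↔
      ∀ g ∈ A, ∃ x ∈ H ⊔ MulAut.conj g • H, MulAut.conj g • H = MulAut.conj x • H := by
  have hm : (H.subgroupOf A).map A.subtype = H := map_subgroupOf_eq_of_le hHA
  unfold IsPronormal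
  simp only [← H1.conj_smul_eq_map]
  constructor
  · intro h g hg
    obtain ⟨x, hx, hxe⟩ := h ⟨g, hg⟩
    refine ⟨x, ?_, ?_⟩
    · have := mem_map_of_mem A.subtype hx
      rwa [Subgroup.map_sup, H1.map_subtype_conj_smul, hm] at this
    · have := congrArg (map A.subtype) hxe
      rwa [H1.map_subtype_conj_smul, H1.map_subtype_conj_smul, hm] at this
  · intro h g
    obtain ⟨x, hx, hxe⟩ := h g g.2
    have hle : H ⊔ MulAut.conj (g : G) • H ≤ A :=
      sup_le hHA (H2.conj_smul_le_of_mem_normalizer hHA (le_normalizer g.2))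
    refine ⟨⟨x, hle hx⟩, ?_, ?_⟩
    · rw [← mem_map_iff_mem A.subtype_injective, Subgroup.map_sup, H1.map_subtype_conj_smul, hm]
      exact hx
    · apply map_injective A.subtype_injective
      rw [H1.map_subtype_conj_smul, H1.map_subtype_conj_smul, hm]
      exact hxe

/-- Let A be a normal subgroup of the finite group G and H a subgroup of A. Then H is pronormal in G (H and gHg⁻¹ conjugate inside ⟨H, gHg⁻¹⟩ for every g ∈ G) if and only if H is pronormal in A and G = A · N_G(H). -/
theorem result {G : Type*} [Group G] [Finite G] (A H : Subgroup G) [A.Normal] (hHA : H ≤ A) :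
    Cfsg.IsPronormal H ↔ (Cfsg.IsPronormal (H.subgroupOf A) ∧ A ⊔ Subgroup.normalizer (H : Set G) = ⊤) := by
  rw [pron_iff A H hHA]
  unfold IsPronormal
  simp only [← H1.conj_smul_eq_map]
  refine ⟨fun h => ⟨fun g _ => h g, eq_top_iff.2 fun g _ => ?_⟩, fun ⟨h1, h2⟩ g => ?_⟩
  · obtain ⟨x, hx, hxe⟩ := h g
    have hle : H ⊔ MulAut.conj g • H ≤ A :=
      sup_le hHA (H2.conj_smul_le_of_mem_normalizer hHA (by rw [normalizer_eq_top]; trivial))
    have hn : x⁻¹ * g ∈ normalizer (H : Set G) := by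
      rw [H1.mem_normalizer_iff_conj_smul_eq, ← H1.conj_smul_conj_smul, hxe,
        H2.conj_inv_smul_conj_smul]
    rw [← mul_inv_cancel_left x g]
    exact mul_mem_sup (hle hx) hn
  · have hg : g ∈ A ⊔ normalizer (H : Set G) := h2 ▸ mem_top g
    obtain ⟨a, ha, n, hn, rfl⟩ := (H1.mem_sup_iff_of_le_normalizer (N := A)
      (by rw [A.normalizer_eq_top]; exact le_top)).1 hg
    rw [← H1.conj_smul_conj_smul, H1.mem_normalizer_iff_conj_smul_eq.1 hn]
    exact h1 a ha

end Cfsg.Agent.S3821
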