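import Cfsg.Statements.S3822
import Mathlib
import Cfsg.Agent.FV.Cover

set_option autoImplicit false
open Cfsg

namespace Cfsg.Agent.S3822

open Cfsg.Agent.FT

/-- Let G be a finite group and P a subgroup of prime order p > 3. Consider the solvable subgroups A of G of the form A = ⟨P, aPa⁻¹⟩ for some a ∈ A, and let A be maximal under inclusion among them. Then for every nilpotent subgroup V of G normalized by A, the subgroup F(A)V generated by the Fitting subgroup of A and V is nilpotent. -/
theorem result {G : Type*} [Group G] [Finite G]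
    {p : ℕ} [Fact p.Prime] (hp : 3 < p) (P : Subgroup G) (hP : Nat.card P = p) (A : Subgroup G)
    (hA : Group.IsSolvable ↥A ∧ ∃ a ∈ A, A = P ⊔ P.map (MulAut.conj a).toMonoidHom)
    (hmax : ∀ B : Subgroup G, A ≤ B → Group.IsSolvable ↥B → (∃ b ∈ B, B = P ⊔ P.map (MulAut.conj b).toMonoidHom) → B = A)
    (V : Subgroup G) (hV : Group.IsNilpotent ↥V) (hAV : A ≤ Subgroup.normalizer (V : Set G)) :
    Group.IsNilpotent ↥((Cfsg.fittingSubgroup ↥A).map A.subtype ⊔ V) := by
  have pp : p.Prime := Fact.out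
  obtain ⟨x, rfl⟩ := cyc_iff.1 (cyc_of_prime (A := P) (hP ▸ pp))
  obtain ⟨hs, a, ha, e⟩ := hA
  have nV := nml_sup_right hAV
  refine (fitting_nil (A ⊔ V)).mono (sup_le (fitting_le_of_forall_pcore fun q _ => ?_) (fitting_max nV hV))
  have c := FV.maxcent pp (pp.five_le_of_ne_two_of_ne_three (by omega) (by omega))
    (by rw [← hP]; exact pow_card (Subgroup.mem_zpowers x)) hs ha e hmax (pcore_nml {q} A) (pcore_pi {q} A).nil
    (Nil.mono hV (pcore_le {q}ᶜ V)) (norms_pcore _ hAV) ((pcore_pi {q}ᶜ V).cop' (pcore_pi {q} A))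
  have d := Nil.dp_pcore hV {q}
  exact le_sup_left.trans (PiGrp.le_fitting (((pcore_pi {q} V).sup (pcore_pi {q} A)
    ((pcore_le _ A).trans (norms_pcore _ hAV))).mono (sup_comm _ _).le)
    ⟨sup_le_sup (pcore_le _ A) (pcore_le _ V), sup_le (normsY (pcore_nml _ A).nrm (norms_pcore _ hAV))
      (d.sup.ge.trans (sup_le (norms_of_le le_sup_right) (cents_norm (centsY (centsC c) d.cen))))⟩)

end Cfsg.Agent.S3822
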