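import Cfsg.Statements.S3825
import Mathlib
import Cfsg.Agent.FT.Elem

set_option autoImplicit false
open Cfsg

namespace Cfsg.Agent.S3825

open Subgroup Cfsg.Agent.FT
open scoped commutatorElement

/-- Let U be a subgroup of a finite group H and w an involution of H normalizing U and commuting with exactly two elements of U, the identity and y. If V is a non-cyclic elementary abelian 2-subgroup of U containing y which is normal in U and invariant under w, then V is a Sylow 2-subgroup of U, V has order 4, and U/V is abelian. -/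
theorem result {H : Type*} [Group H] [Finite H] (U : Subgroup H) (w : H) (hw : orderOf w = 2)
    (hwU : w ∈ Subgroup.normalizer (U : Set H)) (y : H) (hy : y ≠ 1) (hyU : y ∈ U)
    (hfix : ∀ u ∈ U, w * u * w⁻¹ = u ↔ (u = 1 ∨ u = y))
    (V : Subgroup H) (hVU : V ≤ U) (hVn : (V.subgroupOf U).Normal) (hVw : ∀ v ∈ V, w * v * w⁻¹ ∈ V)
    (hVe : Cfsg.IsElementaryAbelian 2 V) (hVc : ¬ IsCyclic ↥V) (hyV : y ∈ V) :
    ¬ 2 ∣ V.relIndex U ∧ Nat.card ↥V = 4 ∧ ⁅U, U⁆ ≤ V := by
  have hV : Abelem 2 V := hVe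
  have hw2 : w * w = 1 := by rw [← sq, ← hw, pow_orderOf_eq_one]
  have hwi : w⁻¹ = w := inv_eq_of_mul_eq_one_right hw2
  have hww : ∀ u, w * (w * u * w⁻¹) * w⁻¹ = u := fun u => by
    rw [hwi, ← mul_assoc, ← mul_assoc, hw2, one_mul, mul_assoc, hw2, mul_one]
  have hmul : ∀ a b, w * (a * b) * w⁻¹ = (w * a * w⁻¹) * (w * b * w⁻¹) := fun a b => by group
  have hsq : ∀ v ∈ V, v * v = 1 := fun v hv => by rw [← sq]; exact hV.pow hv
  have hn : ∀ v ∈ V, v * (w * v * w⁻¹) = 1 ∨ v * (w * v * w⁻¹) = y := fun v hv =>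
    (hfix _ (hVU (mul_mem hv (hVw v hv)))).1 (by rw [hmul, hww, hV.ab.comm hv (hVw v hv)])
  have hn1 : ∀ v ∈ V, v * (w * v * w⁻¹) = 1 → v = 1 ∨ v = y := fun v hv h =>
    (hfix v (hVU hv)).1 (mul_left_cancel (h.trans (hsq v hv).symm))
  obtain ⟨v, hv, hvy⟩ : ∃ v ∈ V, v ∉ ⟪y⟫ := by
    by_contra h
    push Not at h
    exact hVc ((cyc_zpowers y).mono h)
  have hv1 : v * (w * v * w⁻¹) = y := (hn v hv).resolve_left fun h => by
    rcases hn1 v hv h with rfl | rfl
    exacts [hvy (one_mem _), hvy (mem_zpowers _)]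
  have hfV : ∀ u ∈ U, w * u * w⁻¹ = u → u ∈ V := fun u hu h => by
    rcases (hfix u hu).1 h with rfl | rfl
    exacts [one_mem _, hyV]
  let c : U →* U := (normalizerMonoidHom U ⟨w, hwU⟩ : U ≃* U)
  let φ := QuotientGroup.map (V.subgroupOf U) (V.subgroupOf U) c fun x hx => hVw x hx
  have h1 : MonoidHom.FixedPointFree φ := by
    rintro ⟨u⟩ hu
    have h2 : (u : H)⁻¹ * (w * u * w⁻¹) ∈ V := (QuotientGroup.eq (a := u) (b := c u)).1 hu.symm
    refine (QuotientGroup.eq_one_iff u).2 ?_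
    change (u : H) ∈ V
    rcases hn1 _ h2 (by rw [hmul, hww]; group) with h | h
    · exact hfV u u.2 (by rw [inv_mul_eq_one] at h; exact h.symm)
    · refine (mul_mem_cancel_right hv).1 (hfV _ (mul_mem u.2 (hVU hv)) ?_)
      rw [inv_mul_eq_iff_eq_mul] at h
      rw [hmul, h, ← hv1, mul_assoc, mul_assoc v, hsq _ (hVw v hv), mul_one]
  have h2 : Function.Involutive φ := by
    rintro ⟨u⟩
    exact congrArg (QuotientGroup.mk (s := V.subgroupOf U)) (Subtype.ext (hww u))
  refine ⟨(h1.odd_card_of_involutive h2).not_two_dvd_nat, ?_, commutator_le.2 fun a ha b hb => ?_⟩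
  · have hy2 : orderOf y = 2 := hV.orderOf Nat.prime_two hyV hy
    have hv2 : orderOf v = 2 := hV.orderOf Nat.prime_two hv fun h => hvy (h ▸ one_mem _)
    have hdp : DP ⟪y⟫ ⟪v⟫ V := by
      refine ⟨hV.ab.cents (zpowers_le.2 hyV) (zpowers_le.2 hv),
        le_antisymm (sup_le (zpowers_le.2 hyV) (zpowers_le.2 hv)) fun x hx => ?_, ?_⟩
      · have hy' : ∀ x ∈ V, x * (w * x * w⁻¹) = 1 → x ∈ ⟪y⟫ ⊔ ⟪v⟫ := fun x hx h => by
          rcases hn1 x hx h with rfl | rfl
          exacts [one_mem _, mem_sup_left (mem_zpowers _)]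
        rcases hn x hx with h | h
        · exact hy' x hx h
        · refine (mul_mem_cancel_right (mem_sup_right (mem_zpowers v))).1 (hy' _ (mul_mem hx hv) ?_)
          rw [hmul, mul_assoc, ← mul_assoc v, hV.ab.comm hv (hVw x hx), mul_assoc, hv1, ← mul_assoc, h,
            hsq y hyV]
      · exact (inf_comm _ _).trans <| prime_inf_of_not_le (by rw [card_zpowers', hv2]; exact Nat.prime_two)
          fun h => hvy (h (mem_zpowers v))
    rw [hdp.card, card_zpowers', card_zpowers', hy2, hv2]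
  · have := h1.commute_all_of_involutive h2 (⟨a, ha⟩ : U) (⟨b, hb⟩ : U)
    rw [← commutatorElement_eq_one_iff_commute, ← QuotientGroup.mk'_apply, ← QuotientGroup.mk'_apply,
      ← map_commutatorElement, QuotientGroup.mk'_apply, QuotientGroup.eq_one_iff] at this
    exact this

end Cfsg.Agent.S3825
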