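import Cfsg.Statements.S3835
import Mathlib
import Cfsg.Agent.H5.QdFree
import Cfsg.Agent.H27.DerLen

set_option autoImplicit false
open Cfsg

namespace Cfsg.Agent.S3835

open Subgroup Equiv Cfsg.Agent.H18 Cfsg.Agent.H5b
open scoped commutatorElement

variable {p : ℕ} [hp : Fact p.Prime]

theorem not_inv {n : ℕ} (h : n < p ^ 2) : ¬ Involves (qd p) (Perm (Fin n)) := fun hI => by
  obtain ⟨T, hT, -⟩ := exists_sylIn_ge (p := p) (P := (⊥ : Subgroup (Perm (Fin n)))) (H := ⊤)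
    IsPGroup.of_bot bot_le
  obtain ⟨K, π, hπ⟩ := involves_iff.1
    (Involves.sylIn hT isPGroup_qdS (Involves.trans (involves_subgroup (qdS p)) hI))
  have h1 : derivedSeries T 1 = ⊥ := H27.dser_perm hp.out hT.isP (by rwa [Nat.card_fin])
  have h2 : ∀ a b : T, a * b = b * a := fun a b => by
    have : ⁅a, b⁆ ∈ derivedSeries T 1 := commutator_mem_commutator (mem_top a) (mem_top b)
    rw [h1, mem_bot, commutatorElement_eq_one_iff_mul_comm] at this
    exact this
  obtain ⟨a, ha⟩ := hπ ⟨qdMk 1 1 0 1 0 0 (by simp), 1, 0, 0, rfl⟩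
  obtain ⟨b, hb⟩ := hπ ⟨qdMk 1 0 0 1 0 1 (by simp), 0, 0, 1, rfl⟩
  have := congrArg (fun x => (π x : qd p)) (Subtype.ext (h2 a b) : a * b = b * a)
  simp [ha, hb, qdMk_mul, qdMk_inj] at this

/-- the affine action -/
@[reducible] def act (p : ℕ) : MulAction (qd p) (ZMod p × ZMod p) where
  smul M v := (M.1.1 0 0 * v.1 + M.1.1 0 1 * v.2 + M.1.1 0 2, M.1.1 1 0 * v.1 + M.1.1 1 1 * v.2 + M.1.1 1 2)
  one_smul v := by
    change (_ * v.1 + _ * v.2 + _, _ * v.1 + _ * v.2 + _) = v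
    simp
  mul_smul M N v := by
    obtain ⟨a, b, c, d, x, y, h, rfl⟩ := qd_cases M
    obtain ⟨a', b', c', d', x', y', h', rfl⟩ := qd_cases N
    rw [qdMk_mul]
    change ((a * a' + b * c') * v.1 + (a * b' + b * d') * v.2 + (a * x' + b * y' + x),
      (c * a' + d * c') * v.1 + (c * b' + d * d') * v.2 + (c * x' + d * y' + y)) =
      (a * (a' * v.1 + b' * v.2 + x') + b * (c' * v.1 + d' * v.2 + y') + x,
       c * (a' * v.1 + b' * v.2 + x') + d * (c' * v.1 + d' * v.2 + y') + y)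
    ext <;> simp only <;> ring

theorem act_inj : Function.Injective (@MulAction.toPermHom _ _ _ (act p)) := by
  refine (injective_iff_map_eq_one _).2 fun M h => ?_
  obtain ⟨a, b, c, d, x, y, hd, rfl⟩ := qd_cases M
  have k : ∀ u v : ZMod p, (a * u + b * v + x, c * u + d * v + y) = (u, v) := fun u v =>
    Equiv.congr_fun h (u, v)
  have h0 := k 0 0
  have h1 := k 1 0
  have h2 := k 0 1
  simp only [Prod.mk.injEq, mul_zero, add_zero, zero_add, mul_one] at h0 h1 h2
  rw [qd_one, qdMk_inj]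
  simp_all

theorem hom_triv (hp2 : p ≠ 2) (s : qd p →* ℤˣ) (M : qd p) : s M = 1 := by
  have h2 : (2 : ZMod p) ≠ 0 := fun h => hp2 ((Nat.prime_dvd_prime_iff_eq hp.out Nat.prime_two).1
    ((ZMod.natCast_eq_zero_iff 2 p).1 (by exact_mod_cast h)))
  have sq : ∀ M N : qd p, M = N * N → s M = 1 := by rintro _ N rfl; simp
  have hT : ∀ x y, s (qdMk 1 0 0 1 x y (by simp)) = 1 := fun x y =>
    sq _ (qdMk 1 0 0 1 (x / 2) (y / 2) (by simp)) (by
      rw [qdMk_mul, qdMk_inj]; refine ⟨?_, ?_, ?_, ?_, ?_, ?_⟩ <;> field_simp <;> ring)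
  have hU : ∀ x, s (qdMk 1 x 0 1 0 0 (by simp)) = 1 := fun x =>
    sq _ (qdMk 1 (x / 2) 0 1 0 0 (by simp)) (by
      rw [qdMk_mul, qdMk_inj]; refine ⟨?_, ?_, ?_, ?_, ?_, ?_⟩ <;> field_simp <;> ring)
  have hL : ∀ x, s (qdMk 1 0 x 1 0 0 (by simp)) = 1 := fun x =>
    sq _ (qdMk 1 0 (x / 2) 1 0 0 (by simp)) (by
      rw [qdMk_mul, qdMk_inj]; refine ⟨?_, ?_, ?_, ?_, ?_, ?_⟩ <;> field_simp <;> ring)
  have key : ∀ a b c d x y h, c ≠ 0 → s (qdMk a b c d x y h) = 1 := fun a b c d x y h hc => by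
    have : qdMk a b c d x y h = qdMk 1 0 0 1 x y (by simp) * qdMk 1 ((a - 1) / c) 0 1 0 0 (by simp) *
        qdMk 1 0 c 1 0 0 (by simp) * qdMk 1 ((d - 1) / c) 0 1 0 0 (by simp) := by
      rw [qdMk_mul, qdMk_mul, qdMk_mul, qdMk_inj]
      refine ⟨?_, ?_, ?_, ?_, ?_, ?_⟩ <;> field_simp
      · ring
      · linear_combination -h
      · ring
      · ring
      · ring
      · ring
    rw [this, map_mul, map_mul, map_mul, hT, hU, hL, hU]; rfl
  obtain ⟨a, b, c, d, x, y, h, rfl⟩ := qd_cases M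
  by_cases hc : c = 0
  · have := key _ _ _ _ _ _ _ (show 1 * a + 1 * c ≠ 0 by
      rintro e; rw [hc] at e h; simp at e; simp [e] at h) ▸ congrArg s
      (qdMk_mul (a := 1) (b := 0) (c := 1) (d := 1) (x := 0) (y := 0) (h := by simp) (h' := h) (x' := x) (y' := y))
    rwa [map_mul, hL, one_mul] at this
  · exact key _ _ _ _ _ _ _ hc

/-- Let p be an odd prime and n a natural number. The alternating group of degree n has a subgroup isomorphic to Qd(p) (the natural semidirect product of an elementary abelian group of order p² by SL₂(p)) if and only if n ≥ p²; and if n < p² then Qd(p) is not even involved in it. -/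
theorem result {p : ℕ} [Fact p.Prime] (hp : p ≠ 2) (n : ℕ) : ((∃ H : Subgroup (alternatingGroup (Fin n)), Nonempty (↥H ≃* ↥(Cfsg.qd p))) ↔ p ^ 2 ≤ n) ∧ (n < p ^ 2 → ¬ Cfsg.Involves ↥(Cfsg.qd p) ↥(alternatingGroup (Fin n))) := by
  have h2 : n < p ^ 2 → ¬ Cfsg.Involves ↥(Cfsg.qd p) ↥(alternatingGroup (Fin n)) := fun h hI =>
    not_inv h (Involves.trans hI (involves_subgroup _))
  refine ⟨⟨fun ⟨H, ⟨e⟩⟩ => ?_, fun h => ?_⟩, h2⟩
  · by_contra hn
    exact h2 (by omega) ((involves_congr_left e).1 (involves_subgroup H))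
  · obtain ⟨e⟩ : Nonempty (ZMod p × ZMod p ↪ Fin n) :=
      Function.Embedding.nonempty_of_card_le (by simpa [ZMod.card, pow_two] using h)
    let f := (Perm.viaEmbeddingHom e).comp (@MulAction.toPermHom _ _ _ (act p))
    let g : qd p →* alternatingGroup (Fin n) := f.codRestrict _ fun M =>
      Perm.mem_alternatingGroup.2 (hom_triv hp (Perm.sign.comp f) M)
    have hg : Function.Injective g := fun a b h =>
      act_inj (Perm.viaEmbeddingHom_injective e (congrArg Subtype.val h))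
    exact ⟨g.range, ⟨(MonoidHom.ofInjective hg).symm⟩⟩

end Cfsg.Agent.S3835
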