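import Cfsg.Statements.S3838
import Mathlib
import Cfsg.Agent.H4.Cyc2

set_option autoImplicit false
open Cfsg

namespace Cfsg.Agent.S3838

/-- Let G be a finite group with Sylow p-subgroup P such that N_G(P) has a normal p-complement. Then N_G(Q) has a normal p-complement for every subgroup Q with [P, P] ≤ Q ≤ Φ(P). -/
theorem result {G : Type*} [Group G] [Finite G] {p : ℕ} [Fact p.Prime] (P : Sylow p G) (hN : Cfsg.HasNormalPComplement p ↥(Subgroup.normalizer ((P : Subgroup G) : Set G))) (Q : Subgroup G) (h1 : (commutator ↥(P : Subgroup G)).map (P : Subgroup G).subtype ≤ Q) (h2 : Q ≤ (frattini ↥(P : Subgroup G)).map (P : Subgroup G).subtype) : Cfsg.HasNormalPComplement p ↥(Subgroup.normalizer (Q : Set G)) := by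
  open Subgroup Cfsg.Agent.H22 Cfsg.Agent.H4 in
  have hQ : Q ≤ P := h2.trans (map_subtype_le _)
  have h3 : ⁅(P : Subgroup G), (P : Subgroup G)⁆ ≤ Q := by
    rwa [commutator_def, map_commutator, map_subtype_top] at h1
  have hP : (P : Subgroup G) ≤ N[Q] := le_N_of_comm_le_le h3 hQ
  let f := QuotientGroup.mk' (Q.subgroupOf N[Q])
  let T : Sylow p (N[Q] ⧸ Q.subgroupOf N[Q]) := (P.subtype hP).mapSurjective (QuotientGroup.mk'_surjective _)
  have hT : (T : Subgroup (N[Q] ⧸ Q.subgroupOf N[Q])) = ((P : Subgroup G).subgroupOf N[Q]).map f := rfl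
  have hk : f.ker ≤ (P : Subgroup G).subgroupOf N[Q] := by
    rw [QuotientGroup.ker_mk']; exact comap_mono hQ
  have key : HasNormalPComplement p (N[Q] ⧸ Q.subgroupOf N[Q]) := by
    refine hasNPC_of_abelian_sylow T ?_ fun g hg ho => ?_
    · rw [isMulComm_iff, le_C_iff_comm, hT, ← map_commutator, Subgroup.map_eq_bot_iff, QuotientGroup.ker_mk']
      exact commutator_le.2 fun x hx y hy => h3 (commutator_mem_commutator hx hy)
    · have a1 : pResidualOf p N[(T : Subgroup (N[Q] ⧸ Q.subgroupOf N[Q]))] ≤ C[(T : Subgroup (N[Q] ⧸ Q.subgroupOf N[Q]))] := by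
        have a2 : N[(T : Subgroup (N[Q] ⧸ Q.subgroupOf N[Q]))] = (N[(P : Subgroup G)].subgroupOf N[Q]).map f := by
          refine le_antisymm (fun y hy => ?_) ?_
          · obtain ⟨x, rfl⟩ := QuotientGroup.mk'_surjective _ y
            refine mem_map_of_mem f ?_
            have := comap_N_le f _ hy
            rwa [hT, comap_map_eq_self hk, N_subgroupOf hP] at this
          · rw [hT, ← N_subgroupOf hP]; exact map_N_le _ _
        rw [a2, ← map_pResidualOf, hT]
        refine le_trans (map_mono (pResidualOf_le_iff.2 fun x hx hx' => ?_)) (map_C_le _ _)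
        rw [C_subgroupOf hP]
        exact mem_centralizer_of_hasNPC_normalizer P.isPGroup' hN hx (by rwa [← orderOf_coe] at hx')
      exact a1 (mem_pResidualOf hg ho)
  let K := ((pResidual p _).comap f).map N[Q].subtype
  have hK : HasNormalPComplement p K := by
    refine hasNPC_of_inf_le_frattini P.isPGroup' (hP.trans (le_N_map_subtype _)) ?_ (le_trans ?_ h2)
    · have := (syl_inf' ((H18.sylIn_top P).mono hP le_top) (le_N_map_subtype
        ((pResidual p _).comap f)) (map_subtype_le _)).not_dvd_relIndex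
      rwa [inf_relIndex_right] at this
    · rintro _ ⟨⟨x, hx, rfl⟩, hx'⟩
      have : f x = 1 := eq_one_of_pgrp_of_coprime T.isPGroup' (mem_map_of_mem f hx')
        ((hasNPC_mem_pResidual_iff key _).1 hx)
      exact mem_subgroupOf.1 ((QuotientGroup.eq_one_iff x).1 this)
  exact hasNPC_of_pResidual_le (map_le_iff_le_comap.1 (map_pResidual_le p f))
    ((hasNPC_map_subtype_iff _).1 hK)

end Cfsg.Agent.S3838
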