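import Cfsg.Statements.S3839
import Mathlib
import Cfsg.Agent.H4.Cyc2

set_option autoImplicit false
open Cfsg

namespace Cfsg.Agent.S3839

/-- A Frobenius normal p-complement criterion relative to a strongly closed subgroup. Let G be a finite group, S a Sylow p-subgroup and D a subgroup of S strongly closed in S with respect to G. Then G has a normal p-complement if and only if N_G(U) has a normal p-complement for every subgroup U of D with C_D(U) ≤ U. -/
theorem result {G : Type*} [Group G] [Finite G] {p : ℕ} [Fact p.Prime] (S : Sylow p G) (D : Subgroup G) (hD : Cfsg.IsStronglyClosed D (S : Subgroup G)) : Cfsg.HasNormalPComplement p G ↔ ∀ U : Subgroup G, U ≤ D → D ⊓ Subgroup.centralizer (U : Set G) ≤ U → Cfsg.HasNormalPComplement p ↥(Subgroup.normalizer (U : Set G)) := by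
  open Subgroup Cfsg.Agent.H22 Cfsg.Agent.H4 in
  refine ⟨fun h U _ _ => hasNPC_subgroup h _, fun h => ?_⟩
  have hS := S.isPGroup'
  have hN : ∀ T : Subgroup G, T ≤ S → N[T] ≤ N[T ⊓ D] := fun T hT g hg =>
    mem_N_of_cj_le (cj_le_iff'.2 fun x hx => ⟨conj_mem_of_N hg hx.1,
      hD.2 x hx.2 g (hT (conj_mem_of_N hg hx.1))⟩)
  have hSD : (S : Subgroup G) ≤ N[D] := by
    have := le_normalizer.trans (hN S le_rfl)
    rwa [inf_eq_right.2 hD.1] at this
  have h1 : HasNormalPComplement p N[(S : Subgroup G)] := by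
    have := hN S le_rfl
    rw [inf_eq_right.2 hD.1] at this
    exact hasNPC_of_le this (h D le_rfl inf_le_left)
  have h2 : ∀ T x, AGF p (S : Subgroup G) T x → x ∈ C[T] := by
    rintro T x ⟨a, b, c, -, X, d, e⟩
    have hTN : T ≤ N[D ⊓ C[T ⊓ D]] :=
      le_N_inf (a.trans hSD) (le_N_C (le_normalizer.trans (hN T a)))
    have h3 : D ⊓ C[T ⊓ D] ≤ T := by
      refine le_of_inf_N_le hS a (inf_le_left.trans hD.1) hTN (le_of_chain hS a c
        (fun i => match i with | 0 => ⊥ | 1 => D | _ + 2 => ⊤) rfl (n := 2) le_top ?_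
        (inf_le_inf_right _ (inf_le_left.trans hD.1)) ?_)
      · rintro (_ | _ | i)
        · rw [inf_bot_eq]; exact le_N_of_normal _ _
        · exact hN T a
        · simp
      · rintro (_ | _ | i)
        · exact (le_C_iff_comm'.1 (inf_le_left.trans inf_le_right)).le
        · exact (commutator_mono inf_le_left (inf_le_left.trans inf_le_left)).trans
            (comm_le_of_le_N' (a.trans hSD))
        · exact le_top
    have h4 := hasNPC_of_le (hN T a) (h _ inf_le_right (le_inf h3 inf_le_left))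
    exact pResidualOf_le_iff.2 (fun y hy hy' =>
      mem_centralizer_of_hasNPC_normalizer (hS.to_le a) h4 (d.2.1 hy) hy') e
  refine hasNPC_of_controls_fusion S fun x hx g hg => ?_
  obtain ⟨c, hc, k, y, hy, hk, e⟩ := ag_main S {x} g⁻¹ (Set.singleton_subset_iff.2 hx)
    (by rintro _ ⟨_, rfl, rfl⟩; rw [inv_inv]; exact hg)
  have h5 := mem_C1.1 (inv_mem (mul_mem hc (hk.cen h2)))
  have h6 : y ∈ C[(S : Subgroup G)] ⊔ S := by
    rw [← pResidualOf_sup_syl ((H18.sylIn_top S).mono le_normalizer le_top)] at hy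
    exact sup_le_sup_right (pResidualOf_le_iff.2 fun z hz hz' =>
      mem_centralizer_of_hasNPC_normalizer hS h1 hz hz') _ hy
  obtain ⟨a, ha, b, hb, rfl⟩ := (mem_sup_of_le_N (C_le_N _)).1 h6
  refine ⟨b⁻¹, inv_mem hb, ?_⟩
  rw [inv_eq_iff_eq_inv.1 e]
  calc b⁻¹ * x * b⁻¹⁻¹ = b⁻¹ * a⁻¹ * (a * x) * b := by group
    _ = b⁻¹ * a⁻¹ * ((c * k)⁻¹ * x * (c * k)⁻¹⁻¹ * a) * b := by rw [h5, mem_C.1 ha x hx]
    _ = _ := by group

end Cfsg.Agent.S3839
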