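import Cfsg.Statements.S3841
import Cfsg.Agent.H13.SM1
import Cfsg.Agent.H11.Parab

set_option autoImplicit false
open Cfsg

namespace Cfsg.Agent.S3841

section
universe u
open Subgroup Module Cfsg.Agent.H13 Cfsg.Agent.H13.SM Cfsg.Agent.FT Cfsg.Agent.BS
variable {G V : Type*} [Group G] [Finite G] [AddCommGroup V] [Module (ZMod 2) V] [Module.Finite (ZMod 2) V]
  {ρ : Representation (ZMod 2) G V}

theorem struct {G Ω : Type u} [Group G] [Finite G] [MulAction G Ω] (h : SE G Ω) (h2 : R1.Rank2 G) (S : Sylow 2 G) {k : ℕ} (hk : #S.1 = 2 ^ k) :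
    ∃ m c, PP (2 * k) m ∧ PL G c m ∧ (c = 2 ∨ c = 3 ∧ ∀ E ≤ S.1, (∀ z ∈ E, z ^ 2 = 1) → #E ^ 3 ≤ 2 ^ k) := by
  obtain ⟨a, b, hab⟩ := h.nt
  obtain ⟨G', Ω', _, _, _, ⟨M⟩⟩ := h.exists_mod h2 a
  have ho : PiGrp {2}ᶜ M.π.ker := by
    obtain ⟨g, rfl⟩ := h.trans a b
    exact h.odd hab (fun x hx => by simpa using M.eq_one_iff.1 hx 1) fun x hx => M.eq_one_iff.1 hx g
  obtain ⟨G'', Ω'', _, _, _, ⟨N⟩⟩ := M.S.exists_model (X := ⊥) bot_le (M.S.LX_le bot_le) le_sup_left (M.S.t_mem_LX ⊥)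
  let T : R3 G'' Ω'' := ⟨N.T, N.faith, N.rank2_iff.2 (M.S.rank2_of_le_W bot_le).2⟩
  haveI := T.simple_iff.2 (N.L0_eq_top rfl)
  have lift : ∀ {c m}, PL G'' c m → PL G c m := fun h => ((h.lift N.surj (by
    rw [(MonoidHom.ker_eq_bot_iff _).2 ((injective_iff_map_eq_one _).2 fun g hg => ?_)]
    · exact piGrp_bot _
    have := N.ker_iff.1 hg
    rw [cen_bot, inf_top_eq] at this
    exact Subtype.ext (eq_one_of_mem_inf M.S.D_inf_cent_Q this.1 this.2))).map (subtype_injective _)).lift M.surj ho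
  obtain ⟨P, hP⟩ := M.S.exists_sylow_eq
  obtain ⟨e, -⟩ := N.exists_equiv_Q
  let f : S.1 ≃* T.Q := ((MulEquiv.ofBijective (M.π.subgroupMap S.1) ⟨(injective_iff_map_eq_one _).2 fun x hx =>
    Subtype.ext (eq_one_of_mem_inf (ho.cop' ((pGrp_iff Nat.prime_two).2 S.2)).inf (congrArg Subtype.val hx) x.2),
    M.π.subgroupMap_surjective _⟩).trans ((S.mapSurjective M.surj).equiv P)).trans
    ((MulEquiv.subgroupCongr (by rw [hP, cen_bot, inf_top_eq])).trans e)
  have hQ : #T.Q = 2 ^ k := (Nat.card_congr f.toEquiv).symm.trans hk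
  obtain ⟨n, hn, hq⟩ := T.exists_q
  obtain ⟨m, h3, h4, h5⟩ := exists_pp (k := k) (Nat.pos_of_ne_zero fun c => by
    have := Subgroup.card_le_of_le T.Q0_le
    rw [hQ, c, show #T.Q0 = _ from hq] at this
    exact absurd (Nat.one_lt_two_pow (by omega : n ≠ 0)) (by omega))
  rcases T.known.2 with h6 | h6 | h6
  · obtain ⟨F, _, _, h7, ⟨e⟩⟩ := h6.iso
    rw [R1.q, ← h6.Q_eq, hQ] at h7
    have := charP_two_of_card (Nat.card_eq_fintype_card.trans h7)
    exact ⟨m, 2, h4, lift ((pl_l2 F (h7 ▸ h3) h4.odd).map (f := e.symm.toMonoidHom) e.symm.injective), .inl rfl⟩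
  · obtain ⟨F, _, _, l, h7, h8, ⟨e⟩⟩ := h6.iso
    let D := (szDataB h7 (Nat.card_eq_fintype_card.trans h8)).ofEquiv e
    obtain ⟨P, hP⟩ := T.exists_sylow_eq
    obtain ⟨x, hx⟩ := D.sylow_eq_UAt P
    have h9 : D.q ^ 2 = 2 ^ k := by rw [← D.card_UAt x, ← hx, hP, hQ]
    refine ⟨m, 2, h4, lift (pl_sz D (h9 ▸ h3) (h5 fun c => ?_)), .inl rfl⟩
    rw [SzData.q, ← pow_mul] at h9
    have := Nat.pow_right_injective le_rfl h9
    omega
  · obtain ⟨F, _, _, h7, ⟨e⟩⟩ := h6.iso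
    have h8 := h6.card
    rw [hQ] at h8
    obtain rfl : k = 3 * n := Nat.pow_right_injective le_rfl (by simp only [h8, hq, ← pow_mul, mul_comm])
    rw [hq] at h7 e
    refine ⟨m, 3, h4, lift ((pl_u3 F (by omega) h7 h3 (h5 (by omega)) h4.2).map (f := e.symm.toMonoidHom)
      e.symm.injective), .inr ⟨rfl, fun E hE h9 => h8 ▸ Nat.pow_le_pow_left (Nat.card_le_card_of_injective
        (fun z : E => (⟨f ⟨z, hE z.2⟩, T.mem_Q0.2 ⟨(f _).2, ?_⟩⟩ : T.Q0)) fun x y e => ?_) 3⟩⟩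
    · rw [← coe_mul, ← map_mul, show (⟨z, hE z.2⟩ : S.1) * ⟨z, hE z.2⟩ = 1 from Subtype.ext ((sq _).symm.trans (h9 z z.2)),
        map_one]; rfl
    · exact Subtype.ext (congrArg (fun z : S.1 => z.1) (f.injective (Subtype.ext (congrArg (fun z : T.Q0 => z.1) e))))

theorem two (f : End (ZMod 2) V) : f + f = 0 := by rw [← two_smul (ZMod 2), show (2 : ZMod 2) = 0 from rfl, zero_smul]

theorem jordan (hρ : Function.Injective ρ) {x : G} {j : ℕ} (h : orderOf x = 2 ^ (j + 1)) : 2 ^ j < finrank (ZMod 2) V := by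
  have h1 : ∀ i, (ρ x - 1) ^ 2 ^ i = ρ (x ^ 2 ^ i) - 1 := fun i => by
    induction i with
    | zero => simp
    | succ i ih =>
      rw [pow_succ, pow_mul, pow_mul, ih, sq, sq, map_mul, ← add_zero (_ * _ - 1), ← two (1 - ρ (x ^ 2 ^ i))]
      noncomm_ring
  have h2 := LinearMap.aeval_self_charpoly (ρ x - 1)
  rw [IsNilpotent.charpoly_eq_X_pow_finrank ⟨_, by rw [h1, ← h, pow_orderOf_eq_one, map_one, sub_self]⟩, map_pow,
    Polynomial.aeval_X] at h2
  by_contra! c
  have h3 := pow_eq_zero_of_le c h2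
  rw [h1, sub_eq_zero, ← map_one ρ] at h3
  exact pow_ne_one_of_lt_orderOf (by positivity) (h ▸ Nat.pow_lt_pow_right one_lt_two j.lt_succ_self) (hρ h3)

theorem free (hρ : Function.Injective ρ) {R S : Subgroup G} (hn : S ≤ N(R)) (ho : Odd #R) (h1 : R ≠ ⊥)
    (hS : IsPGroup 2 S) (h : ∀ s ∈ S, s ≠ 1 → R ⊓ C[s] = ⊥) : #S ≤ finrank (ZMod 2) V := by
  classical
  have := Fintype.ofFinite R
  have := Fintype.ofFinite S
  have := Module.finite_of_finite (ZMod 2) (M := V)
  have h2 : ∑ s : S, ρ s ≠ 0 := fun e => h1 (eq_bot_iff.2 fun y hy => hρ (by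
    have h3 : ∀ s : S, ∑ x : R, ρ (x * s * x⁻¹) = (∑ x : R, ρ x) * ρ s + if s = 1 then 1 - ∑ x : R, ρ x else 0 := fun s => by
      split_ifs with c
      · obtain ⟨k, hk⟩ := ho
        simp [c, ← Nat.card_eq_fintype_card, hk, two_mul, two, add_smul]
      rw [add_zero, Finset.sum_mul]
      refine Fintype.sum_bijective (fun x : R => (⟨x * (s * x⁻¹ * s⁻¹), mul_mem x.2 (conj_mem (hn s.2) (inv_mem x.2))⟩ : R))
        (Finite.injective_iff_bijective.1 fun x y e => Subtype.ext (eq_of_inv_mul_eq_one (eq_one_of_mem_inf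
          (h s s.2 fun e => c (Subtype.ext e)) (mul_mem (inv_mem x.2) y.2) (mem_cen1.2 ?_)))) _ _ fun x => by
            rw [← map_mul]; congr 1; simp [mul_assoc]
      have e' : (x : G) * (s * x.1⁻¹ * s.1⁻¹) = y * (s * y.1⁻¹ * s.1⁻¹) := congrArg Subtype.val e
      calc _ = (x : G)⁻¹ * (y * (s * y.1⁻¹ * s.1⁻¹)) * s * y := by group
        _ = _ := by rw [← e']; group
    have h4 := Finset.sum_congr rfl fun s (_ : s ∈ Finset.univ) => h3 s
    rw [Finset.sum_comm, Finset.sum_add_distrib, ← Finset.mul_sum, e] at h4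
    simp only [map_mul, ← Finset.sum_mul, ← Finset.mul_sum, e] at h4
    have h5 : ∑ x : R, ρ x = 1 := (sub_eq_zero.1 (by simpa using h4.symm)).symm
    rw [map_one, ← mul_one (ρ y), ← h5, Finset.mul_sum]
    exact Fintype.sum_equiv (Equiv.mulLeft (⟨y, hy⟩ : R)) _ _ fun x => by simp))
  obtain ⟨v, hv⟩ := DFunLike.ne_iff.1 h2
  let L := Fintype.linearCombination (ZMod 2) fun s : S => ρ s v
  refine le_of_eq_of_le (by simp) (LinearMap.finrank_le_finrank_of_injective (f := L) (LinearMap.ker_eq_bot.1 ?_))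
  by_contra c
  letI : MulAction S (LinearMap.ker L) :=
    { smul := fun g a => ⟨fun s => a.1 (g⁻¹ * s), by
        have := congrArg (ρ g) (LinearMap.mem_ker.1 a.2)
        simp only [L, Fintype.linearCombination_apply, map_sum, map_smul, map_zero, LinearMap.mem_ker] at this ⊢
        rw [← this]
        exact (Fintype.sum_equiv (Equiv.mulLeft g) _ _ fun x => by simp).symm⟩
      one_smul := fun a => Subtype.ext (funext fun s => congrArg a.1 (by simp))
      mul_smul := fun g g' a => Subtype.ext (funext fun s => congrArg a.1 (by simp [mul_assoc])) }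
  obtain ⟨b, h3, h4⟩ := hS.exists_fixed_point_of_prime_dvd_card_of_fixed_point (LinearMap.ker L) (a := 0) (by
    rw [Module.natCard_eq_pow_finrank (K := ZMod 2), Nat.card_zmod]
    exact dvd_pow_self 2 fun e => c (Submodule.finrank_eq_zero.1 e)) fun g => rfl
  have h5 : ∀ s, b.1 s = b.1 1 := fun s => (congrFun (congrArg Subtype.val (h3 s)) s).symm.trans
    (congrArg b.1 (inv_mul_cancel s))
  have h6 := LinearMap.mem_ker.1 b.2
  simp only [L, Fintype.linearCombination_apply, h5 _, ← Finset.smul_sum] at h6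
  exact (smul_eq_zero.1 h6).elim (fun e => h4 (Subtype.ext (funext fun s => ((h5 s).trans e).symm)))
    fun e => hv (by simpa using e)

set_option synthInstance.maxSize 1000 in
theorem num : ∀ k < 6, ∀ d < 2 * k, ∀ r < 512, 2 < r → r ^ 2 ∣ ∏ i : Fin d, (2 ^ d - 2 ^ (i : ℕ)) → ∀ a < 81,
    r ^ (a + 2) ∣ ∏ i : Fin d, (2 ^ d - 2 ^ (i : ℕ)) → ¬ 2 ^ k ∣ r ^ (a + 1) - 1 := by
  decide +kernel

theorem rank_one {Ω : Type*} [MulAction G Ω] (hρ : Function.Injective ρ) (h : SE G Ω) (h2 : ¬ R1.Rank2 G) (S : Sylow 2 G)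
    {k : ℕ} (hk : #S.1 = 2 ^ k) : 2 * k ≤ finrank (ZMod 2) V := by
  by_contra! c
  have hS := (pGrp_iff Nat.prime_two).2 S.2
  obtain ⟨z, ⟨h1, h3⟩, hz⟩ := exists_elt_of_prime_dvd (H := Z(S.1)) Nat.prime_two ((hS.mono inf_le_left).dvd
    (hS.nil.center_ne_bot fun e => by rw [e, card_bot, eq_comm, Nat.pow_eq_one] at hk; omega))
  have z2 := T4.mul_self_of_ord hz
  have h4 : ∀ s ∈ S.1, s ≠ 1 → C[s] ≤ C[z] := fun s hs e => by
    obtain ⟨n, hn⟩ := S.2 ⟨s, hs⟩
    obtain ⟨j, -, hj⟩ := (Nat.dvd_prime_pow Nat.prime_two).1 (orderOf_dvd_of_pow_eq_one (congrArg Subtype.val hn : s ^ _ = 1))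
    have h5 := orderOf_pow_orderOf_div (orderOf_pos s).ne' (hj ▸ dvd_pow_self 2 fun e' => e (by simpa [e'] using hj))
    rw [← by_contra fun e' => h2 ⟨_, z, T4.ne_one_of_ord h5, T4.ne_one_of_ord hz, e', T4.mul_self_of_ord h5, z2,
      h3 _ (pow_mem hs _)⟩]
    exact fun y hy => mem_cen1.2 (Commute.pow_right (mem_cen1.1 hy) _)
  obtain ⟨r, hr, R, h5, h6, h7⟩ : ∃ r, r.Prime ∧ ∃ R, Syl r R (oddCore G) ∧ S.1 ≤ N(R) ∧ ¬ R ≤ C[z] := by
    by_contra! e
    have h5 : oddCore G ≤ C[z] := le_of_forall_syl fun p hp _ => by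
      obtain ⟨R, h5, h6⟩ := x2_coprime_syl_exists p (le_top.trans (nml_top_iff.2 normal_oddCore).nrm)
        (pi_oddCore.cop' hS).symm (.inl hS.nil.sol)
      exact ⟨R, h5, e p hp R h5 h6⟩
    obtain ⟨a, ha⟩ := h.exists_fix hz
    obtain ⟨b, hb⟩ := h.exists_ne a
    obtain ⟨g, rfl⟩ := h.trans a b
    obtain ⟨o, h6, y, h7, rfl⟩ := exists_oddCore_mul h2 hz g
    exact hb (h.cen_le hz ha (mul_mem (h5 h6) h7))
  have ho : Odd #R := T4.odd_grp.2 (pi_oddCore.mono h5.le)
  by_cases h8 : R ⊓ C[z] = ⊥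
  · exact absurd (hk ▸ free hρ h6 ho (fun e => h7 (e ▸ bot_le)) S.2 fun s hs e => inf_eq_bot_mono h8 le_rfl (h4 s hs e))
      (by have := Nat.mul_le_pow (a := 2) (by omega) k; omega)
  have := Fact.mk hr
  have h9 := card_eq_cent_mul_inverted z2 ho fun x hx => conj_mem (h6 h1) hx
  obtain ⟨n, hn⟩ := h5.pi.isPGroup.exists_card_eq
  obtain ⟨a, -, ha⟩ := (Nat.dvd_prime_pow hr).1 (hn ▸ Dvd.intro_left _ h9.symm)
  obtain _ | a := a
  · rw [ha, pow_zero, mul_one] at h9
    exact h7 (inf_eq_left.1 (eq_of_card_eq inf_le_left h9.symm))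
  have := Module.finite_of_finite (ZMod 2) (M := V)
  have h10 : r ^ (a + 2) ∣ ∏ i : Fin (finrank (ZMod 2) V), (2 ^ finrank (ZMod 2) V - 2 ^ (i : ℕ)) := by
    have := H11.card_linearEquiv (F := ZMod 2) (V := V) rfl
    rw [Nat.card_zmod] at this
    rw [← this, pow_succ', ← ha]
    refine ((Nat.mul_dvd_mul_right ((h5.pi.mono inf_le_left).dvd h8) _).trans (h9 ▸ R.card_subgroup_dvd_card)).trans
      (card_dvd_of_injective ((LinearMap.GeneralLinearGroup.generalLinearEquiv _ _).toMonoidHom.comp ρ.asGroupHom) ?_)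
    exact fun x y e => hρ (by rw [← ρ.asGroupHom_apply, (LinearMap.GeneralLinearGroup.generalLinearEquiv _ _).injective e,
      ρ.asGroupHom_apply])
  have h11 : k < 6 := by_contra fun e => by
    obtain ⟨j, rfl⟩ : ∃ j, k = j + 2 := ⟨k - 2, by omega⟩
    have : ∃ x : S.1, orderOf x = 2 ^ (j + 1) := by
      rcases sylow_cyclic_or_quaternion h2 S with h | ⟨m, -, ⟨f⟩⟩
      · obtain ⟨x, hx⟩ := h.exists_ofOrder_eq_natCard
        exact ⟨x ^ 2, by rw [orderOf_pow_of_dvd two_ne_zero (by simp [hx, hk, pow_succ]), hx, hk, pow_succ]; simp⟩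
      · refine ⟨f.symm (.a 1), ?_⟩
        rw [f.symm.orderOf_eq, QuaternionGroup.orderOf_a_one]
        rw [Nat.card_congr f.toEquiv, Nat.card_eq_fintype_card, QuaternionGroup.card, pow_succ] at hk
        omega
    obtain ⟨x, hx⟩ := this
    have := jordan hρ ((orderOf_coe x).trans hx)
    obtain ⟨j, rfl⟩ : ∃ i, j = i + 4 := ⟨j - 4, by omega⟩
    have := j.lt_two_pow_self
    rw [pow_add] at *
    omega
  have h12 : ∀ i : Fin (finrank (ZMod 2) V), 0 < 2 ^ finrank (ZMod 2) V - 2 ^ (i : ℕ) ∧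
      2 ^ finrank (ZMod 2) V - 2 ^ (i : ℕ) < 2 ^ 9 := fun i =>
    ⟨Nat.sub_pos_of_lt (Nat.pow_lt_pow_right one_lt_two i.2), (Nat.sub_lt (by positivity) (by positivity)).trans_le
      (Nat.pow_le_pow_right two_pos (by omega))⟩
  have h13 : 2 < r := hr.two_le.lt_of_ne fun e => ho.not_two_dvd_nat (e ▸ h5.pi.dvd fun e => h7 (e ▸ bot_le))
  refine num k h11 _ c r ?_ h13 ((pow_dvd_pow _ (by omega)).trans h10) a ?_ h10 ?_
  · obtain ⟨i, -, hi⟩ := (Prime.dvd_finsetProd_iff hr.prime _).1 ((dvd_pow_self r (by omega)).trans h10)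
    exact (Nat.le_of_dvd (h12 i).1 hi).trans_lt (h12 i).2
  · have := ((Nat.pow_le_pow_left hr.two_le _).trans (Nat.le_of_dvd (Finset.prod_pos fun i _ => (h12 i).1) h10)).trans
      (Finset.prod_le_pow_card _ _ _ fun i _ => (h12 i).2.le)
    rw [← pow_mul, Nat.pow_le_pow_iff_right one_lt_two, Finset.card_fin] at this
    omega
  letI : MulAction S.1 ↥(invertedBy R z \ {1}) :=
    { smul := fun g x => ⟨g * x * g.1⁻¹, ⟨conj_mem (h6 g.2) x.2.1.1, by
        rw [conj_inv, ← x.2.1.2]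
        calc _ = (z * g) * x * (z * g)⁻¹ := by group
          _ = _ := by rw [← h3 g g.2]; group⟩, by simpa using x.2.2⟩
      one_smul := fun x => Subtype.ext (by change (1 : G) * x * 1⁻¹ = x; simp)
      mul_smul := fun g g' x => Subtype.ext (by change g.1 * g' * x * (g.1 * g')⁻¹ = g * (g' * x * g'.1⁻¹) * g.1⁻¹; group) }
  have h14 := card_dvd_of_free (Ω := ↥(invertedBy R z \ {1})) (⊤ : Subgroup S.1) fun g _ e x e' => x.2.2 (by
    have h14 := mem_cen1.1 (h4 g g.2 (fun e' => e (Subtype.ext e'))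
      (mem_cen1.2 (mul_inv_eq_iff_eq_mul.1 (congrArg Subtype.val e')).symm))
    have h15 := x.2.1.2
    rw [← h14, mul_inv_cancel_right] at h15
    exact eq_one_of_odd_of_sq (Odd.of_dvd_nat ho (orderOf_dvd_card' x.2.1.1)) (mul_eq_one_iff_eq_inv.2 h15))
  rwa [card_top, hk, Nat.card_coe_set_eq, Set.ncard_sdiff_singleton_of_mem one_mem_invertedBy, ← Nat.card_coe_set_eq,
    ha] at h14

end

/-- Let G be a finite group with a strongly embedded subgroup (a proper subgroup of even order meeting each of its conjugates by outside elements in a group of odd order), S a Sylow 2-subgroup of G, and V a finite-dimensional vector space over the field with two elements on which G acts linearly and faithfully through ρ. If S has order 2ᵏ then dim V ≥ 2k; and if Z(S) is elementary abelian of order 2ⁿ then for every nonidentity s ∈ S the image of ρ(s) − 1 has dimension at least n. -/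
theorem result {G : Type*} [Group G] [Finite G] (H : Subgroup G) (hH : Cfsg.IsStronglyEmbedded H) (S : Sylow 2 G) {V : Type*} [AddCommGroup V] [Module (ZMod 2) V] [Module.Finite (ZMod 2) V] (ρ : Representation (ZMod 2) G V) (hρ : Function.Injective ρ) : (∀ k : ℕ, Nat.card ↥(S : Subgroup G) = 2 ^ k → 2 * k ≤ Module.finrank (ZMod 2) V) ∧ ∀ n : ℕ, (∀ z ∈ (S : Subgroup G) ⊓ Subgroup.centralizer ((S : Subgroup G) : Set G), z ^ 2 = 1) → Nat.card ↥((S : Subgroup G) ⊓ Subgroup.centralizer ((S : Subgroup G) : Set G)) = 2 ^ n → ∀ s ∈ (S : Subgroup G), s ≠ 1 → n ≤ Module.finrank (ZMod 2) ↥(LinearMap.range (ρ s - 1)) := by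
  have h := BS.SE.of_se hH
  have := Module.finite_of_finite (ZMod 2) (M := V)
  let φ : G →* MulAut (Multiplicative V) := MonoidHom.mk' (fun g => AddEquiv.toMultiplicative
    ((LinearMap.GeneralLinearGroup.generalLinearEquiv _ _ (ρ.asGroupHom g)).toAddEquiv)) fun a b => by ext; simp
  have h1 : ∀ g v, φ g v = Multiplicative.ofAdd (ρ g v.toAdd) := fun g v => by simp [φ, Representation.asGroupHom_apply]
  have hφ : Function.Injective φ := fun a b e => hρ (LinearMap.ext fun v => by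
    simpa [h1] using DFunLike.congr_fun e (Multiplicative.ofAdd v))
  have hV : Nat.card (Multiplicative V) = 2 ^ Module.finrank (ZMod 2) V :=
    (Module.natCard_eq_pow_finrank (K := ZMod 2) (V := V)).trans (by simp)
  have h3 : ∀ s, (H13.SM.fx φ s).index = 2 ^ Module.finrank (ZMod 2) (LinearMap.range (ρ s - 1)) := fun s => by
    have : H13.SM.fx φ s = (AddMonoidHom.toMultiplicative (ρ s - 1).toAddMonoidHom).ker := by
      ext v; simp [H13.SM.mem_fx, h1, sub_eq_zero, Multiplicative.ext_iff]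
    rw [this, Subgroup.index_ker]
    exact Eq.trans rfl ((Module.natCard_eq_pow_finrank (K := ZMod 2) (V := LinearMap.range (ρ s - 1))).trans (by simp))
  by_cases h2 : H13.R1.Rank2 G
  · obtain ⟨k, hk⟩ := S.2.exists_card_eq
    obtain ⟨m, c, h4, h5, h6⟩ := struct h h2 S hk
    refine ⟨fun j hj => ?_, fun n h7 h8 s hs h9 => ?_⟩
    · rw [Nat.pow_right_injective le_rfl (hj.symm.trans hk), ← Nat.pow_le_pow_iff_right one_lt_two, ← hV]
      exact h5.card hφ (.of_card hV) h4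
    obtain ⟨j, hj⟩ := S.2 ⟨s, hs⟩
    have := h5.bound' hφ (.of_card hV) h4 hH h9 (congrArg Subtype.val hj)
    rw [h3, ← pow_mul, Nat.pow_le_pow_iff_right one_lt_two] at this
    rcases h6 with rfl | ⟨rfl, h6⟩
    · have := Subgroup.card_le_of_le (inf_le_left (a := S.1) (b := Subgroup.centralizer S.1))
      rw [h8, hk, Nat.pow_le_pow_iff_right one_lt_two] at this
      omega
    · have := h6 _ inf_le_left h7
      rw [h8, ← pow_mul, Nat.pow_le_pow_iff_right one_lt_two] at this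
      omega
  refine ⟨fun k => rank_one hρ h h2 S, fun n h7 h8 s hs h9 => by_contra fun c => h2 ?_⟩
  have h4 : Module.finrank (ZMod 2) (LinearMap.range (ρ s - 1)) ≠ 0 := fun e =>
    H13.SM.fx_ne hφ h9 (Subgroup.index_eq_one.1 (by rw [h3, e, pow_zero]))
  have := Fintype.ofFinite ↥(S.1 ⊓ Subgroup.centralizer S.1)
  obtain ⟨x, y, z, h5, h6, h10⟩ := Fintype.two_lt_card_iff.1 ((Nat.pow_lt_pow_right one_lt_two (by omega : 1 < n)).trans_eq
    (h8.symm.trans Nat.card_eq_fintype_card))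
  have key : ∀ x y : ↥(S.1 ⊓ Subgroup.centralizer S.1), x ≠ 1 → y ≠ 1 → x ≠ y → H13.R1.Rank2 G := fun x y a b c =>
    ⟨x, y, by simpa using a, by simpa using b, by simpa using c, (sq _).symm.trans (h7 _ x.2),
      (sq _).symm.trans (h7 _ y.2), y.2.2 x x.2.1⟩
  by_cases e : x = 1
  · exact key y z (e ▸ h5.symm) (e ▸ h6.symm) h10
  by_cases e' : y = 1
  · exact key x z e (e' ▸ h10.symm) h6
  · exact key x y e e' h5

end Cfsg.Agent.S3841
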