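import Cfsg.Statements.S3857
import Mathlib
import Cfsg.Agent.H27.Frob2

set_option autoImplicit false
open Cfsg

namespace Cfsg.Agent.S3857

open Subgroup Cfsg.Agent.FT Cfsg.Agent.H27
open scoped commutatorElement

theorem aux {G : Type*} [Group G] [Finite G] (hsol : Group.IsSolvable G) {π : Set ℕ}
    (hd : Disc π G) (h1 : O[π]((⊤ : Subgroup G)) ≠ ⊥) (h2 : ¬ PiGrp π (⊤ : Subgroup G)) :
    (∃ C : Subgroup G, Cfsg.IsFrobeniusComplement C) ∨
    (∃ (H K : Subgroup G) (_ : H.Normal), K.Normal ∧ H < K ∧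
      (∃ C : Subgroup ↥K, Cfsg.IsFrobeniusComplement C ∧ Cfsg.frobeniusKernel C = (H.subgroupOf K : Set ↥K)) ∧
      (∃ C : Subgroup (G ⧸ H), Cfsg.IsFrobeniusComplement C ∧ Cfsg.frobeniusKernel C = (K.map (QuotientGroup.mk' H) : Set (G ⧸ H)))) := by
  obtain ⟨H, hH⟩ : ∃ H, H = O[π]((⊤ : Subgroup G)) := ⟨_, rfl⟩
  have hHπ : PiGrp π H := hH ▸ pcore_pi _ _
  haveI hn : H.Normal := nml_top_iff.1 (hH ▸ pcore_nml _ _)
  rw [← hH] at h1
  set f := QuotientGroup.mk' H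
  have hf : Function.Surjective f := QuotientGroup.mk'_surjective H
  have hk : f.ker = H := QuotientGroup.ker_mk' H
  have hle : ∀ X : Subgroup (G ⧸ H), H ≤ X.comap f := fun X => hk.ge.trans (ker_le_comap f X)
  have hidx : ∀ X : Subgroup (G ⧸ H), H.relIndex (X.comap f) = #X := fun X => by
    have := card_map_eq f (X.comap f)
    rw [map_comap_eq_self_of_surjective hf, hk] at this
    exact this.symm
  have hQ : Sol (⊤ : Subgroup (G ⧸ H)) := FT.sol_top.2 inferInstance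
  have hO : O[π]((⊤ : Subgroup (G ⧸ H))) = ⊥ := by
    have : O[π]((⊤ : Subgroup (G ⧸ H))).comap f ≤ H := (pcore_max
      (piGrp_of_relIndex' hHπ (by rw [hidx]; exact pcore_pi _ _))
      (by simpa using (pcore_nml π (⊤ : Subgroup (G ⧸ H))).comap f)).trans hH.ge
    rw [eq_bot_iff_card', ← hidx]
    exact relIndex_eq_one.2 this
  have hT : (⊤ : Subgroup (G ⧸ H)) ≠ ⊥ := fun e => h2 (by
    have := hidx ⊤
    rw [e, card_bot', ← e, comap_top] at this
    exact hHπ.mono (relIndex_eq_one.1 this))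
  set U := O[πᶜ]((⊤ : Subgroup (G ⧸ H)))
  have hU1 : U ≠ ⊥ := hQ.pcore_ne_bot hT (by rwa [compl_compl])
  have hUn : U ⊴ ⊤ := pcore_nml _ _
  have hKn : U.comap f ⊴ ⊤ := by simpa using hUn.comap f
  have hHK : H ≠ U.comap f := fun e => hU1 (by
    rw [eq_bot_iff_card', ← hidx, ← e, relIndex_self])
  obtain ⟨B, hB⟩ := hd.exists_frob (K := H) (M := U.comap f)
    ⟨hle U, hHπ, by rw [hidx]; exact pcore_pi _ _⟩ (le_top.trans (nml_top H).nrm) h1 hHK
  by_cases hUT : U = ⊤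
  · rw [hUT, comap_top] at hB
    exact Or.inl ⟨B, (compl_of_frob_top hB).1⟩
  refine Or.inr ⟨H, U.comap f, hn, nml_top_iff.1 hKn, lt_of_le_of_ne (hle U) hHK,
    exists_compl_of_frob hB, ?_⟩
  rw [map_comap_eq_self_of_surjective hf]
  have hd' := (hd.of_surj f hf).compl
  have hq : O[πᶜ](⊤ /ₛ U) = ⊥ := pcore_quo_pcore _ _
  have hW : qpre(U, O[π](⊤ /ₛ U)) ⊴ ⊤ := qpre_pcore_nml hUn π
  obtain ⟨V, hV⟩ := hd'.exists_frob (K := U) (M := qpre(U, O[π](⊤ /ₛ U)))
    ⟨le_qpre _, pcore_pi _ _, by rw [relIndex_qpre_self, compl_compl]; exact pcore_pi _ _⟩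
    (qpre_le _) hU1 (lt_qpre ((hQ.quo U).pcore_ne_bot
      (quo_ne_bot hUn.nrm fun h => hUT (top_le_iff.1 h)) hq)).ne
  have e := SDmapEquiv f (B := B) (M := U.comap f) (by rw [hk]; exact hB.sd)
  rw [map_comap_eq_self_of_surjective hf] at e
  have hc := (two_frob_cyc hB hV e).2
  have hF : F((⊤ : Subgroup (G ⧸ H))) ≤ U := fitting_le_pcore (by rwa [compl_compl])
  have hab : Ab (⊤ /ₛ U) := ab_quo_of_der_le (le_trans (le_inf le_top
    ((hc.der_cents hUn.nrm).trans (cen_anti hF))) ((cent_sub_Fitting hQ).trans hF))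
  obtain ⟨C, hC⟩ := hd'.exists_frob (hall_of_quo_pi' hUn (pcore_pi _ _)
    ((hab.nil.pcore_hall πᶜ).eq_bot_iff.1 hq)) hUn.nrm hU1 hUT
  exact ⟨C, compl_of_frob_top hC⟩

/-- A finite solvable group whose prime graph (prime divisors of the order, two distinct primes joined when there is an element of order their product) is disconnected is a Frobenius group or a 2-Frobenius group (it has normal subgroups H < K with K a Frobenius group with kernel H and G/H a Frobenius group with kernel K/H). -/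
theorem result {G : Type*} [Group G] [Finite G] (hsol : Group.IsSolvable G)
    (hdisc : (∃ A : Set ℕ, (∃ a ∈ A, a.Prime ∧ a ∣ Nat.card G) ∧ (∃ b ∉ A, b.Prime ∧ b ∣ Nat.card G) ∧
      ∀ a ∈ A, ∀ b ∉ A, a.Prime → b.Prime → a ∣ Nat.card G → b ∣ Nat.card G → ¬ ∃ g : G, orderOf g = a * b)) :
    (∃ C : Subgroup G, Cfsg.IsFrobeniusComplement C) ∨
    (∃ (H K : Subgroup G) (_ : H.Normal), K.Normal ∧ H < K ∧
      (∃ C : Subgroup ↥K, Cfsg.IsFrobeniusComplement C ∧ Cfsg.frobeniusKernel C = (H.subgroupOf K : Set ↥K)) ∧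
      (∃ C : Subgroup (G ⧸ H), Cfsg.IsFrobeniusComplement C ∧ Cfsg.frobeniusKernel C = (K.map (QuotientGroup.mk' H) : Set (G ⧸ H)))) := by
  obtain ⟨A, ⟨a, ha, hap, had⟩, ⟨b, hb, hbp, hbd⟩, h⟩ := hdisc
  have hd : Disc A G := disc_of_forall fun p hp q hq hpp hqp g e =>
    h p hp q hq hpp hqp ((dvd_mul_right p q).trans (e ▸ orderOf_dvd_natCard g))
      ((dvd_mul_left q p).trans (e ▸ orderOf_dvd_natCard g)) ⟨g, e⟩
  rw [← card_top'] at had hbd
  by_cases h1 : O[A]((⊤ : Subgroup G)) = ⊥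
  · exact aux hsol hd.compl ((FT.sol_top.2 hsol).pcore_ne_bot (ne_bot_of_prime_dvd hap had)
      (by rwa [compl_compl])) fun h => h.not_dvd hap ha had
  · exact aux hsol hd h1 fun h => h.not_dvd' hbp hb hbd

end Cfsg.Agent.S3857
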