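import Cfsg.Statements.S3858
import Mathlib
import Cfsg.Agent.FT.BG01

set_option autoImplicit false
open Cfsg

namespace Cfsg.Agent.S3858

open Subgroup FT

theorem nrm_ne_top {G : Type*} [Group G] [Finite G] (T : Subgroup G) (hT : IsSimpleGroup T)
    (hna : ¬ IsMulCommutative T) {r : ℕ} {R : Subgroup G} (hR : PGrp r R) (hR0 : R ⊓ T ≠ ⊥) :
    ¬ T ≤ N(R ⊓ T) := by
  intro h
  have h1 : R ⊓ T ⊴ T := ⟨inf_le_right, h⟩
  rcases h1.normal.eq_bot_or_eq_top with h2 | h2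
  · exact hR0 (eq_bot_iff.2 (le_inf le_rfl inf_le_right |>.trans (disjoint_iff.1
      (subgroupOf_eq_bot.1 h2)).le))
  · have h3 : PGrp r T := hR.mono ((subgroupOf_eq_top.1 h2).trans inf_le_left)
    haveI : Group.IsSolvable T := h3.sol
    exact hna (IsSimpleGroup.comm_iff_isSolvable.2 inferInstance |> fun h => ⟨⟨h⟩⟩)

/-- Let G be a finite group with a normal non-abelian simple subgroup T whose centralizer is trivial (G almost simple with socle T), r a prime and R a Sylow r-subgroup of G meeting T nontrivially. Then R lies in exactly one maximal subgroup of G if and only if G has exactly one conjugacy class of maximal subgroups whose index is prime to r. -/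
theorem result {G : Type*} [Group G] [Finite G] (T : Subgroup G) [T.Normal] (hT : IsSimpleGroup T) (hna : ¬ IsMulCommutative T)
    (hC : Subgroup.centralizer (T : Set G) = ⊥) {r : ℕ} [Fact r.Prime] (R : Sylow r G) (hR0 : (R : Subgroup G) ⊓ T ≠ ⊥) :
    (∃! M : Subgroup G, IsCoatom M ∧ (R : Subgroup G) ≤ M) ↔
      ((∃ M : Subgroup G, IsCoatom M ∧ ¬ r ∣ M.index) ∧
        ∀ M₁ M₂ : Subgroup G, IsCoatom M₁ → ¬ r ∣ M₁.index → IsCoatom M₂ → ¬ r ∣ M₂.index → ∃ g : G, M₂ = M₁.map (MulAut.conj g).toMonoidHom) := by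
  have hr : r.Prime := Fact.out
  have hR := syl_top hr R
  have hTn : T ⊴ ⊤ := nml_top_iff.2 inferInstance
  have hne := nrm_ne_top T hT hna hR.pi hR0
  have key : ∀ M : Subgroup G, ¬ r ∣ M.index ↔ ∃ g, (R : Subgroup G) ≤ cj g M := fun M => by
    rw [← p'nat_iff hr, ← relIndex_top_right, p'nat_relIndex_iff le_top]
    refine ⟨fun ⟨P, h1, h2⟩ => ?_, fun ⟨g, hg⟩ => ⟨_, hR.cj_mem (mem_top g⁻¹), le_cj_iff.1 hg⟩⟩
    obtain ⟨g, -, hg⟩ := h1.syl_trans hR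
    exact ⟨g, hg ▸ cj_mono g h2⟩
  constructor
  · rintro ⟨M, ⟨hM, hRM⟩, hu⟩
    refine ⟨⟨M, hM, (key M).2 ⟨1, by rwa [cj_one]⟩⟩, fun M₁ M₂ a b c d => ?_⟩
    obtain ⟨g, hg⟩ := (key _).1 b
    obtain ⟨h, hh⟩ := (key _).1 d
    refine ⟨h⁻¹ * g, ?_⟩
    rw [← cj_def, ← cj_cj, hu _ ⟨isCoatom_cj.2 a, hg⟩, ← hu _ ⟨isCoatom_cj.2 c, hh⟩, cj_inv_cj]
  · rintro ⟨-, h⟩
    have h1 : N((R : Subgroup G)) ≠ ⊤ := fun e =>
      hne (normsI (le_top.trans e.ge) (le_nrm T))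
    obtain ⟨M, hM, hle⟩ := exists_coatom h1
    have hRM := (le_nrm _).trans hle
    refine ⟨M, ⟨hM, hRM⟩, fun L ⟨hL, hRL⟩ => ?_⟩
    obtain ⟨g, hg⟩ := h M L hM ((key M).2 ⟨1, by rwa [cj_one]⟩) hL ((key L).2 ⟨1, by rwa [cj_one]⟩)
    rw [← cj_def] at hg
    have h2 : Syl r (cj g R) L := (hR.cj_mem (mem_top g)).subl (hg ▸ cj_mono g hRM) le_top
    obtain ⟨m, hm, e⟩ := h2.syl_trans (hR.subl hRL le_top)
    have h3 : m * g ∈ M := hle (by rw [← cj_eq_self, ← cj_cj, ← e])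
    rw [← cj_of_mem h3, ← cj_cj, ← hg, cj_of_mem hm]

end Cfsg.Agent.S3858
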