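import Cfsg.Statements.S3859
import Mathlib
import Cfsg.Agent.FT.BG01

set_option autoImplicit false
open Cfsg

namespace Cfsg.Agent.S3859

open Subgroup FT

theorem nrm_ne_top {G : Type*} [Group G] [Finite G] (T : Subgroup G) (hT : IsSimpleGroup T)
    (hna : ¬ IsMulCommutative T) {r : ℕ} {R : Subgroup G} (hR : PGrp r R) (hR0 : R ⊓ T ≠ ⊥) :
    ¬ T ≤ N(R ⊓ T) := by
  intro h
  have h1 : R ⊓ T ⊴ T := ⟨inf_le_right, h⟩
  rcases h1.normal.eq_bot_or_eq_top with h2 | h2
  · exact hR0 (eq_bot_iff.2 (le_inf le_rfl inf_le_right |>.trans (disjoint_iff.1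
      (subgroupOf_eq_bot.1 h2)).le))
  · have h3 : PGrp r T := hR.mono ((subgroupOf_eq_top.1 h2).trans inf_le_left)
    haveI : Group.IsSolvable T := h3.sol
    exact hna (IsSimpleGroup.comm_iff_isSolvable.2 inferInstance |> fun h => ⟨⟨h⟩⟩)

/-- Let G be a finite group with a normal non-abelian simple subgroup T whose centralizer is trivial (G almost simple with socle T), r a prime and R a Sylow r-subgroup of G meeting T nontrivially. If R lies in exactly one maximal subgroup of G, then G/T is an r-group. -/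
theorem result {G : Type*} [Group G] [Finite G] (T : Subgroup G) [T.Normal] (hT : IsSimpleGroup T) (hna : ¬ IsMulCommutative T)
    (hC : Subgroup.centralizer (T : Set G) = ⊥) {r : ℕ} [Fact r.Prime] (R : Sylow r G) (hR0 : (R : Subgroup G) ⊓ T ≠ ⊥)
    (huniq : ∃! M : Subgroup G, IsCoatom M ∧ (R : Subgroup G) ≤ M) : IsPGroup r (G ⧸ T) := by
  have hr : r.Prime := Fact.out
  have hR := syl_top hr R
  have hTn : T ⊴ ⊤ := nml_top_iff.2 inferInstance
  have hne := nrm_ne_top T hT hna hR.pi hR0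
  obtain ⟨M, ⟨hM, hRM⟩, hu⟩ := huniq
  have hall : ∀ H : Subgroup G, H ≠ ⊤ → (R : Subgroup G) ≤ H → H ≤ M := fun H h1 h2 => by
    obtain ⟨L, hL, hHL⟩ := exists_coatom h1
    exact hu L ⟨hL, h2.trans hHL⟩ ▸ hHL
  have h1 : N((R : Subgroup G) ⊓ T) ≤ M := hall _ (fun h => hne (h ▸ le_top))
    (normsI (le_nrm _) (le_top.trans hTn.nrm))
  have h2 := ((hR.inf_nml hTn).frattini hTn).sup
  have h3 : T ⊔ R = ⊤ := by
    by_contra h
    exact hM.1 (eq_top_iff.2 (h2.ge.trans (sup_le (le_sup_left.trans (hall _ h le_sup_right))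
      (inf_le_right.trans h1))))
  have h4 : PiNat {r} T.index := by
    rw [← relIndex_top_right, ← h3, relIndex_sup_norm (le_top.trans hTn.nrm)]
    exact hR.pi.relIndex T
  obtain ⟨k, hk⟩ := h4.exists_pow T.index_ne_zero_of_finite
  exact IsPGroup.of_card hk

end Cfsg.Agent.S3859
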