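import Cfsg.Statements.S3861
import Mathlib
import Cfsg.Agent.H27.Real2

set_option autoImplicit false
open Cfsg

namespace Cfsg.Agent.S3861

open Subgroup FT

/-- A finite group G has no non-identity element of odd order that is conjugate to its inverse if and only if the Sylow 2-subgroups of G are normal. -/
theorem result {G : Type*} [Group G] [Finite G] (P : Sylow 2 G) : (∀ x : G, x ≠ 1 → Odd (orderOf x) → ¬ IsConj x x⁻¹) ↔ (P : Subgroup G).Normal := by
  refine ⟨fun h => H27.sylow_two_normal_of_no_real h P, fun h x h1 ho hx => h1 ?_⟩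
  obtain ⟨g, hg⟩ := isConj_iff.1 hx
  obtain ⟨t, -, ⟨j, hj⟩, ht⟩ := H27.exists_two_elt_inverts hg
  have hP := syl_top Nat.prime_two P
  have hn := H27.nml_top (P : Subgroup G)
  have h2 : t ∈ (P : Subgroup G) := hP.mem_of_nml hn.nrm trivial
    (H27.pElt_of_orderOf Nat.prime_two hj)
  have h3 : x ^ 2 = x * t * x⁻¹ * t⁻¹ := by
    rw [mul_assoc, mul_assoc, ← mul_assoc t, ← inv_inv (t * x⁻¹ * t⁻¹)]
    simp only [mul_inv_rev, inv_inv, ← mul_assoc t, ht, sq]
  refine H27.eq_one_of_sq_of_odd ((PiElt.pow (x := x) (H27.two'_nat_iff.2 ho) 2).eq_one_of_mem'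
    hP.pi ?_) ho
  rw [h3]
  exact mul_mem (hn.conj_mem trivial h2) (inv_mem h2)

end Cfsg.Agent.S3861
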