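import Cfsg.Statements.S3864
import Mathlib
import Cfsg.Agent.H4.Cyc2
import Cfsg.Agent.H4.Transfer2

set_option autoImplicit false
open Cfsg

namespace Cfsg.Agent.S3864

open Subgroup Cfsg.Agent.H22 Cfsg.Agent.H4 in
theorem aux {G : Type*} [Group G] [Finite G] (P : Sylow 2 G) {a b : G} {m : ℕ}
    (h : H3.MCD (P : Subgroup G) a b m) (h1 : IsConj (a ^ 2 ^ (m - 1)) b)
    (h2 : ¬ IsConj (a ^ 2 ^ (m - 1)) (a * b)) :
    (∃ N : Subgroup G, N.Normal ∧ N.index = 2) ∧ ∀ N : Subgroup G, N.Normal → N.index ≠ 4 := by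
  have h' := h.out (mul_mem h.a_mem h.b_mem) (h.mul_not_mem (mem_zpowers a))
  refine ⟨?_, fun N hN hi => ?_⟩
  · obtain ⟨M, h3, h4, -⟩ := thompson_transfer (odd_index_sylow P) h.relIndex h'.sq fun g hg =>
      h2 (isConj_iff.2 ⟨g, h.eq_z hg (by rw [conj_pow, h'.sq]; simp)
        (by simpa using h'.b_ne)⟩).symm
    exact ⟨M, h3, h4⟩
  · have hp : IsPGroup 2 (G ⧸ N) := IsPGroup.of_card (n := 2) hi
    have h3 : ⁅(P : Subgroup G), (P : Subgroup G)⁆ ≤ N :=
      (commutator_mono le_top le_top).trans (H3.commutator_le_of_index_dvd_sq (p := 2) N hi.dvd)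
    rw [h.der] at h3
    obtain ⟨c, hc⟩ := isConj_iff.1 h1
    have h4 : b ∈ N := hc ▸ hN.conj_mem _ (h3 h.z_mem_sq) c
    have h5 : N ⊔ zpowers a = ⊤ := by
      rw [eq_top_iff, ← sup_eq_top_of_isPGroup_quotient N hp (sylow_index_coprime P), ← h.sup]
      exact sup_le le_sup_left (sup_le le_sup_right ((zpowers_le.2 h4).trans le_sup_left))
    by_cases h6 : a ∈ N
    · rw [sup_eq_left.2 (zpowers_le.2 h6)] at h5
      rw [h5, index_top] at hi
      omega
    · have := H3.relIndex_sup_zpowers Nat.prime_two (mem_N_of_normal a N) h6 (h3 (mem_zpowers _))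
      rw [h5, relIndex_top_right] at this
      omega

/-- Let G be a finite group whose Sylow 2-subgroups are dihedral of order 2 ^ n with n ≥ 3, and count the conjugacy classes of involutions of G. Then exactly one of the following holds: there is one class of involutions and no normal subgroup of index 2; there are two classes of involutions, a normal subgroup of index 2 and none of index 4; there are three classes of involutions and G has a normal 2-complement. -/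
theorem result {G : Type*} [Group G] [Finite G] (P : Sylow 2 G) (n : ℕ) (hn : 3 ≤ n) (hdih : Nonempty (↥(P : Subgroup G) ≃* DihedralGroup (2 ^ (n - 1)))) : (Nat.card {C : ConjClasses G // ∃ g : G, ConjClasses.mk g = C ∧ orderOf g = 2} = 1 ∧ ∀ N : Subgroup G, N.Normal → N.index ≠ 2) ∨ (Nat.card {C : ConjClasses G // ∃ g : G, ConjClasses.mk g = C ∧ orderOf g = 2} = 2 ∧ (∃ N : Subgroup G, N.Normal ∧ N.index = 2) ∧ ∀ N : Subgroup G, N.Normal → N.index ≠ 4) ∨ (Nat.card {C : ConjClasses G // ∃ g : G, ConjClasses.mk g = C ∧ orderOf g = 2} = 3 ∧ Cfsg.HasNormalPComplement 2 G) := by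
  open Subgroup Cfsg.Agent.H22 Cfsg.Agent.H4 in
  obtain ⟨e⟩ := hdih
  obtain ⟨a, b, h⟩ := H3.exists_mcd_of_iso (m := n - 1) (by omega) e
  have h' := h.out (mul_mem h.a_mem h.b_mem) (h.mul_not_mem (mem_zpowers a))
  set z := a ^ 2 ^ (n - 1 - 1) with hz
  have out : ∀ x ∈ (P : Subgroup G), x ∉ zpowers a → IsConj b x ∨ IsConj (a * b) x := fun x hx h1 => by
    rcases h.conj_or hx h1 with ⟨g, -, e⟩ | ⟨g, -, e⟩
    · exact Or.inl (isConj_iff.2 ⟨g, e⟩)
    · exact Or.inr (isConj_iff.2 ⟨g, e⟩)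
  have hs : {C : ConjClasses G | ∃ g : G, ConjClasses.mk g = C ∧ orderOf g = 2} =
      {ConjClasses.mk z, ConjClasses.mk b, ConjClasses.mk (a * b)} := by
    ext C
    simp only [Set.mem_setOf_eq, Set.mem_insert_iff, Set.mem_singleton_iff]
    constructor
    · rintro ⟨g, rfl, hg⟩
      obtain ⟨y, -, hy⟩ := syl_exists_cj_le (H18.sylIn_top P) le_top (isPGroup_zpowers_of_orderOf_eq hg)
      have h1 := hy (conj_mem_cj (mem_zpowers g))
      have h2 : IsConj g (y * g * y⁻¹) := isConj_iff.2 ⟨y, rfl⟩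
      simp only [ConjClasses.mk_eq_mk_iff_isConj]
      by_cases h3 : y * g * y⁻¹ ∈ zpowers a
      · left
        rwa [h.eq_z h3 (by rw [conj_pow, ← hg, pow_orderOf_eq_one]; simp)
          (by simpa using ne_one_of_orderOf_eq hg)] at h2
      · exact Or.inr ((out _ h1 h3).imp (fun e => h2.trans e.symm) fun e => h2.trans e.symm)
    · rintro (rfl | rfl | rfl)
      · exact ⟨_, rfl, h.ord_z⟩
      · exact ⟨_, rfl, h.ord_b_two h.sq⟩
      · exact ⟨_, rfl, h'.ord_b_two h'.sq⟩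
  have hc : Nat.card {C : ConjClasses G // ∃ g : G, ConjClasses.mk g = C ∧ orderOf g = 2} =
      Set.ncard {ConjClasses.mk z, ConjClasses.mk b, ConjClasses.mk (a * b)} := by
    rw [← hs, ← Nat.card_coe_set_eq]; rfl
  rw [hc]
  by_cases h1 : IsConj z b <;> by_cases h2 : IsConj z (a * b)
  · refine Or.inl ⟨?_, fun N hN hi => ?_⟩
    · rw [← ConjClasses.mk_eq_mk_iff_isConj.2 h1, ← ConjClasses.mk_eq_mk_iff_isConj.2 h2]; simp
    · have h3 : a ^ 2 ∈ N := sq_mem_of_index_two hi a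
      have h4 : z ∈ N := zpowers_le.2 h3 h.z_mem_sq
      obtain ⟨c, hc⟩ := isConj_iff.1 h1
      obtain ⟨d, hd⟩ := isConj_iff.1 h2
      have h5 : b ∈ N := hc ▸ hN.conj_mem _ h4 c
      have h6 : a * b ∈ N := hd ▸ hN.conj_mem _ h4 d
      have h7 : (P : Subgroup G) ≤ N := h.sup.ge.trans
        (sup_le (zpowers_le.2 ((mul_mem_cancel_right h5).1 h6)) (zpowers_le.2 h5))
      exact P.not_dvd_index (hi.symm.dvd.trans (index_dvd_of_le h7))
  · refine Or.inr (Or.inl ⟨?_, aux P h h1 h2⟩)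
    rw [← ConjClasses.mk_eq_mk_iff_isConj.2 h1, Set.insert_eq_of_mem (by simp),
      Set.ncard_pair (mt ConjClasses.mk_eq_mk_iff_isConj.1 h2)]
  · refine Or.inr (Or.inl ⟨?_, aux P h' h2 fun h3 => h1 (h3.trans ?_)⟩)
    · rw [← ConjClasses.mk_eq_mk_iff_isConj.2 h2, Set.pair_comm, Set.insert_eq_of_mem (by simp),
        Set.ncard_pair (mt ConjClasses.mk_eq_mk_iff_isConj.1 h1)]
    · obtain ⟨g, -, e⟩ := h.exists_conj (mem_zpowers (a ^ 2))
      exact (isConj_iff.2 ⟨g, by rw [e, sq, mul_assoc]⟩).symm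
  · have key : HasNormalPComplement 2 G := hasNPC_of_forall_le_sylow P fun Q hQ _ g hg ho => by
      by_contra hc
      obtain ⟨u, h4, h5, -, h6⟩ := cyc2' P.isPGroup' (a := a) h.relIndex.dvd hQ hg ho hc
      have h7 : u = z := h.eq_z h4 (h6.sq.symm.trans (h.out (hQ h6.v_mem) h5).sq) h6.ne_one
      have h8 : IsConj z (g * u * g⁻¹) := isConj_iff.2 ⟨g, by rw [h7]⟩
      exact (out _ (hQ h6.v_mem) h5).elim (fun e => h1 (h8.trans e.symm)) fun e => h2 (h8.trans e.symm)
    refine Or.inr (Or.inr ⟨Set.ncard_eq_three.2 ⟨_, _, _, mt ConjClasses.mk_eq_mk_iff_isConj.1 h1,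
      mt ConjClasses.mk_eq_mk_iff_isConj.1 h2, fun h3 => ?_, rfl⟩, key⟩)
    obtain ⟨g, hg⟩ := isConj_iff.1 (ConjClasses.mk_eq_mk_iff_isConj.1 h3)
    obtain ⟨u, hu, e⟩ := hasNPC_exists_conj_eq key P g
    exact h.not_conj hu ((e b h.b_mem (hg ▸ h'.b_mem)).trans hg)

end Cfsg.Agent.S3864
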