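import Cfsg.Statements.S3865
import Mathlib
import Cfsg.Agent.H27.McFus

set_option autoImplicit false
open Cfsg

namespace Cfsg.Agent.S3865

open Subgroup Cfsg.Agent.FT Cfsg.Agent.H3 Cfsg.Agent.H18 Cfsg.Agent.H27
open scoped commutatorElement

/-- Let G be a finite group whose Sylow p-subgroup P has order p ^ n with n ≥ 2 and nilpotency class n - 1 (maximal class), whose largest normal subgroup of order prime to p is trivial, and which has no proper normal subgroup of index prime to p. Then either some x ∈ P has a centralizer in G whose order has p-part p ^ 2, or G is quasisimple with centre of order at most p. -/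
theorem result {G : Type*} [Group G] [Finite G] (p : ℕ) [Fact p.Prime] (P : Sylow p G) (n : ℕ) (hP : Nat.card P = p ^ n) (hn : 2 ≤ n) (hmax : Group.nilpotencyClass ↥(P : Subgroup G) = n - 1) (hcore : Cfsg.pPrimeCore p G = ⊥) (hres : ∀ N : Subgroup G, N.Normal → (N.index).Coprime p → N = ⊤) : (∃ x ∈ (P : Subgroup G), (Nat.card (Subgroup.centralizer ({x} : Set G))).factorization p = 2) ∨ (Cfsg.IsQuasisimple G ∧ Nat.card (Subgroup.center G) ≤ p) := by
  have pp : p.Prime := Fact.out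
  set S : Subgroup G := (P : Subgroup G) with hS0
  have hS : Syl p S ⊤ := FT.syl_top pp P
  have h : MaxCl p n S := maxCl_coe_iff.1 ((maxCl_top_iff hP hn).2 hmax)
  have hO : O[{p}ᶜ]((⊤ : Subgroup G)) = ⊥ := by rw [pcore_top, FT.piCore_compl_singleton pp, hcore]
  by_cases hx0 : ∃ x ∈ S, (Nat.card (Subgroup.centralizer ({x} : Set G))).factorization p = 2
  · exact Or.inl hx0
  right
  push Not at hx0
  have hn3 : 3 ≤ n := by
    by_contra hlt
    refine hx0 1 (one_mem _) ?_
    have e : Subgroup.centralizer ({1} : Set G) = ⊤ := by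
      rw [eq_top_iff]; intro y _; rw [mem_centralizer_singleton_iff]; simp
    rw [e, card_top]
    have := P.card_eq_multiplicity
    rw [hP] at this
    have := Nat.pow_right_injective pp.two_le this
    omega
  have fuse : ∀ x ∈ S, #(S ⊓ C[x]) ≤ p ^ 2 → ∃ g, g * x * g⁻¹ ∈ ⁅S, S⁆ := by
    intro x hx c
    obtain ⟨-, -, hc⟩ := unif_cen h hn3 hx c
    have h2 : p ^ 2 ∣ #C[x] := hc ▸ card_dvd inf_le_right
    have h3 : p ^ 3 ∣ #(⊤ ⊓ C[x]) := by
      rw [top_inf_eq]
      rw [pp.pow_dvd_iff_le_factorization (card_ne_zero _)] at h2 ⊢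
      have : (#C[x]).factorization p ≠ 2 := hx0 x hx
      omega
    obtain ⟨g, -, hg⟩ := unif_fuse n hS h hx c h3
    exact ⟨g, hg⟩
  have ha : ∀ K : Subgroup G, K.Normal → S ≤ K → K = ⊤ := fun K hK e => hres K hK (by
    have := hS.relIndex_of_le e
    rw [relIndex_top_right] at this
    exact this.coprime' ((piNat_prime pp).2 rfl))
  have hb : ∀ K : Subgroup G, K.Normal → ⁅S, S⁆ ≤ K → K = ⊤ := by
    intro K hK e
    by_contra ne
    obtain ⟨x, hx, hxD, c⟩ := unif_not_mem h hn3 (D := S ⊓ K)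
      (lt_of_le_of_ne inf_le_left fun e' => ne (ha K hK (inf_eq_left.1 e')))
    obtain ⟨g, hg⟩ := fuse x hx c
    exact hxD ⟨hx, by simpa [mul_assoc] using hK.conj_mem _ (e hg) g⁻¹⟩
  have hZc := h.card_center hn3
  have hc : ∀ K : Subgroup G, K.Normal → K ≠ ⊤ → K ≠ ⊥ → K = Z(S) ∧ K ≤ center G := by
    intro K hK ht hb0
    have hKn : K ⊴ ⊤ := nml_top_iff.2 hK
    have hD : Syl p (S ⊓ K) K := hS.inf_nml hKn
    have hD1 : S ⊓ K ≠ ⊥ := fun e => hb0 (le_bot_iff.1 (hO ▸ pcore_max (hD.eq_bot_iff.1 e) hKn))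
    have hDS : S ⊓ K ⊴ S := by simpa using hKn.inf_left S
    obtain ⟨j, hj⟩ := PiNat.exists_pow hD.pi (card_ne_zero _)
    have hjn : j + 3 ≤ n := by
      by_contra hlt
      refine ht (hb K hK ((h.le_of_card_le (der_nml S) hDS h.card_der (by omega) ?_).trans inf_le_right))
      rw [h.card_der, hj]; exact Nat.pow_le_pow_right pp.pos (by omega)
    have hDd : S ⊓ K ≤ ⁅S, S⁆ := h.le_of_card_le hDS (der_nml S) hj (by omega)
      (by rw [h.card_der, hj]; exact Nat.pow_le_pow_right pp.pos (by omega))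
    have hj0 : j ≠ 0 := by
      rintro rfl
      have := one_lt_card hD1
      rw [hj] at this; simp at this
    have hj1 : j = 1 := by
      by_contra hj1
      obtain ⟨x, hx, hxD, c⟩ := unif_not_mem h hn3 (D := ⁅S, S⁆) (lt_of_card_lt (der_nml S).le
        (by rw [h.card_der, h.card]; exact Nat.pow_lt_pow_right pp.one_lt (by omega)))
      obtain ⟨g, hg⟩ := fuse x hx c
      obtain ⟨k, hk, u, hu, rfl⟩ := (hD.frattini hKn).mul g (mem_top g)
      have s1 : Syl p ⁅S, S⁆ (K ⊔ ⁅S, S⁆) := ⟨le_sup_right, h.pGrp.mono (der_nml S).le, by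
        rw [(mulEq_sup (le_top.trans hKn.nrm)).relIndex_right, ← inf_relIndex_right,
          show ⁅S, S⁆ ⊓ K = S ⊓ K from le_antisymm (inf_le_inf_right _ (der_nml S).le) (le_inf hDd inf_le_right)]
        exact hD.idx⟩
      have s2 := s1.subl_inf ((der_nml S).le.trans hDS.nrm)
      have m1 : u * x * u⁻¹ ∈ (K ⊔ ⁅S, S⁆) ⊓ N(S ⊓ K) := by
        refine mem_inf.2 ⟨?_, mul_mem (mul_mem hu.2 (hDS.nrm hx)) (inv_mem hu.2)⟩
        have e : u * x * u⁻¹ = k⁻¹ * (k * u * x * (k * u)⁻¹) * k := by group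
        rw [e]
        exact mul_mem (mul_mem (inv_mem (mem_sup_left hk)) (mem_sup_right hg)) (mem_sup_left hk)
      obtain ⟨v, hv, hw⟩ := s2.syl_elt m1 ((h.pGrp.piElt hx).conj u)
      have hwN : v * u ∈ N(S ⊓ K) := mul_mem hv.2 hu.2
      have e2 : v * (u * x * u⁻¹) * v⁻¹ = v * u * x * (v * u)⁻¹ := by group
      rw [e2] at hw
      have c3 : #γ[n - 3](S) = p ^ 2 := by rw [h.card_lcs (by omega)]; congr 1; omega
      have l3 : γ[n - 3](S) ≤ S ⊓ K ⊓ C[v * u * x * (v * u)⁻¹] := by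
        refine le_inf (h.le_of_card_le (lcs_nml _ S) hDS c3 (by omega)
          (by rw [c3, hj]; exact Nat.pow_le_pow_right pp.pos (by omega))) ?_
        have : ⁅γ[n - 3](S), γ[1](S)⁆ = ⊥ := le_bot_iff.1 (h.eq_bot ▸ lcs_comm_le S (by omega))
        exact (comm_eq_bot.1 this).trans (cen_le_cen1 hw)
      have c4 := card_le l3
      rw [c3, ← cj_of_mem_nrm hwN, ← FT.cj_cen1, ← FT.cj_inf, FT.card_cj] at c4
      have e5 := eq_of_card_le (inf_le_inf_right C[x] (inf_le_left : S ⊓ K ≤ S)) (c.trans c4)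
      have : x ∈ S ⊓ K ⊓ C[x] := e5 ▸ ⟨hx, self_mem_cen1 x⟩
      exact hxD (hDd this.1)
    subst hj1
    have hDZ : S ⊓ K = Z(S) := h.eq_of_card_eq hDS (center_nml S) hj (by rw [hZc, pow_one]) (by omega)
    rw [hDZ] at hD hDd
    have hW : K ⊓ N(Z(S)) ⊴ N(Z(S)) := by simpa using hKn.inf_right N(Z(S))
    obtain ⟨E, hE, sd⟩ := hD.subnorm.exists_compl inf_le_right
    have fr := H1.sd_frattini sd (hD.pi.cop hE.pi) (Or.inl (ab_center S).sol) hW le_rfl
    have fr2 := fr.inf_left (inf_le_left : Z(S) ≤ S)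
    have hSE : S ⊓ (N(Z(S)) ⊓ N(E)) = S := Phi_nongen inf_le_left (by
      rw [h.Phi_eq hn3]
      exact (le_inf le_rfl (center_nml S).nrm).trans (fr2.sup.ge.trans (sup_le_sup_right hDd _)))
    have hZE : Z(S) ≤ C(E) := cents_of_norms_of_inf sd.nrm
      (inf_le_left.trans (hSE.ge.trans (inf_le_right.trans inf_le_right))) sd.inf
    have npc := Burnside_normal_complement hD (sd.sup ▸ sup_le (ab_center S).le_cen (centsC hZE))
    have hO2 : O[{p}ᶜ](K) = ⊥ := le_bot_iff.1 (hO ▸ pcore_mono_nml _ hKn)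
    have hKZ : Z(S) = K := by have := (npc.sd hD).sup; rwa [hO2, bot_sup_eq] at this
    have hCK : C(K) = ⊤ := ha _ (nml_top_iff.1 ⟨le_top, norms_cent hKn.nrm⟩) (hKZ ▸ le_cen_center le_rfl)
    refine ⟨hKZ.symm, fun y hy => ?_⟩
    rw [mem_center_iff]
    intro g
    exact ((hCK.ge (mem_top g)) y hy).symm
  have hperf : ⁅(⊤ : Subgroup G), ⊤⁆ = ⊤ := hb _ inferInstance (commSS le_top le_top)
  have hZt : center G ≠ ⊤ := fun e => h.not_ab hn3 (ab_iff_forall.2 fun x _ y _ => mem_center_iff.1 (e.ge (mem_top y)) x)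
  refine ⟨⟨⟨hperf⟩, ?_⟩, ?_⟩
  · haveI : Nontrivial (G ⧸ center G) := (QuotientGroup.nontrivial_iff).2 hZt
    refine ⟨fun H hH => ?_⟩
    by_cases e : H.comap (QuotientGroup.mk' (center G)) = ⊤
    · right
      rw [← map_comap_eq_self_of_surjective (QuotientGroup.mk'_surjective (center G)) H, e]
      exact map_top_of_surjective _ (QuotientGroup.mk'_surjective _)
    left
    rw [← map_comap_eq_self_of_surjective (QuotientGroup.mk'_surjective (center G)) H, Subgroup.map_eq_bot_iff,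
      QuotientGroup.ker_mk']
    by_cases e' : H.comap (QuotientGroup.mk' (center G)) = ⊥
    · rw [e']; exact bot_le
    exact (hc _ inferInstance e e').2
  by_cases e' : center G = ⊥
  · rw [e', card_bot]; exact pp.one_lt.le
  have := (hc _ inferInstance hZt e').1
  rw [this]; exact hZc.le

end Cfsg.Agent.S3865
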