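import Cfsg.Statements.S3866
import Mathlib
import Cfsg.Agent.H27.CycExt

set_option autoImplicit false
open Cfsg

namespace Cfsg.Agent.S3866

open Subgroup
open scoped commutatorElement

/-- Let A be a commutative normal subgroup of the finite group G with G generated by A and an element x. Then a ↦ x a x⁻¹ a⁻¹ is a surjective homomorphism from A onto the commutator subgroup of G whose kernel is the centralizer of x in A; in particular the commutator subgroup has order equal to the index in A of that centralizer. -/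
theorem result {G : Type*} [Group G] [Finite G] (A : Subgroup G) [A.Normal] (hA : IsMulCommutative A) (x : G) (hgen : A ⊔ Subgroup.zpowers x = ⊤) : (∀ a ∈ A, x * a * x⁻¹ * a⁻¹ ∈ commutator G) ∧ (∀ c ∈ commutator G, ∃ a ∈ A, x * a * x⁻¹ * a⁻¹ = c) ∧ (∀ a ∈ A, ∀ b ∈ A, x * (a * b) * x⁻¹ * (a * b)⁻¹ = (x * a * x⁻¹ * a⁻¹) * (x * b * x⁻¹ * b⁻¹)) ∧ Nat.card (commutator G) * Nat.card ↥(A ⊓ Subgroup.centralizer ({x} : Set G)) = Nat.card A := by
  have h := H27.commutator_eq_range_commHom A hA x hgen
  refine ⟨fun a _ => commutator_mem_commutator (mem_top x) (mem_top a), ?_,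
    fun a ha b hb => H27.comm_mul_of_abelian_normal A hA x ha hb, ?_⟩
  · intro c hc
    rw [h] at hc
    obtain ⟨a, rfl⟩ := hc
    exact ⟨a, a.2, rfl⟩
  · have h1 : (H27.commHom A hA x).ker = (A ⊓ centralizer ({x} : Set G)).subgroupOf A := by
      ext a
      rw [MonoidHom.mem_ker, H27.commHom_apply, commutatorElement_eq_one_iff_mul_comm,
        mem_subgroupOf, mem_inf, mem_centralizer_iff]
      simp
    rw [h, ← index_ker, ← (H27.commHom A hA x).ker.index_mul_card, h1,
      Nat.card_congr (subgroupOfEquivOfLe (inf_le_left : A ⊓ centralizer ({x} : Set G) ≤ A)).toEquiv]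

end Cfsg.Agent.S3866
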