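import Cfsg.Statements.S3867
import Mathlib
import Cfsg.Agent.H28.HallNum
import Cfsg.Agent.H28.Util2

set_option autoImplicit false
open Cfsg

namespace Cfsg.Agent.S3867

open Subgroup Cfsg.Agent.FT

/-- Let M and N be nontrivial normal subgroups of the finite group G with M ⊓ N trivial, and let p be a prime. Writing n(X) for the number of Sylow p-subgroups of a group X, one has n(G) · n(G/MN) = n(G/M) · n(G/N). -/
theorem result {G : Type*} [Group G] [Finite G] (p : ℕ) [Fact p.Prime] (M N : Subgroup G) [M.Normal] [N.Normal] (hM : M ≠ ⊥) (hN : N ≠ ⊥) (hMN : M ⊓ N = ⊥) : Nat.card (Sylow p G) * Nat.card (Sylow p (G ⧸ (M ⊔ N))) = Nat.card (Sylow p (G ⧸ M)) * Nat.card (Sylow p (G ⧸ N)) := by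
  have hp : p.Prime := Fact.out
  obtain ⟨P⟩ : Nonempty (Sylow p G) := inferInstance
  rw [H28.card_sylow_eq_index P, H28.card_sylow_quot_eq _ P, H28.card_sylow_quot_eq _ P,
    H28.card_sylow_quot_eq _ P]
  have hP := syl_top hp P
  generalize (P : Subgroup G) = Q at hP
  have hn : ∀ (K X : Subgroup G) [K.Normal], X ≤ N(K) := fun K X _ => le_top.trans (normalizer_eq_top _).ge
  have fr : ∀ (K : Subgroup G) [K.Normal], MulEq K N(Q) N(Q ⊔ K) := fun K _ => by
    have h1 : N(Q) ≤ N(Q ⊔ K) := normsY le_rfl (hn _ _)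
    refine ⟨le_sup_right.trans le_normalizer, h1, fun x hx => ?_⟩
    obtain ⟨a, ha, b, hb, rfl⟩ := (hP.subl le_sup_left le_top).frattini_nrm.mul x hx
    obtain ⟨c, hc, d, hd, rfl⟩ := (mulEq_sup (hn K Q)).mul a (sup_comm Q K ▸ ha)
    exact ⟨c, hc, d * b, mul_mem (le_normalizer hd) hb.2, mul_assoc _ _ _⟩
  have hi : (Q ⊔ M) ⊓ (Q ⊔ N) = Q := by
    refine hP.max ?_ (le_inf le_sup_left le_sup_left) le_top
    refine piGrp_of_relIndex (K := N) (piGrp_of_relIndex (K := M) ?_ ?_) ?_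
    · rw [← inf_assoc, hMN, bot_inf_eq]; exact piGrp_bot _
    · refine PiNat.of_dvd ?_ (relIndex_dvd_of_norm (inf_le_right.trans inf_le_left) (hn M (Q ⊔ M)))
      rw [sup_comm, relIndex_sup_norm (hn _ _)]; exact hP.pi.relIndex _
    · refine PiNat.of_dvd ?_ (relIndex_dvd_of_norm inf_le_right (hn N (Q ⊔ N)))
      rw [sup_comm, relIndex_sup_norm (hn _ _)]; exact hP.pi.relIndex _
  have h1 : N(Q ⊔ M) ⊓ N(Q ⊔ N) = N(Q) := le_antisymm (by
    nth_rewrite 3 [← hi]; exact normsI inf_le_left inf_le_right) (le_inf (fr M).right (fr N).right)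
  have h2 : MulEq N(Q ⊔ M) N(Q ⊔ N) N(Q ⊔ (M ⊔ N)) := by
    refine ⟨?_, ?_, fun x hx => ?_⟩
    · rw [← sup_assoc]; exact normsY le_rfl (hn _ _)
    · rw [sup_comm M, ← sup_assoc]; exact normsY le_rfl (hn _ _)
    obtain ⟨a, ha, b, hb, rfl⟩ := (fr _).mul x hx
    obtain ⟨c, hc, d, hd, rfl⟩ := (mulEq_sup (hn M N)).mul a ha
    exact ⟨c, (fr M).left hc, d * b, mul_mem ((fr N).left hd) ((fr N).right hb), mul_assoc _ _ _⟩
  have h3 := h2.card
  rw [h1] at h3
  refine Nat.eq_of_mul_eq_mul_left (mul_pos (card_pos N(Q ⊔ (M ⊔ N))) (card_pos N(Q))) ?_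
  nth_rewrite 2 [h3]
  rw [mul_comm N(Q).index, mul_mul_mul_comm, mul_mul_mul_comm #N(Q ⊔ M)]
  simp only [card_mul_index]

end Cfsg.Agent.S3867
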