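import Cfsg.Statements.S3878
import Mathlib
import Cfsg.Agent.FT.Hall
import Cfsg.Agent.H10.PSL2Max2

set_option autoImplicit false
open Cfsg

namespace Cfsg.Agent.S3878

open Subgroup Cfsg.Agent.FT Cfsg.Agent.H10 Matrix MulAction
open scoped MatrixGroups

theorem exists_ell {p q r : ℕ} (hp : p.Prime) (hq : q.Prime) (hr : r.Prime) (hp2 : p ≠ 2) (hpq : p ≠ q) (hpr : p ≠ r) :
    ∃ l : ℕ, l.Prime ∧ 3 < l ∧ p ^ 2 ∣ l + 1 ∧ q ^ 3 * r ∣ l - 1 := by
  have hc : (p ^ 2).Coprime (q ^ 3 * r) :=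
    Nat.Coprime.mul_right (Nat.Coprime.pow 2 3 ((Nat.coprime_primes hp hq).2 hpq))
      (Nat.Coprime.pow_left 2 ((Nat.coprime_primes hp hr).2 hpr))
  have hp1 : 1 ≤ p ^ 2 := Nat.one_le_pow _ _ hp.pos
  obtain ⟨a, ha1, ha2⟩ := Nat.chineseRemainder hc (p ^ 2 - 1) 1
  have hca : a.Coprime (p ^ 2 * (q ^ 3 * r)) := by
    refine Nat.Coprime.mul_right ?_ ?_
    · rw [Nat.Coprime, ha1.gcd_eq]
      exact (Nat.coprime_self_sub_left hp1).2 (Nat.coprime_one_left _)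
    · rw [Nat.Coprime, ha2.gcd_eq]; exact Nat.coprime_one_left _
  obtain ⟨l, hl1, hl2, hl3⟩ := Nat.forall_exists_prime_gt_and_modEq 3
    (mul_ne_zero (pow_ne_zero 2 hp.ne_zero) (mul_ne_zero (pow_ne_zero 3 hq.ne_zero) hr.ne_zero)) hca
  refine ⟨l, hl2, hl1, ?_, ?_⟩
  · have := ((hl3.of_mul_right _).trans ha1).add_right 1
    rw [Nat.sub_add_cancel hp1] at this
    exact (Nat.modEq_zero_iff_dvd.1 (this.trans (Nat.modEq_zero_iff_dvd.2 dvd_rfl)))
  · exact (Nat.modEq_iff_dvd' hl2.one_le).1 ((hl3.of_mul_left _).trans ha2).symm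

theorem no_hall {π : Set ℕ} {p q r : ℕ} (hp : p.Prime) (hq : q.Prime) (hr : r.Prime) (hp2 : p ≠ 2) (hpq : p ≠ q)
    (h1 : p ∈ π) (h2 : q ∈ π) (h3 : r ∉ π) :
    ∃ (G : Type) (_ : Group G) (_ : Finite G), ¬ IsEPiGroup π G := by
  obtain ⟨l, hl, hl3, hpl, hql⟩ := exists_ell hp hq hr hp2 hpq (by rintro rfl; exact h3 h1)
  haveI := Fact.mk hl
  refine ⟨PGL(2, ZMod l), inferInstance, inferInstance, ?_⟩
  rintro ⟨H, hH1, hH2⟩
  have hF : Nat.card (ZMod l) = l := Nat.card_zmod l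
  have hG : Nat.card H * H.index = l * (l - 1) * (l + 1) := by rw [card_mul_index, card_PGL2, hF]
  have hd : ∀ s k : ℕ, s.Prime → s ∈ π → s ^ k ∣ l * (l - 1) * (l + 1) → s ^ k ∣ Nat.card H := fun s k hs h e =>
    (((Nat.Prime.coprime_iff_not_dvd hs).2 (hH2 s hs h)).pow_left k).dvd_of_dvd_mul_right (hG ▸ e)
  have hpH : p ^ 2 ∣ Nat.card H := hd p 2 hp h1 (hpl.mul_left _)
  have hqH : q ^ 3 ∣ Nat.card H := hd q 3 hq h2 ((((dvd_mul_right _ _).trans hql).mul_left _).mul_right _)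
  have hp1 : p ∣ l + 1 := (dvd_pow_self p two_ne_zero).trans hpl
  have hp3 : ¬ p ∣ l := fun h => hp.one_lt.ne' (Nat.dvd_one.1 ((Nat.dvd_add_right h).1 hp1))
  have hp4 : ¬ p ∣ l - 1 := fun h => by
    have : p ∣ 2 := by
      have e : l + 1 = (l - 1) + 2 := by omega
      exact (Nat.dvd_add_right h).1 (e ▸ hp1)
    exact hp2 ((Nat.prime_dvd_prime_iff_eq hp Nat.prime_two).1 this)
  have hpH' : p ∣ Nat.card H := (dvd_pow_self p two_ne_zero).trans hpH
  have hodd : l % 2 = 1 := hl.eq_two_or_odd.resolve_left (by omega)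
  have hne : ¬ pslSub (ZMod l) ≤ H := fun h => by
    refine h3 (hH1 r hr (Dvd.dvd.trans ?_ (card_dvd_of_le h)))
    have e := card_pslSub (F := ZMod l)
    rw [hF] at e
    obtain ⟨m, hm⟩ : 2 ∣ l + 1 := by omega
    have e2 : Nat.gcd 2 (l - 1) = 2 := Nat.gcd_eq_left (by omega)
    rw [e2, hm] at e
    have e3 : Nat.card (pslSub (ZMod l)) = l * (l - 1) * m := by nlinarith
    rw [e3]
    exact ((((dvd_mul_left _ _).trans hql).mul_left _).mul_right _)
  have hsq : ∀ n : ℕ, n ∣ 120 → ¬ p ^ 2 ∣ n := fun n hn h => by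
    have h4 : p ^ 2 ∣ 120 := h.trans hn
    have h5 : p ≤ 10 := by
      have := Nat.le_of_dvd (by norm_num) h4
      nlinarith
    have := hp.two_le
    interval_cases p <;> simp_all (config := {decide := true})
  rcases dickson_proper (p := l) hne with ⟨x, h⟩ | ⟨z, z', e, he, h⟩ | ⟨-, -, h⟩ | ⟨L, g, s, hL, hs, hc, -⟩
  · have := hpH'.trans (card_dvd_of_le h)
    rw [card_stabilizer_PL, hF] at this
    exact ((Nat.Prime.dvd_mul hp).1 this).elim hp3 hp4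
  · have h4 : Nat.card H ∣ 2 * e := by
      have := he.card_inf_pairStab (M := ⊤) le_top
      rw [top_inf_eq, top_inf_eq, he.card_torus] at this
      exact this ▸ card_dvd_of_le h
    rcases he.e_eq with rfl | rfl
    · rw [hF] at h4
      rcases (Nat.Prime.dvd_mul hp).1 (hpH'.trans h4) with h5 | h5
      · exact hp2 ((Nat.prime_dvd_prime_iff_eq hp Nat.prime_two).1 h5)
      · exact hp4 h5
    · rw [hF] at h4
      have h5 : q ^ 3 ∣ 2 * (l - 1) := ((dvd_mul_right _ _).trans hql).mul_left _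
      have e : 2 * (l + 1) = 2 * (l - 1) + 4 := by omega
      have h6 : q ^ 3 ∣ 4 := (Nat.dvd_add_right h5).1 (e ▸ hqH.trans h4)
      have h7 := Nat.le_of_dvd (by norm_num) h6
      have : 2 ^ 3 ≤ q ^ 3 := Nat.pow_le_pow_left hq.two_le 3
      omega
  · refine hsq _ ?_ hpH
    rcases h with ⟨-, h | h | h⟩ | ⟨-, h⟩ <;> rw [h] <;> norm_num
  · rw [hF] at hc
    have := (by rw [hc]; exact hl : (Nat.card L ^ s).Prime).eq_one_of_pow
    exact hs.one_lt.ne' this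

theorem e_of_d {π : Set ℕ} {G : Type} [Group G] [Finite G] (h : IsDPiGroup π G) : IsEPiGroup π G := by
  obtain ⟨H, -, hH⟩ := Finite.exists_le_maximal (p := IsPiSubgroup π) (a := (⊥ : Subgroup G))
    (piGrp_iff_isPiSubgroup.1 (piGrp_bot π))
  refine ⟨H, hall_top_iff.1 (hall_of_forall_syl le_top (piGrp_iff_isPiSubgroup.2 hH.1) fun p hp hπ _ => ?_)⟩
  obtain ⟨P, hP⟩ := exists_syl p (⊤ : Subgroup G)
  obtain ⟨K, hPK, hK⟩ := Finite.exists_le_maximal (p := IsPiSubgroup π) (a := P)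
    (piGrp_iff_isPiSubgroup.1 (hP.pi.sub (Set.singleton_subset_iff.2 hπ)))
  obtain ⟨g, rfl⟩ := h K H hK hH
  exact ⟨cj g P, hP.cj_mem trivial, cj_mono g hPK⟩

theorem d_of {π : Set ℕ} (h : (∀ p q : ℕ, p.Prime → q.Prime → p ∈ π → q ∈ π → p = q) ∨ ∀ p : ℕ, p.Prime → p ∈ π)
    (G : Type) [Group G] [Finite G] : IsDPiGroup π G := by
  intro H K hH hK
  rcases h with h | h
  · by_cases h0 : ∃ p, p.Prime ∧ p ∈ π
    · obtain ⟨p, hp, hπ⟩ := h0
      have hs : ∀ H : Subgroup G, Maximal (IsPiSubgroup π) H → Syl p H ⊤ := fun H hH =>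
        syl_of_max (fun q hq hd => h q p hq hp (hH.1 q hq hd) hπ) le_top fun Q hQ hle _ =>
          le_antisymm (hH.2 (fun q hq hd => (show q = p from hQ q hq hd) ▸ hπ) hle) hle
      obtain ⟨g, -, e⟩ := (hs H hH).syl_trans (hs K hK)
      exact ⟨g, e⟩
    · have hs : ∀ H : Subgroup G, IsPiSubgroup π H → H = ⊥ := fun H hH => by
        by_contra h1
        obtain ⟨p, hp, hd⟩ := exists_prime_dvd_card h1
        exact h0 ⟨p, hp, hH p hp hd⟩
      exact ⟨1, by rw [hs H hH.1, hs K hK.1, Subgroup.map_bot]⟩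
  · have hs : ∀ H : Subgroup G, Maximal (IsPiSubgroup π) H → H = ⊤ := fun H hH =>
      top_le_iff.1 (hH.2 (fun q hq _ => h q hq) le_top)
    exact ⟨1, by rw [hs H hH, hs K hK]; exact (cj_top 1).symm⟩

theorem of_e {π : Set ℕ} (h : ∀ (G : Type) [Group G] [Finite G], IsEPiGroup π G) :
    (∀ p q : ℕ, p.Prime → q.Prime → p ∈ π → q ∈ π → p = q) ∨ ∀ p : ℕ, p.Prime → p ∈ π := by
  by_contra hn
  push Not at hn
  obtain ⟨⟨p, q, hp, hq, h1, h2, hpq⟩, r, hr, h3⟩ := hn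
  by_cases hp2 : p = 2
  · obtain ⟨G, _, _, hG⟩ := no_hall hq hp hr (hp2 ▸ hpq.symm) hpq.symm h2 h1 h3
    exact hG (h G)
  · obtain ⟨G, _, _, hG⟩ := no_hall hp hq hr hp2 hpq h1 h2 h3
    exact hG (h G)

/-- For a set of primes π the following are equivalent: every finite group has a Hall π-subgroup; in every finite group the maximal π-subgroups are pairwise conjugate; π contains at most one prime or contains every prime. -/
theorem result (π : Set ℕ) :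
    ((∀ (G : Type) [Group G] [Finite G], Cfsg.IsEPiGroup π G) ↔
      ((∀ p q : ℕ, p.Prime → q.Prime → p ∈ π → q ∈ π → p = q) ∨ ∀ p : ℕ, p.Prime → p ∈ π)) ∧
    ((∀ (G : Type) [Group G] [Finite G], Cfsg.IsDPiGroup π G) ↔
      ((∀ p q : ℕ, p.Prime → q.Prime → p ∈ π → q ∈ π → p = q) ∨ ∀ p : ℕ, p.Prime → p ∈ π)) := by
  exact ⟨⟨of_e, fun h G _ _ => e_of_d (d_of h G)⟩, ⟨fun h => of_e fun G _ _ => e_of_d (h G), d_of⟩⟩

end Cfsg.Agent.S3878
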