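import Mathlib
import Cfsg.Agent.H28.Meta
-- Template for statement S3879 (row 3879; see /opt/grader/pristine/manifest.json for weights).
-- Copy to Cfsg/Agent/S3879.lean and replace the sorry. The statement below is byte-identical to the frozen
-- statement Cfsg.CfsgFrozen.S3879 (Cfsg/Statements/S3879.lean; the theorem Cfsg.fg3_metacyclic_odd_p_group_center_index_eq_derived_order_sq);
-- the grader kernel-checks Cfsg.Agent.S3879.result against that frozen type. Keep the theorem IN THIS FILE
-- (a `result` declared elsewhere and merely imported here is not credited); helpers may live anywhere
-- under Cfsg/Agent/.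
import Cfsg.Statements.S3879
-- import your own Cfsg.Agent.* helpers here

set_option autoImplicit false
open Cfsg

namespace Cfsg.Agent.S3879

/-- Let p be an odd prime and G a finite metacyclic p-group (G has a cyclic normal subgroup with cyclic quotient). Then the index of the center of G is the square of the order of the derived subgroup: |G : Z(G)| = |G'|². -/
theorem result {G : Type*} [Group G] [Finite G] {p : ℕ} [Fact p.Prime] (hp : p ≠ 2) (hG : IsPGroup p G) (hmc : Cfsg.IsMetacyclic G) : (Subgroup.center G).index = Nat.card ↥(commutator G) ^ 2 := by
  open Subgroup Cfsg.Agent.H3 Cfsg.Agent.H28.Mc in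
  open scoped commutatorElement Pointwise in
  · have h : MH p G := ⟨hp, hG, hmc⟩
    exact h.index_center'

end Cfsg.Agent.S3879
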