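import Mathlib
import Cfsg.Agent.H28.Meta
-- Template for statement S3880 (row 3880; see /opt/grader/pristine/manifest.json for weights).
-- Copy to Cfsg/Agent/S3880.lean and replace the sorry. The statement below is byte-identical to the frozen
-- statement Cfsg.CfsgFrozen.S3880 (Cfsg/Statements/S3880.lean; the theorem Cfsg.fg3_metacyclic_odd_p_group_abelian_subgroups_by_order);
-- the grader kernel-checks Cfsg.Agent.S3880.result against that frozen type. Keep the theorem IN THIS FILE
-- (a `result` declared elsewhere and merely imported here is not credited); helpers may live anywhere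
-- under Cfsg/Agent/.
import Cfsg.Statements.S3880
-- import your own Cfsg.Agent.* helpers here

set_option autoImplicit false
open Cfsg

namespace Cfsg.Agent.S3880

/-- Let p be an odd prime and G a finite metacyclic p-group (G has a cyclic normal subgroup with cyclic quotient). Then a subgroup L of G is abelian if and only if |L| ≤ |G : G'|, and L is a maximal abelian subgroup of G if and only if |L| = |G : G'|. -/
theorem result {G : Type*} [Group G] [Finite G] {p : ℕ} [Fact p.Prime] (hp : p ≠ 2) (hG : IsPGroup p G) (hmc : Cfsg.IsMetacyclic G) (L : Subgroup G) :
    (IsMulCommutative ↥L ↔ Nat.card ↥L ≤ (commutator G).index) ∧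
      (Maximal (fun K : Subgroup G => IsMulCommutative ↥K) L ↔ Nat.card ↥L = (commutator G).index) := by
  open Subgroup Cfsg.Agent.H3 Cfsg.Agent.H28.Mc in
  open scoped commutatorElement Pointwise in
  · have h : MH p G := ⟨hp, hG, hmc⟩
    exact ⟨h.comm_iff L, h.maximal_iff L⟩

end Cfsg.Agent.S3880
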