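import Mathlib
import Cfsg.Agent.H28.Meta
-- Template for statement S3881 (row 3881; see /opt/grader/pristine/manifest.json for weights).
-- Copy to Cfsg/Agent/S3881.lean and replace the sorry. The statement below is byte-identical to the frozen
-- statement Cfsg.CfsgFrozen.S3881 (Cfsg/Statements/S3881.lean; the theorem Cfsg.fg3_metacyclic_odd_p_group_count_elements_by_class_size);
-- the grader kernel-checks Cfsg.Agent.S3881.result against that frozen type. Keep the theorem IN THIS FILE
-- (a `result` declared elsewhere and merely imported here is not credited); helpers may live anywhere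
-- under Cfsg/Agent/.
import Cfsg.Statements.S3881
-- import your own Cfsg.Agent.* helpers here

set_option autoImplicit false
open Cfsg

namespace Cfsg.Agent.S3881

/-- Let p be an odd prime and G a finite metacyclic p-group (G has a cyclic normal subgroup with cyclic quotient). Suppose G is non-abelian with |G'| = p^n. Then for 1 ≤ i ≤ n the number of elements of G whose conjugacy class has exactly p^i elements is |Z(G)| · (p^(2i) − p^(2i−2)). -/
theorem result {G : Type*} [Group G] [Finite G] {p : ℕ} [Fact p.Prime] (hp : p ≠ 2) (hG : IsPGroup p G) (hmc : Cfsg.IsMetacyclic G) (n : ℕ) (hn : n ≠ 0) (hGn : Nat.card ↥(commutator G) = p ^ n) (i : ℕ) (hi : 1 ≤ i) (hin : i ≤ n) :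
    Nat.card {g : G // (Subgroup.centralizer ({g} : Set G)).index = p ^ i} =
      Nat.card ↥(Subgroup.center G) * (p ^ (2 * i) - p ^ (2 * i - 2)) := by
  open Subgroup Cfsg.Agent.H3 Cfsg.Agent.H28.Mc in
  open scoped commutatorElement Pointwise in
  · have h : MH p G := ⟨hp, hG, hmc⟩
    have hp' : p.Prime := Fact.out
    have key : ∀ g : G, (centralizer ({g} : Set G)).index = p ^ i ↔
        g ∈ (powerClosure p (n - i) (⊤ : Subgroup G) : Set G) \ (powerClosure p (n - (i - 1)) (⊤ : Subgroup G) : Set G) := by
      intro g
      rw [Set.mem_diff, SetLike.mem_coe, SetLike.mem_coe, h.mem_power_iff hGn (by omega),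
        h.mem_power_iff hGn (by omega), ← h.cd.index_le_iff, ← h.cd.index_le_iff,
        show n - (n - i) = i by omega, show n - (n - (i - 1)) = i - 1 by omega]
      obtain ⟨j, hj⟩ := exists_relIndex_eq hG (centralizer ({g} : Set G)) ⊤
      rw [relIndex_top_right] at hj
      rw [hj, Nat.pow_le_pow_iff_right hp'.one_lt, Nat.pow_le_pow_iff_right hp'.one_lt,
        Nat.pow_right_inj hp'.one_lt]
      omega
    have hsub : (powerClosure p (n - (i - 1)) (⊤ : Subgroup G) : Set G) ⊆ (powerClosure p (n - i) (⊤ : Subgroup G) : Set G) := by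
      intro g hg
      rw [SetLike.mem_coe, h.mem_power_iff hGn (by omega)] at hg ⊢
      rw [show n - (n - i) = (n - (n - (i - 1))) + 1 by omega, pow_succ, pow_mul]
      exact pow_mem hg _
    simp only [key]
    have e : Nat.card {g : G // g ∈ (powerClosure p (n - i) (⊤ : Subgroup G) : Set G) \ (powerClosure p (n - (i - 1)) (⊤ : Subgroup G) : Set G)} =
        ((powerClosure p (n - i) (⊤ : Subgroup G) : Set G) \ (powerClosure p (n - (i - 1)) (⊤ : Subgroup G) : Set G)).ncard := rfl
    have e1 : ∀ H : Subgroup G, (H : Set G).ncard = Nat.card H := fun H => rfl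
    rw [e, Set.ncard_diff hsub, e1, e1, h.card_power hGn (by omega), h.card_power hGn (by omega),
      show n - (n - i) = i by omega, show 2 * (n - (n - (i - 1))) = 2 * i - 2 by omega, Nat.mul_sub]

end Cfsg.Agent.S3881
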