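import Mathlib
import Cfsg.Agent.H28.Meta
-- Template for statement S3882 (row 3882; see /opt/grader/pristine/manifest.json for weights).
-- Copy to Cfsg/Agent/S3882.lean and replace the sorry. The statement below is byte-identical to the frozen
-- statement Cfsg.CfsgFrozen.S3882 (Cfsg/Statements/S3882.lean; the theorem Cfsg.fg3_metacyclic_odd_p_group_power_subgroups_by_class_size);
-- the grader kernel-checks Cfsg.Agent.S3882.result against that frozen type. Keep the theorem IN THIS FILE
-- (a `result` declared elsewhere and merely imported here is not credited); helpers may live anywhere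
-- under Cfsg/Agent/.
import Cfsg.Statements.S3882
-- import your own Cfsg.Agent.* helpers here

set_option autoImplicit false
open Cfsg

namespace Cfsg.Agent.S3882

/-- Let p be an odd prime and G a finite metacyclic p-group (G has a cyclic normal subgroup with cyclic quotient). Suppose |G'| = p^n and 0 ≤ s ≤ n. Then an element g lies in the subgroup generated by the p^s-th powers if and only if its conjugacy class has at most p^(n−s) elements; in particular the subgroup generated by the p^n-th powers is the center of G. -/
theorem result {G : Type*} [Group G] [Finite G] {p : ℕ} [Fact p.Prime] (hp : p ≠ 2) (hG : IsPGroup p G) (hmc : Cfsg.IsMetacyclic G) (n : ℕ) (hGn : Nat.card ↥(commutator G) = p ^ n) (s : ℕ) (hs : s ≤ n) (g : G) :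
    (g ∈ Subgroup.closure {x : G | ∃ y : G, y ^ p ^ s = x} ↔ (Subgroup.centralizer ({g} : Set G)).index ≤ p ^ (n - s)) ∧
      Subgroup.closure {x : G | ∃ y : G, y ^ p ^ n = x} = Subgroup.center G := by
  open Subgroup Cfsg.Agent.H3 Cfsg.Agent.H28.Mc in
  open scoped commutatorElement Pointwise in
  · have h : MH p G := ⟨hp, hG, hmc⟩
    rw [closure_eq_power, closure_eq_power, h.cd.index_le_iff, h.mem_power_iff hGn hs]
    refine ⟨Iff.rfl, ?_⟩
    ext x
    rw [h.mem_power_iff hGn le_rfl, Nat.sub_self, pow_zero, pow_one]

end Cfsg.Agent.S3882
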