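import Mathlib
import Cfsg.Agent.H28.Meta
-- Template for statement S3883 (row 3883; see /opt/grader/pristine/manifest.json for weights).
-- Copy to Cfsg/Agent/S3883.lean and replace the sorry. The statement below is byte-identical to the frozen
-- statement Cfsg.CfsgFrozen.S3883 (Cfsg/Statements/S3883.lean; the theorem Cfsg.fg3_metacyclic_odd_p_group_abelian_centralizer_iff_outside_frattini);
-- the grader kernel-checks Cfsg.Agent.S3883.result against that frozen type. Keep the theorem IN THIS FILE
-- (a `result` declared elsewhere and merely imported here is not credited); helpers may live anywhere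
-- under Cfsg/Agent/.
import Cfsg.Statements.S3883
-- import your own Cfsg.Agent.* helpers here

set_option autoImplicit false
open Cfsg

namespace Cfsg.Agent.S3883

/-- Let p be an odd prime and G a finite metacyclic p-group (G has a cyclic normal subgroup with cyclic quotient). Suppose G is non-abelian. Then an element g of G lies outside the Frattini subgroup if and only if its centralizer C_G(g) is abelian. -/
theorem result {G : Type*} [Group G] [Finite G] {p : ℕ} [Fact p.Prime] (hp : p ≠ 2) (hG : IsPGroup p G) (hmc : Cfsg.IsMetacyclic G) (hna : ¬ IsMulCommutative G) (g : G) :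
    g ∉ frattini G ↔ IsMulCommutative ↥(Subgroup.centralizer ({g} : Set G)) := by
  open Subgroup Cfsg.Agent.H3 Cfsg.Agent.H28.Mc in
  open scoped commutatorElement Pointwise in
  · have h : MH p G := ⟨hp, hG, hmc⟩
    have hp' : p.Prime := Fact.out
    obtain ⟨n, hn⟩ := exists_card_eq_pow hG (commutator G)
    have hb : commutator G ≠ ⊥ := fun hc => hna (by
      rw [← isMulCommutative_top_iff, isMulCommutative_iff_commutator]; exact hc)
    obtain ⟨m, rfl⟩ : ∃ m, n = m + 1 := by
      rcases n with _ | m
      · exact absurd (card_eq_one.1 (by simpa using hn)) hb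
      · exact ⟨m, rfl⟩
    rw [h.frattini_eq, h.mem_power_iff hn (by omega), ← h.cd.index_le_iff, h.comm_iff, Nat.add_sub_cancel]
    obtain ⟨j, hj⟩ := exists_relIndex_eq hG (centralizer ({g} : Set G)) ⊤
    rw [relIndex_top_right] at hj
    have h1 := (centralizer ({g} : Set G)).card_mul_index
    have h2 := (commutator G).card_mul_index
    rw [hj] at h1 ⊢
    rw [hn, ← h1] at h2
    have h3 : 0 < Nat.card (centralizer ({g} : Set G)) := Nat.card_pos
    rw [not_le, Nat.pow_lt_pow_iff_right hp'.one_lt, ← Nat.succ_le_iff, ← Nat.pow_le_pow_iff_right hp'.one_lt,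
      ← Nat.mul_le_mul_left_iff h3, ← h2, mul_comm, Nat.mul_le_mul_left_iff (pow_pos hp'.pos _)]

end Cfsg.Agent.S3883
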