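import Mathlib
import Cfsg.Agent.H28.Meta
-- Template for statement S3884 (row 3884; see /opt/grader/pristine/manifest.json for weights).
-- Copy to Cfsg/Agent/S3884.lean and replace the sorry. The statement below is byte-identical to the frozen
-- statement Cfsg.CfsgFrozen.S3884 (Cfsg/Statements/S3884.lean; the theorem Cfsg.fg3_metacyclic_odd_p_group_factorizes_as_disjoint_cyclic_product);
-- the grader kernel-checks Cfsg.Agent.S3884.result against that frozen type. Keep the theorem IN THIS FILE
-- (a `result` declared elsewhere and merely imported here is not credited); helpers may live anywhere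
-- under Cfsg/Agent/.
import Cfsg.Statements.S3884
-- import your own Cfsg.Agent.* helpers here

set_option autoImplicit false
open Cfsg

namespace Cfsg.Agent.S3884

/-- Let p be an odd prime and G a finite metacyclic p-group (G has a cyclic normal subgroup with cyclic quotient). Then G is the product of two cyclic subgroups with trivial intersection: there are cyclic subgroups A and B with A ∩ B = 1 and |A| · |B| = |G|. -/
theorem result {G : Type*} [Group G] [Finite G] {p : ℕ} [Fact p.Prime] (hp : p ≠ 2) (hG : IsPGroup p G) (hmc : Cfsg.IsMetacyclic G) : ∃ A B : Subgroup G, IsCyclic ↥A ∧ IsCyclic ↥B ∧ A ⊓ B = ⊥ ∧ Nat.card ↥A * Nat.card ↥B = Nat.card G := by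
  open Subgroup Cfsg.Agent.H3 Cfsg.Agent.H28.Mc in
  open scoped commutatorElement Pointwise in
  · have h : MH p G := ⟨hp, hG, hmc⟩
    obtain ⟨x, y, h1, h2⟩ := h.exists_split
    exact ⟨zpowers x, zpowers y, isCyclic_zpowers' x, isCyclic_zpowers' y, h1, by
      rw [Nat.card_zpowers, Nat.card_zpowers, h2]⟩

end Cfsg.Agent.S3884
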