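import Mathlib
import Cfsg.Agent.H28.Meta
-- Template for statement S3885 (row 3885; see /opt/grader/pristine/manifest.json for weights).
-- Copy to Cfsg/Agent/S3885.lean and replace the sorry. The statement below is byte-identical to the frozen
-- statement Cfsg.CfsgFrozen.S3885 (Cfsg/Statements/S3885.lean; the theorem Cfsg.fg3_metacyclic_odd_p_group_abelian_overgroup_of_center_is_center_of_its_centralizer);
-- the grader kernel-checks Cfsg.Agent.S3885.result against that frozen type. Keep the theorem IN THIS FILE
-- (a `result` declared elsewhere and merely imported here is not credited); helpers may live anywhere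
-- under Cfsg/Agent/.
import Cfsg.Statements.S3885
-- import your own Cfsg.Agent.* helpers here

set_option autoImplicit false
open Cfsg

namespace Cfsg.Agent.S3885

/-- Let p be an odd prime and G a finite metacyclic p-group (G has a cyclic normal subgroup with cyclic quotient). Then every abelian subgroup K of G containing the center of G is the center of its own centralizer: K = Z(C_G(K)). -/
theorem result {G : Type*} [Group G] [Finite G] {p : ℕ} [Fact p.Prime] (hp : p ≠ 2) (hG : IsPGroup p G) (hmc : Cfsg.IsMetacyclic G) (K : Subgroup G) (hK : IsMulCommutative ↥K) (hZ : Subgroup.center G ≤ K) :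
    K = Subgroup.centralizer (K : Set G) ⊓ Subgroup.centralizer (Subgroup.centralizer (K : Set G) : Set G) := by
  open Subgroup Cfsg.Agent.H3 Cfsg.Agent.H28.Mc in
  open scoped commutatorElement Pointwise in
  · have h : MH p G := ⟨hp, hG, hmc⟩
    rw [h.cd.cc_eq hZ]
    exact (inf_eq_right.2 fun x hx y hy => comm_of_isMulCommutative hK hy hx).symm

end Cfsg.Agent.S3885
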