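import Mathlib
import Cfsg.Agent.H28.Meta
-- Template for statement S3886 (row 3886; see /opt/grader/pristine/manifest.json for weights).
-- Copy to Cfsg/Agent/S3886.lean and replace the sorry. The statement below is byte-identical to the frozen
-- statement Cfsg.CfsgFrozen.S3886 (Cfsg/Statements/S3886.lean; the theorem Cfsg.fg3_metacyclic_odd_p_group_centrally_large_subgroups);
-- the grader kernel-checks Cfsg.Agent.S3886.result against that frozen type. Keep the theorem IN THIS FILE
-- (a `result` declared elsewhere and merely imported here is not credited); helpers may live anywhere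
-- under Cfsg/Agent/.
import Cfsg.Statements.S3886
-- import your own Cfsg.Agent.* helpers here

set_option autoImplicit false
open Cfsg

namespace Cfsg.Agent.S3886

/-- Let p be an odd prime and G a finite metacyclic p-group (G has a cyclic normal subgroup with cyclic quotient). Then the largest value of |R| · |Z(R)| over subgroups R of G is |G : G'|², and the subgroups attaining it (the centrally large subgroups) are exactly the non-abelian subgroups together with the maximal abelian subgroups of G. -/
theorem result {G : Type*} [Group G] [Finite G] {p : ℕ} [Fact p.Prime] (hp : p ≠ 2) (hG : IsPGroup p G) (hmc : Cfsg.IsMetacyclic G) : Cfsg.maxCentralProduct G = (commutator G).index ^ 2 ∧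
    ∀ R : Subgroup G, Cfsg.IsCentrallyLarge R ↔ (¬ IsMulCommutative ↥R ∨ Maximal (fun K : Subgroup G => IsMulCommutative ↥K) R) := by
  open Subgroup Cfsg.Agent.H3 Cfsg.Agent.H28.Mc in
  open scoped commutatorElement Pointwise in
  · have h : MH p G := ⟨hp, hG, hmc⟩
    have h1 : Cfsg.maxCentralProduct G = (commutator G).index ^ 2 := by
      refine IsGreatest.csSup_eq ⟨⟨⊤, ?_⟩, ?_⟩
      · rw [← h.card_mul_center, card_top, Nat.card_congr (centerCongr (topEquiv (G := G))).toEquiv]
      · rintro _ ⟨R, rfl⟩
        exact h.central_le R
    refine ⟨h1, fun R => ?_⟩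
    rw [Cfsg.IsCentrallyLarge, h1]
    by_cases hR : IsMulCommutative R
    · rw [card_center_of_comm hR, h.maximal_iff, ← sq, Nat.pow_left_inj two_ne_zero]
      simp [hR]
    · simp [hR, h.central_eq_of_nonab hR]

end Cfsg.Agent.S3886
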