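import Mathlib
import Cfsg.Agent.H28.Meta
-- Template for statement S3887 (row 3887; see /opt/grader/pristine/manifest.json for weights).
-- Copy to Cfsg/Agent/S3887.lean and replace the sorry. The statement below is byte-identical to the frozen
-- statement Cfsg.CfsgFrozen.S3887 (Cfsg/Statements/S3887.lean; the theorem Cfsg.fg3_metacyclic_odd_p_group_centralizer_large_iff_contains_center);
-- the grader kernel-checks Cfsg.Agent.S3887.result against that frozen type. Keep the theorem IN THIS FILE
-- (a `result` declared elsewhere and merely imported here is not credited); helpers may live anywhere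
-- under Cfsg/Agent/.
import Cfsg.Statements.S3887
-- import your own Cfsg.Agent.* helpers here

set_option autoImplicit false
open Cfsg

namespace Cfsg.Agent.S3887

/-- Let p be an odd prime and G a finite metacyclic p-group (G has a cyclic normal subgroup with cyclic quotient). Then a subgroup R of G maximizes |R| · |C_G(R)| over all subgroups of G if and only if R contains the center of G. -/
theorem result {G : Type*} [Group G] [Finite G] {p : ℕ} [Fact p.Prime] (hp : p ≠ 2) (hG : IsPGroup p G) (hmc : Cfsg.IsMetacyclic G) (R : Subgroup G) : Cfsg.IsCentralizerLarge R ↔ Subgroup.center G ≤ R := by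
  open Subgroup Cfsg.Agent.H3 Cfsg.Agent.H28.Mc in
  open scoped commutatorElement Pointwise in
  · have h : MH p G := ⟨hp, hG, hmc⟩
    have h1 : Cfsg.maxCentralizerProduct G = Nat.card G * Nat.card (center G) := by
      refine IsGreatest.csSup_eq ⟨⟨⊤, h.cd.eq_of_center_le le_top⟩, ?_⟩
      rintro _ ⟨R, rfl⟩
      exact h.cd.le_top' R
    rw [Cfsg.IsCentralizerLarge, h1]
    exact ⟨h.cd.center_le_of_eq, h.cd.eq_of_center_le⟩

end Cfsg.Agent.S3887
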