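import Cfsg.Statements.S3897
import Mathlib
import Cfsg.Agent.H27.KCount

set_option autoImplicit false
open Cfsg

namespace Cfsg.Agent.S3897

/-- Let p be an odd prime and G a finite group with Sylow p-subgroup P, and write k_p(G) for the number of conjugacy classes of G consisting of p-elements (elements of p-power order, the identity included). Then k_p(G) > (p + 1)|P|/(2p) if and only if G has a normal p-complement and P is abelian. -/
theorem result {G : Type*} [Group G] [Finite G] {p : ℕ} [Fact p.Prime] (hp : p ≠ 2) (P : Sylow p G) :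
    (p + 1) * Nat.card ↥(P : Subgroup G) < 2 * p * Nat.card {c : ConjClasses G // ∀ x ∈ c.carrier, ∃ k : ℕ, orderOf x = p ^ k} ↔
      Cfsg.HasNormalPComplement p G ∧ IsMulCommutative ↥(P : Subgroup G) := by
  constructor
  · exact H27.hasNPC_and_comm_of_lt_kP P
  · rintro ⟨h1, h2⟩
    change _ < 2 * p * H27.kP p G
    have h3 : Nat.card (ConjClasses (P : Subgroup G)) = Nat.card (P : Subgroup G) := by
      refine (Nat.card_eq_of_bijective ConjClasses.mk ⟨fun x y h => ?_, ConjClasses.mk_surjective⟩).symm
      obtain ⟨c, hc⟩ := isConj_iff.1 (ConjClasses.mk_eq_mk_iff_isConj.1 h)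
      rw [← hc, h2.is_comm.comm c x, mul_inv_cancel_right]
    rw [H27.kP_eq_card_conjClasses P h1, h3]
    have := (Fact.out : p.Prime).one_lt
    exact Nat.mul_lt_mul_of_pos_right (by omega) Nat.card_pos

end Cfsg.Agent.S3897
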