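import Cfsg.Statements.S3898
import Mathlib
import Cfsg.Agent.H27.KCount

set_option autoImplicit false
open Cfsg

namespace Cfsg.Agent.S3898

open Subgroup

/-- Let π be a finite set of primes containing 2 and G a finite group. Write k_π(G) for the number of conjugacy classes of G consisting of π-elements (elements all of whose order's prime divisors lie in π) and |G|_π for the π-part of the order of G. If k_π(G) > |G|_π/2, then G has a normal π-complement (a normal subgroup of order prime to π whose index is a π-number) and an abelian Hall subgroup for the set of odd primes in π. -/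
theorem result {G : Type*} [Group G] [Finite G] (π : Finset ℕ) (hπ : ∀ r ∈ π, r.Prime) (h2 : 2 ∈ π)
    (hk : π.prod (fun r => r ^ (Nat.card G).factorization r) < 2 * Nat.card {c : ConjClasses G // ∀ x ∈ c.carrier, ∀ r : ℕ, r.Prime → r ∣ orderOf x → r ∈ π}) :
    (∃ N : Subgroup G, N.Normal ∧ (∀ r : ℕ, r.Prime → r ∣ Nat.card ↥N → r ∉ π) ∧ ∀ r : ℕ, r.Prime → r ∣ N.index → r ∈ π) ∧ ∃ H : Subgroup G, Cfsg.IsPiHall ((↑π : Set ℕ) \ {2}) H ∧ IsMulCommutative ↥H := by
  have hk' : 1 * ∏ r ∈ π, r ^ (Nat.card G).factorization r < 2 * H27.kPi π G := by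
    rw [one_mul]; exact hk
  have h1 : HasNormalPComplement 2 G := H27.hasNPC_two_of_lt_kP default
    (by simpa using H27.lt_kP_of_lt_kPi π hπ h2 default hk')
  set K := pResidual 2 G with hK
  have hK1 : Nat.Coprime (Nat.card K) 2 := H4.hasNPC_iff_pResidual.1 h1
  obtain ⟨m, hm⟩ : ∃ m, K.index = 2 ^ m := IsPGroup.iff_card.1 (H4.isPGroup_quotient_pResidual 2)
  have hS : ∀ q : ℕ, q ≠ 2 → ∀ [Fact q.Prime] (Q : Sylow q K), ∃ Q' : Sylow q G,
      (Q' : Subgroup G) = (Q : Subgroup K).map K.subtype := by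
    intro q hq hq' Q
    have h3 := H4.IsSylowIn.of_sylow_map Q
    refine H4.IsSylowIn.exists_sylow_of_top ⟨le_top, h3.isPGroup, ?_⟩
    rw [relIndex_top_right, ← relIndex_mul_index h3.le, hm]
    intro h4
    rcases hq'.out.dvd_mul.1 h4 with h5 | h5
    · exact h3.not_dvd h5
    · exact hq ((Nat.prime_dvd_prime_iff_eq hq'.out Nat.prime_two).1 (hq'.out.dvd_of_dvd_pow h5))
  obtain ⟨N, hN, h3, h4, H, hH, hH'⟩ := H27.exists_normal_compl_of_forall (G := K) (π \ {2}) (by
    rintro q ⟨hq, hq2⟩ _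
    have hq2' : q ≠ 2 := hq2
    constructor
    · by_contra hn
      obtain ⟨P, T, hT, hZ, r, hr, hrq, g, hg, ⟨k, hk⟩, hg'⟩ := H27.exists_aut_of_not_hasNPC hn
      obtain ⟨P', hP'⟩ := hS q hq2' P
      have h5 := H27.lt_kP_of_lt_kPi π hπ hq P' hk'
      rw [one_mul] at h5
      refine absurd (H27.two_mul_kP_le_of_odd P' (T.map K.subtype) (hP' ▸ map_mono hT) ?_ hr ?_ hrq
        (g := g) ?_ (k := k) ?_ ?_) (not_le.2 h5)
      · rintro x ⟨hx, hx'⟩
        rw [hP'] at hx
        obtain ⟨x, hx, rfl⟩ := hx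
        refine mem_map_of_mem _ (hZ ⟨hx, fun y hy => Subtype.ext (hx' y ?_)⟩)
        change (y : G) ∈ (P' : Subgroup G)
        rw [hP']
        exact mem_map_of_mem _ (hT hy)
      · rintro rfl
        apply hg'
        have h6 : orderOf g ∣ 2 ^ k := orderOf_dvd_of_pow_eq_one hk
        have h7 : orderOf g = 1 := Nat.eq_one_of_dvd_coprimes (hK1.pow_right k)
          (orderOf_dvd_natCard g) h6
        rw [orderOf_eq_one_iff.1 h7]
        exact one_mem _
      · exact le_normalizer_map K.subtype (mem_map_of_mem _ hg)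
      · rw [← coe_pow, hk, coe_one]
      · intro h6
        exact hg' fun y hy => Subtype.ext (h6 y (mem_map_of_mem _ hy))
    · intro Q
      obtain ⟨Q', hQ'⟩ := hS q hq2' Q
      have h5 := H27.isMulCommutative_of_lt_kP hq2' Q'
        (by simpa using H27.lt_kP_of_lt_kPi π hπ hq Q' hk')
      refine ⟨⟨fun a b => Subtype.ext (Subtype.ext ?_)⟩⟩
      have ha : ((a : K) : G) ∈ (Q' : Subgroup G) := hQ' ▸ mem_map_of_mem _ a.2
      have hb : ((b : K) : G) ∈ (Q' : Subgroup G) := hQ' ▸ mem_map_of_mem _ b.2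
      have := congrArg Subtype.val (h5.is_comm.comm ⟨_, ha⟩ ⟨_, hb⟩)
      exact this)
  refine ⟨⟨N.map K.subtype, inferInstance, ?_, ?_⟩, H.map K.subtype, ⟨?_, ?_⟩, inferInstance⟩
  · intro r hr hrN hrπ
    rw [card_subtype] at hrN
    refine h3 r hr hrN ⟨hrπ, ?_⟩
    rintro rfl
    exact (Nat.Prime.coprime_iff_not_dvd Nat.prime_two).1 hK1.symm
      (hrN.trans N.card_subgroup_dvd_card)
  · intro r hr hrN
    rw [index_map_subtype, hm] at hrN
    rcases hr.dvd_mul.1 hrN with h5 | h5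
    · exact (h4 r hr h5).1
    · rw [(Nat.prime_dvd_prime_iff_eq hr Nat.prime_two).1 (hr.dvd_of_dvd_pow h5)]; exact h2
  · rw [card_subtype]; exact hH.1
  · intro r hr hrπ hrH
    rw [index_map_subtype, hm] at hrH
    rcases hr.dvd_mul.1 hrH with h5 | h5
    · exact hH.2 r hr hrπ h5
    · exact hrπ.2 ((Nat.prime_dvd_prime_iff_eq hr Nat.prime_two).1 (hr.dvd_of_dvd_pow h5))

end Cfsg.Agent.S3898
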