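import Cfsg.Statements.S3899
import Mathlib
import Cfsg.Agent.H27.KCount

set_option autoImplicit false
open Cfsg

namespace Cfsg.Agent.S3899

/-- Let π be a finite non-empty set of odd primes with smallest member p and G a finite group. Write k_π(G) for the number of conjugacy classes of G consisting of π-elements (elements all of whose order's prime divisors lie in π) and |G|_π for the π-part of the order of G. If k_π(G) > (p + 1)|G|_π/(2p), then G has a normal π-complement (a normal subgroup of order prime to π whose index is a π-number) and an abelian Hall π-subgroup. -/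
theorem result {G : Type*} [Group G] [Finite G] (π : Finset ℕ) (hπ : ∀ r ∈ π, r.Prime) (h2 : 2 ∉ π) (p : ℕ) (hp : p ∈ π)
    (hmin : ∀ r ∈ π, p ≤ r) (hk : (p + 1) * π.prod (fun r => r ^ (Nat.card G).factorization r) < 2 * p * Nat.card {c : ConjClasses G // ∀ x ∈ c.carrier, ∀ r : ℕ, r.Prime → r ∣ orderOf x → r ∈ π}) :
    (∃ N : Subgroup G, N.Normal ∧ (∀ r : ℕ, r.Prime → r ∣ Nat.card ↥N → r ∉ π) ∧ ∀ r : ℕ, r.Prime → r ∣ N.index → r ∈ π) ∧ ∃ H : Subgroup G, Cfsg.IsPiHall (↑π : Set ℕ) H ∧ IsMulCommutative ↥H := by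
  have hk' : (p + 1) * ∏ r ∈ π, r ^ (Nat.card G).factorization r < 2 * p * H27.kPi π G := hk
  have key : ∀ q ∈ (π : Set ℕ), ∀ [Fact q.Prime] (Q : Sylow q G),
      HasNormalPComplement q G ∧ IsMulCommutative (Q : Subgroup G) := by
    intro q hq _ Q
    apply H27.hasNPC_and_comm_of_lt_kP Q
    have h1 := H27.lt_kP_of_lt_kPi π hπ hq Q hk'
    have h3 := hmin q hq
    have h4 := (hπ p hp).pos
    refine lt_of_mul_lt_mul_left (a := p) ?_ (Nat.zero_le _)
    obtain ⟨d, rfl⟩ := Nat.exists_eq_add_of_le h3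
    have h5 : d * ((p + 1) * Nat.card (Q : Subgroup G)) ≤ d * (2 * p * H27.kP (p + d) G) :=
      Nat.mul_le_mul_left _ h1.le
    have h6 : p * ((p + 1) * Nat.card (Q : Subgroup G)) < p * (2 * p * H27.kP (p + d) G) :=
      Nat.mul_lt_mul_of_pos_left h1 h4
    nlinarith [Nat.zero_le (d * Nat.card (Q : Subgroup G))]
  obtain ⟨N, hN, h1, h3, H, hH⟩ := H27.exists_normal_compl_of_forall (G := G) π
    fun q hq _ => ⟨(key q hq default).1, fun Q => (key q hq Q).2⟩
  exact ⟨⟨N, inferInstance, h1, h3⟩, H, hH⟩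

end Cfsg.Agent.S3899
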