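import Cfsg.Statements.S3900
import Mathlib
import Cfsg.Agent.S0200
import Cfsg.Agent.H8.ZStar
import Cfsg.Agent.H23.Cop

set_option autoImplicit false
open Cfsg

namespace Cfsg.Agent.S3900

open Subgroup Cfsg.Agent.FT
open scoped commutatorElement

universe u

section
variable {G : Type u} [Group G] {M P K L : Subgroup G} {x y a : G} {k n p q : ℕ} {π : Set ℕ}

/-- left-normed commutator values with entries in `M`. -/
inductive Val (M : Subgroup G) : ℕ → G → Prop
  | zero {x : G} (h : x ∈ M) : Val M 0 x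
  | succ {n : ℕ} {x y : G} (h : Val M n x) (hy : y ∈ M) : Val M (n + 1) ⁅x, y⁆

theorem Val.mem_lcs (h : Val M n x) : x ∈ M.lowerCentralSeries n := by
  induction h with
  | zero h => exact h
  | succ _ hy ih => exact commutator_mem_commutator ih hy

theorem Val.mem (h : Val M n x) : x ∈ M := lowerCentralSeries_le_self M n h.mem_lcs

theorem Val.mono (h : Val M n x) (hM : M ≤ L) : Val L n x := by
  induction h with
  | zero h => exact .zero (hM h)
  | succ _ hy ih => exact .succ ih (hM hy)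

theorem Val.comm (h : Val M n x) (hy : y ∈ M) : Val M n ⁅x, y⁆ := by
  induction h generalizing y with
  | zero h => exact .zero (Val.mem (.succ (.zero h) hy))
  | succ _ hz ih => exact .succ (ih hz) hy

theorem Val.conj (h : Val M n x) (hy : y ∈ M) : Val M n (y * x * y⁻¹) := by
  induction h with
  | zero h => exact .zero (mul_mem (mul_mem hy h) (inv_mem hy))
  | succ _ hz ih =>
    rw [conjugate_commutatorElement]
    exact .succ ih (mul_mem (mul_mem hy hz) (inv_mem hy))

theorem Val.inv (h : Val M n x) : Val M n x⁻¹ := by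
  induction h with
  | zero h => exact .zero (inv_mem h)
  | @succ n x y hx hz ih =>
    have : ⁅x, y⁆⁻¹ = x * ⁅x⁻¹, y⁆ * x⁻¹ := by simp only [commutatorElement_def]; group
    rw [this]
    exact (Val.succ ih hz).conj hx.mem

theorem Val.iter (hx : x ∈ M) (ha : a ∈ M) (n : ℕ) : Val M n ((fun z => ⁅z, a⁆)^[n] x) := by
  induction n with
  | zero => exact .zero hx
  | succ n ih => rw [Function.iterate_succ_apply']; exact .succ ih ha

theorem Val.exists (h : Val M n x) : ∃ f : Fin (n + 1) → G,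
    x = ((List.ofFn f).tail).foldl (fun a b => a * b * a⁻¹ * b⁻¹) (f 0) := by
  induction h with
  | @zero x h => exact ⟨fun _ => x, by simp⟩
  | @succ n x y _ hz ih =>
    obtain ⟨f, rfl⟩ := ih
    refine ⟨Fin.snoc (α := fun _ => G) f y, ?_⟩
    rw [List.ofFn_succ_last (f := Fin.snoc (α := fun _ => G) f y)]
    simp only [Fin.snoc_castSucc, Fin.snoc_last]
    rw [List.tail_append_of_ne_nil (by simp), List.foldl_append]
    have : (Fin.snoc (α := fun _ => G) f y : Fin (n + 2) → G) 0 = f 0 :=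
      Fin.snoc_castSucc (α := fun _ => G) y f 0
    rw [this]
    rfl

theorem val_of (n : ℕ) (f : Fin (n + 1) → G) :
    Val ⊤ n (((List.ofFn f).tail).foldl (fun a b => a * b * a⁻¹ * b⁻¹) (f 0)) := by
  induction n with
  | zero => exact .zero (mem_top _)
  | succ n ih =>
    rw [List.ofFn_succ_last, List.tail_append_of_ne_nil (by simp), List.foldl_append]
    exact .succ (ih fun i => f i.castSucc) (mem_top _)

theorem lcs_le (n : ℕ) : ∀ K : Subgroup G, P ≤ N(K) → (∀ x, Val P n x → x ∈ K) →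
    P.lowerCentralSeries n ≤ K := by
  induction n with
  | zero => exact fun K _ h x hx => h x (.zero hx)
  | succ n ih =>
    intro K hK h
    let K' : Subgroup G :=
      { carrier := {g | g ∈ P ∧ ∀ b ∈ P, ⁅g, b⁆ ∈ K}
        one_mem' := ⟨one_mem _, fun b _ => by simpa using one_mem K⟩
        mul_mem' := fun {g g'} h1 h2 => ⟨mul_mem h1.1 h2.1, fun b hb => by
          have : ⁅g * g', b⁆ = g * ⁅g', b⁆ * g⁻¹ * ⁅g, b⁆ := by
            simp only [commutatorElement_def]; group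
          rw [this]
          exact mul_mem (conj_mem (hK h1.1) (h2.2 b hb)) (h1.2 b hb)⟩
        inv_mem' := fun {g} h1 => ⟨inv_mem h1.1, fun b hb => by
          have : ⁅g⁻¹, b⁆ = g⁻¹ * ⁅g, b⁆⁻¹ * g := by simp only [commutatorElement_def]; group
          rw [this]
          exact conj_mem' (hK h1.1) (inv_mem (h1.2 b hb))⟩ }
    have a : P.lowerCentralSeries n ≤ K' := ih K' (le_nrm_iff.2 fun g hg z hz =>
      ⟨mul_mem (mul_mem hg hz.1) (inv_mem hg), fun b hb => by
        have : ⁅g * z * g⁻¹, b⁆ = g * ⁅z, g⁻¹ * b * g⁆ * g⁻¹ := by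
          simp only [commutatorElement_def]; group
        rw [this]
        exact conj_mem (hK hg) (hz.2 _ (mul_mem (mul_mem (inv_mem hg) hb) hg))⟩)
      fun x hx => ⟨hx.mem, fun b hb => h _ (.succ hx hb)⟩
    exact commutator_le.2 fun g hg b hb => (a hg).2 b hb

theorem norms_lcs (h : K ≤ N(M)) (n : ℕ) : K ≤ N(M.lowerCentralSeries n) := by
  induction n with
  | zero => exact h
  | succ n ih => exact normsR ih h

theorem lcs_cp {A B : Subgroup G} (h : CP A B M) (n : ℕ) :
    M.lowerCentralSeries n ≤ A.lowerCentralSeries n ⊔ B.lowerCentralSeries n := by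
  induction n with
  | zero => exact h.sup.ge
  | succ n ih =>
    have hn : M ≤ N(A.lowerCentralSeries (n + 1) ⊔ B.lowerCentralSeries (n + 1)) :=
      normsY (norms_lcs h.nml_left.nrm _) (norms_lcs h.nml_right.nrm _)
    have hA := lowerCentralSeries_le_self A n
    have hB := lowerCentralSeries_le_self B n
    refine (commSS ih h.sup.ge).trans (comm_sup_le ((sup_le_sup hA hB).trans (h.sup.le.trans hn))
      (comm_sup_le' (h.sup.le.trans hn) le_sup_left ?_) (comm_sup_le' (h.sup.le.trans hn) ?_ le_sup_right))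
    · rw [comm_eq_bot'.2 (centsS hA h.cen)]; exact bot_le
    · rw [comm_eq_bot.2 (hB.trans h.cen)]; exact bot_le

variable [Finite G]

theorem lcs_nil (k n : ℕ) : ∀ M : Subgroup G, #M = n → Nil M →
    (∀ p, p.Prime → O[{p}](M).lowerCentralSeries k = ⊥) → M.lowerCentralSeries k = ⊥ := by
  induction n using Nat.strong_induction_on with
  | _ n ih =>
  intro M hM hn h
  by_cases e : M = ⊥
  · exact eq_bot_of_le (lowerCentralSeries_le_self M k) e
  obtain ⟨p, hp, hd⟩ := exists_prime_dvd_card e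
  have hlt : O[{p}ᶜ](M) < M := lt_of_le_of_ne (pcore_le _ _) fun e' =>
    (pcore_pi {p}ᶜ M).not_dvd hp rfl (e'.symm ▸ hd)
  have := lcs_cp (hn.dp_pcore {p}).cp k
  rw [h p hp, ih _ (hM ▸ card_lt hlt) _ rfl (hn.mono hlt.le) fun q hq => eq_bot_of_le
    (lowerCentralSeries_mono k (hn.pcore_mono _ hlt.le)) (h q hq), sup_idem] at this
  exact le_bot_iff.1 this

theorem engel {Q : Subgroup G} (hQ : PiGrp πᶜ Q) (ha : PiElt π a) (hn : a ∈ N(Q)) (n : ℕ) :
    ∀ y ∈ Q, (fun z => ⁅z, a⁆)^[n] y = 1 → ⁅y, a⁆ = 1 := by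
  have k : ∀ y ∈ Q, ⁅y, a⁆ ∈ Q := fun y hy => by
    have := mul_mem hy (conj_mem hn (inv_mem hy))
    simpa only [commutatorElement_def, mul_assoc] using this
  induction n with
  | zero => rintro y - (rfl : y = 1); simp
  | succ n ih =>
    intro y hy h
    have c := commutatorElement_eq_one_iff_mul_comm.1 (ih _ (k y hy) h)
    have d : y * a * y⁻¹ * a⁻¹ = a⁻¹ * (y * a * y⁻¹) := by
      have : y * a * y⁻¹ = ⁅y, a⁆ * a := by simp only [commutatorElement_def]; group
      rw [this, mul_inv_cancel_right, c, inv_mul_cancel_left]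
    exact ((ha.conj y).mul ha.inv d).eq_one_of_mem hQ (k y hy)

theorem nil_of_cent (h : ∀ r, r.Prime → r ≠ p → ∀ y ∈ M, PiElt {r} y → y ∈ C(M)) : Nil M := by
  have k : ∀ r R, r.Prime → r ≠ p → Syl r R M → R ≤ C(M) := fun r R hr e hR y hy =>
    h r hr e y (hR.le hy) (hR.pi.piElt hy)
  refine nil_of_forall_syl fun r R hr hR => ?_
  by_cases e : r = p
  · refine le_of_forall_syl fun q hq _ => ?_
    by_cases e' : q = r
    · exact ⟨R, e' ▸ hR, le_nrm R⟩
    · obtain ⟨Q, hQ⟩ := exists_syl q M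
      exact ⟨Q, hQ, cents_norm (centsS hR.le (k q Q hq (e ▸ e') hQ))⟩
  · exact cents_norm (centsC (k r R hr e hR))

theorem meta_mem (hL : L ⊴ M) (hn : Nil (L /ₛ F(M))) (hy : y ∈ L) (hq : PiElt {q} y)
    (hc : y ∈ C(O[{q}ᶜ](F(M)))) : y ∈ F(M) := by
  have hF := fitting_nml M
  have hK : qpre(F(M), O[{q}](L /ₛ F(M))) ⊴ M := qpre_nml hF ((hL.quo _).pcore _)
  have hyN : y ∈ N(F(M)) := hF.nrm (hL.le hy)
  have hyK : y ∈ qpre(F(M), O[{q}](L /ₛ F(M))) :=
    mem_qpre.2 ⟨hyN, hn.mem_pcore (mem_quo_of_mem hyN hy) (hq.pfun _)⟩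
  have hD := hK.subcent (pcore_fitting_nml {q}ᶜ M).nrm
  refine fitting_max hD (nil_of_cent (p := q) fun r hr e z hz hz' => ?_) ⟨hyK, hc⟩
  have : z ∈ F(M) := (hz'.pi (π := {q}ᶜ) e).mem_of_relIndex hz.1 (qpre_le _) (by
    rw [relIndex_qpre_self, compl_compl]; exact pcore_pi _ _)
  exact centsC inf_le_right ((fitting_nil M).mem_pcore this (hz'.pi e))

theorem nil_ext {N : Subgroup G} {r : ℕ} (hN : N ⊴ M) (hr : r.Prime) (hi : N.relIndex M = r)
    (hn : Nil N) (h : ∀ q, q.Prime → q ≠ r → ∃ x ∈ M, x ∉ N ∧ x ∈ C(O[{q}](N))) : Nil M := by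
  have k : ∀ q, q.Prime → q ≠ r → Syl q O[{q}](N) M := fun q hq e =>
    (hn.pcore_hall _).of_relIndex hN.le (hi ▸ (piNat_prime hr).2 e.symm)
  refine nil_of_forall_syl' fun q hq _ => ?_
  by_cases e : q = r
  swap
  · exact ⟨_, k q hq e, (hN.pcore _).nrm⟩
  subst e
  obtain ⟨R, hR⟩ := exists_syl q M
  refine ⟨R, hR, le_of_forall_syl fun s hs _ => ?_⟩
  by_cases e : s = q
  · exact ⟨R, e ▸ hR, le_nrm R⟩
  refine ⟨_, k s hs e, cents_norm (centsC ?_)⟩
  obtain ⟨x, hx, hx', hc⟩ := h s hs e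
  have hD : M ⊓ C(O[{s}](N)) ⊴ M := subcent_nml (hN.pcore _).nrm
  have a : N ⊔ (M ⊓ C(O[{s}](N))) = M := (maxIn_of_prime_relIndex (hi ▸ hr) hN.le).sup_eq
    inf_le_left fun b => hx' (b ⟨hx, hc⟩)
  have b : PiNat {q}ᶜ ((M ⊓ C(O[{s}](N))).relIndex M) := by
    rw [(mulEq_of_sup (inf_le_left.trans hN.nrm) a).relIndex_right]
    exact (hn.pcore_hall _).relIndex_of_le (le_inf ((pcore_le _ _).trans hN.le)
      (hn.cents_of_pi (pcore_le _ _) (pcore_le _ _) (pcore_pi _ _) ((pcore_pi _ _).pi e)))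
  obtain ⟨R', hR', c⟩ := (p'nat_relIndex_iff inf_le_left).1 b
  exact (hR'.le_of_syl_le hD.nrm c hR.pi hR.le).trans inf_le_right

/-- the consequence of the hypothesis that is used. -/
def Star (G : Type u) [Group G] (k : ℕ) : Prop :=
  ∀ (π : Set ℕ) (x : G) (Q : Subgroup G), Val ⊤ k x → PiElt π x → PiGrp πᶜ Q → x ∈ N(Q) → x ∈ C(Q)

theorem Star.mem (h : Star G k) (hL : L ⊴ M) (hn : Nil (L /ₛ F(M))) (hP : PGrp q P) (hle : P ≤ L)
    (hv : Val ⊤ k y) (hy : y ∈ P) : y ∈ F(M) :=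
  meta_mem hL hn (hle hy) (hP.piElt hy) (h _ _ _ hv (hP.piElt hy) (pcore_pi _ _)
    ((pcore_fitting_nml _ M).nrm (hL.le (hle hy))))

theorem Star.of_nil (h : Star G k) (hn : Nil (M /ₛ F(M))) : M.lowerCentralSeries k ≤ F(M) := by
  have hF := (fitting_nml M).nrm
  rw [← quo_eq_bot ((lowerCentralSeries_le_self M k).trans hF), lcs_quo hF]
  refine lcs_nil k _ _ rfl hn fun p hp => ?_
  obtain ⟨P, hP⟩ := exists_syl p M
  rw [← hn.hall_eq (hP.quo hF), ← lcs_quo (hP.le.trans hF)]
  exact quo_eq_bot_of_le (lcs_le k _ (hP.le.trans hF) fun x hx =>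
    h.mem (Nml.refl M) hn hP.pi hP.le (hx.mono le_top) hx.mem)

theorem Star.nil_quo (h : Star G k) {N : Subgroup G} (hN : N ⊴ M) (hr : (N.relIndex M).Prime)
    (hk : N.lowerCentralSeries k ≤ F(N)) : Nil (M /ₛ F(M)) := by
  have hF := fitting_nml M
  have hNF := hN.le.trans hF.nrm
  have hn : Nil (N /ₛ F(M)) := (nil_quo_iff hNF).2 ⟨k, hk.trans (fitting_mono_nml hN)⟩
  by_cases hFN : F(M) ≤ N
  swap
  · have := quo_sup_right hNF
    rw [(maxIn_of_prime_relIndex hr hN.le).sup_eq hF.le hFN] at this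
    exact this ▸ hn
  set r := N.relIndex M with hrd
  refine nil_ext (hN.quo _) hr (relIndex_quo_of_nml (hF.mono hFN hN.le) hF.nrm) hn fun q hq e => ?_
  obtain ⟨Q, hQ⟩ := exists_syl q N
  have hQF := hQ.le.trans hNF
  have e1 : Q /ₛ F(M) = O[{q}](N /ₛ F(M)) := hn.hall_eq (hQ.quo hNF)
  have hK : F(M) ⊔ Q ⊴ M := by
    rw [← qpre_quo hQF, e1]; exact qpre_nml hF ((hN.quo _).pcore _)
  have fr := (hQ.subl le_sup_right (sup_le hFN hQ.le)).frattini hK
  have : ¬ M ⊓ N(Q) ≤ N := fun a => (maxIn_of_prime_relIndex hr hN.le).lt.not_ge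
    (fr.sup.ge.trans (sup_le (sup_le hFN hQ.le) a))
  obtain ⟨x₀, hx₀, hx₀'⟩ := SetLike.not_le_iff_exists.1 this
  have hx : constt {r} x₀ ∈ M ⊓ N(Q) := constt_mem _ hx₀
  have hx' : constt {r} x₀ ∉ N := fun a => hx₀' (mem_of_constt_mem {r} a
    ((piElt_constt _ _).mem_of_relIndex (constt_mem _ hx₀.1) hN.nrm
      (by rw [compl_compl]; exact (piNat_prime hr).2 rfl)))
  have hxr := piElt_constt {r} x₀
  set x := constt {r} x₀
  have hxF := hF.nrm hx.1
  refine ⟨coset(F(M), x), mem_quo_of_mem hxF hx.1, fun a => hx' (mem_of_coset_mem hxF hFN a), ?_⟩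
  rw [← e1, mem_cen]
  intro u hu
  obtain ⟨y, hy, hyF, rfl⟩ := mem_quo.1 hu
  have it : ∀ n, (fun z => ⁅z, x⁆)^[n] y ∈ Q ∧ coset(F(M), (fun z => ⁅z, x⁆)^[n] y) =
      (fun z => ⁅z, coset(F(M), x)⁆)^[n] coset(F(M), y) := fun n => by
    induction n with
    | zero => exact ⟨hy, rfl⟩
    | succ n ih =>
      rw [Function.iterate_succ_apply', Function.iterate_succ_apply', coset_comm (hQF ih.1) hxF, ih.2]
      refine ⟨?_, rfl⟩
      have := mul_mem ih.1 (conj_mem hx.2 (inv_mem ih.1))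
      simpa only [commutatorElement_def, mul_assoc] using this
  refine commutatorElement_eq_one_iff_mul_comm.1 (engel (π := {r}) ((hQ.pi.quo _).pi e) (hxr.pfun _)
    (quo_norms _ (zpowers_le.2 hx.2) (mem_quo_of_mem hxF (mem_zpowers x))) k _ hu ?_)
  rw [← (it k).2]
  exact coset_of_mem (h.mem hN hn hQ.pi hQ.le (Val.iter (mem_top _) (mem_top _) k) (it k).1)

theorem Star.simple (h : Star G k) {X : Type u} [Group X] [Finite X] (f : M →* X)
    (hf : Function.Surjective f) (hk : Sol (pker f)) (hX : ¬ Group.IsSolvable X)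
    (hs : ∀ U : Subgroup X, U ⊴ ⊤ → U = ⊥ ∨ U = ⊤)
    (ih : ∀ L, L < M → L.lowerCentralSeries k ≤ F(L)) : False := by
  have htop : pmap f M = ⊤ := by rw [pmap_dom, MonoidHom.range_eq_top.2 hf]
  have hs' : ∀ U : Subgroup X, U.Normal → Sol U → U = ⊥ := fun U a b =>
    (hs U (nml_top_iff.2 a)).resolve_right fun e => hX (sol_top.1 (e ▸ b))
  have lift : ∀ (π : Set ℕ) (A : Subgroup G) (u : X), u ∈ pmap f A → PiElt π u →
      ∃ x ∈ A, x ∈ M ∧ PiElt π x ∧ pfun f x = u := fun π A u hu hπ => by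
    obtain ⟨x, hx, hxM, rfl⟩ := mem_pmap.1 hu
    exact ⟨constt π x, constt_mem _ hx, constt_mem _ hxM, piElt_constt _ _, by
      rw [pfun_constt f π hxM, hπ.constt_eq]⟩
  have p2 := Nat.prime_two
  haveI := Fact.mk p2
  have step : ∀ j, ∃ a ∈ M, Val ⊤ j a ∧ PiElt {2} a ∧ orderOf (pfun f a) = 2 := fun j => by
    induction j with
    | zero =>
      have : 2 ∣ #(⊤ : Subgroup X) := by
        by_contra a
        exact hX (sol_top.1 (H23.sol_of_odd (Nat.odd_iff.2 (Nat.two_dvd_ne_zero.1 a))))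
      obtain ⟨u, -, hu⟩ := exists_elt_of_prime_dvd p2 this
      obtain ⟨a, ha, -, b, c⟩ := lift {2} M u (htop ▸ mem_top u) ((piElt_of_orderOf_prime p2 hu).2 rfl)
      exact ⟨a, ha, .zero (mem_top a), b, c ▸ hu⟩
    | succ j ih =>
      obtain ⟨a, ha, hv, ha2, hu⟩ := ih
      set u := pfun f a with hud
      have hu1 : u ≠ 1 := fun e => by simp [e] at hu
      have huu : u * u = 1 := by rw [← pow_two, ← hu, pow_orderOf_eq_one]
      have : ¬ IsIsolatedInvolution u := fun i => by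
        have hO : pPrimeCore 2 X = ⊥ := by
          rw [← piCore_compl_singleton p2, ← pcore_top]
          exact hs' _ (nml_top_iff.1 (pcore_nml _ _)) (H23.sol_of_odd (Nat.odd_iff.2
            (Nat.two_dvd_ne_zero.1 ((pcore_pi _ _).not_dvd p2 rfl))))
        have := H8.mem_center_of_isolated i hO
        rw [hs' (center X) inferInstance (Ab.sol (inferInstance : IsMulCommutative (center X)))] at this
        exact hu1 this
      simp only [IsIsolatedInvolution, hu, true_and, not_forall] at this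
      obtain ⟨v, hc, hne⟩ := this
      obtain ⟨g, rfl⟩ := hf v
      rw [← pfun_coe f g] at hc hne
      have hg := g.2
      set g : G := g.1
      have hb : g * a * g⁻¹ ∈ M := mul_mem (mul_mem hg ha) (inv_mem hg)
      have hAb : Ab (⟪u⟫ ⊔ ⟪pfun f g * u * (pfun f g)⁻¹⟫) := (ab_zpowers _).sup (ab_zpowers _)
        (zpowers_le.2 (by rw [cen_zpowers, mem_cen1]; exact hc.eq.symm))
      have h2 : PGrp 2 (⟪u⟫ ⊔ ⟪pfun f g * u * (pfun f g)⁻¹⟫) :=
        (ha2.pfun f).zpowers.sup ((ha2.pfun f).conj _).zpowers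
          (le_sup_right.trans (hAb.norms le_sup_left))
      set L := ppre f (⟪u⟫ ⊔ ⟪pfun f g * u * (pfun f g)⁻¹⟫)
      have haL : a ∈ L := mem_ppre.2 ⟨ha, mem_sup_left (mem_zpowers _)⟩
      have hbL : g * a * g⁻¹ ∈ L := mem_ppre.2 ⟨hb, by
        rw [pfun_conj f hg ha]; exact mem_sup_right (mem_zpowers _)⟩
      obtain ⟨S, hS, haS⟩ := ha2.zpowers.exists_syl (zpowers_le.2 haL)
      obtain ⟨c, hc', hcS⟩ := hS.syl_elt hbL (ha2.conj g)
      have hcM := (mem_ppre.1 hc').1
      have e1 : ⁅a, c * g⁆ = a * (c * (g * a * g⁻¹) * c⁻¹)⁻¹ := by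
        simp only [commutatorElement_def]; group
      have hm : ⁅a, c * g⁆ ∈ S := e1 ▸ mul_mem (haS (mem_zpowers a)) (inv_mem hcS)
      refine ⟨_, ppre_le f _ (hS.le hm), .succ hv (mem_top _), hS.pi.piElt hm, ?_⟩
      have hcb := mul_mem (mul_mem hcM hb) (inv_mem hcM)
      rw [e1, pfun_mul f ha (inv_mem hcb), pfun_inv f hcb, pfun_conj f hcM hb, pfun_conj f hg ha,
        hAb.comm (mem_ppre.1 hc').2 (mem_sup_right (mem_zpowers _)), mul_inv_cancel_right]
      set w := pfun f g * u * (pfun f g)⁻¹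
      have hww : w * w = 1 := by
        calc w * w = pfun f g * (u * u) * (pfun f g)⁻¹ := by simp only [w]; group
          _ = 1 := by rw [huu]; group
      refine orderOf_eq_prime ?_ fun e => hne (mul_inv_eq_one.1 e).symm
      rw [inv_eq_of_mul_eq_one_right hww, pow_two]
      calc u * w * (u * w) = u * (w * u) * w := by group
        _ = (u * u) * (w * w) := by rw [← hc.eq]; group
        _ = 1 := by rw [huu, hww, one_mul]
  obtain ⟨a, ha, hv, ha2, hu⟩ := step k
  set u := pfun f a with hud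
  obtain ⟨t, ht1, hto, hti⟩ := S0200.result u hu fun N a b c => by
    rw [hs' N a (pGrp_of_isPGroup p2 b).sol, mem_bot] at c
    simp [c] at hu
  have hto' : PiElt {2}ᶜ t := (p'elt_iff_coprime p2).2 (Nat.coprime_two_right.2 hto)
  have hn : ⟪u⟫ ≤ N(⟪t⟫) := zpowers_le.2 (mem_nrm_of_cj_le (by
    rw [cj_zpowers, hti]; exact zpowers_le.2 (inv_mem (mem_zpowers t))))
  have hsol : Sol (⟪t⟫ ⊔ ⟪u⟫) := (sol_zpowers t).sup (sol_zpowers u) hn
  set L := ppre f (⟪t⟫ ⊔ ⟪u⟫)
  have hLM : L ≤ M := ppre_le _ _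
  have hL : pmap f L = ⟪t⟫ ⊔ ⟪u⟫ := pmap_ppre_of_le (A := M) (htop ▸ le_top)
  have hlt : L < M := lt_of_le_of_ne hLM fun e => hX (sol_top.1 (hsol.mono (by
    rw [← hL, ← htop]; exact pmap_mono f e.ge)))
  have haL : a ∈ L := mem_ppre.2 ⟨ha, mem_sup_right (mem_zpowers _)⟩
  have key : ∀ n, t ^ 2 ^ n ∈ pmap f (L.lowerCentralSeries n) := fun n => by
    induction n with
    | zero => simpa [hL] using mem_sup_left (mem_zpowers t)
    | succ n ih =>
      rw [Subgroup.lowerCentralSeries_succ, pmap_comm f ((lowerCentralSeries_le_self L n).trans hLM) hLM]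
      have : t ^ 2 ^ (n + 1) = ⁅t ^ 2 ^ n, u⁆ := by
        rw [commutatorElement_def, mul_assoc, mul_assoc, ← mul_assoc u, ← inv_pow, ← conj_pow,
          ← conj_inv, hti, inv_inv, ← pow_add, pow_succ, mul_two]
      rw [this]
      exact commutator_mem_commutator ih (mem_pmap_of_mem f ha haL)
  obtain ⟨s, hs1, hsM, hs2, hs3⟩ := lift {2}ᶜ _ _ (pmap_mono f (ih L hlt) (key k)) (hto'.pow _)
  have hc := h {2} a _ hv ha2 (pcore_pi _ _) ((pcore_fitting_nml _ L).nrm haL) s
    ((fitting_nil L).mem_pcore hs1 hs2)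
  have hc' := congrArg (pfun f) hc
  rw [pfun_mul f hsM ha, pfun_mul f ha hsM, hs3] at hc'
  have e : u * t ^ 2 ^ k * u⁻¹ = (t ^ 2 ^ k)⁻¹ := by rw [← conj_pow, hti, inv_pow]
  rw [← hc', mul_inv_cancel_right, ← mul_eq_one_iff_eq_inv, ← pow_add, ← two_mul, ← pow_succ'] at e
  exact ht1 ((piElt_of_pow_eq_one (piNat_self_pow p2 _) e).eq_one hto')

theorem Star.main (h : Star G k) (n : ℕ) : ∀ M : Subgroup G, #M = n →
    M.lowerCentralSeries k ≤ F(M) := by
  induction n using Nat.strong_induction_on with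
  | _ n ih =>
  intro M hM
  have ih' : ∀ L, L < M → L.lowerCentralSeries k ≤ F(L) := fun L hL => ih _ (hM ▸ card_lt hL) L rfl
  have sol : ∀ L, L < M → Sol L := fun L hL => sol_of_quo (fitting_nrm L) (fitting_nil L).sol
    ((nil_quo_iff (fitting_nrm L)).2 ⟨k, ih' L hL⟩).sol
  by_cases e : M = ⊥
  · exact (lowerCentralSeries_le_self M k).trans (e.le.trans bot_le)
  by_cases hs : Sol M
  · obtain ⟨N, hN, hr⟩ := hs.exists_prime_factor e
    exact h.of_nil (h.nil_quo hN hr (ih' N (maxIn_of_prime_relIndex hr hN.le).lt))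
  exfalso
  obtain ⟨R, -, ⟨hR, hRM⟩, hmax⟩ := exists_max (fun R => R ⊴ M ∧ R ≠ M) ⟨nml_bot M, Ne.symm e⟩
  haveI := hR.normal
  have hk : pker (QuotientGroup.mk' (R.subgroupOf M)) = R := by
    rw [pker, QuotientGroup.ker_mk', map_so hR.le]
  have hf := QuotientGroup.mk'_surjective (R.subgroupOf M)
  set f := QuotientGroup.mk' (R.subgroupOf M)
  have htop : pmap f M = ⊤ := by rw [pmap_dom, MonoidHom.range_eq_top.2 hf]
  have hsR : Sol (pker f) := hk.symm ▸ sol R (lt_of_le_of_ne hR.le hRM)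
  refine h.simple f hf hsR (fun a => hs (sol_of_pmap le_rfl (hsR.mono inf_le_left)
    (htop ▸ sol_top.2 a))) (fun U hU => ?_) ih'
  have a : ppre f U ⊴ M := Nml.ppre_of_pmap le_rfl (pker_le f) (htop ▸ hU)
  have b : pmap f (ppre f U) = U := pmap_ppre_of_le (A := M) (htop ▸ le_top)
  by_cases c : ppre f U = M
  · right; rw [← b, c, htop]
  · left; rw [← b, hmax _ ⟨a, c⟩ (hk.ge.trans (pker_le_ppre f U))]; exact pmap_eq_bot_of_le hk.ge

end

/-- A criterion of Baumslag–Wiegold type for a term of the lower central series. Let G be a finite group and k ≥ 0; call an element a left-normed commutator value of length k + 1 when it has the form [[…[x₀, x₁], …], x_k] with k + 1 entries (for k = 0, any element), where [a, b] = aba⁻¹b⁻¹. Then the (k+1)-st term γ_{k+1}(G) of the lower central series (γ₁(G) = G) is nilpotent if and only if for every two such values x, y of coprime orders, either every prime dividing o(x)·o(y) divides o(xy), or o(x)·o(y) ≤ o(xy).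 -/
theorem result {G : Type*} [Group G] [Finite G] (k : ℕ) :
    Group.IsNilpotent ↥((⊤ : Subgroup G).lowerCentralSeries k) ↔
      ∀ x y : G, (∃ f : Fin (k + 1) → G, x = ((List.ofFn f).tail).foldl (fun a b => a * b * a⁻¹ * b⁻¹) (f 0)) → (∃ f : Fin (k + 1) → G, y = ((List.ofFn f).tail).foldl (fun a b => a * b * a⁻¹ * b⁻¹) (f 0)) → (orderOf x).Coprime (orderOf y) →
        (∀ r : ℕ, r.Prime → r ∣ orderOf x * orderOf y → r ∣ orderOf (x * y)) ∨ orderOf x * orderOf y ≤ orderOf (x * y) := by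
  constructor
  · rintro h x y ⟨f, rfl⟩ ⟨g, rfl⟩ hc
    have := Nil.comm_of_coprime h (val_of k f).mem_lcs (val_of k g).mem_lcs hc
    exact Or.inr (Commute.orderOf_mul_eq_mul_orderOf_of_coprime this hc).ge
  · intro h
    refine (fitting_nil ⊤).mono (Star.main (fun π x Q hv hx hQ hn => mem_cen.2 fun y hy => ?_) _ ⊤ rfl)
    have c : ⁅x⁻¹, y⁆ ∈ Q := by
      have := mul_mem (conj_mem' hn hy) (inv_mem hy)
      simpa only [commutatorElement_def, inv_inv] using this
    have d := hx.coprime (hQ.piElt c)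
    have e : orderOf (x * ⁅x⁻¹, y⁆) = orderOf x := by
      rw [← orderOf_conj y x]; congr 1; simp only [commutatorElement_def]; group
    have f : orderOf ⁅x⁻¹, y⁆ = 1 := by
      rcases h x _ hv.exists (hv.inv.comm (mem_top y)).exists d with a | a
      · by_contra b
        obtain ⟨r, hr, hd⟩ := Nat.exists_prime_and_dvd b
        exact hr.one_lt.ne' (Nat.eq_one_of_dvd_coprimes d (e ▸ a r hr (hd.mul_left _)) hd)
      · rw [e] at a
        have h1 := orderOf_pos x
        have h2 := orderOf_pos ⁅x⁻¹, y⁆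
        nlinarith
    have g := commutatorElement_eq_one_iff_mul_comm.1 (orderOf_eq_one_iff.1 f)
    calc y * x = x * (x⁻¹ * y) * x := by group
      _ = x * y := by rw [g]; group

end Cfsg.Agent.S3900
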