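import Cfsg.Statements.S3901
import Mathlib
import Cfsg.Agent.H27.Epo

set_option autoImplicit false
open Cfsg

namespace Cfsg.Agent.S3901

open Subgroup Cfsg.Agent.FT Cfsg.Agent.H27

theorem aux {G : Type*} [Group G] [Finite G] (n : ℕ) : ∀ (N : Subgroup G) [N.Normal], N.index = n → ¬ Sol N →
    (∀ x : G, x ∉ N → IsPrimePow (orderOf x)) → Group.IsSolvable (G ⧸ N) := by
  induction n using Nat.strong_induction_on with
  | _ n ih =>
  intro N _ hn hns h
  by_cases ho : Odd (Nat.card (G ⧸ N))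
  · exact odd_order_solvable ho
  have := Fact.mk Nat.prime_two
  let f := QuotientGroup.mk' N
  have hf : Function.Surjective f := QuotientGroup.mk'_surjective N
  have hk : ∀ x, f x = 1 ↔ x ∈ N := fun x => QuotientGroup.eq_one_iff x
  by_cases hO : O[{2}]((⊤ : Subgroup (G ⧸ N))) = ⊥
  swap
  · set O := O[{2}]((⊤ : Subgroup (G ⧸ N)))
    have hOn : O.Normal := nml_top_iff.1 (pcore_nml _ _)
    have hle : N ≤ O.comap f := fun x hx => by rw [mem_comap, (hk x).2 hx]; exact one_mem _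
    have hi : (O.comap f).index = O.index := index_comap_of_surjective _ hf
    have hlt : (O.comap f).index < n := by
      rw [hi, ← hn, index_eq_card N, ← O.card_mul_index]
      have := one_lt_card hO
      have h0 : 0 < O.index := Nat.pos_of_ne_zero index_ne_zero_of_finite
      nlinarith
    have h1 := ih _ hlt (O.comap f) rfl (fun hs => hns (hs.mono hle)) (fun x hx => h x fun hx' => hx (hle hx'))
    have h2 : Group.IsSolvable O := (pcore_pi _ _).sol
    have h3 : Group.IsSolvable ((G ⧸ N) ⧸ O) :=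
      Group.isSolvable_of_surjective (f := QuotientGroup.map (O.comap f) O f le_rfl)
        (fun y => by
          obtain ⟨y, rfl⟩ := QuotientGroup.mk_surjective y
          obtain ⟨x, rfl⟩ := hf y
          exact ⟨x, rfl⟩)
    exact Group.isSolvable_of_ker_le_range O.subtype (QuotientGroup.mk' O) (by simp)
  exfalso
  obtain ⟨s, hs⟩ := exists_prime_orderOf_dvd_card' (G := G ⧸ N) 2 (Nat.not_odd_iff_even.1 ho).two_dvd
  have hs2 : s ^ 2 = 1 := hs ▸ pow_orderOf_eq_one s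
  have hs1 : s ≠ 1 := by rintro rfl; simp at hs
  obtain ⟨x', hx1, hxo, hsx⟩ := exists_odd_inverted hs2 (by
    intro e
    rw [pcore_top, piCore_singleton Nat.prime_two] at hO
    exact hs1 (mem_bot.1 (hO ▸ e)))
  obtain ⟨p, k, hp, hk0, hpk⟩ : IsPrimePow (orderOf x') := by
    obtain ⟨x, rfl⟩ := hf x'
    obtain ⟨p, k, hp, -, e⟩ := h x fun hx => hx1 ((hk x).2 hx)
    have h1 := orderOf_map_dvd f x
    rw [← e] at h1
    obtain ⟨j, -, hj⟩ := (Nat.dvd_prime_pow (Nat.prime_iff.2 hp)).1 h1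
    refine ⟨p, j, hp, Nat.pos_of_ne_zero ?_, hj.symm⟩
    rintro rfl
    exact hx1 (orderOf_eq_one_iff.1 (by simpa using hj))
  have pp := Nat.prime_iff.2 hp
  have hpd : p ∣ orderOf x' := hpk ▸ dvd_pow_self p hk0.ne'
  have hp2 : p ≠ 2 := by rintro rfl; exact (Nat.not_even_iff_odd.2 hxo) (even_iff_two_dvd.2 hpd)
  obtain ⟨r, hr, hrd, hr2⟩ : ∃ r, r.Prime ∧ r ∣ #N ∧ ¬ (r = 2 ∨ r = p) := by
    by_contra hh
    exact hns (sol_of_two_primes Nat.prime_two pp fun r h1 h2 => by by_contra h3; exact hh ⟨r, h1, h2, h3⟩)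
  push Not at hr2
  obtain ⟨R, hR⟩ := exists_syl r N
  have hR1 : R ≠ ⊥ := fun e => (hR.syl_eq_bot_iff hr).1 e hrd
  have nN : N ⊴ ⊤ := nml_top_iff.2 ‹_›
  have lift : ∀ y : G ⧸ N, ∃ x ∈ N(R), f x = y := by
    intro y
    obtain ⟨g, rfl⟩ := hf y
    obtain ⟨a, ha, b, hb, rfl⟩ := (hR.frattini nN).mul g (mem_top g)
    exact ⟨b, hb.2, by rw [map_mul, (hk a).2 ha, one_mul]⟩
  obtain ⟨t0, ht0, rfl⟩ := lift s
  let K := N(R) ⊓ (zpowers x').comap f
  have hK : t0 ∈ N(K) := by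
    refine (show ⟪t0⟫ ≤ N(K) from normsI (zpowers_le.2 (le_nrm _ ht0)) (zpowers_le.2 ?_)) (mem_zpowers t0)
    exact comap_norms f (U := ⟪f t0⟫) (zpowers_le.2 (mem_nrm_zpowers_of_inverts hsx)) (mem_zpowers (f t0))
  obtain ⟨P, hP⟩ := exists_syl p K
  obtain ⟨a, ha, t, ht, rfl⟩ := hP.frattini_nrm.mul t0 hK
  have htR : t ∈ N(R) := by simpa using (N(R)).mul_mem ((N(R)).inv_mem ha.1) ht0
  have hfa : f a ∈ ⟪x'⟫ := ha.2
  have hinv : ∀ y ∈ ⟪x'⟫, f t * y * (f t)⁻¹ = y⁻¹ := by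
    intro y hy
    have h1 := inverts_of_mem_zpowers hsx hy
    rw [map_mul] at h1
    have h2 := (ab_zpowers x').comm hfa (inv_mem hy)
    calc f t * y * (f t)⁻¹ = (f a)⁻¹ * (f a * f t * y * (f a * f t)⁻¹) * f a := by group
      _ = (f a)⁻¹ * (y⁻¹ * f a) := by rw [h1]; group
      _ = y⁻¹ := by rw [← h2]; group
  have ht2 : f t * f t = 1 := by
    have h1 := hinv _ hfa
    rw [sq, map_mul] at hs2
    calc f t * f t = f a * (f t * f a * (f t)⁻¹) * f t * f t := by rw [h1]; group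
      _ = 1 := by rw [← hs2]; group
  have htN : t ∉ N := by
    intro e
    have h1 := hinv x' (mem_zpowers x')
    rw [(hk t).2 e] at h1
    exact hx1 (eq_one_of_sq_of_odd (by rw [sq]; exact mul_eq_one_iff_eq_inv.2 (by simpa using h1)) hxo)
  have hto : PiElt {2} t := by
    obtain ⟨q, j, hq, -, e⟩ := h t htN
    have h1 : orderOf (f t) = 2 := orderOf_eq_prime (by rw [sq, ht2]) fun e => htN ((hk t).1 e)
    have h2 : 2 ∣ q ^ j := e ▸ h1 ▸ orderOf_map_dvd f t
    have h3 := (Nat.prime_dvd_prime_iff_eq Nat.prime_two (Nat.prime_iff.2 hq)).1 (Nat.prime_two.dvd_of_dvd_pow h2)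
    subst h3
    exact pElt_of_orderOf Nat.prime_two e.symm
  have hPN : ¬ P ≤ N := by
    intro e
    have h1 := hP.map (f := f)
    rw [(Subgroup.map_eq_bot_iff P).2 (fun x hx => (hk x).2 (e hx))] at h1
    have h2 : ⟪x'⟫ ≤ K.map f := by
      obtain ⟨x, hx, rfl⟩ := lift x'
      exact zpowers_le.2 (mem_map_of_mem f ⟨hx, mem_zpowers _⟩)
    exact (h1.syl_eq_bot_iff pp).1 rfl (hpd.trans (card_zpowers' x' ▸ card_dvd h2))
  have cop : ∀ {q : ℕ} {X : Subgroup G} {u y : G}, q ≠ 2 → PGrp q X → PiElt {2} u → y ∈ X →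
      (orderOf u).Coprime (orderOf y) := fun hq hX hu hy => PiNat.coprime hu ((hX.p' hq).piElt hy)
  have hu : PiElt {2} (t * t) := by rw [← sq]; exact hto.pow 2
  have htt : t * t = 1 := by
    have huN : t * t ∈ N := (hk _).1 (by rw [map_mul, ht2])
    have huP : ⟪t * t⟫ ≤ N(P) := zpowers_le.2 (mul_mem ht.2 ht.2)
    have h1 : MulEq (P ⊓ N) (P ⊓ C(⟪t * t⟫)) P :=
      coprime_cent_prod_of_le inf_le_left (normsI huP (le_top.trans nN.nrm))
        (((hP.pi.mono inf_le_left).p' hp2).coprime' hu.zpowers) (Or.inr (ab_zpowers _).sol)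
        (le_inf (comm_le_left huP) ((commSS le_rfl (zpowers_le.2 huN)).trans (comm_le_right (le_top.trans nN.nrm))))
    have h2 : ¬ P ⊓ C(⟪t * t⟫) ≤ N := fun e => hPN (h1.sup ▸ sup_le inf_le_right e)
    obtain ⟨y, hy, hyN⟩ := SetLike.not_le_iff_exists.1 h2
    exact epo_eq_one h hyN (mem_cen.1 hy.2 _ (mem_zpowers _)).symm (cop hp2 hP.pi hu hy.1).symm
  obtain ⟨y, hy, hyN⟩ := SetLike.not_le_iff_exists.1 hPN
  have i1 := inverts_of_fpf htt ht.2 (fun y hy e => epo_eq_one h htN e (cop hp2 hP.pi hto hy)) hy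
  have i2 := fun ρ (hρ : ρ ∈ R) => inverts_of_fpf htt htR (fun y hy e => epo_eq_one h htN e (cop hr2.1 hR.pi hto hy)) hρ
  obtain ⟨ρ, hρ, hρ1⟩ := exists_ne_one hR1
  have h1 := i2 _ (conj_mem (hP.le hy).1 hρ)
  have h2 : y * y * ρ⁻¹ = ρ⁻¹ * (y * y) := by
    have : t * (y * ρ * y⁻¹) * t⁻¹ = (t * y * t⁻¹) * (t * ρ * t⁻¹) * (t * y * t⁻¹)⁻¹ := by group
    rw [this, i1, i2 ρ hρ] at h1
    calc y * y * ρ⁻¹ = y * (y * ρ * y⁻¹)⁻¹ * y := by group
      _ = _ := by rw [← h1]; group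
  have hyy : y * y ∉ N := by
    intro e
    have h3 : y ∈ zpowers (y ^ 2) := mem_zpowers_pow_iff.2 (by
      exact PiNat.coprime (π := {2}) ((piNat_prime Nat.prime_two).2 rfl) ((hP.pi.p' hp2).piElt hy))
    exact hyN ((zpowers_le.2 (sq y ▸ e)) h3)
  have := epo_eq_one h hyy h2 (PiNat.coprime (hP.pi.piElt (mul_mem hy hy)) ((hR.pi.p' hr2.2).piElt (inv_mem hρ)))
  exact hρ1 (inv_eq_one.1 this)

/-- Let N be a non-trivial normal subgroup of the finite group G such that every element of G outside N has prime power order. If N is not solvable, then G/N is solvable. -/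
theorem result {G : Type*} [Group G] [Finite G] (N : Subgroup G) [N.Normal] (hN : N ≠ ⊥) (hns : ¬ Group.IsSolvable ↥N)
    (h : ∀ x : G, x ∉ N → IsPrimePow (orderOf x)) : Group.IsSolvable (G ⧸ N) := by
  exact aux _ N rfl hns h

end Cfsg.Agent.S3901
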