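import Cfsg.Statements.S3904
import Mathlib
import Cfsg.Agent.FV.MaxC

set_option autoImplicit false
open Cfsg

namespace Cfsg.Agent.S3904

open Subgroup Cfsg.Agent.FT Cfsg.Agent.FV

/-- Let G be a non-abelian finite group in which the centralizer of every non-central element is a maximal subgroup. Then G/Z(G) is either an elementary abelian p-group for some prime p, or a minimal non-abelian group (non-abelian with all proper subgroups abelian) of order p^a · q for distinct primes p, q with a normal Sylow p-subgroup. -/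
theorem result {G : Type*} [Group G] [Finite G] (hna : ¬ IsMulCommutative G)
    (h : ∀ x : G, x ∉ Subgroup.center G → IsCoatom (Subgroup.centralizer ({x} : Set G))) :
    (∃ p : ℕ, p.Prime ∧ Cfsg.IsElementaryAbelian p (⊤ : Subgroup (G ⧸ Subgroup.center G))) ∨
    (¬ IsMulCommutative (G ⧸ Subgroup.center G) ∧ (∀ H : Subgroup (G ⧸ Subgroup.center G), H ≠ ⊤ → IsMulCommutative ↥H) ∧
      ∃ p q a : ℕ, p.Prime ∧ q.Prime ∧ p ≠ q ∧ Nat.card (G ⧸ Subgroup.center G) = p ^ a * q ∧
        ∀ P : Subgroup (G ⧸ Subgroup.center G), Nat.card ↥P = p ^ a → P.Normal) := by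
  have hZ : C((⊤ : Subgroup G)) = center G := by rw [coe_top, centralizer_univ]
  have H : MxC (⊤ : Subgroup G) := ⟨Nml.refl _, fun x _ hx => h x (hZ ▸ hx)⟩
  set f := (QuotientGroup.mk' (center G)).comp (⊤ : Subgroup G).subtype with hf
  have hs : Function.Surjective f := fun y => by
    obtain ⟨x, rfl⟩ := QuotientGroup.mk'_surjective _ y
    exact ⟨⟨x, mem_top x⟩, rfl⟩
  have hk : pker f = Z((⊤ : Subgroup G)) := by
    ext x
    rw [mem_pker, pfun_of_mem f (mem_top x), mem_inf, hZ]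
    simp [hf]
  rcases H.quo f hs hk with ⟨p, hp, a⟩ | ⟨p, q, K, t, hp, hq, e, a, ht, ht', c, d⟩
  · exact Or.inl ⟨p, hp, abelem_iff.1 a⟩
  right
  set u := pfun f t with hu
  have hu1 : u ≠ 1 := fun b => d.compl_ne (by rw [b, zpowers_one_eq_bot])
  have htop : pmap f ⊤ = ⊤ := by rw [pmap_dom, MonoidHom.range_eq_top.2 hs]
  have hKp := a.pGrp hp
  have hQ : PGrp q ⟪u⟫ := pGrp_of_card_prime hq c
  have hcu : C[u] ≤ ⟪u⟫ := by
    have := d.sd.inf_right (zpowers_le_cen1 u)
    rw [inf_comm C[u] K, d.reg u (mem_zpowers u) hu1, inf_top_eq] at this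
    exact this.eq_right_of_bot.ge
  have hco : IsCoatom ⟪u⟫ := by
    refine ⟨fun b => d.ker_ne (eq_bot_iff.2 (by rw [← d.sd.inf, b]; exact le_inf le_rfl le_top)),
      fun L hL => ?_⟩
    have b : C[t] ≤ ppre f L := (pmap_le_iff le_top).1 ((pmap_cen1_le f ht).trans (hcu.trans hL.le))
    have b' : pmap f (ppre f L) = L := pmap_ppre_of_le (A := ⊤) (htop ▸ le_top)
    rcases (H.co t ht ht').le_iff.1 b with b | b
    · rw [← b', b, htop]
    · exact absurd (b' ▸ b ▸ (pmap_cen1_le f ht).trans hcu) hL.not_ge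
  refine ⟨fun b => d.ker_ne ?_, fun L hL => ?_, ?_⟩
  · rw [← d.reg u (mem_zpowers u) hu1]
    exact (inf_eq_left.2 (le_top.trans ((ab_top.2 b).le_cen1 (mem_top u)))).symm
  · by_cases b : q ∣ #L
    · obtain ⟨Y, hY, hY'⟩ := exists_card_prime_le hq b
      obtain ⟨g, -, hg⟩ := (d.sd.hall_right' (hKp.pi (π := {q}ᶜ) e.symm) hQ).syl_subJ
        (pGrp_of_card_prime hq hY') le_top
      have b1 : Y = cj g ⟪u⟫ := eq_of_card_eq hg (by rw [card_cj, hY', c])
      have b2 := ((isCoatom_cj (g := g)).2 hco).le_iff.1 (b1 ▸ hY)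
      exact (b2.resolve_left hL) ▸ (ab_zpowers u).cj g
    · have b1 : Hall {q}ᶜ K ⊤ := d.sd.hall_left (hKp.pi e.symm) (by rwa [compl_compl])
      exact a.ab.mono (b1.le_of_nml d.nml.nrm ((not_mem_piOf hq).1 fun k => b (mem_piOf.1 k).2) le_top)
  · obtain ⟨n, hn⟩ := hKp.card
    refine ⟨p, q, n, hp, hq, e.symm, by rw [← card_top', d.sd.card, hn, c], fun P hP => ?_⟩
    have b1 : Syl p K ⊤ := d.sd.hall_left hKp (hQ.pi e)
    rw [b1.uniq_of_nml d.nml.nrm (b1.of_card_eq le_top (hP.trans hn.symm))]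
    exact nml_top_iff.1 d.nml

end Cfsg.Agent.S3904
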