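import Cfsg.Statements.S3905
import Mathlib
import Cfsg.Agent.FV.MaxC

set_option autoImplicit false
open Cfsg

namespace Cfsg.Agent.S3905

open Subgroup Cfsg.Agent.FT Cfsg.Agent.FV

/-- Let N be a normal subgroup of the finite group G such that for every element x of N outside the center of N the centralizer C_G(x) is a maximal subgroup of G. Then N/Z(N) is either an elementary abelian p-group for some prime p, or a Frobenius group whose kernel is an elementary abelian normal subgroup and whose complement has prime order. -/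
theorem result {G : Type*} [Group G] [Finite G] (N : Subgroup G) [N.Normal]
    (h : ∀ x : G, x ∈ N → x ∉ Subgroup.centralizer (N : Set G) → IsCoatom (Subgroup.centralizer ({x} : Set G))) :
    (∃ p : ℕ, p.Prime ∧ Cfsg.IsElementaryAbelian p (⊤ : Subgroup (↥N ⧸ Subgroup.center ↥N))) ∨
    (∃ (Q K : Subgroup (↥N ⧸ Subgroup.center ↥N)) (p : ℕ), p.Prime ∧ Cfsg.IsFrobeniusComplement Q ∧ (Nat.card ↥Q).Prime ∧
      K.Normal ∧ (K : Set (↥N ⧸ Subgroup.center ↥N)) = Cfsg.frobeniusKernel Q ∧ Cfsg.IsElementaryAbelian p K) := by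
  have H : MxC N := ⟨nml_top_iff.2 inferInstance, h⟩
  have hk : pker (QuotientGroup.mk' (center N)) = Z(N) := by
    rw [center_eq_map, pker, QuotientGroup.ker_mk']
  rcases H.quo _ (QuotientGroup.mk'_surjective _) hk with ⟨p, hp, a⟩ | ⟨p, q, K, t, hp, hq, -, a, -, -, c, d⟩
  · exact Or.inl ⟨p, hp, abelem_iff.1 a⟩
  · obtain ⟨e1, e2⟩ := H27.compl_of_frob_top d
    exact Or.inr ⟨_, K, p, hp, e1, c ▸ hq, nml_top_iff.1 d.nml, e2.symm, abelem_iff.1 a⟩

end Cfsg.Agent.S3905
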