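import Mathlib
import Cfsg.Agent.H28.Cnj
-- Template for statement S3908 (row 3908; see /opt/grader/pristine/manifest.json for weights).
-- Copy to Cfsg/Agent/S3908.lean and replace the sorry. The statement below is byte-identical to the frozen
-- statement Cfsg.CfsgFrozen.S3908 (Cfsg/Statements/S3908.lean; the theorem Cfsg.fg3_conjugate_equal_order_abelian_subgroups_sylow_structure);
-- the grader kernel-checks Cfsg.Agent.S3908.result against that frozen type. Keep the theorem IN THIS FILE
-- (a `result` declared elsewhere and merely imported here is not credited); helpers may live anywhere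
-- under Cfsg/Agent/.
import Cfsg.Statements.S3908
-- import your own Cfsg.Agent.* helpers here

set_option autoImplicit false
open Cfsg

namespace Cfsg.Agent.S3908

/-- Let G be a finite group in which any two abelian subgroups of the same order are conjugate. Then a Sylow 2-subgroup of G is cyclic, elementary abelian or generalized quaternion, and for an odd prime p a Sylow p-subgroup of G is cyclic or has exponent dividing p. -/
theorem result {G : Type*} [Group G] [Finite G] (hB : ∀ A B : Subgroup G, IsMulCommutative ↥A → IsMulCommutative ↥B → Nat.card ↥A = Nat.card ↥B → ∃ g : G, B = A.map (MulAut.conj g).toMonoidHom) :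
    (∀ P : Sylow 2 G, IsCyclic ↥(P : Subgroup G) ∨ Cfsg.IsElementaryAbelian 2 (P : Subgroup G) ∨ ∃ k : ℕ, Nonempty (↥(P : Subgroup G) ≃* QuaternionGroup (2 ^ k))) ∧
    ∀ (p : ℕ) [Fact p.Prime], p ≠ 2 → ∀ P : Sylow p G, IsCyclic ↥(P : Subgroup G) ∨ ∀ x ∈ (P : Subgroup G), x ^ p = 1 := by
  open Subgroup Cfsg.Agent.FT Cfsg.Agent.H28 in
  open scoped commutatorElement Pointwise in
  · refine ⟨fun P => ?_, fun p hp h2 P => ?_⟩
    · rcases AbCnj.two (fun A B _ _ => hB A B) (syl_top Nat.prime_two P).pi with h | h | ⟨a, b, m, h⟩
      · exact Or.inl h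
      · exact Or.inr (Or.inl h)
      · exact Or.inr (Or.inr ⟨_, h.iso⟩)
    · exact AbCnj.odd (fun A B _ _ => hB A B) hp.out h2 (syl_top hp.out P).pi

end Cfsg.Agent.S3908
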