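import Cfsg.Statements.S3909
import Mathlib
import Cfsg.Agent.H27.Misc

set_option autoImplicit false
open Cfsg

namespace Cfsg.Agent.S3909

open Subgroup FT

/-- Let G be a finite group in which any two abelian subgroups of the same order are conjugate. Let M be a normal subgroup of G. If M contains an element of the same order as a ∈ G, then a ∈ M; and if M is elementary abelian of order p^t with p prime and t ≥ 2, then M is the unique Sylow p-subgroup of G. -/
theorem result {G : Type*} [Group G] [Finite G] (hB : ∀ A B : Subgroup G, IsMulCommutative ↥A → IsMulCommutative ↥B → Nat.card ↥A = Nat.card ↥B → ∃ g : G, B = A.map (MulAut.conj g).toMonoidHom) (M : Subgroup G) [M.Normal] :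
    (∀ a : G, (∃ m ∈ M, orderOf m = orderOf a) → a ∈ M) ∧
    ∀ (p t : ℕ) [Fact p.Prime], 2 ≤ t → Nat.card ↥M = p ^ t → Cfsg.IsElementaryAbelian p M → ∀ P : Sylow p G, (P : Subgroup G) = M := by
  have hM := H27.nml_top M
  have key : ∀ A B : Subgroup G, Ab A → Ab B → #A = #B → A ≤ M → B ≤ M := fun A B a b c d => by
    obtain ⟨g, rfl⟩ := hB A B a b c
    exact cj_le_of_nrm (hM.nrm trivial) d
  have h1 : ∀ a : G, (∃ m ∈ M, orderOf m = orderOf a) → a ∈ M := fun a ⟨m, hm, e⟩ =>
    key ⟪m⟫ ⟪a⟫ (ab_zpowers m) (ab_zpowers a) (by rw [card_zpowers', card_zpowers', e])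
      (zpowers_le.2 hm) (mem_zpowers a)
  refine ⟨h1, fun p t _ ht hc hE P => ?_⟩
  have hp : p.Prime := Fact.out
  have hP := syl_top hp P
  have hE' : PnElem p t M M := ⟨hp, le_rfl, hE, hc⟩
  refine le_antisymm (fun x hx => ?_) (hP.ge_of_nml hE'.pGrp hM)
  obtain ⟨j, hj⟩ := H27.PiElt.exists_orderOf (hP.pi.piElt hx)
  rcases Nat.lt_or_ge j 2 with h2 | h2
  · obtain ⟨E, hE2⟩ := hE'.exists_le (h2.le.trans ht)
    exact key E ⟪x⟫ hE2.ab (ab_zpowers x) (by rw [card_zpowers', hj, hE2.card]) hE2.le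
      (mem_zpowers x)
  · obtain ⟨E, hE2⟩ := hE'.exists_le ht
    obtain ⟨B, hBx, hBc⟩ := (cyc_zpowers x).exists_card (d := p ^ 2)
      (by rw [card_zpowers', hj]; exact pow_dvd_pow p h2)
    have h3 := key E B hE2.ab ((ab_zpowers x).mono hBx) (by rw [hBc, hE2.card]) hE2.le
    have h4 := (Abelem.mono hE h3).card_dvd_of_cyc ((cyc_zpowers x).mono hBx)
    rw [hBc, sq] at h4
    exact absurd (Nat.le_of_dvd hp.pos h4) (by nlinarith [hp.two_le])

end Cfsg.Agent.S3909
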