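import Cfsg.Statements.S3910
import Mathlib
import Cfsg.Agent.H27.Misc
import Cfsg.Agent.FT.BG04p

set_option autoImplicit false
open Cfsg

namespace Cfsg.Agent.S3910

open Subgroup FT

/-- A finite nilpotent group in which any two abelian subgroups of the same order are conjugate is cyclic. -/
theorem result {G : Type*} [Group G] [Finite G] (hB : ∀ A B : Subgroup G, IsMulCommutative ↥A → IsMulCommutative ↥B → Nat.card ↥A = Nat.card ↥B → ∃ g : G, B = A.map (MulAut.conj g).toMonoidHom) (hnil : Group.IsNilpotent G) : IsCyclic G := by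
  have hN := H27.nil_top hnil
  have key : ∀ A B : Subgroup G, Ab A → Ab B → #A = #B → A ⊴ ⊤ → B = A := fun A B a b c d => by
    obtain ⟨g, rfl⟩ := hB A B a b c
    exact cj_of_mem_nrm (d.nrm trivial)
  have hab : ∀ p P, p.Prime → Syl p P (⊤ : Subgroup G) → Ab P := fun p P hp hP => by
    obtain ⟨A, hA, -⟩ := exists_SCN_ge hP.pi (nml_bot P) ab_bot
    refine hA.ab.mono fun x hx => ?_
    obtain ⟨j, hj⟩ := H27.PiElt.exists_orderOf (hP.pi.piElt hx)
    obtain ⟨n, hn⟩ := (hP.pi.mono hA.nml.le).card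
    rcases le_total j n with h | h
    · obtain ⟨Q, h1, h2, h3⟩ := normal_pgroup (n := j) hP.pi hp hA.nml
        (hn ▸ Nat.pow_le_pow_right hp.pos h)
      have := key Q ⟪x⟫ (hA.ab.mono h2) (ab_zpowers x) (by rw [card_zpowers', hj, h3])
        (H27.nml_of_nml_hall hN hP h1)
      exact h2 (this ▸ mem_zpowers x)
    · obtain ⟨B, hBx, hBc⟩ := (cyc_zpowers x).exists_card (d := p ^ n)
        (by rw [card_zpowers', hj]; exact pow_dvd_pow p h)
      have := key A B hA.ab ((ab_zpowers x).mono hBx) (by rw [hBc, hn])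
        (H27.nml_of_nml_hall hN hP hA.nml)
      rw [← hA.cen]
      exact ⟨hx, le_cen1.1 ((this.ge.trans hBx).trans (zpowers_le_cen1 x))⟩
  refine H27.isCyclic_of_top ((zgrp_iff.2 fun p P hp hP => by_contra fun hc => ?_).cyc_of_nil hN)
  obtain ⟨q, E, hE⟩ := H27.exists_pnElem_two_of_ab (hab p P hp hP) hc
  obtain ⟨X, hX⟩ := hE.exists_le one_le_two
  obtain ⟨Y, hY, hd⟩ := hE.exists_dp_two hX
  have := key X Y hX.ab hY.ab (by rw [hX.card, hY.card])
    (H27.nml_of_nml_hall hN hP ((hab p P hp hP).nml (hX.le.trans hE.le)))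
  exact hX.ne_bot (by have h := hd.inf; rwa [this, inf_idem] at h)

end Cfsg.Agent.S3910
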