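import Cfsg.Statements.S3911
import Mathlib
import Cfsg.Agent.H9.EqC3
import Cfsg.Agent.FT.Main

set_option autoImplicit false
open Cfsg

namespace Cfsg.Agent.S3911

/-- Let G be a finite group in which any two abelian subgroups of the same order are conjugate. If M is a normal subgroup of G of odd order, then any two abelian subgroups of G/M of the same order are conjugate in G/M. -/
theorem result {G : Type*} [Group G] [Finite G] (hB : ∀ A B : Subgroup G, IsMulCommutative ↥A → IsMulCommutative ↥B → Nat.card ↥A = Nat.card ↥B → ∃ g : G, B = A.map (MulAut.conj g).toMonoidHom) (M : Subgroup G) [M.Normal] (hM : Odd (Nat.card ↥M)) :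
    ∀ A B : Subgroup (G ⧸ M), IsMulCommutative ↥A → IsMulCommutative ↥B → Nat.card ↥A = Nat.card ↥B →
      ∃ g : G ⧸ M, B = A.map (MulAut.conj g).toMonoidHom := by
  intro A B hA hB' h
  have key : ∀ A : Subgroup (G ⧸ M), IsMulCommutative A →
      ⁅A.comap (QuotientGroup.mk' M), A.comap (QuotientGroup.mk' M)⁆ ≤ M := fun A hA => by
    rw [Subgroup.commutator_le]
    intro x hx y hy
    rw [← QuotientGroup.eq_one_iff]
    change QuotientGroup.mk' M _ = 1
    rw [map_commutatorElement, commutatorElement_eq_one_iff_mul_comm]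
    exact Cfsg.Agent.FT.Ab.comm hA hx hy
  have hle : ∀ A : Subgroup (G ⧸ M), M ≤ A.comap (QuotientGroup.mk' M) := fun A x hx => by
    rw [Subgroup.mem_comap, QuotientGroup.mk'_apply, (QuotientGroup.eq_one_iff x).2 hx]
    exact one_mem _
  obtain ⟨g, -, hg⟩ := Cfsg.Agent.H9.EqC.bq _ (⊤ : Subgroup G) M rfl (Cfsg.Agent.H9.EqC.bc_top hB)
    (Cfsg.Agent.FT.nml_top_iff.2 inferInstance) (Cfsg.Agent.FT.odd_order_solvable hM) hM
    (A.comap (QuotientGroup.mk' M)) (B.comap (QuotientGroup.mk' M)) (hle A) le_top (hle B) le_top (key A hA)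
    (key B hB') (by rw [Cfsg.Agent.H9.EqC.card_comap, Cfsg.Agent.H9.EqC.card_comap, h])
  exact ⟨g, Cfsg.Agent.H9.EqC.quo_of_comap M hg⟩

end Cfsg.Agent.S3911
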