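import Cfsg.Statements.S3912
import Mathlib
import Cfsg.Agent.H9.EqC3

set_option autoImplicit false
open Cfsg

namespace Cfsg.Agent.S3912

/-- Let G be a finite solvable group in which any two abelian subgroups of the same order are conjugate. Then every quotient of G has the same property: any two abelian subgroups of the quotient of the same order are conjugate. -/
theorem result {G : Type*} [Group G] [Finite G] (hB : ∀ A B : Subgroup G, IsMulCommutative ↥A → IsMulCommutative ↥B → Nat.card ↥A = Nat.card ↥B → ∃ g : G, B = A.map (MulAut.conj g).toMonoidHom) (hsol : Group.IsSolvable G) (M : Subgroup G) [M.Normal] :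
    ∀ A B : Subgroup (G ⧸ M), IsMulCommutative ↥A → IsMulCommutative ↥B → Nat.card ↥A = Nat.card ↥B →
      ∃ g : G ⧸ M, B = A.map (MulAut.conj g).toMonoidHom := by
  intro A B _ _ h
  obtain ⟨g, -, hg⟩ := Cfsg.Agent.H9.EqC.cc_of_bc (M := (⊤ : Subgroup G)) inferInstance
    (Cfsg.Agent.H9.EqC.bc_top hB) (A.comap (QuotientGroup.mk' M)) (B.comap (QuotientGroup.mk' M)) le_top le_top
    (by rw [Cfsg.Agent.H9.EqC.card_comap, Cfsg.Agent.H9.EqC.card_comap, h])
  exact ⟨g, Cfsg.Agent.H9.EqC.quo_of_comap M hg⟩

end Cfsg.Agent.S3912
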