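import Cfsg.Statements.S3915
import Mathlib
import Cfsg.Agent.H2.Misc

set_option autoImplicit false
open Cfsg

namespace Cfsg.Agent.S3915

open Cfsg.Agent.FT Subgroup
open scoped commutatorElement

/-- Let G be a finite group in which, for every prime p, any two cyclic p-subgroups of the same order are conjugate. If the layer E(G), the subgroup generated by the components of G, is non-trivial, then E(G)/Z(E(G)) is a non-abelian simple group. -/
theorem result {G : Type*} [Group G] [Finite G] (hP : ∀ (p : ℕ), p.Prime → ∀ A B : Subgroup G, IsCyclic ↥A → IsCyclic ↥B → IsPGroup p ↥A → Nat.card ↥A = Nat.card ↥B → ∃ g : G, B = A.map (MulAut.conj g).toMonoidHom) (hE : Cfsg.layer G ≠ ⊥) :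
    IsSimpleGroup (↥(Cfsg.layer G) ⧸ Subgroup.center ↥(Cfsg.layer G)) ∧ ¬ IsMulCommutative (↥(Cfsg.layer G) ⧸ Subgroup.center ↥(Cfsg.layer G)) := by
  rw [← lay_top] at hE
  obtain ⟨K, hK⟩ : ∃ K : Subgroup G, Comp K ⊤ := by
    by_contra h
    exact hE (lay_eq_bot_iff.2 fun K hK => h ⟨K, hK⟩)
  have h1 : ∀ K : Subgroup G, Comp K ⊤ → ∃ x ∈ K, x ∉ C(K) ∧ ∃ n, orderOf x = 2 ^ n := fun K hK => by
    obtain ⟨S, hS⟩ := exists_syl 2 K
    obtain ⟨x, hx, h⟩ := SetLike.not_le_iff_exists.1 fun h : S ≤ C(K) =>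
      hK.qs.pqs_two.not_npc (npc_of_syl_center hS (centsC h)) le_rfl
    exact ⟨x, hS.le hx, h, PiNat.exists_pow (hS.pi.piElt hx) (orderOf_pos x).ne'⟩
  have h2 : ∀ K L : Subgroup G, Comp K ⊤ → Comp L ⊤ → K ≠ L → ∀ x ∈ K, x ∉ C(K) → ∀ y ∈ L, y ∉ C(L) → ∀ a b : ℕ,
      orderOf x = 2 ^ a → orderOf y = 2 ^ b → ¬ b ≤ a := fun K L hK hL hne x hx hx' y hy hy' a b ha hb hab => by
    have hc := hK.cents_of_ne hL hne
    have hxy : Commute x y := (mem_cen.1 (hc hx) y hy).symm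
    have h3 : orderOf (x * y) ∣ #⟪x⟫ := by
      rw [card_zpowers', orderOf_dvd_iff_pow_eq_one, hxy.mul_pow, pow_orderOf_eq_one, one_mul, ha,
        ← orderOf_dvd_iff_pow_eq_one, hb]
      exact pow_dvd_pow _ hab
    obtain ⟨B, hB, e⟩ := (cyc_zpowers x).exists_card h3
    obtain ⟨g, hg⟩ := hP 2 Nat.prime_two B ⟪x * y⟫ ((cyc_zpowers x).mono hB) (cyc_zpowers _)
      ((pGrp_of_card Nat.prime_two ((card_zpowers' x).trans ha)).mono hB).isPGroup (e.trans (card_zpowers' _).symm)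
    have h4 : x * y ∈ cj g K := cj_mono g (hB.trans (zpowers_le.2 hx)) (hg.le (mem_zpowers _))
    have hJ := hK.cj_of_mem (mem_top g)
    by_cases e1 : cj g K = K
    · exact hy' (by simpa only [inv_mul_cancel_left] using mul_mem (inv_mem (hc hx)) (hc (e1.le h4)))
    · exact hx' (by simpa using mul_mem (hJ.cents_of_ne hK e1 h4) (inv_mem (centsC hc hy)))
  have h3 : E((⊤ : Subgroup G)) = K := (lay_le_iff.2 fun L hL => (by_contra fun hne : L ≠ K => by
    obtain ⟨x, hx, hx', a, ha⟩ := h1 K hK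
    obtain ⟨y, hy, hy', b, hb⟩ := h1 L hL
    exact (le_total a b).elim (h2 L K hL hK hne y hy hy' x hx hx' b a hb ha)
      (h2 K L hK hL (Ne.symm hne) x hx hx' y hy hy' a b ha hb) : L = K).le).antisymm hK.le_lay
  rw [← lay_top, h3]
  refine ⟨hK.qs.2, fun h => hK.qs.not_cents (hK.qs.cents_of_comm ?_)⟩
  have h4 := (ab_pmap_iff (f := QuotientGroup.mk' (center K)) le_rfl).1 (by rw [pmap_mk'_dom]; exact ab_top.2 h)
  rw [pker_mk', ← center_eq_map] at h4
  exact h4.trans inf_le_right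

end Cfsg.Agent.S3915
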