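import Cfsg.Statements.S3917
import Mathlib
import Cfsg.Agent.H27.Misc

set_option autoImplicit false
open Cfsg

namespace Cfsg.Agent.S3917

open Subgroup FT

/-- Say that a group has self-centralizing non-cyclic subgroups when every non-cyclic subgroup H satisfies C_G(H) ≤ H. A finite abelian group with self-centralizing non-cyclic subgroups is cyclic or elementary abelian of order p² for a prime p. -/
theorem result {G : Type*} [CommGroup G] [Finite G] (hX : (∀ H : Subgroup G, ¬ IsCyclic ↥H → Subgroup.centralizer (H : Set G) ≤ H)) :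
    IsCyclic G ∨ ∃ p : ℕ, p.Prime ∧ Nat.card G = p ^ 2 ∧ Monoid.exponent G = p := by
  refine or_iff_not_imp_left.2 fun hc => ?_
  obtain ⟨p, E, hE⟩ := H27.exists_pnElem_two_of_ab (A := (⊤ : Subgroup G)) inferInstance
    fun h => hc (H27.isCyclic_of_top h)
  have h1 : E = ⊤ := eq_top_iff.2 fun x _ => hX E hE.not_cyc fun y _ => mul_comm y x
  subst h1
  refine ⟨p, hE.prime, by rw [← hE.card, card_top'], Nat.dvd_antisymm
    (Monoid.exponent_dvd_of_forall_pow_eq_one fun g => hE.abelem.pow trivial) ?_⟩
  obtain ⟨x, -, hx⟩ := exists_elt_of_prime_dvd hE.prime hE.dvd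
  exact hx ▸ Monoid.order_dvd_exponent x

end Cfsg.Agent.S3917
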