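import Cfsg.Statements.S3918
import Mathlib
import Cfsg.Agent.H3.Extra2
import Cfsg.Agent.H3.Aut

set_option autoImplicit false
open Cfsg

namespace Cfsg.Agent.S3918

/-- Say that a group has self-centralizing non-cyclic subgroups when every non-cyclic subgroup H satisfies C_G(H) ≤ H. For an odd prime p, a finite non-abelian p-group has self-centralizing non-cyclic subgroups if and only if it has order p³. -/
theorem result {G : Type*} [Group G] [Finite G] {p : ℕ} [Fact p.Prime] (hp : p ≠ 2) (hG : IsPGroup p G) (hna : ¬ IsMulCommutative G) :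
    (∀ H : Subgroup G, ¬ IsCyclic ↥H → Subgroup.centralizer (H : Set G) ≤ H) ↔ Nat.card G = p ^ 3 := by
  open Subgroup Cfsg.Agent.FT Cfsg.Agent.H3 in
  open scoped commutatorElement in
  · have hp' : p.Prime := Fact.out
    have pG := pGrp_top hG
    have hna' : ¬ Ab (⊤ : Subgroup G) := fun e => hna (isMulCommutative_top_iff.1 e)
    refine ⟨fun h => ?_, fun h H hH => ?_⟩
    · obtain ⟨V, h1, h2⟩ := ex_odd_normal_p2Elem hp' pG (odd_top (odd_card_of_isPGroup hp hG)) fun e => hna' e.ab
      have h3 := relIndex_cen_dvd pG h2.card h1.nrm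
      rw [le_antisymm (h V h2.not_cyc) h2.ab.le_cen] at h3
      rcases (Nat.dvd_prime hp').1 h3 with e | e
      · exact absurd (h2.ab.mono (relIndex_eq_one.1 e)) hna'
      · rw [← card_top', card_of_relIndex le_top e, h2.card, pow_succ' p 2]
    · by_contra hn
      have h1 : H < H ⊔ C(H) := left_lt_sup.2 hn
      have h2 := pow_succ_le_card_of_lt (hG.to_subgroup H) (k := 1)
        (by rw [pow_one]; exact not_le.1 fun e => hH (isCyclic_of_card_le_p (hG.to_subgroup H) e))
      have h3 := (pG.mono le_top).mul_card_le h1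
      have h4 := card_le (le_top : H ⊔ C(H) ≤ ⊤)
      have h5 : H ⊔ C(H) = ⊤ := eq_of_card_le le_top (by
        rw [card_top', h, pow_succ' p 2]; exact (Nat.mul_le_mul_left p h2).trans h3)
      rw [card_top', h, pow_succ' p 2] at h4
      have h6 : Ab H := (pG.mono le_top).ab_of_card_le hp' (Nat.le_of_mul_le_mul_left (h3.trans h4) hp'.pos)
      have h7 := card_le (le_inf le_top (h5 ▸ centsY h6.le_cen (le_cen_cen H)) : H ≤ Z((⊤ : Subgroup G)))
      rw [(bg4_p3_center hp' (card_top'.trans h) hna').1] at h7
      exact absurd (h2.trans h7) (not_le.2 p_lt_sq)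

end Cfsg.Agent.S3918
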