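import Cfsg.Statements.S3919
import Mathlib
import Cfsg.Agent.H3.ABG

set_option autoImplicit false
open Cfsg

namespace Cfsg.Agent.S3919

/-- Say that a group has self-centralizing non-cyclic subgroups when every non-cyclic subgroup H satisfies C_G(H) ≤ H. A finite non-abelian 2-group G of order 2^n has self-centralizing non-cyclic subgroups if and only if G has nilpotency class n − 1 (that is, G is dihedral, semidihedral or generalized quaternion). -/
theorem result {G : Type*} [Group G] [Finite G] (hna : ¬ IsMulCommutative G) (n : ℕ) (hG : Nat.card G = 2 ^ n) :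
    (∀ H : Subgroup G, ¬ IsCyclic ↥H → Subgroup.centralizer (H : Set G) ≤ H) ↔ (⊤ : Subgroup G).lowerCentralSeries (n - 2) ≠ ⊥ := by
  open Subgroup Cfsg.Agent.FT Cfsg.Agent.H3 in
  open scoped commutatorElement in
  · have hS : #(⊤ : Subgroup G) = 2 ^ n := card_top'.trans hG
    have pS := pGrp_of_card Nat.prime_two hS
    have hna' : ¬ Ab (⊤ : Subgroup G) := fun e => hna (ab_top.1 e)
    have h3 : 3 ≤ n := by
      by_contra h
      haveI : Fact (Nat.Prime 2) := ⟨Nat.prime_two⟩
      exact hna' (isMulCommutative_of_card_le_sq pS.isPGroup (hS ▸ Nat.pow_le_pow_right two_pos (by omega)))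
    constructor
    · intro h
      have key : MaxCl 2 n (⊤ : Subgroup G) := by
        by_cases e : prank 2 (⊤ : Subgroup G) ≤ 1
        · obtain ⟨a, b, m, h8⟩ := (cyc_or_mcq_of_rank pS e).resolve_left fun e => hna' e.ab
          have := h8.maxCl
          rwa [← Nat.pow_right_injective le_rfl (hS.symm.trans h8.card)] at this
        · obtain ⟨A, hA⟩ := exists_pnElem_of_lt_prank (not_le.1 e)
          exact maxCl_of_cen_sq Nat.prime_two hS le_top hA.card (inf_le_right.trans (h A hA.not_cyc))
      exact key.ne
    · intro h H hH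
      obtain ⟨m, rfl⟩ : ∃ m, n = m + 1 := ⟨n - 1, by omega⟩
      have key : MaxCl 2 (m + 1) (⊤ : Subgroup G) := ⟨Nat.prime_two, by omega, hS, h⟩
      obtain ⟨a, b, hm⟩ := key.mc (by omega)
      exact (le_inf le_top le_rfl).trans (hm.cen_le le_top hH)

end Cfsg.Agent.S3919
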