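import Cfsg.Statements.S3921
import Mathlib
import Cfsg.Agent.H20.L2c
import Cfsg.Agent.H20.L2e
import Cfsg.Agent.H21.Cit6

set_option autoImplicit false
open Cfsg

namespace Cfsg.Agent.S3921

open Subgroup Cfsg.Agent.FT Cfsg.Agent.GW
open scoped MatrixGroups

section
variable {G : Type*} [Group G] [Finite G] {H : Subgroup G} {t u : G}

theorem cit [IsSimpleGroup G] (hs : ¬ Sol (⊤ : Subgroup G)) (h : ∀ H : Subgroup G, ¬ Cyc H → C(H) ≤ H) : H21.CIT G := by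
  intro t ht
  have key (u : G) (hu : Fr t u) : u ∈ O[{2}](C[t]) := by
    by_contra e
    obtain ⟨x, hx, x1, ox, k⟩ := H21.exists_od_inverted hu.r.sq hu.mem e
    have o := H21.od_iff.1 ox
    have n : ⟪u⟫ ≤ N(⟪x⟫) := zpowers_le.2 (H3.mem_nrm_zpowers (k ▸ inv_mem (mem_zpowers x)))
    have k1 := h (⟪x⟫ ⊔ ⟪u⟫) (fun c => x1 (eq_one_of_inv_comm o k (c.ab.comm (mem_sup_right (mem_zpowers u))
      (mem_sup_left (mem_zpowers x))))) (le_cen1.1 (sup_le (zpowers_le.2 hx) (zpowers_le.2 hu.mem)))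
    rcases hu.r.mem_zpowers.1 ((Hall.sup_right ox.zpowers hu.r.pGrp n).mem_of_cen k1 ht.pElt
      (le_cen1.1 (zpowers_le.2 hu.mem))) with e | e
    exacts [ht.ne e, hu.ne e.symm]
  obtain ⟨g, hf⟩ := exists_fr_conj hs ht
  have h1 : ⟪t⟫ ⊔ ⟪g * t * g⁻¹⟫ ≤ O[{2}](C[t]) := hf.V_le (by
    simpa [hf.r.cancel'] using mul_mem (key _ hf.left) (key _ hf)) (key _ hf)
  have h2 := h _ hf.not_cyc
  refine piGrp_iff_forall.2 fun x hx => ?_
  suffices k : ⟪constt {2}ᶜ x⟫ ≤ C(⟪t⟫ ⊔ ⟪g * t * g⁻¹⟫) from constt_eq_one_iff.1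
    ((piElt_constt _ x).eq_one_of_mem' hf.pGrp (h2 (k (mem_zpowers _)))) |>.sub (compl_compl _).le
  have h3 : ⟪constt {2}ᶜ x⟫ ≤ C[t] := zpowers_le.2 (constt_mem _ hx)
  have h4 := odd_zpowers (piElt_constt {2}ᶜ x)
  have h5 := h3.trans (pcore_nml {2} C[t]).nrm
  obtain ⟨m, hm⟩ := (pcore_pi {2} C[t]).card
  by_cases h6 : m ≤ 2
  · have e := eq_of_le_of_card_ge h1 (by rw [hm, hf.card]; exact Nat.pow_le_pow_right two_pos h6)
    rw [hf.cen_V]
    exact le_inf h3 (hf.cents h4 (e ▸ h5) h3)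
  obtain ⟨m, rfl⟩ := Nat.exists_eq_add_of_le' (show 1 ≤ m by omega)
  obtain ⟨a, b, c⟩ := (H3.maxCl_of_cen_sq Nat.prime_two hm h1 hf.card (inf_le_right.trans h2)).mc (by omega)
  refine (c.cents h5 (h5.trans ?_) h4).trans (cen_anti h1)
  rcases c.cases with d | d | ⟨b, d⟩
  · exact d.nrm_le
  · exact absurd ((d.eq_z_of_sq (h1 hf.r_mem) ((sq _).trans hf.r.sq) hf.r.ne).trans
      (d.eq_z_of_sq (h1 hf.l_mem) ((sq _).trans ht.sq) ht.ne).symm) hf.ne
  · exact c.nrm_le d.three_le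

theorem forward [IsSimpleGroup G] (hs : ¬ Sol (⊤ : Subgroup G)) (h : ∀ H : Subgroup G, ¬ Cyc H → C(H) ≤ H) :
    H21.L2q G ∨ ∃ (F : Type) (_ : Field F) (_ : Fintype F), Fintype.card F = 4 ∧ Nonempty (G ≃* PSL(2, F)) := by
  have hc := cit hs h
  have hO : O[{2}]((⊤ : Subgroup G)) = ⊥ := by_contra fun e => nrm_ne_top e
    (fun k => hs (k ▸ (pcore_pi _ _).sol)) (top_le_iff.1 (pcore_nml _ _).nrm)
  rcases hc.ti_or_two hO with e | ⟨D, T, A, w⟩
  · obtain ⟨S, hS⟩ := exists_syl 2 (⊤ : Subgroup G)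
    obtain ⟨h1, h2⟩ := H20.syl_ncyc hs hS
    have key (t : G) (ht : Invo t) : ∃ u, Fr t u ∧ C[t] = ⟪t⟫ ⊔ ⟪u⟫ ∧ Syl 2 C[t] ⊤ := by
      obtain ⟨R, hR, k1⟩ := (hc t ht).exists_syl le_top
      obtain ⟨z, hz, k2 : Invo z⟩ := (hR.pi.mono (inf_le_left : Z(R) ≤ R)).exists_elt
        (hR.pi.center_ne_bot (ne_bot_of_mem (k1 (self_mem_cen1 t)) ht.ne))
      obtain ⟨g, hf⟩ := exists_fr_conj hs k2
      have k3 := hc.cen_eq hR k2 (le_cen1.2 hz.2)
      have k4 : R = cj g R := by_contra fun k => hf.r.ne ((e _ _ hR (hR.cj_mem trivial) k).le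
        ⟨k3.le hf.mem, conj_mem_cj.2 hz.1⟩)
      have k5 : R ≤ ⟪z⟫ ⊔ ⟪g * z * g⁻¹⟫ := le_trans (by
        rw [hf.cen_V, ← cj_cen1, k3, ← k4, inf_idem]) (h _ hf.not_cyc)
      have k6 := hc.cen_eq hR ht ((hf.ab.mono k5).le_cen1 (k1 (self_mem_cen1 t)))
      obtain ⟨g', hf'⟩ := exists_fr_conj hs ht
      exact ⟨_, hf', (eq_of_le_of_card_ge hf'.V_le_cen (by rw [k6, hf'.card, ← hf.card]; exact card_le k5)).symm, k6 ▸ hR⟩
    have a : H23.EA S := ⟨hS, h1, h2, fun t ht => let ⟨u, hf, k, _⟩ := key t ht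
      k ▸ H21.abelem_of_sq fun x => hf.sq⟩
    obtain ⟨F, _, _, -, k1, k2⟩ := a.sl
    obtain ⟨t, ht, k3⟩ := hS.pi.exists_elt a.ne_bot
    obtain ⟨u, hf, k4, k5⟩ := key t k3
    exact .inr ⟨F, _, _, by rw [k1, hS.card_eq k5, k4, hf.card], k2⟩
  · have h1 : #A ≤ 4 := by
      by_cases k : Cyc A
      · exact (Nat.le_of_dvd two_pos (w.l.ab.card_dvd_of_cyc k)).trans (by norm_num)
      obtain ⟨t, ht, t1⟩ := exists_ne_one fun e : A = ⊥ => k (e ▸ cyc_bot)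
      obtain ⟨u, hu, u1⟩ := SetLike.not_le_iff_exists.1 fun e : A ≤ ⟪t⟫ => k ((cyc_zpowers t).mono e)
      have hf := fr_of (invo_of (w.l.sq ht) t1) (invo_of (w.l.sq hu) fun e => u1 (e ▸ one_mem _))
        (w.l.ab.ab.le_cen1 ht hu) fun e => u1 (e ▸ mem_zpowers _)
      exact hf.card ▸ card_le ((w.l.ab.ab.cents (hf.V_le ht hu) le_rfl).trans (h _ hf.not_cyc))
    have h2 := (w.l.ab.pGrp Nat.prime_two).dvd_relIndex w.l.nle
    have h3 := card_inf_mul_relIndex D A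
    have h4 := Nat.le_of_dvd (relIndex_pos _ _) h2
    refine .inl ((w.small hc hO (by nlinarith)).resolve_right fun ⟨M, k, _⟩ => ?_)
    exact H20.simple_index_ne_two (fun k => hs (ab_top.2 k).sol) M k

theorem backward {F : Type*} [Field F] [Fintype F] (e : G ≃* PSL(2, F))
    (hF : Fintype.card F = 4 ∨ Fintype.card F = 9 ∨ ((Fintype.card F).Prime ∧
      ∃ k : ℕ, Fintype.card F = 2 ^ k + 1 ∨ Fintype.card F = 2 ^ k - 1)) (hH : ¬ Cyc H) : C(H) ≤ H := fun c hc => by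
  by_cases c1 : c = 1
  · exact c1 ▸ one_mem _
  have h1 : H ≤ C[c] := le_cen1.2 hc
  obtain ⟨p, _, n, hp, hq⟩ := FiniteField.card' F
  haveI := Fact.mk hp
  rcases H20.cen_psl p e c1 with ⟨-, h2, h3⟩ | ⟨h2, T, h3, h4⟩
  · rw [Nat.card_eq_fintype_card (α := F)] at h3
    have key (r : ℕ) (hr : r.Prime) (k : Fintype.card F = r ^ 2) : c ∈ H := by
      obtain ⟨j, k1, k2⟩ := (Nat.dvd_prime_pow hr).1 (k ▸ h3 ▸ card_dvd h1)
      interval_cases j
      · exact absurd (cyc_of_card_dvd_prime hr (k2 ▸ one_dvd _)) hH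
      · exact absurd (cyc_of_prime (by rwa [k2, pow_one])) hH
      · exact (eq_of_card_eq h1 (by rw [k2, h3, k])).ge (self_mem_cen1 c)
    rcases hF with k | k | k
    exacts [key 2 Nat.prime_two k, key 3 Nat.prime_three k, absurd ((cyc_of_prime (h3 ▸ k.1)).mono h1) hH]
  have h5 : Invo c := invo_of (h3.alt.resolve_left fun k => hH (h3.cyc.mono (h1.trans k.1.le))).1 c1
  have h6 := h5.two_dvd h3.mem
  have h7 : ¬ 2 ∣ Fintype.card F := fun k => h2 (by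
    rw [← (Nat.prime_dvd_prime_iff_eq Nat.prime_two hp).1 (Nat.prime_two.dvd_of_dvd_pow (hq ▸ k)), sq, h5.sq])
  rw [Nat.card_eq_fintype_card (α := F), show Nat.gcd 2 (Fintype.card F - 1) = 2 from Nat.gcd_eq_left (by omega)] at h4
  refine (h3.dh h5 ?_).mem_of_not_cyc h1 hH
  have key (k : ℕ) (hk : 2 * #T = 2 ^ k) : PGrp 2 T :=
    (piNat_self_pow Nat.prime_two k).of_dvd (Dvd.intro_left 2 hk)
  rcases hF with k | k | ⟨-, k, hk⟩
  · omega
  · exact key 3 (by omega)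
  · rcases k with _ | _ | k
    · omega
    · exact key 2 (by have := FT.card_pos T; omega)
    · refine key (k + 2) ?_
      have := Nat.one_le_two_pow (n := k)
      rw [show 2 ^ (k + 1 + 1) = 4 * 2 ^ k by ring] at hk ⊢
      omega

end

/-- Say that a group has self-centralizing non-cyclic subgroups when every non-cyclic subgroup H satisfies C_G(H) ≤ H. A non-abelian finite simple group has self-centralizing non-cyclic subgroups if and only if it is isomorphic to PSL₂(q) with q = 4, q = 9, or q a prime of the form 2^k + 1 or 2^k − 1. -/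
theorem result {G : Type*} [Group G] [Finite G] [IsSimpleGroup G] (hna : ¬ IsMulCommutative G) :
    (∀ H : Subgroup G, ¬ IsCyclic ↥H → Subgroup.centralizer (H : Set G) ≤ H) ↔ ∃ (F : Type) (_ : Field F) (_ : Fintype F),
      (Fintype.card F = 4 ∨ Fintype.card F = 9 ∨ ((Fintype.card F).Prime ∧ ∃ k : ℕ, Fintype.card F = 2 ^ k + 1 ∨ Fintype.card F = 2 ^ k - 1)) ∧
      Nonempty (G ≃* Matrix.ProjectiveSpecialLinearGroup (Fin 2) F) := by
  have hs := not_sol_of_not_comm hna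
  refine ⟨fun h => ?_, fun ⟨F, _, _, hF, ⟨e⟩⟩ H => backward e hF⟩
  rcases forward hs h with ⟨F, _, _, -, h1, h2⟩ | ⟨F, _, _, h1, h2⟩
  · exact ⟨F, _, _, .inr (h1.imp_right fun ⟨k1, k, k2⟩ => ⟨k1, k, k2.imp_right fun k => by omega⟩), h2⟩
  · exact ⟨F, _, _, .inl h1, h2⟩

end Cfsg.Agent.S3921
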