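import Cfsg.Statements.S3922
import Mathlib
import Cfsg.Agent.H8.Ito3

set_option autoImplicit false
open Cfsg

namespace Cfsg.Agent.S3922

/-- A finite group whose conjugacy classes have exactly three distinct sizes (1 and two further values) is solvable. -/
theorem result {G : Type*} [Group G] [Finite G] (n₁ n₂ : ℕ) (h12 : n₂ < n₁) (h2 : 1 < n₂)
    (h : ∀ x : G, (Subgroup.centralizer ({x} : Set G)).index = 1 ∨ (Subgroup.centralizer ({x} : Set G)).index = n₂ ∨
      (Subgroup.centralizer ({x} : Set G)).index = n₁)
    (h₁ : ∃ x : G, (Subgroup.centralizer ({x} : Set G)).index = n₁) (h₂ : ∃ x : G, (Subgroup.centralizer ({x} : Set G)).index = n₂) :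
    Group.IsSolvable G := by
  exact H8.Ito.ito (fun x hx => (h x).resolve_left (mt H28.cs_eq_one.1 hx)) h12

end Cfsg.Agent.S3922
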