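import Mathlib
import Cfsg.Agent.H28.GZip
-- Template for statement S3927 (row 3927; see /opt/grader/pristine/manifest.json for weights).
-- Copy to Cfsg/Agent/S3927.lean and replace the sorry. The statement below is byte-identical to the frozen
-- statement Cfsg.CfsgFrozen.S3927 (Cfsg/Statements/S3927.lean; the theorem Cfsg.fg3_iterated_commutators_with_automorphism_generate);
-- the grader kernel-checks Cfsg.Agent.S3927.result against that frozen type. Keep the theorem IN THIS FILE
-- (a `result` declared elsewhere and merely imported here is not credited); helpers may live anywhere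
-- under Cfsg/Agent/.
import Cfsg.Statements.S3927
-- import your own Cfsg.Agent.* helpers here

set_option autoImplicit false
open Cfsg

namespace Cfsg.Agent.S3927

/-- Let G be a finite group and α an automorphism of G with [G, α] = G, that is, the elements g·α(g)⁻¹ generate G. Then for every k ≥ 1 the iterated commutators [g, α, …, α] with k entries α — the values of the k-th iterate of the map c ↦ c·α(c)⁻¹ — also generate G. -/
theorem result {G : Type*} [Group G] [Finite G] (α : MulAut G) (hG : Subgroup.closure (Set.range (fun c : G => c * (α c)⁻¹)) = ⊤) (k : ℕ) (hk : 1 ≤ k) :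
    Subgroup.closure (Set.range ((fun c : G => c * (α c)⁻¹)^[k])) = ⊤ := by
  open Subgroup Cfsg.Agent.FT Cfsg.Agent.H28 in
  open scoped commutatorElement Pointwise in
  · let L := MulAction.toPermHom G G
    have hL : Function.Injective L := MulAction.toPerm_injective
    let a : Equiv.Perm G := α.toEquiv
    have e1 : ∀ c, a * L c * a⁻¹ = L (α c) := fun c => by
      ext x; simp [a, L, Equiv.Perm.inv_def]
    have e2 : ∀ c, L (c * (α c)⁻¹) = ⁅L c, a⁆ := fun c => by
      rw [map_mul, map_inv, ← e1, commutatorElement_def]; group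
    have e3 : ∀ j c, L ((fun c : G => c * (α c)⁻¹)^[j] c) = (fun x => ⁅x, a⁆)^[j] (L c) := fun j => by
      induction j with
      | zero => exact fun _ => rfl
      | succ j ih => intro c; rw [Function.iterate_succ_apply, Function.iterate_succ_apply, ih, e2]
    have e4 : ∀ j c, α ((fun c : G => c * (α c)⁻¹)^[j] c) = (fun c : G => c * (α c)⁻¹)^[j] (α c) := fun j => by
      induction j with
      | zero => exact fun _ => rfl
      | succ j ih => intro c; rw [Function.iterate_succ_apply, Function.iterate_succ_apply, ih, map_mul, map_inv]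
    have ha : a ∈ N(L.range) := mem_nrm.2 (by rintro _ ⟨c, rfl⟩; exact ⟨_, (e1 c).symm⟩)
    have hE : (closure (Set.range ((fun c : G => c * (α c)⁻¹)^[k]))).map L = closure ((fun x => ⁅x, a⁆)^[k] '' L.range) := by
      rw [MonoidHom.map_closure]
      congr 1
      ext x
      constructor
      · rintro ⟨_, ⟨c, rfl⟩, rfl⟩; exact ⟨_, ⟨c, rfl⟩, (e3 k c).symm⟩
      · rintro ⟨_, ⟨c, rfl⟩, rfl⟩; exact ⟨_, ⟨c, rfl⟩, e3 k c⟩
    have h1 := le_iter_comm ha k (H := L.range ⊔ ⟪a⟫) ⟨le_sup_right, fun K hK h => sup_le ?_ h⟩ le_rfl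
    · have h2 : ⟪a⟫ ≤ N(closure ((fun x => ⁅x, a⁆)^[k] '' L.range)) := by
        refine zpowers_le.2 (mem_nrm_of_cj_le ?_)
        rw [cj_def, MonoidHom.map_closure]
        refine closure_mono ?_
        rintro _ ⟨_, ⟨_, ⟨c, rfl⟩, rfl⟩, rfl⟩
        refine ⟨_, ⟨α c, rfl⟩, ?_⟩
        rw [← e3, ← e3, ← e4, ← e1]; rfl
      have h3 : L.range ⊓ ⟪a⟫ = ⊥ := by
        refine le_bot_iff.1 ?_
        rintro _ ⟨⟨c, rfl⟩, h⟩
        have : ⟪a⟫ ≤ MulAction.stabilizer (Equiv.Perm G) (1 : G) := zpowers_le.2 (map_one α)
        have h4 : c * 1 = 1 := this h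
        rw [mul_one] at h4
        rw [h4, map_one]; exact one_mem _
      have h4 := inf_sup_left h2 (L := L.range) (hE ▸ map_le_range _ _)
      rw [h3, sup_bot_eq, inf_eq_left.2 (le_sup_left.trans h1), ← hE, MonoidHom.range_eq_map] at h4
      exact (map_injective hL h4).symm
    · rw [MonoidHom.range_eq_map, ← hG, MonoidHom.map_closure, closure_le]
      rintro _ ⟨_, ⟨c, rfl⟩, rfl⟩
      rw [e2, commutatorElement_def]
      exact mul_mem (hK.conj_mem (mem_sup_left ⟨c, rfl⟩) (h (mem_zpowers a))) (inv_mem (h (mem_zpowers a)))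

end Cfsg.Agent.S3927
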