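import Mathlib
import Cfsg.Agent.S3927
import Cfsg.Agent.H28.Cls2
-- Template for statement S3928 (row 3928; see /opt/grader/pristine/manifest.json for weights).
-- Copy to Cfsg/Agent/S3928.lean and replace the sorry. The statement below is byte-identical to the frozen
-- statement Cfsg.CfsgFrozen.S3928 (Cfsg/Statements/S3928.lean; the theorem Cfsg.fg3_order_bounded_by_inverted_odd_elements_of_involutory_automorphism);
-- the grader kernel-checks Cfsg.Agent.S3928.result against that frozen type. Keep the theorem IN THIS FILE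
-- (a `result` declared elsewhere and merely imported here is not credited); helpers may live anywhere
-- under Cfsg/Agent/.
import Cfsg.Statements.S3928
-- import your own Cfsg.Agent.* helpers here

set_option autoImplicit false
open Cfsg

namespace Cfsg.Agent.S3928

section
open Subgroup Cfsg.Agent.FT Cfsg.Agent.H28
open scoped commutatorElement Pointwise
set_option linter.style.haveILetI false

theorem schur {G : Type*} [Group G] [Finite G] {S : Set G} {k e n : ℕ} (hS : closure S = ⊤) (hk : S.ncard ≤ k)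
    (he : ∀ x ∈ S, x ^ e = 1) (h0 : 0 < e) (hn : (center G).index ≤ n) : Nat.card G ≤ n * (n * e) ^ (n * k) := by
  have hi : 0 < (center G).index := Nat.pos_of_ne_zero index_ne_zero_of_finite
  have h1 : ∀ g : G, MonoidHom.transferCenterPow G g ^ e = 1 := fun g => by
    induction (hS ▸ mem_top g : g ∈ closure S) using closure_induction with
    | mem x hx => rw [← map_pow, he x hx, map_one]
    | one => rw [map_one, one_pow]
    | mul x y _ _ hx hy =>
      rw [map_mul, Commute.mul_pow (Subtype.ext (mem_center_iff.1 (MonoidHom.transferCenterPow G y).2 _)), hx, hy, mul_one]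
    | inv x _ hx => rw [map_inv, inv_pow, hx, inv_one]
  have h2 : Nat.card (center G) ∣ ((center G).index * e) ^ Group.rank (center G) := by
    open scoped IsMulCommutative in
    apply card_dvd_exponent_pow_rank'
    intro g
    have := congrArg Subtype.val (h1 g)
    rw [coe_pow, MonoidHom.transferCenterPow_apply, ← pow_mul] at this
    exact Subtype.ext this
  have h3 : Group.rank G ≤ k := (Group.rank_le (S := S.toFinite.toFinset) (by simpa using hS)).trans
    (by rwa [← Set.ncard_eq_toFinset_card])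
  have h4 := (rank_le_index_mul_rank (center G)).trans (Nat.mul_le_mul hn h3)
  rw [← index_mul_card (center G)]
  refine Nat.mul_le_mul hn ((Nat.le_of_dvd (by positivity) h2).trans ?_)
  exact (Nat.pow_le_pow_left (Nat.mul_le_mul_right e hn) _).trans
    (Nat.pow_le_pow_right (Nat.mul_pos (hi.trans_le hn) h0) h4)

/-- the elements of odd order inverted by `α` -/
def J {G : Type*} [Group G] (α : G →* G) : Set G := {g | Odd (orderOf g) ∧ α g = g⁻¹}

variable {G : Type*} [Group G] [Finite G] {α : G →* G}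

theorem image_J (hα : ∀ x, α (α x) = x) (N : Subgroup G) [N.Normal] (h : N ≤ N.comap α) :
    J (QuotientGroup.map N N α h) = QuotientGroup.mk' N '' J α := by
  ext y
  constructor
  · rintro ⟨h1, h2⟩
    obtain ⟨r, hr⟩ := h1
    obtain ⟨k, hk⟩ := QuotientGroup.mk'_surjective N (y ^ (r + 1))
    have e : QuotientGroup.mk' N (k * (α k)⁻¹) = y := by
      have : QuotientGroup.mk' N (α k) = QuotientGroup.map N N α h (QuotientGroup.mk' N k) := rfl
      rw [map_mul, map_inv, this, hk, map_pow, h2, inv_pow, inv_inv, ← pow_add,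
        show r + 1 + (r + 1) = orderOf y + 1 by omega, pow_succ, pow_orderOf_eq_one, one_mul]
    refine ⟨constt {2}ᶜ (k * (α k)⁻¹), ⟨Nat.coprime_two_right.1 ((p'elt_iff_coprime Nat.prime_two).1 (piElt_constt _ _)), ?_⟩, ?_⟩
    · rw [constt_map, ← constt_inv, map_mul, map_inv, hα, mul_inv_rev, inv_inv]
    · rw [constt_map, e]
      exact ((p'elt_iff_coprime Nat.prime_two).2 (Nat.coprime_two_right.2 ⟨r, hr⟩)).constt_eq
  · rintro ⟨x, ⟨h1, h2⟩, rfl⟩
    exact ⟨h1.of_dvd_nat (orderOf_map_dvd _ x), by rw [← map_inv, ← h2]; rfl⟩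

theorem closure_J (hα : ∀ x, α (α x) = x) (N : Subgroup G) [N.Normal] (h : N ≤ N.comap α) (hJ : closure (J α) = ⊤) :
    closure (J (QuotientGroup.map N N α h)) = ⊤ := by
  rw [image_J hα, ← MonoidHom.map_closure, hJ, map_top_of_surjective _ (QuotientGroup.mk'_surjective N)]

theorem invol (hα : ∀ x, α (α x) = x) (N : Subgroup G) [N.Normal] (h : N ≤ N.comap α) (x : G ⧸ N) :
    QuotientGroup.map N N α h (QuotientGroup.map N N α h x) = x := by
  obtain ⟨y, rfl⟩ := QuotientGroup.mk_surjective x
  exact congrArg QuotientGroup.mk (hα y)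

theorem exists_inv (hα : ∀ x, α (α x) = x) {m c : ℕ} (hm : (J α).ncard ≤ m) (hc : #(α.eqLocus (MonoidHom.id G)) ≤ c)
    (hG : 2 * (c * m) < Nat.card G) : ∃ z, α z = z ∧ orderOf z = 2 ∧ (C[z]).index ≤ 2 * c ^ 2 := by
  classical
  haveI := Fintype.ofFinite G
  by_contra hn
  push Not at hn
  set K := α.eqLocus (MonoidHom.id G)
  let I := Finset.univ.image fun x => x * (α x)⁻¹
  have h1 : Nat.card G ≤ c * I.card := by
    rw [Nat.card_eq_fintype_card]
    refine Finset.card_le_mul_card_image _ c fun y hy => ?_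
    obtain ⟨x, -, rfl⟩ := Finset.mem_image.1 hy
    refine le_trans ?_ hc
    rw [← Nat.card_eq_finsetCard]
    refine Nat.card_le_card_of_injective (fun g => (⟨x⁻¹ * g.1, ?_⟩ : K)) fun a b e => ?_
    · have := (Finset.mem_filter.1 g.2).2
      change α (x⁻¹ * g.1) = x⁻¹ * g.1
      rw [map_mul, map_inv]
      calc _ = x⁻¹ * (x * (α x)⁻¹) * α g.1 := by group
        _ = x⁻¹ * (g.1 * (α g.1)⁻¹) * α g.1 := by rw [this]
        _ = _ := by group
    · exact Subtype.ext (mul_left_cancel (congrArg Subtype.val e))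
  let T := Finset.univ.filter fun z => α z = z ∧ orderOf z = 2
  have hT : T.card ≤ c := by
    refine le_trans ?_ hc
    rw [← Nat.card_eq_finsetCard]
    exact Nat.card_le_card_of_injective (fun g => (⟨g.1, (Finset.mem_filter.1 g.2).2.1⟩ : K))
      fun a b e => Subtype.ext (congrArg (fun t : K => (t : G)) e)
  have h2 : I ⊆ (J α).toFinset ∪ T.biUnion fun z => (C[z] : Set G).toFinset := fun y hy => by
    obtain ⟨x, -, e⟩ := Finset.mem_image.1 hy
    have h3 : α y = y⁻¹ := by rw [← e, map_mul, map_inv, hα, mul_inv_rev, inv_inv]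
    rcases Nat.even_or_odd (orderOf y) with h4 | h4
    · obtain ⟨z, hz, h5⟩ := exists_elt_of_prime_dvd (H := ⟪y⟫) Nat.prime_two (card_zpowers' y ▸ h4.two_dvd)
      refine Finset.mem_union_right _ (Finset.mem_biUnion.2 ⟨z, Finset.mem_filter.2 ⟨Finset.mem_univ _, ?_, h5⟩,
        Set.mem_toFinset.2 (cen1_le_cen1_of_mem_zpowers hz (self_mem_cen1 y))⟩)
      obtain ⟨i, rfl⟩ := mem_zpowers_iff.1 hz
      rw [map_zpow, h3, inv_zpow, inv_eq_iff_mul_eq_one, ← sq, ← h5, pow_orderOf_eq_one]
    · exact Finset.mem_union_left _ (Set.mem_toFinset.2 ⟨h4, h3⟩)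
  have h3 : I.card ≤ m + c * (Nat.card G / (2 * c ^ 2 + 1)) := by
    refine (Finset.card_le_card h2).trans ((Finset.card_union_le _ _).trans (add_le_add ?_ ?_))
    · rwa [← Set.ncard_eq_toFinset_card']
    · refine (Finset.card_biUnion_le_card_mul _ _ _ fun z hz => ?_).trans (Nat.mul_le_mul_right _ hT)
      obtain ⟨-, h4, h5⟩ := Finset.mem_filter.1 hz
      rw [Nat.le_div_iff_mul_le (by omega), ← card_mul_index C[z], ← Set.ncard_eq_toFinset_card']
      exact Nat.mul_le_mul le_rfl (hn z h4 h5)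
  have h4 := Nat.div_mul_le_self (Nat.card G) (2 * c ^ 2 + 1)
  have h5 := h1.trans (Nat.mul_le_mul_left c h3)
  nlinarith

theorem main (m : ℕ) : ∃ B, ∀ (G : Type) [Group G] [Finite G] (α : G →* G), (∀ x, α (α x) = x) → closure (J α) = ⊤ →
    (J α).ncard ≤ m → Nat.card G ≤ B := by
  induction m with
  | zero =>
    refine ⟨0, fun G _ _ α _ _ h => absurd ((Set.ncard_pos (s := J α) (Set.toFinite _)).2 ⟨1, ?_⟩) (by omega)⟩
    simp [J]
  | succ m ih =>
    obtain ⟨B, hB⟩ := ih
    obtain ⟨c, hc⟩ : ∃ c, c = (m + 1) ^ (m + 1) := ⟨_, rfl⟩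
    obtain ⟨k, hk⟩ : ∃ k, k = 2 * c ^ 2 := ⟨_, rfl⟩
    obtain ⟨n, hn⟩ : ∃ n, n = max (2 * (c * (m + 1))) (B * (k ^ k * (k ^ k * 2) ^ (k ^ k * k))) := ⟨_, rfl⟩
    refine ⟨n * (n * (m + 1).factorial) ^ (n * (m + 1)), fun G _ _ α hα hJ hm => ?_⟩
    refine schur hJ hm (fun x hx => orderOf_dvd_iff_pow_eq_one.1 (Nat.dvd_factorial (orderOf_pos x) ?_))
      (Nat.factorial_pos _) ?_
    · refine le_trans ?_ hm
      rw [← card_zpowers']
      refine Set.ncard_le_ncard (s := (⟪x⟫ : Set G)) (fun y hy => ⟨hx.1.of_dvd_nat (orderOf_dvd_of_mem_zpowers hy), ?_⟩)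
      obtain ⟨i, rfl⟩ := mem_zpowers_iff.1 hy
      rw [map_zpow, hx.2, inv_zpow]
    have hZ : center G ≤ (center G).comap α := fun z hz => mem_center_iff.2 fun g => by
      rw [← hα g, ← map_mul, mem_center_iff.1 hz, map_mul]
    have hcen : ∀ g, (∀ j ∈ J α, g * j * g⁻¹ = j) → g ∈ center G := fun g hg => by
      rw [center_eq_iInf hJ]
      exact mem_iInf.2 fun j => mem_iInf.2 fun hj => mem_cen1.2 (mul_inv_eq_iff_eq_mul.1 (hg j hj))
    set β := QuotientGroup.map _ _ α hZ
    have hβ := invol hα _ hZ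
    have hJ' := closure_J hα _ hZ hJ
    have hm' : (J β).ncard ≤ m + 1 := image_J hα _ hZ ▸ (Set.ncard_image_le).trans hm
    have hC : #(β.eqLocus (MonoidHom.id _)) ≤ c := by
      have key : ∀ (h : β.eqLocus (MonoidHom.id _)) (j : J α), h.1.out * j * h.1.out⁻¹ ∈ J α := fun h j => by
        refine ⟨by rw [orderOf_conj]; exact j.2.1, ?_⟩
        have h1 : (h.1.out)⁻¹ * α h.1.out ∈ center G := QuotientGroup.eq.1 (by
          have : β (QuotientGroup.mk h.1.out) = QuotientGroup.mk h.1.out := by rw [QuotientGroup.out_eq']; exact h.2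
          exact this.symm)
        rw [map_mul, map_mul, map_inv, j.2.2]
        calc _ = h.1.out * ((h.1.out⁻¹ * α h.1.out) * (j : G)⁻¹) * (α h.1.out)⁻¹ := by group
          _ = _ := by rw [← mem_center_iff.1 h1]; group
      refine (Nat.card_le_card_of_injective (fun h (j : J α) => (⟨_, key h j⟩ : J α)) fun a b e => ?_).trans ?_
      · refine Subtype.ext ?_
        rw [← QuotientGroup.out_eq' a.1, ← QuotientGroup.out_eq' b.1, QuotientGroup.eq]
        refine hcen _ fun j hj => ?_
        have : a.1.out * j * a.1.out⁻¹ = b.1.out * j * b.1.out⁻¹ := congrArg Subtype.val (congrFun e ⟨j, hj⟩)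
        calc _ = a.1.out⁻¹ * (b.1.out * j * b.1.out⁻¹) * a.1.out := by group
          _ = _ := by rw [← this]; group
      · rw [Nat.card_fun, hc]
        exact (Nat.pow_le_pow_left hm _).trans (Nat.pow_le_pow_right (by omega) hm)
    change Nat.card (G ⧸ center G) ≤ n
    by_contra hlt
    obtain ⟨z, hz1, hz2, hz3⟩ := exists_inv hβ hm' hC ((hn ▸ le_max_left _ _).trans_lt (not_le.1 hlt))
    rw [← hk] at hz3
    have hk0 : 0 < k := (Nat.pos_of_ne_zero index_ne_zero_of_finite).trans_le hz3
    have hzc : ∃ j ∈ J β, z * j * z⁻¹ ≠ j := by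
      by_contra h
      push Not at h
      obtain ⟨w, rfl⟩ := QuotientGroup.mk_surjective z
      refine (orderOf_eq_one_iff.not.1 (by omega)) ((QuotientGroup.eq_one_iff w).2 (hcen w fun j hj => ?_))
      have h1 : ⁅w, j⁆ ∈ center G := (QuotientGroup.eq_one_iff _).1 (by
        have := h j (image_J hα _ hZ ▸ ⟨j, hj, rfl⟩)
        rw [commutatorElement_def]
        exact mul_inv_eq_one.2 this)
      have h2 : w ^ 2 ∈ center G := (QuotientGroup.eq_one_iff _).1 (by
        rw [QuotientGroup.mk_pow, ← hz2, pow_orderOf_eq_one])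
      have h3 : w * j * w⁻¹ = ⁅w, j⁆ * j := by rw [commutatorElement_def]; group
      have h4 : ⁅w, j⁆ ^ 2 = 1 := by
        have : w ^ 2 * j * (w ^ 2)⁻¹ = w * (⁅w, j⁆ * j) * w⁻¹ := by rw [← h3, sq]; group
        rw [← mem_center_iff.1 h2, ← mul_assoc w, mem_center_iff.1 h1, mul_assoc _ w, mul_assoc _ (w * j), h3,
          mul_inv_cancel_right, ← mul_assoc, ← sq] at this
        exact (mul_eq_right.1 this.symm)
      have h5 : ⁅w, j⁆ ^ orderOf j = 1 := by
        have := pow_orderOf_eq_one (w * j * w⁻¹)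
        rwa [orderOf_conj, h3, Commute.mul_pow (mem_center_iff.1 h1 j).symm, pow_orderOf_eq_one, mul_one] at this
      have h6 := Nat.eq_one_of_dvd_coprimes (Nat.coprime_two_left.2 hj.1) (orderOf_dvd_of_pow_eq_one h4)
        (orderOf_dvd_of_pow_eq_one h5)
      rw [h3, orderOf_eq_one_iff.1 h6, one_mul]
    obtain ⟨j, hj, hj'⟩ := hzc
    let N := normalClosure {z}
    have hN : N ≤ N.comap β := normalClosure_le_normal (Set.singleton_subset_iff.2 (by
      change β z ∈ N
      rw [hz1]; exact subset_normalClosure rfl))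
    have h1 : Nat.card ((G ⧸ center G) ⧸ N) ≤ B := by
      refine hB _ _ (invol hβ N hN) (closure_J hβ N hN hJ') ?_
      rw [image_J hβ, ← Nat.lt_succ_iff]
      refine lt_of_lt_of_le (lt_of_le_of_ne Set.ncard_image_le fun e => hj' ?_) hm'
      refine Set.injOn_of_ncard_image_eq e (Set.toFinite _) ⟨by rw [orderOf_conj]; exact hj.1, ?_⟩ hj ?_
      · rw [map_mul, map_mul, map_inv, hz1, hj.2]; group
      · have : QuotientGroup.mk' N z = 1 := (QuotientGroup.eq_one_iff z).2 (subset_normalClosure rfl)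
        rw [map_mul, map_mul, map_inv, this, one_mul, inv_one, mul_one]
    have h2 : Nat.card N ≤ k ^ k * (k ^ k * 2) ^ (k ^ k * k) := by
      have hS : closure (N.subtype ⁻¹' Group.conjugatesOfSet {z}) = ⊤ := closure_preimage_eq_top _
      have hk' : (N.subtype ⁻¹' Group.conjugatesOfSet {z}).ncard ≤ k := by
        refine (Set.ncard_le_ncard_of_injOn N.subtype (t := {c | IsConj z c}) (fun a ha => ?_)
          N.subtype_injective.injOn).trans ((ncard_cls z).trans_le hz3)
        simpa [Group.mem_conjugatesOfSet_iff] using ha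
      have hc' : ∀ x ∈ N.subtype ⁻¹' Group.conjugatesOfSet {z}, ∃ g, g * z * g⁻¹ = x := fun x hx => by
        simpa [Group.mem_conjugatesOfSet_iff] using hx
      refine schur hS hk' (fun x hx => Subtype.ext ?_) two_pos ?_
      · obtain ⟨g, e⟩ := hc' x hx
        rw [coe_pow, ← e, conj_pow, ← hz2, pow_orderOf_eq_one]; simp
      · haveI := Fintype.ofFinite (N.subtype ⁻¹' Group.conjugatesOfSet {z})
        rw [center_eq_infi' hS]
        refine (index_iInf_le _).trans ((Finset.prod_le_pow_card _ _ k fun x _ => ?_).trans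
          (Nat.pow_le_pow_right hk0 ?_))
        · obtain ⟨g, e⟩ := hc' x x.2
          have : C[(x : N)] = (C[((x : N) : G ⧸ center G)]).subgroupOf N := by
            ext y; rw [mem_subgroupOf, mem_cen1, mem_cen1, Subtype.ext_iff]; rfl
          rw [this, ← e, ← cj_cen1]
          refine le_trans ?_ hz3
          rw [← relIndex_top_right C[z], ← relIndex_cj g, cj_top]
          exact relIndex_le_of_le_right le_top (relIndex_pos _ _).ne'
        · rw [Finset.card_univ, ← Nat.card_eq_fintype_card]; exact hk'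
    refine hlt ((card_eq_card_quotient_mul_card_subgroup N).trans_le ((Nat.mul_le_mul h1 h2).trans ?_))
    exact hn ▸ le_max_right _ _

end

/-- There is a function f such that for every non-trivial finite group G and every automorphism α of G of order 2 with [G, α] = G (the elements g·α(g)⁻¹ generate G), the order of G is at most f(m), where m is the number of elements of odd order inverted by α. -/
theorem result : ∃ f : ℕ → ℕ, ∀ (G : Type) [Group G] [Finite G] [Nontrivial G] (α : MulAut G), orderOf α = 2 →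
    Subgroup.closure (Set.range (fun c : G => c * (α c)⁻¹)) = ⊤ →
      Nat.card G ≤ f (Nat.card {g : G // Odd (orderOf g) ∧ α g = g⁻¹}) := by
  open Subgroup Cfsg.Agent.FT Cfsg.Agent.H28 in
  open scoped commutatorElement Pointwise in
  · choose f hf using main
    refine ⟨f, fun G _ _ _ α hα hG => ?_⟩
    have h2 : ∀ x, α (α x) = x := fun x => by
      have := pow_orderOf_eq_one α
      rw [hα, sq] at this
      exact DFunLike.congr_fun this x
    refine hf _ G α.toMonoidHom h2 (top_le_iff.1 ((S3927.result α hG (Nat.card G + 1) (by omega)).ge.trans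
      (closure_mono ?_))) le_rfl
    rintro _ ⟨c, rfl⟩
    have h3 : α (c * (α c)⁻¹) = (c * (α c)⁻¹)⁻¹ := by rw [map_mul, map_inv, h2, mul_inv_rev, inv_inv]
    have h4 : ∀ k, (fun c : G => c * (α c)⁻¹)^[k + 1] c = (c * (α c)⁻¹) ^ 2 ^ k := fun k => by
      induction k with
      | zero => simp
      | succ k ih => rw [Function.iterate_succ_apply', ih, map_pow, h3, inv_pow, inv_inv, pow_succ, pow_mul, sq]
    rw [h4]
    refine ⟨?_, (map_pow α _ _).trans (by rw [h3, inv_pow])⟩
    rw [orderOf_pow, ← Nat.not_even_iff_odd, even_iff_two_dvd]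
    intro h
    have h5 := orderOf_pos (c * (α c)⁻¹)
    have h6 := Nat.mul_dvd_of_dvd_div (Nat.gcd_dvd_left _ _) h
    obtain ⟨i, -, hi⟩ := (Nat.dvd_prime_pow Nat.prime_two).1 (Nat.gcd_dvd_right (orderOf (c * (α c)⁻¹)) (2 ^ Nat.card G))
    have h7 : 2 ^ (i + 1) ∣ orderOf (c * (α c)⁻¹) := by rwa [hi, ← pow_succ] at h6
    have h8 : i + 1 ≤ Nat.card G := (Nat.lt_two_pow_self.le.trans (Nat.le_of_dvd h5 h7)).trans orderOf_le_card
    have h9 := Nat.dvd_gcd h7 (pow_dvd_pow 2 h8)
    rw [hi, Nat.pow_dvd_pow_iff_le_right one_lt_two] at h9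
    omega

end Cfsg.Agent.S3928
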