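import Cfsg.Statements.S3933
import Mathlib
import Cfsg.Agent.GW.SyN

set_option autoImplicit false
open Cfsg

namespace Cfsg.Agent.S3933



/-- If for every prime r the number of Sylow r-subgroups of the finite group G is a prime power or 1, then G is solvable. -/
theorem result {G : Type*} [Group G] [Finite G] (h : ∀ (r : ℕ) [Fact r.Prime], Nat.card (Sylow r G) = 1 ∨ IsPrimePow (Nat.card (Sylow r G))) :
    Group.IsSolvable G := by
  exact GW.SyN.main _ G rfl h

end Cfsg.Agent.S3933
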