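import Cfsg.Statements.S3937
import Mathlib
import Cfsg.Agent.H27.Misc
import Cfsg.Agent.H2.Zipper
import Cfsg.Agent.H2.Rel

set_option autoImplicit false
open Cfsg

namespace Cfsg.Agent.S3937

open Subgroup Cfsg.Agent.FT
open scoped commutatorElement

universe u

theorem foldl_eq {G : Type*} [Group G] (g : G) (n : ℕ) (x : G) :
    (List.replicate n g).foldl (fun a b => a * b * a⁻¹ * b⁻¹) x = (fun a => ⁅a, g⁆)^[n] x := by
  induction n generalizing x with
  | zero => rfl
  | succ n ih => rw [List.replicate_succ, List.foldl_cons, ih, Function.iterate_succ_apply]; rfl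

theorem aux (n : ℕ) : ∀ (G : Type u) [Group G] [Finite G] (g : G), Nat.card G = n →
    (∀ x, ∃ n : ℕ, (fun a => ⁅a, g⁆)^[n] x = 1) → g ∈ F((⊤ : Subgroup G)) := by
  induction n using Nat.strong_induction_on with
  | _ n ih =>
  intro G _ _ g hn h
  have ih' : ∀ K : Subgroup G, K ≠ ⊤ → g ∈ K → g ∈ F(K) := fun K h1 h2 => by
    have := ih _ ((card_lt h1.lt_top).trans_eq (card_top'.trans hn)) K ⟨g, h2⟩ rfl fun x => by
      obtain ⟨m, hm⟩ := h x
      refine ⟨m, Subtype.ext ?_⟩
      have : ∀ m, ((fun a => ⁅a, (⟨g, h2⟩ : K)⁆)^[m] x : K) = (fun a => ⁅a, g⁆)^[m] (x : G) := by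
        intro m
        induction m with
        | zero => rfl
        | succ m ih => rw [Function.iterate_succ_apply', Function.iterate_succ_apply', ← ih]; rfl
      rw [this, hm]; rfl
    rw [fitting_top] at this
    rw [fitting_def]
    exact ⟨_, this, rfl⟩
  by_contra hne
  obtain ⟨M, hM, hAM, hu⟩ := H2.zipper (A := ⟪g⟫)
    (fun hs => hne (fitting_max_subn (subn_top.2 hs) (cyc_zpowers g).nil (mem_zpowers g)))
    fun K hK hle => (((fitting_nil _).subn (zpowers_le.2
        (ih' _ hK (hle (mem_zpowers g))))).trans (fitting_nml _).subn).subn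
  have hgM : g ∈ M := hAM (mem_zpowers g)
  have hN : N(M) ≤ M := by
    by_contra hc
    have := hM.2 _ (lt_of_le_not_ge (le_nrm M) hc)
    exact hne (fitting_mono_nml ⟨le_top, this.ge⟩ (ih' M hM.1 hgM))
  have key : ∀ x, ⁅x, g⁆ ∈ M → x ∈ M := fun x hx => by
    have h1 : g ∈ cj x⁻¹ M := by
      rw [mem_cj, inv_inv]
      simpa [commutatorElement_def] using mul_mem hx hgM
    have h2 := hu _ (isCoatom_cj.2 hM).1 (zpowers_le.2 h1)
    exact inv_mem_iff.1 (hN (mem_nrm_of_cj_le h2))
  refine hM.1 (eq_top_iff.2 fun x _ => ?_)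
  obtain ⟨m, hm⟩ := h x
  have : ∀ m x, (fun a => ⁅a, g⁆)^[m] x ∈ M → x ∈ M := by
    intro m
    induction m with
    | zero => exact fun x h => h
    | succ m ih => exact fun x h => key x (ih _ h)
  exact this m x (hm ▸ one_mem M)

/-- Baer's characterization of the Fitting subgroup: in a finite group G, an element g lies in the Fitting subgroup if and only if g is a left Engel element, that is, for every x there is n with [x, g, g, …, g] = 1 (n entries g, [a, b] = aba⁻¹b⁻¹). -/
theorem result {G : Type*} [Group G] [Finite G] (g : G) :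
    g ∈ Cfsg.fittingSubgroup G ↔ ∀ x : G, ∃ n : ℕ, (List.replicate n g).foldl (fun a b => a * b * a⁻¹ * b⁻¹) x = 1 := by
  simp only [foldl_eq]
  rw [← fitting_top]
  refine ⟨fun hg x => ?_, fun h => aux _ G g rfl h⟩
  obtain ⟨n, hn⟩ := nil_iff_lcs.1 (fitting_nil (⊤ : Subgroup G))
  refine ⟨n + 1, ?_⟩
  have : ∀ m, (fun a => ⁅a, g⁆)^[m + 1] x ∈ F((⊤ : Subgroup G)).lowerCentralSeries m := by
    intro m
    induction m with
    | zero =>
      show x * g * x⁻¹ * g⁻¹ ∈ F((⊤ : Subgroup G))
      exact mul_mem ((fitting_nml ⊤).conj_mem (mem_top x) hg) (inv_mem hg)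
    | succ m ih =>
      rw [Function.iterate_succ_apply']
      exact commutator_mem_commutator ih hg
  exact mem_bot.1 (hn ▸ this n)

end Cfsg.Agent.S3937
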