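import Cfsg.Statements.S3939
import Mathlib
import Cfsg.Agent.H27.Misc
import Cfsg.Agent.H3.Bridge

set_option autoImplicit false
open Cfsg

namespace Cfsg.Agent.S3939

open Subgroup Cfsg.Agent.FT
open scoped commutatorElement

theorem aux {G : Type*} [Group G] [Finite G] {M : Subgroup G} (hZ : Z(M) = ⊥) {g : G} (hg : g ∈ M)
    (h : ∀ x ∈ M, Nil (⟪x⟫ ⊔ ⟪g⟫)) : g = 1 := by
  by_contra h1
  obtain ⟨y, hy, hp⟩ := exists_prime_order_zpowers h1
  have hyM : y ∈ M := zpowers_le.2 hg hy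
  have hpy : PiElt {orderOf y} y := (piElt_of_orderOf_prime hp rfl).2 rfl
  obtain ⟨P, hP, hyP⟩ := hpy.zpowers.exists_syl (zpowers_le.2 hyM)
  set R := piGen {orderOf y}ᶜ M
  have hyR : y ∈ C(R) := le_cen1.1 (piGen_le_iff.2 fun x hx hx' => mem_cen1.2
    ((h x hx).comm_of_coprime (mem_sup_left (mem_zpowers x)) (mem_sup_right hy)
      (hpy.coprime hx').symm))
  have hD : P ⊓ C(R) ⊴ P := subcent_nml (hP.le.trans (piGen_nml _ M).nrm)
  obtain ⟨z, hz, hz1⟩ := exists_ne_one (hP.pi.nil.meet_cen hD (ne_bot_of_mem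
    ⟨hyP (mem_zpowers y), hyR⟩ fun e => hp.ne_one (by rw [e, orderOf_one])))
  refine hz1 (mem_bot.1 (hZ ▸ ⟨hP.le hz.1.1, ?_⟩))
  rw [← (hall_compl_compl.2 hP).piGen_sup, cen_sup]
  exact ⟨hz.1.2, hz.2⟩

/-- In a finite group G the set of elements g such that the subgroup generated by g and x is nilpotent for every x ∈ G is exactly the hypercenter of G (the last term of the upper central series). -/
theorem result {G : Type*} [Group G] [Finite G] (g : G) :
    (∀ x : G, Group.IsNilpotent ↥(Subgroup.closure ({x, g} : Set G))) ↔ g ∈ ⨆ n : ℕ, Subgroup.upperCentralSeries G n := by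
  have e : ∀ x : G, Subgroup.closure ({x, g} : Set G) = ⟪x⟫ ⊔ ⟪g⟫ := fun x => by
    rw [zpowers_eq_closure, zpowers_eq_closure, ← Subgroup.closure_union]; rfl
  simp only [← H3.ucn_top]
  constructor
  · intro h
    obtain ⟨K, ⟨n, rfl⟩, hmax⟩ := exists_max_fun (fun K : Subgroup G => ∃ n, K = ucn n ⊤)
      (fun K => #K) (A := ucn 0 ⊤) ⟨0, rfl⟩
    have h1 : ucn n (⊤ : Subgroup G) = ucn (n + 1) ⊤ :=
      eq_of_card_le (ucn_mono_left n.le_succ _) (hmax _ ⟨_, rfl⟩)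
    have hN : ∀ x : G, x ∈ N(ucn n (⊤ : Subgroup G)) := fun x => (ucn_nml n ⊤).nrm (mem_top x)
    refine mem_iSup_of_mem n ((coset_eq_one_iff (hN g)).1 (aux (M := ⊤ /ₛ ucn n ⊤) ?_
      (mem_quo_of_mem (hN g) (mem_top g)) fun u hu => ?_))
    · rw [← quo_ucn, ← h1, quo_self]
    · obtain ⟨x, -, hx, rfl⟩ := mem_quo.1 hu
      rw [← quo_zpowers hx, ← quo_zpowers (hN g), ← quo_sup (fun y _ => hN y) (fun y _ => hN y)]
      exact Nil.quo (e x ▸ h x :) _
  · intro h x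
    obtain ⟨n, hn⟩ := (mem_iSup_of_directed (Monotone.directed_le
      fun a b hab => ucn_mono_left hab _)).1 h
    have key : ∀ n (K : Subgroup G), ucn n ⊤ ⊓ K ≤ ucn n K := fun n K => by
      induction n with
      | zero => rw [ucn_zero]; exact inf_le_left.trans bot_le
      | succ n ih =>
        refine le_ucn_succ.2 ⟨inf_le_right, le_trans (le_inf ((commSS inf_le_left le_top).trans
          (ucn_comm n ⊤)) (comm_le_of_le inf_le_right le_rfl)) ih⟩
    rw [e]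
    set K := ⟪x⟫ ⊔ ⟪g⟫
    have hg : ⟪g⟫ ≤ ucn n K := zpowers_le.2 (key n K ⟨hn, mem_sup_right (mem_zpowers g)⟩)
    refine nil_iff_ucn.2 ⟨n + 1, le_antisymm (ucn_le _ _) (le_ucn_succ.2 ⟨le_rfl, ?_⟩)⟩
    have : K ≤ ucn n K ⊔ ⟪x⟫ := sup_le le_sup_right (hg.trans le_sup_left)
    refine (der_mono this).trans ((der_sup_le (le_sup_left.trans (ucn_nml n K).nrm)).trans ?_)
    rw [ab_iff_der.1 (ab_zpowers x), sup_bot_eq]

end Cfsg.Agent.S3939
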