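import Cfsg.Statements.S3941
import Mathlib
import Cfsg.Agent.FT.Hall

set_option autoImplicit false
open Cfsg

namespace Cfsg.Agent.S3941

open Subgroup

/-- Let n ≥ 5 and p an odd prime with p ≤ n, and suppose that every proper subgroup of the alternating group of degree n whose order is divisible by p has a normal Sylow p-subgroup. Then n = p. -/
theorem result (n p : ℕ) (hn : 5 ≤ n) [Fact p.Prime] (hp : p ≠ 2) (hpn : p ≤ n)
    (h : ∀ H : Subgroup ↥(alternatingGroup (Fin n)), H ≠ ⊤ → p ∣ Nat.card ↥H → Cfsg.IsPClosed p ↥H) : n = p := by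
  have hp' : p.Prime := Fact.out
  by_contra hne
  obtain ⟨m, rfl⟩ : ∃ m, n = m + 1 := ⟨n - 1, by omega⟩
  let f : alternatingGroup (Fin m) →* alternatingGroup (Fin (m + 1)) :=
    ((Equiv.Perm.extendDomainHom (finSuccAboveEquiv (Fin.last m))).comp
      (alternatingGroup (Fin m)).subtype).codRestrict _ fun x => by
        rw [Equiv.Perm.mem_alternatingGroup]
        exact (Equiv.Perm.sign_extendDomain _ _).trans x.2
  have hf : Function.Injective f := fun x y e => Subtype.ext
    (Equiv.Perm.extendDomainHom_injective _ (congrArg Subtype.val e))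
  have e := MonoidHom.ofInjective hf
  haveI : Nontrivial (Fin m) := Fin.nontrivial_iff_two_le.2 (by omega)
  haveI : Nontrivial (Fin (m + 1)) := Fin.nontrivial_iff_two_le.2 (by omega)
  have hc : 2 * Nat.card f.range = m.factorial := by
    rw [← Nat.card_congr e.toEquiv, two_mul_nat_card_alternatingGroup, Nat.card_perm, Nat.card_fin]
  have hc' : 2 * Nat.card (alternatingGroup (Fin (m + 1))) = (m + 1).factorial := by
    rw [two_mul_nat_card_alternatingGroup, Nat.card_perm, Nat.card_fin]
  have hd : p ∣ Nat.card f.range :=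
    ((Nat.coprime_primes hp' Nat.prime_two).2 hp).dvd_of_dvd_mul_left
      (hc ▸ hp'.dvd_factorial.2 (by omega))
  have h1 := h f.range (fun ht => by
    rw [ht, card_top, hc', Nat.factorial_succ] at hc
    nlinarith [m.factorial_pos]) hd
  obtain ⟨P⟩ : Nonempty (Sylow p f.range) := inferInstance
  have hP := h1 P
  by_cases h5 : 5 ≤ m
  · haveI := alternatingGroup.isSimpleGroup (α := Fin m) (by simpa using h5)
    haveI : IsSimpleGroup f.range := e.symm.isSimpleGroup
    rcases hP.eq_bot_or_eq_top with h2 | h2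
    · exact P.ne_bot_of_dvd_card hd h2
    · obtain ⟨k, hk⟩ := IsPGroup.iff_card.1 P.isPGroup'
      rw [h2, card_top] at hk
      have : 2 * 2 ∣ 2 * p ^ k := by
        rw [← hk, hc]; exact Nat.dvd_factorial (by norm_num) (by omega)
      exact hp ((Nat.prime_dvd_prime_iff_eq Nat.prime_two hp').1
        (Nat.prime_two.dvd_of_dvd_pow (Nat.dvd_of_mul_dvd_mul_left two_pos this))).symm
  obtain rfl : m = 4 := by omega
  obtain rfl : p = 3 := by
    have := hp'.two_le
    have : p ≠ 4 := by rintro rfl; exact absurd hp' (by norm_num)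
    omega
  have hm : ∀ x : alternatingGroup (Fin 4), x ^ 3 = 1 → e x ∈ (P : Subgroup f.range) := fun x hx => by
    have h3 : IsPGroup 3 (zpowers (e x)) := by
      rintro ⟨_, k, rfl⟩
      refine ⟨1, Subtype.ext ?_⟩
      change (e x ^ k) ^ 3 = 1
      rw [← zpow_natCast, ← zpow_mul, mul_comm, zpow_mul, zpow_natCast, ← map_pow, hx, map_one, one_zpow]
    obtain ⟨Q, hQ⟩ := h3.exists_le_sylow
    haveI := P.unique_of_normal hP
    exact Subsingleton.elim Q P ▸ hQ (mem_zpowers _)
  let x : alternatingGroup (Fin 4) := ⟨Equiv.swap 0 1 * Equiv.swap 1 2, Equiv.Perm.mem_alternatingGroup.2 (by decide)⟩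
  let y : alternatingGroup (Fin 4) := ⟨Equiv.swap 1 2 * Equiv.swap 2 3, Equiv.Perm.mem_alternatingGroup.2 (by decide)⟩
  obtain ⟨k, hk⟩ := P.isPGroup' ⟨_, mul_mem (hm x (by decide)) (hm y (by decide))⟩
  have h2 : (x * y) ^ 3 ^ k = 1 := e.injective (by simpa using congrArg Subtype.val hk)
  have h3 : (x * y) ^ 2 = 1 := by decide
  have h4 : x * y ≠ 1 := by decide
  exact h4 (orderOf_eq_one_iff.1 (Nat.eq_one_of_dvd_coprimes (Nat.Coprime.pow_left k (by norm_num))
    (orderOf_dvd_of_pow_eq_one h2) (orderOf_dvd_of_pow_eq_one h3)))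

end Cfsg.Agent.S3941
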