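import Cfsg.Statements.S3946
import Mathlib
import Cfsg.Agent.H1.Kegel
import Cfsg.Agent.H1.FitH

set_option autoImplicit false
open Cfsg

namespace Cfsg.Agent.S3946

open SemidirectProduct in
theorem pow_eq {G : Type*} [Group G] (α : MulAut G) (y : G) (n : ℕ) :
    (inl y * inr α : G ⋊[MonoidHom.id (MulAut G)] MulAut G) ^ n =
      inl ((List.range n).map (fun i : ℕ => (α ^ i) y)).prod * inr (α ^ n) := by
  induction n with
  | zero => simp
  | succ n ih =>
    rw [pow_succ, ih, List.range_succ, List.map_append, List.prod_append, map_mul, List.map_singleton,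
      List.prod_singleton, pow_succ, map_mul]
    have := inl_aut (φ := MonoidHom.id (MulAut G)) (α ^ n) y
    rw [MonoidHom.id_apply] at this
    rw [this, map_inv]; group

/-- Call an automorphism α of order n of a group G splitting when x · α(x) · α²(x) ⋯ α^(n−1)(x) = 1 for every x ∈ G. A finite group admitting a splitting automorphism of prime order is nilpotent (this contains the case of a fixed-point-free automorphism of prime order). -/
theorem result {G : Type*} [Group G] [Finite G] (α : MulAut G) (hp : (orderOf α).Prime)
    (hsplit : ∀ x : G, (((List.range (orderOf α)).map (fun i : ℕ => (α ^ i) x)).prod = 1)) : Group.IsNilpotent G := by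
  haveI := H1.sd_finite (MonoidHom.id (MulAut G))
  have h : H1.Split (orderOf α) ((⊤ : Subgroup G).map
      (SemidirectProduct.inl : G →* G ⋊[MonoidHom.id (MulAut G)] MulAut G)) (SemidirectProduct.inr α) :=
    ⟨H1.sd_norms _ ⊤ trivial, by
      rintro _ ⟨y, -, rfl⟩
      rw [pow_eq, hsplit, pow_orderOf_eq_one, map_one, map_one, one_mul]⟩
  exact FT.nil_top.1 (FT.Nil.of_equiv (h.nil hp) (Subgroup.equivMapOfInjective _ _ SemidirectProduct.inl_injective).symm)

end Cfsg.Agent.S3946
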