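import Mathlib
import Cfsg.Agent.H28.GZip
-- Template for statement S3947 (row 3947; see /opt/grader/pristine/manifest.json for weights).
-- Copy to Cfsg/Agent/S3947.lean and replace the sorry. The statement below is byte-identical to the frozen
-- statement Cfsg.CfsgFrozen.S3947 (Cfsg/Statements/S3947.lean; the theorem Cfsg.fg3_subgroup_with_full_normal_closure_proper_join_or_unique_maximal);
-- the grader kernel-checks Cfsg.Agent.S3947.result against that frozen type. Keep the theorem IN THIS FILE
-- (a `result` declared elsewhere and merely imported here is not credited); helpers may live anywhere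
-- under Cfsg/Agent/.
import Cfsg.Statements.S3947
-- import your own Cfsg.Agent.* helpers here

set_option autoImplicit false
open Cfsg

namespace Cfsg.Agent.S3947

/-- Let G be a finite group and A a proper subgroup of G whose normal closure is G. Let Y be the join of all proper subgroups H of G that contain A and are generated by their own conjugates of A (the normal closure of A in H is H). Then either Y = G, or A is contained in exactly one maximal subgroup of G. -/
theorem result {G : Type*} [Group G] [Finite G] (A : Subgroup G) (hA : Subgroup.normalClosure (A : Set G) = ⊤) (hAG : A ≠ ⊤) :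
    sSup {H : Subgroup G | A ≤ H ∧ H ≠ ⊤ ∧ Subgroup.normalClosure ((A.subgroupOf H : Subgroup ↥H) : Set ↥H) = ⊤} = ⊤ ∨
      ∃! M : Subgroup G, IsCoatom M ∧ A ≤ M := by
  open Subgroup Cfsg.Agent.FT Cfsg.Agent.H28 in
  open scoped commutatorElement Pointwise in
  · by_cases h : TwoMax A
    · refine Or.inl (by_contra fun hc => ?_)
      obtain ⟨M, hM, h1⟩ := exists_coatom hc
      obtain ⟨H, h2, h3, h4⟩ := gen_zipper (ng_top_iff.2 hA) h hM
      exact h4 (le_trans (le_sSup (by exact ⟨h2.le, h3, (ng_iff h2.le).1 h2⟩)) h1)
    · obtain ⟨M, hM, h1⟩ := exists_coatom hAG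
      exact Or.inr ⟨M, ⟨hM, h1⟩, fun N hN => by_contra fun e => h ⟨N, M, hN.1, hM, e, hN.2, h1⟩⟩

end Cfsg.Agent.S3947
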