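import Cfsg.Statements.S3949
import Mathlib
import Cfsg.Agent.FT.Hall

set_option autoImplicit false
open Cfsg

namespace Cfsg.Agent.S3949

/-- Let G be a finite group and α an automorphism of G of order 2 such that the elements g·α(g)⁻¹ generate G. Let j be a positive integer such that 2^j divides the order of no element inverted by α. Then the set of values of the j-th iterate of the map c ↦ c·α(c)⁻¹ is exactly the set of elements of odd order inverted by α. -/
theorem result {G : Type*} [Group G] [Finite G] (α : MulAut G) (hα : orderOf α = 2) (hG : Subgroup.closure (Set.range (fun c : G => c * (α c)⁻¹)) = ⊤)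
    (j : ℕ) (hj : ∀ g : G, α g = g⁻¹ → ¬ 2 ^ j ∣ orderOf g) :
    Set.range ((fun c : G => c * (α c)⁻¹)^[j]) = {g : G | Odd (orderOf g) ∧ α g = g⁻¹} := by
  have h2 : ∀ c, α (α c) = c := fun c => by
    have : α ^ 2 = 1 := hα ▸ pow_orderOf_eq_one α
    rw [← MulAut.mul_apply, ← sq, this, MulAut.one_apply]
  have key : ∀ (k : ℕ) (g : G), α g = g⁻¹ → (fun c : G => c * (α c)⁻¹)^[k] g = g ^ 2 ^ k := by
    intro k g hg
    induction k with
    | zero => simp
    | succ k ih => rw [Function.iterate_succ_apply', ih, map_pow, hg, inv_pow, inv_inv, pow_succ, pow_mul, sq]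
  obtain ⟨k, rfl⟩ : ∃ k, j = k + 1 := ⟨j - 1, by
    have := hj 1 (by simp)
    rcases j with _ | j
    · simp at this
    · rfl⟩
  ext g
  constructor
  · rintro ⟨c, rfl⟩
    have hc : α (c * (α c)⁻¹) = (c * (α c)⁻¹)⁻¹ := by rw [map_mul, map_inv, h2, mul_inv_rev, inv_inv]
    rw [Function.iterate_succ_apply, key k _ hc]
    refine ⟨?_, by rw [map_pow, hc, inv_pow]⟩
    have h3 := hj _ hc
    generalize c * (α c)⁻¹ = x at h3
    obtain ⟨a, b, hb, e⟩ := Nat.exists_eq_two_pow_mul_odd (orderOf_pos x).ne'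
    have ha : a ≤ k := by
      by_contra h
      exact h3 (e ▸ (pow_dvd_pow 2 (by omega)).mul_right _)
    refine hb.of_dvd_nat (orderOf_dvd_of_pow_eq_one ?_)
    rw [← pow_mul, ← orderOf_dvd_iff_pow_eq_one, e]
    exact Nat.mul_dvd_mul_right (pow_dvd_pow 2 ha) _
  · rintro ⟨h1, h3⟩
    obtain ⟨m, hm⟩ := exists_pow_eq_self_of_coprime (x := g) (n := 2 ^ (k + 1))
      (Nat.Coprime.pow_left _ (Nat.coprime_two_left.2 h1))
    exact ⟨g ^ m, by rw [key _ _ (by rw [map_pow, h3, inv_pow]), ← pow_mul, mul_comm, pow_mul, hm]⟩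

end Cfsg.Agent.S3949
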