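import Cfsg.Statements.S3982
import Mathlib
import Cfsg.Agent.H27.Real
import Cfsg.Agent.H5.Frob
import Cfsg.Agent.FT.BG04p

set_option autoImplicit false
open Cfsg

namespace Cfsg.Agent.S3982

open Subgroup Cfsg.Agent.FT
open scoped commutatorElement

/-- Let p be an odd prime and G a finite group of even order divisible by p in which the centralizer of every non-identity p-element has odd order. If some nontrivial p-subgroup of G has a normalizer of even order, then the normalizer of every Sylow p-subgroup of G has even order. -/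
theorem result {G : Type*} [Group G] [Finite G] (p : ℕ) [Fact p.Prime] (hp2 : p ≠ 2) (hpG : p ∣ Nat.card G) (h2G : 2 ∣ Nat.card G) (hC : ∀ g : G, g ≠ 1 → (∃ k : ℕ, orderOf g = p ^ k) → Odd (Nat.card ↥(Subgroup.centralizer ({g} : Set G)))) (Q : Subgroup G) (hQ : IsPGroup p ↥Q) (hQ1 : Q ≠ ⊥) (hev : Even (Nat.card ↥(Subgroup.normalizer (Q : Set G)))) (P : Sylow p G) : Even (Nat.card ↥(Subgroup.normalizer ((P : Subgroup G) : Set G))) := by
  have hp : p.Prime := Fact.out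
  obtain ⟨y, hy, hyo⟩ := exists_elt_of_prime_dvd Nat.prime_two (even_iff_two_dvd.1 hev)
  have hy2 : y * y = 1 := by rw [← sq, ← hyo, pow_orderOf_eq_one]
  obtain ⟨R, hQR, ⟨hR, hyR⟩, hmax⟩ := exists_max (fun R : Subgroup G => PGrp p R ∧ y ∈ N(R))
    ⟨pGrp_of_isPGroup hp hQ, hy⟩
  have hyp : PiGrp {p}ᶜ ⟪y⟫ := ((piElt_of_orderOf_prime Nat.prime_two hyo).2 hp2.symm).zpowers
  have hreg : ∀ x : G, PiElt {p} x → x ≠ 1 → ∀ t : G, orderOf t = 2 → t ∉ C[x] := fun x hx h1 t ht h =>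
    Nat.not_even_iff_odd.2 (hC x h1 (H27.PiElt.exists_orderOf hx))
      (even_iff_two_dvd.2 (ht ▸ orderOf_dvd_card' h))
  have hS : Syl p R ⊤ := by
    refine syl_of_subnorm le_top ?_
    rw [top_inf_eq]
    -- `y` inverts `Z(R)`, so `N(R) = C(Z(R)) C(y)`-like argument
    set Z := Z(R)
    have hZ1 : Z ≠ ⊥ := hR.center_ne_bot (ne_bot_of_le hQR hQ1)
    obtain ⟨z, hz, hz1⟩ := exists_ne_one hZ1
    have hzp : ∀ w ∈ Z, PiElt {p} w := fun w hw => hR.piElt hw.1
    have hodd : PiGrp {2}ᶜ (N(R) ⊓ C(Z)) := by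
      refine p'grp_of_not_dvd fun hd => ?_
      obtain ⟨t, ht, hto⟩ := exists_elt_of_prime_dvd Nat.prime_two hd
      exact hreg z (hzp z hz) hz1 t hto (cen_le_cen1 hz ht.2)
    have hNZ : N(R) ≤ N(Z) := norms_center le_rfl
    have hK : N(R) ⊓ C(Z) ⊴ N(R) := subcent_nml hNZ
    have hinv : ∀ t ∈ N(R), orderOf t = 2 → ∀ w ∈ Z, t * w * t⁻¹ = w⁻¹ := fun t ht hto w hw =>
      H5b.conj_eq_inv_of_reg (hNZ ht) (by rw [← sq, ← hto, pow_orderOf_eq_one])
        (eq_bot_iff.2 fun a ha => by_contra fun h1 =>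
          hreg a (hzp a ha.1) h1 t hto (cen1_comm.1 ha.2)) hw
    have hcomm : ⁅N(R), ⟪y⟫⁆ ≤ N(R) ⊓ C(Z) := bg4_comm_zpowers_le' (hK.nrm hyR) fun s hs => by
      have hsy : s * y * s⁻¹ ∈ N(R) := mul_mem (mul_mem hs hyR) (inv_mem hs)
      refine ⟨(N(R)).mul_mem hsy ((N(R)).inv_mem hyR), mem_cen.2 fun w hw => ?_⟩
      have h1 := hinv _ hsy (by rw [orderOf_conj, hyo]) _ (inv_mem hw)
      have h2 := hinv y hyR hyo w hw
      have h3 : y⁻¹ * w = w⁻¹ * y⁻¹ := by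
        have : w = y⁻¹ * w⁻¹ * y := by rw [← h2]; group
        have e : y⁻¹ = y := inv_eq_of_mul_eq_one_right hy2
        rw [e] at h2 ⊢
        calc y * w = (y * w * y) * y := by rw [mul_assoc, hy2, mul_one]
          _ = w⁻¹ * y := by rw [h2]
      rw [inv_inv] at h1
      have h4 : s * y * s⁻¹ * w⁻¹ = w * (s * y * s⁻¹) := by
        rw [← mul_inv_eq_iff_eq_mul]; exact h1
      rw [commutatorElement_def]
      first
        | (show s * y * s⁻¹ * y⁻¹ * w = w * (s * y * s⁻¹ * y⁻¹)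
           rw [mul_assoc _ y⁻¹, h3, ← mul_assoc, h4, mul_assoc w])
        | (show w * (s * y * s⁻¹ * y⁻¹) = s * y * s⁻¹ * y⁻¹ * w
           rw [mul_assoc _ y⁻¹, h3, ← mul_assoc _ w⁻¹, h4, mul_assoc w])
    have hcop : Cop (N(R) ⊓ C(Z)) ⟪y⟫ :=
      hodd.cop' (PiElt.zpowers (π := {2}) ((piElt_of_orderOf_prime Nat.prime_two hyo).2 rfl))
    have hyK : ⟪y⟫ ≤ N(N(R) ⊓ C(Z)) := (zpowers_le.2 hyR).trans hK.nrm
    have hm := coprime_cent_prod_of_le hK.le hyK hcop (Or.inr (sol_zpowers y)) hcomm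
    obtain ⟨S, hS, hyS, hRS⟩ := coprime_Sylow_subset hyK hcop (Or.inr (sol_zpowers y))
      (X := Z) (p := p) (le_inf (inf_le_left.trans (le_nrm R)) (ab_center R).le_cen)
      (hR.inf_left _) ((zpowers_le.2 hyR).trans hNZ)
    have hSR : S ≤ R := by
      have := hmax (R ⊔ S) ⟨hR.sup hS.pi (hS.le.trans inf_le_left),
        normsY (zpowers_le.2 hyR) hyS (mem_zpowers y)⟩ le_sup_left
      exact this ▸ le_sup_right
    have h1 : Syl p S N(R) := hS.of_relIndex hK.le (by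
      rw [hm.relIndex_left]
      refine (PiGrp.relIndex (p'grp_of_not_dvd fun hd => ?_) _)
      obtain ⟨x, hx, hxo⟩ := exists_elt_of_prime_dvd hp hd
      exact hreg x ((piElt_of_orderOf_prime hp hxo).2 rfl)
        (fun e => hp.ne_one (by rw [← hxo, e, orderOf_one])) y hyo
        (cen1_comm.1 (cen_zpowers y ▸ hx.2)))
    exact (h1.max hR hSR (le_nrm R)).symm ▸ h1
  obtain ⟨g, -, e⟩ := hS.syl_trans (syl_top hp P)
  rw [e, ← cj_nrm, card_cj]
  exact even_iff_two_dvd.2 (hyo ▸ orderOf_dvd_card' hyR)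

end Cfsg.Agent.S3982
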