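import Cfsg.Statements.S3984
import Mathlib
import Cfsg.Agent.H27.Misc

set_option autoImplicit false
open scoped Pointwise
open Cfsg

namespace Cfsg.Agent.S3984

open Subgroup FT

/-- Let P be a Sylow p-subgroup of the finite group G that meets each conjugate g P g⁻¹ with g outside N_G(P) trivially, and let N be a normal subgroup of G of order prime to p. Then every Sylow p-subgroup Q of G ⧸ N meets each conjugate x Q x⁻¹ with x outside its normalizer trivially. -/
theorem result {G : Type*} [Group G] [Finite G] (p : ℕ) [Fact p.Prime] (P : Sylow p G) (hTI : ∀ g : G, g ∉ Subgroup.normalizer ((P : Subgroup G) : Set G) → (P : Subgroup G) ⊓ (MulAut.conj g • (P : Subgroup G)) = ⊥) (N : Subgroup G) [N.Normal] (hN : (Nat.card ↥N).Coprime p) (Q : Sylow p (G ⧸ N)) : ∀ x : G ⧸ N, x ∉ Subgroup.normalizer ((Q : Subgroup (G ⧸ N)) : Set (G ⧸ N)) → (Q : Subgroup (G ⧸ N)) ⊓ (MulAut.conj x • (Q : Subgroup (G ⧸ N))) = ⊥ := by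
  have hp : p.Prime := Fact.out
  have hT := (H27.sylTI_top_iff hp P).2 hTI
  have hPs := syl_top hp P
  have hf := QuotientGroup.mk'_surjective N
  refine (H27.sylTI_top_iff hp Q).1 ((H27.sylTI_top_iff hp (P.mapSurjective hf)).2 fun x hx => ?_)
  obtain ⟨g, rfl⟩ := hf x
  rw [Sylow.coe_mapSurjective] at hx ⊢
  rw [← H1.map_conj_smul, smul_eq_cj]
  refine eq_bot_iff.2 ?_
  rintro _ ⟨⟨y, hy, rfl⟩, h2⟩
  by_contra h1
  have h3 : y ∈ N ⊔ cj g P := by
    have := mem_comap.2 h2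
    rwa [H1.comap_map_mk, sup_comm] at this
  have hNn := H27.nml_top N
  have h4 : Syl p (cj g P) (N ⊔ cj g P) := (hPs.cj_mem (mem_top g)).subl le_sup_right le_top
  obtain ⟨k, hk, h5⟩ := h4.syl_subJ (hPs.pi.piElt hy).zpowers (zpowers_le.2 h3)
  obtain ⟨n, hn, u, hu, rfl⟩ := (mem_sup_norm (le_top.trans hNn.nrm)).1 hk
  rw [← cj_cj, cj_of_mem hu, cj_cj] at h5
  have h6 := hT _ _ hPs (hPs.cj_mem (mem_top (n * g)))
    (ne_bot_of_mem ⟨hy, h5 (mem_zpowers y)⟩ (by rintro rfl; exact h1 (by simp)))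
  refine hx ?_
  have h7 := H1.le_normalizer_map (QuotientGroup.mk' N) (le_refl N((P : Subgroup G)))
    (mem_map_of_mem _ (cj_eq_self.1 h6.symm))
  rwa [map_mul, QuotientGroup.mk'_apply, (QuotientGroup.eq_one_iff n).2 hn, one_mul] at h7

end Cfsg.Agent.S3984
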