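import Cfsg.Statements.S3985
import Mathlib
import Cfsg.Agent.H27.Misc

set_option autoImplicit false
open scoped Pointwise
open Cfsg

namespace Cfsg.Agent.S3985

open Subgroup FT

/-- Let P be a cyclic Sylow p-subgroup of the finite group G. Then P meets each conjugate g P g⁻¹ with g outside N_G(P) trivially if and only if P is weakly self-centralizing: C_G(x) = C_G(P) for every non-identity x ∈ P. -/
theorem result {G : Type*} [Group G] [Finite G] (p : ℕ) [Fact p.Prime] (P : Sylow p G) (hcyc : IsCyclic ↥(P : Subgroup G)) : (∀ g : G, g ∉ Subgroup.normalizer ((P : Subgroup G) : Set G) → (P : Subgroup G) ⊓ (MulAut.conj g • (P : Subgroup G)) = ⊥) ↔ ∀ x : G, x ∈ (P : Subgroup G) → x ≠ 1 → Subgroup.centralizer ({x} : Set G) = Subgroup.centralizer ((P : Subgroup G) : Set G) := by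
  have hp : p.Prime := Fact.out
  have hPs := syl_top hp P
  have hab : Ab (P : Subgroup G) := Cyc.ab hcyc
  constructor
  · intro h x hx h1
    refine le_antisymm ?_ (cen_le_cen1 hx)
    have hn : C[x] ≤ N((P : Subgroup G)) := fun g hg => by_contra fun h2 =>
      h1 (eq_one_of_mem_inf (h g h2) hx (by
        rw [smul_eq_cj, mem_cj, mul_assoc, ← mem_cen1.1 hg, inv_mul_cancel_left]; exact hx))
    have hs : Syl p (P : Subgroup G) C[x] := hPs.subl (hab.le_cen1 hx) le_top
    obtain ⟨H, hH, hsd⟩ := hs.exists_compl hn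
    refine hsd.sup.ge.trans (sup_le hab.le_cen (coprime_cyclic_faithful hsd.nrm
      (hs.pi.cop hH.pi) hcyc hs.pi (ne_bot_of_mem ⟨hx, le_cen1.1 hH.le⟩ h1)))
  · intro h g hg
    rw [smul_eq_cj]
    refine eq_bot_iff.2 fun x ⟨h1, h2⟩ => by_contra fun h3 => hg ?_
    obtain ⟨y, hy, rfl⟩ := mem_cj'.1 h2
    have h4 : C(cj g (P : Subgroup G)) = C((P : Subgroup G)) := by
      rw [← h _ h1 h3, ← cj_cen1, h y hy (conj_ne_one.1 h3), cj_cen]
    exact cj_eq_self.1 (((hPs.subl hab.le_cen le_top).uniq_of_nml (cen_le_nrm _)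
      ((hPs.cj_mem (mem_top g)).subl (h4 ▸ (hab.cj g).le_cen) le_top)))

end Cfsg.Agent.S3985
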