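import Cfsg.Statements.S3986
import Mathlib
import Cfsg.Agent.H27.Misc

set_option autoImplicit false
open Cfsg

namespace Cfsg.Agent.S3986

open Subgroup FT

/-- Let p be a prime and G a finite group. Then some Sylow p-subgroup of G is a direct factor of G (it is normal and has a normal complement) if and only if every element of p-power order commutes with every element whose order is a power of a prime other than p. -/
theorem result {G : Type*} [Group G] [Finite G] (p : ℕ) [Fact p.Prime] : (∃ (P : Sylow p G) (K : Subgroup G), (P : Subgroup G).Normal ∧ K.Normal ∧ (P : Subgroup G) ⊓ K = ⊥ ∧ (P : Subgroup G) ⊔ K = ⊤) ↔ ∀ x y : G, (∃ a : ℕ, orderOf x = p ^ a) → (∃ q b : ℕ, q.Prime ∧ q ≠ p ∧ orderOf y = q ^ b) → x * y = y * x := by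
  have hp : p.Prime := Fact.out
  constructor
  · rintro ⟨P, K, h1, h2, h3, h4⟩ x y ⟨a, ha⟩ ⟨q, b, hq, hqp, hb⟩
    have hd : DP (P : Subgroup G) K ⊤ := dp_of_nml (H27.nml_top _) (H27.nml_top _) h4 h3
    have hP := syl_top hp P
    have hK : Hall {p}ᶜ K ⊤ := hd.sd.compl_hall hP
    exact hd.cen (hK.mem_of_nml hd.nml_right.nrm trivial ((H27.pElt_of_orderOf hq hb).p' hqp)) x
      (hP.mem_of_nml hd.nml_left.nrm trivial (H27.pElt_of_orderOf hp ha))
  · intro h
    obtain ⟨P⟩ : Nonempty (Sylow p G) := inferInstance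
    have hP := syl_top hp P
    have key : ∀ q Q, q.Prime → q ≠ p → PGrp q Q → Q ≤ C((P : Subgroup G)) :=
      fun q Q hq hne hQ y hy x hx => h x y (H27.PiElt.exists_orderOf (hP.pi.piElt hx))
        ⟨q, _, hq, hne, (H27.PiElt.exists_orderOf (hQ.piElt hy)).choose_spec⟩
    have hn : ⊤ ≤ N((P : Subgroup G)) := le_of_forall_syl fun q hq _ => by
      by_cases e : q = p
      · exact ⟨P, e ▸ hP, le_nrm _⟩
      · obtain ⟨Q, hQ⟩ := exists_syl q (⊤ : Subgroup G)
        exact ⟨Q, hQ, cents_norm (key q Q hq e hQ.pi)⟩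
    obtain ⟨K, hK, hsd⟩ := hP.exists_compl hn
    have hd := hsd.dp (le_of_forall_syl fun q hq hd => by
      obtain ⟨Q, hQ⟩ := exists_syl q K
      exact ⟨Q, hQ, key q Q hq (hK.pi.mem hq hd) hQ.pi⟩)
    exact ⟨P, K, nml_top_iff.1 hd.nml_left, nml_top_iff.1 hd.nml_right, hd.inf, hd.sup⟩

end Cfsg.Agent.S3986
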