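import Cfsg.Statements.S3987
import Mathlib
import Cfsg.Agent.H27.Misc
import Cfsg.Agent.S3986

set_option autoImplicit false
open Cfsg

namespace Cfsg.Agent.S3987

open Subgroup FT

/-- Let p be a prime and G a finite group. Then some Sylow p-subgroup of G is a direct factor of G (normal with a normal complement) if and only if for every element x of p-power order and every element y whose order is a power of a prime other than p, the conjugacy class of x y has as many elements as the product of the sizes of the classes of x and of y. -/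
theorem result {G : Type*} [Group G] [Finite G] (p : ℕ) [Fact p.Prime] : (∃ (P : Sylow p G) (K : Subgroup G), (P : Subgroup G).Normal ∧ K.Normal ∧ (P : Subgroup G) ⊓ K = ⊥ ∧ (P : Subgroup G) ⊔ K = ⊤) ↔ ∀ x y : G, (∃ a : ℕ, orderOf x = p ^ a) → (∃ q b : ℕ, q.Prime ∧ q ≠ p ∧ orderOf y = q ^ b) → (Subgroup.centralizer ({x * y} : Set G)).index = (Subgroup.centralizer ({x} : Set G)).index * (Subgroup.centralizer ({y} : Set G)).index := by
  have hp : p.Prime := Fact.out
  constructor
  · rintro ⟨P, K, h1, h2, h3, h4⟩ x y ⟨a, ha⟩ ⟨q, b, hq, hqp, hb⟩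
    have hd : DP (P : Subgroup G) K ⊤ := dp_of_nml (H27.nml_top _) (H27.nml_top _) h4 h3
    have hP := syl_top hp P
    have hK : Hall {p}ᶜ K ⊤ := hd.sd.compl_hall hP
    have hx := H27.pElt_of_orderOf hp ha
    have hy := (H27.pElt_of_orderOf hq hb).p' hqp
    have hxP := hP.mem_of_nml hd.nml_left.nrm trivial hx
    have hyK := hK.mem_of_nml hd.nml_right.nrm trivial hy
    obtain ⟨e1, e2⟩ := constt_eq_of_mul hx hy (hd.cen hyK x hxP) rfl
    rw [← cen1_constt_inf {p}, e1, e2]
    have a1 := hK.relIndex_of_le (hd.cen.trans (cen_le_cen1 hxP))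
    have a2 := hP.relIndex_of_le (hd.symm.cen.trans (cen_le_cen1 hyK))
    rw [relIndex_top_right] at a1 a2
    exact H1.index_inf_of_coprime (piNat_compl_compl.1 a1 |>.coprime a2)
  · intro h
    refine (S3986.result p).2 fun x y hx hy => ?_
    have h1 : C[x] ⊓ C[y] ≤ C[x * y] := fun g hg => mem_cen1.2 (by
      rw [← mul_assoc, mem_cen1.1 hg.1, mul_assoc, mem_cen1.1 hg.2, mul_assoc])
    have h2 : C[x] ⊓ C[y] = C[x * y] := by
      by_contra hne
      have h3 := index_strictAnti (lt_of_le_of_ne h1 hne)
      rw [h x y hx hy] at h3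
      exact h3.not_ge index_inf_le
    have h3 := mem_cen1.1 (h2.ge (self_mem_cen1 (x * y))).1
    rw [mul_assoc] at h3
    exact (mul_left_cancel h3).symm

end Cfsg.Agent.S3987
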