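import Cfsg.Statements.S4013
import Mathlib
import Cfsg.Agent.H27.Misc

set_option autoImplicit false
open Cfsg

namespace Cfsg.Agent.S4013

open Subgroup FT

/-- Let G be a finite p-group (p prime) and N < M normal subgroups of G such that for some g ∈ M ∖ N the conjugacy class of g is exactly M ∖ N. Then p = 2 and N has index 2 in M. -/
theorem result {G : Type*} [Group G] [Finite G] (p : ℕ) [Fact p.Prime] (hG : IsPGroup p G) (N M : Subgroup G) [N.Normal] [M.Normal] (hNM : N < M) (g : G) (hgM : g ∈ M) (hgN : g ∉ N) (hcl : {h : G | IsConj g h} = (M : Set G) \ (N : Set G)) : p = 2 ∧ N.relIndex M = 2 := by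
  have hp : p.Prime := Fact.out
  have hG' : PGrp p (⊤ : Subgroup G) := pGrp_of_isPGroup hp (hG.to_subgroup ⊤)
  obtain ⟨x, hxM, hxN, hx⟩ := hG'.nil.exists_comm_mem (H27.nml_top M) hNM.not_ge
  have h1 : ∀ y ∈ M, y ∉ N → y * x⁻¹ ∈ N := fun y hy hy' => by
    have a : IsConj g x := hcl.ge ⟨hxM, hxN⟩
    have b : IsConj g y := hcl.ge ⟨hy, hy'⟩
    obtain ⟨c, rfl⟩ := isConj_iff.1 (a.symm.trans b)
    have := N.inv_mem (hx c trivial).1
    rwa [commutatorElement_inv] at this
  have h2 : N.relIndex M = 2 := by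
    refine relIndex_eq_two_iff.2 ⟨x⁻¹, inv_mem hxM, fun b hb => ?_⟩
    by_cases h : b ∈ N
    · exact Or.inr ⟨h, fun h' => hxN (inv_mem_iff.1 ((N.mul_mem_cancel_left h).1 h'))⟩
    · exact Or.inl ⟨h1 b hb h, h⟩
  exact ⟨(((hG'.mono le_top).relIndex N).eq_prime Nat.prime_two h2.symm.dvd).symm, h2⟩

end Cfsg.Agent.S4013
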