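import Cfsg.Statements.S4015
import Mathlib
import Cfsg.Agent.H27.DerLen2

set_option autoImplicit false
open Cfsg

namespace Cfsg.Agent.S4015

open Cfsg.Agent.H27

/-- Let p be an odd prime, F a finite field with q elements where p does not divide q, and e the multiplicative order of q modulo p. Let n ≥ e and write w = ⌊n/e⌋ and k = ⌊log_p w⌋. Then a Sylow p-subgroup of GL(n, F) has derived length exactly k + 1: its (k+1)-st derived subgroup is trivial and its k-th is not. -/
theorem result (p : ℕ) [Fact p.Prime] (hp : p ≠ 2) (F : Type*) [Field F] [Fintype F] (q : ℕ) (hq : Fintype.card F = q) (hpq : ¬ p ∣ q) (n : ℕ) (hn : orderOf (q : ZMod p) ≤ n) (P : Sylow p (Matrix.GeneralLinearGroup (Fin n) F)) : derivedSeries ↥(P : Subgroup (Matrix.GeneralLinearGroup (Fin n) F)) (Nat.log p (n / orderOf (q : ZMod p)) + 1) = ⊥ ∧ derivedSeries ↥(P : Subgroup (Matrix.GeneralLinearGroup (Fin n) F)) (Nat.log p (n / orderOf (q : ZMod p))) ≠ ⊥ := by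
  have hpp : p.Prime := Fact.out
  have hq' : Nat.card F = q := by rw [Nat.card_eq_fintype_card, hq]
  have hq0 : ((q : ℕ) : ZMod p) ≠ 0 := by rwa [Ne, ZMod.natCast_eq_zero_iff]
  have he0 : 0 < orderOf (q : ZMod p) := (isOfFinOrder_iff_pow_eq_one.2 ⟨p - 1, by have := hpp.two_le; omega,
    ZMod.pow_card_sub_one_eq_one hq0⟩).orderOf_pos
  constructor
  · let σ : Representation F P (Fin n → F) :=
      (Units.coeHom _).comp (Matrix.GeneralLinearGroup.toLin.toMonoidHom.comp (P : Subgroup (GL (Fin n) F)).subtype)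
    have hσ : Function.Injective σ :=
      Units.val_injective.comp (Matrix.GeneralLinearGroup.toLin.injective.comp (Subgroup.subtype_injective _))
    have := dser_le_ker_fin σ hpp (hq' ▸ hpq) P.isPGroup' (k := Nat.log p (n / orderOf (q : ZMod p)) + 1) (by
      rw [Module.finrank_fin_fun, hq', mul_comm, ← Nat.div_lt_iff_lt_mul he0]
      exact Nat.lt_pow_succ_log_self hpp.one_lt _)
    rwa [(MonoidHom.ker_eq_bot_iff _).2 hσ, le_bot_iff] at this
  · have h := (tw_gl_base F (hq' ▸ hpq)).pow (Nat.log p (n / orderOf (q : ZMod p)))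
    rw [zero_add, hq'] at h
    refine h.gl ?_ P
    rw [mul_comm, ← Nat.le_div_iff_mul_le he0]
    exact Nat.pow_log_le_self p (Nat.div_pos hn he0).ne'

end Cfsg.Agent.S4015
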