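import Cfsg.Statements.S4020
import Mathlib
import Cfsg.Agent.H1.EqConj

set_option autoImplicit false
open Cfsg

namespace Cfsg.Agent.S4020

/-- Let G be a finite group in which, for every prime p, any two p-subgroups of the same order are conjugate. Then every Sylow subgroup of G is cyclic, elementary abelian, or a quaternion group of order 8. -/
theorem result {G : Type*} [Group G] [Finite G]
    (hD : ∀ p : ℕ, p.Prime → ∀ H K : Subgroup G, IsPGroup p H → IsPGroup p K → Nat.card H = Nat.card K →
      ∃ g : G, K = H.map (MulAut.conj g).toMonoidHom) {p : ℕ} [Fact p.Prime] (P : Sylow p G) :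
    IsCyclic P ∨ Cfsg.IsElementaryAbelian p (P : Subgroup G) ∨ Nonempty ((P : Subgroup G) ≃* QuaternionGroup 2) := by
  have key : ∀ q, q.Prime → H1.EqConj q G := fun q hq H K h1 h2 h3 =>
    hD q hq H K h1.isPGroup h2.isPGroup h3
  exact H1.eqConj_sylow (key p Fact.out) (key 2 Nat.prime_two) Fact.out (FT.syl_top Fact.out P)

end Cfsg.Agent.S4020
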