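import Mathlib
import Cfsg.Agent.H28.Cnj
-- Template for statement S4023 (row 4023; see /opt/grader/pristine/manifest.json for weights).
-- Copy to Cfsg/Agent/S4023.lean and replace the sorry. The statement below is byte-identical to the frozen
-- statement Cfsg.CfsgFrozen.S4023 (Cfsg/Statements/S4023.lean; the theorem Cfsg.fg5_equal_order_p_subgroups_conjugate_one_prime_sylow_types);
-- the grader kernel-checks Cfsg.Agent.S4023.result against that frozen type. Keep the theorem IN THIS FILE
-- (a `result` declared elsewhere and merely imported here is not credited); helpers may live anywhere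
-- under Cfsg/Agent/.
import Cfsg.Statements.S4023
-- import your own Cfsg.Agent.* helpers here

set_option autoImplicit false
open Cfsg

namespace Cfsg.Agent.S4023

/-- Let p be a prime and G a finite group in which any two p-subgroups of the same order are conjugate, with Sylow p-subgroup P. Then P is cyclic, or elementary abelian, or p = 2 and P is a quaternion group of order 8, or p is odd and P is non-abelian of order p³ and exponent p. -/
theorem result {G : Type*} [Group G] [Finite G]
    {p : ℕ} [Fact p.Prime] (hC : ∀ H K : Subgroup G, IsPGroup p H → IsPGroup p K → Nat.card H = Nat.card K →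
      ∃ g : G, K = H.map (MulAut.conj g).toMonoidHom) (P : Sylow p G) :
    IsCyclic P ∨ Cfsg.IsElementaryAbelian p (P : Subgroup G) ∨
      (p = 2 ∧ Nonempty ((P : Subgroup G) ≃* QuaternionGroup 2)) ∨
      (p ≠ 2 ∧ ¬ IsMulCommutative P ∧ Nat.card P = p ^ 3 ∧ Monoid.exponent P = p) := by
  open Subgroup Cfsg.Agent.FT Cfsg.Agent.H28 in
  open scoped commutatorElement Pointwise in
  · have hp : p.Prime := Fact.out
    have hP := (syl_top hp P).pi
    have h0 : AbCnj p G := fun A B hA hB _ _ => hC A B hA.isPGroup hB.isPGroup
    by_cases h2 : p = 2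
    · subst h2
      rcases h0.two hP with h | h | ⟨a, b, m, h⟩
      · exact Or.inl h
      · exact Or.inr (Or.inl h)
      · refine Or.inr (Or.inr (Or.inl ⟨rfl, ?_⟩))
        obtain rfl | h3 := h.two_le.eq_or_lt
        · exact h.iso
        exfalso
        have hb : b ^ 2 ≠ 1 := h.sq ▸ h.z_ne
        have hq := h.toMC.sub_q (k := m - 2) hb (by omega) (by omega)
        have hc := h.ord_pow (k := m - 3) (by omega)
        rw [← card_zpowers'] at hc
        obtain ⟨g, e⟩ := hC _ _ (pGrp_of_card hp hc).isPGroup hq.pGrp.isPGroup (by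
          rw [hc, hq.card]; congr 1; omega)
        exact hq.not_cyc (e ▸ (cyc_zpowers _).cj g)
    rcases h0.odd hp h2 hP with h | h
    · exact Or.inl h
    by_cases hab : Ab (P : Subgroup G)
    · exact Or.inr (Or.inl ⟨hab, h⟩)
    obtain ⟨Q, hQ, hQ1, hQ2⟩ := exists_nonab_cube hp hP h hab
    refine Or.inr (Or.inr (Or.inr ⟨h2, hab, ?_, ?_⟩))
    · have hr : prank p (P : Subgroup G) ≤ 2 := by
        by_contra hc
        obtain ⟨E, hE⟩ := exists_pnElem_of_lt_prank (not_le.1 hc)
        obtain ⟨g, e⟩ := hC E Q hE.pGrp.isPGroup (hP.mono hQ).isPGroup (hE.card.trans hQ2.symm)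
        exact hQ1 (e ▸ hE.ab.cj g)
      have h1 := H3.card_le_cube_of_exponent P.isPGroup' ((prank_le_iff hp).1 hr) fun x => Subtype.ext (h x x.2)
      exact le_antisymm h1 (hQ2 ▸ card_le hQ)
    · have h1 : Monoid.exponent P ∣ p := Monoid.exponent_dvd_of_forall_pow_eq_one fun x => Subtype.ext (h x x.2)
      refine ((Nat.dvd_prime hp).1 h1).resolve_left fun e => hab (ab_iff_forall.2 fun x hx y hy => ?_)
      have hx1 : (⟨x, hx⟩ : (P : Subgroup G)) = 1 := by
        have := Monoid.pow_exponent_eq_one (⟨x, hx⟩ : (P : Subgroup G)); rwa [e, pow_one] at this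
      rw [show x = 1 from congrArg Subtype.val hx1, one_mul, mul_one]

end Cfsg.Agent.S4023
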