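import Mathlib
import Cfsg.Agent.H28.Cnj
-- Template for statement S4024 (row 4024; see /opt/grader/pristine/manifest.json for weights).
-- Copy to Cfsg/Agent/S4024.lean and replace the sorry. The statement below is byte-identical to the frozen
-- statement Cfsg.CfsgFrozen.S4024 (Cfsg/Statements/S4024.lean; the theorem Cfsg.fg5_equal_order_p_subgroups_conjugate_normal_p_solvable_subgroup);
-- the grader kernel-checks Cfsg.Agent.S4024.result against that frozen type. Keep the theorem IN THIS FILE
-- (a `result` declared elsewhere and merely imported here is not credited); helpers may live anywhere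
-- under Cfsg/Agent/.
import Cfsg.Statements.S4024
-- import your own Cfsg.Agent.* helpers here

set_option autoImplicit false
open Cfsg

namespace Cfsg.Agent.S4024

/-- Let p be an odd prime and G a finite group in which any two p-subgroups of the same order are conjugate, with Sylow p-subgroup P. If H is a normal p-solvable subgroup of G whose order is divisible by p, then P is abelian, and either P ≤ H or P is cyclic. -/
theorem result {G : Type*} [Group G] [Finite G]
    {p : ℕ} [Fact p.Prime] (hp : p ≠ 2) (hC : ∀ H K : Subgroup G, IsPGroup p H → IsPGroup p K → Nat.card H = Nat.card K →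
      ∃ g : G, K = H.map (MulAut.conj g).toMonoidHom) (P : Sylow p G)
    (H : Subgroup G) [H.Normal] (hsolv : Cfsg.IsPSolvable p H) (hdiv : p ∣ Nat.card H) :
    IsMulCommutative P ∧ ((P : Subgroup G) ≤ H ∨ IsCyclic P) := by
  open Subgroup Cfsg.Agent.FT Cfsg.Agent.H28 in
  open scoped commutatorElement Pointwise in
  · have hp' : p.Prime := Fact.out
    have hS := syl_top hp' P
    have hP := hS.pi
    have h0 : AbCnj p G := fun A B hA hB _ _ => hC A B hA.isPGroup hB.isPGroup
    rcases h0.odd hp' hp hP with h | h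
    · exact ⟨h.ab, Or.inr h⟩
    have key : ∀ N : Subgroup G, N ⊴ ⊤ → p ∣ #N → (P : Subgroup G) ≤ N := fun N hN hd x hx => by
      by_cases h1 : x = 1
      · exact h1 ▸ one_mem _
      obtain ⟨X, hX, hX'⟩ := exists_card_prime_le hp' hd
      have c := H3.card_zpowers_of_pow_prime (h x hx) h1
      obtain ⟨g, e⟩ := hC X ⟪x⟫ (pGrp_of_card_prime hp' hX').isPGroup (pGrp_of_card_prime hp' c).isPGroup (hX'.trans c.symm)
      exact cj_le_of_nrm (hN.nrm (mem_top g)) hX (show x ∈ cj g X from cj_def g X ▸ e ▸ mem_zpowers x)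
    have hH : H ⊴ ⊤ := nml_top_iff.2 inferInstance
    refine ⟨?_, Or.inl (key H hH hdiv)⟩
    have hK := hH.ppCore hp'
    have hPK := key _ hK (dvd_card_ppCore hp' hsolv hdiv)
    have hS' : Syl p (P : Subgroup G) (ppCore p H) := hS.subl hPK le_top
    have hsd := ppCore_sd hp' hS'
    have hO := hH.pcore {p}ᶜ
    have hP1 : (P : Subgroup G) ≠ ⊥ := hS'.syl_ne_bot ⟨hp', dvd_card_ppCore hp' hsolv hdiv⟩
    have hN : O[{p}ᶜ](H) ⊔ Z((P : Subgroup G)) ⊴ ⊤ := by
      refine ⟨le_top, ?_⟩
      have h1 : N((P : Subgroup G)) ≤ N(O[{p}ᶜ](H) ⊔ Z((P : Subgroup G))) :=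
        normsY (le_top.trans hO.nrm) (norms_center le_rfl)
      rw [← (hS'.frattini hK).sup, ← hsd.sup]
      exact sup_le (sup_le (norms_of_le le_sup_left) ((le_nrm _).trans h1)) (inf_le_right.trans h1)
    have h2 := key _ hN (((hP.mono inf_le_left).dvd (hP.center_ne_bot hP1)).trans (card_dvd le_sup_right))
    have h3 := (Hall.sup_right (pcore_pi {p}ᶜ H) (hP.mono (inf_le_left : Z((P : Subgroup G)) ≤ P)) (le_top.trans hO.nrm)).max hP inf_le_left h2
    exact h3 ▸ ab_center _

end Cfsg.Agent.S4024
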