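import Cfsg.Statements.S4027
import Mathlib
import Cfsg.Agent.H27.Real2

set_option autoImplicit false
open Cfsg

namespace Cfsg.Agent.S4027

open Subgroup FT

/-- Let G be a finite group in which every element x of odd order satisfies N_G(⟨x⟩) = C_G(x). Then the Sylow 2-subgroups of G are normal. -/
theorem result {G : Type*} [Group G] [Finite G]
    (hirr : ∀ x : G, (∀ r : ℕ, r.Prime → r ∣ orderOf x → r ≠ 2) →
      Subgroup.normalizer ((Subgroup.zpowers x : Subgroup G) : Set G) ≤ Subgroup.centralizer {x}) (P : Sylow 2 G) :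
    (P : Subgroup G).Normal := by
  refine H27.sylow_two_normal_of_no_real (fun x h1 ho hx => h1 ?_) P
  obtain ⟨g, hg⟩ := isConj_iff.1 hx
  have h2 := hirr x (H27.two'_nat_iff.2 ho) (H27.mem_nrm_zpowers_of_inverts hg)
  rw [mem_cen1.1 h2, mul_inv_cancel_right] at hg
  refine H27.eq_one_of_sq_of_odd ?_ ho
  rw [sq]; nth_rewrite 1 [hg]; exact inv_mul_cancel x

end Cfsg.Agent.S4027
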