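import Cfsg.Statements.S4028
import Mathlib
import Cfsg.Agent.H27.Misc

set_option autoImplicit false
open Cfsg

namespace Cfsg.Agent.S4028

open Subgroup FT

/-- Let G be a finite group with Sylow 2-subgroup P. Then N_G(⟨x⟩) = C_G(x) holds for every 2-element x of G if and only if N_P(⟨y⟩) = C_P(y) holds for every y ∈ P (computed inside P). -/
theorem result {G : Type*} [Group G] [Finite G] (P : Sylow 2 G) :
    (∀ x : G, (∀ r : ℕ, r.Prime → r ∣ orderOf x → r = 2) →
      Subgroup.normalizer ((Subgroup.zpowers x : Subgroup G) : Set G) ≤ Subgroup.centralizer {x}) ↔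
    (∀ y : ↥(P : Subgroup G), Subgroup.normalizer ((Subgroup.zpowers y : Subgroup ↥(P : Subgroup G)) : Set ↥(P : Subgroup G)) ≤
        Subgroup.centralizer {y}) := by
  have hPs := syl_top Nat.prime_two P
  constructor
  · intro h y g hg
    have h1 := H1.le_normalizer_map (P : Subgroup G).subtype (le_refl N(⟪y⟫)) (mem_map_of_mem _ hg)
    rw [MonoidHom.map_zpowers] at h1
    exact mem_cen1.2 (Subtype.ext (mem_cen1.1 (h y (hPs.pi.piElt y.2) h1)))
  · intro h x hx
    have hx' : PiElt {2} x := hx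
    obtain ⟨T, hT, hxT⟩ := hx'.zpowers.exists_syl (le_nrm _)
    obtain ⟨g, -, hg⟩ := hPs.syl_Jsub hT.pi le_top
    have h1 : T ≤ C(⟪x⟫) := fun t ht => by
      have h2 := h ⟨_, hg (conj_mem_cj.2 (hxT (mem_zpowers x)))⟩
        (x := ⟨_, hg (conj_mem_cj.2 ht)⟩) (by
          refine mem_nrm.2 ?_
          rintro _ ⟨k, rfl⟩
          obtain ⟨l, hl⟩ := conj_mem (hT.le ht) (zpow_mem (mem_zpowers x) k)
          refine ⟨l, Subtype.ext ?_⟩
          simp only [SubgroupClass.coe_zpow, coe_mul, conj_zpow, coe_inv] at hl ⊢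
          rw [hl]; group)
      have h3 := congrArg Subtype.val (mem_cen1.1 h2)
      simp only [coe_mul] at h3
      rw [cen_zpowers, mem_cen1]
      calc t * x = g⁻¹ * (g * t * g⁻¹ * (g * x * g⁻¹)) * g := by group
        _ = x * t := by rw [h3]; group
    rw [← cen_zpowers, ← relIndex_eq_one]
    refine PiNat.eq_one (π := {2}) ?_ (hT.relIndex_of_le h1)
    obtain ⟨j, hj⟩ := H27.PiElt.exists_orderOf hx'
    refine PiNat.of_dvd ?_ ((cyc_zpowers x).relIndex_cen_dvd le_rfl)
    rw [card_zpowers', hj]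
    rcases j with _ | j
    · simpa using piNat_one _
    · rw [Nat.totient_prime_pow_succ Nat.prime_two]
      simpa using piNat_self_pow Nat.prime_two j

end Cfsg.Agent.S4028
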