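import Mathlib
import Cfsg.Agent.H28.Util3
import Cfsg.Agent.H28.ClassCount
-- Template for statement S4029 (row 4029; see /opt/grader/pristine/manifest.json for weights).
-- Copy to Cfsg/Agent/S4029.lean and replace the sorry. The statement below is byte-identical to the frozen
-- statement Cfsg.CfsgFrozen.S4029 (Cfsg/Statements/S4029.lean; the theorem Cfsg.fg5_irrational_two_group_generator_bound);
-- the grader kernel-checks Cfsg.Agent.S4029.result against that frozen type. Keep the theorem IN THIS FILE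
-- (a `result` declared elsewhere and merely imported here is not credited); helpers may live anywhere
-- under Cfsg/Agent/.
import Cfsg.Statements.S4029
-- import your own Cfsg.Agent.* helpers here

set_option autoImplicit false
open Cfsg

namespace Cfsg.Agent.S4029

/-- Let P be a finite 2-group in which N_P(⟨y⟩) = C_P(y) for every y ∈ P. If s is the number of conjugacy classes of involutions of P, then #(P/Φ(P)) ≤ s + 1; in particular the subgroup generated by the involutions of P has order at least #(P/Φ(P)). -/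
theorem result {P : Type*} [Group P] [Finite P] (hP : IsPGroup 2 P)
    (hirr : ∀ y : P, Subgroup.normalizer ((Subgroup.zpowers y : Subgroup P) : Set P) ≤ Subgroup.centralizer {y}) :
    Nat.card (P ⧸ frattini P) ≤ Nat.card {c : ConjClasses P // ∃ y : P, ConjClasses.mk y = c ∧ orderOf y = 2} + 1 ∧
    Nat.card (P ⧸ frattini P) ≤ Nat.card (Subgroup.closure {y : P | orderOf y = 2}) := by
  open Subgroup Cfsg.Agent.FT Cfsg.Agent.H28 in
  open scoped commutatorElement Pointwise in
  · have hsq : ∀ g : P, g ^ 2 ∈ (Set.toFinite (frattini P : Set P)).toFinset := fun g => by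
      haveI := Fact.mk Nat.prime_two
      have h1 : PGrp 2 (⊤ : Subgroup P) := pGrp_of_isPGroup Nat.prime_two (hP.to_subgroup ⊤)
      refine (Set.Finite.mem_toFinset _).2 (mem_iInf.2 fun M => mem_iInf.2 fun hM => ?_)
      exact (maxIn_top_iff.2 hM).Phi_le (h1.pow_mem_Phi (mem_top g))
    have h1 := ncard_eq_sum_of_fibers (s := Set.univ) _ (fun g : P => g ^ 2) fun g _ => hsq g
    have h2 := ncard_eq_sum_of_fibers (s := {a : P × P | a.1 ^ 2 = a.2 ^ 2}) _ (fun a => a.1 ^ 2) fun g _ => hsq g.1
    have h3 : ∀ s : P, {a | a ∈ {a : P × P | a.1 ^ 2 = a.2 ^ 2} ∧ a.1 ^ 2 = s}.ncard =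
        {a | a ∈ (Set.univ : Set P) ∧ a ^ 2 = s}.ncard ^ 2 := fun s => by
      rw [sq (Set.ncard _), ← Set.ncard_prod]
      congr 1
      ext a
      simp only [Set.mem_ofPred_eq, Set.mem_prod, Set.mem_univ, true_and]
      exact ⟨fun h => ⟨h.2, h.1 ▸ h.2⟩, fun h => ⟨h.1.trans h.2.symm, h.1⟩⟩
    have h4 : Nat.card P ^ 2 ≤ #(frattini P) * {a : P × P | a.1 ^ 2 = a.2 ^ 2}.ncard := by
      rw [h2, ← Set.ncard_univ, h1, ← ncard_coe, Set.ncard_eq_toFinset_card _ (Set.toFinite _)]
      simp only [h3]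
      exact sq_sum_le_card_mul_sum_sq
    have h5 : {a : P × P | a.1 ^ 2 = a.2 ^ 2}.ncard ≤ (cpairs {y : P | y ^ 2 = 1} Set.univ).ncard := by
      refine Set.ncard_le_ncard_of_injOn (fun a => (a.2 * a.1⁻¹, a.1)) (fun a ha => ?_) fun a _ b _ e => ?_
      · have e : a.1 * (a.2 * a.1⁻¹) * a.1⁻¹ = (a.2 * a.1⁻¹)⁻¹ := by
          calc _ = a.1 * a.2 * (a.1 ^ 2)⁻¹ := by rw [sq]; group
            _ = _ := by rw [show a.1 ^ 2 = a.2 ^ 2 from ha, sq]; group
        have hc := mem_cen1.1 (hirr (a.2 * a.1⁻¹) (mem_nrm_of_cj_le (g := a.1) (by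
          rw [cj_zpowers, e]; exact zpowers_le.2 (inv_mem (mem_zpowers _)))))
        refine ⟨?_, trivial, hc.symm⟩
        rw [hc, mul_inv_cancel_right] at e
        exact (sq _).trans (eq_inv_iff_mul_eq_one.1 e)
      · obtain ⟨e1, e2⟩ := Prod.ext_iff.1 e
        exact Prod.ext e2 (by simpa only [show a.1 = b.1 from e2, mul_left_inj] using e1)
    rw [← kcl_mul_card fun g x hx => by rw [Set.mem_ofPred_eq, conj_pow, show x ^ 2 = 1 from hx]; simp] at h5
    have h6 : Nat.card (P ⧸ frattini P) ≤ kcl {y : P | y ^ 2 = 1} := by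
      have := h4.trans (Nat.mul_le_mul_left _ h5)
      rw [sq, ← mul_assoc] at this
      have h7 := Nat.le_of_mul_le_mul_right this Nat.card_pos
      rw [card_eq_card_quotient_mul_card_subgroup (frattini P), mul_comm] at h7
      exact Nat.le_of_mul_le_mul_left h7 (card_pos _)
    have h7 : ∀ y : P, y ^ 2 = 1 → y = 1 ∨ orderOf y = 2 := fun y hy =>
      ((Nat.dvd_prime Nat.prime_two).1 (orderOf_dvd_of_pow_eq_one hy)).imp_left orderOf_eq_one_iff.1
    refine ⟨h6.trans (le_trans (Set.ncard_le_ncard (t := insert (ConjClasses.mk 1) _) ?_) (Set.ncard_insert_le _ _)),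
      h6.trans (le_trans (Set.ncard_image_le (f := ConjClasses.mk)) ?_)⟩
    · rintro _ ⟨y, hy, rfl⟩
      exact (h7 y hy).imp (congrArg _) fun e => ⟨y, rfl, e⟩
    · rw [← ncard_coe]
      exact Set.ncard_le_ncard fun y hy => (h7 y hy).elim (fun e => e ▸ one_mem _) fun e => subset_closure e

end Cfsg.Agent.S4029
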