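import Cfsg.Statements.S4032
import Mathlib
import Cfsg.Agent.H27.Misc
import Cfsg.Agent.H27.ClassSize

set_option autoImplicit false
open Cfsg

namespace Cfsg.Agent.S4032

open Subgroup FT

/-- Let π be a set of primes and G a finite group in which N_G(⟨x⟩) = C_G(x) for every π-element x. If N is a normal subgroup of G whose order is divisible by no prime of π, then G/N has the same property: N_{G/N}(⟨y⟩) = C_{G/N}(y) for every π-element y of G/N. -/
theorem result {G : Type*} [Group G] [Finite G] (π : Set ℕ)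
    (hirr : ∀ x : G, (∀ r : ℕ, r.Prime → r ∣ orderOf x → r ∈ π) →
      Subgroup.normalizer ((Subgroup.zpowers x : Subgroup G) : Set G) ≤ Subgroup.centralizer {x})
    (N : Subgroup G) [N.Normal] (hN : ∀ r : ℕ, r.Prime → r ∣ Nat.card N → r ∉ π) :
    ∀ y : G ⧸ N, (∀ r : ℕ, r.Prime → r ∣ orderOf y → r ∈ π) →
      Subgroup.normalizer ((Subgroup.zpowers y : Subgroup (G ⧸ N)) : Set (G ⧸ N)) ≤ Subgroup.centralizer {y} := by
  intro y hy
  have hy' : PiElt π y := hy
  obtain ⟨x₀, rfl⟩ := QuotientGroup.mk'_surjective N y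
  have hx : QuotientGroup.mk' N (constt π x₀) = QuotientGroup.mk' N x₀ := by
    rw [constt_map, hy'.constt_eq]
  have hc : Cop ⟪constt π x₀⟫ N := (piElt_constt π x₀).zpowers.cop hN
  rw [← hx, ← cen_zpowers, ← MonoidHom.map_zpowers,
    H1.normalizer_map_mk _ N hc (Or.inl (sol_zpowers _)),
    H1.centralizer_map_mk _ N hc (Or.inl (sol_zpowers _)), cen_zpowers]
  exact map_mono (hirr _ (piElt_constt π x₀))

end Cfsg.Agent.S4032
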