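import Cfsg.Statements.S4034
import Mathlib
import Cfsg.Agent.H27.ClassSize
import Cfsg.Agent.H2.MinNormal
import Cfsg.Agent.H4.SylowIn

set_option autoImplicit false
open Cfsg

namespace Cfsg.Agent.S4034

open Subgroup
open scoped Pointwise

universe u

def Cond (p : ℕ) (X : Type u) [Group X] : Prop :=
  ∀ x : X, (orderOf x).Coprime p → ∃ k : ℕ, (centralizer ({x} : Set X)).index = p ^ k

theorem Cond.quot {p : ℕ} (hp : p.Prime) {X : Type u} [Group X] [Finite X] (N : Subgroup X)
    [N.Normal] (h : Cond p X) : Cond p (X ⧸ N) := by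
  intro y hy
  obtain ⟨x, rfl, hx⟩ := H27.exists_lift_coprime (QuotientGroup.mk' N)
    (QuotientGroup.mk'_surjective N) hy
  obtain ⟨k, hk⟩ := h x hx
  obtain ⟨j, -, hj⟩ := (Nat.dvd_prime_pow hp).1
    (hk ▸ H27.index_centralizer_map_dvd _ (QuotientGroup.mk'_surjective N) x)
  exact ⟨j, hj⟩

theorem Cond.solv {p : ℕ} (hp : p.Prime) {X : Type u} [Group X] [Finite X]
    (h : Cond p X) : Group.IsSolvable X := by
  refine H6.isSolvable_of_simple_sections (Cond p) ?_ ?_ ?_ X h
  · intro X _ _ N _ h x hx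
    obtain ⟨k, hk⟩ := h x (by rwa [orderOf_coe])
    obtain ⟨j, -, hj⟩ := (Nat.dvd_prime_pow hp).1 (hk ▸ H27.index_centralizer_normal_dvd N x)
    exact ⟨j, hj⟩
  · intro X _ _ N _ h
    exact h.quot hp N
  · intro X _ _ _ h
    by_cases h1 : ∀ x : X, (orderOf x).Coprime p → x = 1
    · haveI : Fact p.Prime := ⟨hp⟩
      refine H1.isSolvable_of_isPGroup (p := p) fun g => ?_
      exact ⟨_, h1 _ (H4.coprime_orderOf_pow_pow p g)⟩
    · push Not at h1
      obtain ⟨x, hx, hx1⟩ := h1
      obtain ⟨k, hk⟩ := h x hx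
      exact H27.isSolvable_of_simple_of_index_prime_pow hp hx1 hk.dvd

theorem Cond.comm {p : ℕ} (hp : p.Prime) {X : Type u} [Group X] [Finite X]
    (h : Cond p X) (hO : pCore p X = ⊥) {x y : X} (hx : (orderOf x).Coprime p)
    (hy : (orderOf y).Coprime p) : x * y = y * x := by
  haveI : Fact p.Prime := ⟨hp⟩
  haveI := h.solv hp
  have hF : fittingSubgroup X ≤ pPrimeCore p X := by
    have := H2.fittingSubgroup_le_pCore_sup_pPrimeCore (G := X) p
    rwa [hO, bot_sup_eq] at this
  have h1 : ∀ x : X, (orderOf x).Coprime p → pPrimeCore p X ≤ centralizer ({x} : Set X) := by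
    intro x hx
    obtain ⟨k, hk⟩ := h x hx
    rw [← relIndex_eq_one]
    refine Nat.eq_one_of_dvd_coprimes (H2.pPrimeCore_coprime.pow_right k)
      (relIndex_dvd_card _ _) (hk ▸ H4.relIndex_dvd_index_of_normal_right _ _)
  have h2 : y ∈ fittingSubgroup X := by
    apply H2.centralizer_fittingSubgroup_le
    intro z hz
    exact mem_centralizer_singleton_iff.1 (h1 y hy (hF hz))
  exact (mem_centralizer_singleton_iff.1 (h1 x hx (hF h2))).symm

/-- Let G be a finite group and p a prime. Every conjugacy class of p-regular elements of G (elements of order prime to p) has p-power size if and only if G has an abelian p-complement, i.e. an abelian subgroup of order prime to p and p-power index. -/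
theorem result {G : Type*} [Group G] [Finite G] {p : ℕ} (hp : p.Prime) :
    (∀ x : G, (orderOf x).Coprime p → ∃ k : ℕ, (ConjClasses.mk x).carrier.ncard = p ^ k) ↔
    (∃ H : Subgroup G, IsMulCommutative H ∧ ¬ p ∣ Nat.card H ∧ ∃ k : ℕ, H.index = p ^ k) := by
  haveI : Fact p.Prime := ⟨hp⟩
  simp only [H27.ncard_carrier_eq_index]
  constructor
  · intro h
    have hs := Cond.solv hp h
    obtain ⟨H, hH⟩ := H1.exists_isPiHall {p}ᶜ hs
    have h1 : ¬ p ∣ Nat.card H := fun h => hH.1 p hp h rfl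
    have h2 : (Nat.card H).Coprime p := ((Nat.Prime.coprime_iff_not_dvd hp).2 h1).symm
    refine ⟨H, ⟨⟨fun a b => ?_⟩⟩, h1, ?_⟩
    · have h3 : ∀ a : H, (orderOf (QuotientGroup.mk' (pCore p G) a)).Coprime p := fun a =>
        Nat.Coprime.coprime_dvd_left ((orderOf_map_dvd _ _).trans
          (orderOf_coe a ▸ orderOf_dvd_natCard a)) h2
      have h4 := (Cond.quot hp (pCore p G) h).comm hp H2.pCore_quotient_self (h3 a) (h3 b)
      rw [← map_mul, ← map_mul, QuotientGroup.mk'_apply, QuotientGroup.mk'_apply,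
        QuotientGroup.eq] at h4
      have h5 : ((a * b)⁻¹ * (b * a) : H).1 ∈ H ⊓ pCore p G := ⟨Subtype.prop _, h4⟩
      rw [(H4.disjoint_of_isPGroup_of_coprime H2.pCore_isPGroup h2).eq_bot, mem_bot] at h5
      exact inv_mul_eq_one.1 (Subtype.ext h5)
    · have := (H1.isPiHall_iff.1 hH).2
      rw [compl_compl] at this
      exact (H1.isPiNum_singleton_iff hp FiniteIndex.index_ne_zero).1 this
  · rintro ⟨H, hH, h1, k, hk⟩ x hx
    have hs := H27.isSolvable_of_abelian_index_prime_pow hp H hH hk.dvd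
    have h2 : IsPiHallOf {p}ᶜ H ⊤ := by
      rw [H1.isPiHallOf_top, H1.isPiHall_iff, compl_compl, hk]
      exact ⟨(H1.isPiNum_compl_singleton_iff hp).2 ((Nat.Prime.coprime_iff_not_dvd hp).2 h1).symm,
        H1.isPiNum_prime_pow hp (Set.mem_singleton p) k⟩
    obtain ⟨g, -, hg⟩ := H1.exists_conj_le_hallOf (X := zpowers x) inferInstance h2 le_top
      (by rw [Nat.card_zpowers]; exact (H1.isPiNum_compl_singleton_iff hp).2 hx)
    have h3 : g * x * g⁻¹ ∈ H := H4.conj_smul_le_iff.1 hg x (mem_zpowers x)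
    have h4 : MulAut.conj g⁻¹ • H ≤ centralizer ({x} : Set G) := by
      rw [H4.conj_smul_le_iff]
      intro y hy
      rw [mem_centralizer_singleton_iff]
      have : y * (g * x * g⁻¹) = (g * x * g⁻¹) * y :=
        congrArg Subtype.val (hH.is_comm.comm ⟨y, hy⟩ ⟨_, h3⟩)
      calc _ = g⁻¹ * (y * (g * x * g⁻¹)) * g := by group
        _ = _ := by rw [this]; group
    have h5 := index_dvd_of_le h4
    rw [H1.index_conj_smul, hk] at h5
    obtain ⟨j, -, hj⟩ := (Nat.dvd_prime_pow hp).1 h5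
    exact ⟨j, hj⟩

end Cfsg.Agent.S4034
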