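import Cfsg.Statements.S4033
import Mathlib
import Cfsg.Agent.H29.PReg
import Cfsg.Agent.S4034

set_option autoImplicit false
open Cfsg

namespace Cfsg.Agent.S4033

open Cfsg.Agent.FT Cfsg.Agent.H28 Cfsg.Agent.H29.PReg Subgroup in

/-- Let G be a finite group and p a prime, and suppose the conjugacy classes of p-regular elements of G (elements of order prime to p) have exactly two distinct sizes. Then either G has an abelian p-complement (an abelian subgroup of order prime to p and p-power index), or there are a prime q ≠ p, a Sylow p-subgroup P, a Sylow q-subgroup Q and a central subgroup A such that PQ is a normal subgroup of order #P·#Q and G is the internal direct product PQ × A. -/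
theorem result {G : Type*} [Group G] [Finite G] {p : ℕ} (hp : p.Prime)
    (h2 : Set.ncard (Set.range fun x : {x : G // (orderOf x).Coprime p} => (ConjClasses.mk (x : G)).carrier.ncard) = 2) :
    (∃ H : Subgroup G, IsMulCommutative H ∧ ¬ p ∣ Nat.card H ∧ ∃ k : ℕ, H.index = p ^ k) ∨
    (∃ (q : ℕ) (_ : Fact q.Prime) (P : Sylow p G) (Q : Sylow q G) (A : Subgroup G), q ≠ p ∧
        A ≤ Subgroup.center G ∧ Nat.card ↥((P : Subgroup G) ⊔ (Q : Subgroup G)) = Nat.card P * Nat.card Q ∧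
        ((P : Subgroup G) ⊔ (Q : Subgroup G)).Normal ∧
        ((P : Subgroup G) ⊔ (Q : Subgroup G)) ⊓ A = ⊥ ∧ ((P : Subgroup G) ⊔ (Q : Subgroup G)) ⊔ A = ⊤) := by
  simp only [H27.ncard_carrier_eq_index] at h2
  have pe : ∀ x : G, PiElt {p}ᶜ x ↔ (orderOf x).Coprime p := fun x => p'nat_iff_coprime hp
  obtain ⟨k, hk1, hk, x, hx, hx'⟩ : ∃ k, k ≠ 1 ∧ (∀ x : G, PiElt {p}ᶜ x → C[x].index = 1 ∨ C[x].index = k) ∧
      ∃ x : G, PiElt {p}ᶜ x ∧ C[x].index = k := by
    obtain ⟨a, b, hab, e⟩ := Set.ncard_eq_two.1 h2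
    have h1 : ∀ x : G, PiElt {p}ᶜ x → C[x].index = a ∨ C[x].index = b := fun x hx =>
      (e.le ⟨⟨x, (pe x).1 hx⟩, rfl⟩ :)
    have h3 : ∀ c, c = a ∨ c = b → ∃ x : G, PiElt {p}ᶜ x ∧ C[x].index = c := fun c hc => by
      obtain ⟨x, hx⟩ := e.ge (show c ∈ ({a, b} : Set ℕ) from hc)
      exact ⟨x, (pe x).2 x.2, hx⟩
    have h4 := h1 1 ((pe 1).2 (by simp))
    rw [cs_eq_one.2 (one_mem _)] at h4
    rcases h4 with rfl | rfl
    · exact ⟨b, hab.symm, h1, h3 b (Or.inr rfl)⟩
    · exact ⟨a, hab, fun x hx => (h1 x hx).symm, h3 a (Or.inl rfl)⟩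
  have h : Hy G p k := fun y hy hy' => (hk y hy).resolve_left fun e => hy' (cs_eq_one.1 e)
  by_cases ht : Tw G p
  · left
    refine (S4034.result hp).1 fun y hy => ?_
    rw [H27.ncard_carrier_eq_index]
    rcases hk y ((pe y).2 hy) with e | e
    · exact ⟨0, e⟩
    · exact (e ▸ h.pk hp ht : PiNat {p} C[y].index).exists_pow (cs_pos y).ne'
  · right
    simp only [Tw, not_forall, not_exists, not_and, not_not] at ht
    obtain ⟨q, hq⟩ := ht
    obtain ⟨t, ht, y, hy, hy1, hy2⟩ : ∃ t : ℕ, t.Prime ∧ ∃ y ∈ ⟪x⟫, PiElt {t} y ∧ y ∉ center G := by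
      by_contra! hc
      exact hk1 (hx'.symm.trans (cs_eq_one.2 (le_of_forall_pElt hc (mem_zpowers x))))
    have htp : t ≠ p := fun e => hy2 (by
      rw [orderOf_eq_one_iff.1 ((Nat.coprime_self _).1 (PiNat.coprime (π := {p}) (e ▸ hy1 :) (hx.zpowers.piElt hy)))]
      exact one_mem _)
    obtain rfl : t = q := by_contra fun e => hy2 (hq t ht e htp y hy1)
    haveI := Fact.mk ht
    haveI := Fact.mk hp
    obtain ⟨P⟩ : Nonempty (Sylow p G) := inferInstance
    obtain ⟨Q⟩ : Nonempty (Sylow t G) := inferInstance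
    obtain ⟨A, hA⟩ := split hp ht htp hq (syl_top hp P) (syl_top ht Q)
    exact ⟨t, ⟨ht⟩, P, Q, A, htp, hA⟩

end Cfsg.Agent.S4033
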