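import Cfsg.Statements.S4035
import Mathlib
import Cfsg.Agent.H4.Small

set_option autoImplicit false
open Cfsg

namespace Cfsg.Agent.S4035

/-- Let G be a finite group and p a prime such that p divides the size of no conjugacy class of p-regular elements (elements of order prime to p). Then G is the internal direct product of a Sylow p-subgroup P and a normal subgroup H of order prime to p: P is normal, P ⊓ H = 1 and PH = G. -/
theorem result {G : Type*} [Group G] [Finite G] {p : ℕ} [Fact p.Prime]
    (h : ∀ x : G, (orderOf x).Coprime p → ¬ p ∣ (ConjClasses.mk x).carrier.ncard) (P : Sylow p G) :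
    (P : Subgroup G).Normal ∧ ∃ H : Subgroup G, H.Normal ∧ ¬ p ∣ Nat.card H ∧
      (P : Subgroup G) ⊓ H = ⊥ ∧ (P : Subgroup G) ⊔ H = ⊤ := by
  have h' : ∀ x : G, (orderOf x).Coprime p → ¬ p ∣ (Subgroup.centralizer ({x} : Set G)).index := by
    intro x hx
    have := h x hx
    rwa [H4.ncard_carrier_mk] at this
  obtain ⟨h1, h2, h3⟩ := H4.hasNPC_of_sylow_sup_centralizer P (H4.sylow_sup_centralizer_eq_top P h')
  refine ⟨h1, Cfsg.pResidual p G, inferInstance, H4.hasNPC_iff_not_dvd.mp h2, ?_, ?_⟩
  · exact ((H4.hasNPC_iff_disjoint P).mp h2).symm.eq_bot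
  · rw [sup_comm]; exact H4.pResidual_sup_sylow P

end Cfsg.Agent.S4035
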