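import Cfsg.Statements.S4036
import Mathlib
import Cfsg.Agent.H27.Misc
import Cfsg.Agent.H3.Bridge

set_option autoImplicit false
open Cfsg

namespace Cfsg.Agent.S4036

open Subgroup FT H3

/-- Let P be a finite abelian p-group and K a group of automorphisms of P (a subgroup of Aut P) whose order is divisible by p. If all non-identity elements of K have the same fixed-point subgroup on P, then K has no non-trivial normal subgroup of order prime to p. -/
theorem result {P : Type*} [CommGroup P] [Finite P] {p : ℕ}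
    [Fact p.Prime] (hP : IsPGroup p P) (K : Subgroup (MulAut P)) (hK : p ∣ Nat.card K)
    (hfix : ∀ x y : MulAut P, x ∈ K → y ∈ K → x ≠ 1 → y ≠ 1 → ∀ v : P, x v = v ↔ y v = v) :
    ∀ N : Subgroup ↥K, N.Normal → ¬ p ∣ Nat.card N → N = ⊥ := by
  intro N _ hN
  have hp : p.Prime := Fact.out
  by_contra h1
  obtain ⟨n, hn, hn1⟩ := exists_ne_one h1
  obtain ⟨x, hx⟩ := exists_prime_orderOf_dvd_card' p hK
  have hx1 : x ≠ 1 := fun e => hp.ne_one (by rw [← hx, e, orderOf_one])
  have hV : PGrp p (holL K ⊤) := pGrp_of (isPGroup_holL hP ⊤)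
  have hVn := H27.nml_top (holL K ⊤)
  have hab : Ab (holL K ⊤) := isMulCommutative_map _ inferInstance
  have hc : Cop (holL K ⊤) (holR N) := hV.cop (p'grp_of_not_dvd (by rwa [card_holR]))
  have hd := coprime_abelian_cent_dprod (le_top.trans hVn.nrm) hc hab
  have h2 : ⁅holL K ⊤, holR N⁆ ≠ ⊥ := fun e => hn1 (Subtype.ext (MulEquiv.ext fun v =>
    holR_le_centralizer_holL.1 (comm_eq_bot'.1 e) n hn v trivial))
  have h3 : holR (zpowers x) ≤ N(holR N) :=
    H1.le_normalizer_map _ (le_top.trans (H27.nml_top N).nrm)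
  obtain ⟨w, ⟨hw1, hw2⟩, hw⟩ := exists_ne_one (PiGrp.meet_cen (p := p) (P := holR (zpowers x))
    (pGrp_of_card_prime hp (by rw [card_holR, Nat.card_zpowers, hx])) (hV.mono hd.left)
    (normsR (le_top.trans hVn.nrm) h3) h2)
  obtain ⟨v, -, rfl⟩ := hd.left hw1
  refine hw (eq_one_of_mem_inf hd.inf hw1 ⟨hd.left hw1, inl_mem_centralizer_holR.2 fun γ hγ => ?_⟩)
  by_cases e : γ = 1
  · simp [e]
  · exact (hfix x γ x.2 γ.2 (by simpa using hx1) (by simpa using e) v).1
      (inl_mem_centralizer_holR.1 hw2 x (mem_zpowers x))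

end Cfsg.Agent.S4036
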