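import Cfsg.Statements.S4038
import Cfsg.Agent.H23.Inv

set_option autoImplicit false
open Cfsg

namespace Cfsg.Agent.S4038

/-- Let A and G be finite groups of coprime orders with A acting on G by automorphisms. Suppose G has a proper A-invariant subgroup M, maximal among proper A-invariant subgroups, which is nilpotent and whose Sylow 2-subgroups have nilpotency class at most 2. Then G is solvable. -/
theorem result {G A : Type*} [Group G] [Finite G]
    [Group A] [Finite A] (φ : A →* MulAut G) (hcop : (Nat.card A).Coprime (Nat.card G))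
    (M : Subgroup G) (hMtop : M ≠ ⊤) (hMinv : ∀ a : A, ∀ m : G, m ∈ M → φ a m ∈ M)
    (hMmax : ∀ H : Subgroup G, M ≤ H → H ≠ ⊤ → (∀ a : A, ∀ h : G, h ∈ H → φ a h ∈ H) → H = M)
    (hnil : Group.IsNilpotent M) (h2 : ∀ S : Sylow 2 ↥M, Group.nilpotencyClass ↥(S : Subgroup ↥M) ≤ 2) :
    Group.IsSolvable G := by
  let _ := MulDistribMulAction.compHom G φ
  refine H23.sol_of_nil_max_act (A := A) hcop hMtop hMinv hMmax hnil ?_
  obtain ⟨T, hT⟩ := (FT.Nil.pcore_hall hnil {2}).exists_sylow Nat.prime_two
  have hn : FT.Nil (T : Subgroup M) := inferInstanceAs (Group.IsNilpotent _)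
  have := FT.clsLE_two.1 ((H23.clsLE_iff hn).2 (h2 T))
  rw [← hT, FT.clsLE_two, ← Subgroup.map_commutator, FT.map_cents_inj M.subtype_injective]
  exact this

end Cfsg.Agent.S4038
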