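import Cfsg.Statements.S4043
import Mathlib
import Cfsg.Agent.H27.Misc

set_option autoImplicit false
open Cfsg

namespace Cfsg.Agent.S4043

open Subgroup Cfsg.Agent.FT
open scoped commutatorElement

/-- Let G be a finite group that is the semidirect product of a normal p-subgroup N by a subgroup A, and also of N by a subgroup A₁, where p is a prime and A and A₁ both have normal p-complements. If C_N(A) = C_N(A₁) = 1, then A₁ is conjugate to A by an element of N. -/
theorem result {G : Type*} [Group G] [Finite G] {p : ℕ}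
    [Fact p.Prime] (N : Subgroup G) [N.Normal] (hN : IsPGroup p N) (A A₁ : Subgroup G)
    (hA : A.IsComplement' N) (hA₁ : A₁.IsComplement' N)
    (hAp : Cfsg.HasNormalPComplement p A) (hA₁p : Cfsg.HasNormalPComplement p A₁)
    (hC : ∀ n : G, n ∈ N → (∀ a : G, a ∈ A → a * n * a⁻¹ = n) → n = 1)
    (hC₁ : ∀ n : G, n ∈ N → (∀ a : G, a ∈ A₁ → a * n * a⁻¹ = n) → n = 1) :
    ∃ n : G, n ∈ N ∧ A₁ = A.map (MulAut.conj n).toMonoidHom := by
  have hp : p.Prime := Fact.out
  have hN' := pGrp_of_isPGroup hp hN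
  have h1 := sd_top_of_isComplement' hA.symm
  have h2 := sd_top_of_isComplement' hA₁.symm
  have hK := ((npc_iff hp).2 hAp).hall
  have hK₁ := ((npc_iff hp).2 hA₁p).hall
  have hall : ∀ B, SD N B ⊤ → Hall {p}ᶜ O[{p}ᶜ](B) B → Hall {p}ᶜ O[{p}ᶜ](B) ⊤ := fun B h h' =>
    h'.of_relIndex le_top (by rw [h.relIndex_right, compl_compl]; exact hN')
  set K := O[{p}ᶜ](A)
  have hn : ∀ X : Subgroup G, X ≤ N(N) := fun X => le_top.trans h1.nml.nrm
  have h3 : (⊤ : Subgroup G) ≤ N(N ⊔ K) := by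
    rw [← h1.sup]
    exact sup_le (norms_of_le le_sup_left) (normsY (hn A) (pcore_nrm _ _))
  obtain ⟨k, hk, h4⟩ := coprime_sup_Jsub (hn K) (hK₁.pi.le_of_relIndex le_top h3
    ((hall A h1 hK).relIndex_of_le le_sup_right)) (hN'.cop hK₁.pi) (Or.inl hN'.sol)
  have h5 : cj k O[{p}ᶜ](A₁) = K := eq_of_card_eq h4
    (by rw [card_cj, (hall A h1 hK).card_eq (hall A₁ h2 hK₁)])
  have h6 : N ⊓ C(K) = ⊥ := by
    by_contra hne
    obtain ⟨P, hP⟩ := exists_syl p A
    obtain ⟨x, hx, hx1⟩ := exists_ne_one (hP.pi.meet_cen (hN'.inf_left C(K))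
      (hP.le.trans (norms_subcent (hn A) (pcore_nrm _ _))) hne)
    have : x ∈ C(A) := by
      rw [← (((npc_iff hp).2 hAp).sd hP).sup, cen_sup]; exact ⟨hx.1.2, hx.2⟩
    exact hx1 (hC x hx.1.1 fun a ha => by rw [mem_cen.1 this a ha, mul_inv_cancel_right])
  have h7 : N(K) = A := by
    have := inf_sup_right (L := N(K)) h1.nrm (pcore_nrm _ _)
    rwa [h1.sup, inf_top_eq, inf_comm, coprime_norm_cent (hn K) (hN'.cop hK.pi), h6,
      bot_sup_eq] at this
  have h8 : cj k A₁ ≤ A := by rw [← h7, ← h5]; exact cj_norms.2 (pcore_nrm _ _)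
  refine ⟨k⁻¹, inv_mem hk, cj_eq_iff.1 (eq_of_card_eq h8 ?_)⟩
  rw [card_cj, ← h1.relIndex_left, ← h2.relIndex_left]

end Cfsg.Agent.S4043
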