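import Cfsg.Statements.S4044
import Mathlib
import Cfsg.Agent.H1.HallDiv

set_option autoImplicit false
open Cfsg

namespace Cfsg.Agent.S4044

open Cfsg.Agent.H1

/-- For an integer m ≥ 2 the following are equivalent: (a) every finite group whose order n is divisible by m with gcd(m, n/m) = 1 has a subgroup of order m; (b) m is a prime power, or m ≡ 2 (mod 4), or m ∈ {12, 24, 60}. -/
theorem result (m : ℕ) (hm : 2 ≤ m) :
    (∀ (G : Type) [Group G] [Finite G], m ∣ Nat.card G → m.Coprime (Nat.card G / m) →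
        ∃ H : Subgroup G, Nat.card H = m) ↔
    (IsPrimePow m ∨ m % 4 = 2 ∨ m = 12 ∨ m = 24 ∨ m = 60) := by
  constructor
  · intro h
    by_contra! hn
    obtain ⟨h1, h2, h3, h4, h5⟩ := hn
    have hp := Nat.minFac_prime (show m ≠ 1 by omega)
    obtain ⟨e, b, hb, e1⟩ := Nat.exists_eq_pow_mul_and_not_dvd (show m ≠ 0 by omega) _ hp.ne_one
    have e0 : e ≠ 0 := by
      rintro rfl
      exact hb (by rw [pow_zero, one_mul] at e1; exact e1 ▸ Nat.minFac_dvd m)
    have b2 : Odd b := Nat.not_even_iff_odd.1 fun h' => hb (by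
      rw [(Nat.minFac_eq_two_iff m).2 (e1 ▸ h'.two_dvd.mul_left _)]; exact h'.two_dvd)
    obtain ⟨G, _, _, g1, g2, g3⟩ := exists_no_hall (a := m.minFac ^ e) (b := b)
      (((Nat.Prime.coprime_iff_not_dvd hp).2 hb).pow_left e) (Nat.one_lt_pow e0 hp.one_lt)
      (by
        rcases b with _ | _ | b
        · simp at hb
        · exact absurd (e1 ▸ (by simpa using hp.isPrimePow.pow e0)) h1
        · omega) b2
      (hp.eq_two_or_odd'.symm.imp (fun h => h.pow) fun h => by
        rw [h] at e1 ⊢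
        rcases e with _ | _ | e
        · exact absurd rfl e0
        · obtain ⟨k, rfl⟩ := b2; omega
        · exact ⟨2 ^ e, by ring⟩) (e1 ▸ h3) (e1 ▸ h4) (e1 ▸ h5)
    rw [← e1] at g1 g2 g3
    obtain ⟨H, hH⟩ := h G g1 g2
    exact g3 H hH
  · rintro (h | h | rfl | rfl | rfl) G _ _ h1 h2
    · obtain ⟨p, k, hp, -, rfl⟩ := (isPrimePow_nat_iff _).1 h
      haveI := Fact.mk hp
      exact Sylow.exists_subgroup_card_pow_prime p h1
    exacts [hall_two h h1 h2, hall_twelve h1 h2, hall_twentyfour h1 h2, hall_sixty h1 h2]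

end Cfsg.Agent.S4044
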