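import Cfsg.Statements.S4049
import Mathlib
import Cfsg.Agent.H27.Real2

set_option autoImplicit false
open Cfsg

namespace Cfsg.Agent.S4049

open Subgroup FT

/-- Let G be a finite group such that N_G(H)/C_G(H) has odd order for every nontrivial subgroup H of odd order. Then the Sylow 2-subgroups of G are normal. -/
theorem result {G : Type*} [Group G] [Finite G]
    (hhom : ∀ H : Subgroup G, H ≠ ⊥ → ¬ 2 ∣ Nat.card ↥H →
        ¬ 2 ∣ (Subgroup.centralizer (H : Set G)).relIndex (Subgroup.normalizer (H : Set G))) (P : Sylow 2 G) :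
    (P : Subgroup G).Normal := by
  refine H27.sylow_two_normal_of_no_real (fun x h1 ho hx => h1 ?_) P
  obtain ⟨g, hg⟩ := isConj_iff.1 hx
  obtain ⟨t, -, ⟨j, hj⟩, ht⟩ := H27.exists_two_elt_inverts hg
  have h2 : t ∈ C(⟪x⟫) := (H27.pElt_of_orderOf Nat.prime_two hj).mem_of_relIndex
    (H27.mem_nrm_zpowers_of_inverts ht) (norms_cent le_rfl) (p'nat_of_not_dvd (hhom _
      (zpowers_ne_bot' h1) (by rw [card_zpowers']; exact ho.not_two_dvd_nat)))
  rw [cen_zpowers] at h2
  rw [mem_cen1.1 h2, mul_inv_cancel_right] at ht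
  refine H27.eq_one_of_sq_of_odd ?_ ho
  rw [sq]; nth_rewrite 1 [ht]; exact inv_mul_cancel x

end Cfsg.Agent.S4049
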