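import Cfsg.Statements.S4056
import Mathlib
import Cfsg.Agent.H27.Misc
import Cfsg.Agent.H3.HallPetrescu

set_option autoImplicit false
open Cfsg

namespace Cfsg.Agent.S4056

open Subgroup FT H3
open scoped commutatorElement

/-- In a finite 2-group of nilpotency class at most 2 and exponent dividing 4, the Frattini subgroup lies in the centre and is elementary abelian. -/
theorem result {P : Type*} [Group P] [Finite P] (hP : IsPGroup 2 P)
    (hcl : Group.nilpotencyClass P ≤ 2) (hexp : Monoid.exponent P ∣ 4) :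
    frattini P ≤ Subgroup.center P ∧ Cfsg.IsElementaryAbelian 2 (frattini P) := by
  haveI : Fact (Nat.Prime 2) := ⟨Nat.prime_two⟩
  haveI := hP.isNilpotent
  have h1 : ⁅_root_.commutator P, (⊤ : Subgroup P)⁆ = ⊥ :=
    Subgroup.lowerCentralSeries_eq_bot_iff_nilpotencyClass_le.2 hcl
  have h4 : ∀ x : P, x ^ 4 = 1 := Monoid.exponent_dvd_iff_forall_pow_eq_one.1 hexp
  have hc := fun x y z : P => commute_of_mem_center (comm_mem_center_of_class_two h1 x y) z
  have h2 : ∀ x y : P, ⁅x, y⁆ ^ 2 = 1 := fun x y => by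
    have := mul_pow_of_class_two (hc x y y) (hc x y x) 4
    rw [h4, h4, h4, one_mul, one_mul, show Nat.choose 4 2 = 4 + 2 from rfl, pow_add, h4,
      one_mul] at this
    exact this.symm
  have h3 : frattini P ≤ center P := by
    rw [frattini_eq_of_two hP, closure_le]
    rintro _ ⟨x, rfl⟩
    refine mem_center_iff.2 fun g => ?_
    have := comm_pow_left (hc x g x) 2
    rw [h2, commutatorElement_eq_one_iff_mul_comm] at this
    exact this.symm
  have h5 : Ab (center P) := inferInstance
  refine ⟨h3, (h5.abelem_Ohm 2).mono ?_⟩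
  rw [frattini_eq_of_two hP] at h3 ⊢
  rw [closure_le]
  rintro _ ⟨x, rfl⟩
  exact mem_Ohm (h3 (subset_closure ⟨x, rfl⟩)) (by rw [← pow_mul, h4])

end Cfsg.Agent.S4056
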