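import Cfsg.Statements.S4057
import Mathlib
import Cfsg.Agent.H29.Rk1

set_option autoImplicit false
open Cfsg

namespace Cfsg.Agent.S4057

/-- Let p be an odd prime and P a finite p-group in which every normal abelian subgroup can be generated by k elements. Then every subgroup of P can be generated by at most ⌊k(k+4)/4⌋ elements. -/
theorem result {P : Type*} [Group P] [Finite P] {p : ℕ} [Fact p.Prime]
    (hp : p ≠ 2) (hP : IsPGroup p P) (k : ℕ)
    (hab : ∀ A : Subgroup P, A.Normal → IsMulCommutative A → ∃ S : Finset P, S.card ≤ k ∧ Subgroup.closure (S : Set P) = A) :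
    ∀ H : Subgroup P, ∃ S : Finset P, S.card ≤ k * (k + 4) / 4 ∧ Subgroup.closure (S : Set P) = H := by
  intro H
  classical
  obtain ⟨E, hn, hE, -, -, hm⟩ := H3.exists_max_normal_elemAb hP hp ⊥ ⊤ bot_le H3.elemAb_bot
  obtain ⟨S, s1, s2⟩ := hab E hn hE.1
  have m : ∀ s : S, (s : P) ∈ E := fun s => s2 ▸ Subgroup.subset_closure s.2
  obtain ⟨hk, S1, a1, a2⟩ := @H29.Rk.gen_aut p _ H E _ { (inferInstance : Group E) with mul_comm := hE.1.is_comm.comm } _
    (hP.to_subgroup H) (fun x => Subtype.ext (hE.2 _ x.2)) (MulAut.conjNormal.comp H.subtype) S _ (fun s => ⟨s, m s⟩)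
    (fun W h x => by
      have : Subgroup.closure (S : Set P) ≤ W.map E.subtype := (Subgroup.closure_le _).2 fun s hs => ⟨_, h ⟨s, hs⟩, rfl⟩
      obtain ⟨y, hy, e⟩ := this (s2.ge x.2)
      exact (Subtype.ext e : y = x) ▸ hy) k (by simpa using s1)
  obtain ⟨D, hD⟩ : ∃ D, D = H ⊓ Subgroup.centralizer (E : Set P) := ⟨_, rfl⟩
  have dc : ∀ x : D, (x : P) ∈ Subgroup.centralizer (E : Set P) := fun x => (hD.le x.2).2
  obtain ⟨S2, b1, b2⟩ := H29.Rk.gen_central hp _ D rfl (hP.to_subgroup D) (E.subgroupOf D)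
    (fun x h => Subgroup.mem_center_iff.2 fun y => Subtype.ext (dc y _ h).symm)
    (fun x => ⟨fun h => Subtype.ext (hE.2 _ h), fun h => hm _ trivial (dc x) (congrArg Subtype.val h)⟩) k
    ((Nat.card_le_card_of_injective (fun x : E.subgroupOf D => (⟨x.1, x.2⟩ : E))
        fun x y e => Subtype.ext (Subtype.ext (congrArg (fun z : E => (z : P)) e))).trans hk)
  refine ⟨S1.image Subtype.val ∪ S2.image Subtype.val, (Finset.card_union_le _ _).trans ?_, le_antisymm ?_ ?_⟩
  · have := Finset.card_image_le (s := S1) (f := Subtype.val)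
    have := Finset.card_image_le (s := S2) (f := Subtype.val)
    rw [mul_add, ← sq]; omega
  · refine (Subgroup.closure_le _).2 fun x hx => ?_
    rcases Finset.mem_union.1 hx with hx | hx <;> obtain ⟨x, -, rfl⟩ := Finset.mem_image.1 hx
    · exact x.2
    · exact (hD.le x.2).1
  · conv_lhs => rw [← Subgroup.range_subtype H, MonoidHom.range_eq_map, ← a2, Subgroup.map_sup, MonoidHom.map_closure]
    refine sup_le (Subgroup.closure_mono fun x hx => by simpa using Or.inl hx) (le_trans (b := D) ?_ ?_)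
    · rintro _ ⟨h, hh, rfl⟩
      refine hD.ge ⟨h.2, fun e he => ?_⟩
      have k2 : (h : P) * e * (h : P)⁻¹ = e := congrArg (fun z : MulAut E => (z ⟨e, he⟩ : P)) hh
      exact (mul_inv_eq_iff_eq_mul.1 k2).symm
    · conv_lhs => rw [← Subgroup.range_subtype D, MonoidHom.range_eq_map, ← b2, MonoidHom.map_closure]
      exact Subgroup.closure_mono fun x hx => by simpa using Or.inr hx

end Cfsg.Agent.S4057
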