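import Cfsg.Statements.S4058
import Mathlib
import Cfsg.Agent.H6.Square
import Cfsg.Agent.H6.Central
import Cfsg.Agent.H3.Frattini

set_option autoImplicit false
open Cfsg

namespace Cfsg.Agent.S4058

open scoped ComplexConjugate

theorem dvd_sum_of_action {L X : Type*} [Group L] [MulAction L X] [Fintype X] (f : X → ℤ)
    (hf : ∀ (l : L) x, f (l • x) = f x) (m : ℤ)
    (h : ∀ x, m ∣ (MulAction.stabilizer L x).index * f x) : m ∣ ∑ x, f x := by
  classical
  rw [← Finset.sum_fiberwise Finset.univ
    (fun x => (Quotient.mk'' x : MulAction.orbitRel.Quotient L X))]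
  refine Finset.dvd_sum fun c _ => ?_
  induction c using Quotient.inductionOn' with
  | h x =>
    rw [Finset.sum_congr rfl (g := fun _ => f x), Finset.sum_const, nsmul_eq_mul]
    · refine (h x).trans (dvd_of_eq ?_)
      congr 2
      rw [MulAction.index_stabilizer, ← Set.ncard_coe_finset]
      congr 1
      ext y
      simp [Quotient.eq'', MulAction.orbitRel_apply]
    · intro y hy
      simp only [Finset.mem_filter, Finset.mem_univ, true_and, Quotient.eq'',
        MulAction.orbitRel_apply] at hy
      obtain ⟨l, rfl⟩ := hy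
      exact hf l x

theorem card_le_degree_sq {G : Type*} [Group G] [Finite G] {χ : G → ℂ} (hχ : IsIrrCharacter G χ)
    {n : ℕ} (hn : χ 1 = n) (S : Type*) [Finite S] (f : S → (G →* ℂˣ)) (hf : Function.Injective f)
    (h : ∀ s g, (f s g : ℂ) * χ g = χ g) : Nat.card S ≤ n ^ 2 := by
  classical
  letI := Fintype.ofFinite G
  letI := Fintype.ofFinite S
  have h1 := H6.isCharacter_mul (H6.isCharacter_of_irr hχ)
    (H6.isCharacter_conj (H6.isCharacter_of_irr hχ))
  obtain ⟨m, hm, hm'⟩ := H6.isCharacter_exists_mult h1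
  choose d hd hd' using fun ψ : IrrCharacter G => H6.isIrr_degree ψ.2
  have h2 : n ^ 2 = ∑ ψ, m ψ * d ψ := by
    have := congrFun hm' 1
    simp only [Pi.mul_apply, hn, Finset.sum_apply, Pi.smul_apply, hd', smul_eq_mul,
      Complex.conj_natCast] at this
    rw [sq]
    exact_mod_cast this
  let F : S → IrrCharacter G := fun s => ⟨_, H6.isIrr_linear (f s)⟩
  have hF : Function.Injective F := fun s t hst =>
    hf (H6.linear_injective (congrArg Subtype.val hst))
  have h3 : ∀ s, m (F s) = 1 := by
    intro s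
    have := hm (F s)
    rw [H6.classInner_mul_left] at this
    have h4 : (fun g => conj (conj (χ g)) * (F s).1 g) = χ := by
      ext g
      rw [Complex.conj_conj, mul_comm]
      exact h s g
    rw [h4, H6.classInner_irr_self hχ] at this
    exact_mod_cast this.symm
  rw [h2, Nat.card_eq_fintype_card, ← Finset.card_univ,
    ← Finset.card_image_of_injective _ hF, Finset.card_eq_sum_ones]
  refine le_trans (Finset.sum_le_sum ?_) (Finset.sum_le_sum_of_subset (Finset.subset_univ _))
  intro ψ hψ
  obtain ⟨s, -, rfl⟩ := Finset.mem_image.1 hψ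
  rw [h3, one_mul]
  exact hd _

/-- Let G be a finite 2-group with #(G/Φ(G)) ≥ 2^(2k+1). Then the number of elements x of G with x² = 1 is divisible by 2^(k+1). -/
theorem result {G : Type*} [Group G] [Finite G] (hG : IsPGroup 2 G) (k : ℕ)
    (hgen : 2 ^ (2 * k + 1) ≤ Nat.card (G ⧸ frattini G)) :
    2 ^ (k + 1) ∣ Nat.card {x : G // x ^ 2 = 1} := by
  classical
  letI := Fintype.ofFinite G
  let Q := G ⧸ frattini G
  let L := Q →* ℂˣ
  have hL : Nat.card L = Nat.card Q := by
    rw [H6.card_linear]
    have : commutator Q = ⊥ := by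
      haveI : IsMulCommutative Q :=
        Subgroup.Normal.quotient_commutative_iff_commutator_le.2 (H3.commutator_le_frattini hG)
      exact (commutator_eq_bot_iff Q).2 inferInstance
    rw [this, Subgroup.index_bot]
  haveI : Finite L := Nat.finite_of_card_ne_zero (hL ▸ Nat.card_pos.ne')
  letI : MulAction L (IrrCharacter G) :=
    { smul := fun l χ => ⟨_, H6.isIrr_linear_mul (l.comp (QuotientGroup.mk' _)) χ.2⟩
      one_smul := fun χ => Subtype.ext (funext fun g => one_mul _)
      mul_smul := fun l l' χ => Subtype.ext (funext fun g => mul_assoc _ _ _) }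
  have hsm : ∀ (l : L) (χ : IrrCharacter G) g, (l • χ).1 g = l (g : Q) * χ.1 g := fun _ _ _ => rfl
  choose d hd hd' using fun ψ : IrrCharacter G => H6.isIrr_degree ψ.2
  have h1 : ∀ χ : IrrCharacter G, ∃ e : ℤ, H6.fsInd χ.1 = e := by
    intro χ
    rcases H6.fsInd_trichotomy χ.2 with h | h | h
    exacts [⟨0, by simpa using h⟩, ⟨1, by simpa using h⟩, ⟨-1, by simpa using h⟩]
  choose e he using h1
  have h2 : (Nat.card {x : G // x ^ 2 = 1} : ℤ) = ∑ χ, e χ * d χ := by
    have := H6.card_sqrt_eq_sum (1 : G)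
    simp only [he, hd', Complex.conj_natCast, ← sq] at this
    exact_mod_cast this
  rw [← Int.natCast_dvd_natCast, h2]
  refine dvd_sum_of_action (L := L) _ ?_ _ ?_
  · intro l χ
    have h3 : d (l • χ) = d χ := by
      have := hd' (l • χ)
      rw [hsm, hd'] at this
      simpa using this.symm
    have h4 : e (l • χ) = e χ := by
      have : H6.fsInd (l • χ).1 = H6.fsInd χ.1 := by
        rw [H6.fsInd_def, H6.fsInd_def]
        congr 1
        refine Finset.sum_congr rfl fun g _ => ?_
        rw [hsm, (QuotientGroup.eq_one_iff _).2 (sq g ▸ H3.pow_mem_frattini hG g)]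
        simp
      rw [he, he] at this
      exact_mod_cast this
    rw [h3, h4]
  · intro χ
    rw [mul_left_comm]
    refine Dvd.dvd.mul_left ?_ _
    rw [← Nat.cast_mul, Int.natCast_dvd_natCast]
    have h3 := card_le_degree_sq χ.2 (hd' χ) (MulAction.stabilizer L χ)
      (fun s => s.1.comp (QuotientGroup.mk' _))
      (fun s t hst => Subtype.ext (QuotientGroup.monoidHom_ext _ hst))
      (fun s g => congrFun (congrArg Subtype.val s.2) g)
    obtain ⟨n, hn⟩ := IsPGroup.iff_card.1 hG
    obtain ⟨a, -, ha⟩ := (Nat.dvd_prime_pow Nat.prime_two).1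
      (hn ▸ H6.degree_dvd_card χ.2 (hd' χ))
    obtain ⟨b, hb⟩ := IsPGroup.iff_card.1 (hG.to_quotient (frattini G))
    have h4 := (MulAction.stabilizer L χ).card_mul_index
    rw [hL, hb] at h4
    obtain ⟨s, -, hs⟩ := (Nat.dvd_prime_pow Nat.prime_two).1 (Dvd.intro _ h4)
    obtain ⟨t, -, ht⟩ := (Nat.dvd_prime_pow Nat.prime_two).1 (Dvd.intro_left _ h4)
    rw [hs, ht, ← pow_add] at h4
    rw [hs, ha, ← pow_mul, Nat.pow_le_pow_iff_right (by norm_num)] at h3
    rw [hb, Nat.pow_le_pow_iff_right (by norm_num)] at hgen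
    have h5 := Nat.pow_right_injective le_rfl h4
    rw [ht, ha, ← pow_add]
    exact pow_dvd_pow 2 (by omega)

end Cfsg.Agent.S4058
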