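import Cfsg.Statements.S4064
import Mathlib
import Cfsg.Agent.H20.SEc2
import Cfsg.Agent.H10.Congr

set_option autoImplicit false
open Cfsg

namespace Cfsg.Agent.S4064

open Cfsg.Agent.FT Cfsg.Agent.H20.SEc

theorem dp_equiv {G : Type*} [Group G] {A B H : Subgroup G} (h : DP A B H) :
    Nonempty (H ≃* A × B) := by
  have hc : ∀ (a : A) (b : B), Commute (A.subtype a) (B.subtype b) :=
    fun a b => mem_cen.1 (h.cen b.2) a a.2
  have hi : Function.Injective (A.subtype.noncommCoprod B.subtype hc) :=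
    (MonoidHom.noncommCoprod_injective _ _ hc).2 ⟨A.subtype_injective, B.subtype_injective, by
      rw [Subgroup.range_subtype, Subgroup.range_subtype, disjoint_iff, h.inf]⟩
  have e : (A.subtype.noncommCoprod B.subtype hc).range = H := by
    rw [MonoidHom.noncommCoprod_range, Subgroup.range_subtype, Subgroup.range_subtype, h.sup]
  exact ⟨((MonoidHom.ofInjective hi).trans (MulEquiv.subgroupCongr e)).symm⟩

theorem nil_of_nrm {G : Type*} [Group G] [Finite G] {H : Subgroup G}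
    (h : ∀ x ∈ H, H ≤ N(C[x])) : Nil H :=
  (fitting_nil H).mono fun x hx => (ab_center (H ⊓ C[x])).le_fitting
    (nml_inf_of_norms (h x hx)).center ⟨⟨hx, self_mem_cen1 x⟩, le_cen1.1 inf_le_right⟩

/-- Let G be a finite group in which the centralizer of every element meets each of its conjugates by elements outside its normalizer trivially. Then G is nilpotent; or G is a Frobenius group with a complement that is cyclic or isomorphic to the direct product of a cyclic group of odd order and the quaternion group of order 8; or G is isomorphic to PSL₂(2ⁿ) for some n ≥ 2. -/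
theorem result {G : Type*} [Group G] [Finite G] (hTI : ∀ x : G, Cfsg.IsTISubset (Subgroup.centralizer ({x} : Set G) : Set G)) :
    Group.IsNilpotent G ∨
    (∃ H : Subgroup G, Cfsg.IsFrobeniusComplement H ∧
      (IsCyclic H ∨ ∃ m : ℕ, Odd m ∧ Nonempty (H ≃* Multiplicative (ZMod m) × QuaternionGroup 2))) ∨
    (∃ n : ℕ, 2 ≤ n ∧ Nonempty (G ≃* Matrix.ProjectiveSpecialLinearGroup (Fin 2) (GaloisField 2 n))) := by
  have ti : ∀ x y g : G, y ∈ C[x] → y ≠ 1 → g * y * g⁻¹ ∈ C[x] → g ∈ N(C[x]) :=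
    fun x y g h1 h2 h3 => by_contra fun e => h2 (hTI x g e y h1 h3)
  have ti' : ∀ (H : Subgroup G) (z : G), z ≠ 1 → H ≤ C[z] → ∀ x ∈ H, H ≤ N(C[x]) :=
    fun H z z1 hz x hx g hg => ti x z g (cen1_comm.1 (hz hx)) z1
      (by rw [mem_cen1.1 (hz hg), mul_inv_cancel_right]; exact cen1_comm.1 (hz hx))
  have cn : ∀ z : G, z ≠ 1 → Nil C[z] := fun z z1 => nil_of_nrm (ti' _ z z1 le_rfl)
  by_cases hn : Nil (⊤ : Subgroup G)
  · exact Or.inl (Group.nilpotent_of_mulEquiv (Subgroup.topEquiv (G := G)))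
  right
  by_cases hF : F((⊤ : Subgroup G)) = ⊥
  · right
    have rad : ∀ N : Subgroup G, N ⊴ ⊤ → Sol N → N = ⊥ := fun N hN hs => by_contra fun e =>
      hs.meet_fitting hN e (by rw [hF, inf_bot_eq])
    have hG : ¬ Group.IsSolvable G := fun h =>
      hn (rad ⊤ (Nml.refl _) (sol_top_iff.2 h) ▸ ab_bot.nil)
    have h2 := rank2_of_rad hG rad
    obtain ⟨S, hS⟩ := exists_syl 2 (⊤ : Subgroup G)
    have S1 : S ≠ ⊥ := hS.syl_ne_bot ⟨Nat.prime_two, two_dvd_of_not_sol hG⟩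
    obtain ⟨z, hz, z1⟩ := exists_ne_one (hS.pi.center_ne_bot S1)
    have hSz : S ≤ C[z] := le_cen1.2 hz.2
    have hse : IsStronglyEmbedded N(S) := se_nrm_syl hS S1
      (fun e => S1 (rad S ⟨le_top, e.ge⟩ hS.pi.sol)) fun g t ht h1 h2 => by
        have := ti z t g⁻¹ (hSz h1) (by rintro rfl; simp at ht) (by simpa using hSz (mem_cj.1 h2))
        simpa using inv_mem ((cn z z1).norms_hall (hS.subl hSz le_top) le_rfl this)
    obtain ⟨T, -⟩ := exists_R3 hse h2 (oddCore_eq_bot rad)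
    obtain ⟨n, h3, h4⟩ := T.exists_q
    rcases (cn_case T (cn _ T.s_ne_one)).2 with h | h
    · obtain ⟨K, _, _, h1, ⟨e⟩⟩ := h.iso
      obtain ⟨f⟩ := H10.nonempty_ringEquiv_of_card_eq (K := K) (L := GaloisField 2 n)
        (by rw [GaloisField.card 2 n (by omega), Nat.card_eq_fintype_card, h1, h4])
      exact ⟨n, h3, ⟨e.trans (H10.pslCongr f)⟩⟩
    · exfalso
      obtain ⟨y, hy, hy'⟩ : ∃ y ∈ T.Q, ¬ T.Q ≤ C[y] := by
        by_contra! e
        exact h.nab (ab_iff.2 (le_cen_iff_forall.2 e))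
      have c1 : T.Q0 ≤ C[y] := fun x hx => mem_cen1.2 (T.Q0_comm hx hy)
      have c2 : T.Q0 < T.Q ⊓ C[y] := lt_of_le_of_ne (le_inf T.Q0_le c1) fun e =>
        hy' (le_cen1.2 (T.Q0_le_center (e ▸ ⟨hy, self_mem_cen1 y⟩)).2)
      have c3 : T.Q ⊓ C[y] < T.Q := lt_of_le_of_ne inf_le_left fun e => hy' (e ▸ inf_le_right)
      have c4 := (T.semiReg_Kg.mono_left (A := T.Q ⊓ C[y]) inf_le_left).dvd_pred
        (normsI (T.Kg_le.trans T.D_le_norm_Q) fun k hk => ti y _ k (c1 T.s_mem_Q0) T.s_ne_one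
          (c1 (conj_mem (T.D_le_norm_Q0 (T.Kg_le hk)) T.s_mem_Q0)))
      obtain ⟨m, hm⟩ := card_dvd c2.le
      have c5 := card_lt c2
      have c6 := (pGrp_of_isPGroup Nat.prime_two T.isPGroup_Q).mul_card_le c3
      have hq := T.four_le_q
      rw [T.card_Kg] at c4
      rw [h.card] at c6
      change _ = T.q * m at hm
      change T.q < _ at c5
      rw [hm] at c4 c5 c6
      obtain ⟨r, hr⟩ : ∃ r, T.q = r + 1 := ⟨T.q - 1, by omega⟩
      rw [hr] at c4 c5 c6 hq
      have m1 : 1 < m := by nlinarith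
      have m2 : 2 * m ≤ r + 1 := by nlinarith
      rw [Nat.add_sub_cancel, show (r + 1) * m - 1 = r * m + (m - 1) by
        rw [add_mul, one_mul]; omega] at c4
      have := Nat.le_of_dvd (by omega) ((Nat.dvd_add_right (dvd_mul_right r m)).1 c4)
      omega
  left
  obtain ⟨z, hz, z1⟩ := exists_ne_one ((fitting_nil ⊤).center_ne_bot hF)
  obtain ⟨H, hH⟩ := H27.exists_frob_of_cent1 (fitting_nml ⊤) hF (mt fitting_eq_self_iff.1 hn)
    fun x hx x1 => inf_le_right.trans (fitting_max ⟨le_top, fun g _ => ti x z g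
      (cen_le_cen1 hx hz.2) z1 (cen_le_cen1 hx ((fitting_nml ⊤).center.conj_mem trivial hz).2)⟩
      (cn x x1))
  refine ⟨H, (H27.compl_of_frob_top hH).1, ?_⟩
  obtain ⟨w, hw, w1⟩ := exists_ne_one (H5b.exists_central_of_semiReg hH.sd.nrm hF hH.compl_ne hH.reg)
  have hHw : H ≤ C[w] := le_cen1.2 hw.2
  have hnil := (cn w w1).mono hHw
  have d := hnil.dp_pcore {2}
  have hc : Cyc O[{2}ᶜ](H) := H27.cyc_of_nil_semiReg (hnil.mono d.right)
    (Nat.odd_iff.2 (Nat.two_dvd_ne_zero.1 ((pcore_pi _ H).not_dvd Nat.prime_two rfl)))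
    (d.right.trans hH.sd.nrm) hF (hH.reg.mono_right d.right)
  have hr : prank 2 O[{2}](H) ≤ 1 := by
    by_contra! e
    obtain ⟨A, hA⟩ := exists_pnElem_of_lt_prank e
    obtain ⟨x, hx, x1⟩ := exists_ne_one hA.ne_bot
    refine hA.not_cyc (cyc_iff.2 ⟨x, le_antisymm (fun y hy => ?_) (Subgroup.zpowers_le.2 hx)⟩)
    by_cases y1 : y = 1
    · exact y1 ▸ one_mem _
    · rw [H5b.invol_unique hH.sd.nrm hF hH.reg (d.left (hA.le hy)) (d.left (hA.le hx))
        (hA.abelem.orderOf Nat.prime_two hy y1) (hA.abelem.orderOf Nat.prime_two hx x1)]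
      exact Subgroup.mem_zpowers x
  rcases H3.cyc_or_mcq_of_rank (pcore_pi {2} H) hr with h | ⟨a, b, m, h⟩
  · exact Or.inl (d.cyc h hc (pcore_cop _ _ _))
  right
  have hm : m = 2 := by
    by_contra e
    have c1 := mem_cen1.1 (conj_mem (ti' H w w1 hHw b (d.left h.b_mem) (d.left h.a_mem))
      (self_mem_cen1 b))
    have c2 : a * b * a⁻¹ = a ^ 2 * b := by
      have : b * a⁻¹ * b⁻¹ = a := by simpa [mul_assoc] using congrArg (·⁻¹) h.inv
      rw [mul_assoc, show b * a⁻¹ = a * b by rw [← mul_inv_eq_iff_eq_mul, this], sq, mul_assoc]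
    rw [c2, ← mul_assoc, mul_left_inj, h.commute_iff (Subgroup.npow_mem_zpowers a 2),
      h.mem_z_iff] at c1
    refine h.a_pow_four (by have := h.two_le; omega) ?_
    rw [show a ^ 4 = (a ^ 2) ^ 2 by rw [← pow_mul]]
    rcases c1 with c | c
    · rw [c, one_pow]
    · rw [c, h.z_sq]
  subst hm
  obtain ⟨e⟩ := dp_equiv d.symm
  obtain ⟨f⟩ := h.iso
  exact ⟨#O[{2}ᶜ](H), Nat.odd_iff.2 (Nat.two_dvd_ne_zero.1 ((pcore_pi _ H).not_dvd Nat.prime_two rfl)),
    ⟨e.trans ((zmodCyclicMulEquiv hc).symm.prodCongr f)⟩⟩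

end Cfsg.Agent.S4064
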