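import Cfsg.Statements.S4066
import Mathlib
import Cfsg.Agent.H27.Misc

set_option autoImplicit false
open Cfsg

namespace Cfsg.Agent.S4066

open Subgroup FT

/-- Let G be a finite group in which the centralizer of every element meets each of its conjugates by elements outside its normalizer trivially. Then any two distinct Sylow p-subgroups of G, for any prime p, intersect trivially. -/
theorem result {G : Type*} [Group G] [Finite G] (hTI : ∀ x : G, Cfsg.IsTISubset (Subgroup.centralizer ({x} : Set G) : Set G))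
    {p : ℕ} [Fact p.Prime] (P Q : Sylow p G) (hPQ : P ≠ Q) : (P : Subgroup G) ⊓ (Q : Subgroup G) = ⊥ := by
  have hp : p.Prime := Fact.out
  by_contra h
  obtain ⟨y, hy, hy1⟩ := exists_ne_one h
  have hP := syl_top hp P
  obtain ⟨z, hz, hz1⟩ := exists_ne_one (hP.pi.center_ne_bot (ne_bot_of_mem hy.1 hy1))
  have hPz : (P : Subgroup G) ≤ C[z] := le_cen1.2 hz.2
  -- `C(z)` contains the centre of every Sylow subgroup meeting it
  obtain ⟨g, -, hg⟩ := hP.syl_trans (syl_top hp Q)
  have h1 : g ∈ N(C[z]) := by_contra fun h2 => hy1 (by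
    have h3 : y ∈ cj g (P : Subgroup G) := hg ▸ hy.2
    obtain ⟨w, hw, rfl⟩ := mem_cj'.1 h3
    rw [hTI z g h2 w (hPz hw) (hPz hy.1)]; simp)
  have hQ := syl_top hp Q
  have h2 : (Q : Subgroup G) ≤ C[z] := hg ▸ cj_le_of_nrm h1 hPz
  refine hPQ (Sylow.ext (hP.max hQ.pi (fun x hx => ?_) le_top).symm)
  have hzx : z ∈ C[x] := cen1_comm.1 (hPz hx)
  have h3 : (Q : Subgroup G) ≤ N(C[x]) := fun u hu => by_contra fun h4 =>
    hz1 (hTI x u h4 z hzx (by rw [mem_cen1.1 (h2 hu), mul_inv_cancel_right]; exact hzx))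
  exact hQ.le_of_normed (pcore_pi {p} Z(C[x])) le_top (norms_pcore _ (norms_center h3))
    ((ab_center _).nil.mem_pcore ⟨self_mem_cen1 x, le_cen1.1 le_rfl⟩ (hP.pi.piElt hx))

end Cfsg.Agent.S4066
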