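import Cfsg.Statements.S4067
import Mathlib
import Cfsg.Agent.H28.Util
import Cfsg.Agent.H3.HallPetrescu
import Cfsg.Agent.H6.Kernel
import Cfsg.Agent.H6.Central
import Cfsg.Agent.H6.Column
-- import your own Cfsg.Agent.* helpers here

set_option autoImplicit false
open Cfsg

namespace Cfsg.Agent.S4067


open Subgroup Cfsg.Agent.FT Cfsg.Agent.H28
open scoped commutatorElement
set_option linter.style.haveILetI false

variable {G : Type*} [Group G] [Finite G] {p : ℕ}

theorem card_der (hna : ¬ IsMulCommutative G) (hp : p.Prime) (hmin : ∀ d, d ∣ Nat.card G → d ≠ 1 → p ≤ d)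
    (hk : Nat.card G < Nat.card (ConjClasses G) * p) : #(_root_.commutator G) = p := by
  classical
  haveI : Fintype (IrrCharacter G) := Fintype.ofFinite _
  choose d hd0 hd using fun χ : IrrCharacter G => H6.isIrr_degree χ.2
  have h1 := H6.sum_irr_degree_sq G
  simp only [hd] at h1
  have h1' : ∑ χ, d χ ^ 2 = Nat.card G := by exact_mod_cast h1
  have h2 := H6.card_irr_degree_one G
  rw [Nat.subtype_card (Finset.univ.filter fun χ => d χ = 1) (by simp [hd])] at h2
  have h3 : ∑ χ : IrrCharacter G, p ^ 2 ≤ ∑ χ, (d χ ^ 2 + if d χ = 1 then p ^ 2 - 1 else 0) := by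
    refine Finset.sum_le_sum fun χ _ => ?_
    split_ifs with h
    · rw [h]; have := Nat.one_le_pow 2 p hp.pos; omega
    · exact Nat.pow_le_pow_left (hmin _ (H6.degree_dvd_card χ.2 (hd χ)) h) 2
  rw [Finset.sum_add_distrib, h1', ← Finset.sum_filter, Finset.sum_const, Finset.sum_const, h2, Finset.card_univ,
    ← Nat.card_eq_fintype_card, H6.card_irr_eq_card_conjClasses, smul_eq_mul, smul_eq_mul] at h3
  have h4 := (_root_.commutator G).card_mul_index
  have h5 : p ≤ #(_root_.commutator G) := hmin _ (card_subgroup_dvd_card _) fun h => hna (by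
    rw [← eq_bot_iff_card'] at h
    exact ⟨⟨fun a b => commutatorElement_eq_one_iff_mul_comm.mp (by
      have : ⁅a, b⁆ ∈ _root_.commutator G := commutator_mem_commutator (mem_top a) (mem_top b)
      rwa [h] at this)⟩⟩)
  refine le_antisymm ?_ h5
  by_contra h6
  push Not at h6
  rw [← h4] at hk h3
  generalize #(_root_.commutator G) = m at *
  generalize (_root_.commutator G).index = L at *
  generalize Nat.card (ConjClasses G) = k at *
  obtain ⟨q, rfl⟩ : ∃ q, p = q + 1 := ⟨p - 1, by have := hp.pos; omega⟩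
  have h7 : (q + 1) ^ 2 - 1 = q * (q + 2) := by
    rw [Nat.sub_eq_iff_eq_add (Nat.one_le_pow _ _ (by omega))]; ring
  rw [h7] at h3
  have h8 : L * (q * (q + 2)) ≤ m * L * q := by
    calc L * (q * (q + 2)) = (q + 2) * L * q := by ring
      _ ≤ _ := by gcongr; omega
  nlinarith

theorem le_idx (hmin : ∀ d, d ∣ Nat.card G → d ≠ 1 → p ≤ d) {x : G} (hx : x ∉ center G) :
    p ≤ {y | ∃ n ∈ (⊤ : Subgroup G), n * x * n⁻¹ = y}.ncard := by
  rw [ncard_conj_set, relIndex_top_right]
  exact hmin _ (index_dvd_card _) fun h => hx (cen1_eq_top_iff.mp (index_eq_one.mp h))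

theorem der_le_center (hmin : ∀ d, d ∣ Nat.card G → d ≠ 1 → p ≤ d) (hd : #(_root_.commutator G) = p) :
    _root_.commutator G ≤ center G := by
  intro x hx
  by_contra h
  have h1 := le_idx hmin h
  have h2 : {y | ∃ n ∈ (⊤ : Subgroup G), n * x * n⁻¹ = y} ⊂ (_root_.commutator G : Set G) := by
    refine ⟨?_, fun h3 => ?_⟩
    · rintro _ ⟨n, -, rfl⟩
      exact Normal.conj_mem inferInstance x hx n
    · obtain ⟨n, -, hn⟩ := h3 (one_mem _)
      apply h
      rw [conj_eq_one_iff.mp hn]; exact one_mem _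
  have := Set.ncard_lt_ncard h2
  rw [ncard_coe] at this
  omega

theorem cls_eq (hmin : ∀ d, d ∣ Nat.card G → d ≠ 1 → p ≤ d) (hd : #(_root_.commutator G) = p) {x : G}
    (hx : x ∉ center G) :
    {y | ∃ n ∈ (⊤ : Subgroup G), n * x * n⁻¹ = y} = {y | x⁻¹ * y ∈ _root_.commutator G} := by
  apply Set.eq_of_subset_of_ncard_le
  · rintro _ ⟨n, -, rfl⟩
    have : ⁅x⁻¹, n⁆ ∈ _root_.commutator G := commutator_mem_commutator (mem_top _) (mem_top _)
    simpa [commutatorElement_def, mul_assoc] using this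
  · rw [ncard_leftCoset, hd]; exact le_idx hmin hx
  · exact Set.toFinite _

theorem idx_eq (hmin : ∀ d, d ∣ Nat.card G → d ≠ 1 → p ≤ d) (hd : #(_root_.commutator G) = p) {x : G}
    (hx : x ∉ center G) : C[x].index = p := by
  rw [← relIndex_top_right, ← ncard_conj_set, cls_eq hmin hd hx, ncard_leftCoset, hd]

theorem center_small (hmin : ∀ d, d ∣ Nat.card G → d ≠ 1 → p ≤ d) {x : G} (hx : x ∉ center G) :
    #(center G) * p ≤ #C[x] := by
  rw [← card_mul_relIndex (center_le_cen1 x)]
  refine Nat.mul_le_mul_left _ (hmin _ ((relIndex_dvd _ _).trans (card_subgroup_dvd_card _)) fun h => hx ?_)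
  exact relIndex_eq_one.mp h (self_mem_cen1 x)

theorem exists_triple (hna : ¬ IsMulCommutative G) (hp : p.Prime) (hmin : ∀ d, d ∣ Nat.card G → d ≠ 1 → p ≤ d)
    (hd : #(_root_.commutator G) = p) : ∃ a x₀ b : G, x₀ * a ≠ a * x₀ ∧ (b = a ∨ b ∈ center G) ∧
      b ∉ _root_.commutator G ∧ (x₀ * b) ^ p = x₀ ^ p := by
  have hZ := der_le_center hmin hd
  have hcm : ∀ x y : G, ⁅x, y⁆ ∈ _root_.commutator G := fun x y => commutator_mem_commutator (mem_top _) (mem_top _)
  have hc : ∀ x y g : G, Commute g ⁅x, y⁆ := fun x y g => H3.commute_of_mem_center (hZ (hcm x y)) g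
  have hcp : ∀ x y : G, ⁅x, y⁆ ^ p = 1 := fun x y => hd ▸ pow_card (hcm x y)
  have hpZ : ∀ x : G, x ^ p ∈ center G := fun x => mem_center_iff.mpr fun g => by
    rw [eq_comm, ← commutatorElement_eq_one_iff_mul_comm, H3.comm_pow_left (hc _ _ _), hcp]
  obtain ⟨a, x₀, hax⟩ : ∃ a x₀ : G, x₀ * a ≠ a * x₀ := by
    by_contra h
    push Not at h
    exact hna ⟨⟨fun a b => h b a⟩⟩
  have ha : a ∉ center G := fun h => hax (mem_center_iff.mp h x₀)
  have hn : #(center G) * p * p ≤ Nat.card G := by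
    rw [← C[a].card_mul_index, idx_eq hmin hd ha]
    exact Nat.mul_le_mul_right _ (center_small hmin ha)
  have nc : ∀ w : G, w ∉ center G → ∃ x, x * w ≠ w * x := fun w hw => by
    by_contra h
    push Not at h
    exact hw (mem_center_iff.mpr h)
  rcases hp.eq_two_or_odd' with rfl | hodd
  · have two : ∀ c d : G, c ∈ _root_.commutator G → d ∈ _root_.commutator G → c ≠ 1 → d ≠ 1 → c * d = 1 := by
      intro c d hc hd' hc1 hd1
      obtain ⟨y, hy, hy'⟩ := (Nat.card_eq_two_iff' (1 : _root_.commutator G)).mp hd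
      have e1 := hy' ⟨c⁻¹, inv_mem hc⟩ (fun h => hc1 (inv_eq_one.mp (congrArg Subtype.val h)))
      have e2 := hy' ⟨d, hd'⟩ (fun h => hd1 (congrArg Subtype.val h))
      have e3 : d = c⁻¹ := congrArg Subtype.val (e2.trans e1.symm)
      rw [e3, mul_inv_cancel]
    by_contra hcon
    let ψ : G →* Abelianization G := (powMonoidHom 2).comp Abelianization.of
    have hK : ∀ x, x ∈ ψ.ker ↔ x ^ 2 ∈ _root_.commutator G := fun x => by
      rw [← Abelianization.ker_of, MonoidHom.mem_ker, MonoidHom.mem_ker, map_pow]; rfl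
    have n1 : ∀ b ∈ center G, b ^ 2 = 1 → b ∈ _root_.commutator G := fun b hb h => by
      by_contra h'
      exact hcon ⟨a, x₀, b, hax, Or.inr hb, h', by rw [(H3.commute_of_mem_center hb x₀).mul_pow, h, mul_one]⟩
    have n2 : ∀ w ∈ ψ.ker, w ∉ center G → w ^ 2 = 1 := fun w hw hw' => by
      by_contra h
      obtain ⟨x, hx⟩ := nc w hw'
      refine hcon ⟨w, x, w, hx, Or.inl rfl, fun h' => hw' (hZ h'), ?_⟩
      rw [H3.mul_pow_of_class_two (hc _ _ _) (hc _ _ _), Nat.choose_self, pow_one, mul_assoc,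
        two _ _ ((hK w).mp hw) (hcm _ _) h (fun h' => hx (commutatorElement_eq_one_iff_mul_comm.mp h').symm), mul_one]
    have c1 : #ψ.ker * #ψ.range = Nat.card G := by rw [← index_ker, card_mul_index]
    have c2 : #ψ.range * 2 ≤ #(center G) := by
      have : ψ.range ≤ (center G).map Abelianization.of := by
        rintro _ ⟨x, rfl⟩
        exact ⟨x ^ 2, hpZ x, map_pow _ _ _⟩
      have h1 := card_le this
      rw [card_map_eq, Abelianization.ker_of] at h1
      rw [← card_mul_relIndex hZ, hd]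
      omega
    have c3 : 0 < #(center G) := card_pos _
    by_cases hA : center G ⊓ ψ.ker ≤ _root_.commutator G
    · have c4 := card_sup_mul_card_inf (le_nrm_of_normal (center G) ψ.ker)
      have c5 := card_le hA
      have c6 : center G ⊔ ψ.ker = ⊤ := by
        apply eq_of_card_le le_top
        rw [card_top']
        have c7 : 0 < #(center G ⊓ ψ.ker : Subgroup G) := card_pos _
        rw [hd] at c5
        refine Nat.le_of_mul_le_mul_right ?_ c7
        rw [c4, ← c1]
        nlinarith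
      obtain ⟨z, hz, u, hu, rfl⟩ := (mem_sup_norm (le_nrm_of_normal (center G) ψ.ker)).mp (c6 ▸ mem_top a)
      obtain ⟨z', hz', v, hv, rfl⟩ := (mem_sup_norm (le_nrm_of_normal (center G) ψ.ker)).mp (c6 ▸ mem_top x₀)
      have huv : v * u ≠ u * v := by
        intro h
        apply hax
        exact (((H3.commute_of_mem_center hz' _).symm).mul_left
          ((H3.commute_of_mem_center hz v).mul_right h)).eq
      have e1 := n2 u hu fun h => huv (mem_center_iff.mp h v)
      have e2 := n2 v hv fun h => huv (mem_center_iff.mp h u).symm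
      have e3 := n2 (u * v) (mul_mem hu hv) fun h => huv (by
        have := mem_center_iff.mp h u
        rw [mul_assoc] at this
        exact (mul_left_cancel this).symm)
      apply huv
      calc v * u = u⁻¹ * (u * v) ^ 2 * v⁻¹ := by rw [pow_two]; group
        _ = (u ^ 2)⁻¹ * (u * v) * (v ^ 2)⁻¹ := by rw [e3]; group
        _ = _ := by rw [e1, e2]; group
    · obtain ⟨b, hb, hb'⟩ := SetLike.not_le_iff_exists.mp hA
      have hb2 : b ^ 2 ≠ 1 := fun h => hb' (n1 b hb.1 h)
      have hKZ : ψ.ker ≤ center G := by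
        intro u hu
        by_contra h
        have e1 := n2 u hu h
        have e2 := n2 (u * b) (mul_mem hu hb.2) fun h' => h (((center G).mul_mem_cancel_right hb.1).mp h')
        rw [(H3.commute_of_mem_center hb.1 u).mul_pow, e1, one_mul] at e2
        exact hb2 e2
      have hsub : (ψ.ker : Set G) ⊆ (_root_.commutator G : Set G) ∪ {y | b⁻¹⁻¹ * y ∈ _root_.commutator G} := by
        intro u hu
        by_cases h : u ∈ _root_.commutator G
        · exact Or.inl h
        · refine Or.inr ?_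
          rw [Set.mem_setOf_eq, inv_inv]
          refine n1 _ (mul_mem hb.1 (hKZ hu)) ?_
          rw [(H3.commute_of_mem_center (hKZ hu) b).mul_pow]
          exact two _ _ ((hK b).mp hb.2) ((hK u).mp hu) hb2 fun h' => h (n1 u (hKZ hu) h')
      have := (Set.ncard_le_ncard hsub).trans (Set.ncard_union_le _ _)
      rw [ncard_leftCoset, ncard_coe, ncard_coe, hd] at this
      nlinarith
  · have hmul : ∀ x y : G, (x * y) ^ p = x ^ p * y ^ p := fun x y => by
      obtain ⟨k, hk⟩ := hp.dvd_choose_self (k := 2) two_ne_zero (lt_of_le_of_ne hp.two_le (by rintro rfl; exact absurd hodd (by decide)))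
      rw [H3.mul_pow_of_class_two (hc _ _ _) (hc _ _ _), hk, pow_mul, hcp, one_pow, mul_one]
    let φ : G →* G := { toFun := fun x => x ^ p, map_one' := one_pow p, map_mul' := hmul }
    have c1 : #φ.ker * #φ.range = Nat.card G := by rw [← index_ker, card_mul_index]
    have c2 : #φ.range ≤ #(center G) := card_le (by rintro _ ⟨x, rfl⟩; exact hpZ x)
    have c3 : 0 < #(center G) := card_pos _
    have : ¬ φ.ker ≤ _root_.commutator G := fun h => by
      have c4 := card_le h
      rw [hd] at c4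
      have c5 : Nat.card G ≤ p * #(center G) := c1 ▸ Nat.mul_le_mul c4 c2
      have := hp.one_lt
      nlinarith [Nat.mul_pos c3 hp.pos]
    obtain ⟨b, hb, hb'⟩ := SetLike.not_le_iff_exists.mp this
    have hb1 : b ^ p = 1 := hb
    by_cases h : b ∈ center G
    · exact ⟨a, x₀, b, hax, Or.inr h, hb', by rw [hmul, hb1, mul_one]⟩
    · obtain ⟨x, hx⟩ := nc b h
      exact ⟨b, x, b, hx, Or.inl rfl, hb', by rw [hmul, hb1, mul_one]⟩

theorem exists_aut (hp : p.Prime) {M : Subgroup G} [M.Normal] (hM : M.index = p) {x₀ b : G} (hx : x₀ ∉ M) (hb : b ∈ M)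
    (hb' : b ∈ C(M)) (h : (x₀ * b) ^ p = x₀ ^ p) : ∃ T : MulAut G, ∀ (k : ℤ) (y : G), (x₀ ^ k)⁻¹ * y ∈ M →
      T y = (x₀ * b) ^ k * (x₀ ^ k)⁻¹ * y := by
  haveI : Fact p.Prime := ⟨hp⟩
  have hord : orderOf (QuotientGroup.mk x₀ : G ⧸ M) = p :=
    orderOf_eq_prime (by rw [← hM]; exact pow_card_eq_one') (by rwa [Ne, QuotientGroup.eq_one_iff])
  have hex : ∀ y : G, ∃ k : ℤ, (x₀ ^ k)⁻¹ * y ∈ M := by
    intro y
    obtain ⟨k, hk⟩ := mem_zpowers_of_prime_card (G := G ⧸ M) hM (g := (x₀ : G ⧸ M))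
      (by rwa [Ne, QuotientGroup.eq_one_iff]) (g' := (y : G ⧸ M))
    exact ⟨k, QuotientGroup.eq.mp (by rw [QuotientGroup.mk_zpow]; exact hk)⟩
  choose i hi using hex
  have wd : ∀ (k l : ℤ) (y : G), (x₀ ^ k)⁻¹ * y ∈ M → (x₀ ^ l)⁻¹ * y ∈ M →
      (x₀ * b) ^ k * (x₀ ^ k)⁻¹ = (x₀ * b) ^ l * (x₀ ^ l)⁻¹ := by
    intro k l y hk hl
    have e := (QuotientGroup.eq.mpr hk).trans (QuotientGroup.eq.mpr hl).symm
    rw [QuotientGroup.mk_zpow, QuotientGroup.mk_zpow, zpow_eq_zpow_iff_modEq, hord] at e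
    obtain ⟨t, ht⟩ := e.dvd
    rw [show l = k + p * t by linear_combination ht, zpow_add, zpow_add, zpow_mul, zpow_mul, zpow_natCast,
      zpow_natCast, h]
    group
  have memN : ∀ (N : Subgroup G) [N.Normal], b ∈ N → ∀ k : ℤ, (x₀ * b) ^ k * (x₀ ^ k)⁻¹ ∈ N := by
    intro N _ hbN k
    rw [← QuotientGroup.eq_one_iff, QuotientGroup.mk_mul, QuotientGroup.mk_inv, QuotientGroup.mk_zpow,
      QuotientGroup.mk_zpow, QuotientGroup.mk_mul, (QuotientGroup.eq_one_iff b).mpr hbN, mul_one, mul_inv_cancel]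
  let T : G →* G := MonoidHom.mk' (fun y => (x₀ * b) ^ i y * (x₀ ^ i y)⁻¹ * y) (by
    intro y z
    have h1 : (x₀ ^ (i y + i z))⁻¹ * (y * z) ∈ M := by
      rw [← QuotientGroup.eq, zpow_add, QuotientGroup.mk_mul, QuotientGroup.mk_mul, QuotientGroup.eq.mpr (hi y),
        QuotientGroup.eq.mpr (hi z)]
    rw [wd _ _ _ (hi (y * z)) h1]
    have h2 := mem_cen.mp (memN C(M) hb' (i z)) _ (hi y)
    calc (x₀ * b) ^ (i y + i z) * (x₀ ^ (i y + i z))⁻¹ * (y * z)
        = (x₀ * b) ^ i y * (((x₀ * b) ^ i z * (x₀ ^ i z)⁻¹) * ((x₀ ^ i y)⁻¹ * y)) * z := by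
          rw [zpow_add, add_comm, zpow_add]; group
      _ = _ := by rw [← h2]; group)
  have hT : ∀ (k : ℤ) (y : G), (x₀ ^ k)⁻¹ * y ∈ M → T y = (x₀ * b) ^ k * (x₀ ^ k)⁻¹ * y := fun k y hk => by
    rw [← wd _ _ _ (hi y) hk]; rfl
  have hinj : Function.Injective T := by
    rw [injective_iff_map_eq_one]
    intro y hy
    have h1 : y ∈ M := by
      have h2 := memN M hb (i y)
      have h3 : (x₀ * b) ^ i y * (x₀ ^ i y)⁻¹ * y ∈ M := (show T y ∈ M from hy ▸ one_mem M)
      exact (mul_mem_cancel_left h2).mp h3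
    rw [hT 0 y (by simpa using h1)] at hy
    simpa using hy
  exact ⟨MulEquiv.ofBijective T (Finite.injective_iff_bijective.mp hinj), hT⟩


/-- Let G be a finite non-abelian group and p the least prime dividing its order. Then the automorphism group of G has at most #G/p orbits on G. -/
theorem result {G : Type*} [Group G] [Finite G] (hna : ¬ IsMulCommutative G) :
    Nat.card (MulAction.orbitRel.Quotient (MulAut G) G) ≤ Nat.card G / (Nat.card G).minFac := by
  classical
  have hn1 : Nat.card G ≠ 1 := fun h => hna (by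
    haveI := (Nat.card_eq_one_iff_unique.mp h).1
    exact ⟨⟨fun a b => Subsingleton.elim _ _⟩⟩)
  have hp := Nat.minFac_prime hn1
  set p := (Nat.card G).minFac with hpdef
  have hmin : ∀ d, d ∣ Nat.card G → d ≠ 1 → p ≤ d := fun d hd h1 =>
    Nat.minFac_le_of_dvd (by have := Nat.pos_of_dvd_of_pos hd Nat.card_pos; omega) hd
  rw [Nat.le_div_iff_mul_le hp.pos]
  let π : G → MulAction.orbitRel.Quotient (MulAut G) G := Quotient.mk''
  have hπ : ∀ (T : MulAut G) y, π (T y) = π y := fun T y => Quotient.sound' ⟨T, rfl⟩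
  have hπc : ∀ g y : G, π (g * y * g⁻¹) = π y := fun g y => hπ (MulAut.conj g) y
  by_cases hk : Nat.card (ConjClasses G) * p ≤ Nat.card G
  · refine le_trans (Nat.mul_le_mul_right _ (Nat.card_le_card_of_surjective
      (Quotient.lift π fun a b (h : IsConj a b) => ?_) ?_)) hk
    · obtain ⟨c, rfl⟩ := isConj_iff.mp h
      exact (hπc c a).symm
    · rintro ⟨y⟩
      exact ⟨ConjClasses.mk y, rfl⟩
  push Not at hk
  have hd := card_der hna hp hmin hk
  obtain ⟨a, x₀, b, hax, hab, hb, hpow⟩ := exists_triple hna hp hmin hd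
  have ha : a ∉ center G := fun h => hax (mem_center_iff.mp h x₀)
  have hidx := idx_eq hmin hd ha
  haveI : C[a].Normal := normal_of_index_eq_minFac_card hidx
  have hx₀ : x₀ ∉ C[a] := fun h => hax (mem_cen1.mp h)
  have hbM : b ∈ C[a] := by
    rcases hab with rfl | h
    · exact self_mem_cen1 _
    · exact center_le_cen1 a h
  obtain ⟨T, hT⟩ := exists_aut hp hidx hx₀ hbM (by
    rcases hab with rfl | h
    · exact le_cen1.mp le_rfl
    · exact center_le_cen' _ h) hpow
  have t1 : (π '' (center G : Set G)).ncard ≤ #(center G) := Set.ncard_image_le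
  have t2 : p * (π '' ((C[a] : Set G) \ center G)).ncard ≤ ((C[a] : Set G) \ center G).ncard := by
    refine mul_ncard_le_of_fibers π (fun y hy => Set.mem_image_of_mem π hy) ?_
    rintro _ ⟨y, hy, rfl⟩
    refine (le_idx hmin hy.2).trans (Set.ncard_le_ncard ?_)
    rintro _ ⟨n, -, rfl⟩
    exact ⟨⟨Normal.conj_mem inferInstance y hy.1 n, fun h => hy.2 (by simpa [mul_assoc] using Normal.conj_mem inferInstance _ h n⁻¹)⟩,
      hπc n y⟩
  have t3 : (p * p) * (π '' (C[a] : Set G)ᶜ).ncard ≤ ((C[a] : Set G)ᶜ).ncard := by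
    refine mul_ncard_le_of_fibers π (fun y hy => Set.mem_image_of_mem π hy) ?_
    rintro _ ⟨g, hg, rfl⟩
    haveI : Fact p.Prime := ⟨hp⟩
    obtain ⟨k, hk⟩ := mem_zpowers_of_prime_card (G := G ⧸ C[a]) hidx (g := (x₀ : G ⧸ C[a]))
      (by rwa [Ne, QuotientGroup.eq_one_iff]) (g' := (g : G ⧸ C[a]))
    have hk' : (x₀ ^ k)⁻¹ * g ∈ C[a] := QuotientGroup.eq.mp (by rw [QuotientGroup.mk_zpow]; exact hk)
    have hj : ∀ j : ℕ, (x₀ ^ k)⁻¹ * (T ^ j) g ∈ C[a] ∧ π ((T ^ j) g) = π g ∧
        Abelianization.of ((T ^ j) g) = (Abelianization.of b ^ k) ^ j * Abelianization.of g := by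
      intro j
      induction j with
      | zero => simpa using hk'
      | succ j ih =>
        refine ⟨?_, hπ _ _, ?_⟩
        · rw [pow_succ', MulAut.mul_apply, hT k _ ih.1, ← QuotientGroup.eq, QuotientGroup.mk_mul,
            ← QuotientGroup.eq.mpr ih.1, QuotientGroup.mk_mul, QuotientGroup.mk_inv, inv_mul_cancel_right,
            QuotientGroup.mk_zpow, QuotientGroup.mk_zpow, QuotientGroup.mk_mul, (QuotientGroup.eq_one_iff b).mpr hbM,
            mul_one]
        · rw [pow_succ', MulAut.mul_apply, hT k _ ih.1, map_mul, ih.2.2, map_mul, map_inv, map_zpow, map_zpow, map_mul,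
            mul_zpow, pow_succ', mul_comm (Abelianization.of x₀ ^ k), mul_inv_cancel_right, mul_assoc]
    have hnot : ∀ y, (x₀ ^ k)⁻¹ * y ∈ C[a] → y ∉ C[a] := fun y h1 h2 => hg (by
      have h3 := inv_mem ((mul_mem_cancel_right h2).mp h1)
      have := mul_mem h3 hk'
      simpa using this)
    have hbp : Abelianization.of b ^ p = 1 := by
      have := congrArg Abelianization.of hpow
      rwa [map_pow, map_pow, map_mul, mul_pow, mul_eq_left] at this
    have hb1 : Abelianization.of b ≠ 1 := fun h => hb (Abelianization.ker_of G ▸ h)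
    have hord : orderOf (Abelianization.of b ^ k) = p := by
      refine orderOf_eq_prime (by rw [← zpow_natCast, ← zpow_mul, mul_comm, zpow_mul, zpow_natCast, hbp, one_zpow]) ?_
      intro h
      rw [← orderOf_dvd_iff_zpow_eq_one, orderOf_eq_prime hbp hb1] at h
      obtain ⟨t, rfl⟩ := h
      apply hg
      have : x₀ ^ p ∈ C[a] := hidx ▸ pow_index_mem _ _
      have h3 : x₀ ^ ((p : ℤ) * t) ∈ C[a] := by rw [zpow_mul, zpow_natCast]; exact zpow_mem this t
      simpa using mul_mem h3 hk'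
    have hDM : _root_.commutator G ≤ C[a] := (der_le_center hmin hd).trans (center_le_cen1 a)
    let f : Fin p × _root_.commutator G → {y | y ∈ (C[a] : Set G)ᶜ ∧ π y = π g} := fun t =>
      ⟨(T ^ (t.1 : ℕ)) g * t.2, fun h => hnot _ (hj t.1).1 ((mul_mem_cancel_right (hDM t.2.2)).mp h), by
        have h1 : (T ^ (t.1 : ℕ)) g ∉ center G := fun h => hnot _ (hj t.1).1 (center_le_cen1 a h)
        have h2 : (T ^ (t.1 : ℕ)) g * t.2 ∈ {y | ((T ^ (t.1 : ℕ)) g)⁻¹ * y ∈ _root_.commutator G} := by simp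
        rw [← cls_eq hmin hd h1] at h2
        obtain ⟨n, -, hn⟩ := h2
        rw [← hn, hπc, (hj t.1).2.1]⟩
    have hf : Function.Injective f := by
      rintro ⟨j, c⟩ ⟨j', c'⟩ h
      have h1 : (T ^ (j : ℕ)) g * c = (T ^ (j' : ℕ)) g * c' := congrArg Subtype.val h
      have h2 := congrArg Abelianization.of h1
      have h3 : ∀ c : _root_.commutator G, Abelianization.of (c : G) = 1 := fun c =>
        show (c : G) ∈ Abelianization.of.ker from (Abelianization.ker_of G).symm ▸ c.2
      rw [map_mul, map_mul, h3, h3, mul_one, mul_one, (hj j).2.2, (hj j').2.2, mul_left_inj] at h2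
      have h4 : j = j' := Fin.ext (pow_injOn_Iio_orderOf (by simp [hord]) (by simp [hord]) h2)
      subst h4
      exact Prod.ext rfl (Subtype.ext (mul_left_cancel h1))
    have := Nat.card_le_card_of_injective f hf
    rwa [Nat.card_prod, hd, Nat.card_eq_fintype_card, Fintype.card_fin] at this
  have hu : (Set.univ : Set (MulAction.orbitRel.Quotient (MulAut G) G)) ⊆
      π '' (center G : Set G) ∪ π '' ((C[a] : Set G) \ center G) ∪ π '' (C[a] : Set G)ᶜ := by
    rintro ⟨y⟩ -
    by_cases h1 : y ∈ center G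
    · exact Or.inl (Or.inl ⟨y, h1, rfl⟩)
    by_cases h2 : y ∈ C[a]
    · exact Or.inl (Or.inr ⟨y, ⟨h2, h1⟩, rfl⟩)
    · exact Or.inr ⟨y, h2, rfl⟩
  have t4 := (Set.ncard_le_ncard hu).trans ((Set.ncard_union_le _ _).trans
    (Nat.add_le_add_right (Set.ncard_union_le _ _) _))
  rw [Set.ncard_univ] at t4
  have t5 := Set.ncard_diff_add_ncard_of_subset (show (center G : Set G) ⊆ C[a] from center_le_cen1 a)
  have t6 := Set.ncard_add_ncard_compl (C[a] : Set G)
  have t7 := center_small hmin ha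
  have t8 := C[a].card_mul_index
  rw [hidx] at t8
  rw [ncard_coe, ncard_coe] at t5
  rw [ncard_coe] at t6
  rw [← t8] at t6 ⊢
  refine Nat.mul_le_mul_right _ (Nat.le_of_mul_le_mul_left ?_ (Nat.mul_pos hp.pos hp.pos))
  have h2 := hp.two_le
  generalize #C[a] = m at *
  generalize #(center G) = z at *
  generalize (π '' (center G : Set G)).ncard = r1 at *
  generalize (π '' ((C[a] : Set G) \ center G)).ncard = r2 at *
  generalize (π '' (C[a] : Set G)ᶜ).ncard = r3 at *
  generalize ((C[a] : Set G) \ center G).ncard = s2 at *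
  generalize ((C[a] : Set G)ᶜ).ncard = s3 at *
  generalize Nat.card (MulAction.orbitRel.Quotient (MulAut G) G) = r at *
  clear_value p
  obtain ⟨q, rfl⟩ : ∃ q, p = q + 2 := ⟨p - 2, by omega⟩
  have e1 : (q + 2) * (q + 2) * r ≤ (q + 2) * (q + 2) * (r1 + r2 + r3) := Nat.mul_le_mul_left _ t4
  have e2 : (q + 2) * (q + 2) * r1 ≤ (q + 2) * (q + 2) * z := Nat.mul_le_mul_left _ t1
  have e3 : (q + 2) * ((q + 2) * r2) ≤ (q + 2) * s2 := Nat.mul_le_mul_left _ t2
  have e4 : (q + 1) * (z * (q + 2)) ≤ (q + 1) * m := Nat.mul_le_mul_left _ t7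
  have e5 : (q + 2) * (s2 + z) = (q + 2) * m := by rw [t5]
  nlinarith [Nat.zero_le (q * m), Nat.zero_le (q * q * m)]

end Cfsg.Agent.S4067
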