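import Mathlib
import Cfsg.Agent.H28.Util3
import Cfsg.Agent.H2.Rel
import Cfsg.Agent.H3.Two
-- Template for statement S4071 (row 4071; see /opt/grader/pristine/manifest.json for weights).
-- Copy to Cfsg/Agent/S4071.lean and replace the sorry. The statement below is byte-identical to the frozen
-- statement Cfsg.CfsgFrozen.S4071 (Cfsg/Statements/S4071.lean; the theorem Cfsg.fg5_selfnormalizing_nonabelian_subgroups_solvable_nonnilpotent_structure);
-- the grader kernel-checks Cfsg.Agent.S4071.result against that frozen type. Keep the theorem IN THIS FILE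
-- (a `result` declared elsewhere and merely imported here is not credited); helpers may live anywhere
-- under Cfsg/Agent/.
import Cfsg.Statements.S4071
-- import your own Cfsg.Agent.* helpers here

set_option autoImplicit false
open Cfsg

namespace Cfsg.Agent.S4071

/-- Let G be a finite solvable non-nilpotent group. Every non-abelian subgroup of G is self-normalizing if and only if G is a semidirect product ⟨x⟩ ⋉ A in which ⟨x⟩ is a p-group for some prime p, A is a normal abelian subgroup of order prime to p, x^p is central in G, and x acts fixed-point-freely on A (no non-identity element of A commutes with x). -/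
theorem result {G : Type*} [Group G] [Finite G]
    [Group.IsSolvable G] (hnn : ¬ Group.IsNilpotent G) :
    (∀ H : Subgroup G, ¬ IsMulCommutative H → Subgroup.normalizer (H : Set G) = H) ↔
    ∃ (x : G) (A : Subgroup G) (p : ℕ), p.Prime ∧ A.Normal ∧ IsMulCommutative A ∧ (∃ k : ℕ, orderOf x = p ^ k) ∧
      ¬ p ∣ Nat.card A ∧ (Subgroup.zpowers x).IsComplement' A ∧ x ^ p ∈ Subgroup.center G ∧
      ∀ a : G, a ∈ A → a ≠ 1 → x * a * x⁻¹ ≠ a := by
  open Subgroup Cfsg.Agent.FT Cfsg.Agent.H28 in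
  open scoped commutatorElement Pointwise in
  · constructor
    · intro hS
      have hab : ∀ N : Subgroup G, N ⊴ ⊤ → N ≠ ⊤ → Ab N := fun N hN h =>
        by_contra fun h1 => h (top_le_iff.1 (hN.nrm.trans (hS N h1).le))
      have hn : ¬ Nil (⊤ : Subgroup G) := fun h => hnn (nil_top.1 h)
      obtain ⟨K, hK, hp⟩ := (sol_top.2 ‹_›).exists_prime_factor fun e => hn (e ▸ nil_bot)
      obtain ⟨p, hp'⟩ : ∃ p, K.relIndex ⊤ = p := ⟨_, rfl⟩
      rw [hp'] at hp
      have hKt : K ≠ ⊤ := fun e => hp.ne_one (by rw [← hp', e, relIndex_self])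
      have hKa := hab K hK hKt
      have : ∃ y, PiElt {p} y ∧ y ∉ K := by
        by_contra h
        push Not at h
        refine hKt (top_le_iff.1 (le_of_forall_pElt fun q hq x _ hx => ?_))
        by_cases e : q = p
        · exact h x (e ▸ hx)
        · exact hx.mem_of_relIndex (mem_top x) hK.nrm (hp' ▸ (piNat_prime hp).2 (Ne.symm e))
      obtain ⟨y, hy, hyK⟩ := this
      have hA := hK.pcore {p}ᶜ
      have hAp := pcore_pi {p}ᶜ K
      have hAa : Ab O[{p}ᶜ](K) := hKa.mono (pcore_le _ _)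
      have hyn : ⟪y⟫ ≤ N(O[{p}ᶜ](K)) := le_top.trans hA.nrm
      have hcop : Cop O[{p}ᶜ](K) ⟪y⟫ := hAp.cop' hy.zpowers
      have e1 : K ⊔ ⟪y⟫ = ⊤ := (maxIn_of_prime_relIndex (hp' ▸ hp) le_top).sup_eq le_top fun h => hyK (h (mem_zpowers y))
      have hP : PGrp p (O[{p}](K) ⊔ ⟪y⟫) := (pcore_pi _ _).sup hy.zpowers (le_top.trans (hK.pcore _).nrm)
      have e2 : O[{p}ᶜ](K) ⊔ (O[{p}](K) ⊔ ⟪y⟫) = ⊤ := by
        rw [← sup_assoc, sup_comm O[{p}ᶜ](K), (hKa.nil.dp_pcore {p}).sup, e1]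
      have hnc : ¬ ⟪y⟫ ≤ C(O[{p}ᶜ](K)) := fun h =>
        hn (e2 ▸ hAa.nil.sup_cents hP.nil (sup_le (pcore_cents _ _) h))
      have e3 : O[{p}ᶜ](K) ⊔ ⟪y⟫ = ⊤ := by
        have h1 := hS (O[{p}ᶜ](K) ⊔ ⟪y⟫) fun h => hnc (Ab.cents h le_sup_left le_sup_right)
        have h2 : PGrp p (⊤ /ₛ O[{p}ᶜ](K)) := by
          rw [← e2, quo_sup_left (le_top.trans hA.nrm)]; exact hP.quo _
        refine (quo_inj (nml_sup_left hyn) hA).1 (h2.nil.eq_of_subnorm_le (quo_mono _ le_top) ?_)
        rw [← quo_subnorm _ (nml_sup_left hyn), h1, top_inf_eq]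
      have hsd : SD O[{p}ᶜ](K) ⟪y⟫ ⊤ := e3 ▸ sd_sup hyn hcop.inf
      refine ⟨y, O[{p}ᶜ](K), p, hp, nml_top_iff.1 hA, hAa, orderOf_pElt hy, (p'grp_iff hp).1 hAp,
        hsd.isComplement'_top.symm, ?_, fun a ha h1 h2 => h1 ?_⟩
      · rw [← cen_top, ← e3, cen_sup, cen_zpowers]
        exact ⟨hKa.cents (pcore_le _ _) le_rfl (hp' ▸ pow_relIndex_mem hK.nrm (mem_top y)), pow_mem (self_mem_cen1 y) p⟩
      · have hc : a ∈ C(⟪y⟫) := by rw [cen_zpowers, mem_cen1]; exact (mul_inv_eq_iff_eq_mul.1 h2).symm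
        have h3 := hS (⁅O[{p}ᶜ](K), ⟪y⟫⁆ ⊔ ⟪y⟫) fun h =>
          hnc (coprime_cents_of_comm_cents hyn hcop (Ab.cents h le_sup_right le_sup_left))
        have h4 : ⟪a⟫ ≤ N(⁅O[{p}ᶜ](K), ⟪y⟫⁆ ⊔ ⟪y⟫) :=
          normsY ((zpowers_le.2 ha).trans (norm_comm_left _ _)) (cents_norm (zpowers_le.2 hc))
        have h5 : a ∈ O[{p}ᶜ](K) ⊓ (⁅O[{p}ᶜ](K), ⟪y⟫⁆ ⊔ ⟪y⟫) := ⟨ha, h3.le (h4 (mem_zpowers a))⟩
        rw [inf_sup_left (norm_comm_right _ _) (comm_le_left hyn), hcop.inf, sup_bot_eq] at h5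
        exact eq_one_of_mem_inf (coprime_abel_cent_TI hyn hcop hAa) h5 hc
    · rintro ⟨x, A, p, hp, hA, hAa, hx, hpA, hco, hz, hf⟩ H hH
      have hx' := (orderOf_eq_pow_iff hp).1 hx
      have hsd : SD A ⟪x⟫ ⊤ := sd_top_of_isComplement' hco.symm
      have hS : Syl p ⟪x⟫ ⊤ := hsd.hall_right' (p'grp_of_not_dvd hpA) hx'.zpowers
      have hAn : ∀ X : Subgroup G, X ≤ N(A) := le_nrm_of_normal A
      have key : ∀ H : Subgroup G, x ∈ H → N(H) ≤ H := fun H hxH => by
        have e := hsd.inf_right (zpowers_le.2 (le_nrm H hxH))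
        rw [inf_top_eq] at e
        rw [← e.sup]
        refine sup_le (fun a ha => ?_) (zpowers_le.2 hxH)
        have hm : ∀ b ∈ N(H) ⊓ A, ⁅b, x⁆ ∈ H ⊓ A := fun b hb => by
          rw [commutatorElement_def]
          refine mem_inf.2 ⟨mul_mem (conj_mem hb.1 hxH) (inv_mem hxH), ?_⟩
          rw [mul_assoc, mul_assoc, ← mul_assoc x]
          exact A.mul_mem hb.2 (hA.conj_mem _ (A.inv_mem hb.2) x)
        have hi : ∀ b ∈ A, ∀ c ∈ A, ⁅b, x⁆ = ⁅c, x⁆ → b = c := fun b hb c hc e => by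
          by_contra hne
          refine hf (c⁻¹ * b) (mul_mem (inv_mem hc) hb) (fun h => hne (inv_mul_eq_one.1 h).symm) ?_
          rw [commutatorElement_def, commutatorElement_def, mul_left_inj] at e
          calc _ = c⁻¹ * (c * x * c⁻¹) * b * x⁻¹ := by group
            _ = _ := by rw [← e]; group
        obtain ⟨h, e⟩ := Finite.surjective_of_injective (f := fun b : (H ⊓ A : Subgroup G) =>
          (⟨⁅(b : G), x⁆, hm b ⟨le_nrm H b.2.1, b.2.2⟩⟩ : (H ⊓ A : Subgroup G)))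
          (fun b c e => Subtype.ext (hi _ b.2.2 _ c.2.2 (congrArg Subtype.val e))) ⟨_, hm a ha⟩
        exact hi _ h.2.2 _ ha.2 (congrArg Subtype.val e) ▸ h.2.1
      obtain ⟨Q, hQ⟩ := exists_syl p H
      obtain ⟨g, -, hg⟩ := hS.syl_Jsub hQ.pi le_top
      have hxH : x ∈ cj g H := by
        by_contra hn
        obtain ⟨m, hm⟩ := hx
        obtain ⟨k, -, hk⟩ := H3.exists_eq_zpowers_pow hp hm hg
        have h1 : cj g Q ≤ center G := by
          rcases k with - | k
          · exact absurd (cj_mono g hQ.le (by rw [hk, pow_zero, pow_one]; exact mem_zpowers x)) hn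
          · rw [hk, pow_succ', pow_mul]; exact zpowers_le.2 (pow_mem hz _)
        rw [cj_le_iff, cj_of_mem_nrm (le_nrm_of_normal _ ⊤ (mem_top _))] at h1
        have h2 := hQ.sup_eq_of_relIndex (K := A ⊓ H) inf_le_right (by
          rw [inf_relIndex_right]
          exact (hsd.relIndex_left ▸ hS.pi.piNat).of_dvd (relIndex_dvd_of_norm le_top (hAn _)))
        exact hH (h2 ▸ (Ab.mono hAa inf_le_left).sup (ab_iff.2 (h1.trans (center_le_cen' _))) (h1.trans (center_le_cen' _)))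
      have := key _ hxH
      rw [← cj_nrm, cj_le_cj] at this
      exact le_antisymm this (le_nrm H)

end Cfsg.Agent.S4071
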