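import Mathlib
import Cfsg.Agent.H28.Util3
import Cfsg.Agent.H2.Rel
-- Template for statement S4072 (row 4072; see /opt/grader/pristine/manifest.json for weights).
-- Copy to Cfsg/Agent/S4072.lean and replace the sorry. The statement below is byte-identical to the frozen
-- statement Cfsg.CfsgFrozen.S4072 (Cfsg/Statements/S4072.lean; the theorem Cfsg.fg5_selfnormalizing_nonabelian_subgroups_solvable_or_simple);
-- the grader kernel-checks Cfsg.Agent.S4072.result against that frozen type. Keep the theorem IN THIS FILE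
-- (a `result` declared elsewhere and merely imported here is not credited); helpers may live anywhere
-- under Cfsg/Agent/.
import Cfsg.Statements.S4072
-- import your own Cfsg.Agent.* helpers here

set_option autoImplicit false
open Cfsg

namespace Cfsg.Agent.S4072

section
open Subgroup Cfsg.Agent.FT Cfsg.Agent.H28
open scoped commutatorElement Pointwise
set_option linter.style.haveILetI false

variable {G : Type*} [Group G] [Finite G] {p : ℕ} {P N : Subgroup G}

theorem burn (hG : ⁅(⊤ : Subgroup G), (⊤ : Subgroup G)⁆ = ⊤) (hN : N ⊴ ⊤) (hle : N ≤ P) (hn : N(P) = P) (hp : PGrp p (P /ₛ N))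
    (hab : Ab (P /ₛ N)) : P ≤ N := by
  have e : (⊤ /ₛ N) ⊓ N(P /ₛ N) = P /ₛ N := by rw [← quo_subnorm _ (hN.mono hle le_top), hn, top_inf_eq]
  have hS : Syl p (P /ₛ N) (⊤ /ₛ N) := syl_of_subnorm (quo_mono _ le_top) (e.symm ▸ hall_self hp)
  have h1 := Burnside_normal_complement hS (e.symm ▸ hab.le_cen)
  have h2 := perf_le_of_sol_quo (perf_quo hG hN.nrm) (pcore_nrm {p}ᶜ _) ((piGrp_quo_iff (pcore_nrm _ _)).2 h1.relIndex).sol
  exact (quo_eq_bot (le_top.trans hN.nrm)).1 (hp.eq_bot ((pcore_pi _ _).mono (hS.le.trans h2)))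

theorem der_min (hp : p.Prime) (hP : PGrp p P) (h : ∀ H, H < P → Ab H) : #⁅P, P⁆ ∣ p := by
  by_cases hna : Ab P
  · rw [ab_iff_der.1 hna, card_bot']; exact one_dvd p
  obtain ⟨x, hx, hx'⟩ := SetLike.exists_of_lt (hP.nil.center_lt_ucn_two hna)
  have hxP := ucn_le _ _ hx
  have : ∃ y ∈ P, y * x ≠ x * y := by
    by_contra hc
    push Not at hc
    exact hx' ⟨hxP, mem_cen.2 hc⟩
  obtain ⟨y, hy, hxy⟩ := this
  have hc : ⁅x, y⁆ ∈ Z(P) := ucn_two_comm P (commutator_mem_commutator hx hy)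
  have hyP : ⟪y⟫ ≤ P := zpowers_le.2 hy
  have e : ⟪x⟫ ⊔ ⟪y⟫ = P := by_contra fun hne => hxy ((h _ (lt_of_le_of_ne (sup_le (zpowers_le.2 hxP) hyP) hne)).comm
    (mem_sup_right (mem_zpowers y)) (mem_sup_left (mem_zpowers x)))
  have h1 : x ^ p * y = y * x ^ p := by
    refine (h _ (lt_of_le_of_ne (sup_le (Phi_le P) hyP) fun e' => hna ?_)).comm
      (mem_sup_left (hP.pow_mem_Phi hxP)) (mem_sup_right (mem_zpowers y))
    exact Phi_nongen hyP e'.ge ▸ ab_zpowers y
  have h2 : ∀ n : ℕ, ⁅x ^ n, y⁆ = ⁅x, y⁆ ^ n := fun n => by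
    induction n with
    | zero => simp
    | succ n ih =>
      have : ⁅x ^ (n + 1), y⁆ = x * ⁅x ^ n, y⁆ * x⁻¹ * ⁅x, y⁆ := by simp only [commutatorElement_def, pow_succ']; group
      rw [this, ih, mem_cen.1 (pow_mem hc.2 n) x hxP, mul_inv_cancel_right, pow_succ]
  have h3 : ⁅x, y⁆ ^ p = 1 := by rw [← h2, commutatorElement_eq_one_iff_mul_comm.2 h1]
  refine (card_dvd (B := ⟪⁅x, y⁆⟫) ?_).trans (by rw [card_zpowers']; exact orderOf_dvd_of_pow_eq_one h3)
  have hn : P ≤ N(⟪⁅x, y⁆⟫) := cents_norm (centsC ((zpowers_le.2 hc).trans inf_le_right))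
  refine (ab_quo_iff hn).1 ?_
  rw [← e, quo_sup (le_sup_left.trans (e.le.trans hn)) (hyP.trans hn), quo_zpowers (hn hxP), quo_zpowers (hn hy)]
  refine (ab_zpowers _).sup (ab_zpowers _) (zpowers_le.2 ?_)
  rw [cen_zpowers, mem_cen1]
  exact ((coset_commute_iff (hn hxP) (hn hy)).2 (mem_zpowers _)).symm

end

/-- A finite group in which every non-abelian subgroup is self-normalizing is solvable or simple. -/
theorem result {G : Type*} [Group G] [Finite G] (hS : ∀ H : Subgroup G, ¬ IsMulCommutative H → Subgroup.normalizer (H : Set G) = H) :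
    Group.IsSolvable G ∨ IsSimpleGroup G := by
  open Subgroup Cfsg.Agent.FT Cfsg.Agent.H28 in
  open scoped commutatorElement Pointwise in
  · by_contra hc
    push Not at hc
    obtain ⟨hs, hsi⟩ := hc
    have hab : ∀ N : Subgroup G, N ⊴ ⊤ → N ≠ ⊤ → Ab N := fun N hN h =>
      by_contra fun h1 => h (top_le_iff.1 (hN.nrm.trans (hS N h1).le))
    have hG : ⁅(⊤ : Subgroup G), (⊤ : Subgroup G)⁆ = ⊤ := by_contra fun h => hs (sol_top.1 (sol_of_der (hab _ (der_nml _) h).sol))
    have : ∃ N : Subgroup G, N ⊴ ⊤ ∧ N ≠ ⊥ ∧ N ≠ ⊤ := by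
      by_contra h
      push Not at h
      haveI : Nontrivial G := by_contra fun h1 => by
        haveI := not_nontrivial_iff_subsingleton.1 h1
        exact hs inferInstance
      exact hsi ⟨fun N hN => or_iff_not_imp_left.2 (h N (nml_top N))⟩
    obtain ⟨N, hN, h1, h2⟩ := this
    have hc : ⊤ ≤ C(N) := le_of_forall_pElt fun p hp x _ hx => by_contra fun h3 => by
      have h4 : ⟪x⟫ ≤ N(N) := le_top.trans hN.nrm
      refine h3 ((hab N hN h2).le_cen (burn (p := p) hG hN le_sup_left (hS (N ⊔ ⟪x⟫) fun h => h3 ?_) ?_ ?_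
        (mem_sup_right (mem_zpowers x))))
      · exact Ab.cents h le_sup_left le_sup_right (mem_zpowers x)
      · rw [quo_sup_left h4]; exact hx.zpowers.quo N
      · rw [quo_sup_left h4]; exact (ab_zpowers x).quo N
    obtain ⟨p, hp, h3⟩ := exists_prime_dvd_card h1
    obtain ⟨X, hX, hX'⟩ := exists_card_prime_le hp h3
    obtain ⟨P, hP, hXP⟩ := (pGrp_of_card_prime hp hX').exists_syl le_top
    have hXc : X ≤ C(⊤) := hX.trans (centsC hc)
    have h4 : X ≤ ⁅P, P⁆ := (le_inf (le_inf hXP (le_top.trans hG.ge)) hXc).trans hP.isHall.inf_der_center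
    have hX1 : X ≠ ⊥ := ne_bot_of_prime_card (hX' ▸ hp)
    have hna : ¬ Ab P := fun h => hX1 (eq_bot_of_le h4 (ab_iff_der.1 h))
    have h5 := der_min hp hP.pi fun H hH => by_contra fun h => (hP.pi.lt_subnorm hH).not_ge (inf_le_right.trans (hS H h).le)
    have h6 : X = ⁅P, P⁆ := eq_of_card_le h4 (hX' ▸ Nat.le_of_dvd hp.pos h5)
    have hXn : X ⊴ ⊤ := nml_of_le_center (le_inf le_top hXc)
    exact hna (Ab.mono (ab_iff.2 (hXc.trans (cen_anti le_top))) (burn hG hXn hXP (hS P hna) (hP.pi.quo X)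
      ((ab_quo_iff (le_top.trans hXn.nrm)).2 h6.ge)))

end Cfsg.Agent.S4072
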