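import Cfsg.Statements.S4073
import Mathlib
import Cfsg.Agent.H20.L2e

set_option autoImplicit false
open Cfsg

namespace Cfsg.Agent.S4073

open Subgroup Cfsg.Agent.FT Cfsg.Agent.GW

section
variable {G : Type*} [Group G] [Finite G] {H K S T : Subgroup G} {g t : G}

theorem ab_of (h : ∀ H : Subgroup G, ¬ Ab H → N(H) = H) (hg : g ∈ N(K)) (h1 : g ∉ K) : Ab K :=
  by_contra fun e => h1 (h K e ▸ hg)

theorem exists_ab (h : ∀ H : Subgroup G, ¬ Ab H → N(H) = H) (hs : ¬ NPC 2 (⊤ : Subgroup G)) :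
    ∃ S : Subgroup G, Syl 2 S ⊤ ∧ Ab S := by
  obtain ⟨S, hS⟩ := exists_syl 2 (⊤ : Subgroup G)
  obtain ⟨Q, hQ⟩ : ∃ Q : Subgroup G, PGrp 2 Q ∧ ∃ g ∈ N(Q), PiElt {2}ᶜ g ∧ g ∉ C(Q) := by
    by_contra! k
    exact hs (Frobenius_normal_complement hS fun Q hQ _ g hg => k Q (hS.pi.mono hQ) g hg.2)
  obtain ⟨T, ⟨h1, g, h2, h3, h4⟩, hm⟩ := exists_max_fun (fun Q => PGrp 2 Q ∧ ∃ g ∈ N(Q), PiElt {2}ᶜ g ∧ g ∉ C(Q))
    (fun Q => #Q) hQ
  have h5 : Ab T := ab_of h h2 fun e => h4 (h3.eq_one_of_mem' h1 e ▸ one_mem _)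
  have h6 : Ab C(T) := ab_of h (norms_cent le_rfl h2) h4
  have h7 : T ≤ O[{2}](C(T)) := fun x hx => h6.nil.mem_pcore (h5.le_cen hx) (h1.piElt hx)
  have h8 : T = O[{2}](C(T)) := eq_of_le_of_card_ge h7 (hm _ ⟨pcore_pi _ _, g,
    norms_pcore _ (norms_cent le_rfl) h2, h3, fun e => h4 (cen_anti h7 e)⟩)
  obtain ⟨R, hR, h9⟩ := h1.exists_syl (le_nrm T)
  refine ⟨T, Hall.syl_top_of_nrm_le (h9.antisymm (fun s hs => by_contra fun e => ?_) ▸ hR) le_rfl, h5⟩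
  have k1 : T ⊔ ⟪s⟫ ≤ R := sup_le h9 (zpowers_le.2 hs)
  have k2 : T ⊔ ⟪s⟫ = R := hR.pi.nil.eq_of_subnorm_le k1 (inf_le_right.trans (h _ fun k => e (h8.ge
    (h6.nil.mem_pcore (k.cents le_sup_left le_sup_right (mem_zpowers s)) (hR.pi.piElt hs)))).le)
  have k3 := hR.quo (K := T) le_rfl
  have k4 : Cyc (R /ₛ T) := by rw [← k2, quo_sup_left (zpowers_le.2 (hR.le hs))]; exact (cyc_zpowers s).quo T
  have k5 := (npc_of_cyc k3 k4).hall
  have k6 := qpre_nml (nml_nrm T) (pcore_nml {2}ᶜ (N(T) /ₛ T))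
  refine h4 ((ab_of h (k6.nrm (hR.le hs)) fun k => e ?_).cents (le_qpre _) le_rfl (mem_qpre.2 ⟨h2,
    k5.mem_of_nml (pcore_nml _ _).nrm (mem_quo_of_mem h2 h2) (h3.pfun _)⟩))
  exact (coset_eq_one_iff (hR.le hs)).1 (((hR.pi.piElt hs).pfun _).eq_one_of_mem k5.pi (mem_qpre.1 k).2)

theorem ab_cen (h : ∀ H : Subgroup G, ¬ Ab H → N(H) = H) (hS : Syl 2 S ⊤) (hA : Ab S) (hc : ¬ Cyc S) (ht : Invo t)
    (htS : t ∈ S) : Ab C[t] := by
  have h1 := hA.le_cen1 htS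
  have h2 := hS.subl h1 le_top
  have h3 : t ∈ C[t] := h1 htS
  have h4 : t ∉ ⁅C[t], C[t]⁆ := fun e => ht.ne
    ((h2.isHall.inf_der_center_ab hA).le ⟨⟨htS, e⟩, le_cen1.1 le_rfl⟩)
  have h5 := der_nml C[t]
  have h6 := ab_of h (h5.nrm h3) h4
  obtain ⟨H, hH⟩ := Hall_exists {2}ᶜ (sol_of_der h6.sol)
  have h7 : ⁅C[t], C[t]⁆ ⊔ H ⊴ C[t] := nml_of_der_le le_sup_left (sup_le h5.le hH.le)
  have h8 := ab_of h (h7.nrm h3) fun e => h4 (ht.pElt.mem_of_relIndex e (h7.le.trans h5.nrm) (by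
    rw [relIndex_sup_norm (hH.le.trans h5.nrm)]; exact hH.pi.relIndex _))
  have h9 := h8.nil.norms_hall (hH.subl le_sup_right h7.le) h7.nrm
  have h10 : S ≤ C(H) := fun s hs => by
    refine by_contra fun e => hc (Cyc.mono (cyc_zpowers s) ?_)
    have k1 : S ≤ H ⊔ ⟪s⟫ := (normsY (h1.trans h9) (cents_norm (hA.cents (zpowers_le.2 hs) le_rfl))).trans
      (h _ fun k => e (k.cents le_sup_left le_sup_right (mem_zpowers s))).le
    exact ((mulEq_sup (zpowers_le.2 (h9 (h1 hs)))).hall_right' hH.pi (hS.pi.piElt hs).zpowers).le_of_norm hS.pi k1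
      (cents_norm (hA.cents (zpowers_le.2 hs) le_rfl))
  rw [← (h2.mulEq hH).sup]
  exact hA.sup (h8.mono le_sup_right) (centsC h10)

theorem forward [IsSimpleGroup G] (hna : ¬ IsMulCommutative G) (h : ∀ H : Subgroup G, ¬ Ab H → N(H) = H) :
    ∃ S : Subgroup G, H23.EA S ∧ (#S - 1).Prime := by
  have hs := not_sol_of_not_comm hna
  obtain ⟨S, hS, hA⟩ := exists_ab h fun k => hs (sol_npc k)
  obtain ⟨h1, h2⟩ := H20.syl_ncyc hs hS
  have a : H23.AC S := ⟨hS, h1, h2, fun t (ht : Invo t) => by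
    obtain ⟨R, hR, k⟩ := ht.pGrp.exists_syl le_top
    obtain ⟨g, -, rfl⟩ := hS.syl_trans hR
    exact ab_cen h hR (hA.cj g) (H20.syl_ncyc hs hR).1 ht (k (mem_zpowers t))⟩
  have e : H23.EA S := H23.AT.ea ⟨a, fun s t hs ht hne =>
    eq_bot_iff.2 (H20.simple_center_eq_bot hna ▸ H23.AC.tic _ rfl a s t hs ht hne)⟩
  refine ⟨S, e, ?_⟩
  obtain ⟨g, hg⟩ : ∃ g, g ∉ N(S) := not_forall.1 fun k => h2 (eq_top_iff.2 fun g _ => k g)
  have h3 := e.cj_syl g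
  have h4 := e.cj_ne hg
  obtain ⟨r, hr, hd⟩ := exists_prime_dvd_card (e.D_ne_bot h3 h4)
  obtain ⟨x, hx, ox⟩ := exists_elt_of_prime_dvd hr hd
  have x1 : x ≠ 1 := fun k => hr.one_lt.ne (by rw [← ox, k, orderOf_one])
  have h5 : N(S) ⊓ N(cj g S) ≤ S ⊔ ⟪x⟫ := (normsY inf_le_left (cents_norm ((e.ab h3 h4).cents (zpowers_le.2 hx) le_rfl))).trans
    (h _ fun k => by
      obtain ⟨t, ht, t1⟩ := exists_ne_one e.ne_bot
      exact x1 ((e.sd h3 h4).inf.le ⟨(e.cen_eq ht t1).le (k.le_cen1 (mem_sup_left ht) (mem_sup_right (mem_zpowers x))), hx⟩)).le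
  have h6 : N(S) ⊓ N(cj g S) = ⟪x⟫ := le_antisymm (fun y hy => by
    obtain ⟨a, ha, b, hb, rfl⟩ := (mem_sup_norm (zpowers_le.2 hx.1)).1 (h5 hy)
    rwa [show a = 1 from (e.sd h3 h4).inf.le ⟨ha, (mul_mem_cancel_right (zpowers_le.2 hx hb)).1 hy⟩, one_mul])
    (zpowers_le.2 hx)
  rwa [← e.card_D h3 h4, h6, card_zpowers', ox]

theorem backward [IsSimpleGroup G] (hs : ¬ Sol (⊤ : Subgroup G)) (h : H20.ER G)
    (hp : ∀ T : Subgroup G, Syl 2 T ⊤ → (#T - 1).Prime) (hH : ¬ Ab H) : N(H) = H := by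
  refine le_antisymm ?_ (le_nrm H)
  obtain ⟨R, hR⟩ := exists_syl 2 H
  obtain ⟨t, ht, h1 : Invo t⟩ := hR.pi.exists_elt fun e => hH (h.ab_odd (odd_iff_p'.2 (hR.eq_bot_iff.1 e)))
  by_cases hc : NPC 2 H
  · have h2 := hc.sd hR
    have h3 : Od(H) ≠ ⊥ := fun e => hH (by rw [← h2.sup, e, bot_sup_eq]; exact (h.abelem hR.pi).ab)
    have h4 := (pcore_nml {2}ᶜ H).nrm (hR.le ht)
    intro g hg
    obtain ⟨m, hm, v, hv, rfl⟩ := (h.sd (odd_core H) h3 h1 h4).mulEq.mul g (norms_pcore _ le_rfl hg)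
    have h5 : v ∈ H := zpowers_le.2 (hR.le ht) hv
    have h6 := mul_mem (conj_mem ((mul_mem_cancel_right (le_nrm H h5)).1 hg) (hR.le ht)) (inv_mem (hR.le ht))
    rw [mul_assoc, mul_assoc, ← mul_assoc t, h.inverts h1 ((pcore_nml _ _).nrm h4) (odd_core _) _ (inv_mem hm), inv_inv] at h6
    exact mul_mem (mem_of_sq_mem (odd_orderOf (odd_core _) hm) h6) h5
  obtain ⟨T, hT, h2⟩ := hR.pi.exists_syl le_top
  have e := h.ea hs hT
  have nR : N(R) ≤ N(T) := fun g hg => e.ti (h2 ht) h1.ne (h2 (conj_mem hg ht))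
  obtain ⟨g, hg⟩ : ∃ g, g ∉ N(T) := not_forall.1 fun k => e.nn (eq_top_iff.2 fun g _ => k g)
  have h3 := e.cj_syl g
  have h4 := e.cj_ne hg
  have h5 : (H ⊓ N(R)) ⊔ T = N(T) := (eq_or_eq_of_prime_relIndex (by
    rw [(e.sd h3 h4).relIndex_left, e.card_D h3 h4]; exact hp T hT) le_sup_right
    (sup_le (inf_le_right.trans nR) (le_nrm T))).resolve_left fun k =>
      hc (Burnside_normal_complement hR (e.abelem.ab.cents h2 (le_sup_left.trans k.le)))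
  have h6 : T ≤ H := fun s hs => by
    by_cases s1 : s = 1
    · exact s1 ▸ one_mem _
    obtain ⟨d, hd, rfl⟩ := e.trans_inv h3 h4 (h2 ht) h1.ne hs s1
    exact hR.le (conj_mem (sup_le inf_le_right (cents_norm (e.abelem.ab.cents h2 le_rfl)) (h5.ge hd.1)) ht)
  rw [← (hT.subl h6 le_top).frattini_nrm.sup]
  exact sup_le le_rfl (inf_le_right.trans (h5.ge.trans (sup_le inf_le_left h6)))

end

/-- Let G be a finite non-abelian simple group. Every non-abelian subgroup of G is self-normalizing if and only if G is isomorphic to PSL₂(2ⁿ) for some n ≥ 2 with 2ⁿ − 1 prime (this includes the alternating group of degree 5 as PSL₂(4)). -/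
theorem result {G : Type*} [Group G] [Finite G] [IsSimpleGroup G]
    (hna : ¬ IsMulCommutative G) :
    (∀ H : Subgroup G, ¬ IsMulCommutative H → Subgroup.normalizer (H : Set G) = H) ↔
    ∃ n : ℕ, 2 ≤ n ∧ (2 ^ n - 1).Prime ∧ Nonempty (G ≃* Matrix.ProjectiveSpecialLinearGroup (Fin 2) (GaloisField 2 n)) := by
  haveI : Fact (Nat.Prime 2) := ⟨Nat.prime_two⟩
  constructor
  · intro h
    obtain ⟨S, e, hp⟩ := forward hna h
    obtain ⟨F, _, _, -, h1, ⟨f⟩⟩ := e.sl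
    obtain ⟨n, hn⟩ := e.abelem.card Nat.prime_two
    have h2 : 2 ≤ n := (Nat.pow_le_pow_iff_right one_lt_two).1 (hn ▸ e.four_le)
    obtain ⟨k⟩ := H10.nonempty_ringEquiv_of_card_eq (K := F) (L := GaloisField 2 n)
      (by rw [Nat.card_eq_fintype_card, h1, hn, GaloisField.card 2 n (by omega)])
    exact ⟨n, h2, hn ▸ hp, ⟨f.trans (H10.pslCongr k)⟩⟩
  · rintro ⟨n, h2, hp, ⟨f⟩⟩ H hH
    letI := Fintype.ofFinite (GaloisField 2 n)
    have h3 : Fintype.card (GaloisField 2 n) = 2 ^ n := by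
      rw [← Nat.card_eq_fintype_card, GaloisField.card 2 n (by omega)]
    exact backward (not_sol_of_not_comm hna) (H20.er_of_psl (h3 ▸ dvd_pow_self 2 (by omega)) f)
      (fun T hT => H20.card_syl_of_psl (by omega) h3 f hT ▸ hp) hH

end Cfsg.Agent.S4073
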