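import Cfsg.Statements.S4074
import Mathlib
import Cfsg.Agent.FT.Nil

set_option autoImplicit false
open Cfsg

namespace Cfsg.Agent.S4074

open Subgroup Cfsg.Agent.FT DihedralGroup

/-- For n > 2, every non-abelian subgroup of the dihedral group of order 2n is self-normalizing if and only if n = 4 or n is odd. -/
theorem result (n : ℕ) (hn : 2 < n) :
    (∀ H : Subgroup (DihedralGroup n), ¬ IsMulCommutative H → Subgroup.normalizer (H : Set (DihedralGroup n)) = H) ↔
    (n = 4 ∨ Odd n) := by
  haveI : NeZero n := ⟨by omega⟩
  constructor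
  · intro h
    by_contra hc
    push Not at hc
    have h2 : 2 ∣ n := (Nat.not_odd_iff_even.1 hc.2).two_dvd
    let φ := ZMod.castHom h2 (ZMod 2)
    have hneg : ∀ x : ZMod 2, -x = x := by decide
    let ψ : DihedralGroup n →* Multiplicative (ZMod 2) := MonoidHom.mk'
      (fun x => match x with
        | r i => Multiplicative.ofAdd (φ i)
        | sr i => Multiplicative.ofAdd (φ i)) (by
      rintro (i | i) (j | j) <;> simp [← ofAdd_add, sub_eq_add_neg, hneg, add_comm])
    have h1 := h ψ.ker fun hab => by
      have ha : (r 2 : DihedralGroup n) ∈ ψ.ker := by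
        change Multiplicative.ofAdd (φ 2) = 1
        rw [map_ofNat]; rfl
      have hb : (sr 0 : DihedralGroup n) ∈ ψ.ker := by
        change Multiplicative.ofAdd (φ 0) = 1
        rw [map_zero]; rfl
      have := Ab.comm hab ha hb
      rw [r_mul_sr, sr_mul_r, sr.injEq] at this
      have h4 : ((4 : ℕ) : ZMod n) = 0 := by push_cast; linear_combination -this
      have := Nat.le_of_dvd (by norm_num) ((ZMod.natCast_eq_zero_iff _ _).1 h4)
      omega
    rw [normalizer_eq_top] at h1
    have : (r 1 : DihedralGroup n) ∈ ψ.ker := h1 ▸ mem_top _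
    change Multiplicative.ofAdd (φ 1) = 1 at this
    rw [map_one] at this
    exact absurd this (by decide)
  · rintro (rfl | h) H hH
    · have h8 : PGrp 2 (⊤ : Subgroup (DihedralGroup 4)) :=
        pGrp_of_card (n := 3) Nat.prime_two (by rw [card_top', nat_card]; rfl)
      have h1 : #H ∣ 2 ^ 3 := H.card_subgroup_dvd_card.trans (by rw [nat_card]; rfl)
      obtain ⟨k, hk, e⟩ := (Nat.dvd_prime_pow Nat.prime_two).1 h1
      have : H = ⊤ := by
        by_contra hne
        refine hH ((h8.mono le_top).ab_of_card_le Nat.prime_two ?_)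
        have := card_lt (lt_top_iff_ne_top.2 hne)
        rw [card_top', nat_card, e] at this
        rw [e]
        interval_cases k <;> omega
      rw [this, normalizer_eq_top]
    obtain ⟨j, hj⟩ : ∃ j, sr j ∈ H := by
      by_contra hc
      push Not at hc
      refine hH (ab_iff_forall.2 ?_)
      rintro (a | a) ha (b | b) hb
      · rw [r_mul_r, r_mul_r, add_comm]
      · exact absurd hb (hc _)
      · exact absurd ha (hc _)
      · exact absurd ha (hc _)
    have key : ∀ i, r i ∈ N(H) → r i ∈ H := fun i hi => by
      have h1 := pow_mem (mul_mem (conj_mem hi hj) hj) ((n + 1) / 2)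
      simp only [r_mul_sr, inv_r, sr_mul_r, sr_mul_sr, r_pow] at h1
      convert h1 using 2
      obtain ⟨m, hm⟩ := h
      have h2 : (2 : ZMod n) * m + 1 = 0 := by
        have : ((2 * m + 1 : ℕ) : ZMod n) = 0 := by rw [← hm, ZMod.natCast_self]
        exact_mod_cast this
      rw [show (n + 1) / 2 = m + 1 by omega]
      push_cast
      linear_combination -i * h2
    refine le_antisymm ?_ le_normalizer
    rintro (i | i) hi
    · exact key i hi
    · exact (mul_mem_cancel_right hj).1 (key _ (mul_mem hi (le_normalizer hj)))

end Cfsg.Agent.S4074
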