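import Cfsg.Statements.S4075
import Mathlib
import Cfsg.Agent.H27.Misc

set_option autoImplicit false
open Cfsg

namespace Cfsg.Agent.S4075

open Subgroup FT

/-- Let G be a finite nilpotent group. Every non-abelian subgroup of G is self-normalizing if and only if G is abelian or G is a minimal non-abelian p-group for some prime p (non-abelian of prime-power order with every proper subgroup abelian). -/
theorem result {G : Type*} [Group G] [Finite G]
    [Group.IsNilpotent G] :
    (∀ H : Subgroup G, ¬ IsMulCommutative H → Subgroup.normalizer (H : Set G) = H) ↔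
    (IsMulCommutative G ∨ (IsPrimePow (Nat.card G) ∧ ¬ IsMulCommutative G ∧ ∀ H : Subgroup G, H ≠ ⊤ → IsMulCommutative H)) := by
  have hN : Nil (⊤ : Subgroup G) := inferInstance
  constructor
  · intro h
    refine or_iff_not_imp_left.2 fun hc => ?_
    have h1 : ∀ H : Subgroup G, H ≠ ⊤ → IsMulCommutative H := fun H hH => by_contra fun h2 =>
      hH (hN.eq_of_subnorm_le le_top (by rw [h H h2]; exact inf_le_right))
    refine ⟨?_, hc, h1⟩
    rw [← H27.ab_top_iff] at hc
    obtain ⟨p, hp, hd⟩ := exists_prime_dvd_card (H := (⊤ : Subgroup G))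
      (fun e => hc (e ▸ ab_bot))
    have h2 := hN.dp_pcore {p}
    have h3 : O[{p}]((⊤ : Subgroup G)) = ⊤ := by_contra fun h4 =>
      hc (h2.cp.ab (h1 _ h4) (h1 _ fun e => (pcore_pi {p}ᶜ _).not_dvd hp rfl (e.symm ▸ hd)))
    obtain ⟨n, hn⟩ := PiGrp.card (pcore_eq_self_iff.1 h3)
    rw [← card_top', hn]
    refine (isPrimePow_nat_iff _).2 ⟨p, n, hp, Nat.pos_of_ne_zero ?_, rfl⟩
    rintro rfl
    exact hp.one_lt.not_ge (Nat.le_of_dvd one_pos (by rwa [hn] at hd))
  · rintro (h | ⟨-, -, h⟩) H hH
    · exact absurd ((H27.ab_top_iff.2 h).mono le_top) hH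
    · obtain rfl : H = ⊤ := by_contra fun h1 => hH (h H h1)
      exact nrm_top

end Cfsg.Agent.S4075
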