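import Mathlib
-- Template for statement S4080 (row 4080; see /opt/grader/pristine/manifest.json for weights).
-- Copy to Cfsg/Agent/S4080.lean and replace the sorry. The statement below is byte-identical to the frozen
-- statement Cfsg.CfsgFrozen.S4080 (Cfsg/Statements/S4080.lean; the theorem Cfsg.fg5_order_p_automorphism_of_homocyclic_rank_two_fixes_omega_one);
-- the grader kernel-checks Cfsg.Agent.S4080.result against that frozen type. Keep the theorem IN THIS FILE
-- (a `result` declared elsewhere and merely imported here is not credited); helpers may live anywhere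
-- under Cfsg/Agent/.
import Cfsg.Statements.S4080
-- import your own Cfsg.Agent.* helpers here

set_option autoImplicit false
open Cfsg

namespace Cfsg.Agent.S4080

section
open Subgroup
set_option linter.style.haveILetI false

theorem nil_mul {p : ℕ} (hp : p.Prime) {z : ZMod (p ^ 2)} (h : IsNilpotent z) :
    ∃ w, z = p * w := by
  obtain ⟨m, hm⟩ := h
  haveI : NeZero (p ^ 2) := ⟨pow_ne_zero _ hp.ne_zero⟩
  obtain ⟨k, rfl⟩ := ZMod.natCast_zmod_surjective z
  rw [← Nat.cast_pow, ZMod.natCast_eq_zero_iff] at hm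
  obtain ⟨l, rfl⟩ := hp.dvd_of_dvd_pow ((dvd_pow_self p two_ne_zero).trans hm)
  exact ⟨l, by simp⟩

theorem of_mul {p : ℕ} (hp : p.Prime) {z : ZMod (p ^ 2)} (h : p • z = 0) : ∃ w, z = p • w := by
  haveI : NeZero (p ^ 2) := ⟨pow_ne_zero _ hp.ne_zero⟩
  obtain ⟨k, rfl⟩ := ZMod.natCast_zmod_surjective z
  rw [nsmul_eq_mul, ← Nat.cast_mul, ZMod.natCast_eq_zero_iff, pow_two,
    Nat.mul_dvd_mul_iff_left hp.pos] at h
  obtain ⟨l, rfl⟩ := h
  exact ⟨l, by simp⟩

theorem binom {R : Type*} [Ring R] {N : R} (h : N ^ 4 = 0) (k : ℕ) :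
    (1 + N) ^ k = 1 + k • N + k.choose 2 • N ^ 2 + k.choose 3 • N ^ 3 := by
  induction k with
  | zero => simp
  | succ k ih =>
    rw [pow_succ, ih, Nat.choose_succ_succ' k 1, Nat.choose_succ_succ' k 2, Nat.choose_one_right]
    simp only [add_mul, mul_add, mul_one, one_mul, smul_mul_assoc, ← pow_succ, ← pow_two, h,
      smul_zero, add_smul, one_smul]
    abel

theorem key {p : ℕ} (hp : p.Prime) (h3 : 3 < p) {M : Matrix (Fin 2) (Fin 2) (ZMod (p ^ 2))}
    (h : M ^ p = 1) : p • (M - 1) = 0 := by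
  obtain ⟨N, rfl⟩ : ∃ N, M = 1 + N := ⟨M - 1, by abel⟩
  have hpp : ∀ B : Matrix (Fin 2) (Fin 2) (ZMod (p ^ 2)), p • p • B = 0 := fun B => by
    rw [← mul_smul, ← pow_two, ← Nat.cast_smul_eq_nsmul (ZMod (p ^ 2)), ZMod.natCast_self, zero_smul]
  have h1 : IsNilpotent N := by
    obtain ⟨r, hr⟩ := (Commute.one_left N).exists_add_pow_prime_eq hp
    rw [h, one_pow, add_assoc, left_eq_add, add_eq_zero_iff_eq_neg] at hr
    refine ⟨p + p, ?_⟩
    rw [mul_one, mul_assoc, ← nsmul_eq_mul] at hr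
    rw [pow_add, hr, neg_mul_neg, smul_mul_assoc, mul_smul_comm, hpp]
  obtain ⟨t, ht⟩ := nil_mul hp (Matrix.isNilpotent_trace_of_isNilpotent h1)
  obtain ⟨d, hd⟩ := nil_mul hp (z := N.det) (by
    obtain ⟨m, hm⟩ := h1
    exact ⟨m, by rw [← Matrix.det_pow, hm, Matrix.det_zero]⟩)
  have h2 : N ^ 2 = p • (t • N - d • 1) := by
    rw [smul_sub, ← Nat.cast_smul_eq_nsmul (ZMod (p ^ 2)), ← Nat.cast_smul_eq_nsmul (ZMod (p ^ 2)),
      ← mul_smul, ← mul_smul, ← ht, ← hd, Matrix.trace_fin_two, Matrix.det_fin_two, pow_two N]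
    ext i j
    fin_cases i <;> fin_cases j <;> simp [Matrix.mul_apply, Fin.sum_univ_two] <;> ring
  have h4 : N ^ 4 = 0 := by
    rw [show 4 = 2 + 2 from rfl, pow_add, h2, smul_mul_assoc, mul_smul_comm, hpp]
  obtain ⟨a, ha⟩ := hp.dvd_choose_self two_ne_zero (by omega : 2 < p)
  obtain ⟨b, hb⟩ := hp.dvd_choose_self three_ne_zero h3
  rw [binom h4, ha, hb, pow_succ N 2, h2, smul_mul_assoc, mul_comm p, mul_comm p, mul_smul, mul_smul,
    hpp, hpp, smul_zero, smul_zero, add_zero, add_zero, add_eq_left] at h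
  rwa [add_sub_cancel_left]

end

/-- Let p > 3 be a prime and L the direct product of two cyclic groups of order p². Every automorphism of L of order p fixes every element of order p of L. -/
theorem result {p : ℕ} [Fact p.Prime] (hp : 3 < p)
    (a : MulAut (Multiplicative (ZMod (p ^ 2) × ZMod (p ^ 2)))) (ha : orderOf a = p)
    (x : Multiplicative (ZMod (p ^ 2) × ZMod (p ^ 2))) (hx : orderOf x = p) : a x = x := by
  open Subgroup in
  have hp' : p.Prime := Fact.out
  let F : MulAut (Multiplicative (ZMod (p ^ 2) × ZMod (p ^ 2))) →*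
      Module.End (ZMod (p ^ 2)) (ZMod (p ^ 2) × ZMod (p ^ 2)) :=
    { toFun := fun b => (AddMonoidHom.toMultiplicative.symm b.toMonoidHom).toZModLinearMap (p ^ 2)
      map_one' := rfl
      map_mul' := fun _ _ => rfl }
  let e := LinearMap.toMatrixAlgEquiv (Module.Basis.finTwoProd (ZMod (p ^ 2)))
  have h1 := key hp' hp (M := e (F a)) (by
    rw [← map_pow, ← map_pow, orderOf_dvd_iff_pow_eq_one.1 ha.dvd, map_one, map_one])
  rw [← map_one e, ← map_sub, ← map_nsmul, EmbeddingLike.map_eq_zero_iff] at h1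
  have h2 : p • x.toAdd = 0 := by rw [← toAdd_pow, orderOf_dvd_iff_pow_eq_one.1 hx.dvd, toAdd_one]
  obtain ⟨u, hu⟩ := of_mul hp' (congrArg Prod.fst h2)
  obtain ⟨v, hv⟩ := of_mul hp' (congrArg Prod.snd h2)
  have h3 : x.toAdd = p • (u, v) := Prod.ext hu hv
  have h4 := LinearMap.congr_fun h1 (u, v)
  rw [LinearMap.smul_apply, ← map_nsmul, ← h3, LinearMap.sub_apply, LinearMap.zero_apply,
    sub_eq_zero] at h4
  exact h4

end Cfsg.Agent.S4080
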