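import Cfsg.Statements.S4081
import Mathlib
import Cfsg.Agent.H1.AutOrb

set_option autoImplicit false
open Cfsg

namespace Cfsg.Agent.S4081

open Cfsg.Agent.FT

/-- Let G be a finite group whose order is not a prime power. Then the automorphism group of G has exactly three orbits on G if and only if there are distinct primes p, q with #G = pⁿ·q (n ≥ 1) such that G has a normal elementary abelian Sylow p-subgroup P, p is a primitive root modulo q (the multiplicative order of p mod q is q − 1), and every element of order q of G acts on P without non-identity fixed points. -/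
theorem result {G : Type*} [Group G] [Finite G] (hnpp : ¬ IsPrimePow (Nat.card G)) (hnt : Nat.card G ≠ 1) :
    Nat.card (MulAction.orbitRel.Quotient (MulAut G) G) = 3 ↔
    ∃ (p q n : ℕ) (_ : Fact p.Prime) (_ : Fact q.Prime), p ≠ q ∧ 1 ≤ n ∧ Nat.card G = p ^ n * q ∧
      (∀ P : Sylow p G, (P : Subgroup G).Normal ∧ Cfsg.IsElementaryAbelian p (P : Subgroup G)) ∧
      orderOf (p : ZMod q) = q - 1 ∧
      ∀ x y : G, orderOf x = q → orderOf y = p → x * y * x⁻¹ ≠ y := by
  constructor
  · intro h3
    obtain ⟨p, q, _, _, P, hpq, hS, hn, hA, h1, hc, ho, hf⟩ := H1.struct_of_three hnpp hnt h3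
    obtain ⟨n, hP⟩ := hS.pi.card
    refine ⟨p, q, n, inferInstance, inferInstance, hpq, ?_, hP ▸ hc, fun T => ?_, ho, hf⟩
    · have := one_lt_card h1
      rcases n with _ | n
      · simp [hP] at this
      · omega
    · rw [hS.uniq_of_nml hn (syl_top Fact.out T)]
      exact ⟨⟨fun x hx g => conj_mem (hn (Subgroup.mem_top g)) hx⟩, hA⟩
  · rintro ⟨p, q, n, _, _, hpq, h1, hc, hP, ho, hf⟩
    have hp : p.Prime := Fact.out
    have hq : q.Prime := Fact.out
    obtain ⟨T⟩ : Nonempty (Sylow p G) := inferInstance
    obtain ⟨hn, hA⟩ := hP T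
    have hS := syl_top hp T
    have hT : Nat.card T = p ^ n := by
      rw [hS.card, card_top', hc]
      exact partn_eq_of_mul (piNat_self_pow hp n) ((piNat_prime hq).2 hpq.symm)
        (hc ▸ Nat.card_pos.ne')
    exact H1.three_orbits hpq hS (Subgroup.normalizer_eq_top _).ge hA
      (ne_bot_of_prime_dvd hp (hT ▸ dvd_pow_self p (by omega))) (hT ▸ hc) ho hf

end Cfsg.Agent.S4081
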