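import Cfsg.Statements.S4082
import Mathlib
import Cfsg.Agent.H27.Pbc

set_option autoImplicit false
open Cfsg

namespace Cfsg.Agent.S4082

open Subgroup Cfsg.Agent.FT Cfsg.Agent.H27

variable {G : Type*} [Group G] [Finite G]

theorem odd_of_pGrp {p : ℕ} (hp2 : p ≠ 2) {S : Subgroup G} (hS : PGrp p S) {x : G} (hx : x ∈ S) :
    Odd (orderOf x) := by
  rw [← Nat.not_even_iff_odd, even_iff_two_dvd]
  exact fun e => hp2 (hS.piNat.eq_prime Nat.prime_two (e.trans (orderOf_dvd_card' hx))).symm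

theorem back {p : ℕ} (hp : p.Prime) (hp2 : p ≠ 2) {P H : Subgroup G} (hP : Syl p P ⊤) (hc : Cyc P)
    (h : N(P) = C(P) ∨ ∀ Q, Q ≤ P → #Q = p → Ab C(Q) ∧ ∀ x ∈ N(Q), x ∉ C(Q) →
      orderOf x = 2 ∧ ∀ c ∈ C(Q), x * c * x⁻¹ = c⁻¹) {S : Subgroup G} (hS : Syl p S H) (hn : H ≤ N(S))
    (hq : Cyc (H /ₛ S)) (hSP : S ≤ P) : Cyc H ∨ ∃ n : ℕ, Nonempty (H ≃* DihedralGroup (p ^ n)) := by
  have hSc := hc.mono hSP
  by_cases hHS : H ≤ C(S)
  · exact Or.inl (cyc_of_pbc hS hSc hHS hq)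
  right
  rcases h with h | h
  · have h1 : P ≤ C(S) := hc.ab.cents hSP le_rfl
    have := (Hall.frattini (hP.subl h1 le_top) (cen_nml_nrm S)).sup
    exact absurd (hn.trans (this ▸ sup_le le_rfl (inf_le_right.trans (h.le.trans (cen_anti hSP))))) hHS
  have hS1 : S ≠ ⊥ := fun e => hHS (by rw [e, cen_bot]; exact le_top)
  obtain ⟨Q, hQ, hQp⟩ := exists_card_prime_le hp (hS.pi.piNat.dvd_of_ne_one (one_lt_card hS1).ne')
  obtain ⟨h1, h2⟩ := h Q (hQ.trans hSP) hQp
  have hSQ : S ≤ C(Q) := hSc.ab.cents hQ le_rfl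
  obtain ⟨x, hx, hx'⟩ := (cyc_quo_iff hn).1 hq
  have hxQ : x ∉ C(Q) := fun e => hHS (h1.cents hSQ (hx'.trans (sup_le hSQ (zpowers_le.2 e))))
  obtain ⟨h3, h4⟩ := h2 x (hSc.norms_sub hQ hn hx) hxQ
  obtain ⟨c, hc1, hc2, hc3⟩ := hSc.exists_gen
  obtain ⟨n, hn'⟩ := hS.pi.piNat.exists_pow (card_ne_zero _)
  have hxS : x ∉ S := fun e => hxQ (hSQ e)
  obtain ⟨e⟩ := H10.nonempty_closure_equiv_dihedral (c := c) (s := x)
    (by rw [← pow_two, ← h3, pow_orderOf_eq_one]) (h4 c (hSQ hc1)) (hc2 ▸ hxS)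
  rw [hc3, hn'] at e
  refine ⟨n, ⟨(MulEquiv.subgroupCongr ?_).trans e⟩⟩
  rw [Set.insert_eq, Subgroup.closure_union, ← zpowers_eq_closure, ← zpowers_eq_closure, ← hc2]
  exact le_antisymm hx' (sup_le hS.le (zpowers_le.2 hx))

/-- Let p be an odd prime and G a finite group with Sylow p-subgroup P. Say that G has restricted p-by-cyclic subgroups when every subgroup H of G whose Sylow p-subgroup is normal in H with cyclic quotient is itself cyclic or dihedral of order 2pⁿ for some n. Then G has restricted p-by-cyclic subgroups if and only if P is cyclic and one of the following holds: (1) N_G(P) = C_G(P); or (2) N_G(P)/C_G(P) has order 2 and, for the subgroup Q of order p of P, the centralizer C_G(Q) is abelian and every element of N_G(Q) outside C_G(Q) is an involution inverting every element of C_G(Q). -/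
theorem result {G : Type*} [Group G] [Finite G] {p : ℕ}
    [Fact p.Prime] (hp : p ≠ 2) (P : Sylow p G) :
    (∀ H : Subgroup G, (∀ S : Sylow p ↥H, (S : Subgroup ↥H).Normal) →
        (∀ (S : Sylow p ↥H) [(S : Subgroup ↥H).Normal], IsCyclic (↥H ⧸ (S : Subgroup ↥H))) →
        IsCyclic H ∨ (∃ n : ℕ, Nonempty (H ≃* DihedralGroup (p ^ n)))) ↔
    (IsCyclic P ∧
      (Subgroup.normalizer ((P : Subgroup G) : Set G) = Subgroup.centralizer ((P : Subgroup G) : Set G) ∨
       ((Subgroup.centralizer ((P : Subgroup G) : Set G)).relIndex (Subgroup.normalizer ((P : Subgroup G) : Set G)) = 2 ∧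
        ∀ Q : Subgroup G, Q ≤ P → Nat.card Q = p →
          IsMulCommutative ↥(Subgroup.centralizer (Q : Set G)) ∧
          ∀ x : G, x ∈ Subgroup.normalizer (Q : Set G) → x ∉ Subgroup.centralizer (Q : Set G) →
            orderOf x = 2 ∧ ∀ c : G, c ∈ Subgroup.centralizer (Q : Set G) → x * c * x⁻¹ = c⁻¹))) := by
  have hpp : p.Prime := Fact.out
  have hP := syl_top hpp P
  constructor
  · intro h
    have h' : ∀ R : Subgroup G, PGrp p R → ∀ x ∈ N(R), x ∉ C(R) →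
        orderOf x = 2 ∧ ∀ z ∈ R, x * z * x⁻¹ = z⁻¹ := fun R hR x hx hx' => by
      obtain ⟨y, hy, hy'⟩ : ∃ y ∈ R, x * y ≠ y * x := by
        by_contra hc
        push Not at hc
        exact hx' (mem_cen.2 fun y hy => (hc y hy).symm)
      have h1 := (pbc_sup hR hx).out
      rcases h _ h1.1 h1.2 with h2 | ⟨n, ⟨e⟩⟩
      · exact absurd ((Cyc.ab h2).comm (mem_sup_right (mem_zpowers x)) (mem_sup_left hy)) hy'
      · have := dih_fact e (mem_sup_right (mem_zpowers x)) (mem_sup_left hy) (odd_of_pGrp hp hR hy) hy'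
        exact ⟨this.1, fun z hz => this.2 z (mem_sup_left hz) (odd_of_pGrp hp hR hz)⟩
    have hc : Cyc (P : Subgroup G) := by
      have h1 := (pbc_sup hP.pi (one_mem _)).out
      have h2 := h _ h1.1 h1.2
      rw [zpowers_one_eq_bot, sup_bot_eq] at h2
      rcases h2 with h2 | ⟨n, ⟨e⟩⟩
      · exact h2
      · exact absurd (hP.pi.piNat.eq_prime Nat.prime_two (by
          rw [Nat.card_congr e.toEquiv, DihedralGroup.nat_card]; simp)).symm hp
    refine ⟨hc, ?_⟩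
    by_cases h1 : N((P : Subgroup G)) ≤ C((P : Subgroup G))
    · exact Or.inl (le_antisymm h1 (cen_le_nrm _))
    right
    obtain ⟨a, ha, ha'⟩ := SetLike.not_le_iff_exists.1 h1
    refine ⟨relIndex_eq_two_iff_exists_notMem_and.2 ⟨a, ha, ha', fun b hb => ?_⟩, fun Q hQ hQp => ?_⟩
    · refine or_iff_not_imp_right.2 fun hb' => mem_cen.2 fun z hz => ?_
      rw [eq_comm, ← mul_inv_eq_iff_eq_mul]
      calc b * a * z * (b * a)⁻¹ = (b * (a * z * a⁻¹)⁻¹ * b⁻¹)⁻¹ := by group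
        _ = z := by rw [(h' _ hP.pi a ha ha').2 z hz, inv_inv, (h' _ hP.pi b hb hb').2 z hz, inv_inv]
    have hQ' := hP.pi.mono hQ
    have key : ∀ x ∈ N(Q), x ∉ C(Q) → orderOf x = 2 ∧ ∀ c ∈ C(Q), x * c * x⁻¹ = c⁻¹ := fun x hx hx' => by
      refine ⟨(h' Q hQ' x hx hx').1, fun c hc => ?_⟩
      have e1 := pow_orderOf_eq_one x
      have e2 := pow_orderOf_eq_one (x * c)
      rw [(h' Q hQ' x hx hx').1, pow_two] at e1
      rw [(h' Q hQ' _ (mul_mem hx (cen_le_nrm _ hc)) fun e => hx' ((mul_mem_cancel_right hc).1 e)).1,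
        pow_two] at e2
      rw [inv_eq_of_mul_eq_one_right e1, eq_inv_iff_mul_eq_one, ← e2]; group
    refine ⟨?_, key⟩
    have haQ : a ∉ C(Q) := fun e => by
      obtain ⟨z, hz, hz1⟩ := FT.exists_ne_one (ne_bot_of_prime_card (hQp ▸ hpp))
      have e1 := (h' _ hP.pi a ha ha').2 z (hQ hz)
      rw [← mem_cen.1 e z hz, mul_inv_cancel_right, eq_inv_iff_mul_eq_one, ← pow_two] at e1
      have := odd_of_pGrp hp hQ' hz
      rw [orderOf_eq_prime e1 hz1] at this
      exact absurd this (by decide)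
    have e3 := (key a (hc.norms_sub hQ le_rfl ha) haQ).2
    refine ab_iff_forall.2 fun x hx y hy => inv_injective ?_
    rw [← e3 _ (mul_mem hx hy), mul_inv_rev, ← e3 x hx, ← e3 y hy]; group
  · rintro ⟨hc, h⟩ H h1 h2
    obtain ⟨S, hS, hn, hq⟩ := pbc_of h1 h2
    obtain ⟨g, -, hg⟩ := hP.syl_Jsub hS.pi le_top
    have hq' : Cyc (cj g H /ₛ cj g S) := by
      obtain ⟨x, hx, hx'⟩ := (cyc_quo_iff hn).1 hq
      refine (cyc_quo_iff (cj_norms.2 hn)).2 ⟨_, conj_mem_cj.2 hx, ?_⟩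
      rw [← cj_zpowers, ← cj_sup]; exact cj_mono g hx'
    rcases back hpp hp hP hc (h.imp_right fun h => h.2) (hS.cj g) (cj_norms.2 hn) hq' hg with h3 | ⟨n, ⟨e⟩⟩
    · left
      have := h3.cj g⁻¹
      rwa [cj_inv_cj] at this
    · exact Or.inr ⟨n, ⟨(cjEquiv g H).trans e⟩⟩

end Cfsg.Agent.S4082
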