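import Cfsg.Statements.S4083
import Mathlib
import Cfsg.Agent.H27.Pbc
import Cfsg.Agent.FT.BG03a

set_option autoImplicit false
open Cfsg

namespace Cfsg.Agent.S4083

open Subgroup Cfsg.Agent.FT Cfsg.Agent.GW Cfsg.Agent.H27

variable {G : Type*} [Group G] [Finite G]

theorem cents_of_odd {H S : Subgroup G} (hS : Syl 2 S H) (hn : H ≤ N(S)) (h : S ≤ C(S))
    (ho : ∀ A, A ≤ H → Odd #A → A ≤ C(S)) : H ≤ C(S) := by
  obtain ⟨K, hK, hsd⟩ := hS.exists_compl hn
  rw [← hsd.mulEq.sup]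
  exact sup_le h (ho K hK.le (Nat.odd_iff.2 (by have := (p'nat_iff Nat.prime_two).1 hK.pi; omega)))

theorem back {P T H : Subgroup G} {t : G} (hP : Syl 2 P ⊤) (h : Cyc P ∨ Dh P T t ∧
    ∀ K : Subgroup G, K ≤ P → #K = 4 → (∀ k ∈ K, k ^ 2 = 1) → C(K) = K) (hH : PBC 2 H) :
    Cyc H ∨ (∃ n : ℕ, Nonempty (H ≃* DihedralGroup (2 ^ n))) ∨ Nonempty (H ≃* alternatingGroup (Fin 4)) := by
  obtain ⟨S, hS, hn, hc⟩ := hH
  have c1 : Cyc S → Cyc H := fun h1 => cyc_of_pbc hS h1
    (cents_of_odd hS hn h1.ab.le_cen fun A hA ho => cents_of_cyc_two h1 hS.pi ho (hA.trans hn)) hc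
  obtain ⟨g, -, hg⟩ := hP.syl_subJ hS.pi le_top
  rcases h with h | ⟨h, h4⟩
  · exact Or.inl (c1 ((h.cj g).mono hg))
  have h4' : ∀ K, K ≤ S → #K = 4 → (∀ k ∈ K, k * k = 1) → C(K) = K := fun K h1 h2 h3 => by
    have := h4 (cj g⁻¹ K) (le_cj_iff.1 (h1.trans hg)) (by rw [card_cj, h2]) fun k hk => by
      obtain ⟨y, hy, rfl⟩ := mem_cj'.1 hk
      rw [conj_pow, pow_two, h3 y hy]; group
    rwa [← cj_cen, cj_eq_cj] at this
  rcases (h.cj g).sub_cases hg with h1 | h1
  · exact Or.inl (c1 h1)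
  right
  generalize S ⊓ cj g T = U at h1
  generalize g * t * g⁻¹ = u at h1
  obtain ⟨K, hK, hsd⟩ := hS.exists_compl hn
  have hKo : Odd #K := Nat.odd_iff.2 (by have := (p'nat_iff Nat.prime_two).1 hK.pi; omega)
  obtain ⟨s, hs, hs'⟩ := h1.exists_out
  have hV : ∀ A, A ≤ K → A ≤ C(S) → A = ⊥ := fun A hA h2 => by
    have hcs : Commute u s := mem_cen1.1 (cen1_comm.1 (h1.le_cen hs))
    have h3 : ⟪s⟫ ≤ C(⟪u⟫) := by rw [cen_zpowers, zpowers_le]; exact h1.le_cen hs
    have h5 : ⟪u⟫ ⊓ ⟪s⟫ = ⊥ := by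
      rw [inf_comm]
      exact prime_inf_of_not_le (by rw [card_zpowers', h1.out s hs hs']; norm_num)
        fun e => hs' (zpowers_le.2 h1.tT (e (mem_zpowers s)))
    have h6 : ⟪u⟫ ⊔ ⟪s⟫ ≤ S := sup_le (zpowers_le.2 h1.tS) (zpowers_le.2 hs)
    have h7 := h4' _ h6 (by rw [card_sup_of_inf (cents_norm h3) h5, card_zpowers', card_zpowers', h1.ht,
      h1.out s hs hs']) fun k hk => by
        have : s ∈ C(⟪u⟫ ⊔ ⟪s⟫) := by
          rw [cen_sup, cen_zpowers, cen_zpowers]; exact ⟨h1.le_cen hs, self_mem_cen1 s⟩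
        have a := pow_orderOf_eq_one u
        have b := pow_orderOf_eq_one s
        rw [h1.ht, pow_two] at a
        rw [h1.out s hs hs', pow_two] at b
        rcases h1.cen_out hs hs' (h6 hk) (mem_cen.1 this k hk).symm with rfl | rfl | rfl | rfl
        · simp
        · exact a
        · exact b
        · rw [← pow_two, hcs.mul_pow, pow_two, pow_two, a, b, one_mul]
    exact eq_bot_iff.2 (hsd.inf ▸ le_inf ((h2.trans (cen_anti h6)).trans (h7.le.trans h6)) hA)
  by_cases hK1 : K = ⊥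
  · left
    obtain ⟨n, hn'⟩ := h1.pgT.piNat.exists_pow (card_ne_zero _)
    rw [hK1] at hsd
    rw [← hsd.eq_left_of_bot]
    exact ⟨n, hn' ▸ h1.iso⟩
  right
  have hU : #U = 2 := by_contra fun e => hK1 (hV K le_rfl (h1.cents hKo (hK.le.trans hn) (Or.inl e)))
  have hsr : SemiReg S K := semiReg_iff.2 fun x hx hx1 y hy e => by
    by_contra hy1
    have h2 := h1.of_card hU hy (orderOf_eq_prime (by rw [pow_two]; exact h1.sq_of_card hU hy) hy1)
    exact hx1 (zpowers_eq_bot.1 (hV _ (zpowers_le.2 hx) (h2.cents (odd_of_le (zpowers_le.2 hx) hKo)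
      (zpowers_le.2 (hn (hK.le hx))) (Or.inr (zpowers_le.2 (mem_cen1.2 e.symm))))))
  have h3 := hsr.dvd_pred (hK.le.trans hn)
  rw [h1.card, hU] at h3
  have h5 : #K = 3 := ((Nat.dvd_prime Nat.prime_three).1 h3).resolve_left (one_lt_card hK1).ne'
  refine H10.nonempty_equiv_alternating_of_core (K.subgroupOf H) ?_ ?_ ?_
  · rw [← relIndex, hsd.relIndex_right, h1.card, hU]
  · rw [← map_eq_bot_iff_of_injective _ H.subtype_injective]
    have h6 : (K.subgroupOf H).normalCore.map H.subtype ≤ K := by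
      rintro _ ⟨x, hx, rfl⟩; exact normalCore_le (K.subgroupOf H) hx
    refine hV _ h6 (cents_of_norms_of_inf ?_ ((h6.trans hK.le).trans hn) ?_)
    · rw [le_nrm_iff]
      rintro g hg _ ⟨x, hx, rfl⟩
      exact ⟨_, (normalCore_normal _).conj_mem x hx ⟨g, hS.le hg⟩, rfl⟩
    · exact eq_bot_iff.2 (hsd.inf ▸ le_inf inf_le_right (inf_le_left.trans h6))
  · rw [hsd.card, h1.card, hU, h5]; rfl

/-- Let G be a finite group with Sylow 2-subgroup P. Every subgroup H of G whose Sylow 2-subgroup is normal in H with cyclic quotient is cyclic, dihedral of 2-power order, or isomorphic to the alternating group of degree 4, if and only if either P is cyclic, or P is dihedral (of order at least 4) and every elementary abelian subgroup K of order 4 of P satisfies C_G(K) = K. -/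
theorem result {G : Type*} [Group G] [Finite G] (P : Sylow 2 G) :
    (∀ H : Subgroup G, (∀ S : Sylow 2 ↥H, (S : Subgroup ↥H).Normal) →
        (∀ (S : Sylow 2 ↥H) [(S : Subgroup ↥H).Normal], IsCyclic (↥H ⧸ (S : Subgroup ↥H))) →
        IsCyclic H ∨ (∃ n : ℕ, Nonempty (H ≃* DihedralGroup (2 ^ n))) ∨ Nonempty (H ≃* alternatingGroup (Fin 4))) ↔
    (IsCyclic P ∨
      ((∃ n : ℕ, 1 ≤ n ∧ Nonempty ((P : Subgroup G) ≃* DihedralGroup (2 ^ n))) ∧
        ∀ K : Subgroup G, K ≤ P → Nat.card K = 4 → (∀ k ∈ K, k ^ 2 = 1) → Subgroup.centralizer (K : Set G) = K)) := by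
  have hP := syl_top Nat.prime_two P
  constructor
  · intro h
    have h' : ∀ H : Subgroup G, PBC 2 H → _ := fun H hH => h H hH.out.1 hH.out.2
    have h1 := h' _ (pbc_sup hP.pi (one_mem _))
    rw [zpowers_one_eq_bot, sup_bot_eq] at h1
    by_cases hc : IsCyclic P
    · exact Or.inl hc
    refine Or.inr ⟨?_, fun K hK h4 h2 => ?_⟩
    · rcases h1 with h1 | ⟨n, ⟨e⟩⟩ | ⟨⟨e⟩⟩
      · exact absurd h1 hc
      · refine ⟨n, Nat.pos_of_ne_zero ?_, ⟨e⟩⟩
        rintro rfl
        exact hc (isCyclic_of_prime_card (p := 2) (by rw [Nat.card_congr e.toEquiv, DihedralGroup.nat_card]; rfl))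
      · have := hP.pi.piNat.eq_prime Nat.prime_three (by
          rw [Nat.card_congr e.toEquiv, nat_card_alternatingGroup]; simp [Nat.factorial])
        omega
    have hab : Ab K := IsPGroup.isMulCommutative_of_card_eq_prime_sq (p := 2) h4
    refine le_antisymm (fun x hx => ?_) hab.le_cen
    have hab' : Ab (K ⊔ ⟪x⟫) := hab.sup (ab_zpowers x) (zpowers_le.2 hx)
    rcases h' _ (pbc_sup (hP.pi.mono hK) (cen_le_nrm _ hx)) with h1 | ⟨n, ⟨e⟩⟩ | ⟨⟨e⟩⟩
    · have := (Cyc.mono h1 le_sup_left).card_dvd_of_pow h2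
      rw [h4] at this
      omega
    · have h3 : 2 ^ n ∣ 2 := by
        have e1 := hab'.comm (e.symm (.r 1)).2 (e.symm (.sr 0)).2
        have e2 : e.symm (.r 1) * e.symm (.sr 0) = e.symm (.sr 0) * e.symm (.r 1) := Subtype.ext e1
        rw [← map_mul, ← map_mul, e.symm.injective.eq_iff] at e2
        simp only [DihedralGroup.r_mul_sr, DihedralGroup.sr_mul_r, DihedralGroup.sr.injEq] at e2
        rw [← ZMod.natCast_eq_zero_iff]
        push_cast
        linear_combination -e2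
      have h5 := Nat.card_congr e.toEquiv
      rw [DihedralGroup.nat_card] at h5
      have h6 := Nat.le_of_dvd (by norm_num) h3
      rw [eq_of_card_le (le_sup_left : K ≤ K ⊔ ⟪x⟫) (by omega)]
      exact mem_sup_right (mem_zpowers x)
    · have : ∀ a b : alternatingGroup (Fin 4), a * b = b * a := fun a b => e.symm.injective (by
        rw [map_mul, map_mul]; exact Subtype.ext (hab'.comm (e.symm a).2 (e.symm b).2))
      exact absurd this (by decide)
  · intro h H h1 h2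
    rcases h with h | ⟨⟨n, hn, ⟨e⟩⟩, h⟩
    · exact back (T := ⊥) (t := 1) hP (Or.inl h) (pbc_of h1 h2)
    · obtain ⟨T, t, h3, -⟩ := dh_of_iso hP.pi (Nat.le_self_pow (by omega) 2) e
      exact back hP (Or.inr ⟨h3, h⟩) (pbc_of h1 h2)

end Cfsg.Agent.S4083
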