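import Mathlib
import Cfsg.Agent.FT.BG01
-- Template for statement S4084 (row 4084; see /opt/grader/pristine/manifest.json for weights).
-- Copy to Cfsg/Agent/S4084.lean and replace the sorry. The statement below is byte-identical to the frozen
-- statement Cfsg.CfsgFrozen.S4084 (Cfsg/Statements/S4084.lean; the theorem Cfsg.gk_isomorphic_commuting_graphs_give_same_prime_graph);
-- the grader kernel-checks Cfsg.Agent.S4084.result against that frozen type. Keep the theorem IN THIS FILE
-- (a `result` declared elsewhere and merely imported here is not credited); helpers may live anywhere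
-- under Cfsg/Agent/.
import Cfsg.Statements.S4084
-- import your own Cfsg.Agent.* helpers here

set_option autoImplicit false
open Cfsg

namespace Cfsg.Agent.S4084

section
open Subgroup Cfsg.Agent.FT
open scoped commutatorElement Pointwise
set_option linter.style.haveILetI false

theorem aux {G H : Type*} [Group G] [Finite G] [Group H] [Finite H] (e : G ≃ H)
    (he : ∀ x y : G, Commute x y ↔ Commute (e x) (e y))
    {p q : ℕ} (hp : p.Prime) (hq : q.Prime) (hpq : p ≠ q) :
    (∃ g : G, orderOf g = p * q) → (∃ h : H, orderOf h = p * q) := by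
  rintro ⟨g, hg⟩
  have h1 : ∀ x : G, x ∈ Z(C[g]) ↔ e x ∈ Z(C[e g]) := by
    intro x
    rw [mem_inf, mem_inf, mem_cen, mem_cen, mem_cen1, mem_cen1]
    refine and_congr (he x g) ⟨fun h y hy => ?_, fun h y hy => ?_⟩
    · obtain ⟨z, rfl⟩ := e.surjective y
      exact (he z x).1 (h z (mem_cen1.2 ((he z g).2 (mem_cen1.1 hy))))
    · exact (he y x).2 (h (e y) (mem_cen1.2 ((he y g).1 (mem_cen1.1 hy))))
  have h2 : #Z(C[g]) = #Z(C[e g]) := Nat.card_congr (e.subtypeEquiv h1)
  have h3 : g ∈ Z(C[g]) := ⟨self_mem_cen1 g, mem_cen.2 fun x hx => mem_cen1.1 hx⟩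
  have h4 : p * q ∣ #Z(C[e g]) := h2 ▸ hg ▸ orderOf_dvd_card' h3
  obtain ⟨a, ha, hao⟩ := exists_elt_of_prime_dvd hp ((dvd_mul_right p q).trans h4)
  obtain ⟨b, hb, hbo⟩ := exists_elt_of_prime_dvd hq ((dvd_mul_left q p).trans h4)
  refine ⟨a * b, ?_⟩
  rw [Commute.orderOf_mul_eq_mul_orderOf_of_coprime ((ab_center _).comm ha hb), hao, hbo]
  rw [hao, hbo]; exact (Nat.coprime_primes hp hq).2 hpq

end

/-- Let G and H be finite groups whose commuting graphs are isomorphic: there is a bijection e : G → H with x, y commuting exactly when e(x), e(y) commute. Then G and H have the same prime graph: for distinct primes p, q, G has an element of order pq if and only if H does (and #G = #H, so the prime divisors agree). -/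
theorem result {G H : Type*} [Group G] [Finite G] [Group H] [Finite H] (e : G ≃ H)
    (he : ∀ x y : G, Commute x y ↔ Commute (e x) (e y))
    {p q : ℕ} (hp : p.Prime) (hq : q.Prime) (hpq : p ≠ q) :
    (∃ g : G, orderOf g = p * q) ↔ (∃ h : H, orderOf h = p * q) := by
  open Subgroup Cfsg.Agent.FT in
  open scoped commutatorElement Pointwise in
  exact ⟨aux e he hp hq hpq, aux e.symm (fun x y => by
    rw [he, e.apply_symm_apply, e.apply_symm_apply]) hp hq hpq⟩

end Cfsg.Agent.S4084
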