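import Mathlib
import Cfsg.Agent.H28.Util2
-- Template for statement S4085 (row 4085; see /opt/grader/pristine/manifest.json for weights).
-- Copy to Cfsg/Agent/S4085.lean and replace the sorry. The statement below is byte-identical to the frozen
-- statement Cfsg.CfsgFrozen.S4085 (Cfsg/Statements/S4085.lean; the theorem Cfsg.gk_isomorphic_power_graphs_give_same_prime_graph);
-- the grader kernel-checks Cfsg.Agent.S4085.result against that frozen type. Keep the theorem IN THIS FILE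
-- (a `result` declared elsewhere and merely imported here is not credited); helpers may live anywhere
-- under Cfsg/Agent/.
import Cfsg.Statements.S4085
-- import your own Cfsg.Agent.* helpers here

set_option autoImplicit false
open Cfsg

namespace Cfsg.Agent.S4085

section
open Subgroup Cfsg.Agent.FT Cfsg.Agent.H28
open scoped commutatorElement Pointwise
set_option linter.style.haveILetI false

/-- adjacency in the power graph -/
def adj {G : Type*} [Group G] (x y : G) : Prop := x ∈ ⟪y⟫ ∨ y ∈ ⟪x⟫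

set_option linter.unusedSectionVars false

variable {G : Type*} [Group G] [Finite G]

theorem adj.symm {x y : G} (h : adj x y) : adj y x := Or.symm h

theorem mem_trans {x y z : G} (h : x ∈ ⟪y⟫) (h' : y ∈ ⟪z⟫) : x ∈ ⟪z⟫ := zpowers_le.2 h' h

theorem adj_congr {x y z : G} (h : ⟪x⟫ = ⟪y⟫) (h' : adj z x) : adj z y :=
  h'.imp (fun e => h ▸ e) fun e => mem_trans (h ▸ mem_zpowers y) e

theorem adj_of_pElt {r : ℕ} {x y z : G} (h : PiElt {r} z) (hx : x ∈ ⟪z⟫) (hy : y ∈ ⟪z⟫) :
    adj x y :=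
  ((cyc_zpowers z).le_or_le h.zpowers (zpowers_le.2 hx) (zpowers_le.2 hy)).imp
    zpowers_le.1 zpowers_le.1

theorem dom {p q : ℕ} (hp : p.Prime) (hq : q.Prime) (hpq : p ≠ q) {c x : G} (h1 : p ∣ orderOf c)
    (h2 : q ∣ orderOf c) (ha : adj x (constt {p} c)) (hb : adj x (constt {p}ᶜ c)) :
    x = 1 ∨ c ∈ ⟪x⟫ := by
  have a1 := constt_ne_one (π := {p}) hp rfl h1
  have b1 := constt_ne_one (π := {p}ᶜ) hq hpq.symm h2
  have a2 := piElt_constt {p} c
  have b2 := piElt_constt {p}ᶜ c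
  rcases ha with ha | ha <;> rcases hb with hb | hb
  · exact Or.inl ((a2.of_mem_zpowers ha).eq_one (b2.of_mem_zpowers hb))
  · exact absurd ((a2.of_mem_zpowers (mem_trans hb ha)).eq_one b2) b1
  · exact absurd (a2.eq_one (b2.of_mem_zpowers (mem_trans ha hb))) a1
  · exact Or.inr (mem_of_constt_mem _ ha hb)

theorem pElt_of_twin {h y : G} (h1 : h ≠ 1) (h3 : y ∉ ⟪h⟫) (ht : ∀ z, adj z y → adj z h) :
    ∃ r, PiElt {r} y := by
  have key : ∀ r, constt {r} y ∉ ⟪h⟫ → PiElt {r} h := fun r hr =>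
    (piElt_constt _ y).of_mem_zpowers ((ht _ (Or.inl (constt_mem_zpowers _ y))).resolve_left hr)
  obtain ⟨r, -, -, hr⟩ : ∃ r, r.Prime ∧ r ∣ orderOf y ∧ constt {r} y ∉ ⟪h⟫ := by
    by_contra hc
    push Not at hc
    exact h3 (mem_of_forall_constt hc)
  refine ⟨r, ?_⟩
  by_contra hc
  obtain ⟨s, hs, hsr, -, h4⟩ := exists_constt_ne_one hc
  have h5 : ({s} : Set ℕ) ⊆ {r}ᶜ := by rintro _ rfl; exact hsr
  by_cases h6 : constt {s} y ∈ ⟪h⟫
  · exact h4 (((key r hr).of_mem_zpowers h6).eq_one ((piElt_constt _ y).sub h5))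
  · exact h1 ((key r hr).eq_one ((key s h6).sub h5))

theorem ncard_gens (c : G) : {x | ⟪x⟫ = ⟪c⟫}.ncard = (orderOf c).totient := by
  classical
  haveI := Fintype.ofFinite ⟪c⟫
  rw [← IsCyclic.card_orderOf_eq_totient (α := ⟪c⟫) (by rw [← Nat.card_eq_fintype_card, card_zpowers']),
    ← Set.ncard_coe_finset, ← Set.ncard_image_of_injective _ Subtype.val_injective]
  congr 1
  ext x
  simp only [Set.mem_ofPred_eq, Finset.coe_filter, Finset.mem_univ, true_and, Set.mem_image,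
    Subtype.exists, exists_and_right, exists_eq_right, orderOf_mk]
  constructor
  · intro h
    exact ⟨h ▸ mem_zpowers x, by rw [← card_zpowers', h, card_zpowers']⟩
  · rintro ⟨h1, h2⟩
    exact eq_of_card_eq (zpowers_le.2 h1) (by rw [card_zpowers', card_zpowers', h2])

theorem exists_orderOf {c : G} {n : ℕ} (h : n ∣ orderOf c) : ∃ x ∈ ⟪c⟫, orderOf x = n :=
  ⟨c ^ (orderOf c / n), pow_mem (mem_zpowers c) _, orderOf_pow_orderOf_div (orderOf_pos c).ne' h⟩

theorem eq_one_of_sq {c : G} {p q : ℕ} (hp : p.Prime) (hq : q.Prime) (hpq : p ≠ q)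
    (h1 : p ∣ orderOf c) (h2 : q ∣ orderOf c) : c ≠ c⁻¹ := by
  intro e
  have : orderOf c ∣ 2 := orderOf_dvd_of_pow_eq_one (by
    rw [pow_two]; nth_rewrite 2 [e]; exact mul_inv_cancel c)
  exact hpq (((Nat.prime_dvd_prime_iff_eq hp Nat.prime_two).1 (h1.trans this)).trans
    ((Nat.prime_dvd_prime_iff_eq hq Nat.prime_two).1 (h2.trans this)).symm)

theorem main {H : Type*} [Group H] [Finite H] (e : G ≃ H) (he : ∀ x y, adj x y ↔ adj (e x) (e y))
    {p q : ℕ} (hp : p.Prime) (hq : q.Prime) (hpq : p < q) {c : G} (hc : p * q ∣ orderOf c)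
    (hm : ∀ x, c ∈ ⟪x⟫ → x ∈ ⟪c⟫) (h1 : e c ≠ 1) : ∃ h : H, orderOf h = p * q := by
  have hpc : p ∣ orderOf c := (dvd_mul_right _ _).trans hc
  have hqc : q ∣ orderOf c := (dvd_mul_left _ _).trans hc
  have hadj : ∀ x, adj x c ↔ x ∈ ⟪c⟫ := fun x => ⟨fun h => h.elim id (hm x), Or.inl⟩
  have he' : ∀ y x, adj y (e x) ↔ adj (e.symm y) x := fun y x => by
    rw [he, e.apply_symm_apply]
  have ha := (he _ _).1 ((hadj _).2 (constt_mem_zpowers {p} c))
  have hb := (he _ _).1 ((hadj _).2 (constt_mem_zpowers {p}ᶜ c))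
  have hab : ¬ adj (e (constt {p} c)) (e (constt {p}ᶜ c)) := fun h => by
    rcases dom hp hq hpq.ne hpc hqc (Or.inl (mem_zpowers _)) ((he _ _).2 h) with h | h
    · exact constt_ne_one (π := {p}) hp rfl hpc h
    · exact hpq.ne' (PiNat.eq_prime ((piElt_constt {p} c).of_mem_zpowers h) hq hqc)
  have hD : ∀ y, adj y (e (constt {p} c)) → adj y (e (constt {p}ᶜ c)) → adj y (e c) →
      e.symm y = 1 ∨ ⟪e.symm y⟫ = ⟪c⟫ := fun y h2 h3 h4 =>
    (dom hp hq hpq.ne hpc hqc ((he' _ _).1 h2) ((he' _ _).1 h3)).imp id fun h =>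
      le_antisymm (zpowers_le.2 ((hadj _).1 ((he' _ _).1 h4))) (zpowers_le.2 h)
  have htw : ∀ x, ⟪x⟫ = ⟪c⟫ → ∀ z, adj z (e x) ↔ adj z (e c) := fun x h z => by
    rw [he', he']
    exact ⟨adj_congr h, adj_congr h.symm⟩
  by_cases h2 : e (constt {p} c) ∈ ⟪e c⟫
  · have h3 : e (constt {p}ᶜ c) ∈ ⟪e c⟫ := hb.resolve_right fun h => hab (Or.inl (mem_trans h2 h))
    have h4 : ∀ y, adj y (e c) → y ∈ ⟪e c⟫ := by
      intro y hy
      by_contra hn
      have h5 := hy.resolve_left hn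
      have h6 : ∀ r, ¬ PiElt {r} y := fun r hr =>
        hab (adj_of_pElt hr (mem_trans h2 h5) (mem_trans h3 h5))
      have h7 : ∀ w, ⟪w⟫ = ⟪y⟫ → e.symm w = 1 := fun w hw => by
        refine (hD w (Or.inr (hw ▸ mem_trans h2 h5)) (Or.inr (hw ▸ mem_trans h3 h5))
          (Or.inr (hw ▸ h5))).resolve_right fun h => ?_
        obtain ⟨r, hr⟩ := pElt_of_twin h1 hn fun z hz =>
          (htw _ h z).1 (by rw [e.apply_symm_apply]; exact adj_congr hw.symm hz)
        exact h6 r hr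
      have h8 : y = y⁻¹ := e.symm.injective ((h7 y rfl).trans (h7 _ zpowers_inv).symm)
      exact h6 2 (pElt_of_pow_eq_one Nat.prime_two (by
        rw [pow_two]; nth_rewrite 2 [h8]; exact mul_inv_cancel y))
    have h5 : (⟪e c⟫ : Set H) = e '' ⟪c⟫ := by
      ext y
      rw [Equiv.image_eq_preimage_symm, Set.mem_preimage, SetLike.mem_coe, SetLike.mem_coe, ← hadj,
        ← he']
      exact ⟨Or.inl, h4 y⟩
    have h6 : orderOf (e c) = orderOf c := by
      rw [← card_zpowers', ← card_zpowers', ← ncard_coe, h5,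
        Set.ncard_image_of_injective _ e.injective, ncard_coe]
    obtain ⟨x, -, hx⟩ := exists_orderOf (h6 ▸ hc)
    exact ⟨x, hx⟩
  exfalso
  have h3 := ha.resolve_left h2
  have h4 : e c ∈ ⟪e (constt {p}ᶜ c)⟫ := hb.resolve_left fun h => hab (Or.inr (mem_trans h h3))
  have h5 : ∀ z ∈ ⟪e c⟫, e.symm z = 1 ∨ ⟪e.symm z⟫ = ⟪c⟫ := fun z hz =>
    hD z (Or.inl (mem_trans hz h3)) (Or.inl (mem_trans hz h4)) (Or.inl hz)
  have hdom : ∀ x, x = 1 ∨ ⟪x⟫ = ⟪c⟫ → ∀ z, adj z (e c) → adj z (e x) := by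
    rintro x (rfl | h) z hz
    · exact (he' _ _).2 (Or.inr (one_mem _))
    · exact (htw x h z).2 hz
  obtain ⟨r, hr⟩ : ∃ r, PiElt {r} (e c) := by
    obtain ⟨r, hr, hd⟩ := Nat.exists_prime_and_dvd (fun h => h1 (orderOf_eq_one_iff.1 h))
    have := hdom _ (h5 _ (constt_mem_zpowers {r} (e c))) _ (Or.inl (constt_mem_zpowers {r}ᶜ _))
    rw [e.apply_symm_apply] at this
    refine ⟨r, constt_compl_eq_one_iff.1 ?_⟩
    rcases this with h | h
    · exact ((piElt_constt _ _).of_mem_zpowers h).eq_one (piElt_constt _ _)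
    · exact absurd ((piElt_constt _ _).eq_one ((piElt_constt _ _).of_mem_zpowers h))
        (constt_ne_one (π := {r}) hr rfl hd)
  -- every element of the dominating set is trivial or a twin
  have h6 : ∀ x, x = 1 ∨ ⟪x⟫ = ⟪c⟫ → e x = 1 ∨ ∀ z, adj z (e x) → adj z (e c) := by
    rintro x (rfl | h)
    · refine (h5 1 (one_mem _)).imp (fun h => by rw [← h, e.apply_symm_apply]) fun h z _ => ?_
      exact (htw _ h z).1 (by rw [e.apply_symm_apply]; exact Or.inr (one_mem _))
    · exact Or.inr fun z => (htw x h z).1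
  have h7 : ∀ x, x = 1 ∨ ⟪x⟫ = ⟪c⟫ → ∃ r, PiElt {r} (e x) := by
    intro x hx
    rcases h6 x hx with h | h
    · exact ⟨r, h ▸ piElt_one _⟩
    · by_cases h8 : e x ∈ ⟪e c⟫
      · exact ⟨r, hr.of_mem_zpowers h8⟩
      · exact pElt_of_twin h1 h8 h
  obtain ⟨x, hx, hxo⟩ := exists_orderOf hpc
  obtain ⟨t, ht, hto⟩ := exists_orderOf hqc
  have hxp : PiElt {p} x := (piElt_of_orderOf_prime hp hxo).2 rfl
  have htq : PiElt {p}ᶜ t := (piElt_of_orderOf_prime hq hto).2 hpq.ne'
  have hx1 : x ≠ 1 := by rintro rfl; exact hp.ne_one (by simpa using hxo.symm)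
  have ht1 : t ≠ 1 := by rintro rfl; exact hq.ne_one (by simpa using hto.symm)
  have hxt : ¬ adj t x := fun h => h.elim (fun h => ht1 ((hxp.of_mem_zpowers h).eq_one htq))
    fun h => hx1 (hxp.eq_one (htq.of_mem_zpowers h))
  have hxt' : ¬ adj (e t) (e x) := fun h => hxt ((he _ _).2 h)
  have htc : adj (e t) (e c) := (he _ _).1 (Or.inl ht)
  have hxc : adj (e x) (e c) := (he _ _).1 (Or.inl hx)
  have h8 : ∀ y, y = 1 ∨ ⟪y⟫ = ⟪c⟫ → e y ∈ ⟪e x⟫ := by
    intro y hy
    refine (hdom y hy _ hxc).symm.resolve_right fun h => hxt' ?_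
    obtain ⟨s, hs⟩ := h7 y hy
    exact (hdom y hy _ htc).elim (fun h' => adj_of_pElt hs h' h) fun h' => Or.inr (mem_trans h h')
  have h9 : (orderOf (e x)).totient ≤ p - 1 := by
    rw [← ncard_gens, ← Nat.totient_prime hp, ← hxo, ← ncard_gens]
    refine Set.ncard_le_ncard_of_injOn e.symm (fun w hw => ?_) e.symm.injective.injOn (Set.toFinite _)
    have t1 : ∀ z, adj z (e.symm w) ↔ adj z x := fun z => by
      rw [he, he z x, e.apply_symm_apply]
      exact ⟨adj_congr hw, adj_congr (Eq.symm hw)⟩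
    have t2 : e.symm w ≠ 1 := fun h => hxt ((t1 t).1 (Or.inr (h ▸ one_mem _)))
    by_cases t3 : e.symm w ∈ ⟪x⟫
    · exact zpowers_eq_of_orderOf_prime (hxo ▸ hp) t3 t2
    exfalso
    have t4 := ((t1 x).2 (Or.inl (mem_zpowers x))).resolve_right t3
    obtain ⟨s, hs⟩ := pElt_of_twin hx1 t3 fun z => (t1 z).1
    have t5 : x * t = t * x := (ab_zpowers c).comm hx ht
    have t6 : constt {p} (x * t) = x := constt_mul_of_pi hxp htq t5
    have t7 : constt {p}ᶜ (x * t) = t := constt_mul_of_pi' hxp htq t5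
    rcases (t1 (x * t)).2 (Or.inr (t6.subst (motive := (· ∈ ⟪x * t⟫)) (constt_mem_zpowers {p} (x * t)))) with h | h
    · exact hxt (adj_of_pElt hs (t7 ▸ constt_mem _ h) t4)
    · have t8 : s = p := (PiNat.eq_prime (hs.of_mem_zpowers t4) hp hxo.symm.dvd).symm
      subst t8
      obtain ⟨k, hk⟩ := h
      refine t3 ⟨k, ?_⟩
      have := congrArg (constt {s}) hk
      rwa [constt_zpow, t6, hs.constt_eq] at this
  obtain ⟨y, hy, hmax⟩ := Set.exists_max_image {y | y = 1 ∨ ⟪y⟫ = ⟪c⟫} (fun y => orderOf (e y))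
    (Set.toFinite _) ⟨c, Or.inr rfl⟩
  have h10 : {y | y = 1 ∨ ⟪y⟫ = ⟪c⟫}.ncard ≤ orderOf (e y) := by
    rw [← card_zpowers', ← ncard_coe]
    refine Set.ncard_le_ncard_of_injOn e (fun z hz => ?_) e.injective.injOn (Set.toFinite _)
    refine (hdom y hy _ (hdom z hz _ (Or.inl (mem_zpowers _))).symm).elim id fun h => ?_
    rw [eq_of_card_le (zpowers_le.2 h) (by simpa only [card_zpowers'] using hmax z hz)]
    exact mem_zpowers _
  have h11 : {y | y = 1 ∨ ⟪y⟫ = ⟪c⟫} = insert 1 {y | ⟪y⟫ = ⟪c⟫} := rfl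
  rw [h11, Set.ncard_insert_of_notMem (fun h => hx1 (by
    rw [Set.mem_ofPred_eq, zpowers_one_eq_bot] at h
    exact mem_bot.1 (h ▸ hx))) (Set.toFinite _), ncard_gens] at h10
  have h12 := Nat.le_of_dvd (Nat.totient_pos.2 (orderOf_pos c)) (Nat.totient_dvd_of_dvd hc)
  rw [Nat.totient_mul ((Nat.coprime_primes hp hq).2 hpq.ne), Nat.totient_prime hp,
    Nat.totient_prime hq] at h12
  have h13 := (Nat.le_of_dvd (Nat.totient_pos.2 (orderOf_pos _))
    (Nat.totient_dvd_of_dvd (orderOf_dvd_of_mem_zpowers (h8 y hy)))).trans h9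
  obtain ⟨s, hs⟩ := h7 y hy
  have h14 : orderOf (e y) ≤ 2 * (orderOf (e y)).totient := by
    by_cases h : orderOf (e y) = 1
    · simp [h]
    have hsp := PiNat.prime_of_ne_one hs h
    obtain ⟨k, hk⟩ := PiNat.exists_pow hs (orderOf_pos _).ne'
    rcases k with _ | k
    · exact absurd hk h
    rw [hk, Nat.totient_prime_pow_succ hsp, pow_succ, mul_left_comm]
    have := hsp.two_le
    exact Nat.mul_le_mul_left _ (by omega)
  have h15 := hp.two_le
  have h16 : (p - 1) * 2 ≤ (p - 1) * (q - 1) := Nat.mul_le_mul_left _ (by omega)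
  omega

theorem main' {H : Type*} [Group H] [Finite H] (e : G ≃ H) (he : ∀ x y, adj x y ↔ adj (e x) (e y))
    {p q : ℕ} (hp : p.Prime) (hq : q.Prime) (hpq : p < q) {g : G} (hg : orderOf g = p * q) :
    ∃ h : H, orderOf h = p * q := by
  obtain ⟨C, h1, h2, h3⟩ := exists_max (fun C : Subgroup G => Cyc C) (cyc_zpowers g)
  obtain ⟨c, rfl⟩ := cyc_iff.1 h2
  have hc : p * q ∣ orderOf c := hg ▸ orderOf_dvd_of_mem_zpowers (zpowers_le.1 h1)
  have hm : ∀ x, c ∈ ⟪x⟫ → x ∈ ⟪c⟫ := fun x hx =>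
    h3 _ (cyc_zpowers x) (zpowers_le.2 hx) ▸ mem_zpowers x
  by_cases h : e c = 1
  · refine main e he hp hq hpq (c := c⁻¹) (by rwa [orderOf_inv]) (fun x hx => ?_) fun h' => ?_
    · rw [zpowers_inv]
      exact hm x (by simpa using hx)
    · exact eq_one_of_sq hp hq hpq.ne ((dvd_mul_right _ _).trans hc) ((dvd_mul_left _ _).trans hc)
        (e.injective (h.trans h'.symm))
  · exact main e he hp hq hpq hc hm h

end

/-- Let G and H be finite groups whose power graphs are isomorphic: there is a bijection e : G → H such that, for all x, y, one of x, y is a power of the other exactly when one of e(x), e(y) is a power of the other. Then G and H have the same prime graph: for distinct primes p, q, G has an element of order pq if and only if H does. -/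
theorem result {G H : Type*} [Group G] [Finite G] [Group H] [Finite H] (e : G ≃ H)
    (he : ∀ x y : G, (x ∈ Subgroup.zpowers y ∨ y ∈ Subgroup.zpowers x) ↔
      (e x ∈ Subgroup.zpowers (e y) ∨ e y ∈ Subgroup.zpowers (e x)))
    {p q : ℕ} (hp : p.Prime) (hq : q.Prime) (hpq : p ≠ q) :
    (∃ g : G, orderOf g = p * q) ↔ (∃ h : H, orderOf h = p * q) := by
  open Subgroup Cfsg.Agent.FT Cfsg.Agent.H28 in
  open scoped commutatorElement Pointwise in
  have he' : ∀ x y : H, adj x y ↔ adj (e.symm x) (e.symm y) := fun x y => by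
    have := he (e.symm x) (e.symm y)
    rw [e.apply_symm_apply, e.apply_symm_apply] at this
    exact this.symm
  rcases hpq.lt_or_gt with h | h
  · exact ⟨fun ⟨g, hg⟩ => main' e he hp hq h hg, fun ⟨g, hg⟩ => main' e.symm he' hp hq h hg⟩
  · rw [mul_comm]
    exact ⟨fun ⟨g, hg⟩ => main' e he hq hp h hg, fun ⟨g, hg⟩ => main' e.symm he' hq hp h hg⟩

end Cfsg.Agent.S4085
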