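import Mathlib
import Cfsg.Agent.FT.BG01
-- Template for statement S4086 (row 4086; see /opt/grader/pristine/manifest.json for weights).
-- Copy to Cfsg/Agent/S4086.lean and replace the sorry. The statement below is byte-identical to the frozen
-- statement Cfsg.CfsgFrozen.S4086 (Cfsg/Statements/S4086.lean; the theorem Cfsg.fg48_all_elements_prime_power_order_iff_cyclic_pairs_comparable);
-- the grader kernel-checks Cfsg.Agent.S4086.result against that frozen type. Keep the theorem IN THIS FILE
-- (a `result` declared elsewhere and merely imported here is not credited); helpers may live anywhere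
-- under Cfsg/Agent/.
import Cfsg.Statements.S4086
-- import your own Cfsg.Agent.* helpers here

set_option autoImplicit false
open Cfsg

namespace Cfsg.Agent.S4086

/-- For a finite group G the following are equivalent: every non-identity element has prime-power order; whenever two elements generate a cyclic subgroup, one of them is a power of the other (the enhanced power graph of G coincides with its power graph). -/
theorem result {G : Type*} [Group G] [Finite G] :
    (∀ g : G, g ≠ 1 → IsPrimePow (orderOf g)) ↔
    (∀ x y : G, IsCyclic ↥(Subgroup.closure ({x, y} : Set G)) → (x ∈ Subgroup.zpowers y ∨ y ∈ Subgroup.zpowers x)) := by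
  open Subgroup Cfsg.Agent.FT in
  open scoped commutatorElement Pointwise in
  constructor
  · intro h x y hc
    obtain ⟨z, hz, hze, hzo⟩ := Cyc.exists_gen hc
    have hx : ⟪x⟫ ≤ closure ({x, y} : Set G) := zpowers_le.2 (subset_closure (by simp))
    have hy : ⟪y⟫ ≤ closure ({x, y} : Set G) := zpowers_le.2 (subset_closure (by simp))
    by_cases h1 : z = 1
    · left
      have := hx (mem_zpowers x)
      rw [hze, h1, zpowers_one_eq_bot, mem_bot] at this
      rw [this]; exact one_mem _
    obtain ⟨p, k, hp, -, hk⟩ := (isPrimePow_nat_iff _).1 (h z h1)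
    rcases Cyc.le_or_le hc (pGrp_of_card hp (hzo.symm.trans hk.symm)) hx hy with h | h
    · exact Or.inl (h (mem_zpowers x))
    · exact Or.inr (h (mem_zpowers y))
  · intro h g hg
    have h1 : orderOf g ≠ 1 := fun e => hg (orderOf_eq_one_iff.1 e)
    rw [isPrimePow_iff_unique_prime_dvd]
    obtain ⟨p, hp, hd⟩ := Nat.exists_prime_and_dvd h1
    refine ⟨p, ⟨hp, hd⟩, fun q ⟨hq, hqd⟩ => ?_⟩
    obtain ⟨a, ha, hao⟩ := exists_elt_of_prime_dvd (H := ⟪g⟫) hp (by rwa [card_zpowers'])
    obtain ⟨b, hb, hbo⟩ := exists_elt_of_prime_dvd (H := ⟪g⟫) hq (by rwa [card_zpowers'])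
    rcases h a b ((cyc_zpowers g).mono ((closure_le _).2 (by
      rintro _ (rfl | rfl)
      · exact ha
      · exact hb))) with h | h
    · have := orderOf_dvd_of_mem_zpowers h
      rw [hao, hbo] at this
      exact ((Nat.prime_dvd_prime_iff_eq hp hq).1 this).symm
    · have := orderOf_dvd_of_mem_zpowers h
      rw [hao, hbo] at this
      exact (Nat.prime_dvd_prime_iff_eq hq hp).1 this

end Cfsg.Agent.S4086
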