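import Cfsg.Statements.S4087
import Mathlib
import Cfsg.Agent.H21.Epo2

set_option autoImplicit false
open Cfsg

namespace Cfsg.Agent.S4087

open Cfsg.Agent.H21 Cfsg.Agent.FT in
theorem pf_eq {G : Type*} [Group G] [Finite G] (h : 2 ∣ Nat.card (G ⧸ pCore 2 G)) :
    (Nat.card G).primeFactors = (Nat.card (G ⧸ pCore 2 G)).primeFactors := by
  obtain ⟨k, hk⟩ := (pGrp_pCore (G := G)).card
  rw [Subgroup.card_eq_card_quotient_mul_card_subgroup (pCore 2 G), hk,
    Nat.primeFactors_mul Nat.card_pos.ne' (by positivity), Finset.union_eq_left]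
  intro p hp
  rw [(Nat.prime_dvd_prime_iff_eq (Nat.prime_of_mem_primeFactors hp) Nat.prime_two).1
    ((Nat.prime_of_mem_primeFactors hp).dvd_of_dvd_pow (Nat.dvd_of_mem_primeFactors hp))]
  exact Nat.mem_primeFactors.2 ⟨Nat.prime_two, h, Nat.card_pos.ne'⟩

/-- Let G be a finite group in which every non-identity element has prime-power order (its prime graph has no edges). Then the order of G has at most four distinct prime divisors; and if it has exactly four, then either G is isomorphic to PSL(3,4), or G has a normal 2-subgroup N with G/N isomorphic to the Suzuki group over the field with 8 or with 32 elements. -/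
theorem result {G : Type*} [Group G] [Finite G] (h : ∀ g : G, g ≠ 1 → IsPrimePow (orderOf g)) :
    (Nat.card G).primeFactors.card ≤ 4 ∧
    ((Nat.card G).primeFactors.card = 4 →
      (∃ (F : Type) (_ : Field F) (_ : Fintype F), Fintype.card F = 4 ∧
        Nonempty (G ≃* Matrix.ProjectiveSpecialLinearGroup (Fin 3) F)) ∨
      (∃ (N : Subgroup G) (_ : N.Normal), IsPGroup 2 ↥N ∧
        ∃ (F : Type) (_ : Field F) (_ : Fintype F),
          (Fintype.card F = 8 ∧ Nonempty (G ⧸ N ≃* ↥(Cfsg.Lie.Sz F 4))) ∨
          (Fintype.card F = 32 ∧ Nonempty (G ⧸ N ≃* ↥(Cfsg.Lie.Sz F 8))))) := by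
  have e : H21.EP G := h
  have three : ∀ n, Nat.card G = n → n.primeFactors.card ≤ 3 → (Nat.card G).primeFactors.card ≤ 4 ∧
      ((Nat.card G).primeFactors.card = 4 → False) := fun n h1 h2 => by rw [h1]; omega
  have three' : ∀ n, Nat.card (G ⧸ pCore 2 G) = n → 2 ∣ n → n.primeFactors.card ≤ 3 →
      (Nat.card G).primeFactors.card ≤ 4 ∧ ((Nat.card G).primeFactors.card = 4 → False) :=
    fun n h1 h2 h3 => by rw [pf_eq (h1 ▸ h2), h1]; omega
  have hN : IsPGroup 2 (pCore 2 G) := H21.pGrp_pCore.isPGroup
  rcases e.struct with h1 | (h1 | h1 | h1 | h1) | (h1 | h1 | h1) | h1 | h1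
  · have := mt e.not_sol (not_not.2 h1)
    exact ⟨by omega, by omega⟩
  · exact (three' 60 (by have := h1.card; norm_num at this; omega) (by norm_num)
      (by simp [Nat.primeFactors])).imp_right fun a b => (a b).elim
  · exact (three' 504 (by have := h1.card; norm_num at this; omega) (by norm_num)
      (by simp [Nat.primeFactors])).imp_right fun a b => (a b).elim
  · have := h1.card le_rfl
    obtain ⟨F, _, _, h2, f⟩ := h1
    refine ⟨?_, fun _ => Or.inr ⟨_, inferInstance, hN, F, _, _, Or.inl ⟨h2, f⟩⟩⟩
    rw [pf_eq (by rw [this]; norm_num), this]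
    simp [Nat.primeFactors]
  · have := h1.card one_le_two
    obtain ⟨F, _, _, h2, f⟩ := h1
    refine ⟨?_, fun _ => Or.inr ⟨_, inferInstance, hN, F, _, _, Or.inr ⟨h2, f⟩⟩⟩
    rw [pf_eq (by rw [this]; norm_num), this]
    simp [Nat.primeFactors]
  · exact (three 168 (by have := h1.card; norm_num at this; omega)
      (by simp [Nat.primeFactors])).imp_right fun a b => (a b).elim
  · exact (three 360 (by have := h1.card; norm_num at this; omega)
      (by simp [Nat.primeFactors])).imp_right fun a b => (a b).elim
  · exact (three 2448 (by have := h1.card; norm_num at this; omega)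
      (by simp [Nat.primeFactors])).imp_right fun a b => (a b).elim
  · exact (three 720 h1.card (by simp [Nat.primeFactors])).imp_right fun a b => (a b).elim
  · exact ⟨by rw [h1.card]; simp [Nat.primeFactors], fun _ => Or.inl h1⟩

end Cfsg.Agent.S4087
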