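import Mathlib
import Cfsg.Agent.H28.Subnz
-- Template for statement S4088 (row 4088; see /opt/grader/pristine/manifest.json for weights).
-- Copy to Cfsg/Agent/S4088.lean and replace the sorry. The statement below is byte-identical to the frozen
-- statement Cfsg.CfsgFrozen.S4088 (Cfsg/Statements/S4088.lean; the theorem Cfsg.fg7_subnormalizer_of_p_subgroup_card);
-- the grader kernel-checks Cfsg.Agent.S4088.result against that frozen type. Keep the theorem IN THIS FILE
-- (a `result` declared elsewhere and merely imported here is not credited); helpers may live anywhere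
-- under Cfsg/Agent/.
import Cfsg.Statements.S4088
-- import your own Cfsg.Agent.* helpers here

set_option autoImplicit false
open Cfsg

namespace Cfsg.Agent.S4088

/-- Let G be a finite group, p a prime dividing the order of G, H a p-subgroup of G and P a Sylow p-subgroup of G. Call the subnormalizer of H the set of elements g of G such that H is subnormal in the subgroup generated by H and g. Then the number of elements of the subnormalizer of H equals the number of Sylow p-subgroups of G containing H times the order of N_G(P), and also equals the number of conjugates of H contained in P times the order of N_G(H). -/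
theorem result {G : Type*} [Group G] [Finite G] (p : ℕ) [Fact p.Prime]
    (hp : p ∣ Nat.card G) (H : Subgroup G) (hH : IsPGroup p H) (P : Sylow p G) :
    Nat.card {g : G // ((H).subgroupOf (H ⊔ Subgroup.zpowers g)).IsSubnormal} =
        Nat.card {Q : Sylow p G // H ≤ (Q : Subgroup G)} * Nat.card (Subgroup.normalizer ((P : Subgroup G) : Set G)) ∧
    Nat.card {g : G // ((H).subgroupOf (H ⊔ Subgroup.zpowers g)).IsSubnormal} =
        Nat.card {K : Subgroup G // K ≤ (P : Subgroup G) ∧ ∃ g : G, K = H.map (MulAut.conj g).toMonoidHom} *
          Nat.card (Subgroup.normalizer (H : Set G)) := by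
  open Subgroup Cfsg.Agent.FT Cfsg.Agent.H28 in
  open scoped commutatorElement Pointwise in
  have hpp : p.Prime := Fact.out
  have h1 := ncard_subnormalizer hpp (pGrp_of_isPGroup hpp hH) (syl_top hpp P)
  refine ⟨by rw [card_sylow_le_eq]; exact h1, h1.trans ?_⟩
  have e : {Q | Syl p Q ⊤ ∧ H ≤ Q} = {Q | (∃ g, Q = cj g P) ∧ H ≤ Q} := by
    ext Q
    refine and_congr_left fun _ => ⟨fun h => ?_, ?_⟩
    · obtain ⟨g, -, hg⟩ := (syl_top hpp P).syl_trans h
      exact ⟨g, hg⟩
    · rintro ⟨g, rfl⟩
      exact (syl_top hpp P).cj_mem (mem_top g)
  rw [e, ← ncard_le_cj, ncard_le_cj_eq, ncard_cj_le]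
  rfl

end Cfsg.Agent.S4088
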