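import Mathlib
import Cfsg.Agent.H28.Subnz
-- Template for statement S4089 (row 4089; see /opt/grader/pristine/manifest.json for weights).
-- Copy to Cfsg/Agent/S4089.lean and replace the sorry. The statement below is byte-identical to the frozen
-- statement Cfsg.CfsgFrozen.S4089 (Cfsg/Statements/S4089.lean; the theorem Cfsg.fg7_subnormalizer_of_p_subgroup_eq_union_normalizers);
-- the grader kernel-checks Cfsg.Agent.S4089.result against that frozen type. Keep the theorem IN THIS FILE
-- (a `result` declared elsewhere and merely imported here is not credited); helpers may live anywhere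
-- under Cfsg/Agent/.
import Cfsg.Statements.S4089
-- import your own Cfsg.Agent.* helpers here

set_option autoImplicit false
open Cfsg

namespace Cfsg.Agent.S4089

/-- Let G be a finite group, p a prime and H a p-subgroup of G. Then the set of elements g of G such that H is subnormal in the subgroup generated by H and g is the union of the normalizers N_G(R) over the subgroups R of G containing H with R = O_p(N_G(R)); and this set does not change when H is replaced by the intersection of all Sylow p-subgroups of G containing H. -/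
theorem result {G : Type*} [Group G] [Finite G] (p : ℕ) [Fact p.Prime]
    (H : Subgroup G) (hH : IsPGroup p H) :
    {g : G | ((H).subgroupOf (H ⊔ Subgroup.zpowers g)).IsSubnormal} =
      {g : G | ∃ R : Subgroup G, H ≤ R ∧ (Cfsg.pCore p (Subgroup.normalizer (R : Set G))).map (Subgroup.normalizer (R : Set G)).subtype = R ∧ g ∈ Subgroup.normalizer (R : Set G)} ∧
    ∀ g : G, (((H).subgroupOf (H ⊔ Subgroup.zpowers g)).IsSubnormal ↔
      (((sInf {K : Subgroup G | ∃ Q : Sylow p G, H ≤ (Q : Subgroup G) ∧ K = (Q : Subgroup G)})).subgroupOf ((sInf {K : Subgroup G | ∃ Q : Sylow p G, H ≤ (Q : Subgroup G) ∧ K = (Q : Subgroup G)}) ⊔ Subgroup.zpowers g)).IsSubnormal) := by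
  open Subgroup Cfsg.Agent.FT Cfsg.Agent.H28 in
  open scoped commutatorElement Pointwise in
  have hp : p.Prime := Fact.out
  have hH' := pGrp_of_isPGroup hp hH
  refine ⟨Set.ext fun g => ?_, fun g => ?_⟩
  · simp only [Set.mem_ofPred_eq, ← pcore_singleton hp]
    exact subn_iff_radical hH'
  have key : ∀ R : Subgroup G, PGrp p R →
      PGrp p (sInf {K : Subgroup G | ∃ Q : Sylow p G, R ≤ (Q : Subgroup G) ∧ K = Q} : Subgroup G) := by
    intro R hR
    obtain ⟨Q, hQ⟩ := hR.isPGroup.exists_le_sylow
    exact (sylow_pGrp Q).mono (sInf_le ⟨Q, hQ, rfl⟩)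
  have key2 : ∀ R : Subgroup G,
      R ≤ sInf {K : Subgroup G | ∃ Q : Sylow p G, R ≤ (Q : Subgroup G) ∧ K = Q} := fun R =>
    le_sInf (by rintro _ ⟨Q, hQ, rfl⟩; exact hQ)
  rw [subn_iff_radical hH', subn_iff_radical (key H hH')]
  refine exists_congr fun R => and_congr_left fun h => ⟨fun h1 => ?_, (key2 H).trans⟩
  have hR : PGrp p R := h.1 ▸ pcore_pi _ _
  refine le_trans (sInf_le_sInf ?_) (?_ : sInf {K : Subgroup G | ∃ Q : Sylow p G, R ≤ (Q : Subgroup G) ∧ K = Q} ≤ R)
  · rintro _ ⟨Q, hQ, rfl⟩
    exact ⟨Q, h1.trans hQ, rfl⟩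
  have h2 : N(R) ≤ N(sInf {K : Subgroup G | ∃ Q : Sylow p G, R ≤ (Q : Subgroup G) ∧ K = Q}) := by
    refine le_nrm_iff.2 fun x hx y hy => mem_sInf.2 ?_
    rintro _ ⟨Q, hQ, rfl⟩
    have := mem_sInf.1 hy _ ⟨x⁻¹ • Q, by
      rw [coe_smul_sylow, le_cj_iff, inv_inv, cj_of_mem_nrm hx]; exact hQ, rfl⟩
    rwa [coe_smul_sylow, mem_cj, inv_inv] at this
  refine ((key R hR).nil.eq_of_subnorm_le (key2 R) ?_).ge
  conv_rhs => rw [← h.1]
  exact pcore_max ((key R hR).inf_left _) (nml_inf_of_norms' h2)

end Cfsg.Agent.S4089
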