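import Mathlib
import Cfsg.Agent.H28.Subnz
-- Template for statement S4090 (row 4090; see /opt/grader/pristine/manifest.json for weights).
-- Copy to Cfsg/Agent/S4090.lean and replace the sorry. The statement below is byte-identical to the frozen
-- statement Cfsg.CfsgFrozen.S4090 (Cfsg/Statements/S4090.lean; the theorem Cfsg.fg7_subnormalizer_card_in_p_solvable_group);
-- the grader kernel-checks Cfsg.Agent.S4090.result against that frozen type. Keep the theorem IN THIS FILE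
-- (a `result` declared elsewhere and merely imported here is not credited); helpers may live anywhere
-- under Cfsg/Agent/.
import Cfsg.Statements.S4090
-- import your own Cfsg.Agent.* helpers here

set_option autoImplicit false
open scoped BigOperators
open Cfsg

namespace Cfsg.Agent.S4090

section
open Subgroup Cfsg.Agent.FT Cfsg.Agent.H28
open scoped commutatorElement Pointwise
set_option linter.style.haveILetI false

theorem hQ {G : Type*} [Group G] [Finite G] {p : ℕ} {U V : Subgroup G}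
    [V.Normal] (hVU : V ≤ U) (hc : PiNat {p}ᶜ (V.relIndex U)) (Q : Subgroup G) (hQ : PGrp p Q) :
    U ⊓ (V ⊔ Q) = V := by
  rw [inf_sup_left (le_nrm_of_normal _ _) hVU, sup_eq_left]
  exact (hQ.inf_right U).le_of_relIndex inf_le_left (le_nrm_of_normal _ _) hc

theorem iff1 {G : Type*} [Group G] [Finite G] {p : ℕ} {H Q U V : Subgroup G}
    [hU : U.Normal] [hV : V.Normal] (hVU : V ≤ U) (hc : PiNat {p}ᶜ (V.relIndex U)) (hQ' : PGrp p Q)
    (h2 : H ≤ Q) {u : G} (hu : u ∈ U) : H ≤ cj u Q ⊔ V ↔ ∀ h ∈ H, h * u * h⁻¹ * u⁻¹ ∈ V := by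
  constructor
  · intro h3 h hh
    rw [← cj_of_mem_nrm (le_nrm_of_normal V ⊤ (mem_top u)), ← cj_sup, sup_comm] at h3
    have h4 : u⁻¹ * h * u * h⁻¹ ∈ U ⊓ (V ⊔ Q) := by
      refine mem_inf.2 ⟨?_, mul_mem (mem_cj.1 (h3 hh)) (inv_mem (mem_sup_right (h2 hh)))⟩
      have := U.mul_mem (U.inv_mem hu) (hU.conj_mem u hu h)
      rwa [← mul_assoc, ← mul_assoc] at this
    rw [hQ hVU hc _ hQ'] at h4
    have := hV.conj_mem _ h4 u
    rwa [show u * (u⁻¹ * h * u * h⁻¹) * u⁻¹ = h * u * h⁻¹ * u⁻¹ by group] at this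
  · intro h3 h hh
    have e : h = h * u * h⁻¹ * u⁻¹ * (u * h * u⁻¹) := by group
    rw [e]
    exact mul_mem (mem_sup_right (h3 h hh)) (mem_sup_left (conj_mem_cj.2 (h2 hh)))

theorem cnt1 {G : Type*} [Group G] [Finite G] {p : ℕ} {H P U V : Subgroup G}
    [U.Normal] [V.Normal] (hH : PGrp p H) (hP : Syl p P ⊤) (hVU : V ≤ U)
    (hc : PiNat {p}ᶜ (V.relIndex U)) :
    {a : G × G | a.2 ∈ U ∧ H ≤ cj (a.2 * a.1) P ⊔ V}.ncard =
      {u | u ∈ U ∧ ∀ h ∈ H, h * u * h⁻¹ * u⁻¹ ∈ V}.ncard * {g | H ≤ cj g P ⊔ U}.ncard := by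
  refine ncard_eq_mul_of_fibers Prod.fst ?_ ?_
  · rintro ⟨g, u⟩ ⟨hu, h⟩
    refine h.trans (sup_le ?_ (hVU.trans le_sup_right))
    rw [← cj_cj]
    exact cj_le_of_mem (mem_sup_right hu) le_sup_left
  · intro g hg
    obtain ⟨x, hx, h2⟩ := ((hP.cj_mem (mem_top g)).subl le_sup_left le_top).syl_subJ hH hg
    rw [sup_comm] at hx
    obtain ⟨u₀, hu₀, q, hq, rfl⟩ := (mem_sup_norm (le_nrm_of_normal U (cj g P))).1 hx
    rw [← cj_cj, cj_of_mem hq] at h2
    have hi : Function.Injective fun u : G => (g, u * u₀) := fun a b e =>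
      mul_right_cancel (Prod.mk.inj e).2
    rw [← Set.ncard_image_of_injective _ hi]
    congr 1
    ext ⟨g', w⟩
    simp only [Set.mem_ofPred_eq, Set.mem_image, Prod.mk.injEq]
    constructor
    · rintro ⟨⟨hw, h3⟩, rfl⟩
      obtain ⟨u, rfl⟩ : ∃ u, w = u * u₀ := ⟨w * u₀⁻¹, by group⟩
      have hu : u ∈ U := (U.mul_mem_cancel_right hu₀).1 hw
      rw [mul_assoc, ← cj_cj, ← cj_cj] at h3
      exact ⟨u, ⟨hu, (iff1 hVU hc ((hP.pi.cj _).cj _) h2 hu).1 h3⟩, rfl, rfl⟩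
    · rintro ⟨u, ⟨hu, h3⟩, rfl, rfl⟩
      refine ⟨⟨U.mul_mem hu hu₀, ?_⟩, rfl⟩
      rw [mul_assoc, ← cj_cj, ← cj_cj]
      exact (iff1 hVU hc ((hP.pi.cj _).cj _) h2 hu).2 h3

theorem cnt2 {G : Type*} [Group G] [Finite G] (H P U V : Subgroup G) :
    {a : G × G | a.2 ∈ U ∧ H ≤ cj (a.2 * a.1) P ⊔ V}.ncard = #U * {g | H ≤ cj g P ⊔ V}.ncard := by
  refine ncard_eq_mul_of_fibers (fun a => a.2 * a.1) (fun a ha => ha.2) fun g hg => ?_
  have hi : Function.Injective fun u : G => (u⁻¹ * g, u) := fun a b e => (Prod.mk.inj e).2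
  rw [← ncard_coe, ← Set.ncard_image_of_injective _ hi]
  congr 1
  ext ⟨x, w⟩
  simp only [Set.mem_ofPred_eq, Set.mem_image, Prod.mk.injEq, SetLike.mem_coe]
  constructor
  · rintro ⟨⟨hw, -⟩, rfl⟩
    exact ⟨w, hw, by group, rfl⟩
  · rintro ⟨u, hu, rfl, rfl⟩
    exact ⟨⟨hu, by rwa [mul_inv_cancel_left]⟩, by group⟩

theorem step {G : Type*} [Group G] [Finite G] {p : ℕ} {H P U V : Subgroup G}
    [U.Normal] [V.Normal] (hH : PGrp p H) (hP : Syl p P ⊤) (hVU : V ≤ U)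
    (hc : PiNat {p}ᶜ (V.relIndex U)) :
    {g | H ≤ cj g P ⊔ V}.ncard * #(P ⊔ U : Subgroup G) =
      {g | H ≤ cj g P ⊔ U}.ncard * #(P ⊔ V : Subgroup G) *
        (Nat.card {u // u ∈ U ∧ ∀ h ∈ H, h * u * h⁻¹ * u⁻¹ ∈ V} / #V) := by
  have h1 := cnt1 hH hP hVU hc
  have h2 := cnt2 H P U V
  let D := U ⊓ (C(H.map (QuotientGroup.mk' V))).comap (QuotientGroup.mk' V)
  have h3 : {u | u ∈ U ∧ ∀ h ∈ H, h * u * h⁻¹ * u⁻¹ ∈ V} = D := by
    ext u
    refine and_congr_right fun _ => ⟨fun h => mem_comap.2 (mem_cen.2 ?_), fun h x hx => ?_⟩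
    · rintro _ ⟨x, hx, rfl⟩
      have := (QuotientGroup.eq_one_iff _).2 (h x hx)
      rwa [QuotientGroup.mk_mul, QuotientGroup.mk_mul, QuotientGroup.mk_mul, QuotientGroup.mk_inv,
        QuotientGroup.mk_inv, mul_inv_eq_one, mul_inv_eq_iff_eq_mul] at this
    · rw [← QuotientGroup.eq_one_iff, QuotientGroup.mk_mul, QuotientGroup.mk_mul,
        QuotientGroup.mk_mul, QuotientGroup.mk_inv, QuotientGroup.mk_inv, mul_inv_eq_one,
        mul_inv_eq_iff_eq_mul]
      exact mem_cen.1 (mem_comap.1 h) _ ⟨x, hx, rfl⟩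
  have h4 : V ≤ D := le_inf hVU (le_comap_mk' _ _)
  change _ = _ * ({u | u ∈ U ∧ ∀ h ∈ H, h * u * h⁻¹ * u⁻¹ ∈ V}.ncard / _)
  rw [h3, ncard_coe] at h1 ⊢
  have h5 : #(P ⊔ U : Subgroup G) = #(P ⊔ V : Subgroup G) * V.relIndex U := by
    have e : P ⊔ U = U ⊔ (V ⊔ P) := by rw [← sup_assoc, sup_eq_left.2 hVU, sup_comm]
    have := card_sup_mul_card_inf (le_nrm_of_normal U (V ⊔ P))
    rw [hQ hVU hc P hP.pi, ← e, ← card_mul_relIndex hVU, sup_comm V] at this
    refine Nat.eq_of_mul_eq_mul_right (card_pos V) (this.trans (by ring))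
  rw [← relIndex_eq_div h4, h5]
  refine Nat.eq_of_mul_eq_mul_right (card_pos V) ?_
  have h6 := h1.symm.trans h2
  rw [← card_mul_relIndex hVU, ← card_mul_relIndex h4] at h6
  calc _ = #V * V.relIndex U * {g | H ≤ cj g P ⊔ V}.ncard * #(P ⊔ V : Subgroup G) := by ring
    _ = _ := by rw [← h6]; ring

theorem step' {G : Type*} [Group G] [Finite G] {p : ℕ} (hp : p.Prime) {H P U V : Subgroup G}
    [U.Normal] [V.Normal] (hH : PGrp p H) (hP : Syl p P ⊤) (hle : V ≤ U)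
    (h3 : (∃ m : ℕ, V.relIndex U = p ^ m) ∨ (V.relIndex U).Coprime p) :
    {g | H ≤ cj g P ⊔ V}.ncard * #(P ⊔ U : Subgroup G) =
      {g | H ≤ cj g P ⊔ U}.ncard * #(P ⊔ V : Subgroup G) *
        (if (V.relIndex U).Coprime p then
          Nat.card {u // u ∈ U ∧ ∀ h ∈ H, h * u * h⁻¹ * u⁻¹ ∈ V} / #V else 1) := by
  split_ifs with h
  · exact step hH hP hle ((p'nat_iff_coprime hp).2 h)
  · obtain ⟨m, hm⟩ := h3.resolve_right h
    have h5 : ∀ g, cj g P ⊔ U = cj g P ⊔ V := fun g => by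
      refine le_antisymm (sup_le le_sup_left ?_) (sup_le_sup_left hle _)
      rw [← ((hP.cj_mem (mem_top g)).inf_nml (nml_top _)).sup_eq_of_relIndex hle
        (hm ▸ piNat_self_pow hp m)]
      exact sup_le le_sup_right (inf_le_left.trans le_sup_left)
    have h6 := h5 1
    rw [cj_one] at h6
    simp only [h5, h6, mul_one]

theorem arith {a0 a1 an b0 b1 bn c d : ℕ} (h1 : a0 * b1 = a1 * b0 * c) (h2 : a1 * bn = an * b1 * d)
    (h : 0 < b1) : a0 * bn = an * b0 * (c * d) := by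
  refine Nat.eq_of_mul_eq_mul_right h ?_
  calc _ = a0 * b1 * bn := by ring
    _ = a1 * bn * (b0 * c) := by rw [h1]; ring
    _ = _ := by rw [h2]; ring

theorem chain {G : Type*} [Group G] [Finite G] {p : ℕ} (hp : p.Prime) {H P : Subgroup G}
    (hH : PGrp p H) (hP : Syl p P ⊤) (n : ℕ) : ∀ M : Fin (n + 1) → Subgroup G, Monotone M →
    (∀ i, (M i).Normal) → (∀ i : Fin n, (∃ m : ℕ, (M i.castSucc).relIndex (M i.succ) = p ^ m) ∨
      ((M i.castSucc).relIndex (M i.succ)).Coprime p) →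
    {g | H ≤ cj g P ⊔ M 0}.ncard * #(P ⊔ M (Fin.last n) : Subgroup G) =
      {g | H ≤ cj g P ⊔ M (Fin.last n)}.ncard * #(P ⊔ M 0 : Subgroup G) *
      ∏ i : Fin n, (if ((M i.castSucc).relIndex (M i.succ)).Coprime p then
        Nat.card {u : G // u ∈ M i.succ ∧ ∀ h ∈ H, h * u * h⁻¹ * u⁻¹ ∈ M i.castSucc} /
          Nat.card (M i.castSucc) else 1) := by
  induction n with
  | zero => intro M _ _ _; simp
  | succ n ih =>
    intro M h1 h2 h3
    have h4 := ih (fun i => M i.succ) (fun i j h => h1 (Fin.succ_le_succ_iff.2 h)) (fun i => h2 _)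
      fun i => h3 i.succ
    rw [Fin.prod_univ_succ]
    haveI := h2 (Fin.castSucc 0)
    haveI := h2 (Fin.succ 0)
    exact arith (step' hp hH hP (h1 (Fin.zero_le _)) (h3 0)) h4 (card_pos _)

end

/-- Let G be a finite p-solvable group, H a p-subgroup of G and P a Sylow p-subgroup, and fix a chain of normal subgroups 1 = M₀ ≤ M₁ ≤ ⋯ ≤ Mₙ = G of G each of whose factors is a p-group or a p'-group. Then the number of elements g of G such that H is subnormal in the subgroup generated by H and g equals the order of P times the product, over the factors Mᵢ₊₁/Mᵢ of order prime to p, of the order of the centralizer of H in Mᵢ₊₁/Mᵢ (counted as the number of u ∈ Mᵢ₊₁ with [h, u] ∈ Mᵢ for all h ∈ H, divided by the order of Mᵢ). -/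
theorem result {G : Type*} [Group G] [Finite G] (p : ℕ) [Fact p.Prime]
    (hG : Cfsg.IsPSolvable p G) (H : Subgroup G) (hH : IsPGroup p H) (P : Sylow p G)
    (n : ℕ) (M : Fin (n + 1) → Subgroup G) (h0 : M 0 = ⊥) (hn : M (Fin.last n) = ⊤) (hmono : Monotone M)
    (hnormal : ∀ i, (M i).Normal)
    (hfac : ∀ i : Fin n, (∃ m : ℕ, (M i.castSucc).relIndex (M i.succ) = p ^ m) ∨ ((M i.castSucc).relIndex (M i.succ)).Coprime p) :
    Nat.card {g : G // ((H).subgroupOf (H ⊔ Subgroup.zpowers g)).IsSubnormal} =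
      Nat.card (P : Subgroup G) *
        ∏ i : Fin n, (if ((M i.castSucc).relIndex (M i.succ)).Coprime p then
          Nat.card {u : G // u ∈ M i.succ ∧ ∀ h ∈ H, h * u * h⁻¹ * u⁻¹ ∈ M i.castSucc} / Nat.card (M i.castSucc)
          else 1) := by
  open Subgroup Cfsg.Agent.FT Cfsg.Agent.H28 in
  open scoped commutatorElement Pointwise in
  have hp : p.Prime := Fact.out
  have hP := syl_top hp P
  have h1 := ncard_subnormalizer hp (pGrp_of_isPGroup hp hH) hP
  have e : {Q | Syl p Q ⊤ ∧ H ≤ Q} = {Q | (∃ g, Q = cj g P) ∧ H ≤ Q} := by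
    ext Q
    refine and_congr_left fun _ => ⟨fun h => ?_, ?_⟩
    · obtain ⟨g, -, hg⟩ := hP.syl_trans h
      exact ⟨g, hg⟩
    · rintro ⟨g, rfl⟩
      exact hP.cj_mem (mem_top g)
  rw [e, ← ncard_le_cj] at h1
  have h2 := chain hp (pGrp_of_isPGroup hp hH) hP n M hmono hnormal hfac
  simp only [h0, hn, sup_bot_eq, sup_top_eq, le_top, Set.ofPred_true, Set.ncard_univ,
    card_top'] at h2
  refine h1.trans (Nat.eq_of_mul_eq_mul_right (Nat.card_pos (α := G)) (h2.trans (by ring)))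

end Cfsg.Agent.S4090
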