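import Cfsg.Statements.S4091
import Mathlib
import Cfsg.Agent.S4090
-- import your own Cfsg.Agent.* helpers here

set_option autoImplicit false
open Cfsg

namespace Cfsg.Agent.S4091


open Subgroup Cfsg.Agent.FT Cfsg.Agent.H28
open scoped commutatorElement
set_option linter.style.haveILetI false

theorem indep {A : Type*} [CommGroup A] (δ w : MulAut A) (hc : Commute δ w) (k : ℕ)
    (hfix : ∀ j, 0 < j → j < k → ∀ a, (w ^ j) a = a → a = 1) :
    ∀ v : ℕ → A, (∀ i < k, δ (v i) = (w ^ i) (v i)) → ∏ i ∈ Finset.range k, v i = 1 → ∀ i < k, v i = 1 := by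
  induction k with
  | zero => intro v _ _ i hi; omega
  | succ k ih =>
    intro v hv hs
    have hcomm : ∀ (j : ℕ) a, δ ((w ^ j) a) = (w ^ j) (δ a) := fun j a => by
      rw [← MulAut.mul_apply, (hc.pow_right j).eq, MulAut.mul_apply]
    have hww : ∀ (i j : ℕ) a, (w ^ i) ((w ^ j) a) = (w ^ j) ((w ^ i) a) := fun i j a => by
      rw [← MulAut.mul_apply, ← pow_add, add_comm, pow_add, MulAut.mul_apply]
    have h1 := ih (fun j h1 h2 => hfix j h1 (by omega)) (fun i => (w ^ i) (v i) / (w ^ k) (v i))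
      (fun i hi => by
        rw [map_div, map_div, hcomm, hcomm, hv i (by omega), hww k i])
      (by
        have e1 := congrArg δ hs
        have e2 := congrArg (w ^ k) hs
        rw [map_prod, map_one, Finset.prod_congr rfl fun i hi => hv i (Finset.mem_range.mp hi),
          Finset.prod_range_succ] at e1
        rw [map_prod, map_one, Finset.prod_range_succ] at e2
        rw [Finset.prod_div_distrib, div_eq_one]
        exact mul_right_cancel (e1.trans e2.symm))
    have h2 : ∀ i < k, v i = 1 := by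
      intro i hi
      have e := div_eq_one.mp (h1 i hi)
      have := hfix (k - i) (by omega) (by omega) ((w ^ i) (v i)) (by
        rw [← MulAut.mul_apply, ← pow_add, Nat.sub_add_cancel hi.le, e])
      exact (w ^ i).injective (by rw [this, map_one])
    intro i hi
    rcases (Nat.lt_succ_iff.mp hi).lt_or_eq with h | rfl
    · exact h2 i h
    · rwa [Finset.prod_range_succ, Finset.prod_eq_one fun j hj => h2 j (Finset.mem_range.mp hj), one_mul] at hs

theorem prod_card_le {G : Type*} [Group G] [Finite G] {U : Subgroup G} (hab : Ab U) {x z : G} (hx : x ∈ N(U))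
    (hz : z ∈ N(U)) (hc : ⁅x, z⁆ ∈ C(U)) (k : ℕ) (hfix : ∀ j, 0 < j → j < k → U ⊓ C[z ^ j] = ⊥) :
    ∏ i ∈ Finset.range k, #(U ⊓ C[x * z ^ i]) ≤ #U := by
  letI : CommGroup U := { (inferInstance : Group U) with mul_comm := fun a b => hab.is_comm.comm a b }
  let Φ : (∀ i : Fin k, ↥(U ⊓ C[x * z ^ (i : ℕ)])) →* U :=
    { toFun := fun v => ∏ i, Subgroup.inclusion inf_le_left (v i)
      map_one' := by simp
      map_mul' := fun a b => by simp [Finset.prod_mul_distrib] }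
  have hΦ : Function.Injective Φ := by
    rw [injective_iff_map_eq_one]
    intro v hv
    have := indep (A := U) (pfun (autHom U) x⁻¹) (pfun (autHom U) z) ?_ k ?_
      (fun i => if h : i < k then Subgroup.inclusion inf_le_left (v ⟨i, h⟩) else 1) ?_ ?_
    · funext i
      have h1 := this i i.2
      rw [dif_pos i.2] at h1
      exact Subgroup.inclusion_injective _ (h1.trans (map_one _).symm)
    · rw [pfun_inv _ hx]
      apply Commute.inv_left
      rw [← commutatorElement_eq_one_iff_commute, ← pfun_comm _ hx hz, pfun_eq_one_iff (cen_le_nrm U hc), pker_autHom]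
      exact hc
    · intro j h1 h2 a ha
      rw [← pfun_pow _ hz] at ha
      have h3 := congrArg Subtype.val ha
      rw [pfun_autHom (pow_mem hz j)] at h3
      have : (a : G) ∈ U ⊓ C[z ^ j] := ⟨a.2, mem_cen1.mpr (mul_inv_eq_iff_eq_mul.mp h3).symm⟩
      rw [hfix j h1 h2] at this
      exact Subtype.ext this
    · intro i hi
      rw [dif_pos hi, ← pfun_pow _ hz]
      apply Subtype.ext
      rw [pfun_autHom (pow_mem hz i), pfun_autHom (inv_mem hx), coe_inclusion]
      have h1 := mem_cen1.mp (v ⟨i, hi⟩).2.2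
      calc x⁻¹ * (v ⟨i, hi⟩ : G) * x⁻¹⁻¹ = x⁻¹ * ((v ⟨i, hi⟩ : G) * (x * z ^ i)) * (z ^ i)⁻¹ := by group
        _ = _ := by rw [h1]; group
    · rw [Finset.prod_range]
      refine Eq.trans (Finset.prod_congr rfl fun i _ => ?_) hv
      rw [dif_pos i.2]
  have := Nat.card_le_card_of_injective Φ hΦ
  rwa [Nat.card_pi, ← Finset.prod_range fun i => #(U ⊓ C[x * z ^ i])] at this

theorem card_eq_prod_syl {G : Type*} [Group G] [Finite G] {L U : Subgroup G} (h : L ≤ U) (S : ℕ → Subgroup G)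
    (hS : ∀ q, q.Prime → Syl q (S q) L) : #L = ∏ q ∈ (#U).primeFactors, #(S q) := by
  rw [Finset.prod_congr rfl fun q hq => (hS q (Nat.prime_of_mem_primeFactors hq)).card_syl (Nat.prime_of_mem_primeFactors hq)]
  conv_lhs => rw [← Nat.factorization_prod_pow_eq_self (card_ne_zero L)]
  exact Finsupp.prod_of_support_subset _ (Nat.primeFactors_mono (card_dvd h) (card_ne_zero U)) _ (by simp)

theorem card_subcent_quo {G : Type*} [Group G] [Finite G] {M U A : Subgroup G} (hM : M ⊴ U) (hA : A ≤ N(M))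
    (hc : Cop M A) (hs : Sol A) : #(U ⊓ C(A)) = #(M ⊓ C(A)) * #((U /ₛ M) ⊓ C(A /ₛ M)) := by
  rw [← coprime_quotient_cent_or hM.le hA hc (Or.inr hs), card_quo (inf_le_left.trans hM.nrm),
    ← FT.card_inf_mul_relIndex M, ← inf_assoc, inf_eq_left.mpr hM.le]

universe u in
theorem ineq {p : ℕ} (hp : p.Prime) {Γ : Type*} [Group Γ] [Fintype Γ] (n : ℕ) :
    ∀ {G : Type u} [Group G] [Finite G] (U P : Subgroup G) (φ : Γ →* G), #U = n → φ.range = P → PGrp p P →
      PiGrp {p}ᶜ U → P ≤ N(U) →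
      ∏ γ, #(U ⊓ C[φ γ]) ^ p ≤ #(U ⊓ C(P)) ^ ((p - 1) * Fintype.card Γ) * #U ^ Fintype.card Γ := by
  induction n using Nat.strong_induction_on with
  | _ n ih =>
  intro G _ _ U P φ hn hφ hP hU hPU
  have hmem : ∀ γ, φ γ ∈ P := fun γ => hφ ▸ ⟨γ, rfl⟩
  have hcop : Cop U P := hU.cop' hP
  by_cases hcen : P ≤ C(U)
  · rw [Finset.prod_congr rfl fun γ _ => by rw [inf_eq_left.mpr (le_cen1.mpr (hcen (hmem γ)))],
      inf_eq_left.mpr (centsC hcen), Finset.prod_const, Finset.card_univ, ← pow_mul, ← pow_add]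
    apply le_of_eq
    congr 1
    obtain ⟨k, rfl⟩ : ∃ k, p = k + 1 := ⟨p - 1, by have := hp.pos; omega⟩
    simp; ring
  have hU1 : U ≠ ⊥ := by rintro rfl; exact hcen (cen_bot (G := G) ▸ le_top)
  by_cases hred : ∃ M, M ⊴ U ∧ M ≠ ⊥ ∧ M ≠ U ∧ P ≤ N(M)
  · obtain ⟨M, hM, h1, h2, h3⟩ := hred
    have i1 := ih _ (hn ▸ card_lt (lt_of_le_of_ne hM.le h2)) M P φ rfl hφ hP (hU.mono hM.le) h3
    let φ' : Γ →* Quo M := (qhom M).comp (φ.codRestrict N(M) fun γ => h3 (hmem γ))
    have hφ' : ∀ γ, φ' γ = coset(M, φ γ) := fun γ => (pfun_of_mem (qhom M) (h3 (hmem γ))).symm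
    have i2 := ih _ (hn ▸ card_quo_lt hM h1) (U /ₛ M) (P /ₛ M) φ' rfl (by
      ext u
      rw [mem_quo]
      constructor
      · rintro ⟨γ, rfl⟩; exact ⟨φ γ, hmem γ, h3 (hmem γ), (hφ' γ).symm⟩
      · rintro ⟨x, hx, -, rfl⟩
        obtain ⟨γ, rfl⟩ := (show x ∈ φ.range from hφ ▸ hx)
        exact ⟨γ, hφ' γ⟩) (hP.quo M) (hU.quo M) (quo_norms M hPU)
    have e : ∀ γ, #(U ⊓ C[φ γ]) = #(M ⊓ C[φ γ]) * #((U /ₛ M) ⊓ C[φ' γ]) := by
      intro γ
      have hl : ⟪φ γ⟫ ≤ P := zpowers_le.mpr (hmem γ)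
      have := card_subcent_quo hM (hl.trans h3) (hcop.mono hM.le hl) (sol_zpowers _)
      rwa [quo_zpowers (h3 (hmem γ)), cen_zpowers, cen_zpowers, ← hφ'] at this
    simp only [e, mul_pow, Finset.prod_mul_distrib]
    rw [card_subcent_quo hM h3 (hcop.mono_left hM.le) hP.sol, ← card_quo_mul hM, mul_pow, mul_pow,
      mul_mul_mul_comm]
    exact Nat.mul_le_mul i1 i2
  push Not at hred
  by_cases hq : ∀ q, q.Prime → ¬ PGrp q U
  · choose Q hQ hPQ using fun q => coprime_Sylow_exists q hPU hcop (Or.inr hP.sol)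
    have e : ∀ A, A ≤ P → #(U ⊓ C(A)) = ∏ q ∈ (#U).primeFactors, #(Q q ⊓ C(A)) := fun A hA =>
      card_eq_prod_syl inf_le_left _ fun q _ => coprime_Sylow_subcent (hA.trans hPU) (hcop.mono_right hA)
        (Or.inr (hP.sol.mono hA)) (hQ q) (hA.trans (hPQ q))
    have e1 : ∀ γ, #(U ⊓ C[φ γ]) = ∏ q ∈ (#U).primeFactors, #(Q q ⊓ C[φ γ]) := fun γ => by
      have := e _ (zpowers_le.mpr (hmem γ))
      rwa [cen_zpowers] at this
    have e2 := card_eq_prod_syl le_rfl Q fun q _ => hQ q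
    simp only [e1, ← Finset.prod_pow]
    rw [Finset.prod_comm, e P le_rfl]
    conv_rhs => enter [2, 1]; rw [e2]
    rw [← Finset.prod_pow, ← Finset.prod_pow, ← Finset.prod_mul_distrib]
    refine Finset.prod_le_prod' fun q hq' => ?_
    exact ih _ (hn ▸ card_lt (lt_of_le_of_ne (hQ q).le fun h => hq q (Nat.prime_of_mem_primeFactors hq')
      (h ▸ (hQ q).pi))) (Q q) P φ rfl hφ hP (hU.mono (hQ q).le) (hPQ q)
  push Not at hq
  obtain ⟨q, -, hq⟩ := hq
  have hab : Ab U := by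
    rw [ab_iff_der]
    by_contra h1
    exact hred _ (der_nml U) h1 (hq.sol.der_lt hU1).ne (norms_der hPU)
  have hK : P ⊓ C(U) ⊴ P := subcent_nml hPU
  obtain ⟨u, hu, huo⟩ := exists_elt_of_prime_dvd hp (((hP.quo (P ⊓ C(U))).mono inf_le_left).dvd
    ((hP.quo (P ⊓ C(U))).center_ne_bot (quo_ne_bot hK.nrm fun h => hcen (h.trans inf_le_right))))
  obtain ⟨z, hz, hzN, rfl⟩ := mem_quo.mp hu.1
  have hzc : ∀ (j : ℕ), ∀ g ∈ P, ⁅g, z ^ j⁆ ∈ C(U) := by
    intro j g hg
    refine ((coset_commute_iff (hK.nrm hg) (pow_mem hzN j)).mp ?_).2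
    rw [coset_pow hzN]
    exact mem_cen.mp (pow_mem hu.2 j) _ (mem_quo_of_mem (hK.nrm hg) hg)
  have hfix : ∀ j, 0 < j → j < p → U ⊓ C[z ^ j] = ⊥ := by
    intro j h1 h2
    by_contra h3
    refine hred _ (hab.nml inf_le_left) h3 (fun h4 => ?_) (le_nrm_iff.mpr fun g hg a ha => ?_)
    · have : coset(P ⊓ C(U), z) ^ j = 1 := by
        rw [← coset_pow hzN]
        exact coset_of_mem ⟨pow_mem hz j, le_cen1.mp (inf_eq_left.mp h4)⟩
      have := Nat.le_of_dvd h1 (huo ▸ orderOf_dvd_of_pow_eq_one this)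
      omega
    · refine ⟨conj_mem (hPU hg) ha.1, mem_cen1.mpr ?_⟩
      have h5 := mem_cen.mp (hzc j g⁻¹ (inv_mem hg)) a ha.1
      have h6 := mem_cen1.mp ha.2
      rw [commutatorElement_def] at h5
      calc g * a * g⁻¹ * z ^ j = g * (a * (g⁻¹ * z ^ j * g⁻¹⁻¹ * (z ^ j)⁻¹)) * z ^ j * g⁻¹ := by group
        _ = z ^ j * g * (z ^ j)⁻¹ * (a * z ^ j) * g⁻¹ := by rw [h5]; group
        _ = _ := by rw [h6]; group
  obtain ⟨ζ, rfl⟩ := (show z ∈ φ.range from hφ ▸ hz)
  calc ∏ γ, #(U ⊓ C[φ γ]) ^ p = ∏ i ∈ Finset.range p, ∏ γ, #(U ⊓ C[φ γ * φ ζ ^ i]) := by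
        rw [Finset.prod_pow, ← Finset.card_range p, ← Finset.prod_const, Finset.card_range]
        refine Finset.prod_congr rfl fun i _ => ?_
        refine (Fintype.prod_equiv (Equiv.mulRight (ζ ^ i)) _ _ fun γ => ?_).symm
        simp
    _ ≤ #U ^ Fintype.card Γ := by
        rw [Finset.prod_comm, ← Finset.card_univ, ← Finset.prod_const]
        refine Finset.prod_le_prod' fun γ _ => prod_card_le hab (hPU (hmem γ)) (hPU hz) ?_ p hfix
        simpa only [pow_one] using hzc 1 (φ γ) (hmem γ)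
    _ ≤ _ := Nat.le_mul_of_pos_left _ (pow_pos (card_pos _) _)

theorem factor_card {G : Type*} [Group G] [Finite G] {U V : Subgroup G} [V.Normal] (hVU : V ≤ U) (H : Subgroup G) :
    Nat.card {u : G // u ∈ U ∧ ∀ h ∈ H, h * u * h⁻¹ * u⁻¹ ∈ V} / #V = #((U /ₛ V) ⊓ C(H /ₛ V)) := by
  have hn : ∀ x : G, x ∈ N(V) := fun x => le_nrm_of_normal V ⊤ (mem_top x)
  have : Nat.card {u : G // u ∈ U ∧ ∀ h ∈ H, h * u * h⁻¹ * u⁻¹ ∈ V} = #qpre(V, (U /ₛ V) ⊓ C(H /ₛ V)) := by
    refine Nat.card_congr (Equiv.subtypeEquivRight fun u => ?_)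
    rw [mem_qpre]
    constructor
    · rintro ⟨h1, h2⟩
      refine ⟨hn u, mem_quo_of_mem (hn u) h1, mem_cen.mpr fun y hy => ?_⟩
      obtain ⟨h, hh, -, rfl⟩ := mem_quo.mp hy
      exact (coset_commute_iff (hn h) (hn u)).mpr (h2 h hh)
    · rintro ⟨-, h1, h2⟩
      exact ⟨mem_of_coset_mem (hn u) hVU h1, fun h hh =>
        (coset_commute_iff (hn h) (hn u)).mp (mem_cen.mp h2 _ (mem_quo_of_mem (hn h) hh))⟩
  rw [this, card_qpre, Nat.mul_div_cancel_left _ (card_pos V)]

theorem main {G : Type*} [Group G] [Finite G] {p : ℕ} (hp : p.Prime) (hG : IsPSolvable p G) {P : Subgroup G}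
    [Fintype P] (hP : Syl p P ⊤) : ∏ x : P, {g | ⟪(x : G)⟫ ≤ cj g P}.ncard ^ p ≤
      #N(P) ^ ((p - 1) * #P) * Nat.card G ^ #P := by
  obtain ⟨n, M, h0, hn, hmono, hnormal, hfac⟩ := hG
  let c : Fin n → Subgroup G → ℕ := fun i H => if ((M i.castSucc).relIndex (M i.succ)).Coprime p then
        Nat.card {u : G // u ∈ M i.succ ∧ ∀ h ∈ H, h * u * h⁻¹ * u⁻¹ ∈ M i.castSucc} /
          Nat.card (M i.castSucc) else 1
  have key : ∀ H, PGrp p H → {g | H ≤ cj g P}.ncard = #P * ∏ i, c i H := by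
    intro H hH
    have h2 := S4090.chain hp hH hP n M hmono hnormal hfac
    simp only [h0, hn, sup_bot_eq, sup_top_eq, le_top, Set.ofPred_true, Set.ncard_univ, card_top'] at h2
    exact Nat.eq_of_mul_eq_mul_right (Nat.card_pos (α := G)) (h2.trans (by ring))
  have e1 : #N(P) = #P * ∏ i, c i P := by
    rw [← key P hP.pi, ← ncard_coe]
    congr 1
    ext g
    simp only [SetLike.mem_coe, Set.mem_setOf_eq, ← cj_eq_self]
    exact ⟨fun h => h.ge, fun h => (eq_of_card_le h (card_cj g P).le).symm⟩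
  have e2 : Nat.card G = #P * ∏ i, c i ⊥ := by
    rw [← key ⊥ (piGrp_bot _)]; simp
  have e3 : ∀ i, ∏ x : P, c i ⟪(x : G)⟫ ^ p ≤ c i P ^ ((p - 1) * #P) * c i ⊥ ^ #P := by
    intro i
    haveI := hnormal i.castSucc
    have hle : M i.castSucc ≤ M i.succ := hmono (Fin.castSucc_lt_succ).le
    have hn : ∀ X : Subgroup G, X ≤ N(M i.castSucc) := le_nrm_of_normal _
    simp only [c]
    split_ifs with h
    · simp only [factor_card hle, quo_bot, cen_bot, inf_top_eq]
      let φ : P →* Quo (M i.castSucc) := (qhom _).comp (Subgroup.inclusion (hn P))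
      have hφ : ∀ x : P, φ x = coset(M i.castSucc, x) := fun x => (pfun_of_mem (qhom _) (hn P x.2)).symm
      haveI := hnormal i.succ
      have := ineq hp _ (M i.succ /ₛ M i.castSucc) (P /ₛ M i.castSucc) φ rfl (by
        ext u
        rw [mem_quo]
        constructor
        · rintro ⟨x, rfl⟩; exact ⟨x, x.2, hn P x.2, (hφ x).symm⟩
        · rintro ⟨x, hx, -, rfl⟩; exact ⟨⟨x, hx⟩, hφ _⟩) (hP.pi.quo _)
        ((piGrp_quo_iff (hn _)).mpr ((p'nat_iff_coprime hp).mpr h)) (quo_norms _ (le_nrm_of_normal _ _))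
      rw [← Nat.card_eq_fintype_card] at this
      simpa only [hφ, quo_zpowers (hn P (Subtype.prop _)), cen_zpowers] using this
    · simp
  rw [Finset.prod_congr rfl fun x _ => by rw [key _ (hP.pi.mono (zpowers_le.mpr x.2))], e1, e2]
  simp only [mul_pow, Finset.prod_mul_distrib, ← Finset.prod_pow]
  rw [Finset.prod_comm, Finset.prod_const, Finset.card_univ, ← Nat.card_eq_fintype_card, mul_mul_mul_comm,
    ← Finset.prod_mul_distrib, ← pow_mul, ← pow_add]
  refine Nat.mul_le_mul (le_of_eq ?_) (Finset.prod_le_prod' fun i _ => e3 i)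
  congr 1
  obtain ⟨k, rfl⟩ : ∃ k, p = k + 1 := ⟨p - 1, by have := hp.pos; omega⟩
  simp; ring

theorem count {G : Type*} [Group G] [Finite G] {p : ℕ} (hp : p.Prime) {P : Subgroup G} [Fintype P] (hP : Syl p P ⊤) :
    (Nat.card {g : G // ∃ k : ℕ, orderOf g = p ^ k} : ℝ) =
      Nat.card G * ∑ x : P, (({g | ⟪(x : G)⟫ ≤ cj g P}.ncard : ℝ))⁻¹ := by
  classical
  haveI : Fintype G := Fintype.ofFinite G
  let a : G → ℕ := fun y => {g | ⟪y⟫ ≤ cj g P}.ncard
  have ha : ∀ g y, a (g * y * g⁻¹) = a y := by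
    intro g y
    simp only [a]
    rw [← Set.ncard_image_of_injective {h | ⟪y⟫ ≤ cj h P} (mul_right_injective g)]
    congr 1
    ext h
    simp only [Set.mem_setOf_eq, Set.mem_image, ← cj_zpowers]
    constructor
    · intro h1; exact ⟨g⁻¹ * h, by rwa [← cj_cj, ← cj_le_iff], by group⟩
    · rintro ⟨k, hk, rfl⟩; rw [← cj_cj]; exact cj_mono g hk
  let S := Finset.univ.filter fun y : G => ∃ k : ℕ, orderOf y = p ^ k
  have h1 : ∑ t : G × P, ((a (t.1 * t.2 * t.1⁻¹) : ℝ))⁻¹ = ∑ y ∈ S, ∑ t : G × P with t.1 * t.2 * t.1⁻¹ = y,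
      ((a (t.1 * t.2 * t.1⁻¹) : ℝ))⁻¹ := by
    refine (Finset.sum_fiberwise_of_maps_to (fun t _ => ?_) _).symm
    refine Finset.mem_filter.mpr ⟨Finset.mem_univ _, (orderOf_eq_pow_iff hp).2 ((hP.pi.piElt t.2.2).conj _)⟩
  have h2 : ∀ y ∈ S, ∑ t : G × P with t.1 * t.2 * t.1⁻¹ = y, ((a (t.1 * t.2 * t.1⁻¹) : ℝ))⁻¹ = 1 := by
    intro y hy
    rw [Finset.sum_congr rfl fun t ht => by rw [(Finset.mem_filter.mp ht).2], Finset.sum_const, nsmul_eq_mul]
    have hc : (Finset.univ.filter fun t : G × P => t.1 * t.2 * t.1⁻¹ = y).card = a y := by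
      simp only [a]
      rw [Set.ncard_eq_toFinset_card']
      refine Finset.card_bij (fun t _ => t.1) ?_ ?_ ?_
      · intro t ht
        rw [← (Finset.mem_filter.mp ht).2]
        simpa only [Set.mem_toFinset, Set.mem_setOf_eq, zpowers_le, conj_mem_cj] using t.2.2
      · intro t ht s hs h
        have e := (Finset.mem_filter.mp ht).2.trans (Finset.mem_filter.mp hs).2.symm
        refine Prod.ext h (Subtype.ext ?_)
        rw [h] at e
        exact mul_left_cancel (mul_right_cancel e)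
      · intro g hg
        simp only [Set.mem_toFinset, Set.mem_setOf_eq, zpowers_le, mem_cj] at hg
        exact ⟨(g, ⟨_, hg⟩), Finset.mem_filter.mpr ⟨Finset.mem_univ _, by simp only; group⟩, rfl⟩
    rw [hc]
    apply mul_inv_cancel₀
    obtain ⟨g, -, hg⟩ := hP.syl_subJ (((orderOf_eq_pow_iff hp).1 (Finset.mem_filter.mp hy).2).zpowers) le_top
    exact_mod_cast ((Set.ncard_pos (Set.toFinite _)).mpr ⟨g, hg⟩).ne'
  rw [Finset.sum_congr rfl h2, Fintype.sum_prod_type] at h1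
  simp only [ha, Finset.sum_const, Finset.card_univ, nsmul_eq_mul, mul_one] at h1
  rw [Nat.subtype_card S (by simp [S]), ← h1, Nat.card_eq_fintype_card]

theorem amgm {ι : Type*} [Fintype ι] [Nonempty ι] (z : ι → ℝ) (hz : ∀ i, 0 ≤ z i) :
    (Fintype.card ι : ℝ) ^ Fintype.card ι * ∏ i, z i ≤ (∑ i, z i) ^ Fintype.card ι := by
  have hpos : (0 : ℝ) < Fintype.card ι := by exact_mod_cast Fintype.card_pos
  have := Real.geom_mean_le_arith_mean Finset.univ (fun _ => 1) z (fun _ _ => zero_le_one) (by simpa using hpos)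
    fun i _ => hz i
  simp only [Real.rpow_one, Finset.sum_const, Finset.card_univ, nsmul_eq_mul, mul_one, one_mul] at this
  have h2 := pow_le_pow_left₀ (Real.rpow_nonneg (Finset.prod_nonneg fun i _ => hz i) _) this (Fintype.card ι)
  rw [Real.rpow_inv_natCast_pow (Finset.prod_nonneg fun i _ => hz i) Fintype.card_pos.ne', div_pow,
    le_div_iff₀ (pow_pos hpos _)] at h2
  linarith


/-- Let G be a finite p-solvable group, P a Sylow p-subgroup of G, u the number of p-elements of G (elements of p-power order, the identity included) and n the number of Sylow p-subgroups of G. Then u/#P ≥ n^((p−1)/p), stated as u^p ≥ #P^p · n^(p−1). -/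
theorem result {G : Type*} [Group G] [Finite G] (p : ℕ) [Fact p.Prime]
    (hG : Cfsg.IsPSolvable p G) (P : Sylow p G) :
    Nat.card (P : Subgroup G) ^ p * Nat.card (Sylow p G) ^ (p - 1) ≤ Nat.card {g : G // ∃ k : ℕ, orderOf g = p ^ k} ^ p := by
  classical
  have hp : p.Prime := Fact.out
  haveI : Fintype (P : Subgroup G) := Fintype.ofFinite _
  have hP := syl_top hp P
  have h1 := main hp hG hP
  have h2 := count hp hP
  have h3 := amgm (fun x : (P : Subgroup G) => (({g | ⟪(x : G)⟫ ≤ cj g P}.ncard : ℝ))⁻¹) fun x => by positivity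
  have h4 : Nat.card G = Nat.card (Sylow p G) * #N((P : Subgroup G)) := by
    rw [P.card_eq_index_normalizer, mul_comm]; exact (card_mul_index _).symm
  rw [← Nat.card_eq_fintype_card, Finset.prod_inv_distrib] at h3
  rw [Finset.prod_pow] at h1
  have hA : (0 : ℝ) < ∏ x : (P : Subgroup G), ({g | ⟪(x : G)⟫ ≤ cj g P}.ncard : ℝ) := by
    refine Finset.prod_pos fun x _ => ?_
    exact_mod_cast (Set.ncard_pos (Set.toFinite _)).mpr ⟨1, by simpa [cj_one] using x.2⟩
  have h1' := (Nat.cast_le (α := ℝ)).mpr h1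
  push_cast at h1'
  set A := ∏ x : (P : Subgroup G), ({g | ⟪(x : G)⟫ ≤ cj g P}.ncard : ℝ)
  set s := ∑ x : (P : Subgroup G), (({g | ⟪(x : G)⟫ ≤ cj g P}.ncard : ℝ))⁻¹ with hs
  have hs0 : 0 ≤ s := Finset.sum_nonneg fun x _ => by positivity
  rw [← Nat.cast_le (α := ℝ)]
  push_cast
  rw [h2]
  rw [h4] at h1' ⊢
  push_cast at h1' ⊢
  have hm : 0 < #(P : Subgroup G) := card_pos _
  have hN : (0 : ℝ) < #N((P : Subgroup G)) := by exact_mod_cast card_pos _
  have hn : (0 : ℝ) < Nat.card (Sylow p G) := by exact_mod_cast Nat.card_pos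
  generalize #(P : Subgroup G) = m at *
  generalize (#N((P : Subgroup G)) : ℝ) = N at *
  generalize (Nat.card (Sylow p G) : ℝ) = n at *
  obtain ⟨k, rfl⟩ : ∃ k, p = k + 1 := ⟨p - 1, by have := hp.pos; omega⟩
  rw [Nat.add_sub_cancel] at h1' ⊢
  refine le_of_pow_le_pow_left₀ hm.ne' (by positivity) ?_
  rw [← div_eq_mul_inv, div_le_iff₀ hA] at h3
  calc ((m : ℝ) ^ (k + 1) * n ^ k) ^ m = ((m : ℝ) ^ m) ^ (k + 1) * n ^ (k * m) := by ring
    _ ≤ (s ^ m * A) ^ (k + 1) * n ^ (k * m) := by gcongr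
    _ = (s ^ m) ^ (k + 1) * A ^ (k + 1) * n ^ (k * m) := by ring
    _ ≤ (s ^ m) ^ (k + 1) * (N ^ (k * m) * (n * N) ^ m) * n ^ (k * m) := by gcongr
    _ = _ := by ring

end Cfsg.Agent.S4091
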