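import Mathlib
import Cfsg.Agent.FT.BG01
import Cfsg.Agent.H28.SylNum
import Cfsg.Agent.H28.PCentral
-- Template for statement S4092 (row 4092; see /opt/grader/pristine/manifest.json for weights).
-- Copy to Cfsg/Agent/S4092.lean and replace the sorry. The statement below is byte-identical to the frozen
-- statement Cfsg.CfsgFrozen.S4092 (Cfsg/Statements/S4092.lean; the theorem Cfsg.fg7_p_elements_at_least_p_times_sylow_order);
-- the grader kernel-checks Cfsg.Agent.S4092.result against that frozen type. Keep the theorem IN THIS FILE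
-- (a `result` declared elsewhere and merely imported here is not credited); helpers may live anywhere
-- under Cfsg/Agent/.
import Cfsg.Statements.S4092
-- import your own Cfsg.Agent.* helpers here

set_option autoImplicit false
open Cfsg

namespace Cfsg.Agent.S4092

/-- Let G be a finite group, p a prime and P a Sylow p-subgroup of G that is not normal in G. Then G has at least p·#P elements of p-power order (the identity included). -/
theorem result {G : Type*} [Group G] [Finite G] (p : ℕ) [Fact p.Prime]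
    (P : Sylow p G) (hP : ¬ (P : Subgroup G).Normal) :
    p * Nat.card (P : Subgroup G) ≤ Nat.card {g : G // ∃ k : ℕ, orderOf g = p ^ k} := by
  open Subgroup Cfsg.Agent.FT Cfsg.Agent.H28 in
  classical
  have hp : p.Prime := Fact.out
  obtain ⟨Q0, hQ0⟩ : ∃ Q : Sylow p G, Q ≠ P := by
    by_contra h
    push Not at h
    haveI : Subsingleton (Sylow p G) := ⟨fun a b => (h a).trans (h b).symm⟩
    exact hP P.normal_of_subsingleton
  obtain ⟨D, ⟨R, Q, hRQ, rfl⟩, hmax⟩ := exists_max_fun
    (fun D : Subgroup G => ∃ R Q : Sylow p G, R ≠ Q ∧ D = (R : Subgroup G) ⊓ Q)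
    (fun D => #D) ⟨Q0, P, hQ0, rfl⟩
  set D := (R : Subgroup G) ⊓ (Q : Subgroup G) with hD
  have hin : ∀ S T : Sylow p G, D ≤ S → D ≤ T → S ≠ T → (S : Subgroup G) ⊓ T = D :=
    fun S T h1 h2 h => (eq_of_card_le (le_inf h1 h2) (hmax _ ⟨S, T, h, rfl⟩)).symm
  have hlt : D < R := lt_of_le_of_ne inf_le_left fun e =>
    hRQ (sylow_eq_of_le (e ▸ inf_le_right))
  have hRp := pGrp_of_isPGroup hp R.isPGroup'
  have hlt2 := hRp.lt_subnorm hlt
  set E := (R : Subgroup G) ⊓ N(D) with hE
  have hEp : PGrp p E := hRp.inf_left _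
  set L : Set (Sylow p G) := insert R (MulAction.orbit E Q) with hL
  have hRn : R ∉ MulAction.orbit E Q := fun h => not_mem_orbit_sylow hRQ (by
    obtain ⟨g, hg⟩ := h
    exact ⟨⟨g, g.2.1⟩, hg⟩)
  have hLc : p + 1 ≤ L.ncard := by
    rw [hL, Set.ncard_insert_of_notMem hRn, ncard_orbit_sylow hEp.isPGroup]
    exact Nat.succ_le_succ (Nat.le_of_dvd (relIndex_pos _ _) (hEp.dvd_relIndex fun h =>
      hlt2.not_ge (le_inf inf_le_left h)))
  have hDL : ∀ S ∈ L, D ≤ S := by
    rintro S (rfl | ⟨g, rfl⟩)
    · exact inf_le_left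
    · show D ≤ ((g : G) • Q : Sylow p G)
      rw [Sylow.coe_subgroup_smul, ← Cfsg.Agent.H4.conj_smul_eq_iff_mem_normalizer.2 g.2.2]
      exact Cfsg.Agent.H4.conj_smul_le_conj_smul.2 inf_le_right
  haveI : Fintype G := Fintype.ofFinite G
  haveI : Fintype (Sylow p G) := Fintype.ofFinite _
  have hcard : ∀ H : Subgroup G, (H : Set G).toFinset.card = #H := fun H => by
    rw [← Set.ncard_eq_toFinset_card']; rfl
  have h1 : ((D : Set G).toFinset ∪ L.toFinset.biUnion fun S =>
      ((S : Subgroup G) : Set G).toFinset \ (D : Set G).toFinset).card ≤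
      Nat.card {g : G // ∃ k : ℕ, orderOf g = p ^ k} := by
    rw [Nat.subtype_card (Finset.univ.filter fun g : G => ∃ k : ℕ, orderOf g = p ^ k)
      (by simp)]
    apply Finset.card_le_card
    intro g hg
    rw [Finset.mem_filter]
    refine ⟨Finset.mem_univ _, ?_⟩
    rcases Finset.mem_union.1 hg with h | h
    · exact exists_orderOf_eq_of_mem_sylow R.isPGroup' (hlt.le (by simpa using h))
    · obtain ⟨S, -, hS⟩ := Finset.mem_biUnion.1 h
      exact exists_orderOf_eq_of_mem_sylow S.isPGroup' (Set.mem_toFinset.1 (Finset.mem_sdiff.1 hS).1)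
  rw [Finset.card_union_of_disjoint (by
    rw [Finset.disjoint_left]
    intro g hg h
    obtain ⟨S, -, hS⟩ := Finset.mem_biUnion.1 h
    exact (Finset.mem_sdiff.1 hS).2 hg), Finset.card_biUnion (by
    intro S hS T hT hST
    rw [Function.onFun, Finset.disjoint_left]
    intro g h1 h2
    apply (Finset.mem_sdiff.1 h1).2
    rw [← hin S T (hDL S (by simpa using hS)) (hDL T (by simpa using hT)) hST]
    exact Set.mem_toFinset.2 ⟨Set.mem_toFinset.1 (Finset.mem_sdiff.1 h1).1,
      Set.mem_toFinset.1 (Finset.mem_sdiff.1 h2).1⟩),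
    Finset.sum_congr rfl (g := fun _ => #(P : Subgroup G) - #D) (fun S hS => by
      rw [Finset.card_sdiff_of_subset (Set.toFinset_subset_toFinset.2
        (hDL S (Set.mem_toFinset.1 hS))), hcard, hcard, card_sylow_eq_card S P]),
    Finset.sum_const, hcard, ← Set.ncard_eq_toFinset_card', smul_eq_mul] at h1
  have h2 := hRp.mul_card_le hlt
  rw [card_sylow_eq_card R P] at h2
  have h3 := Nat.mul_le_mul_right (#(P : Subgroup G) - #D) hLc
  have h4 : #D ≤ #(P : Subgroup G) := card_sylow_eq_card R P ▸ card_le hlt.le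
  obtain ⟨c, hc⟩ := Nat.exists_eq_add_of_le h4
  rw [hc] at h1 h2 h3 ⊢
  rw [Nat.add_sub_cancel_left] at h1 h3
  nlinarith

end Cfsg.Agent.S4092
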