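import Mathlib
import Cfsg.Agent.H28.Util
-- Template for statement S4093 (row 4093; see /opt/grader/pristine/manifest.json for weights).
-- Copy to Cfsg/Agent/S4093.lean and replace the sorry. The statement below is byte-identical to the frozen
-- statement Cfsg.CfsgFrozen.S4093 (Cfsg/Statements/S4093.lean; the theorem Cfsg.fg7_p_elements_count_of_p_nilpotent_group);
-- the grader kernel-checks Cfsg.Agent.S4093.result against that frozen type. Keep the theorem IN THIS FILE
-- (a `result` declared elsewhere and merely imported here is not credited); helpers may live anywhere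
-- under Cfsg/Agent/.
import Cfsg.Statements.S4093
-- import your own Cfsg.Agent.* helpers here

set_option autoImplicit false
open scoped BigOperators
open Cfsg

namespace Cfsg.Agent.S4093

/-- Let G be a finite group with a normal subgroup N complementing a Sylow p-subgroup P (a normal p-complement). Then the number of elements of G of p-power order equals the sum over x ∈ P of the index of C_N(x) in N. -/
theorem result {G : Type*} [Group G] [Finite G] (p : ℕ) [Fact p.Prime]
    (P : Sylow p G) (N : Subgroup G) [N.Normal] (hNP : N.IsComplement' (P : Subgroup G)) :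
    Nat.card {g : G // ∃ k : ℕ, orderOf g = p ^ k} =
      ∑ᶠ x : (P : Subgroup G), Nat.card N / Nat.card ↥(N ⊓ Subgroup.centralizer ({(x : G)} : Set G)) := by
  open Subgroup Cfsg.Agent.FT Cfsg.Agent.H28 in
  classical
  have hp : p.Prime := Fact.out
  haveI : Fintype (P : Subgroup G) := Fintype.ofFinite _
  have hsd := sd_top_of_isComplement' hNP
  have hex : ∀ g : G, ∃ x : (P : Subgroup G), ∃ n ∈ N, g = n * x := fun g => by
    obtain ⟨n, hn, x, hx, e⟩ := (mem_sup_norm hsd.nrm).1 (hsd.mulEq.sup ▸ mem_top g)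
    exact ⟨⟨x, hx⟩, n, hn, e⟩
  choose f hf using hex
  have huniq : ∀ (g : G) (x : (P : Subgroup G)) (n : G), n ∈ N → g = n * x → f g = x := by
    intro g x n hn e
    obtain ⟨m, hm, e'⟩ := hf g
    have h1 : m⁻¹ * n = (f g : G) * (x : G)⁻¹ := by
      rw [inv_mul_eq_iff_eq_mul, ← mul_assoc, ← e', e, mul_inv_cancel_right]
    have := eq_one_of_mem_inf hsd.inf (h1 ▸ mul_mem (inv_mem hm) hn) (mul_mem (f g).2 (inv_mem x.2))
    exact Subtype.ext (mul_inv_eq_one.1 this)
  rw [finsum_eq_sum_of_fintype]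
  refine (ncard_eq_sum_of_fibers (s := {g : G | ∃ k : ℕ, orderOf g = p ^ k}) Finset.univ f
    fun _ _ => Finset.mem_univ _).trans (Finset.sum_congr rfl fun x _ => ?_)
  rw [← relIndex_eq_div inf_le_left, inf_relIndex_left, ← ncard_conj_set]
  congr 1
  ext y
  have hconj : ∀ n ∈ N, ∀ z : (P : Subgroup G), f (n * z * n⁻¹) = z := fun n hn z =>
    huniq _ z (n * (z * n⁻¹ * (z : G)⁻¹)) (mul_mem hn (‹N.Normal›.conj_mem _ (inv_mem hn) _))
      (by group)
  constructor
  · rintro ⟨h1, h2⟩
    obtain ⟨g, -, hg⟩ := (syl_top hp P).syl_elt (mem_top y) ((orderOf_eq_pow_iff hp).1 h1)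
    obtain ⟨n, hn, e⟩ := hf g⁻¹
    have h3 : (f g⁻¹ : G) * (g * y * g⁻¹) * (f g⁻¹ : G)⁻¹ ∈ (P : Subgroup G) :=
      mul_mem (mul_mem (f g⁻¹).2 hg) (inv_mem (f g⁻¹).2)
    have h4 : n * ((f g⁻¹ : G) * (g * y * g⁻¹) * (f g⁻¹ : G)⁻¹) * n⁻¹ = y := by
      calc _ = (n * f g⁻¹) * (g * y * g⁻¹) * (n * f g⁻¹)⁻¹ := by group
        _ = y := by rw [← e]; group
    have h5 := hconj n hn ⟨_, h3⟩
    rw [h4, h2] at h5
    exact ⟨n, hn, by rw [h5]; exact h4⟩
  · rintro ⟨n, hn, rfl⟩
    exact ⟨by rw [Set.mem_ofPred_eq, orderOf_conj]; exact exists_orderOf_eq_of_mem_sylow P.isPGroup' x.2,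
      hconj n hn x⟩

end Cfsg.Agent.S4093
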