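import Mathlib
import Cfsg.Agent.H28.ClassCount
-- Template for statement S4106 (row 4106; see /opt/grader/pristine/manifest.json for weights).
-- Copy to Cfsg/Agent/S4106.lean and replace the sorry. The statement below is byte-identical to the frozen
-- statement Cfsg.CfsgFrozen.S4106 (Cfsg/Statements/S4106.lean; the theorem Cfsg.fg7_pi_classes_at_most_pi_part);
-- the grader kernel-checks Cfsg.Agent.S4106.result against that frozen type. Keep the theorem IN THIS FILE
-- (a `result` declared elsewhere and merely imported here is not credited); helpers may live anywhere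
-- under Cfsg/Agent/.
import Cfsg.Statements.S4106
-- import your own Cfsg.Agent.* helpers here

set_option autoImplicit false
open Cfsg

namespace Cfsg.Agent.S4106

/-- Let G be a finite group, π a set of primes and m the π-part of the order of G. Then the number of conjugacy classes of G consisting of π-elements (elements whose order is divisible only by primes in π) is at most m. -/
theorem result {G : Type*} [Group G] [Finite G]
    (π : Set ℕ) (hπ : ∀ q ∈ π, q.Prime)
    (m : ℕ) (hm : m ∣ Nat.card G) (hmπ : ∀ q : ℕ, q.Prime → q ∣ m → q ∈ π)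
    (hm' : ∀ q ∈ π, ¬ q ∣ Nat.card G / m) :
    Nat.card {C : ConjClasses G // ∀ q : ℕ, q.Prime → (∃ g : G, ConjClasses.mk g = C ∧ q ∣ orderOf g) → q ∈ π} ≤ m := by
  open Subgroup Cfsg.Agent.FT Cfsg.Agent.H28 in
  open scoped commutatorElement Pointwise in
  have h0 : Nat.card G ≠ 0 := Nat.card_pos.ne'
  have e : partn π (Nat.card G) = m := by
    obtain ⟨k, hk⟩ := hm
    have hm0 : 0 < m := Nat.pos_of_ne_zero (by rintro rfl; exact h0 (by simpa using hk))
    rw [hk, Nat.mul_div_cancel_left _ hm0] at hm'
    rw [hk]
    exact partn_eq_of_mul hmπ (piNat_compl_iff.2 fun q _ hq => hm' q hq) (hk ▸ h0)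
  rw [← e]
  exact kpi_le_partn π

end Cfsg.Agent.S4106
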