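import Mathlib
import Cfsg.Agent.H28.Util
-- Template for statement S4107 (row 4107; see /opt/grader/pristine/manifest.json for weights).
-- Copy to Cfsg/Agent/S4107.lean and replace the sorry. The statement below is byte-identical to the frozen
-- statement Cfsg.CfsgFrozen.S4107 (Cfsg/Statements/S4107.lean; the theorem Cfsg.fg7_equal_order_pair_fitting_comparable);
-- the grader kernel-checks Cfsg.Agent.S4107.result against that frozen type. Keep the theorem IN THIS FILE
-- (a `result` declared elsewhere and merely imported here is not credited); helpers may live anywhere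
-- under Cfsg/Agent/.
import Cfsg.Statements.S4107
-- import your own Cfsg.Agent.* helpers here

set_option autoImplicit false
open Cfsg

namespace Cfsg.Agent.S4107

/-- Let G be a finite group and N a proper non-trivial normal subgroup such that for every x outside N all elements of the coset xN have the same order as x. Then N ≤ F(G) or F(G) ≤ N, where F(G) is the Fitting subgroup; and if N is properly contained in F(G) then F(G) has prime-power order. -/
theorem result {G : Type*} [Group G] [Finite G] (N : Subgroup G) [N.Normal] (hN1 : N ≠ ⊥) (hN2 : N ≠ ⊤)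
    (heq : ∀ x : G, x ∉ N → ∀ n ∈ N, orderOf (x * n) = orderOf x) :
    (N ≤ Cfsg.fittingSubgroup G ∨ Cfsg.fittingSubgroup G ≤ N) ∧
    (N < Cfsg.fittingSubgroup G → IsPrimePow (Nat.card (Cfsg.fittingSubgroup G))) := by
  open Subgroup Cfsg.Agent.FT Cfsg.Agent.H28 in
  open scoped commutatorElement Pointwise in
  have key : ∀ p : ℕ, p.Prime → ∀ x ∈ F((⊤ : Subgroup G)), x ∉ N → PiElt {p} x → PGrp p N := by
    intro p hp x hx hxN hxp
    have hxO : x ∈ O[{p}]((⊤ : Subgroup G)) :=
      pcore_fitting p (⊤ : Subgroup G) ▸ (fitting_nil ⊤).mem_pcore hx hxp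
    haveI : (O[{p}]((⊤ : Subgroup G))).Normal := nml_top_iff.1 (pcore_nml _ _)
    refine piGrp_iff_forall.2 fun n hn => ?_
    have h1 : PiElt {p} (x * n) := by
      unfold PiElt
      rw [heq x hxN n hn]
      exact hxp
    obtain ⟨k, hk⟩ := h1.exists_pow
    have h2 : n ^ p ^ k ∈ O[{p}]((⊤ : Subgroup G)) := by
      rw [← QuotientGroup.eq_one_iff] at hxO ⊢
      have := congrArg (QuotientGroup.mk' O[{p}]((⊤ : Subgroup G))) hk
      rw [map_pow, map_mul, QuotientGroup.mk'_apply, hxO, one_mul, map_one] at this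
      exact this
    obtain ⟨l, hl⟩ := ((pcore_pi _ _).piElt h2).exists_pow
    exact (pElt_iff hp).2 ⟨k + l, by rw [pow_add, pow_mul, hl]⟩
  have key2 : ¬ F((⊤ : Subgroup G)) ≤ N → ∃ p : ℕ, p.Prime ∧ PGrp p N := by
    intro h
    by_contra hc
    push Not at hc
    refine h (le_of_forall_pElt fun p hp x hx hxp => ?_)
    by_contra hxN
    exact hc p hp (key p hp x hx hxN hxp)
  rw [← fitting_top]
  refine ⟨?_, fun h => ?_⟩
  · by_cases h : F((⊤ : Subgroup G)) ≤ N
    · exact Or.inr h
    · obtain ⟨p, -, hp⟩ := key2 h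
      exact Or.inl (hp.le_fitting (nml_top N))
  · obtain ⟨p, hp, hN⟩ := key2 (not_le_of_gt h)
    have hF : PGrp p F((⊤ : Subgroup G)) := by
      intro q hq hd
      obtain ⟨x, hx, ho⟩ := exists_elt_of_prime_dvd hq hd
      by_cases hxN : x ∈ N
      · exact hN q hq (ho ▸ orderOf_dvd_card' hxN)
      · exact (hN.eq_of_pgrp (key q hq x hx hxN ((piElt_of_orderOf_prime hq ho).2 rfl)) hN1).symm
    obtain ⟨n, hn⟩ := hF.card
    rw [isPrimePow_nat_iff]
    refine ⟨p, n, hp, Nat.pos_of_ne_zero ?_, hn.symm⟩
    rintro rfl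
    exact ne_bot_of_le h.le hN1 (eq_bot_iff_card'.2 (by simpa using hn))

end Cfsg.Agent.S4107
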