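import Mathlib
import Cfsg.Agent.FT.BG01
import Cfsg.Agent.H28.FrobBridge
-- Template for statement S4108 (row 4108; see /opt/grader/pristine/manifest.json for weights).
-- Copy to Cfsg/Agent/S4108.lean and replace the sorry. The statement below is byte-identical to the frozen
-- statement Cfsg.CfsgFrozen.S4108 (Cfsg/Statements/S4108.lean; the theorem Cfsg.fg7_equal_order_pair_p_group_kernel_frobenius);
-- the grader kernel-checks Cfsg.Agent.S4108.result against that frozen type. Keep the theorem IN THIS FILE
-- (a `result` declared elsewhere and merely imported here is not credited); helpers may live anywhere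
-- under Cfsg/Agent/.
import Cfsg.Statements.S4108
-- import your own Cfsg.Agent.* helpers here

set_option autoImplicit false
open Cfsg

namespace Cfsg.Agent.S4108

/-- Let G be a finite group, p a prime and N a proper non-trivial normal p-subgroup such that for every x outside N all elements of the coset xN have the same order as x. Then every non-trivial subgroup H of G of order prime to p acts fixed-point-freely on N: NH is a Frobenius group with complement H and kernel N. -/
theorem result {G : Type*} [Group G] [Finite G] (N : Subgroup G) [N.Normal] (hN1 : N ≠ ⊥) (hN2 : N ≠ ⊤)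
    (heq : ∀ x : G, x ∉ N → ∀ n ∈ N, orderOf (x * n) = orderOf x)
    (p : ℕ) [Fact p.Prime] (hNp : IsPGroup p N) :
    ∀ H : Subgroup G, H ≠ ⊥ → (Nat.card H).Coprime p →
      Cfsg.IsFrobeniusComplement (H.subgroupOf (N ⊔ H)) ∧ Cfsg.frobeniusKernel (H.subgroupOf (N ⊔ H)) = (N.subgroupOf (N ⊔ H) : Set ↥(N ⊔ H)) := by
  open Subgroup Cfsg.Agent.FT in
  open scoped commutatorElement Pointwise in
  intro H hH hc
  have hp : p.Prime := Fact.out
  have hcop : Cop N H := (pGrp_of_isPGroup hp hNp).cop ((p'grp_iff_coprime hp).2 hc)
  apply Cfsg.Agent.H28.isFrobeniusComplement_of_semiReg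
  · intro r hr h1 x hx hc'
    have hrN : (r : G) ∉ N := fun h => h1 (Subtype.ext (eq_one_of_mem_inf hcop.inf h hr))
    have h2 := heq r hrN x hx
    rw [Commute.orderOf_mul_eq_mul_orderOf_of_coprime (congrArg Subtype.val hc')
      ((hcop.symm.coprime_dvd_left (orderOf_dvd_card' (H := H) (x := r) hr)).coprime_dvd_right
        (orderOf_dvd_card' (H := N) (x := x) hx))] at h2
    exact Subtype.ext (orderOf_eq_one_iff.1 ((mul_eq_left₀ (orderOf_pos _).ne').1 h2))
  · exact mt (so_eq_bot le_sup_left).1 hN1
  · exact mt (so_eq_bot le_sup_right).1 hH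
  · rw [← so_sup le_sup_left le_sup_right, subgroupOf_self]

end Cfsg.Agent.S4108
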