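import Mathlib
import Cfsg.Agent.FT.BG01
-- Template for statement S4112 (row 4112; see /opt/grader/pristine/manifest.json for weights).
-- Copy to Cfsg/Agent/S4112.lean and replace the sorry. The statement below is byte-identical to the frozen
-- statement Cfsg.CfsgFrozen.S4112 (Cfsg/Statements/S4112.lean; the theorem Cfsg.fg7_camina_triple_frobenius_triple_iff);
-- the grader kernel-checks Cfsg.Agent.S4112.result against that frozen type. Keep the theorem IN THIS FILE
-- (a `result` declared elsewhere and merely imported here is not credited); helpers may live anywhere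
-- under Cfsg/Agent/.
import Cfsg.Statements.S4112
-- import your own Cfsg.Agent.* helpers here

set_option autoImplicit false
open Cfsg

namespace Cfsg.Agent.S4112

/-- Let G be a finite group and M ≤ N non-trivial proper normal subgroups such that for every g outside N the conjugacy class of g is a union of cosets of M (equivalently gm is conjugate to g for every m ∈ M). Then (1) and (2) below are equivalent, and they imply (3): (1) every g outside N acts fixed-point-freely on M, that is C_G(x) ≤ N for every x ∈ M, x ≠ 1; (2) the index of N in G is coprime to the order of M; (3) there is a subgroup H of G with HN = G and H ∩ M = 1. -/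
theorem result {G : Type*} [Group G] [Finite G] (N M : Subgroup G) [N.Normal] [M.Normal] (hMN : M ≤ N) (hM1 : M ≠ ⊥) (hN2 : N ≠ ⊤)
    (hcam : ∀ g : G, g ∉ N → ∀ m ∈ M, ∃ x : G, x * g * x⁻¹ = g * m) :
    ((∀ x ∈ M, x ≠ 1 → Subgroup.centralizer ({x} : Set G) ≤ N) ↔ N.index.Coprime (Nat.card M)) ∧
    ((∀ x ∈ M, x ≠ 1 → Subgroup.centralizer ({x} : Set G) ≤ N) → ∃ H : Subgroup G, H ⊔ N = ⊤ ∧ H ⊓ M = ⊥) := by
  open Subgroup Cfsg.Agent.FT in
  open scoped commutatorElement Pointwise in
  have hN : N ⊴ ⊤ := nml_top_iff.2 ‹_›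
  have hM : M ⊴ ⊤ := nml_top_iff.2 ‹_›
  have h12 : (∀ x ∈ M, x ≠ 1 → C[x] ≤ N) → N.index.Coprime #M := by
    intro h
    rw [coprime_iff_forall]
    intro r hr h1 h2
    obtain ⟨R, hR⟩ := exists_syl r (⊤ : Subgroup G)
    have hRM : R ⊓ M ≠ ⊥ := (hR.inf_nml hM).syl_ne_bot ⟨hr, h2⟩
    obtain ⟨x, hx, hx1⟩ := exists_ne_one (hR.pi.nil.meet_cen
      (nml_inf_of_norms (le_top.trans hM.nrm)) hRM)
    have := (hR.relIndex_of_le ((le_cen1.2 hx.2).trans (h x hx.1.2 hx1)))
    rw [relIndex_top_right] at this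
    exact this.not_dvd hr rfl h1
  refine ⟨⟨h12, fun h x hx hx1 g hg => ?_⟩, fun h => ?_⟩
  · by_contra hgN
    have a1 : constt (piOf M) g ∈ N := (piElt_constt _ g).mem_of_relIndex (mem_top _) hN.nrm (by
      rw [relIndex_top_right]; exact coprime_iff_piOf.1 h.symm)
    have a2 : constt (piOf M)ᶜ g ∉ N := fun h' => hgN (mem_of_constt_mem _ a1 h')
    obtain ⟨y, hy⟩ := hcam _ a2 x hx
    have a3 := orderOf_conj y (constt (piOf M)ᶜ g)
    rw [hy, Commute.orderOf_mul_eq_mul_orderOf_of_coprime
      (mem_cen1.1 (constt_mem _ hg)) (((piGrp_piOf M).piElt hx).coprime (piElt_constt _ g)).symm]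
      at a3
    exact hx1 (orderOf_eq_one_iff.1 ((mul_eq_left₀ (orderOf_pos _).ne').1 a3))
  · have hc := h12 h
    obtain ⟨H, -, hH, hmin⟩ := exists_min (fun H : Subgroup G => H ⊔ N = ⊤) (A := ⊤) (top_sup_eq N)
    refine ⟨H, hH, ?_⟩
    by_contra hne
    obtain ⟨r, hr, hd⟩ := exists_prime_dvd_card hne
    have hHN : H ⊓ N ⊴ H := nml_inf_of_norms (le_top.trans hN.nrm)
    obtain ⟨R, hR⟩ := exists_syl r (H ⊓ N)
    have hi : PiNat {r}ᶜ ((H ⊓ N).relIndex H) := by
      rw [inf_relIndex_left]
      refine PiNat.of_dvd (p'nat_of_not_dvd ?_) (relIndex_dvd_index_of_normal N H)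
      exact fun h' => coprime_iff_forall.1 hc r hr h' (hd.trans (card_dvd inf_le_right))
    have hRH := hR.of_relIndex inf_le_left hi
    have b1 : H ⊓ N(R) = H := hmin _ (by
      rw [eq_top_iff, ← hH, ← (hR.frattini hHN).sup]
      exact sup_le (sup_le (inf_le_right.trans le_sup_right) (by
        rw [(hR.frattini hHN).sup]; exact le_sup_left)) le_sup_right) inf_le_left
    obtain ⟨K, hK, hsd⟩ := hRH.exists_compl (b1 ▸ inf_le_right)
    have b2 : K = H := hmin _ (by
      rw [eq_top_iff, ← hH, ← hsd.mulEq.sup]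
      exact sup_le (sup_le ((hR.le.trans inf_le_right).trans le_sup_right) le_sup_left)
        le_sup_right) hsd.right
    exact hK.pi.not_dvd hr rfl (b2 ▸ hd.trans (card_dvd inf_le_left))

end Cfsg.Agent.S4112
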