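import Cfsg.Statements.S4115
import Mathlib
import Cfsg.Agent.H4.Cyc2
import Cfsg.Agent.H28.FrobBridge
import Cfsg.Agent.H23.Cop

set_option autoImplicit false
universe u
open Cfsg

namespace Cfsg.Agent.S4115

/-- Let G be a finite group and H a subgroup that meets each of its conjugates by elements outside N_G(H) trivially and whose order is coprime to its index in N_G(H). Then H has a normal complement in N_G(H) if and only if H has a normal complement in G. Moreover, if H is not normal in G and has a normal complement in N_G(H), then H is isomorphic to a Frobenius complement of some finite Frobenius group. -/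
theorem result {G : Type u} [Group G] [Finite G] (H : Subgroup G)
    (hTI : Cfsg.IsTISubset (H : Set G)) (hHall : (Nat.card H).Coprime (H.subgroupOf (Subgroup.normalizer (H : Set G))).index) :
    ((∃ K : Subgroup (Subgroup.normalizer (H : Set G)), K.Normal ∧ K.IsComplement' (H.subgroupOf (Subgroup.normalizer (H : Set G)))) ↔
      (∃ N : Subgroup G, N.Normal ∧ N.IsComplement' H)) ∧
    (¬ H.Normal → (∃ K : Subgroup (Subgroup.normalizer (H : Set G)), K.Normal ∧ K.IsComplement' (H.subgroupOf (Subgroup.normalizer (H : Set G)))) →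
      ∃ (F : Type u) (_ : Group F) (_ : Finite F) (C : Subgroup F), Cfsg.IsFrobeniusComplement C ∧ Nonempty (H ≃* C)) := by
  open Subgroup Cfsg.Agent.H22 Cfsg.Agent.H4 in
  have key : (∃ K : Subgroup N[H], K.Normal ∧ K.IsComplement' (H.subgroupOf N[H])) →
      ∃ N : Subgroup G, N.Normal ∧ N.IsComplement' H := by
    rintro ⟨K, hK, hc⟩
    obtain ⟨L, hL, -, h1, h2⟩ := H6.exists_normal_of_TI N[H] (K.map N[H].subtype) (map_subtype_le _)
      (fun h hh x hx => conj_mem_of_N (le_N_map_subtype K hh) hx) (fun g hg x hx hx' => by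
        have a1 := (H.subgroupOf N[H]).pow_index_mem ⟨x, hx⟩
        have a2 := (H.subgroupOf N[H]).pow_index_mem ⟨_, hx'⟩
        have a3 := hTI g hg _ a1 (by rw [mem_subgroupOf] at a2; simpa [conj_pow] using a2)
        have a4 := K.pow_index_mem ⟨x, hx⟩
        rw [hc.symm.index_eq_card, Nat.card_congr (subgroupOfEquivOfLe le_normalizer).toEquiv] at a4
        refine ⟨⟨x, hx⟩, H22.mem_of_pow_mem_of_coprime a4 (hHall.of_dvd_right ?_), rfl⟩
        exact orderOf_dvd_of_pow_eq_one (Subtype.ext a3))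
    refine ⟨L, hL, isComplement'_of_normal_disjoint_sup (disjoint_def.2 fun {x} a1 a2 => ?_) ?_⟩
    · obtain ⟨y, hy, rfl⟩ := h1.le ⟨a1, le_normalizer a2⟩
      exact congrArg Subtype.val (disjoint_def.1 hc.disjoint hy a2)
    · rw [eq_top_iff, ← h2]
      refine sup_le le_sup_left ?_
      have := congrArg (map N[H].subtype) hc.sup_eq_top
      rw [Subgroup.map_sup, subgroupOf_map_subtype, map_subtype_top, ← h1] at this
      exact this.ge.trans (sup_le_sup inf_le_left inf_le_left)
  refine ⟨⟨key, ?_⟩, fun hn hK => ?_⟩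
  · rintro ⟨L, hL, hc⟩
    refine ⟨L.subgroupOf _, inferInstance, isComplement'_of_normal_disjoint_sup
      (disjoint_def.2 fun {x} a1 a2 => Subtype.ext (disjoint_def.1 hc.disjoint a1 a2))
      (eq_top_iff.2 fun x _ => ?_)⟩
    obtain ⟨a, ha, b, hb, e⟩ := (mem_sup_of_le_N' (le_N_of_normal H L)).1 (hc.sup_eq_top.ge (mem_top x.1))
    have hb' : b ∈ N[H] := le_normalizer hb
    have ha' : a ∈ N[H] := (mul_mem_cancel_right hb').1 (e ▸ x.2)
    rw [show x = ⟨a, ha'⟩ * ⟨b, hb'⟩ from Subtype.ext e.symm]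
    exact mul_mem (mem_sup_left ha) (mem_sup_right hb)
  obtain ⟨L, hL, hc⟩ := key hK
  have hcop : (Nat.card H).Coprime (Nat.card L) := by
    rw [← hc.index_eq_card]
    refine Nat.coprime_of_dvd fun q hq hd hi => ?_
    have := Fact.mk hq
    obtain ⟨R, hR⟩ := exists_sylIn q H
    have a1 : N[R] ≤ N[H] := fun g hg => by
      by_contra h
      obtain ⟨x, hx, hx'⟩ := pgrp_exists_orderOf_eq hR.2 (syl_ne_bot hR hd)
      exact ne_one_of_orderOf_eq hx' (hTI g h x (hR.1 hx) (hR.1 (conj_mem_of_N hg hx)))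
    have a2 : H18.SylIn q R N[H] := by
      refine H18.sylIn_of_not_dvd_relIndex (hR.1.trans le_normalizer) hR.2 ?_
      rw [← relIndex_mul_relIndex R H N[H] hR.1 le_normalizer]
      exact hq.not_dvd_mul hR.not_dvd_relIndex ((hq.coprime_iff_not_dvd).1 (hHall.of_dvd_left hd))
    have a3 := (sylIn_of_inf_N le_top (a2.mono (le_inf le_top le_normalizer)
      (inf_le_right.trans a1))).not_dvd_relIndex
    rw [relIndex_top_right] at a3
    exact a3 (hi.trans (index_dvd_of_le hR.1))
  obtain ⟨q, hq, Q, hQ, hHQ, hC⟩ : ∃ q : ℕ, q.Prime ∧ ∃ Q, H18.SylIn q Q L ∧ H ≤ N[Q] ∧ ¬ Q ≤ C[H] := by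
    by_contra h
    push Not at h
    refine hn (normal_of_top_le_N (hc.sup_eq_top.ge.trans (sup_le (le_trans ?_ (C_le_N H)) le_normalizer)))
    refine le_of_forall_syl fun q hq => ?_
    have := Fact.mk hq
    obtain ⟨P, hP⟩ := H1.exists_invariant_sylow H L (le_N_of_normal _ _) hcop (H23.sol_or_sol hcop) q
    exact ⟨_, H18.sylIn_map_subtype P, h q hq _ (H18.sylIn_map_subtype P) hP⟩
  have := Fact.mk hq
  have hQc : (Nat.card H).Coprime (Nat.card Q) := hcop.of_dvd_right (card_dvd_of_le hQ.1)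
  set R := ⁅Q, H⁆ with hR
  have hRQ : R ≤ Q := comm_le_of_le_N hHQ
  have hRp := hQ.2.to_le hRQ
  have hR0 : R ≠ ⊥ := fun e => hC (le_C_iff_comm.2 e)
  have hHR : H ≤ N[R] := le_N_commutator hHQ le_normalizer
  have hRc : (Nat.card H).Coprime (Nat.card R) := hQc.of_dvd_right (card_dvd_of_le hRQ)
  have h1 : R ⊓ C[H] ≤ ⁅R, R⁆ := by
    have := H1.centralizer_inf_commutator_le H R hHR hRc
    rwa [H1.commutator_commutator_eq H Q hHQ hQc, inf_eq_left.2 inf_le_left] at this
  have hD : ⁅R, R⁆ ≤ R := comm_le_of_le_N le_normalizer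
  have hN : R ⊔ H ≤ N[⁅R, R⁆] := le_N_commutator (sup_le le_normalizer hHR) (sup_le le_normalizer hHR)
  have := normal_subgroupOf_of_le_N hN
  have := normal_subgroupOf_of_le_N (sup_le le_normalizer hHR)
  let f := QuotientGroup.mk' (⁅R, R⁆.subgroupOf (R ⊔ H))
  have hf : ∀ x, f x = 1 ↔ (x : G) ∈ ⁅R, R⁆ := fun x => QuotientGroup.eq_one_iff x
  let φ : H →* _ := f.comp (inclusion (le_sup_right : H ≤ R ⊔ H))
  have hφ : Function.Injective φ := (injective_iff_map_eq_one _).2 fun x hx =>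
    Subtype.ext (disjoint_def.1 hc.disjoint (hQ.1 (hRQ (hD ((hf _).1 hx)))) x.2)
  have : ((R.subgroupOf (R ⊔ H)).map f).Normal := Normal.map inferInstance _ (QuotientGroup.mk'_surjective _)
  refine ⟨_, inferInstance, inferInstance, φ.range, (H28.isFrobeniusComplement_of_semiReg
    (K := (R.subgroupOf (R ⊔ H)).map f) ?_ ?_ ?_ ?_).1, ⟨MonoidHom.ofInjective hφ⟩⟩
  · rintro _ ⟨h, rfl⟩ h0 _ ⟨w, hw, rfl⟩ e
    have h0' : (h : G) ≠ 1 := fun e => h0 (by rw [show h = 1 from Subtype.ext e, map_one])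
    have a1 := H1.centralizer_map_mk (zpowers (inclusion (le_sup_right : H ≤ R ⊔ H) h))
      (⁅R, R⁆.subgroupOf (R ⊔ H)) (by
        rw [Nat.card_congr (subgroupOfEquivOfLe (hD.trans le_sup_left)).toEquiv, Nat.card_zpowers,
          orderOf_injective _ (inclusion_injective _)]
        exact (hRc.of_dvd_left (orderOf_dvd_natCard h)).of_dvd_right (card_dvd_of_le hD))
      (Or.inl (H1.isSolvable_zpowers _))
    rw [MonoidHom.map_zpowers, C_zpowers, C_zpowers] at a1
    obtain ⟨c, a2, a3⟩ := a1.le (mem_centralizer_singleton_iff.2 e.symm)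
    have a4 : (c : G) * (w : G)⁻¹ ∈ ⁅R, R⁆ := (hf (c * w⁻¹)).1 (by rw [map_mul, map_inv, mul_inv_eq_one]; exact a3)
    have a5 : (c : G) ∈ R := (mul_mem_cancel_right (R.inv_mem hw)).1 (hD a4)
    have a6 : (c : G) * h * (c : G)⁻¹ = h := congrArg Subtype.val (mem_C1.1 a2)
    have a7 : (c : G) ∈ N[H] := by
      by_contra a7
      exact h0' (hTI _ a7 _ h.2 (a6.symm ▸ h.2))
    have a8 : (c : G) ∈ C[H] := by
      refine zpowers_le.1 (le_C_iff_comm.2 (eq_bot_iff.2 (le_trans (le_inf ?_ ?_)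
        (disjoint_iff.1 hc.disjoint).le)))
      · exact (commutator_mono (zpowers_le.2 (hQ.1 (hRQ a5))) le_rfl).trans
          (comm_le_of_le_N (le_N_of_normal _ _))
      · exact comm_le_of_le_N' (zpowers_le.2 a7)
    rw [← a3]
    exact (hf c).2 (h1 ⟨a5, a8⟩)
  · intro e
    refine (pgrp_comm_lt hRp le_rfl le_normalizer hR0).not_ge fun x hx => ?_
    exact (hf ⟨x, mem_sup_left hx⟩).1 (e.le (mem_map_of_mem f hx))
  · intro e
    refine hn ?_
    have : H = ⊥ := eq_bot_iff.2 fun x hx => congrArg Subtype.val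
      (hφ ((mem_bot.1 (e.le ⟨⟨x, hx⟩, rfl⟩)).trans (map_one φ).symm))
    rw [this]
    infer_instance
  · rw [MonoidHom.range_comp, inclusion_range, ← Subgroup.map_sup, ← subgroupOf_sup le_sup_left le_sup_right,
      subgroupOf_self]
    exact map_top_of_surjective _ (QuotientGroup.mk'_surjective _)

end Cfsg.Agent.S4115
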