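import Mathlib
import Cfsg.Agent.H28.Util2
-- Template for statement S4116 (row 4116; see /opt/grader/pristine/manifest.json for weights).
-- Copy to Cfsg/Agent/S4116.lean and replace the sorry. The statement below is byte-identical to the frozen
-- statement Cfsg.CfsgFrozen.S4116 (Cfsg/Statements/S4116.lean; the theorem Cfsg.fg7_ti_hall_subgroup_contains_all_pi_subgroups_up_to_conjugacy);
-- the grader kernel-checks Cfsg.Agent.S4116.result against that frozen type. Keep the theorem IN THIS FILE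
-- (a `result` declared elsewhere and merely imported here is not credited); helpers may live anywhere
-- under Cfsg/Agent/.
import Cfsg.Statements.S4116
-- import your own Cfsg.Agent.* helpers here

set_option autoImplicit false
open Cfsg

namespace Cfsg.Agent.S4116

section
open Subgroup Cfsg.Agent.FT Cfsg.Agent.H28
open scoped commutatorElement Pointwise
set_option linter.style.haveILetI false

theorem cnt {G : Type*} [Group G] [Finite G] {A K : Subgroup G} (hA : A ≤ K) (h1 : A ≠ ⊥)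
    (h : ∀ k ∈ K, ∀ a ∈ A, a ≠ 1 → k * a * k⁻¹ ∈ A → k ∈ A) :
    #K ≤ 2 * {y | y ≠ 1 ∧ ∃ k ∈ K, ∃ a ∈ A, y = k * a * k⁻¹}.ncard := by
  have h2 := ncard_le_mul_of_fibers (s := (K : Set G) ×ˢ ((A : Set G) \ {1}))
    (t := {y | y ≠ 1 ∧ ∃ k ∈ K, ∃ a ∈ A, y = k * a * k⁻¹}) (n := #A)
    (fun p => p.1 * p.2 * p.1⁻¹) (fun p hp => ⟨conj_ne_one.2 hp.2.2, p.1, hp.1, p.2, hp.2.1, rfl⟩) (by
      rintro _ ⟨hy, k, hk, a, ha, rfl⟩
      rw [← ncard_leftCoset A k]
      refine Set.ncard_le_ncard_of_injOn Prod.fst ?_ ?_ (Set.toFinite _)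
      · rintro ⟨l, b⟩ ⟨⟨hl, hb, hb1⟩, e⟩
        refine h _ (K.mul_mem (K.inv_mem hk) hl) b hb hb1 ?_
        have : k⁻¹ * l * b * (k⁻¹ * l)⁻¹ = k⁻¹ * (l * b * l⁻¹) * k := by group
        simp only at e
        rw [this, e]
        simpa [mul_assoc] using ha
      · rintro ⟨l, b⟩ ⟨-, e⟩ ⟨l', b'⟩ ⟨-, e'⟩ e2
        simp only at e e' e2
        subst e2
        rw [← e', mul_left_inj, mul_right_inj] at e
        rw [e])
  rw [Set.ncard_prod, Set.ncard_sdiff_singleton_of_mem (A.one_mem), ncard_coe, ncard_coe] at h2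
  have h3 := FT.one_lt_card h1
  obtain ⟨m, hm⟩ : ∃ m, #A = m + 2 := ⟨#A - 2, by omega⟩
  rw [hm, show m + 2 - 1 = m + 1 by omega] at h2
  nlinarith

end

/-- Let G be a finite group with a subgroup H whose order is coprime to its index (a Hall subgroup) and which meets each of its conjugates by elements outside N_G(H) trivially. Then every subgroup of G whose order is divisible only by primes dividing the order of H lies in a conjugate of H. -/
theorem result {G : Type*} [Group G] [Finite G] (H : Subgroup G)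
    (hHall : (Nat.card H).Coprime H.index) (hTI : Cfsg.IsTISubset (H : Set G))
    (K : Subgroup G) (hK : ∀ q : ℕ, q.Prime → q ∣ Nat.card K → q ∣ Nat.card H) :
    ∃ g : G, K ≤ H.map (MulAut.conj g).toMonoidHom := by
  open Subgroup Cfsg.Agent.FT Cfsg.Agent.H28 in
  open scoped commutatorElement Pointwise in
  have hH : Hall (piOf H) H ⊤ := IsHall.hall ⟨le_top, by rwa [relIndex_top_right]⟩
  have hKπ : PiGrp (piOf H) K := fun q hq hd => ⟨hq, hK q hq hd⟩
  have hT : ∀ g g' y : G, y ≠ 1 → y ∈ cj g H → y ∈ cj g' H → cj g H = cj g' H := by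
    intro g g' y hy h1 h2
    rw [cj_eq_cj_iff]
    by_contra hc
    refine hy ?_
    have := hTI _ hc _ (mem_cj.1 h1) (by
      have e : g'⁻¹ * g * (g⁻¹ * y * g) * (g'⁻¹ * g)⁻¹ = g'⁻¹ * y * g' := by group
      rw [e]; exact mem_cj.1 h2)
    have e : y = g * (g⁻¹ * y * g) * g⁻¹ := by group
    rw [e, this]; group
  have h1 : ∀ g : G, ∀ k ∈ K, ∀ a ∈ K ⊓ cj g H, a ≠ 1 → k * a * k⁻¹ ∈ K ⊓ cj g H →
      k ∈ K ⊓ cj g H := by
    intro g k hk a ha ha1 h
    have e := hT (k * g) g _ (conj_ne_one.2 ha1) (by rw [← cj_cj, conj_mem_cj]; exact ha.2) h.2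
    rw [← cj_cj, cj_eq_self] at e
    exact ⟨hk, ((hH.cj_mem (mem_top g)).subnorm.mem_of_nml inf_le_right ⟨mem_top _, e⟩
      (hKπ.piElt hk))⟩
  have h2 : ∀ g g' : G, K ⊓ cj g H ≠ ⊥ → K ⊓ cj g' H ≠ ⊥ →
      #(K ⊓ cj g H : Subgroup G) = #(K ⊓ cj g' H : Subgroup G) := by
    intro g g' hg hg'
    have c1 := cnt inf_le_left hg (h1 g)
    have c2 := cnt inf_le_left hg' (h1 g')
    by_contra hc
    have hd : Disjoint {y | y ≠ 1 ∧ ∃ k ∈ K, ∃ a ∈ K ⊓ cj g H, y = k * a * k⁻¹}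
        {y | y ≠ 1 ∧ ∃ k ∈ K, ∃ a ∈ K ⊓ cj g' H, y = k * a * k⁻¹} := by
      rw [Set.disjoint_left]
      rintro y ⟨hy, k, hk, a, ha, e⟩ ⟨-, k', hk', a', ha', e'⟩
      have e2 := hT (k * g) (k' * g') y hy (by rw [e, ← cj_cj, conj_mem_cj]; exact ha.2)
        (by rw [e', ← cj_cj, conj_mem_cj]; exact ha'.2)
      apply hc
      rw [← card_cj k, ← card_cj k' (K ⊓ _), cj_inf, cj_inf, cj_cj, cj_cj, e2, cj_of_mem hk,
        cj_of_mem hk']
    have c3 := Set.ncard_union_eq hd (Set.toFinite _) (Set.toFinite _)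
    have c4 : ({y | y ≠ 1 ∧ ∃ k ∈ K, ∃ a ∈ K ⊓ cj g H, y = k * a * k⁻¹} ∪
        {y | y ≠ 1 ∧ ∃ k ∈ K, ∃ a ∈ K ⊓ cj g' H, y = k * a * k⁻¹}).ncard < (K : Set G).ncard := by
      refine Set.ncard_lt_ncard ⟨?_, fun h => ?_⟩ (Set.toFinite _)
      · rintro y (⟨-, k, hk, a, ha, rfl⟩ | ⟨-, k, hk, a, ha, rfl⟩) <;>
          exact K.mul_mem (K.mul_mem hk ha.1) (K.inv_mem hk)
      · rcases h K.one_mem with h | h <;> exact h.1 rfl
    rw [ncard_coe] at c4
    omega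
  have h3 : ∀ p, p.Prime → p ∣ #K → ∃ g : G, K ⊓ cj g H ≠ ⊥ ∧
      partn {p} #K ∣ #(K ⊓ cj g H : Subgroup G) := by
    intro p hp hd
    obtain ⟨P, hP⟩ := exists_syl p K
    obtain ⟨S, hS⟩ := exists_syl p H
    obtain ⟨g, -, hg⟩ := (hH.subHall_syl (hKπ p hp hd) hS).syl_subJ hP.pi le_top
    have hle : P ≤ K ⊓ cj g H := le_inf hP.le (hg.trans (cj_mono g hS.le))
    exact ⟨g, ne_bot_of_le hle (hP.syl_ne_bot ⟨hp, hd⟩), hP.card ▸ card_dvd hle⟩
  by_cases h0 : K = ⊥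
  · exact ⟨1, h0 ▸ bot_le⟩
  obtain ⟨p, hp, hd⟩ := exists_prime_dvd_card h0
  obtain ⟨g, hg, -⟩ := h3 p hp hd
  refine ⟨g, inf_eq_left.1 (eq_of_card_le inf_le_left (Nat.le_of_dvd (card_pos _)
    (dvd_of_forall_partn (card_ne_zero _) (card_ne_zero _) fun q hq hqd => ?_)))⟩
  obtain ⟨g', hg', h4⟩ := h3 q hq hqd
  exact h4.trans (h2 g' g hg' hg).dvd

end Cfsg.Agent.S4116
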