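import Mathlib
import Cfsg.Agent.H28.Act
-- Template for statement S4117 (row 4117; see /opt/grader/pristine/manifest.json for weights).
-- Copy to Cfsg/Agent/S4117.lean and replace the sorry. The statement below is byte-identical to the frozen
-- statement Cfsg.CfsgFrozen.S4117 (Cfsg/Statements/S4117.lean; the theorem Cfsg.fg7_coprime_action_on_group_with_cyclic_sylow_subgroups);
-- the grader kernel-checks Cfsg.Agent.S4117.result against that frozen type. Keep the theorem IN THIS FILE
-- (a `result` declared elsewhere and merely imported here is not credited); helpers may live anywhere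
-- under Cfsg/Agent/.
import Cfsg.Statements.S4117
-- import your own Cfsg.Agent.* helpers here

set_option autoImplicit false
open Cfsg

namespace Cfsg.Agent.S4117

section
open Subgroup Cfsg.Agent.FT Cfsg.Agent.H28
open scoped commutatorElement Pointwise
set_option linter.style.haveILetI false

theorem key {G : Type*} [Group G] [Finite G] {K A : Subgroup G} (hK : Zgrp K) (hn : A ≤ N(K))
    (hc : Cop K A) : IsHall (K ⊓ C(A)) K ∧ Cyc ⁅K, A⁆ ∧ ⁅K, A⁆ ⊓ C(A) = ⊥ := by
  have h1 : Cyc (K ⊓ C(⁅K, K⁆)) := by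
    refine (hK.mono inf_le_left).cyc_of_nil (Ab.nil (ab_of_cyc_quo (K := ⁅K, K⁆) ?_
      (hK.quo_der_cyc.mono (quo_mono _ inf_le_left))))
    exact le_inf (le_inf (der_le K) hK.der_cyc.ab.le_cen) (centsC inf_le_right)
  have h2 : Cyc ⁅K, A⁆ := h1.mono (le_inf (comm_le_left hn)
    (hK.der_cyc.comm_cents (der_nml K).nrm (norms_der hn)))
  refine ⟨⟨inf_le_left, coprime_iff_forall.2 fun p hp h3 h4 => ?_⟩, h2, ?_⟩
  · obtain ⟨P, hP, hAP⟩ := coprime_Sylow_exists p hn hc (Or.inl hK.sol)
    rcases coprime_cyclic_cent_or hAP (hc.mono_left hP.le) (hK.pGrp_cyc hP.pi hP.le) hP.pi with h | h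
    · exact (hP.relIndex_of_le (le_inf hP.le (centsC h))).not_dvd hp rfl h4
    · exact (coprime_Sylow_subcent hn hc (Or.inl hK.sol) hP hAP).syl_ne_bot ⟨hp, h3⟩ h
  · rw [← coprime_commGid hn hc]
    exact coprime_abel_cent_TI (norm_comm_right K A) (hc.mono_left (comm_le_left hn)) h2.ab

end

/-- Let A be a finite group acting on the finite group G by automorphisms with the orders of A and G coprime, and suppose every Sylow subgroup of G is cyclic. Then the fixed-point subgroup C_G(A) is a Hall subgroup of G (its order is coprime to its index), the subgroup [G, A] generated by the elements g⁻¹·a(g) is cyclic and normal with [G, A] ∩ C_G(A) = 1 and [G, A]·C_G(A) = G. -/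
theorem result {G A : Type*} [Group G] [Finite G] [Group A] [Finite A]
    [MulDistribMulAction A G] (hcop : (Nat.card A).Coprime (Nat.card G))
    (hcyc : ∀ (p : ℕ) [Fact p.Prime] (P : Sylow p G), IsCyclic (P : Subgroup G)) :
    (Nat.card (MulAction.fixedPoints A G : Set G)).Coprime (Nat.card G / Nat.card (MulAction.fixedPoints A G : Set G)) ∧
    IsCyclic (Subgroup.closure {y : G | ∃ (a : A) (g : G), y = g⁻¹ * a • g}) ∧
    (Subgroup.closure {y : G | ∃ (a : A) (g : G), y = g⁻¹ * a • g}).Normal ∧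
    (Subgroup.closure {y : G | ∃ (a : A) (g : G), y = g⁻¹ * a • g} : Set G) ∩ MulAction.fixedPoints A G = {1} ∧
    Subgroup.closure {y : G | ∃ (a : A) (g : G), y = g⁻¹ * a • g} ⊔ Subgroup.closure (MulAction.fixedPoints A G) = ⊤ := by
  open Subgroup Cfsg.Agent.FT Cfsg.Agent.H28 in
  open scoped commutatorElement Pointwise in
  have hZ : Zgrp (⊤ : Subgroup G) := zgrp_iff.2 fun p P hp hP => by
    haveI := Fact.mk hp
    obtain ⟨T, rfl⟩ := (syl_top_iff hp).1 hP
    exact hcyc p T
  have hZ' := hZ.of_equiv (glEquiv (A := A) ⊤)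
  obtain ⟨h1, h2, h3⟩ := key hZ' (al_norms_top ⊤) (cop_gl_al hcop _ _)
  have h4 := (coprime_cent_prod (al_norms_top ⊤) (cop_gl_al hcop _ _) hZ'.sol).sup
  have h5 := comm_nml_left (al_norms_top (G := G) (⊤ : Subgroup A))
  rw [gl_top_comm_al_top] at h2 h3 h4 h5
  rw [gl_top_subcent] at h1 h4
  rw [← gl_sup, gl_inj] at h4
  rw [← inf_eq_left.2 (gl_le_top _), inf_assoc, gl_top_subcent, ← gl_inf, gl_eq_bot] at h3
  rw [← coe_fixSub_top, closure_eq]
  refine ⟨?_, cyc_gl.1 h2, nml_top_iff.1 (gl_nml_iff.1 h5), by rw [← coe_inf, h3, coe_bot], h4⟩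
  have h6 := h1.cop
  rwa [card_gl, relIndex_gl, relIndex_eq_div le_top, card_top'] at h6

end Cfsg.Agent.S4117
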