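import Cfsg.Statements.S4125
import Mathlib
import Cfsg.Agent.H1.POrb
import Cfsg.Agent.H27.Kazarin2
import Cfsg.Agent.FT.BG01

set_option autoImplicit false
open Cfsg

namespace Cfsg.Agent.S4125

open Subgroup Cfsg.Agent.FT Cfsg.Agent.H1
open scoped commutatorElement Pointwise

section
variable {G : Type*} [Group G] [Finite G] {p q : ℕ} {x y : G} {Q : Subgroup G}

theorem dvd_pow_of {n : ℕ} (h : PiNat {p} n) (hn : n ≠ 0) : ∃ k, n ∣ p ^ k :=
  (h.exists_pow hn).imp fun _ e => e.dvd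

theorem mulEq_cen (hc : C[x].index.Coprime C[y].index) : MulEq C[x] C[y] ⊤ :=
  mulEq_of_coprime_relIndex le_top le_top (by simpa using hc)

theorem idx_mul_dvd (hc : C[x].index.Coprime C[y].index) : C[x * y].index ∣ C[x].index * C[y].index := by
  have h1 : C[x] ⊓ C[y] ≤ C[x * y] := fun g hg => mem_cen1.2 (by
    rw [← mul_assoc, mem_cen1.1 hg.1, mul_assoc, mem_cen1.1 hg.2, mul_assoc])
  refine (index_dvd_of_le h1).trans ?_
  rw [← relIndex_mul_index (inf_le_right : C[x] ⊓ C[y] ≤ C[y]), inf_relIndex_right, ← (mulEq_cen hc).relIndex_left,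
    relIndex_top_right]

theorem idx_uniq (hp : p.Prime) (hx : PiNat {p} C[x].index) (hy : PiNat {p}ᶜ C[y].index)
    (hxy : PiNat {p} C[x * y].index) (hy' : PiElt {p}ᶜ y) : C[y] = ⊤ := by
  have hc := hx.coprime hy
  have hd : C[x * y].index ∣ C[x].index := hxy.dvd_of_dvd_mul hy (idx_mul_dvd hc)
  have cls : ∀ z : G, {w | IsConj z w}.ncard = C[z].index := fun z => by
    rw [← H27.ncard_carrier_eq_index]
    congr 1
  have k1 : ∀ a b, IsConj x a → IsConj y b → IsConj (x * y) (a * b) := fun a b ha hb => by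
    obtain ⟨g, rfl⟩ := isConj_iff.1 ha
    obtain ⟨h, rfl⟩ := isConj_iff.1 hb
    obtain ⟨u, hu, v, hv, e⟩ := (mulEq_cen hc).mul (g⁻¹ * h) trivial
    refine isConj_iff.2 ⟨g * u, ?_⟩
    rw [inv_mul_eq_iff_eq_mul.1 e]
    calc g * u * (x * y) * (g * u)⁻¹ = g * (u * x) * y * (g * u)⁻¹ := by group
      _ = g * x * g⁻¹ * (g * u * (y * v) * (g * (u * v))⁻¹) := by rw [mem_cen1.1 hu]; group
      _ = _ := by rw [← mem_cen1.1 hv]; group
  have k2 : ∀ b b', IsConj y b → IsConj y b' → ∀ a, IsConj x a → IsConj x (a * (b * b'⁻¹)) := fun b b' hb hb' a ha => by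
    have e : (fun a => a * b') '' {w | IsConj x w} = {w | IsConj (x * y) w} :=
      Set.eq_of_subset_of_ncard_le (by rintro _ ⟨a, ha, rfl⟩; exact k1 a b' ha hb') (by
        rw [Set.ncard_image_of_injective _ (mul_left_injective b'), cls, cls]
        exact Nat.le_of_dvd (Nat.pos_of_ne_zero index_ne_zero_of_finite) hd)
    obtain ⟨a', ha', e'⟩ := e.ge (k1 a b ha hb)
    rwa [← mul_assoc, ← e', mul_inv_cancel_right]
  let H : Subgroup G :=
    { carrier := {h | ∀ a, IsConj x (a * h) ↔ IsConj x a}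
      one_mem' := fun a => by rw [mul_one]
      mul_mem' := fun {g h} hg hh a => by rw [← mul_assoc, hh, hg]
      inv_mem' := fun {g} hg a => by rw [← hg, inv_mul_cancel_right] }
  have cj' : ∀ g a : G, IsConj x (g * a * g⁻¹) ↔ IsConj x a := fun g a =>
    ⟨fun h => h.trans (isConj_iff.2 ⟨g, rfl⟩).symm, fun h => h.trans (isConj_iff.2 ⟨g, rfl⟩)⟩
  have : H.Normal := ⟨fun h hh g a => by
    rw [← cj' g⁻¹ a, ← hh (g⁻¹ * a * g⁻¹⁻¹), ← cj' g (_ * h)]
    congr! 1
    group⟩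
  have hH : PGrp p H := by
    refine hx.of_dvd ?_
    have e : {w | IsConj x w} * (H : Set G) = {w | IsConj x w} := by
      refine Set.Subset.antisymm ?_ fun a ha => ⟨a, ha, 1, H.one_mem, mul_one a⟩
      rintro _ ⟨a, ha, h, hh, rfl⟩
      exact (hh a).2 ha
    rw [← cls, ← e, ← Nat.card_coe_set_eq, card_mul_eq_card_subgroup_mul_card_quotient]
    exact dvd_mul_right _ _
  have hHy := H27.le_centralizer_of_coprime_index (N := H) (x := y) (PiNat.coprime hH hy)
  refine eq_top_iff.2 fun g _ => mem_cen1.2 ?_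
  have hg : IsConj y (g * y * g⁻¹) := isConj_iff.2 ⟨g, rfl⟩
  have hm : g * y * g⁻¹ * y⁻¹ ∈ H := fun a => ⟨fun h => by simpa [mul_assoc] using k2 _ _ (.refl y) hg _ h,
    k2 _ _ hg (.refl y) a⟩
  have hcm : g * y * g⁻¹ * y⁻¹ * y = y * (g * y * g⁻¹ * y⁻¹) := mem_cen1.1 (hHy hm)
  have h1 : g * y * g⁻¹ * y⁻¹ = 1 := ((hy'.conj g).mul hy'.inv (by
    rw [eq_inv_mul_iff_mul_eq, ← hcm, inv_mul_cancel_right])).eq_one_of_mem' hH hm
  rwa [mul_inv_eq_one, mul_inv_eq_iff_eq_mul] at h1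

theorem case1 (hq : q.Prime) (hQ : Syl q Q ⊤) (hB : ∀ x ∈ Q, PiNat {q} C[x].index ∨ PiNat {q}ᶜ C[x].index)
    (hy : y ∈ Q) (hy1 : PiNat {q} C[y].index) (hy2 : C[y] ≠ ⊤) : ∃ N, DP Q N ⊤ := by
  have := Fact.mk hq
  have W : ∀ x ∈ Q, PiNat {q} C[x].index → x ∈ O[{q}]((⊤ : Subgroup G)) := fun x hx h => by
    obtain ⟨k, hk⟩ := dvd_pow_of h index_ne_zero_of_finite
    obtain ⟨l, hl⟩ := (hQ.pi.piElt hx).exists_pow
    rw [pcore_top, piCore_singleton hq]
    exact H27.mem_pCore_of_index_pow hl hk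
  have ny : ¬ Q ≤ C[y] := fun h => hy2 (index_eq_one.1 (hy1.eq_one (by simpa using hQ.relIndex_of_le h)))
  have cn : ∀ R : Subgroup G, R ⊴ ⊤ → PGrp q R → ∀ x, PiNat {q}ᶜ C[x].index → x ∈ C(R) := fun R hR hR' x h =>
    le_cen1.1 (@H27.le_centralizer_of_coprime_index _ _ _ R (nml_top_iff.1 hR) x (PiNat.coprime hR' h))
  have hn : Q ⊴ ⊤ := by
    have := (le_or_le_of_forall fun x hx => (hB x hx).imp (W x hx) fun h =>
      cen_le_cen1 (W y hy hy1) (cn _ (pcore_nml _ _) (pcore_pi _ _) x h)).resolve_right ny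
    rw [le_antisymm this hQ.pcore_le]
    exact pcore_nml _ _
  have := nml_top_iff.1 hn.der
  have h2 := (le_or_le_of_forall (B := (center (G ⧸ ⁅Q, Q⁆)).comap (QuotientGroup.mk' _)) fun x hx =>
    (hB x hx).imp (fun h => ?_) fun h => cen_le_cen1 hy (cn _ hn hQ.pi x h)).resolve_right ny
  · obtain ⟨N, hN, hS⟩ := hQ.exists_compl hn.nrm
    refine ⟨N, hS.dp (coprime_cent_Phi (hQ.pi.cop hN.pi) (le_trans (commutator_le.2 fun a ha b _ => ?_) hQ.pi.der_le_Phi))⟩
    rw [← QuotientGroup.eq_one_iff, ← QuotientGroup.mk'_apply, map_commutatorElement, commutatorElement_eq_one_iff_mul_comm]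
    exact (mem_center_iff.1 (h2 ha) _).symm
  · refine mem_center_iff.2 fun g => ?_
    obtain ⟨g, rfl⟩ := QuotientGroup.mk'_surjective _ g
    obtain ⟨a, ha, c, hc, rfl⟩ := (hQ.mulEq_of_relIndex (R := C[x]) le_top (by simpa using h)).mul g trivial
    rw [← commutatorElement_eq_one_iff_mul_comm, ← map_commutatorElement, QuotientGroup.mk'_apply, QuotientGroup.eq_one_iff]
    convert commutator_mem_commutator ha hx using 1
    rw [commutatorElement_def, commutatorElement_def, mul_assoc a c, mem_cen1.1 hc]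
    group

theorem quo_nml {X : Type*} [Group X] [Finite X] (f : G →* X) (hf : Function.Surjective f) (hp : p.Prime)
    (hQ : Syl q Q ⊤) (hB : ∀ x ∈ Q, PiNat {p} C[x].index) (hO : pCore p X = ⊥) :
    Syl q (Q.map f) ⊤ ∧ Q.map f ⊴ ⊤ ∧ ∀ x ∈ Q.map f, PiNat {p} C[x].index := by
  have := Fact.mk hp
  have h1 : Syl q (Q.map f) ⊤ := by simpa [map_top_of_surjective f hf] using hQ.map (f := f)
  have h2 : ∀ x ∈ Q.map f, PiNat {p} C[x].index := by
    rintro _ ⟨x, hx, rfl⟩
    exact (hB x hx).of_dvd (H27.index_centralizer_map_dvd f hf x)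
  refine ⟨h1, ?_, h2⟩
  have : Q.map f ≤ F((⊤ : Subgroup X)) := fun x hx => by
    obtain ⟨k, hk⟩ := dvd_pow_of (h2 x hx) index_ne_zero_of_finite
    rw [fitting_top]
    exact (H27.mem_fitting_of_index_pow hO hk).1
  rw [le_antisymm (h1.pi.le_pcore_of_le_fitting this) h1.pcore_le]
  exact pcore_nml _ _

theorem case2 (hp : p.Prime) (hq : q.Prime) (hpq : p ≠ q) (hQ : Syl q Q ⊤) (hB : ∀ x ∈ Q, PiNat {p} C[x].index) :
    Ab Q ∧ (pCore p G ⊔ Q).Normal ∧ ∀ _h : (pPrimeCore q G).Normal, Group.IsSolvable (G ⧸ pPrimeCore q G) := by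
  have := Fact.mk hp
  have := Fact.mk hq
  have hab : Ab Q := ab_iff_forall.2 fun x hx y hy => by
    obtain ⟨k, hk⟩ := dvd_pow_of (hB x hx) index_ne_zero_of_finite
    obtain ⟨l, hl⟩ := dvd_pow_of (hB y hy) index_ne_zero_of_finite
    exact commutatorElement_eq_one_iff_mul_comm.1 ((hQ.pi.piElt (der_le Q (commutator_mem_commutator hx hy))).eq_one_of_mem
      ((pGrp_of_isPGroup hp H2.pCore_isPGroup).p' hpq) (H27.commutator_mem_pCore_of_index_pow hk hl))
  refine ⟨hab, ?_, fun _ => ?_⟩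
  · have := nml_top_iff.1 (quo_nml _ (QuotientGroup.mk'_surjective (pCore p G)) hp hQ hB H2.pCore_quotient_self).2.1
    have := this.comap (QuotientGroup.mk' (pCore p G))
    rwa [comap_map_eq, QuotientGroup.ker_mk', sup_comm] at this
  · have hO : O[{q}ᶜ]((⊤ : Subgroup (G ⧸ pPrimeCore q G))) = ⊥ := by
      rw [pcore_top, piCore_compl_singleton hq, H2.pPrimeCore_quotient_self]
    obtain ⟨h1, h2, h3⟩ := quo_nml _ (QuotientGroup.mk'_surjective (pPrimeCore q G)) hp hQ hB (by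
      rw [← piCore_singleton hp, ← pcore_top, eq_bot_iff, ← hO]
      exact pcore_pi_le hpq _)
    have h4 := hab.map (f := QuotientGroup.mk' (pPrimeCore q G))
    generalize Q.map (QuotientGroup.mk' (pPrimeCore q G)) = V at h1 h2 h3 h4
    obtain ⟨H, hH, hS⟩ := h1.exists_compl h2.nrm
    refine sol_top.1 (hS.sol h4.sol (porb_sol (p := p) hq h4 h1.pi hH.pi hS.nrm ?_ fun v hv => ?_))
    · refine pcore_eq_bot_iff.1 hO _ ⟨le_top, hS.sup.ge.trans (sup_le (cents_norm (centsC inf_le_right)) ?_)⟩ (hH.pi.inf_left _)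
      exact norms_subcent (le_nrm H) hS.nrm
    · have : MulEq C[v] H ⊤ := ⟨le_top, le_top, fun g hg => by
        obtain ⟨a, ha, b, hb, e⟩ := hS.mulEq.mul g hg
        exact ⟨a, h4.le_cen1 hv ha, b, hb, e⟩⟩
      rw [← this.relIndex_left, relIndex_top_right]
      exact h3 v hv

theorem uniq (hB : ∀ x : G, PiElt {q} x → ∃ r, r.Prime ∧ PiNat {r} C[x].index)
    (h2 : ∀ x : G, PiElt {q} x → PiNat {q} C[x].index → C[x] = ⊤) :
    ∃ p, p.Prime ∧ p ≠ q ∧ ∀ x : G, PiElt {q} x → PiNat {p} C[x].index := by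
  by_cases h : ∀ x : G, PiElt {q} x → C[x] = ⊤
  · obtain ⟨p, h1, hp⟩ := Nat.exists_infinite_primes (q + 1)
    exact ⟨p, hp, by omega, fun x hx => by rw [h x hx, index_top]; exact piNat_one _⟩
  push Not at h
  obtain ⟨x, hx, hx'⟩ := h
  obtain ⟨p, hp, hxp⟩ := hB x hx
  have hpq : p ≠ q := fun e => hx' (h2 x hx (e ▸ hxp))
  refine ⟨p, hp, hpq, fun y hy => ?_⟩
  obtain ⟨Q, hQ, hxQ⟩ := hx.zpowers.exists_syl le_top
  obtain ⟨g, -, hg⟩ := hQ.syl_elt (mem_top y) hy
  rw [← H27.index_centralizer_conj g]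
  generalize g * y * g⁻¹ = y at hg
  suffices C[y] = ⊤ ∨ PiNat {p} C[y].index from this.elim (fun e => by rw [e, index_top]; exact piNat_one _) id
  replace hy := hQ.pi.piElt hg
  obtain ⟨r, hr, hyr⟩ := hB y hy
  by_cases e : r = p
  · exact .inr (e ▸ hyr)
  by_cases e' : r = q
  · exact .inl (h2 y hy (e' ▸ hyr))
  obtain ⟨s, hs, h3⟩ := hB _ (hQ.pi.piElt (Q.mul_mem (hxQ (mem_zpowers x)) hg))
  by_cases e'' : s = r
  · refine absurd (idx_uniq hr hyr (hxp.p' (Ne.symm e)) ?_ (hx.pi (Ne.symm e'))) hx'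
    rw [← H27.index_centralizer_conj x, ← mul_assoc, mul_inv_cancel_right]
    exact e'' ▸ h3
  · exact .inl (idx_uniq hp hxp (hyr.p' e) (hxp.of_dvd (((h3.p' e'').coprime' hyr).dvd_of_dvd_mul_right
      (idx_mul_dvd (hxp.coprime (hyr.p' e))))) (hy.pi hpq.symm))

end

/-- Let G be a finite group and q a prime dividing its order such that every element of q-power order has a conjugacy class of prime-power size. Then G is q-solvable of q-length 1: there are normal subgroups K ≤ L of G with K of order prime to q, L/K a q-group and L of index prime to q. Moreover there is a prime p such that every element of q-power order has a class of p-power size (one prime serving for all of them), and for a Sylow q-subgroup Q: if p = q then Q is normal with a normal complement (a direct factor), while if p ≠ q then Q is abelian, the product of Q with the largest normal p-subgroup O_p(G) is normal in G, and G/O_{q'}(G) is solvable, where O_{q'}(G) is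 the largest normal subgroup of order prime to q. -/
theorem result {G : Type*} [Group G] [Finite G] (q : ℕ) [Fact q.Prime] (hq : q ∣ Nat.card G)
    (hBaer : ∀ x : G, (∃ k : ℕ, orderOf x = q ^ k) → ∃ (r : ℕ) (a : ℕ), r.Prime ∧ (Subgroup.centralizer ({x} : Set G)).index = r ^ a) (Q : Sylow q G) :
    (∃ K L : Subgroup G, K.Normal ∧ L.Normal ∧ K ≤ L ∧ (Nat.card K).Coprime q ∧ (∃ m : ℕ, K.relIndex L = q ^ m) ∧ L.index.Coprime q) ∧
    ∃ p : ℕ, p.Prime ∧ (∀ x : G, (∃ k : ℕ, orderOf x = q ^ k) → ∃ a : ℕ, (Subgroup.centralizer ({x} : Set G)).index = p ^ a) ∧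
      (p = q → (Q : Subgroup G).Normal ∧ ∃ N : Subgroup G, N.Normal ∧ N.IsComplement' (Q : Subgroup G)) ∧
      (p ≠ q → IsMulCommutative (Q : Subgroup G) ∧ (Cfsg.pCore p G ⊔ (Q : Subgroup G)).Normal ∧
        ∀ _h : (Cfsg.pPrimeCore q G).Normal, Group.IsSolvable (G ⧸ Cfsg.pPrimeCore q G)) := by
  have hq' : q.Prime := Fact.out
  have hQ := syl_top hq' Q
  have pe : ∀ x : G, PiElt {q} x ↔ ∃ k, orderOf x = q ^ k := fun x => pnat_iff hq' (orderOf_pos x).ne'
  have hB : ∀ x : G, PiElt {q} x → ∃ r, r.Prime ∧ PiNat {r} C[x].index := fun x hx => by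
    obtain ⟨r, a, hr, e⟩ := hBaer x ((pe x).1 hx)
    exact ⟨r, hr, e ▸ piNat_self_pow hr a⟩
  by_cases h : ∀ x : G, PiElt {q} x → PiNat {q} C[x].index → C[x] = ⊤
  · obtain ⟨p, hp, hpq, h1⟩ := uniq hB h
    have := Fact.mk hp
    have h2 := case2 hp hq' hpq hQ fun x hx => h1 x (hQ.pi.piElt hx)
    refine ⟨⟨pCore p G, pCore p G ⊔ Q, inferInstance, h2.2.1, le_sup_left, ?_, ?_, ?_⟩, p, hp, fun x hx =>
      (h1 x ((pe x).2 hx)).exists_pow index_ne_zero_of_finite, fun e => absurd e hpq, fun _ => h2⟩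
    · exact (p'grp_iff_coprime hq').1 ((pGrp_of_isPGroup hp H2.pCore_isPGroup).p' hpq)
    · rw [relIndex_sup_left]
      exact (hQ.pi.relIndex _).exists_pow (relIndex_pos _ _).ne'
    · exact (p'nat_iff_coprime hq').1 (by simpa using hQ.relIndex_of_le le_sup_right)
  · push Not at h
    obtain ⟨y, hy, h1, h2⟩ := h
    obtain ⟨g, -, hg⟩ := hQ.syl_elt (mem_top y) hy
    obtain ⟨N, hN⟩ := case1 hq' hQ (fun x hx => by
      obtain ⟨r, hr, h⟩ := hB x (hQ.pi.piElt hx)
      by_cases e : r = q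
      · exact .inl (e ▸ h)
      · exact .inr (h.p' e)) hg (by rwa [H27.index_centralizer_conj])
      (by rwa [Ne, ← index_eq_one, H27.index_centralizer_conj, index_eq_one])
    have hi : N.index = #(Q : Subgroup G) := by rw [← hN.sd.relIndex_right, relIndex_top_right]
    refine ⟨⟨N, ⊤, nml_top_iff.1 hN.nml_right, inferInstance, le_top, (p'grp_iff_coprime hq').1 (hN.sd.piGrp_right hQ),
      by rw [relIndex_top_right, hi]; exact hQ.pi.card, by simp⟩, q, hq', fun x hx => ?_, fun _ =>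
      ⟨nml_top_iff.1 hN.nml_left, N, nml_top_iff.1 hN.nml_right, hN.symm.sd.isComplement'_top⟩, fun e => absurd rfl e⟩
    refine (hQ.pi.piNat.of_dvd (hi ▸ index_dvd_of_le ?_)).exists_pow index_ne_zero_of_finite
    exact hN.cen.trans (cen_le_cen1 (hQ.mem_of_nml hN.nml_left.nrm trivial ((pe x).2 hx)))

end Cfsg.Agent.S4125
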