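import Cfsg.Statements.S4126
import Mathlib
import Cfsg.Agent.H4.Small

set_option autoImplicit false
open Cfsg

namespace Cfsg.Agent.S4126

/-- Let G be a finite group and p a prime. Suppose every element of order p, and when p = 2 also every element of order 4, has a conjugacy class of p-power size. Then G has a normal p-complement. -/
theorem result {G : Type*} [Group G] [Finite G] (p : ℕ) [Fact p.Prime]
    (h : ∀ x : G, (orderOf x = p ∨ (p = 2 ∧ orderOf x = 4)) → ∃ a : ℕ, (Subgroup.centralizer ({x} : Set G)).index = p ^ a) :
    Cfsg.HasNormalPComplement p G := by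
  obtain ⟨P⟩ : Nonempty (Sylow p G) := inferInstance
  refine H4.hasNPC_of_small_controls P fun a ha hs g hg => ?_
  by_cases h1 : a = 1
  · exact ⟨1, one_mem _, by simp [h1]⟩
  have : ∃ k : ℕ, (Subgroup.centralizer ({a} : Set G)).index = p ^ k := by
    by_cases h2 : a ^ p = 1
    · exact h a (Or.inl (orderOf_eq_prime h2 h1))
    · rcases hs with hs | ⟨rfl, hs⟩
      · exact absurd hs h2
      · refine h a (Or.inr ⟨rfl, ?_⟩)
        exact orderOf_eq_prime_pow (p := 2) (n := 1) (by simpa using h2) (by simpa using hs)
  obtain ⟨k, hk⟩ := this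
  exact H4.exists_mul_centralizer_of_index (H4.sylow_index_coprime P) hk g

end Cfsg.Agent.S4126
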