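import Cfsg.Statements.S4167
import Cfsg.Agent.FT.Main
import Cfsg.Agent.H27.ClassSize

set_option autoImplicit false
open Cfsg

namespace Cfsg.Agent.S4167

theorem exists_fixed {G : Type*} [Group G] [Finite G] [IsSimpleGroup G] (hc : ¬ IsMulCommutative G)
    {t : G} (ht : t ^ 2 = 1) (H : Subgroup G) (hH : ¬ 4 ∣ H.index) : ∃ g : G, g⁻¹ * t * g ∈ H := by
  classical
  have := Fintype.ofFinite (G ⧸ H)
  set f : G →* ℤˣ := Equiv.Perm.sign.comp (MulAction.toPermHom G (G ⧸ H)) with hf
  have h1 : f t = 1 := by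
    rcases (inferInstance : f.ker.Normal).eq_bot_or_eq_top with h | h
    · exact absurd ⟨⟨fun a b => (MonoidHom.ker_eq_bot_iff f).1 h (by rw [map_mul, map_mul, mul_comm])⟩⟩ hc
    · exact (h ▸ Subgroup.mem_top t : t ∈ f.ker)
  have h2 : (MulAction.toPermHom G (G ⧸ H) t) ^ 2 = 1 := by rw [← map_pow, ht, map_one]
  by_contra hcon
  push Not at hcon
  have h3 : ∀ y : G ⧸ H, MulAction.toPermHom G (G ⧸ H) t y ≠ y := by
    intro y
    induction y using QuotientGroup.induction_on with
    | H g =>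
      intro e
      have e' : ((t * g : G) : G ⧸ H) = g := e
      exact hcon g (by simpa [mul_assoc] using QuotientGroup.eq.1 e'.symm)
  have h4 : Fintype.card (Function.fixedPoints (MulAction.toPermHom G (G ⧸ H) t)) = 0 :=
    Fintype.card_eq_zero_iff.2 ⟨fun y => h3 y.1 y.2⟩
  have h5 := Equiv.Perm.two_dvd_card_support h2
  have h6 : (MulAction.toPermHom G (G ⧸ H) t).support = Finset.univ :=
    Finset.eq_univ_iff_forall.2 fun y => Equiv.Perm.mem_support.2 (h3 y)
  have h7 := Equiv.Perm.sign_of_pow_two_eq_one h2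
  rw [h4, Nat.sub_zero] at h7
  have h8 : Even (Fintype.card (G ⧸ H) / 2) := by
    by_contra ho
    rw [(Nat.not_even_iff_odd.1 ho).neg_one_pow] at h7
    exact absurd (h1.symm.trans h7) (by decide)
  rw [h6, Finset.card_univ] at h5
  rw [Subgroup.index_eq_card, Nat.card_eq_fintype_card] at hH
  obtain ⟨k, hk⟩ := h8
  omega


/-- Let G be a finite group in which no conjugacy class has size divisible by 4. Then G is solvable. -/
theorem result {G : Type*} [Group G] [Finite G]
    (h : ∀ x : G, ¬ 4 ∣ (Subgroup.centralizer ({x} : Set G)).index) : Group.IsSolvable G := by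
  refine H6.isSolvable_of_simple_sections
    (fun G _ => ∀ x : G, ¬ 4 ∣ (Subgroup.centralizer ({x} : Set G)).index)
    (fun G _ _ N _ h x hx => h x (hx.trans (H27.index_centralizer_normal_dvd N x)))
    (fun G _ _ N _ h x hx => ?_) (fun G _ _ _ h => ?_) G h
  · obtain ⟨y, rfl⟩ := QuotientGroup.mk'_surjective N x
    exact h y (hx.trans (H27.index_centralizer_map_dvd _ (QuotientGroup.mk'_surjective N) y))
  by_cases hc : IsMulCommutative G
  · exact Group.isSolvable_of_comm fun a b => hc.1.1 a b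
  by_cases ho : Odd (Nat.card G)
  · exact FT.odd_order_solvable ho
  have := Fact.mk Nat.prime_two
  obtain ⟨t, ht⟩ := exists_prime_orderOf_dvd_card' (G := G) 2 (Nat.not_odd_iff_even.1 ho).two_dvd
  have h1 : Subgroup.centralizer ({t} : Set G) = ⊤ := H6.eq_top_of_forall_conj_mem _ fun x => by
    obtain ⟨g, hg⟩ := exists_fixed hc (ht ▸ pow_orderOf_eq_one t) _ (h x)
    refine ⟨g, Subgroup.mem_centralizer_singleton_iff.2 ?_⟩
    have := Subgroup.mem_centralizer_singleton_iff.1 hg
    calc g * x * g⁻¹ * t = g * (x * (g⁻¹ * t * g)) * g⁻¹ := by group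
      _ = t * (g * x * g⁻¹) := by rw [← this]; group
  have h2 : t ∈ Subgroup.center G := Subgroup.mem_center_iff.2 fun g =>
    Subgroup.mem_centralizer_singleton_iff.1 (h1 ▸ Subgroup.mem_top g)
  rcases (inferInstance : (Subgroup.center G).Normal).eq_bot_or_eq_top with h3 | h3
  · rw [h3, Subgroup.mem_bot] at h2
    rw [h2, orderOf_one] at ht
    exact absurd ht (by decide)
  · exact absurd ⟨⟨fun a b => (Subgroup.mem_center_iff.1 (h3 ▸ Subgroup.mem_top b : b ∈ _) a)⟩⟩ hc

end Cfsg.Agent.S4167
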