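import Cfsg.Statements.S4130
import Mathlib
import Cfsg.Agent.H1.SqFree
import Cfsg.Agent.S4167

set_option autoImplicit false
open Cfsg

namespace Cfsg.Agent.S4130

open Cfsg.Agent.FT

/-- Let G be a finite group all of whose conjugacy class sizes are square-free. Then G is supersolvable, G/F(G) and the derived subgroup G′ are cyclic of square-free order (F(G) the Fitting subgroup, which is normal), F(G) has nilpotency class at most 2, and G is metabelian. -/
theorem result {G : Type*} [Group G] [Finite G]
    (h : ∀ x : G, Squarefree (Subgroup.centralizer ({x} : Set G)).index) :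
    Cfsg.IsSupersolvable G ∧ (Cfsg.fittingSubgroup G).Normal ∧
    (∀ _h : (Cfsg.fittingSubgroup G).Normal, IsCyclic (G ⧸ Cfsg.fittingSubgroup G) ∧ Squarefree (Cfsg.fittingSubgroup G).index) ∧
    IsCyclic (commutator G) ∧ Squarefree (Nat.card (commutator G)) ∧
    Subgroup.upperCentralSeries ↥(Cfsg.fittingSubgroup G) 2 = ⊤ ∧ commutator ↥(commutator G) = ⊥ := by
  have hSF := H1.sf_of_squarefree h
  have hs : Sol (⊤ : Subgroup G) := sol_top.2 (S4167.result fun x => hSF x 2 Nat.prime_two)
  obtain ⟨h1, h2, h3, h4, h5⟩ := hSF.structure hs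
  rw [fitting_top] at h3 h4 h5
  refine ⟨H1.ssol_top.1 (hSF.ssol hs), nml_top_iff.1 (fitting_top (G := G) ▸ fitting_nml ⊤),
    fun _ => ⟨?_, h4⟩, h1, h2, ?_, ?_⟩
  · have : IsMulCommutative (G ⧸ fittingSubgroup G) :=
      Subgroup.Normal.quotient_commutative_iff_commutator_le.2 h3
    have := IsZGroup.of_squarefree (G := G ⧸ fittingSubgroup G) h4
    have : Group.IsNilpotent (G ⧸ fittingSubgroup G) := nil_top.1 (ab_top.2 inferInstance).nil
    infer_instance
  · exact Subgroup.map_injective (Subgroup.subtype_injective _) (h5.trans (map_subtype_top _).symm)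
  · have := ab_iff_der.1 h1.ab
    rw [der_eq_map] at this
    exact (Subgroup.map_eq_bot_iff_of_injective _ (Subgroup.subtype_injective _)).1 this

end Cfsg.Agent.S4130
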