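import Mathlib
import Cfsg.Agent.H28.Cls
-- Template for statement S4134 (row 4134; see /opt/grader/pristine/manifest.json for weights).
-- Copy to Cfsg/Agent/S4134.lean and replace the sorry. The statement below is byte-identical to the frozen
-- statement Cfsg.CfsgFrozen.S4134 (Cfsg/Statements/S4134.lean; the theorem Cfsg.fg7_two_class_sizes_structure);
-- the grader kernel-checks Cfsg.Agent.S4134.result against that frozen type. Keep the theorem IN THIS FILE
-- (a `result` declared elsewhere and merely imported here is not credited); helpers may live anywhere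
-- under Cfsg/Agent/.
import Cfsg.Statements.S4134
-- import your own Cfsg.Agent.* helpers here

set_option autoImplicit false
open Cfsg

namespace Cfsg.Agent.S4134

/-- Let G be a finite group whose conjugacy classes have exactly two sizes, 1 and n > 1. Then n is a power of a prime p and G is the direct product of a p-group and an abelian group of order prime to p: its Sylow p-subgroup P is normal with an abelian normal complement centralizing it; moreover P has an abelian normal subgroup A with P/A of exponent dividing p. -/
theorem result {G : Type*} [Group G] [Finite G] (n : ℕ) (hn : 1 < n)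
    (h : ∀ x : G, (Subgroup.centralizer ({x} : Set G)).index = 1 ∨ (Subgroup.centralizer ({x} : Set G)).index = n) (hex : ∃ x : G, (Subgroup.centralizer ({x} : Set G)).index = n) :
    ∃ (p : ℕ) (_ : Fact p.Prime) (a : ℕ), n = p ^ a ∧ ∀ P : Sylow p G, (P : Subgroup G).Normal ∧
      (∃ N : Subgroup G, N.Normal ∧ N.IsComplement' (P : Subgroup G) ∧ IsMulCommutative N ∧
        ∀ x ∈ N, ∀ y ∈ (P : Subgroup G), x * y = y * x) ∧
      ∃ A : Subgroup (P : Subgroup G), A.Normal ∧ IsMulCommutative A ∧ ∀ y : (P : Subgroup G), y ^ p ∈ A := by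
  open Subgroup Cfsg.Agent.FT Cfsg.Agent.H28 in
  open scoped commutatorElement Pointwise in
  · obtain ⟨x0, hx0⟩ := hex
    have hx0' : x0 ∉ center G := fun hh => by rw [cs_eq_one.2 hh] at hx0; omega
    obtain ⟨p, hp, hpn⟩ := Nat.exists_prime_and_dvd hn.ne'
    have h1 : ∀ q, q.Prime → q ∣ n → q = p := fun q hq hqn => ito_prime_eq h ⟨x0, hx0'⟩ hq hp hqn hpn
    obtain ⟨a, ha⟩ := (pnat_iff hp (by omega : n ≠ 0)).1 h1
    have h2 : ∀ r, r.Prime → r ≠ p → ∀ x : G, PiElt {r} x → x ∈ center G := fun r hr hne x hx =>
      mem_center_of_pElt hr (fun y hy => by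
        rcases h y with h3 | h3
        · rw [h3] at hy; exact hr.one_lt.ne' (Nat.dvd_one.1 hy)
        · exact hne (h1 r hr (h3 ▸ hy))) hx
    have hnil := nil_of_p'_central h2
    haveI : Fact p.Prime := ⟨hp⟩
    refine ⟨p, inferInstance, a, ha, fun P => ?_⟩
    have hP := syl_top hp P
    have hdp := hnil.dp_pcore {p}
    rw [← hnil.hall_eq hP] at hdp
    have hc : O[{p}ᶜ]((⊤ : Subgroup G)) ≤ center G := le_of_forall_pElt fun r hr x hx hx' => by
      by_cases h0 : x = 1
      · rw [h0]; exact one_mem _
      · refine h2 r hr (fun e => h0 ?_) x hx'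
        exact (e ▸ hx').eq_one ((pcore_pi _ _).piElt hx)
    refine ⟨nml_top_iff.1 hdp.nml_left, ⟨_, nml_top_iff.1 hdp.nml_right, hdp.symm.sd.isComplement'_top,
      ab_iff.2 (hc.trans (center_le_cen' _)), fun x hx y _ => (mem_center_iff.1 (hc hx) y).symm⟩,
      center P, inferInstance, inferInstance, fun y => ?_⟩
    refine pow_mem_center_of_rank_one (m := n) P.isPGroup' (fun y => ?_) y
    have e : (C[y]).index = (C[(y : G)]).index := by
      have e1 : C[y] = (C[(y : G)]).subgroupOf P := by
        ext z; simp [mem_subgroupOf, mem_cen1, Subtype.ext_iff]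
      rw [e1, ← relIndex_top_right (H := C[(y : G)])]
      exact ((hdp.symm.mulEq.mono (hc.trans (center_le_cen1 _)) le_top le_rfl le_top).relIndex_left).symm
    rw [e]; exact h y

end Cfsg.Agent.S4134
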