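import Mathlib
import Cfsg.Agent.H28.Cls2
-- Template for statement S4138 (row 4138; see /opt/grader/pristine/manifest.json for weights).
-- Copy to Cfsg/Agent/S4138.lean and replace the sorry. The statement below is byte-identical to the frozen
-- statement Cfsg.CfsgFrozen.S4138 (Cfsg/Statements/S4138.lean; the theorem Cfsg.fg7_coprime_largest_class_sizes_quasi_frobenius);
-- the grader kernel-checks Cfsg.Agent.S4138.result against that frozen type. Keep the theorem IN THIS FILE
-- (a `result` declared elsewhere and merely imported here is not credited); helpers may live anywhere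
-- under Cfsg/Agent/.
import Cfsg.Statements.S4138
-- import your own Cfsg.Agent.* helpers here

set_option autoImplicit false
open Cfsg

namespace Cfsg.Agent.S4138

/-- Let G be a finite group whose two largest conjugacy class sizes m > n > 1 are coprime, and let x, y ∈ G have classes of sizes n and m respectively. Then C_G(x) and C_G(y) are abelian, and G/Z(G) is a Frobenius group with kernel C_G(x)/Z(G) and complement C_G(y)/Z(G). -/
theorem result {G : Type*} [Group G] [Finite G] (m n : ℕ) (hmn : n < m) (hn : 1 < n)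
    (hcop : m.Coprime n) (htop : ∀ z : G, (Subgroup.centralizer ({z} : Set G)).index ≤ m) (hsecond : ∀ z : G, (Subgroup.centralizer ({z} : Set G)).index < m → (Subgroup.centralizer ({z} : Set G)).index ≤ n)
    (x y : G) (hx : (Subgroup.centralizer ({x} : Set G)).index = n) (hy : (Subgroup.centralizer ({y} : Set G)).index = m) :
    IsMulCommutative (Subgroup.centralizer ({x} : Set G)) ∧ IsMulCommutative (Subgroup.centralizer ({y} : Set G)) ∧
    Cfsg.IsFrobeniusComplement ((Subgroup.centralizer ({y} : Set G)).map (QuotientGroup.mk' (Subgroup.center G))) ∧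
    Cfsg.frobeniusKernel ((Subgroup.centralizer ({y} : Set G)).map (QuotientGroup.mk' (Subgroup.center G))) =
      ((Subgroup.centralizer ({x} : Set G)).map (QuotientGroup.mk' (Subgroup.center G)) : Set (G ⧸ Subgroup.center G)) := by
  open Subgroup Cfsg.Agent.FT Cfsg.Agent.H28 in
  open scoped commutatorElement Pointwise in
  · subst hy
    set π : Set ℕ := {r | r ∣ (C[y]).index} with hπ
    have hm : PiNat π (C[y]).index := fun r _ h => h
    have hnπ : PiNat πᶜ n := fun r hr h h' => hr.one_lt.ne' (Nat.eq_one_of_dvd_coprimes hcop h' h)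
    have hab := bhm_ab htop
    have hxM : x ∈ bhm y := mem_bhm (hx ▸ hcop.symm)
    have hcen : ∀ u ∈ bhm y, PiElt πᶜ u → u ∈ center G := fun u hu h =>
      h.mem_of_pow_mem (piNat_compl_compl.2 hm) (bhm_pow_mem htop hu)
    have hx1 : constt πᶜ x ∈ center G := hcen _ (constt_mem _ hxM) (piElt_constt _ _)
    have hx2 : C[constt π x] = C[x] := by rw [← cen1_constt_inf π x, cen1_eq_top_iff.2 hx1, inf_top_eq]
    have hdvd : ∀ g : G, n ∣ (C[g]).index → (C[g]).index = n := fun g hg => by
      refine le_antisymm (hsecond g (lt_of_le_of_ne (htop g) fun e => ?_)) (Nat.le_of_dvd (cs_pos g) hg)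
      exact hn.ne' (Nat.eq_one_of_dvd_coprimes hcop (e ▸ hg) dvd_rfl)
    have hgt : ∀ g : G, n < (C[g]).index → (C[g]).index = (C[y]).index := fun g hg => by
      by_contra e
      exact absurd (hsecond g (lt_of_le_of_ne (htop g) e)) (not_le.2 hg)
    have h1 : ∀ u ∈ C[x], PiElt πᶜ u → u ∈ center G := fun u hu h => by
      have e := cen1_mul_pi (piElt_constt π x) h (mem_cen1.1 (hx2 ▸ hu)).symm
      rw [hx2] at e
      have e2 := hdvd (constt π x * u) (by rw [e, ← hx]; exact index_dvd_of_le inf_le_left)
      rw [e] at e2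
      have e3 : C[x] ⊓ C[u] = C[x] := eq_of_le_of_index_le inf_le_left (by rw [e2, hx])
      exact hcen u (mem_bhm (Nat.Coprime.coprime_dvd_left (hx ▸ index_dvd_of_le (inf_eq_left.1 e3)) hcop.symm)) h
    have hW : O[π](bhm y) ⊴ ⊤ := (nml_top _).pcore _
    have hxW : constt π x ∈ O[π](bhm y) := hab.nil.mem_pcore (constt_mem _ hxM) (piElt_constt _ _)
    have h2 : ∀ z : G, z ∉ center G → (C[z]).index.Coprime n → (C[z]).index = (C[y]).index := fun z hz hc => by
      rw [← hx] at hc
      by_cases hle : (C[z * x]).index ≤ (C[x]).index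
      · exfalso
        have a1 : PiGrp πᶜ (clsStab x) := hnπ.of_dvd (hx ▸ card_clsStab_dvd x)
        have a2 : clsStab x ≤ C[x] := by
          rw [← hx2]
          exact ((nml_top _).cents_of_cop hW (a1.cop' (pcore_pi _ _))).trans (cen_le_cen1 hxW)
        refine hz (mem_center_iff.2 fun g => commutatorElement_eq_one_iff_mul_comm.1 ?_)
        have a3 := comm_mem_clsStab hc hle g
        obtain ⟨k, hk⟩ := isConj_iff.1 (mem_clsStab.1 a3 x (IsConj.refl x))
        have a4 := congrArg (constt πᶜ) hk
        rw [constt_conj, constt_mul _ (mem_cen1.1 (a2 a3)), (a1.piElt a3).constt_eq, mem_center_iff.1 hx1 k] at a4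
        simpa using a4.symm
      · have a1 := hgt (z * x) (hx ▸ not_le.1 hle)
        have a2 : (C[z * x]).index ∣ (C[z] ⊓ C[x]).index :=
          index_dvd_of_le fun g hg => cen1_comm.1 (mul_mem (cen1_comm.1 hg.1) (cen1_comm.1 hg.2))
        have a3 := (mulEq_of_coprime_relIndex (A := C[z]) (B := C[x]) (M := ⊤) le_top le_top
          (by rwa [relIndex_top_right, relIndex_top_right])).relIndex_left
        rw [a1, ← relIndex_mul_index inf_le_right, inf_relIndex_right, ← a3, relIndex_top_right, hx] at a2
        exact le_antisymm (htop z) (Nat.le_of_dvd (cs_pos z) (hcop.dvd_of_dvd_mul_right a2))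
    have h2' : ∀ z : G, z ∉ center G → (C[z]).index ∣ (C[y]).index → (C[z]).index = (C[y]).index :=
      fun z hz hd => h2 z hz (Nat.Coprime.coprime_dvd_left hd hcop)
    have h3 : ∀ v : G, v ∉ center G → PiElt πᶜ v → (C[v]).index = (C[y]).index := fun v hv hv' => by
      have hn' : ⟪v⟫ ≤ N(O[π](bhm y)) := le_top.trans hW.nrm
      have hc : Cop O[π](bhm y) ⟪v⟫ := (pcore_pi _ _).cop hv'.zpowers
      have hab0 : Ab O[π](bhm y) := hab.mono (pcore_le _ _)
      have hdp := coprime_abelian_cent_dprod hn' hc hab0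
      have hti := coprime_abel_cent_TI hn' hc hab0
      rw [cen_zpowers] at hdp hti
      set U := ⁅O[π](bhm y), ⟪v⟫⁆ with hU
      obtain ⟨w, hw, c, hc', e⟩ := hdp.mulEq.mul _ hxW
      have hw1 : w ≠ 1 := fun hh => hv (h1 v (by
        rw [← hx2, e, hh, one_mul]; exact cen1_comm.1 hc'.2) hv')
      have e1 := cen1_mul_pi ((pcore_pi _ _).piElt hc'.1) hv' (mem_cen1.1 hc'.2)
      have a1 : C[c * v] ≤ N(U) := normsR (le_top.trans hW.nrm) (norms_zpowers_of_cen1 (e1 ▸ inf_le_right))
      have a2 : (C[w]).relIndex C[c * v] < #U := by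
        rw [← ncard_conj_set, ← ncard_coe]
        refine Set.ncard_lt_ncard ⟨?_, fun hh => ?_⟩ (Set.toFinite _)
        · rintro _ ⟨g, hg, rfl⟩; exact conj_mem (a1 hg) hw
        · obtain ⟨g, -, e⟩ := hh (one_mem U); exact conj_ne_one.2 hw1 e
      have a3 : U ⊔ (C[w] ⊓ C[c * v]) ≤ C[x] := by
        refine sup_le ((hdp.left.trans (pcore_le _ _)).trans (hab.le_cen1 hxM)) fun g hg => ?_
        rw [← hx2, e]
        exact cen1_comm.1 (mul_mem (cen1_comm.1 hg.1) (cen1_comm.1 (e1 ▸ hg.2).1))
      have a4 := card_sup_of_inf (A := U) (B := C[w] ⊓ C[c * v]) (inf_le_right.trans a1)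
        (inf_eq_bot_mono hti le_rfl (inf_le_right.trans (e1 ▸ inf_le_right)))
      have a5 := card_le a3
      have a6 := FT.card_inf_mul_relIndex C[w] C[c * v]
      have a7 : #C[c * v] < #C[x] := by
        rw [← a6]
        refine lt_of_lt_of_le ?_ a5
        rw [a4, mul_comm]
        exact Nat.mul_lt_mul_of_lt_of_le a2 le_rfl (card_pos _)
      have a8 : n < (C[c * v]).index := by
        have g1 := (C[x]).card_mul_index
        have g2 := (C[c * v]).card_mul_index
        by_contra hh
        have : #C[c * v] * (C[c * v]).index < #C[x] * (C[x]).index :=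
          Nat.mul_lt_mul_of_lt_of_le a7 (hx ▸ not_lt.1 hh) (cs_pos x)
        omega
      exact h2' v hv (hgt _ a8 ▸ index_dvd_of_le (e1 ▸ inf_le_right))
    have h4 : ∀ k : G, k ∉ center G → PiElt π k → (C[k]).index = n := fun k hk hk' => by
      have a1 : ∀ v ∈ C[k], PiElt πᶜ v → v ∈ center G := fun v hv hv' => by
        by_contra hvZ
        obtain ⟨r, hr, hrk, hr'⟩ : ∃ r, r.Prime ∧ r ∣ orderOf k ∧ constt {r} k ∉ center G := by
          by_contra hc; push Not at hc
          exact hk (mem_of_forall_constt hc)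
        have hrπ : r ∈ π := hk' r hr hrk
        set k' := constt {r} k
        have b0 : PiElt {r} k' := piElt_constt _ _
        have b1 := cen1_mul_pi (b0.pi hrπ) hv' (mem_cen1.1 (cen1_le_cen1_constt _ _ hv)).symm
        have b2 : C[k'] ⊓ C[v] = C[v] := eq_of_le_of_index_le inf_le_right (by
          rw [← b1, h3 v hvZ hv']; exact htop _)
        have b3 : C[v] = C[k'] := eq_of_le_of_index_le (inf_eq_right.1 b2) (by
          rw [h3 v hvZ hv', h2' k' hr' (h3 v hvZ hv' ▸ index_dvd_of_le (inf_eq_right.1 b2))])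
        obtain ⟨R, hR, hRx⟩ := exists_syl_le_of_not_dvd (H := C[x]) hr (hx ▸ hnπ.not_dvd hr hrπ)
        obtain ⟨g, -, hg⟩ := hR.syl_elt (mem_top k') b0
        have b4 := cen1_comm.1 (hRx hg)
        rw [← cj_cen1, ← b3, cj_cen1] at b4
        have b5 := h1 _ (cen1_comm.1 b4) (hv'.conj g)
        exact hvZ (by simpa [mul_assoc] using (center G).normal_of_characteristic.conj_mem _ b5 g⁻¹)
      have a2 : PiNat π ((center G).relIndex C[k]) :=
        piNat_relIndex_of_forall fun r _ hr v hv hv' => a1 v hv (hv'.pi hr)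
      refine hdvd k ((hnπ.coprime' a2).dvd_of_dvd_mul_left ?_)
      rw [relIndex_mul_index (center_le_cen1 k), ← hx]
      exact index_dvd_of_le (center_le_cen1 x)
    have h5 : C[x] = bhm y := by
      refine le_antisymm (fun k hk => mem_of_constt_mem π ?_ ?_) (hab.le_cen1 hxM)
      · by_cases h : constt π k ∈ center G
        · exact center_le_bhm y h
        · exact mem_bhm (h4 _ h (piElt_constt _ _) ▸ hcop.symm)
      · exact center_le_bhm y (h1 _ (constt_mem _ hk) (piElt_constt _ _))
    have hxZ : x ∉ center G := fun hh => by rw [cs_eq_one.2 hh] at hx; omega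
    have hK : QF C[x] := by
      refine ⟨h5 ▸ inferInstance, h5 ▸ hab, lt_of_le_of_ne (center_le_cen1 x) fun e => hxZ (e ▸ self_mem_cen1 x),
        mt cen1_eq_top_iff.1 hxZ, fun k hk hkZ => ?_, ?_⟩
      · have a1 : constt π k ∉ center G := fun hh =>
          hkZ (mem_of_constt_mem π hh (h1 _ (constt_mem _ hk) (piElt_constt _ _)))
        have a2 : C[x] ≤ C[k] := (h5 ▸ hab : Ab C[x]).le_cen1 hk
        refine le_antisymm ?_ a2
        rw [eq_of_le_of_index_le (a2.trans (cen1_le_cen1_constt π k)) (by rw [hx, h4 _ a1 (piElt_constt _ _)])]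
        exact cen1_le_cen1_constt π k
      · rw [hx]
        exact hnπ.coprime' (piNat_relIndex_of_forall fun r _ hr v hv hv' => h1 v hv (hv'.pi hr))
    have hy : y ∉ C[x] := fun hh => by
      by_cases hyZ : y ∈ center G
      · rw [cs_eq_one.2 hyZ] at hmn; omega
      · rw [hK.cen y hh hyZ] at hmn; omega
    have hi := hK.inf_cen1 hy
    have hs := (mulEq_of_coprime_relIndex (A := C[x]) (B := C[y]) (M := ⊤) le_top le_top
      (by rw [relIndex_top_right, relIndex_top_right, hx]; exact hcop.symm)).sup
    refine ⟨hK.ab, ?_, H27.compl_of_frob_top (hK.frob hi hs)⟩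
    refine ab_iff.2 (le_cen_iff_forall.2 fun v hv => ?_)
    by_cases hvZ : v ∈ center G
    · rw [cen1_eq_top_iff.2 hvZ]; exact le_top
    · exact (eq_of_le_of_index_le (hK.cen1_le hi hs hv hvZ) (htop v)).ge

end Cfsg.Agent.S4138
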