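import Cfsg.Statements.S4139
import Mathlib
import Cfsg.Agent.H27.Count
import Cfsg.Agent.H28.Util
import Cfsg.Agent.FT.PLen

set_option autoImplicit false
open Cfsg

namespace Cfsg.Agent.S4139

open Cfsg.Agent.FT Subgroup
open scoped commutatorElement

theorem cls {G : Type*} [Group G] [Finite G] (x : G) : Nat.card (ConjClasses.mk x).carrier = C[x].index := by
  rw [← relIndex_top_right, ← H28.ncard_conj_set, ← Nat.card_coe_set_eq]
  congr 2; ext y
  rw [ConjClasses.mem_carrier_iff_mk_eq, ConjClasses.mk_eq_mk_iff_isConj, isConj_comm]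
  simp

theorem cnt {G H : Type*} [Group G] [Finite G] [Group H] [Finite H] (h : ∀ k : ℕ,
    Nat.card {C : ConjClasses G // Nat.card C.carrier = k} = Nat.card {C : ConjClasses H // Nat.card C.carrier = k})
    (Φ : ℕ → Prop) : Nat.card {x : G | Φ C[x].index} = Nat.card {x : H | Φ C[x].index} := by
  have e := fun k => (Finite.card_eq.1 (h k)).some
  let E := Equiv.ofFiberEquiv e
  have hE : ∀ c, Nat.card (E c).carrier = Nat.card c.carrier := Equiv.ofFiberEquiv_map e
  let F : G ≃ H := Equiv.ofFiberEquiv (f := E ∘ ConjClasses.mk) (g := ConjClasses.mk) fun c =>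
    (Finite.card_eq.1 (by
      obtain ⟨c, rfl⟩ := E.surjective c
      simpa [← ConjClasses.mem_carrier_iff_mk_eq] using (hE c).symm)).some
  refine Nat.card_congr (F.subtypeEquiv fun x => ?_)
  have : ConjClasses.mk (F x) = E (ConjClasses.mk x) := Equiv.ofFiberEquiv_map _ x
  simp only [Set.mem_ofPred_eq, ← cls, this, hE]

theorem key {G : Type*} [Group G] [Finite G] {p : ℕ} (hp : p.Prime) : ∃ m, ¬ p ∣ m ∧
    Nat.card {x : G | PiNat {p} C[x].index} = #C(piGen {p}ᶜ (⊤ : Subgroup G)) * m := by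
  have n1 := piGen_nml {p}ᶜ (⊤ : Subgroup G)
  have h1 := piGen_relIndex {p}ᶜ (⊤ : Subgroup G)
  have h2 := fun K => piGen_min (π := {p}ᶜ) (M := piGen {p}ᶜ (⊤ : Subgroup G)) (K := K)
  rw [piGen_idem] at h2
  rw [compl_compl] at h1 h2
  generalize piGen {p}ᶜ (⊤ : Subgroup G) = O at *
  haveI := nml_top_iff.1 n1
  have h3 : ∀ x : G, PiNat {p} C[x].index ↔ PiNat {p} (C[x].relIndex O) := fun x =>
    ⟨fun h => ((h1.of_dvd (relIndex_dvd_of_norm (le_top (a := C[x])) n1.nrm)).mul h).of_dvd (by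
      rw [← inf_relIndex_right, ← inf_relIndex_left C[x] O, relIndex_mul_index inf_le_left,
        ← relIndex_mul_index (inf_le_right : C[x] ⊓ O ≤ O)]
      exact dvd_mul_right _ _), fun h => by
      rw [← inf_relIndex_right] at h
      exact (h.mul h1).of_dvd (by
        rw [relIndex_top_right, relIndex_mul_index inf_le_right]; exact index_dvd_of_le inf_le_left)⟩
  have h4 : ∀ x : G, ∀ c ∈ C(O), C[x * c].relIndex O = C[x].relIndex O := fun x c hc => by
    rw [← inf_relIndex_right, ← inf_relIndex_right C[x]]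
    congr 1; ext y
    refine and_congr_left fun hy => ?_
    change y ∈ C[x * c] ↔ y ∈ C[x]
    rw [mem_cen1, mem_cen1, ← mul_assoc, mul_assoc x, ← mem_cen.1 hc y hy, ← mul_assoc, mul_left_inj]
  set T : Set (G ⧸ C(O)) := QuotientGroup.mk '' {x : G | PiNat {p} C[x].index} with hT
  have h5 : ∀ x : G, (x : G ⧸ C(O)) ∈ T ↔ PiNat {p} C[x].index := fun x => ⟨fun ⟨y, a, b⟩ => by
    rw [h3, ← mul_inv_cancel_left y x, h4 _ _ (QuotientGroup.eq.1 b), ← h3]; exact a, fun h => ⟨x, h, rfl⟩⟩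
  refine ⟨Nat.card T, fun c => ?_, by rw [← QuotientGroup.card_preimage_mk]; congr 2; ext x; exact (h5 x).symm⟩
  have h6 : p ∣ (T \ {1}).ncard := H27.dvd_ncard_of_fibers (f := fun a => {y | ∃ n ∈ O.map (QuotientGroup.mk' _), n * a * n⁻¹ = y})
    fun a ha => by
    have : {y | y ∈ T \ {1} ∧ {z | ∃ n ∈ O.map (QuotientGroup.mk' _), n * y * n⁻¹ = z} =
        {z | ∃ n ∈ O.map (QuotientGroup.mk' _), n * a * n⁻¹ = z}} =
        {z | ∃ n ∈ O.map (QuotientGroup.mk' _), n * a * n⁻¹ = z} := by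
      ext y
      refine ⟨fun h => h.2 ▸ ⟨1, one_mem _, by simp⟩, ?_⟩
      rintro ⟨n, hn, rfl⟩
      refine ⟨⟨?_, conj_ne_one.2 ha.2⟩, Set.ext fun z => ⟨fun ⟨m, a, b⟩ => ⟨m * n, mul_mem a hn, by rw [← b]; group⟩,
        fun ⟨m, a, b⟩ => ⟨m * n⁻¹, mul_mem a (inv_mem hn), by rw [← b]; group⟩⟩⟩
      obtain ⟨x, hx, rfl⟩ := ha.1
      obtain ⟨n, -, rfl⟩ := hn
      refine ⟨n * x * n⁻¹, ?_, rfl⟩
      rwa [Set.mem_ofPred_eq, ← cj_cen1, ← relIndex_top_right, ← cj_top n, relIndex_cj, relIndex_top_right]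
    rw [this, H28.ncard_conj_set, ← relIndex_comap]
    obtain ⟨x, hx, rfl⟩ := ha.1
    obtain ⟨_ | i, hi⟩ := (((h3 x).1 hx).of_dvd (relIndex_dvd_of_le_left O (show C[x] ≤ C[(x : G ⧸ C(O))].comap
      (QuotientGroup.mk' _) from fun y hy => mem_cen1.2 (congrArg (QuotientGroup.mk' _) (mem_cen1.1 hy))))).exists_pow
        (relIndex_pos _ _).ne'
    swap
    · exact hi ▸ dvd_pow_self p i.succ_ne_zero
    have a1 : ⁅O, ⟪x⟫⁆ ≤ C(O) := by
      rw [← QuotientGroup.ker_mk' C(O), ← Subgroup.map_eq_bot_iff, map_commutator, MonoidHom.map_zpowers,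
        comm_eq_bot, cen_zpowers]
      exact map_le_iff_le_comap.2 (relIndex_eq_one.1 hi)
    refine absurd ((QuotientGroup.eq_one_iff x).2 (le_cen1.1 ((h2 (O ⊓ C[x]) (nml_of_der_le (le_inf (der_le O)
      (cen_zpowers x ▸ comm_eq_bot.1 (three_subgroup (comm_eq_bot.2 a1) (comm_eq_bot.2 (commC O _ ▸ a1)))))
      inf_le_left).nrm (by rw [inf_relIndex_left]; exact (h3 x).1 hx)).trans inf_le_right))) ha.2
  have h7 : (1 : G ⧸ C(O)) ∈ T := ⟨1, by simp [cen1_one, piNat_one], rfl⟩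
  rw [Nat.card_coe_set_eq, ← Set.ncard_sdiff_singleton_add_one h7] at c
  exact hp.not_dvd_one ((Nat.dvd_add_right h6).1 c)

/-- Let G and H be finite groups such that for every natural number k, G and H have the same number of conjugacy classes of size k. If H is nilpotent then G is nilpotent. -/
theorem result {G H : Type*} [Group G] [Finite G] [Group H] [Finite H]
    (hH : Group.IsNilpotent H)
    (h : ∀ k : ℕ, Nat.card {C : ConjClasses G // Nat.card C.carrier = k} = Nat.card {C : ConjClasses H // Nat.card C.carrier = k}) :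
    Group.IsNilpotent G := by
  have h0 : Nat.card G = Nat.card H := by simpa using cnt h fun _ => True
  refine nil_top.1 (nil_of_forall_syl fun p P hp hP => ?_)
  obtain ⟨m, a1, a2⟩ := key (G := G) hp
  obtain ⟨n, b1, b2⟩ := key (G := H) hp
  obtain ⟨Q, hQ⟩ := exists_syl p (⊤ : Subgroup H)
  have c1 : Q ≤ C(piGen {p}ᶜ ⊤) := centsC (piGen_le_iff.2 fun x _ hx => zpowers_le.1
    ((nil_top.2 hH).cents_of_pi le_top le_top hx.zpowers (by rw [compl_compl]; exact hQ.pi)))
  have c2 : #P ∣ #C(piGen {p}ᶜ (⊤ : Subgroup G)) := by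
    refine (hP.pi.piNat.coprime ((p'nat_iff hp).2 a1)).dvd_of_dvd_mul_right ?_
    rw [← a2, cnt h, b2, hP.card, card_top', h0, ← card_top', ← hQ.card]
    exact (card_dvd c1).mul_right _
  have n1 := piGen_nml {p}ᶜ (⊤ : Subgroup G)
  have c3 := hP.inf_nml ⟨le_top, norms_cent n1.nrm⟩
  have c4 := eq_of_card_le inf_le_left (Nat.le_of_dvd (card_pos _) (c3.card ▸ hP.pi.piNat.dvd_partn (card_ne_zero _) c2))
  exact (Hall.piGen_sup (π := {p}ᶜ) (by rw [compl_compl]; exact hP)).ge.trans <| sup_le (cents_norm (centsC (inf_eq_left.1 c4))) (le_nrm P)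

end Cfsg.Agent.S4139
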