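import Cfsg.Statements.S4140
import Mathlib
import Cfsg.Agent.H5.Frob
import Cfsg.Agent.H4.Ito
import Cfsg.Agent.FT.BG01

set_option autoImplicit false
open Cfsg

namespace Cfsg.Agent.S4140

open Cfsg.Agent.FT Subgroup
open scoped commutatorElement

variable {G : Type*} [Group G] [Finite G] {N : Subgroup G} [hN : N.Normal] {p q : ℕ} {x : G}

/-- Camina pairs -/
def Cam (N : Subgroup G) : Prop := ∀ g : G, g ∉ N → ∀ n ∈ N, ∃ x : G, x * g * x⁻¹ = g * n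

/-- centraliser modulo `N` -/
abbrev DD (N : Subgroup G) [N.Normal] (x : G) : Subgroup G := C[(x : G ⧸ N)].comap (QuotientGroup.mk' N)

theorem nN (X : Subgroup G) : X ≤ N(N) := le_top.trans (nml_top_iff.2 hN).nrm

theorem card_cls (K : Subgroup G) (x : G) : Nat.card {y | ∃ k ∈ K, y = k * x * k⁻¹} = C[x].relIndex K := by
  let : MulAction K G := MulAction.compHom G (((ConjAct.toConjAct (G := G)).toMonoidHom).comp K.subtype)
  have : {y | ∃ k ∈ K, y = k * x * k⁻¹} = MulAction.orbit K x := by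
    ext y
    exact ⟨fun ⟨k, hk, e⟩ => ⟨⟨k, hk⟩, e.symm⟩, fun ⟨k, e⟩ => ⟨k, k.2, e.symm⟩⟩
  rw [this, Nat.card_coe_set_eq, ← MulAction.index_stabilizer, relIndex]
  congr 1
  ext k
  rw [MulAction.mem_stabilizer_iff, mem_subgroupOf, mem_cen1]
  exact mul_inv_eq_iff_eq_mul

theorem card_coset (K : Subgroup G) (x : G) : Nat.card {y | x⁻¹ * y ∈ K} = #K :=
  Nat.card_congr ((Equiv.mulLeft x⁻¹).subtypeEquiv fun _ => Iff.rfl)

theorem mem_DD {g : G} : g ∈ DD N x ↔ x⁻¹ * (g * x * g⁻¹) ∈ N := by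
  rw [mem_comap, mem_cen1, ← QuotientGroup.eq, eq_comm (b := ((g * x * g⁻¹ : G) : G ⧸ N)), QuotientGroup.mk_mul,
    QuotientGroup.mk_mul, QuotientGroup.mk_inv, mul_inv_eq_iff_eq_mul]
  rfl

theorem cen_le_DD : C[x] ≤ DD N x := fun g hg => mem_DD.2 (by rw [mem_cen1.1 hg]; simp)

theorem le_DD : N ≤ DD N x := fun g hg => mem_DD.2 (by
  have := N.mul_mem (hN.conj_mem g hg x⁻¹) (N.inv_mem hg)
  simpa [mul_assoc] using this)

theorem Cam.cen (h : Cam N) (hx : x ∉ N) (hp : PiElt {p} x) : PGrp p (N ⊓ C[x]) := piGrp_iff_forall.2 fun n hn => by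
  obtain ⟨g, hg⟩ := h x hx n hn.1
  have h1 : Commute n x := mem_cen1.1 hn.2
  have := hp.inv.mul (hg ▸ hp.conj g) ((Commute.refl x).mul_right h1.symm).inv_left
  rwa [inv_mul_cancel_left] at this

theorem Cam.idx (h : Cam N) (hx : x ∉ N) : C[x].relIndex (DD N x) = #N := by
  rw [← card_cls, ← card_coset N x]
  congr 2
  ext y
  constructor
  · rintro ⟨k, hk, rfl⟩; exact mem_DD.1 hk
  · intro hy
    obtain ⟨g, hg⟩ := h x hx _ hy
    rw [mul_inv_cancel_left] at hg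
    exact ⟨g, mem_DD.2 (hg ▸ hy), hg.symm⟩

theorem syl_inf_ne {P : Subgroup G} (hP : Syl p P ⊤) (hp : p.Prime) (hd : p ∣ #N) : P ⊓ N ≠ ⊥ :=
  (hP.inf_nml (nml_top_iff.2 hN)).syl_ne_bot (mem_piOf.2 ⟨hp, hd⟩)

theorem Cam.dvd (h : Cam N) (hp : p.Prime) (hd : p ∣ #N) (hx : x ∉ N) (hx' : PiElt {p} x) :
    p ∣ (C[x] ⊔ N).relIndex (DD N x) := by
  have h1 := h.idx hx
  rw [← relIndex_mul (le_sup_left : C[x] ≤ C[x] ⊔ N) (sup_le cen_le_DD le_DD), (mulEq_sup' (nN _)).relIndex_left,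
    ← card_inf_mul_relIndex C[x] N, mul_comm] at h1
  rw [Nat.eq_of_mul_eq_mul_right (relIndex_pos _ _) h1, inf_comm]
  refine (h.cen hx hx').dvd ?_
  obtain ⟨P, hP, hxP⟩ := hx'.zpowers.exists_syl le_top
  exact ne_bot_of_le (inf_le_inf inf_le_right (cen_le_cen1 (hxP (mem_zpowers x))))
    (hP.pi.meet_cen (hP.pi.inf_left N) (normsI (le_nrm _) (nN _)) (syl_inf_ne hP hp hd))

theorem syl_not_le {P : Subgroup G} (hP : Syl p P ⊤) (hp : p.Prime) (hi : p ∣ N.index) : ¬ P ≤ N := fun e =>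
  hP.relIndex_of_le e p hp (by rwa [relIndex_top_right]) rfl

theorem Cam.npc (h : Cam N) (hp : p.Prime) (hi : p ∣ N.index) : NPC p N := by
  have : Fact p.Prime := ⟨hp⟩
  obtain ⟨P, hP⟩ := exists_syl p (⊤ : Subgroup G)
  obtain ⟨_, ⟨⟨x, hxP, rfl⟩, hx⟩, hx1⟩ := exists_ne_one ((hP.pi.map (QuotientGroup.mk' N)).center_ne_bot fun e =>
    syl_not_le hP hp hi (by rwa [Subgroup.map_eq_bot_iff, QuotientGroup.ker_mk'] at e))
  have hxN : x ∉ N := fun e => hx1 ((QuotientGroup.eq_one_iff x).2 e)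
  have hPD : P ≤ DD N x := map_le_iff_le_comap.1 (le_cen1.2 hx)
  obtain ⟨T, hT, hxT⟩ := (hP.pi.piElt hxP).zpowers.exists_syl (zpowers_le_cen1 x)
  obtain ⟨S, hS, hTS⟩ := hT.pi.exists_syl (hT.le.trans (cen_le_DD (N := N)))
  have hxS : x ∈ S := hTS (hxT (mem_zpowers x))
  have hSN := hS.inf_nml (K := N) ⟨le_DD, nN _⟩
  have e1 : C[x] ⊓ S = T := hT.max (hS.pi.inf_right _) (le_inf hT.le hTS) inf_le_left
  have e2 : C[x].relIndex S = #(S ⊓ N) := by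
    have a := card_inf_mul_relIndex C[x] S
    rw [e1, hS.card, ← card_mul_relIndex (cen_le_DD (N := N)), h.idx hxN, partn_mul _ (card_ne_zero _) (card_ne_zero _),
      ← hT.card, ← hSN.card] at a
    exact Nat.eq_of_mul_eq_mul_left (card_pos _) a
  have e3 : {y | ∃ k ∈ S, y = k * x * k⁻¹} = {y | x⁻¹ * y ∈ S ⊓ N} := by
    refine Set.eq_of_subset_of_ncard_le ?_ (by rw [← Nat.card_coe_set_eq, ← Nat.card_coe_set_eq, card_cls, card_coset, e2])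
    rintro _ ⟨k, hk, rfl⟩
    exact ⟨S.mul_mem (S.inv_mem hxS) (conj_mem (le_nrm S hk) hxS), mem_DD.1 (hS.le hk)⟩
  refine (npc_iff hp).2 (H4.hasNPC_of_inf_le_frattini hS.pi.isPGroup (nN _) ?_ (fun n hn => hS.pi.der_le_Phi ?_))
  · rw [← inf_relIndex_right]; exact hSN.not_dvd hp
  · obtain ⟨k, hk, e⟩ := e3.ge (show x⁻¹ * (x * n) ∈ S ⊓ N by rw [inv_mul_cancel_left]; exact ⟨hn.2, hn.1⟩)
    have : n = ⁅x⁻¹, k⁆ := by rw [commutatorElement_def, ← inv_mul_cancel_left x n, e]; group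
    rw [this]
    exact commutator_mem_commutator (S.inv_mem hxS) hk

theorem Cam.exV (h : Cam N) (hp : p.Prime) (hq : q.Prime) (hne : q ≠ p) (hi : p ∣ N.index) (hj : q ∣ N.index)
    (hn : ¬ PGrp p N) : ∃ P V, Syl p P ⊤ ∧ V ≤ N ∧ V ≠ ⊥ ∧ PiGrp {p}ᶜ V ∧ P ≤ N(V) ∧ P ⊓ N ≤ C(V) := by
  have hK : O[{p}ᶜ](N) ⊴ ⊤ := (nml_top_iff.2 hN).pcore _
  by_cases hd : q ∣ #N
  · obtain ⟨R, hR⟩ := exists_syl q O[{p}ᶜ](N)
    obtain ⟨P, hP⟩ := exists_syl p (⊤ ⊓ N(R))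
    have hRN := hR.le.trans (pcore_le _ _)
    have h1 : P ⊓ N ≤ O[{q}ᶜ](N) := (h.npc hq hj).hall.le_pcore ((hP.pi.inf_left _).p' hne.symm) inf_le_right
    refine ⟨P, R, hP.of_relIndex le_top ?_, hRN, hR.syl_ne_bot ((h.npc hp hi).hall.mem_piOf hne (mem_piOf.2 ⟨hq, hd⟩)),
      hR.pi.p' hne, hP.le.trans inf_le_right, comm_eq_bot.1 (eq_bot_of_le (le_inf
        ((commSS h1 le_rfl).trans (comm_le_left (hRN.trans (pcore_nrm _ _))))
        (comm_le_right (inf_le_left.trans (hP.le.trans inf_le_right)))) ((pcore_pi _ _).inf_eq_bot' hR.pi))⟩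
    rw [(hR.frattini hK).relIndex_right]
    exact (pcore_pi _ _).relIndex _
  · obtain ⟨P, hP⟩ := exists_syl p (⊤ : Subgroup G)
    obtain ⟨y, -, hy⟩ := exists_elt_of_prime_dvd (H := (⊤ : Subgroup G)) hq (card_top' (G := G) ▸ hj.trans (index_dvd_card N))
    have hy' : PiElt {q} y := (piElt_of_orderOf_prime hq hy).2 rfl
    have hNq : PiGrp {q}ᶜ N := (p'grp_iff hq).2 hd
    have y1 : y ≠ 1 := fun e => hq.one_lt.ne (by rw [← hy, e, orderOf_one])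
    have hc : (#⟪y⟫).Prime := by rwa [card_zpowers', hy]
    have hnil : Nil N := H5b.nil_of_semiReg (nN _) (zpowers_ne_bot' y1) (semiReg_of_prime hc (by
      rw [cen_zpowers]
      exact (h.cen (fun e => y1 (hy'.eq_one_of_mem hNq e)) hy').eq_bot (hNq.inf_left _)))
    refine ⟨P, O[{p}ᶜ](N), hP, pcore_le _ _, fun e => hn ?_, pcore_pi _ _, le_top.trans hK.nrm,
      hnil.cents_of_pi inf_le_right (pcore_le _ _) (hP.pi.inf_left _) (pcore_pi _ _)⟩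
    rw [← (hnil.dp_pcore {p}).sup, e, sup_bot_eq]; exact pcore_pi _ _

theorem Cam.cyc (h : Cam N) {P V A : Subgroup G} (hP : PGrp p P) (h1 : V ≤ N) (h2 : V ≠ ⊥) (h3 : PiGrp {p}ᶜ V)
    (h4 : P ≤ N(V)) (h5 : P ⊓ N ≤ C(V)) (hA : A ≤ P) (hab : ⁅A, A⁆ ≤ N) : ∃ w ∈ A, A ≤ N ⊔ ⟪w⟫ := by
  have nA : A ≤ N(P ⊓ N) := hA.trans (normsI (le_nrm _) (nN _))
  have nV : V ≤ N(P ⊓ N) := cents_norm (centsC h5)
  have hi : P ⊓ N ⊓ V = ⊥ := (hP.inf_left _).inf_eq_bot h3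
  have hc : Cyc (A /ₛ (P ⊓ N)) := by
    by_contra hc
    obtain ⟨u, hu, u1, hu'⟩ := coprime_abelian_exists_cent1_ne (ab_quo_of_der_le (le_inf ((der_le _).trans hA) hab)) hc
      (quo_norms _ (hA.trans h4)) ((h3.quo _).cop' ((hP.mono hA).quo _))
      (quo_ne_bot nV fun e => h2 (eq_bot_of_le (le_inf e le_rfl) hi))
    obtain ⟨a, ha, ha', rfl⟩ := mem_quo.1 hu
    obtain ⟨u, ⟨hv0, hc⟩, v1⟩ := exists_ne_one hu'
    obtain ⟨v, hv, hv', rfl⟩ := mem_quo.1 hv0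
    have h6 := (coset_commute_iff hv' ha').1 (mem_cen1.1 hc)
    have h7 : ⁅v, a⁆ ∈ V := comm_le_left (hA.trans h4) (commutator_mem_commutator hv ha)
    have h8 := commutatorElement_eq_one_iff_mul_comm.1 (eq_one_of_mem_inf hi h6 h7)
    have h9 := (h.cen (fun e => u1 (coset_of_mem ⟨hA ha, e⟩)) (hP.piElt (hA ha))).piElt ⟨h1 hv, mem_cen1.2 h8⟩
    exact v1 (by rw [h9.eq_one_of_mem h3 hv, coset_one])
  obtain ⟨u, hu⟩ := cyc_iff.1 hc
  obtain ⟨w, hw, hw', rfl⟩ := mem_quo.1 (hu.ge (mem_zpowers u))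
  rw [← quo_zpowers hw'] at hu
  exact ⟨w, hw, ((quo_le_quo nA (zpowers_le.2 hw')).1 hu.le).trans (sup_le_sup_right inf_le_right _)⟩

theorem Cam.main (h : Cam N) (hp : p.Prime) (hq : q.Prime) (hne : q ≠ p) (hd : p ∣ #N) (hi : p ∣ N.index)
    (hj : q ∣ N.index) : PGrp p N := by
  by_contra hn
  obtain ⟨P, V, hP, h1, h2, h3, h4, h5⟩ := h.exV hp hq hne hi hj hn
  obtain ⟨x₀, hx₀, hx₀'⟩ := SetLike.not_le_iff_exists.1 (syl_not_le hP hp hi)
  obtain ⟨x, ⟨hx, hx'⟩, hmax⟩ := Set.exists_max_image {x : G | x ∉ N ∧ PiElt {p} x} (fun x => orderOf (x : G ⧸ N))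
    (Set.toFinite _) ⟨x₀, hx₀', hP.pi.piElt hx₀⟩
  obtain ⟨S, hS, hxS⟩ := hx'.zpowers.exists_syl ((zpowers_le_cen1 x).trans (cen_le_DD (N := N)))
  obtain ⟨g, -, hg⟩ := hP.syl_subJ hS.pi le_top
  have eN : cj g N = N := cj_of_mem_nrm (nN ⊤ (mem_top g))
  refine hS.relIndex_of_le (K := C[x] ⊔ N) (fun y hy => ?_) p hp (h.dvd hp hd hx hx') rfl
  obtain ⟨w, hw, hw'⟩ := h.cyc (A := ⟪x⟫ ⊔ ⟪y⟫) (hP.pi.cj g) (eN ▸ cj_mono g h1) (fun e => h2 (cj_eq_bot.1 e)) (h3.cj g)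
    (cj_norms.2 h4) (by rw [← eN, ← cj_inf, cj_cents]; exact h5) ((sup_le hxS (zpowers_le.2 hy)).trans hg) (by
      rw [← QuotientGroup.ker_mk' N, ← Subgroup.map_eq_bot_iff, map_commutator, Subgroup.map_sup, MonoidHom.map_zpowers,
        MonoidHom.map_zpowers, ← ab_iff_der]
      exact (ab_zpowers _).sup (ab_zpowers _) (by rw [cen_zpowers]; exact zpowers_le.2 (hS.le hy)))
  have key : ∀ z ∈ ⟪x⟫ ⊔ ⟪y⟫, (z : G ⧸ N) ∈ ⟪(w : G ⧸ N)⟫ := fun z hz => by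
    have := map_mono (f := QuotientGroup.mk' N) hw' ⟨z, hz, rfl⟩
    rwa [Subgroup.map_sup, QuotientGroup.map_mk'_self, bot_sup_eq, MonoidHom.map_zpowers] at this
  have hwN : w ∉ N := fun e => hx ((sup_le le_rfl (zpowers_le.2 e)) (hw' (mem_sup_left (mem_zpowers x))))
  have e : ⟪(x : G ⧸ N)⟫ = ⟪(w : G ⧸ N)⟫ := eq_of_card_le (zpowers_le.2 (key x (mem_sup_left (mem_zpowers x)))) (by
    rw [card_zpowers', card_zpowers']
    exact hmax w ⟨hwN, hS.pi.piElt (sup_le hxS (zpowers_le.2 hy) hw)⟩)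
  obtain ⟨k, hk⟩ := mem_zpowers_iff.1 (e ▸ key y (mem_sup_right (mem_zpowers y)))
  rw [← QuotientGroup.mk_zpow, QuotientGroup.eq] at hk
  rw [← mul_inv_cancel_left (x ^ k) y]
  exact mul_mem_sup (zpow_mem (self_mem_cen1 x) k) hk

/-- Let G be a finite group and N a proper non-trivial normal subgroup such that for every g outside N the conjugacy class of g is a union of cosets of N (equivalently gn is conjugate to g for every n ∈ N). Then either every element of G outside N acts fixed-point-freely on N (C_G(x) ≤ N for all x ∈ N, x ≠ 1, so G is a Frobenius group with kernel N), or N has prime-power order, or G/N has prime-power order. -/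
theorem result {G : Type*} [Group G] [Finite G] (N : Subgroup G) [N.Normal] (hN1 : N ≠ ⊥) (hN2 : N ≠ ⊤)
    (hcam : ∀ g : G, g ∉ N → ∀ n ∈ N, ∃ x : G, x * g * x⁻¹ = g * n) :
    (∀ x ∈ N, x ≠ 1 → Subgroup.centralizer ({x} : Set G) ≤ N) ∨ IsPrimePow (Nat.card N) ∨ IsPrimePow N.index := by
  have h : Cam N := hcam
  by_contra hc
  rw [not_or, not_or] at hc
  obtain ⟨h1, h2, h3⟩ := hc
  push Not at h1
  obtain ⟨n, hn, n1, h1⟩ := h1
  obtain ⟨p, hp, x, hx, hx', hxN⟩ : ∃ p, p.Prime ∧ ∃ x ∈ C[n], PiElt {p} x ∧ x ∉ N := by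
    by_contra e
    push Not at e
    exact h1 (le_of_forall_pElt e)
  have hd : p ∣ #N := (h.cen hxN hx').dvd_of_le (ne_bot_of_mem ⟨hn, cen1_comm.1 hx⟩ n1) inf_le_left
  have hi : p ∣ N.index := (hx'.zpowers.dvd_relIndex (fun e => hxN (e (mem_zpowers x)))).trans
    (relIndex_dvd_index_of_normal _ _)
  obtain ⟨q, hq, hj, hne⟩ : ∃ q, q.Prime ∧ q ∣ N.index ∧ q ≠ p := by
    by_contra e
    push Not at e
    exact h3 ((isPrimePow_iff_unique_prime_dvd).2 ⟨p, ⟨hp, hi⟩, fun q hq => e q hq.1 hq.2⟩)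
  exact h2 ((isPrimePow_iff_unique_prime_dvd).2 ⟨p, ⟨hp, hd⟩, fun r hr =>
    (h.main hp hq hne hd hi hj).eq_prime hr.1 hr.2⟩)

end Cfsg.Agent.S4140
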