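import Mathlib
import Cfsg.Agent.FT.BG01
-- Template for statement S4142 (row 4142; see /opt/grader/pristine/manifest.json for weights).
-- Copy to Cfsg/Agent/S4142.lean and replace the sorry. The statement below is byte-identical to the frozen
-- statement Cfsg.CfsgFrozen.S4142 (Cfsg/Statements/S4142.lean; the theorem Cfsg.fg7_camina_pair_iff_centralizer_orders_match_quotient);
-- the grader kernel-checks Cfsg.Agent.S4142.result against that frozen type. Keep the theorem IN THIS FILE
-- (a `result` declared elsewhere and merely imported here is not credited); helpers may live anywhere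
-- under Cfsg/Agent/.
import Cfsg.Statements.S4142
-- import your own Cfsg.Agent.* helpers here

set_option autoImplicit false
open Cfsg

namespace Cfsg.Agent.S4142

/-- Let G be a finite group and N a normal subgroup. Then the conjugacy class of every element g outside N is a union of cosets of N (gn is conjugate to g for all n ∈ N) if and only if for every g outside N the centralizer of g in G has the same order as the centralizer of gN in G/N. -/
theorem result {G : Type*} [Group G] [Finite G] (N : Subgroup G) [N.Normal] :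
    (∀ g : G, g ∉ N → ∀ n ∈ N, ∃ x : G, x * g * x⁻¹ = g * n) ↔
      ∀ g : G, g ∉ N → Nat.card (Subgroup.centralizer ({g} : Set G)) =
        Nat.card (Subgroup.centralizer ({(QuotientGroup.mk g : G ⧸ N)} : Set (G ⧸ N))) := by
  open Subgroup Cfsg.Agent.FT in
  open scoped commutatorElement Pointwise in
  refine forall₂_congr fun g hg => ?_
  set K := (C[(g : G ⧸ N)]).comap (QuotientGroup.mk' N) with hK
  have hle : C[g] ≤ K := fun x hx => by
    rw [hK, mem_comap, mem_cen1]
    exact congrArg (QuotientGroup.mk' N) (mem_cen1.1 hx)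
  have hKc : #K = #N * #C[(g : G ⧸ N)] := by
    have h1 := K.card_mul_index
    have h2 := (C[(g : G ⧸ N)]).card_mul_index
    have h3 := N.card_mul_index
    rw [hK, index_comap_of_surjective _ (QuotientGroup.mk'_surjective N), ← hK] at h1
    apply Nat.eq_of_mul_eq_mul_right (Nat.pos_of_ne_zero (C[(g : G ⧸ N)]).index_ne_zero_of_finite)
    rw [h1, mul_assoc, h2, ← h3]; rfl
  let f : K ⧸ (C[g]).subgroupOf K → N := fun q => Quotient.liftOn' q
    (fun x => ⟨g⁻¹ * (x * g * (x : G)⁻¹), by
      rw [← QuotientGroup.eq, QuotientGroup.mk_mul, QuotientGroup.mk_mul, QuotientGroup.mk_inv]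
      have : ((x : G) : G ⧸ N) * g = g * (x : G) := mem_cen1.1 (mem_comap.1 x.2)
      rw [this, mul_inv_cancel_right]⟩) (fun x y h => by
      have h' : (x : G)⁻¹ * y * g = g * ((x : G)⁻¹ * y) :=
        mem_cen1.1 (mem_subgroupOf.1 (QuotientGroup.leftRel_apply.1 h))
      apply Subtype.ext
      show g⁻¹ * (x * g * (x : G)⁻¹) = g⁻¹ * (y * g * (y : G)⁻¹)
      congr 1
      calc (x : G) * g * (x : G)⁻¹ = x * (g * ((x : G)⁻¹ * y)) * (y : G)⁻¹ := by group
        _ = y * g * (y : G)⁻¹ := by rw [← h']; group)
  have hf : Function.Injective f := by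
    intro a b
    refine QuotientGroup.induction_on a fun x => QuotientGroup.induction_on b fun y h => ?_
    have h' : (x : G) * g * (x : G)⁻¹ = y * g * (y : G)⁻¹ :=
      mul_left_cancel (congrArg Subtype.val h)
    rw [QuotientGroup.eq, mem_subgroupOf, mem_cen1]
    show (x : G)⁻¹ * y * g = g * ((x : G)⁻¹ * y)
    calc (x : G)⁻¹ * y * g = (x : G)⁻¹ * (y * g * (y : G)⁻¹) * y := by group
      _ = g * ((x : G)⁻¹ * y) := by rw [← h']; group
  have hc := card_mul_relIndex hle
  rw [hKc] at hc
  have hs : Function.Surjective f ↔ ∀ n ∈ N, ∃ x : G, x * g * x⁻¹ = g * n := by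
    constructor
    · intro h n hn
      obtain ⟨q, hq⟩ := h ⟨n, hn⟩
      induction q using QuotientGroup.induction_on with
      | H x =>
        have : g⁻¹ * (x * g * (x : G)⁻¹) = n := congrArg Subtype.val hq
        exact ⟨x, by rw [← this, mul_inv_cancel_left]⟩
    · rintro h ⟨n, hn⟩
      obtain ⟨x, hx⟩ := h n hn
      have hxK : x ∈ K := by
        rw [hK, mem_comap, mem_cen1]
        have := congrArg (QuotientGroup.mk' N) hx
        rw [map_mul, map_mul, map_mul, map_inv, show QuotientGroup.mk' N n = 1 from (QuotientGroup.eq_one_iff n).2 hn, mul_one,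
          mul_inv_eq_iff_eq_mul] at this
        exact this
      exact ⟨(⟨x, hxK⟩ : K), Subtype.ext (by
        show g⁻¹ * (x * g * x⁻¹) = n
        rw [hx, inv_mul_cancel_left])⟩
  rw [← hs]
  constructor
  · intro h
    have : (C[g]).relIndex K = #N := Nat.card_eq_of_bijective f ⟨hf, h⟩
    rw [this, mul_comm] at hc
    exact Nat.eq_of_mul_eq_mul_left (card_pos N) hc
  · intro h
    rw [h, mul_comm] at hc
    exact ((Nat.bijective_iff_injective_and_card f).2
      ⟨hf, Nat.eq_of_mul_eq_mul_right (card_pos _) hc⟩).2

end Cfsg.Agent.S4142
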