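import Cfsg.Statements.S4145
import Mathlib
import Cfsg.Agent.H4.Small
import Cfsg.Agent.H1.Chain

set_option autoImplicit false
open Cfsg

namespace Cfsg.Agent.S4145

/-- Let G be a finite group with a cyclic Sylow p-subgroup and H a normal subgroup such that p divides both the order of H and the index of H. Then H has a normal p-complement and G is p-solvable. -/
theorem result {G : Type*} [Group G] [Finite G] (p : ℕ) [Fact p.Prime]
    (P : Sylow p G) (hP : IsCyclic (P : Subgroup G)) (H : Subgroup G) [H.Normal] (h1 : p ∣ Nat.card H) (h2 : p ∣ H.index) :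
    Cfsg.HasNormalPComplement p H ∧ Cfsg.IsPSolvable p G := by
  have hp : p.Prime := Fact.out
  have hH : Cfsg.HasNormalPComplement p H := by
    have hS := H4.IsSylowIn.sylow_of_le P (le_sup_right : (P : Subgroup G) ≤ H ⊔ P)
    rcases H4.cyclic_sylow_dichotomy hS.toSylow
      (isCyclic_of_surjective _ (Subgroup.subgroupOfEquivOfLe hS.le).symm.surjective) with h | h
    · exact H4.hasNPC_of_le le_sup_left h
    · exfalso
      have h3 := H4.pResidual_le_of_isPGroup_quotient (H.subgroupOf (H ⊔ (P : Subgroup G)))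
        (H4.isPGroup_quotient_of_sup_eq_top _ hS.toSylow.isPGroup' (by
          rw [H4.IsSylowIn.coe_toSylow, ← Subgroup.subgroupOf_sup le_sup_left le_sup_right,
            Subgroup.subgroupOf_self]))
      rw [h.1, top_le_iff, Subgroup.subgroupOf_eq_top, sup_le_iff] at h3
      exact P.not_dvd_index (h2.trans (Subgroup.index_dvd_of_le h3.2))
  refine ⟨hH, ?_⟩
  set K := (Cfsg.pResidual p H).map H.subtype with hK
  have hKn : K.Normal := H2.normal_map_subtype_of_characteristic H _
  have hKc : (Nat.card K).Coprime p := by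
    rw [H1.card_map_subtype]; exact H4.hasNPC_iff_pResidual.mp hH
  refine H1.isPSolvable_of_normal_of_quotient hp K (H4.isPSolvable_of_coprime hKc) ?_
  have hn : (H.map (QuotientGroup.mk' K)).Normal :=
    Subgroup.Normal.map inferInstance _ (QuotientGroup.mk'_surjective K)
  refine H4.isPSolvable_of_cyclic_sylow (P.mapSurjective (QuotientGroup.mk'_surjective K))
    (isCyclic_of_surjective _ ((QuotientGroup.mk' K).subgroupMap_surjective (P : Subgroup G)))
    (H.map (QuotientGroup.mk' K)) ?_ ?_
  · rintro ⟨_, x, hx, rfl⟩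
    obtain ⟨k, hk⟩ := H4.isPGroup_quotient_pResidual (G := H) p (QuotientGroup.mk ⟨x, hx⟩)
    refine ⟨k, Subtype.ext ?_⟩
    rw [← QuotientGroup.mk_pow, QuotientGroup.eq_one_iff] at hk
    exact (QuotientGroup.eq_one_iff _).mpr ⟨_, hk, rfl⟩
  · rw [Ne, H1.map_mk_eq_bot_iff]
    intro h
    exact (Nat.Prime.coprime_iff_not_dvd hp).mp hKc.symm (h1.trans (Subgroup.card_dvd_of_le h))

end Cfsg.Agent.S4145
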