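import Cfsg.Statements.S4146
import Cfsg.Agent.H24.Cm2
-- import your own Cfsg.Agent.* helpers here

set_option autoImplicit false
open Cfsg

namespace Cfsg.Agent.S4146

/-- Let G be a finite group whose conjugacy class sizes are exactly 1, n, m and nm for coprime integers n, m > 1. Then G is nilpotent and n and m are prime powers. -/
theorem result {G : Type*} [Group G] [Finite G] (n m : ℕ) (hn : 1 < n) (hm : 1 < m) (hcop : n.Coprime m)
    (h : Set.range (fun x : G => (Subgroup.centralizer ({x} : Set G)).index) = ({1, n, m, n * m} : Set ℕ)) :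
    Group.IsNilpotent G ∧ IsPrimePow n ∧ IsPrimePow m := by
  have ex : ∀ k ∈ ({1, n, m, n * m} : Set ℕ), ∃ x : G, (Subgroup.centralizer ({x} : Set G)).index = k :=
    fun k hk => (h ▸ hk : k ∈ Set.range _)
  refine Cm.St.main ⟨fun x hx => ?_, ex _ (by simp), ex _ (by simp), ex _ (by simp), hcop, hn, hm⟩
  have : (Subgroup.centralizer ({x} : Set G)).index ∈ ({1, n, m, n * m} : Set ℕ) := h ▸ Set.mem_range_self x
  exact this.resolve_left (mt H28.cs_eq_one.1 hx)

end Cfsg.Agent.S4146
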