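import Cfsg.Statements.S4149
import Cfsg.Agent.H4.Small
-- import your own Cfsg.Agent.* helpers here

set_option autoImplicit false
open Cfsg

namespace Cfsg.Agent.S4149

theorem half {G : Type*} [Group G] [Finite G] {r : ℕ} [Fact r.Prime] (hR : ¬ Cfsg.HasNormalPComplement r G) :
    Nat.card G ≤ 2 * {x : G | r ∣ (Subgroup.centralizer ({x} : Set G)).index}.ncard := by
  obtain ⟨R⟩ : Nonempty (Sylow r G) := inferInstance
  have h0 : {x : G | r ∣ (Subgroup.centralizer ({x} : Set G)).index}ᶜ ⊆ insert 1 {x : G | x ≠ 1 ∧ ∃ g : G, g * x * g⁻¹ ∈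
      Subgroup.centralizer ((R : Subgroup G) : Set G)} := fun x hx =>
    or_iff_not_imp_left.2 fun h => ⟨h, H4.exists_conj_mem_centralizer_sylow R hx⟩
  have h7 := (Set.ncard_le_ncard h0 (Set.toFinite _)).trans (Set.ncard_insert_le _ _)
  have h8 := Set.ncard_add_ncard_compl {x : G | r ∣ (Subgroup.centralizer ({x} : Set G)).index}
  have h1 := H4.ncard_conj_into_le (C := Subgroup.centralizer ((R : Subgroup G) : Set G))
    (H1.le_normalizer_centralizer (H := (R : Subgroup G)) le_rfl)
  have h2 := H4.card_mul_relIndex (H4.centralizer_le_normalizer' (R : Subgroup G))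
  have h3 : (Subgroup.centralizer ((R : Subgroup G) : Set G)).relIndex
      (Subgroup.normalizer ((R : Subgroup G) : Set G)) ≠ 1 := fun e =>
    hR (H4.hasNPC_of_normalizer_le_centralizer R (Subgroup.relIndex_eq_one.mp e))
  have h4 := (Subgroup.normalizer ((R : Subgroup G) : Set G)).index_mul_card
  have h5 : 0 < Nat.card G := Nat.card_pos
  have h6 : 0 < Nat.card (Subgroup.centralizer ((R : Subgroup G) : Set G)) := Nat.card_pos
  generalize (Subgroup.centralizer ((R : Subgroup G) : Set G)).relIndex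
      (Subgroup.normalizer ((R : Subgroup G) : Set G)) = e at *
  generalize Nat.card (Subgroup.centralizer ((R : Subgroup G) : Set G)) = c at *
  rw [← h2] at h4
  generalize (Subgroup.normalizer ((R : Subgroup G) : Set G)).index = a at *
  obtain ⟨c, rfl⟩ := Nat.exists_eq_add_of_le' h6
  have ha : 1 ≤ a := Nat.pos_of_mul_pos_right (h4 ▸ h5)
  have he : 2 ≤ e := by
    have : e ≠ 0 := by rintro rfl; simp at h4; omega
    omega
  simp only [Nat.add_sub_cancel] at h1
  nlinarith [Nat.mul_le_mul_left (a * (c + 1)) he]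


/-- Let G be a finite group that has a normal p-complement for at most one prime p dividing its order, and let σ be a natural number such that every conjugacy class size of G has at most σ distinct prime divisors. Then the number of primes dividing at least one conjugacy class size of G is at most 2σ. -/
theorem result {G : Type*} [Group G] [Finite G] (σ : ℕ)
    (hσ : ∀ x : G, ((Subgroup.centralizer ({x} : Set G)).index).primeFactors.card ≤ σ)
    (hnil : ∀ p q : ℕ, p.Prime → q.Prime → p ∣ Nat.card G → q ∣ Nat.card G →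
      Cfsg.HasNormalPComplement p G → Cfsg.HasNormalPComplement q G → p = q) :
    Nat.card {p : ℕ | p.Prime ∧ ∃ x : G, p ∣ (Subgroup.centralizer ({x} : Set G)).index} ≤ 2 * σ := by
  classical
  haveI := Fintype.ofFinite G
  have hG : 0 < Nat.card G := Nat.card_pos
  have hfin : {p : ℕ | p.Prime ∧ ∃ x : G, p ∣ (Subgroup.centralizer ({x} : Set G)).index}.Finite :=
    (Nat.card G).primeFactors.finite_toSet.subset fun p ⟨hp, x, hx⟩ =>
      Nat.mem_primeFactors.2 ⟨hp, hx.trans (Subgroup.index_dvd_card _), hG.ne'⟩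
  rw [← hfin.coe_toFinset, Finset.coe_sort_coe, Nat.card_eq_finsetCard]
  have mem := fun p => hfin.mem_toFinset (a := p)
  generalize hfin.toFinset = ρ at mem ⊢
  have h1 := Finset.sum_card_bipartiteAbove_eq_sum_card_bipartiteBelow (s := (Finset.univ : Finset G)) (t := ρ)
    fun x p => p ∣ (Subgroup.centralizer ({x} : Set G)).index
  have h2 : ∑ x : G, (ρ.bipartiteAbove (fun x p => p ∣ (Subgroup.centralizer ({x} : Set G)).index) x).card ≤
      Nat.card G * σ := by
    rw [Nat.card_eq_fintype_card]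
    refine Finset.sum_le_card_nsmul _ _ _ fun x _ => (Finset.card_le_card fun p hp => ?_).trans (hσ x)
    rw [Finset.mem_bipartiteAbove] at hp
    exact Nat.mem_primeFactors.2 ⟨((mem p).1 hp.1).1, hp.2, Subgroup.index_ne_zero_of_finite⟩
  rcases ρ.eq_empty_or_nonempty with rfl | ⟨r₁, hr₁⟩
  · simp
  obtain ⟨r, hr, h3⟩ : ∃ r ∈ ρ, ∀ p ∈ ρ, p ≠ r → ¬ Cfsg.HasNormalPComplement p G := by
    by_cases e : ∃ r ∈ ρ, Cfsg.HasNormalPComplement r G
    · obtain ⟨r, hr, e⟩ := e
      obtain ⟨r1, x, r2⟩ := (mem r).1 hr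
      exact ⟨r, hr, fun p hp h4 h5 => let ⟨p1, y, p2⟩ := (mem p).1 hp
        h4 (hnil p r p1 r1 (p2.trans (Subgroup.index_dvd_card _)) (r2.trans (Subgroup.index_dvd_card _)) h5 e)⟩
    · exact ⟨r₁, hr₁, fun p hp _ h => e ⟨p, hp, h⟩⟩
  rw [h1, ← Finset.add_sum_erase _ _ hr] at h2
  have h4 : 0 < (Finset.univ.bipartiteBelow (fun (x : G) p => p ∣ (Subgroup.centralizer ({x} : Set G)).index) r).card :=
    let ⟨_, x, hx⟩ := (mem r).1 hr
    Finset.card_pos.2 ⟨x, (Finset.mem_bipartiteBelow _).2 ⟨Finset.mem_univ _, hx⟩⟩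
  have h5 : (ρ.erase r).card • Nat.card G ≤ ∑ p ∈ ρ.erase r,
      2 * (Finset.univ.bipartiteBelow (fun (x : G) p => p ∣ (Subgroup.centralizer ({x} : Set G)).index) p).card :=
    Finset.card_nsmul_le_sum _ _ _ fun p hp => by
      haveI := Fact.mk ((mem p).1 (Finset.mem_of_mem_erase hp)).1
      refine (half (h3 p (Finset.mem_of_mem_erase hp) (Finset.ne_of_mem_erase hp))).trans (le_of_eq ?_)
      rw [← Set.ncard_coe_finset]
      congr 2
      ext x
      simp [Finset.mem_bipartiteBelow]
  rw [← Finset.mul_sum, smul_eq_mul] at h5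
  rw [← Finset.card_erase_add_one hr]
  exact Nat.lt_of_mul_lt_mul_right (a := Nat.card G) (by nlinarith)

end Cfsg.Agent.S4149
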