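import Mathlib
import Cfsg.Agent.H28.Util
-- Template for statement S4153 (row 4153; see /opt/grader/pristine/manifest.json for weights).
-- Copy to Cfsg/Agent/S4153.lean and replace the sorry. The statement below is byte-identical to the frozen
-- statement Cfsg.CfsgFrozen.S4153 (Cfsg/Statements/S4153.lean; the theorem Cfsg.fg7_p_element_ratio_monotone_under_quotients);
-- the grader kernel-checks Cfsg.Agent.S4153.result against that frozen type. Keep the theorem IN THIS FILE
-- (a `result` declared elsewhere and merely imported here is not credited); helpers may live anywhere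
-- under Cfsg/Agent/.
import Cfsg.Statements.S4153
-- import your own Cfsg.Agent.* helpers here

set_option autoImplicit false
open Cfsg

namespace Cfsg.Agent.S4153

/-- Let G be a finite group, p a prime, N a normal subgroup, P a Sylow p-subgroup of G and P̄ a Sylow p-subgroup of G/N. Count the elements of p-power order, the identity included. Then (number of such elements of G/N)/#P̄ ≤ (number of such elements of G)/#P, stated as a cross-multiplied inequality, with equality when N is central. -/
theorem result {G : Type*} [Group G] [Finite G] (p : ℕ) [Fact p.Prime] (N : Subgroup G) [N.Normal]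
    (P : Sylow p G) (Pbar : Sylow p (G ⧸ N)) :
    Nat.card {g : (G ⧸ N) // ∃ k : ℕ, orderOf g = p ^ k} * Nat.card (P : Subgroup G) ≤ Nat.card {g : G // ∃ k : ℕ, orderOf g = p ^ k} * Nat.card (Pbar : Subgroup (G ⧸ N)) ∧
    (N ≤ Subgroup.center G → Nat.card {g : (G ⧸ N) // ∃ k : ℕ, orderOf g = p ^ k} * Nat.card (P : Subgroup G) = Nat.card {g : G // ∃ k : ℕ, orderOf g = p ^ k} * Nat.card (Pbar : Subgroup (G ⧸ N))) := by
  open Subgroup Cfsg.Agent.FT Cfsg.Agent.H28 in
  have hp : p.Prime := Fact.out
  have hN := nml_top N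
  have e1 : #(P : Subgroup G) = partn {p} #N * #(Pbar : Subgroup (G ⧸ N)) := by
    rw [(syl_top hp P).card, (syl_top hp Pbar).card, card_top', card_top', ← N.card_mul_index,
      partn_mul _ (card_ne_zero N) index_ne_zero_of_finite]; rfl
  have hmap : ∀ g ∈ {g : G | ∃ k : ℕ, orderOf g = p ^ k},
      (g : G ⧸ N) ∈ {g : G ⧸ N | ∃ k : ℕ, orderOf g = p ^ k} := fun g hg =>
    (orderOf_eq_pow_iff hp).2 (PiNat.of_dvd ((orderOf_eq_pow_iff hp).1 hg)
      (orderOf_map_dvd (QuotientGroup.mk' N) g))
  have hlift : ∀ y ∈ {g : G ⧸ N | ∃ k : ℕ, orderOf g = p ^ k}, ∃ x : G, PiElt {p} x ∧ x = y := by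
    intro y hy
    obtain ⟨x, rfl⟩ := QuotientGroup.mk'_surjective N y
    exact ⟨constt {p} x, piElt_constt _ _, (constt_map (QuotientGroup.mk' N) _ x).trans
      ((orderOf_eq_pow_iff hp).1 hy).constt_eq⟩
  have hlow := mul_ncard_le_of_fibers (fun g : G => (g : G ⧸ N)) hmap (n := partn {p} #N) (by
    intro y hy
    obtain ⟨x, hx, rfl⟩ := hlift y hy
    obtain ⟨S, hS, hxS⟩ := hx.zpowers.exists_syl le_top
    rw [← (hS.inf_nml hN).card, ← ncard_leftCoset (S ⊓ N) x]
    refine Set.ncard_le_ncard (fun g hg => ⟨(orderOf_eq_pow_iff hp).2 (hS.pi.piElt ?_),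
      (QuotientGroup.eq.2 hg.2).symm⟩) (Set.toFinite _)
    exact (mul_mem_cancel_left (inv_mem (hxS (mem_zpowers x)))).1 hg.1)
  refine ⟨?_, fun hZ => ?_⟩
  · rw [e1, ← mul_assoc, mul_comm _ (partn _ _)]
    exact Nat.mul_le_mul_right _ hlow
  · rw [e1, ← mul_assoc, mul_comm _ (partn _ _)]
    congr 1
    refine le_antisymm hlow (ncard_le_mul_of_fibers (fun g : G => (g : G ⧸ N)) hmap ?_)
    intro y hy
    obtain ⟨x, hx, rfl⟩ := hlift y hy
    have hab : Ab N := Ab.mono inferInstance hZ
    rw [← (hab.nil.pcore_hall {p}).card, ← ncard_leftCoset _ x]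
    refine Set.ncard_le_ncard (fun g hg => ?_) (Set.toFinite _)
    have h1 : x⁻¹ * g ∈ N := QuotientGroup.eq.1 hg.2.symm
    refine hab.nil.mem_pcore h1 (hx.inv.mul ((orderOf_eq_pow_iff hp).1 hg.1) ?_)
    have := mem_center_iff.1 (hZ h1) x
    rw [mul_inv_cancel_left] at this
    calc x⁻¹ * g = (x⁻¹ * g * x) * x⁻¹ := by group
      _ = g * x⁻¹ := by rw [← this]

end Cfsg.Agent.S4153
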