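import Mathlib
import Cfsg.Agent.FT.BG01
-- Template for statement S4154 (row 4154; see /opt/grader/pristine/manifest.json for weights).
-- Copy to Cfsg/Agent/S4154.lean and replace the sorry. The statement below is byte-identical to the frozen
-- statement Cfsg.CfsgFrozen.S4154 (Cfsg/Statements/S4154.lean; the theorem Cfsg.fg7_commutator_transversal_automorphism_passes_to_quotients);
-- the grader kernel-checks Cfsg.Agent.S4154.result against that frozen type. Keep the theorem IN THIS FILE
-- (a `result` declared elsewhere and merely imported here is not credited); helpers may live anywhere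
-- under Cfsg/Agent/.
import Cfsg.Statements.S4154
-- import your own Cfsg.Agent.* helpers here

set_option autoImplicit false
open Cfsg

namespace Cfsg.Agent.S4154

/-- Let G be a finite group and α an automorphism of G such that every element of G is the product of an element fixed by α and an element of the form g⁻¹α(g). If N is a normal α-invariant subgroup, then the automorphism ᾱ induced on G/N has the same property, and every coset fixed by ᾱ contains an element fixed by α (so the fixed points of ᾱ are the images of the fixed points of α). -/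
theorem result {G : Type*} [Group G] [Finite G] (α : MulAut G)
    (hccp : ∀ x : G, ∃ c g : G, α c = c ∧ x = c * (g⁻¹ * α g))
    (N : Subgroup G) [N.Normal] (hN : ∀ n ∈ N, α n ∈ N) :
    (∀ x : G, ∃ c g : G, c⁻¹ * α c ∈ N ∧ x⁻¹ * (c * (g⁻¹ * α g)) ∈ N) ∧
    (∀ x : G, x⁻¹ * α x ∈ N → ∃ c : G, α c = c ∧ c⁻¹ * x ∈ N) := by
  open Subgroup Cfsg.Agent.FT in
  open scoped commutatorElement Pointwise in
  refine ⟨fun x => ?_, fun x hx => ?_⟩
  · obtain ⟨c, g, h1, h2⟩ := hccp x
    exact ⟨c, g, by rw [h1, inv_mul_cancel]; exact one_mem _, by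
      rw [← h2, inv_mul_cancel]; exact one_mem _⟩
  let β : G ⧸ N →* G ⧸ N := QuotientGroup.map N N α.toMonoidHom hN
  let D : Subgroup (G ⧸ N) := β.eqLocus (MonoidHom.id _)
  let E : Subgroup (G ⧸ N) := (α.toMonoidHom.eqLocus (MonoidHom.id _)).map (QuotientGroup.mk' N)
  have hle : E ≤ D := by
    rintro _ ⟨c, hc, rfl⟩
    exact congrArg (QuotientGroup.mk' N) hc
  have hsurj : Function.Surjective
      (fun t : E × ((G ⧸ N) ⧸ D) => (t.1 : G ⧸ N) * (t.2.out * (β t.2.out)⁻¹)) := by
    intro y
    induction y using QuotientGroup.induction_on with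
    | H y =>
      obtain ⟨c, g, h1, h2⟩ := hccp y
      refine ⟨(⟨c, c, h1, rfl⟩, ((g⁻¹ : G) : G ⧸ N)), ?_⟩
      obtain ⟨d, hd⟩ := QuotientGroup.mk_out_eq_mul D ((g⁻¹ : G) : G ⧸ N)
      have h3 : β d = d := d.2
      show (c : G ⧸ N) * _ = _
      rw [hd, map_mul, h3, h2]
      show _ = (c : G ⧸ N) * (((g⁻¹ : G) : G ⧸ N) * β g)
      rw [QuotientGroup.mk_inv, map_inv]
      group
  have h1 := Nat.card_le_card_of_surjective _ hsurj
  rw [Nat.card_prod, ← D.card_mul_index] at h1
  have h2 := eq_of_card_le hle
    (Nat.le_of_mul_le_mul_right h1 (Nat.pos_of_ne_zero D.index_ne_zero_of_finite))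
  have h3 : (x : G ⧸ N) ∈ D := (QuotientGroup.eq.2 hx).symm
  obtain ⟨c, hc, e⟩ := h2 ▸ h3
  exact ⟨c, hc, QuotientGroup.eq.1 e⟩

end Cfsg.Agent.S4154
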