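import Mathlib
import Cfsg.Agent.H28.Util3
import Cfsg.Agent.H3.Two
import Cfsg.Agent.S4107
-- Template for statement S4155 (row 4155; see /opt/grader/pristine/manifest.json for weights).
-- Copy to Cfsg/Agent/S4155.lean and replace the sorry. The statement below is byte-identical to the frozen
-- statement Cfsg.CfsgFrozen.S4155 (Cfsg/Statements/S4155.lean; the theorem Cfsg.fg7_equal_order_pair_nilpotent_kernel_not_prime_power);
-- the grader kernel-checks Cfsg.Agent.S4155.result against that frozen type. Keep the theorem IN THIS FILE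
-- (a `result` declared elsewhere and merely imported here is not credited); helpers may live anywhere
-- under Cfsg/Agent/.
import Cfsg.Statements.S4155
-- import your own Cfsg.Agent.* helpers here

set_option autoImplicit false
open Cfsg

namespace Cfsg.Agent.S4155

/-- Let G be a finite group and N a proper non-trivial normal nilpotent subgroup whose order is not a prime power, such that for every x outside N all elements of the coset xN have the same order as x. Then N is the Fitting subgroup of G, and for every prime q every Sylow q-subgroup of G/N is cyclic or generalized quaternion. -/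
theorem result {G : Type*} [Group G] [Finite G] (N : Subgroup G) [N.Normal] (hN1 : N ≠ ⊥) (hN2 : N ≠ ⊤)
    (heq : ∀ x : G, x ∉ N → ∀ n ∈ N, orderOf (x * n) = orderOf x)
    (hnil : Group.IsNilpotent N) (hnpp : ¬ IsPrimePow (Nat.card N)) :
    N = Cfsg.fittingSubgroup G ∧
    ∀ (q : ℕ) [Fact q.Prime] (Q : Sylow q (G ⧸ N)), IsCyclic (Q : Subgroup (G ⧸ N)) ∨ ∃ n : ℕ, Nonempty ((Q : Subgroup (G ⧸ N)) ≃* QuaternionGroup (2 ^ n)) := by
  open Subgroup Cfsg.Agent.FT Cfsg.Agent.H28 Cfsg.Agent.H3 in
  open scoped commutatorElement Pointwise in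
  · have hN : N ⊴ ⊤ := nml_top_iff.2 ‹_›
    have hnil' : Nil N := hnil
    have hpp : ∀ q, ¬ PGrp q N := fun q h => by
      obtain ⟨n, hn⟩ := h.card
      refine hnpp ((isPrimePow_nat_iff _).2 ⟨q, n, h.prime hN1, Nat.pos_of_ne_zero ?_, hn.symm⟩)
      rintro rfl
      exact hN1 (eq_bot_iff_card'.2 (by simpa using hn))
    refine ⟨?_, fun q _ Q0 => ?_⟩
    · have h1 : N ≤ Cfsg.fittingSubgroup G := fitting_top (G := G) ▸ fitting_max hN hnil
      by_contra hne
      obtain ⟨p, k, hp, -, e⟩ := (isPrimePow_nat_iff _).1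
        ((S4107.result N hN1 hN2 heq).2 (lt_of_le_of_ne h1 hne))
      exact hpp p ((pGrp_of_card hp e.symm).mono h1)
    have hq : q.Prime := Fact.out
    have hQ := sylow_pGrp Q0
    have hd := hnil'.dp_pcore {q}
    have hT := hN.pcore {q}
    have hR := hN.pcore {q}ᶜ
    have hR1 : ¬ O[{q}ᶜ](N) ≤ O[{q}](N) := fun h => hpp q (by
      rw [← hd.sup, sup_eq_left.2 h]; exact pcore_pi _ _)
    have key : ∀ A0, A0 ≤ (Q0 : Subgroup (G ⧸ N)) → Ab A0 → Cyc A0 := by
      intro A0 h1 h2
      obtain ⟨A, hA⟩ := exists_syl q (A0.comap (QuotientGroup.mk' N))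
      have h3 : A.map (QuotientGroup.mk' N) = A0 := by
        have := hA.map (QuotientGroup.mk' N)
        rw [map_comap_mk'] at this
        exact this.eq_of_piGrp (hQ.mono h1)
      have h4 : ∀ x ∈ A, x ∈ N → x ∈ O[{q}](N) := fun x hx hx' => hnil'.mem_pcore hx' (hA.pi.piElt hx)
      have hn : ∀ X : Subgroup G, X ≤ N(O[{q}](N)) := fun X => le_top.trans hT.nrm
      have h5 : Ab (A /ₛ O[{q}](N)) := ab_quo_of_der_le fun x hx => h4 x (der_le A hx)
        (comm_le_iff_map.2 (h3 ▸ h2.le_cen) hx)
      have h6 : Cyc (A /ₛ O[{q}](N)) := by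
        by_contra hc
        obtain ⟨a, ha, h7, h8⟩ := coprime_abelian_exists_cent1_ne h5 hc
          (quo_norms _ (le_top.trans hR.nrm)) (((pcore_pi _ _).cop' hA.pi).quo _)
          (quo_ne_bot (hn _) hR1)
        obtain ⟨u, ⟨hu, hu'⟩, h9⟩ := exists_ne_one h8
        obtain ⟨x, hx, hx', rfl⟩ := mem_quo.1 ha
        obtain ⟨r, hr, hr', rfl⟩ := mem_quo.1 hu
        have c1 : ⁅r, x⁆ ∈ O[{q}](N) := (coset_commute_iff hr' hx').1 (mem_cen1.1 hu')
        have c2 : ⁅r, x⁆ ∈ O[{q}ᶜ](N) := comm_le_left (le_top.trans hR.nrm)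
          (commutator_mem_commutator hr (mem_top x))
        have c3 := commutatorElement_eq_one_iff_mul_comm.1 (eq_one_of_mem_inf hd.inf c1 c2)
        have c4 : PiElt {q} (x * r) := by
          unfold PiElt
          rw [heq x (fun h => h7 (coset_of_mem (h4 x hx h))) r (pcore_le _ _ hr)]
          exact hA.pi.piElt hx
        have c5 := (hA.pi.piElt hx).inv.mul c4 (by
          rw [inv_mul_cancel_left, ← c3, mul_inv_cancel_right])
        rw [inv_mul_cancel_left] at c5
        exact h9 (by rw [c5.eq_one_of_mem (pcore_pi _ _) hr]; exact coset_of_mem (one_mem _))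
      obtain ⟨x, -, hx⟩ := (cyc_quo_iff (hn A)).1 h6
      refine (cyc_zpowers (QuotientGroup.mk' N x)).mono ?_
      rw [← h3, ← MonoidHom.map_zpowers]
      refine (map_mono hx).trans ?_
      rw [Subgroup.map_sup, (Subgroup.map_eq_bot_iff _).2
        ((pcore_le _ _).trans (QuotientGroup.ker_mk' _).ge), bot_sup_eq]
    rcases cyc_or_mc hq hQ (fun A hA => key A hA.le) with h | ⟨rfl, -⟩
    · exact Or.inl h
    · rcases cyc_or_mcq_of_rank hQ (prank_le_iff_forall.2 fun m A hA =>
        hA.prank_eq ▸ (key A hA.le hA.ab).prank_le 2) with h | ⟨a, b, m, h⟩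
      · exact Or.inl h
      · exact Or.inr ⟨_, h.iso⟩

end Cfsg.Agent.S4155
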