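import Cfsg.Statements.S4156
import Mathlib
import Cfsg.Agent.H10.Transv

set_option autoImplicit false
open Cfsg

namespace Cfsg.Agent.S4156

open Matrix

variable {n : ℕ} {F : Type*} [Field F]

/-- Extension by zero. -/
def hat (n : ℕ) (F : Type*) [Field F] : (Fin n → F) →ₗ[F] (Fin (n + 1) → F) :=
  LinearMap.pi (Fin.cases 0 LinearMap.proj)

/-- Reduction modulo the constants. -/
def pr (n : ℕ) (F : Type*) [Field F] : (Fin (n + 1) → F) →ₗ[F] (Fin n → F) :=
  LinearMap.pi fun i => (LinearMap.proj i.succ : (Fin (n + 1) → F) →ₗ[F] F) -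
    (LinearMap.proj 0 : (Fin (n + 1) → F) →ₗ[F] F)

theorem hat_pr (v : Fin (n + 1) → F) (i : Fin (n + 1)) : hat n F (pr n F v) i = v i - v 0 := by
  cases i using Fin.cases <;> simp [hat, pr]

/-- The representation on functions modulo constants. -/
def rho (n : ℕ) (F : Type*) [Field F] : Equiv.Perm (Fin (n + 1)) →* Module.End F (Fin n → F) where
  toFun σ := pr n F ∘ₗ LinearMap.funLeft F F σ.symm ∘ₗ hat n F
  map_one' := LinearMap.ext fun w => funext fun i => by
    change hat n F w i.succ - hat n F w 0 = w i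
    simp [hat]
  map_mul' σ τ := LinearMap.ext fun w => funext fun i => by
    change hat n F w (τ.symm (σ.symm i.succ)) - hat n F w (τ.symm (σ.symm 0)) =
      hat n F (pr n F _) (σ.symm i.succ) - hat n F (pr n F _) (σ.symm 0)
    rw [hat_pr, hat_pr, sub_sub_sub_cancel_right]
    rfl

theorem rho_apply (σ : Equiv.Perm (Fin (n + 1))) (w : Fin n → F) (i : Fin n) :
    rho n F σ w i = hat n F w (σ.symm i.succ) - hat n F w (σ.symm 0) := rfl

theorem det_rho (hn : 5 ≤ n) {σ : Equiv.Perm (Fin (n + 1))} (h : σ ∈ alternatingGroup _) :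
    LinearMap.det (rho n F σ) = 1 := by
  rw [← alternatingGroup.commutator_perm_eq (by simp; omega)] at h
  exact congrArg Units.val (Abelianization.commutator_subset_ker
    (LinearMap.det.comp (rho n F)).toHomUnits h)

/-- The representation of the alternating group in `SL`. -/
noncomputable def rhoSL (hn : 5 ≤ n) (F : Type*) [Field F] :
    alternatingGroup (Fin (n + 1)) →* SpecialLinearGroup (Fin n) F where
  toFun g := ⟨LinearMap.toMatrix' (rho n F g.1), by rw [LinearMap.det_toMatrix', det_rho hn g.2]⟩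
  map_one' := Subtype.ext (by simp)
  map_mul' g h := Subtype.ext (by simp [LinearMap.toMatrix'_mul]; rfl)

/-- Let n ≥ 5 and F a finite field. Then the projective special linear group PSL_n(F) contains a subgroup isomorphic to the alternating group of degree n + 1. -/
theorem result (n : ℕ) (hn : 5 ≤ n) (F : Type*) [Field F] [Finite F] :
    ∃ f : alternatingGroup (Fin (n + 1)) →* Matrix.ProjectiveSpecialLinearGroup (Fin n) F, Function.Injective f := by
  refine ⟨(H10.slQ (Fin n) F).comp (rhoSL hn F), ?_⟩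
  have := alternatingGroup.isSimpleGroup (α := Fin (n + 1)) (by simp; omega)
  rw [← MonoidHom.ker_eq_bot_iff]
  refine (MonoidHom.normal_ker _).eq_bot_or_eq_top.resolve_right fun h => ?_
  obtain ⟨m, rfl⟩ : ∃ m, n = m + 5 := ⟨n - 5, by omega⟩
  let c : Equiv.Perm (Fin (m + 5 + 1)) := Equiv.swap 1 2 * Equiv.swap 3 4
  have e : ∀ x y : Fin (m + 5 + 1), x = y ↔ x.1 = y.1 := fun x y => Fin.ext_iff
  have hm : c ∈ alternatingGroup _ := by
    rw [Equiv.Perm.mem_alternatingGroup]; simp [c, e, Nat.mod_eq_of_lt]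
  have h1 : (⟨c, hm⟩ : alternatingGroup _) ∈ ((H10.slQ _ F).comp (rhoSL hn F)).ker := by
    rw [h]; trivial
  rw [MonoidHom.mem_ker, MonoidHom.comp_apply, ← map_one (H10.slQ _ F), H10.slQ_eq_iff] at h1
  obtain ⟨a, ha⟩ := h1
  have h2 := congrFun (congrFun ha 1) 0
  change LinearMap.toMatrix' (rho _ F c) 1 0 = _ at h2
  rw [LinearMap.toMatrix'_apply] at h2
  rw [rho_apply] at h2
  have h3 : c.symm (Fin.succ 1) = Fin.succ 0 := by
    rw [Equiv.symm_apply_eq]; simp [c, Equiv.swap_apply_def, e, Nat.mod_eq_of_lt]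
  have h4 : c.symm 0 = 0 := by
    rw [Equiv.symm_apply_eq]; simp [c, Equiv.swap_apply_def, e, Nat.mod_eq_of_lt]
  rw [h3, h4] at h2
  simp only [hat, LinearMap.pi_apply, Fin.cases_succ, Fin.cases_zero] at h2
  simp at h2

end Cfsg.Agent.S4156
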