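import Mathlib
import Cfsg.Agent.H28.Kulak2
-- Template for statement S4157 (row 4157; see /opt/grader/pristine/manifest.json for weights).
-- Copy to Cfsg/Agent/S4157.lean and replace the sorry. The statement below is byte-identical to the frozen
-- statement Cfsg.CfsgFrozen.S4157 (Cfsg/Statements/S4157.lean; the theorem Cfsg.fg7_subgroup_count_congruent_one_plus_p_mod_p_squared);
-- the grader kernel-checks Cfsg.Agent.S4157.result against that frozen type. Keep the theorem IN THIS FILE
-- (a `result` declared elsewhere and merely imported here is not credited); helpers may live anywhere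
-- under Cfsg/Agent/.
import Cfsg.Statements.S4157
-- import your own Cfsg.Agent.* helpers here

set_option autoImplicit false
open Cfsg

namespace Cfsg.Agent.S4157

/-- Let G be a finite p-group of order p^m that is not cyclic and, when p = 2, not of maximal class (nilpotency class m − 1). Then for every 1 ≤ k < m the number of subgroups of G of order p^k is congruent to 1 + p modulo p². -/
theorem result {G : Type*} [Group G] [Finite G] {p : ℕ} [Fact p.Prime] (m : ℕ)
    (hG : Nat.card G = p ^ m) (hnc : ¬ IsCyclic G) (h2 : p = 2 → Group.nilpotencyClass G ≠ m - 1)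
    (k : ℕ) (hk1 : 1 ≤ k) (hk2 : k < m) :
    Nat.card {H : Subgroup G // Nat.card H = p ^ k} ≡ 1 + p [MOD p ^ 2] := by
  open Subgroup Cfsg.Agent.FT Cfsg.Agent.H28 in
  open scoped commutatorElement Pointwise in
  · have hp : p.Prime := Fact.out
    have hc : #(⊤ : Subgroup G) = p ^ m := card_top'.trans hG
    have hP := pGrp_of_card hp hc
    have h1 := sub_add_cyc hp k ⊤ hP (hc ▸ pow_dvd_pow p hk2)
    obtain ⟨s, rfl⟩ := Nat.exists_eq_add_of_le' hk1
    have hnc' := mt cyc_top.1 hnc
    have h3 : p ^ (s + 2) ∣ {x | x ∈ (⊤ : Subgroup G) ∧ orderOf x = p ^ (s + 2)}.ncard := by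
      by_cases e : p = 2
      · subst e
        have h4 : ¬ H3.MaxCl 2 m (⊤ : Subgroup G) := fun h =>
          h2 rfl ((H3.maxCl_top_iff hG (by omega)).1 h)
        obtain ⟨E, hn, hE⟩ : ∃ E, E ⊴ ⊤ ∧ PnElem 2 2 E (⊤ : Subgroup G) := by
          by_contra h
          push Not at h
          obtain ⟨a, b, n, h5⟩ := (H3.cyc_or_mc_of_no_normal_four hP h).resolve_left hnc'
          obtain rfl := Nat.pow_right_injective le_rfl (hc.symm.trans h5.card)
          exact h4 h5.maxCl
        exact two_pow_dvd_ncard hP hE hn (fun h => h4 (H3.maxCl_of_cen_sq hp hc le_top hE.card h)) s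
      · exact H27.pow_dvd_ncard_orderOf hp hP (odd_of_two' (hP.p' e)) hnc' s
    have h4 := (Nat.modEq_zero_iff_dvd.2 (dvd_cyc_of_elt hp h3)).mul_left' p
    rw [← pow_two] at h4
    have := (h4.symm.add_left _).trans h1
    simpa using! this

end Cfsg.Agent.S4157
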