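import Cfsg.Statements.S4159
import Mathlib
import Cfsg.Agent.H27.Real2
import Cfsg.Agent.GW.Base

set_option autoImplicit false
open Cfsg

namespace Cfsg.Agent.S4159

open Cfsg.Agent.FT Subgroup

/-- Let G be a finite group such that in every subgroup H of G, any two conjugacy classes of H of size greater than 1 have non-coprime sizes. Then G is solvable. -/
theorem result {G : Type*} [Group G] [Finite G]
    (h : ∀ (H : Subgroup G) (x y : H), 1 < (Subgroup.centralizer ({x} : Set H)).index → 1 < (Subgroup.centralizer ({y} : Set H)).index →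
      ¬ ((Subgroup.centralizer ({x} : Set H)).index).Coprime (Subgroup.centralizer ({y} : Set H)).index) : Group.IsSolvable G := by
  obtain ⟨P⟩ : Nonempty (Sylow 2 G) := inferInstance
  have hn : (P : Subgroup G).Normal := H27.sylow_two_normal_of_no_real (fun x h1 ho hx => ?_) P
  · have h1 := syl_top Nat.prime_two P
    have h2 := (nml_top_iff.2 hn).nrm
    exact sol_top.1 (sol_of_quo h2 h1.pi.sol (GW.sol_odd (GW.odd_iff_p'.2 (h1.quo_pi' h2))))
  obtain ⟨g, hg⟩ := isConj_iff.1 hx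
  obtain ⟨t, -, ⟨j, hj⟩, ht⟩ := H27.exists_two_elt_inverts hg
  have key (H : Subgroup G) (y : G) (hy : y ∈ H) : (centralizer ({⟨y, hy⟩} : Set H)).index = C[y].relIndex H := by
    rw [relIndex]
    congr 1
    ext z
    rw [mem_subgroupOf, mem_cen1, mem_cen1, Subtype.ext_iff]
    rfl
  have h2 : ⟪t⟫ ≤ N(⟪x⟫) := zpowers_le.2 (mem_nrm.2 fun y ⟨k, hk⟩ => by
    rw [← hk, ← conj_zpow, ht]; exact zpow_mem (inv_mem (mem_zpowers x)) k)
  have h3 : x ∈ ⟪x⟫ ⊔ ⟪t⟫ := mem_sup_left (mem_zpowers x)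
  have h4 : t ∈ ⟪x⟫ ⊔ ⟪t⟫ := mem_sup_right (mem_zpowers t)
  have h5 : t ∉ C[x] := fun k => h1 (GW.eq_one_of_inv_comm ho ht (mem_cen1.1 k))
  have h6 := (H27.pElt_of_orderOf Nat.prime_two hj).zpowers
  have h7 := GW.odd_iff_p'.1 (GW.odd_zp ho)
  have := h _ ⟨x, h3⟩ ⟨t, h4⟩
  rw [key, key] at this
  exact this (one_lt_relIndex fun k => h5 (k h4)) (one_lt_relIndex fun k => h5 (cen1_comm.1 (k h3)))
    (((Hall.sup_left h7 (piGrp_compl_compl.2 h6) h2).relIndex_of_le (zpowers_le_cen1 x)).coprime'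
      ((Hall.sup_right h7 h6 h2).relIndex_of_le (zpowers_le_cen1 t)))

end Cfsg.Agent.S4159
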