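import Cfsg.Statements.S4160
import Mathlib
import Cfsg.Agent.H4.Small

set_option autoImplicit false
open Cfsg

namespace Cfsg.Agent.S4160

/-- Let G be a finite group and p ≠ q primes each dividing the size of some conjugacy class of G, such that no conjugacy class size is divisible by pq. Then G has a normal p-complement or a normal q-complement. -/
theorem result {G : Type*} [Group G] [Finite G] (p q : ℕ) (hp : p.Prime) (hq : q.Prime) (hpq : p ≠ q)
    (hp' : ∃ x : G, p ∣ (Subgroup.centralizer ({x} : Set G)).index) (hq' : ∃ x : G, q ∣ (Subgroup.centralizer ({x} : Set G)).index) (h : ∀ x : G, ¬ p * q ∣ (Subgroup.centralizer ({x} : Set G)).index) :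
    Cfsg.HasNormalPComplement p G ∨ Cfsg.HasNormalPComplement q G := by
  haveI := Fact.mk hp
  haveI := Fact.mk hq
  by_contra hc
  push Not at hc
  obtain ⟨P⟩ : Nonempty (Sylow p G) := inferInstance
  obtain ⟨Q⟩ : Nonempty (Sylow q G) := inferInstance
  have key : ∀ (r : ℕ) [Fact r.Prime] (R : Sylow r G), ¬ Cfsg.HasNormalPComplement r G →
      2 * {x : G | x ≠ 1 ∧ ∃ g : G, g * x * g⁻¹ ∈
        Subgroup.centralizer ((R : Subgroup G) : Set G)}.ncard + 2 ≤ Nat.card G := by
    intro r _ R hR
    have h1 := H4.ncard_conj_into_le (C := Subgroup.centralizer ((R : Subgroup G) : Set G))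
      (H1.le_normalizer_centralizer (H := (R : Subgroup G)) le_rfl)
    have h2 := H4.card_mul_relIndex (H4.centralizer_le_normalizer' (R : Subgroup G))
    have h3 : (Subgroup.centralizer ((R : Subgroup G) : Set G)).relIndex
        (Subgroup.normalizer ((R : Subgroup G) : Set G)) ≠ 1 := fun e =>
      hR (H4.hasNPC_of_normalizer_le_centralizer R (Subgroup.relIndex_eq_one.mp e))
    have h4 := (Subgroup.normalizer ((R : Subgroup G) : Set G)).index_mul_card
    have h5 : 0 < Nat.card G := Nat.card_pos
    have h6 : 0 < Nat.card (Subgroup.centralizer ((R : Subgroup G) : Set G)) := Nat.card_pos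
    generalize (Subgroup.centralizer ((R : Subgroup G) : Set G)).relIndex
        (Subgroup.normalizer ((R : Subgroup G) : Set G)) = e at *
    generalize Nat.card (Subgroup.centralizer ((R : Subgroup G) : Set G)) = c at *
    rw [← h2] at h4
    generalize (Subgroup.normalizer ((R : Subgroup G) : Set G)).index = a at *
    obtain ⟨c, rfl⟩ := Nat.exists_eq_add_of_le' h6
    rw [← h4] at h5 ⊢
    have ha : 1 ≤ a := Nat.pos_of_mul_pos_right h5
    have he : 2 ≤ e := by
      have : e ≠ 0 := by rintro rfl; simp at h5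
      omega
    simp only [Nat.add_sub_cancel] at h1
    nlinarith [Nat.mul_le_mul_left (a * (c + 1)) he]
  have h1 := key p P hc.1
  have h2 := key q Q hc.2
  have h3 : (Set.univ : Set G) ⊆ insert 1 ({x : G | x ≠ 1 ∧ ∃ g : G, g * x * g⁻¹ ∈
        Subgroup.centralizer ((P : Subgroup G) : Set G)} ∪ {x : G | x ≠ 1 ∧ ∃ g : G, g * x * g⁻¹ ∈
        Subgroup.centralizer ((Q : Subgroup G) : Set G)}) := by
    intro x _
    by_cases hx : x = 1
    · exact Or.inl hx
    right
    by_cases h4 : p ∣ (Subgroup.centralizer ({x} : Set G)).index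
    · exact Or.inr ⟨hx, H4.exists_conj_mem_centralizer_sylow Q fun h5 =>
        h x (((Nat.coprime_primes hp hq).mpr hpq).mul_dvd_of_dvd_of_dvd h4 h5)⟩
    · exact Or.inl ⟨hx, H4.exists_conj_mem_centralizer_sylow P h4⟩
  have h4 := (Set.ncard_le_ncard h3 (Set.toFinite _)).trans ((Set.ncard_insert_le _ _).trans
    (Nat.add_le_add_right (Set.ncard_union_le _ _) 1))
  rw [Set.ncard_univ] at h4
  omega

end Cfsg.Agent.S4160
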