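import Mathlib
import Cfsg.Agent.FT.BG01
import Cfsg.Agent.H28.SylNum
-- Template for statement S4168 (row 4168; see /opt/grader/pristine/manifest.json for weights).
-- Copy to Cfsg/Agent/S4168.lean and replace the sorry. The statement below is byte-identical to the frozen
-- statement Cfsg.CfsgFrozen.S4168 (Cfsg/Statements/S4168.lean; the theorem Cfsg.fg7_quasisimple_center_primes_divide_central_quotient);
-- the grader kernel-checks Cfsg.Agent.S4168.result against that frozen type. Keep the theorem IN THIS FILE
-- (a `result` declared elsewhere and merely imported here is not credited); helpers may live anywhere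
-- under Cfsg/Agent/.
import Cfsg.Statements.S4168
-- import your own Cfsg.Agent.* helpers here

set_option autoImplicit false
open Cfsg

namespace Cfsg.Agent.S4168

/-- Let L be a finite quasisimple group (perfect with L/Z(L) simple). Then every prime dividing the order of the centre Z(L) also divides the order of L/Z(L). -/
theorem result {L : Type*} [Group L] [Finite L] (hL : Cfsg.IsQuasisimple L)
    (p : ℕ) (hp : p.Prime) (hdiv : p ∣ Nat.card (Subgroup.center L)) : p ∣ (Subgroup.center L).index := by
  open Subgroup Cfsg.Agent.FT in
  open scoped commutatorElement Pointwise in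
  by_contra h
  haveI : Fact p.Prime := ⟨hp⟩
  obtain ⟨P⟩ : Nonempty (Sylow p L) := inferInstance
  have h1 : (P : Subgroup L) ≤ center L :=
    Cfsg.Agent.H28.sylow_le_of_normal_of_not_dvd_index _ h P
  have h2 := Cfsg.Agent.H4.inf_commutator_inf_center_eq_bot (H := (P : Subgroup L))
    (Ab.mono (inferInstance : IsMulCommutative (center L)) h1) P.card_coprime_index
  rw [hL.1.commutator_eq_top, inf_top_eq, inf_eq_left.2 h1] at h2
  exact P.ne_bot_of_dvd_card (hdiv.trans (card_subgroup_dvd_card _)) h2

end Cfsg.Agent.S4168
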