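import Mathlib
import Cfsg.Agent.H28.Cls
-- Template for statement S4169 (row 4169; see /opt/grader/pristine/manifest.json for weights).
-- Copy to Cfsg/Agent/S4169.lean and replace the sorry. The statement below is byte-identical to the frozen
-- statement Cfsg.CfsgFrozen.S4169 (Cfsg/Statements/S4169.lean; the theorem Cfsg.fg7_p_group_with_two_class_sizes_has_class_at_most_three);
-- the grader kernel-checks Cfsg.Agent.S4169.result against that frozen type. Keep the theorem IN THIS FILE
-- (a `result` declared elsewhere and merely imported here is not credited); helpers may live anywhere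
-- under Cfsg/Agent/.
import Cfsg.Statements.S4169
-- import your own Cfsg.Agent.* helpers here

set_option autoImplicit false
open Cfsg

namespace Cfsg.Agent.S4169

/-- Let P be a finite p-group whose conjugacy classes have exactly two sizes (1 and one other value). Then P has nilpotency class at most 3. -/
theorem result {P : Type*} [Group P] [Finite P] {p : ℕ} [Fact p.Prime] (hP : IsPGroup p P)
    (m : ℕ) (hm : 1 < m) (h : ∀ x : P, (Subgroup.centralizer ({x} : Set P)).index = 1 ∨ (Subgroup.centralizer ({x} : Set P)).index = m) :
    upperCentralSeries P 3 = ⊤ := by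
  open Subgroup Cfsg.Agent.FT Cfsg.Agent.H28 in
  open scoped commutatorElement Pointwise in
  · haveI := hP.isNilpotent
    obtain ⟨A, hAn, hA, -, hCA⟩ := H3.exists_scn (⊥ : Subgroup P) ab_bot
    have hmin : ∀ x : P, 1 < (C[x]).index → m ≤ (C[x]).index := fun x hx => by
      rcases h x with h1 | h1 <;> omega
    have h1 : ⁅⁅⁅(⊤ : Subgroup P), ⊤⁆, ⊤⁆, ⊤⁆ = (⊥ : Subgroup P) := class_three_of_scn hCA.le
      (commutator_le.2 fun t ht x _ => comm_mem_center_of_min hA hmin (h x) ht)
    show Subgroup.upperCentralSeries P 3 = ⊤
    rw [eq_top_iff]
    intro x _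
    simp only [Subgroup.mem_upperCentralSeries_succ_iff, Subgroup.upperCentralSeries_zero, mem_bot]
    intro y z w
    exact mem_bot.1 (h1 ▸ commutator_mem_commutator (commutator_mem_commutator
      (commutator_mem_commutator (mem_top x) (mem_top y)) (mem_top z)) (mem_top w))

end Cfsg.Agent.S4169
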