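import Cfsg.Statements.S4172
import Mathlib
import Cfsg.Agent.H2.Misc

set_option autoImplicit false
open Cfsg

namespace Cfsg.Agent.S4172

open Cfsg.Agent.FT Subgroup
open scoped commutatorElement

/-- Let p be a prime and G a finite group with a non-commutative Sylow p-subgroup P whose Frattini subgroup has index p² in P (P is generated by two elements). Suppose G has no nontrivial normal subgroup of order prime to p and the Frattini subgroup of P contains no nontrivial normal subgroup of G. Then the generalized Fitting subgroup F*(G) is the unique minimal normal subgroup of G, the image of P in G/F*(G) is cyclic, and if F*(G) is not commutative then P permutes the components of G transitively by conjugation. -/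
theorem result {G : Type*} [Group G] [Finite G] (p : ℕ) [Fact p.Prime] (P : Sylow p G) (hna : ¬ IsMulCommutative (P : Subgroup G)) (hgen : (frattini ↥(P : Subgroup G)).index = p ^ 2) (hcore : Cfsg.pPrimeCore p G = ⊥) (hfrat : ((frattini ↥(P : Subgroup G)).map (P : Subgroup G).subtype).normalCore = ⊥) [hFn : (Cfsg.generalizedFittingSubgroup G).Normal] :
    (Cfsg.generalizedFittingSubgroup G ≠ ⊥ ∧ ∀ K : Subgroup G, K.Normal → K ≠ ⊥ → Cfsg.generalizedFittingSubgroup G ≤ K) ∧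
      IsCyclic ↥((P : Subgroup G).map (QuotientGroup.mk' (Cfsg.generalizedFittingSubgroup G))) ∧
      (¬ IsMulCommutative (Cfsg.generalizedFittingSubgroup G) → ∀ K L : Subgroup G, Cfsg.IsComponent K → Cfsg.IsComponent L → ∃ x ∈ (P : Subgroup G), L = K.map (MulAut.conj x).toMonoidHom) := by
  have hp : p.Prime := Fact.out
  have hP := syl_top hp P
  have hi : (Phi (P : Subgroup G)).relIndex P = p ^ 2 := by rw [Phi, relIndex, so_map, hgen]
  have hfr : ∀ K : Subgroup G, K ⊴ ⊤ → K ≤ Phi (P : Subgroup G) → K = ⊥ := fun K hK h =>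
    have := nml_top_iff.1 hK
    eq_bot_of_le (normal_le_normalCore.2 h) hfrat
  rw [← p'core_top hp] at hcore
  generalize (P : Subgroup G) = S at *
  have hD : ⁅S, S⁆ ≠ ⊥ := fun h => hna (ab_iff_der.2 h)
  have k1 : ∀ K : Subgroup G, K ⊴ ⊤ → K ≠ ⊥ → ¬ K ⊓ S ≤ Phi S := fun K hK h1 h => by
    have h2 := (tate_rel hp hP.pi (le_top.trans hK.nrm) (hP.inf_nml' hK) h).relIndex
    rw [eq_bot_of_le (pcore_mono_nml _ hK) hcore, relIndex_bot_left] at h2
    exact h1 (hfr K hK ((le_inf le_rfl (hP.ge_of_nml h2 hK)).trans h))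
  have k2 : ∀ K : Subgroup G, S ≤ N(K) → ¬ K ⊓ S ≤ Phi S → Cyc (S /ₛ (K ⊓ S)) := fun K hK h =>
    der_le_of_not_le_Phi hp hP.pi hi.dvd (nml_inf_of_norms' hK) h
  have k3 : ∀ K : Subgroup G, S ≤ N(K) → ¬ K ⊓ S ≤ Phi S → ⁅S, S⁆ ≤ K := fun K hK h =>
    (der_le_of_ab_quo (nml_inf_of_norms' hK).nrm (k2 K hK h).ab).trans inf_le_left
  have k4 : ∀ K L : Subgroup G, K ⊴ ⊤ → L ⊴ ⊤ → K ⊓ L = ⊥ → K = ⊥ ∨ L = ⊥ := fun K L hK hL h => by
    by_contra! h1
    exact hD (eq_bot_of_le (le_inf (k3 K (le_top.trans hK.nrm) (k1 K hK h1.1))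
      (k3 L (le_top.trans hL.nrm) (k1 L hL h1.2))) h)
  have k5 : E((⊤ : Subgroup G)) ≠ ⊥ → F((⊤ : Subgroup G)) = ⊥ := fun hE => by
    refine (k4 _ _ (fitting_nml ⊤) (lay_nml ⊤) (by_contra fun h => k1 _ ((fitting_nml ⊤).inf (lay_nml ⊤)) h ?_)).resolve_right hE
    have h1 := (hP.inf_nml (lay_nml ⊤)).isHall.inf_der_center
    rw [lay_perf] at h1
    refine le_trans (le_inf (le_inf (le_inf inf_le_right (inf_le_left.trans inf_le_right))
      (inf_le_left.trans inf_le_right)) (inf_le_left.trans (inf_le_left.trans (centsC (lay_cents_fitting ⊤)))))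
      (h1.trans ((der_mono inf_le_left).trans hP.pi.der_le_Phi))
  have hF : F*((⊤ : Subgroup G)) ≠ ⊥ := gfit_ne_bot fun h => hD (eq_bot_of_le le_top h)
  have k6 : ∀ K : Subgroup G, K ⊴ ⊤ → K ≠ ⊥ → F*((⊤ : Subgroup G)) ≤ K := fun K hK h1 => by
    by_cases hE : E((⊤ : Subgroup G)) = ⊥
    · have hc := charP'_of hcore hE
      rw [charP'_iff.1 hc] at hF ⊢
      have hQ : O[{p}]((⊤ : Subgroup G)) ⊴ ⊤ := pcore_nml _ _
      have hQp : PGrp p O[{p}]((⊤ : Subgroup G)) := pcore_pi _ _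
      have hQS : O[{p}]((⊤ : Subgroup G)) ≤ S := hP.pcore_le
      have hmax : ∀ X, PGrp p X → X ⊴ ⊤ → X ≤ O[{p}]((⊤ : Subgroup G)) := fun X => pcore_max
      unfold CharP' at hc
      generalize O[{p}]((⊤ : Subgroup G)) = Q at *
      have hab : Ab Q := ((hQp.Phi_eq_bot_iff hp).1 (hfr _ hQ.Phi (hP.pi.Phi_mono hQS))).ab
      have hV := hK.inf hQ
      have hV1 : K ⊓ Q ≠ ⊥ := fun h => (k4 K Q hK hQ h).elim h1 hF
      suffices Q ≤ K ⊓ Q from this.trans inf_le_left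
      have hVQ : K ⊓ Q ≤ Q := inf_le_right
      generalize K ⊓ Q = V at *
      by_contra h2
      have hn : ∀ X : Subgroup G, X ≤ N(V) := fun X => le_top.trans hV.nrm
      have h3 := k2 V (hn S) (k1 V hV hV1)
      rw [inf_eq_left.2 (hVQ.trans hQS)] at h3
      have hC : qpre(V, C(Q /ₛ V)) ⊴ ⊤ := ⟨le_top, norms_qpre (hn _) (norms_cent (quo_norms V hQ.nrm))⟩
      have hSC : S ≤ qpre(V, C(Q /ₛ V)) := (quo_le_iff (hn S)).1 (h3.ab.cents (quo_mono V hQS) le_rfl)
      have h4 := (hP.subl hSC le_top).quo (hn _)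
      have h5 : NPC p (qpre(V, C(Q /ₛ V)) /ₛ V) := npc_of_syl_inf_der h4
        ((cyclic_Sylow_tiVsub_der1 h4 h3).resolve_right fun h => h2 ((quo_eq_bot (hn Q)).1 (eq_bot_of_le
          (le_inf (le_inf (quo_mono V hQS) ((quo_mono V hQS).trans h)) (by rw [quo_qpre]; exact le_cen_cen _))
          (h4.isHall.inf_der_center_ab h3.ab))))
      have hQC : ⁅Q, qpre(V, C(Q /ₛ V))⁆ ≤ V := (commC _ _).le.trans ((le_qpre_cen (hn Q)).1 le_rfl).2
      have hVC : V ≤ qpre(V, C(Q /ₛ V)) := le_qpre _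
      generalize qpre(V, C(Q /ₛ V)) = C at *
      have hH : qpre(V, O[{p}ᶜ](C /ₛ V)) ⊴ ⊤ := qpre_nml hV ((hC.quo V).pcore _)
      have hHC : qpre(V, O[{p}ᶜ](C /ₛ V)) ≤ C := qpre_le_of_le_quo hVC (pcore_le _ _)
      obtain ⟨H, hH', hsd⟩ := (hall_of_quo_pi' (nml_qpre O[{p}ᶜ](C /ₛ V)) (hQp.mono hVQ)
        (by rw [quo_qpre]; exact pcore_pi _ _)).exists_compl (hn _)
      have hdp := coprime_abelian_cent_dprod (le_top.trans hQ.nrm : H ≤ N(Q)) (hQp.cop hH'.pi) hab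
      have hVc : V ≤ C(Q) := hab.cents le_rfl hVQ
      have e1 := hsd.mulEq.symm.comm_eq_of_cents' hVc
      have e2 : Q ⊓ C(qpre(V, O[{p}ᶜ](C /ₛ V))) = Q ⊓ C(H) := by
        rw [← hsd.sup, cen_sup, ← inf_assoc, inf_eq_left.2 (centsC hVc)]
      rcases k4 _ _ (hQ.comm hH) (hQ.subcent hH.nrm) (by rw [e1, e2]; exact hdp.inf) with h | h
      · have h6 : H = ⊥ := (hQp.mono ((le_inf le_top (comm_eq_bot'.1 (e1 ▸ h))).trans hc)).eq_bot hH'.pi
        have h7 := h5.relIndex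
        rw [← quo_qpre O[{p}ᶜ](C /ₛ V), ← hsd.sup, h6, sup_bot_eq, quo_self, relIndex_bot_left] at h7
        exact hna (hab.mono (hSC.trans (hmax C (piGrp_of_quo (hQp.mono hVQ) (hn C) h7) hC)))
      · have h6 := hdp.sup
        rw [← e2, h, sup_bot_eq, ← e1] at h6
        exact h2 (h6.ge.trans ((commSS le_rfl hHC).trans hQC))
    · have h2 : C(K) ⊴ ⊤ := ⟨le_top, norms_cent hK.nrm⟩
      have h3 := (k4 K _ hK h2 (eq_bot_of_le ((ab_center K).le_fitting hK.center) (k5 hE))).resolve_left h1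
      rw [gfit_eq, k5 hE, sup_bot_eq]
      exact lay_le_iff.2 fun L hL => (hL.le_or_cents hK.subn).resolve_right fun h => hL.ne (eq_bot_of_le h h3)
  refine ⟨gfit_top (G := G) ▸ ⟨hF, fun K hK => k6 K (nml_top_iff.2 hK)⟩, ?_, fun _ K L hK hL => ?_⟩
  · have hn : S ≤ N(F*((⊤ : Subgroup G))) := le_top.trans (gfit_nrm ⊤)
    obtain ⟨x, hx, h⟩ := (cyc_quo_iff (nml_inf_of_norms' hn).nrm).1 (k2 _ hn (k1 _ (gfit_nml ⊤) hF))
    refine (cyc_zpowers (QuotientGroup.mk' _ x)).mono ?_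
    rw [← MonoidHom.map_zpowers, Subgroup.map_le_map_iff, QuotientGroup.ker_mk', sup_comm]
    exact h.trans (sup_le_sup_right (inf_le_left.trans gfit_top.le) _)
  · have hK' := comp_top.2 hK
    have hL' := comp_top.2 hL
    refine hK'.eq_cj_of_not_cents (le_nrm_top S) hL' fun h => ?_
    have h1 : ∀ K : Subgroup G, Comp K ⊤ → ⁅S, S⁆ ≤ orbs S K := fun K hK => k3 _ (norms_orbs S K) fun h =>
      (hK.pcomp_of_core hcore).pqs.not_npc (tate_rel hp hP.pi (norms_orbs S K)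
        (inf_comm S _ ▸ hP.inf_subn (hK.subn.orbs (le_nrm_top S))) h) (le_orbs S K)
    have h2 := orbs_le (norms_cent (norms_orbs S K)) h
    refine hD (eq_bot_of_le ((le_inf (h1 K hK') (h1 L hL')).trans (fitting_max_subn
      ((hK'.subn.orbs (le_nrm_top S)).inf (hL'.subn.orbs (le_nrm_top S))) (Ab.nil (ab_iff.2
        (centSS inf_le_left inf_le_right h2))))) (k5 (ne_bot_of_le hK'.le_lay hK'.ne)))

end Cfsg.Agent.S4172
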