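import Mathlib
import Cfsg.Agent.H28.Util3
import Cfsg.Agent.H1.Hall
-- Template for statement S4176 (row 4176; see /opt/grader/pristine/manifest.json for weights).
-- Copy to Cfsg/Agent/S4176.lean and replace the sorry. The statement below is byte-identical to the frozen
-- statement Cfsg.CfsgFrozen.S4176 (Cfsg/Statements/S4176.lean; the theorem Cfsg.fg9_spanning_orbit_p_soluble_fixed_points);
-- the grader kernel-checks Cfsg.Agent.S4176.result against that frozen type. Keep the theorem IN THIS FILE
-- (a `result` declared elsewhere and merely imported here is not credited); helpers may live anywhere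
-- under Cfsg/Agent/.
import Cfsg.Statements.S4176
-- import your own Cfsg.Agent.* helpers here

set_option autoImplicit false
open Cfsg

namespace Cfsg.Agent.S4176

/-- Let k be a field of prime characteristic p, H a finite p-soluble group and ρ a k-linear representation of H on V. Let a be a vector that is fixed by some Sylow p-subgroup of H and whose H-orbit spans V. Then the space of H-fixed vectors has dimension at most 1, and every vector b whose H-orbit has size coprime to the size of the orbit of a is fixed by H. -/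
theorem result {k V H : Type*} [Field k] (p : ℕ) [Fact p.Prime] [CharP k p] [AddCommGroup V] [Module k V]
    [Group H] [Finite H] (hsol : Cfsg.IsPSolvable p H) (ρ : Representation k H V) (a : V)
    (hfix : ∃ P : Sylow p H, ∀ x : H, x ∈ (P : Subgroup H) → ρ x a = a)
    (hspan : Submodule.span k {u : V | ∃ h : H, ρ h a = u} = ⊤) :
    Module.finrank k ρ.invariants ≤ 1 ∧
    ∀ b : V, (Nat.card {u : V | ∃ h : H, ρ h a = u}).Coprime (Nat.card {u : V | ∃ h : H, ρ h b = u}) → ∀ h : H, ρ h b = b := by
  open Subgroup Cfsg.Agent.FT Cfsg.Agent.H28 in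
  open scoped commutatorElement Pointwise in
  · classical
    have hp : p.Prime := Fact.out
    haveI := Fintype.ofFinite H
    let st : V → Subgroup H := fun v =>
      { carrier := {h | ρ h v = v}
        one_mem' := by simp
        mul_mem' := fun {x y} hx hy => by simp only [Set.mem_ofPred_eq, map_mul, Module.End.mul_apply] at *; rw [hy, hx]
        inv_mem' := fun {x} hx => by
          have : ρ x v = v := hx
          exact (congrArg (ρ x⁻¹) this.symm).trans (ρ.inv_self_apply x v) }
    have hst : ∀ v x y, ρ x v = ρ y v ↔ x⁻¹ * y ∈ st v := fun v x y => by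
      change _ ↔ ρ (x⁻¹ * y) v = v
      rw [map_mul, Module.End.mul_apply]
      exact ⟨fun e => e ▸ ρ.inv_self_apply x v, fun e => by rw [← congrArg (ρ x) e, ρ.self_inv_apply]⟩
    have ho : ∀ v, Nat.card {u : V | ∃ h : H, ρ h v = u} = (st v).index := fun v =>
      (Nat.card_eq_of_bijective (fun q : H ⧸ st v => (⟨ρ q.out v, _, rfl⟩ : {u : V | ∃ h : H, ρ h v = u}))
        ⟨fun q r e => by rw [← q.out_eq', ← r.out_eq', QuotientGroup.eq]; exact (hst v _ _).1 (congrArg Subtype.val e),
          fun ⟨_, h, e⟩ => ⟨h, Subtype.ext (((hst v _ _).2 (QuotientGroup.eq.1 (QuotientGroup.out_eq' _))).trans e)⟩⟩).symm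
    obtain ⟨P, hP⟩ := hfix
    have hi : PiNat {p}ᶜ (st a).index := p'nat_of_not_dvd fun h => P.not_dvd_index (h.trans (index_dvd_of_le hP))
    let T := Finset.univ.image fun h => ρ h a
    have hT : ∀ h, ρ h (∑ u ∈ T, u) = ∑ u ∈ T, u := fun h => by
      rw [map_sum]
      refine Finset.sum_bij' (fun u _ => ρ h u) (fun u _ => ρ h⁻¹ u) ?_ ?_ (fun u _ => by simp) (fun u _ => by simp) fun _ _ => rfl <;>
        simp only [T, Finset.mem_image, Finset.mem_univ, true_and] <;> rintro _ ⟨g, rfl⟩ <;>
        exact ⟨_ * g, by rw [map_mul, Module.End.mul_apply]⟩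
    have hTc : (T.card : k) ≠ 0 := by
      rw [Ne, CharP.cast_eq_zero_iff k p, ← Nat.card_eq_finsetCard]
      refine fun h => hi.not_dvd hp rfl (h.trans (ho a ▸ (Nat.card_congr (Equiv.subtypeEquivRight fun u => ?_)).dvd))
      simp [T]
    have key : ∀ B : Subgroup H, MulEq B (st a) ⊤ → ∀ v, (∀ y ∈ B, ρ y v = v) → v ∈ Submodule.span k {∑ u ∈ T, u} := fun B hB v hv => by
      obtain ⟨Y₀, hY₀⟩ := H1.exists_hall_compl_of_isPSolvable hp (H1.isPSolvable_subgroup hp hsol B)
      have hY := hall_map_subtype.2 hY₀
      set Y := Y₀.map B.subtype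
      have h1 := hY.mulEq_of_relIndex (R := st a ⊓ B) inf_le_right (by
        rwa [inf_relIndex_right, ← hB.relIndex_right, relIndex_top_right])
      let E : V →ₗ[k] V := ∑ y : Y, ρ y
      have hE : ∀ w, (∀ y ∈ Y, ρ y w = w) → E w = (#Y : k) • w := fun w hw => by
        simp [E, fun y : Y => hw y y.2, Nat.cast_smul_eq_nsmul]
      have hE' : ∀ h, E (ρ h a) = E a := fun h => by
        obtain ⟨b, hb, x, hx, rfl⟩ := hB.mul h (mem_top h)
        obtain ⟨y, hy, z, hz, rfl⟩ := h1.mul b hb
        rw [mul_assoc, map_mul, Module.End.mul_apply, show ρ (z * x) a = a from mul_mem hz.1 hx]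
        simp only [E, LinearMap.sum_apply]
        exact Fintype.sum_equiv (Equiv.mulRight ⟨y, hy⟩) _ _ fun g => by simp
      have hY0 : (#Y : k) ≠ 0 := by rw [Ne, CharP.cast_eq_zero_iff k p]; exact hY.pi.not_dvd hp rfl
      have h2 : E a ∈ Submodule.span k {∑ u ∈ T, u} := by
        rw [← Submodule.smul_mem_iff _ hTc]
        convert Submodule.smul_mem _ (#Y : k) (Submodule.mem_span_singleton_self (∑ u ∈ T, u)) using 1
        rw [← hE _ fun y _ => hT y, map_sum, Finset.sum_congr rfl (g := fun _ => E a), Finset.sum_const, Nat.cast_smul_eq_nsmul]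
        intro u hu
        obtain ⟨g, -, rfl⟩ := Finset.mem_image.1 hu
        exact hE' g
      rw [← Submodule.smul_mem_iff _ hY0, ← hE v fun y hy => hv y (hY.le hy)]
      exact (show ⊤ ≤ Submodule.comap E (Submodule.span k {∑ u ∈ T, u}) from hspan ▸ Submodule.span_le.2 (by
        rintro _ ⟨g, rfl⟩; exact Submodule.mem_comap.2 ((hE' g).symm ▸ h2))) trivial
    refine ⟨(Submodule.finrank_mono (fun v (hv : v ∈ ρ.invariants) => key ⊤ (mulEq_of_sup (le_nrm_of_normal _ _) (top_sup_eq _)) v fun y _ => hv y)).trans
      ((finrank_span_le_card _).trans (by simp)), fun b hb h => ?_⟩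
    obtain ⟨c, e⟩ := Submodule.mem_span_singleton.1 (key (st b) (mulEq_of_coprime_relIndex le_top le_top (by
      rw [relIndex_top_right, relIndex_top_right, ← ho, ← ho]; exact hb.symm)) b fun y hy => hy)
    rw [← e, map_smul, hT]

end Cfsg.Agent.S4176
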