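import Mathlib
import Cfsg.Agent.H28.Util
-- Template for statement S4177 (row 4177; see /opt/grader/pristine/manifest.json for weights).
-- Copy to Cfsg/Agent/S4177.lean and replace the sorry. The statement below is byte-identical to the frozen
-- statement Cfsg.CfsgFrozen.S4177 (Cfsg/Statements/S4177.lean; the theorem Cfsg.fg9_spanning_orbit_coprime_characteristic_fixed_points);
-- the grader kernel-checks Cfsg.Agent.S4177.result against that frozen type. Keep the theorem IN THIS FILE
-- (a `result` declared elsewhere and merely imported here is not credited); helpers may live anywhere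
-- under Cfsg/Agent/.
import Cfsg.Statements.S4177
-- import your own Cfsg.Agent.* helpers here

set_option autoImplicit false
open Cfsg

namespace Cfsg.Agent.S4177

section
open Subgroup Cfsg.Agent.FT Cfsg.Agent.H28
open scoped commutatorElement Pointwise
set_option linter.style.haveILetI false

theorem sum_apply {k V H : Type*} [Field k] [AddCommGroup V] [Module k V] [Group H]
    (ρ : Representation k H V) (B : Subgroup H) [Fintype B] {β : H} (hβ : β ∈ B) (v : V) :
    ∑ g : B, ρ g (ρ β v) = ∑ g : B, ρ g v := by
  refine Fintype.sum_equiv (Equiv.mulRight (⟨β, hβ⟩ : B)) _ _ fun g => ?_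
  simp

theorem apply_sum {k V H : Type*} [Field k] [AddCommGroup V] [Module k V] [Group H]
    (ρ : Representation k H V) (B : Subgroup H) [Fintype B] {β : H} (hβ : β ∈ B) (v : V) :
    ρ β (∑ g : B, ρ g v) = ∑ g : B, ρ g v := by
  rw [map_sum]
  refine Fintype.sum_equiv (Equiv.mulLeft (⟨β, hβ⟩ : B)) _ _ fun g => ?_
  simp

theorem key {k V H : Type*} [Field k] [AddCommGroup V] [Module k V] [Group H] [Finite H]
    (hchar : ¬ ringChar k ∣ Nat.card H) (ρ : Representation k H V) (a : V)
    (hspan : Submodule.span k {u : V | ∃ h : H, ρ h a = u} = ⊤) :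
    ∃ w : V, (∀ h, ρ h w = w) ∧ ∀ B : Subgroup H, (∀ h : H, ∃ β ∈ B, ρ h a = ρ β a) →
      ∀ v : V, (∀ β ∈ B, ρ β v = v) → v ∈ Submodule.span k {w} := by
  classical
  haveI : ∀ B : Subgroup H, Fintype B := fun B => Fintype.ofFinite B
  have hc : ∀ B : Subgroup H, ((Fintype.card B : ℕ) : k) ≠ 0 := by
    intro B h
    rw [ringChar.spec, ← Nat.card_eq_fintype_card] at h
    exact hchar (h.trans (card_subgroup_dvd_card B))
  have hinv : ∀ B : Subgroup H, ∀ v : V, (∀ β ∈ B, ρ β v = v) →
      ∑ g : B, ρ g v = ((Fintype.card B : ℕ) : k) • v := by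
    intro B v hv
    rw [Finset.sum_congr rfl fun (g : B) _ => hv g g.2, Finset.sum_const, Finset.card_univ,
      Nat.cast_smul_eq_nsmul]
  refine ⟨∑ g : (⊤ : Subgroup H), ρ g a, fun h => apply_sum ρ ⊤ (mem_top h) a, fun B hB v hv => ?_⟩
  have h1 : ∀ h : H, ∑ g : B, ρ g (ρ h a) = ∑ g : B, ρ g a := by
    intro h
    obtain ⟨β, hβ, e⟩ := hB h
    rw [e, sum_apply ρ B hβ]
  have h2 : ∑ g : B, ρ g a ∈ Submodule.span k {∑ g : (⊤ : Subgroup H), ρ g a} := by
    have e := hinv B _ fun β _ => apply_sum ρ ⊤ (mem_top β) a
    have e2 : ∑ g : B, ρ g (∑ h : (⊤ : Subgroup H), ρ h a) =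
        ((Fintype.card (⊤ : Subgroup H) : ℕ) : k) • ∑ g : B, ρ g a := by
      simp only [map_sum]
      rw [Finset.sum_comm, Finset.sum_congr rfl fun (h : (⊤ : Subgroup H)) _ => h1 h,
        Finset.sum_const, Finset.card_univ, Nat.cast_smul_eq_nsmul]
    rw [← Submodule.smul_mem_iff _ (hc ⊤), ← e2, e]
    exact Submodule.smul_mem _ _ (Submodule.mem_span_singleton_self _)
  have h3 : ∀ u : V, ∑ g : B, ρ g u ∈ Submodule.span k {∑ g : (⊤ : Subgroup H), ρ g a} := by
    intro u
    have hu : u ∈ Submodule.span k {u : V | ∃ h : H, ρ h a = u} := hspan ▸ Submodule.mem_top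
    induction hu using Submodule.span_induction with
    | mem x hx =>
      obtain ⟨h, rfl⟩ := hx
      rw [h1]; exact h2
    | zero => simp
    | add x y _ _ hx hy =>
      simp only [map_add, Finset.sum_add_distrib]
      exact Submodule.add_mem _ hx hy
    | smul c x _ hx =>
      simp only [map_smul, ← Finset.smul_sum]
      exact Submodule.smul_mem _ _ hx
  rw [← Submodule.smul_mem_iff _ (hc B), ← hinv B v hv]
  exact h3 v

def stab {k V H : Type*} [Field k] [AddCommGroup V] [Module k V] [Group H]
    (ρ : Representation k H V) (a : V) : Subgroup H where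
  carrier := {h | ρ h a = a}
  mul_mem' := by
    intro x y hx hy
    simp only [Set.mem_ofPred_eq, map_mul, Module.End.mul_apply] at *
    rw [hy, hx]
  one_mem' := by simp
  inv_mem' := by
    intro x hx
    simp only [Set.mem_ofPred_eq] at *
    nth_rewrite 1 [← hx]
    rw [← Module.End.mul_apply, ← map_mul]
    simp

theorem index_stab {k V H : Type*} [Field k] [AddCommGroup V] [Module k V] [Group H]
    (ρ : Representation k H V) (a : V) :
    (stab ρ a).index = Nat.card {u : V | ∃ h : H, ρ h a = u} := by
  letI : MulAction H V := MulAction.compHom V (ρ : H →* Module.End k V)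
  exact MulAction.index_stabilizer H a

end

/-- Let k be a field whose characteristic does not divide the order of the finite group H (for instance a field of characteristic zero), and ρ a k-linear representation of H on V. Let a be a vector whose H-orbit spans V. Then the space of H-fixed vectors has dimension at most 1, and every vector b whose H-orbit has size coprime to the size of the orbit of a is fixed by H. -/
theorem result {k V H : Type*} [Field k] [AddCommGroup V] [Module k V] [Group H] [Finite H]
    (hchar : ¬ ringChar k ∣ Nat.card H) (ρ : Representation k H V) (a : V)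
    (hspan : Submodule.span k {u : V | ∃ h : H, ρ h a = u} = ⊤) :
    Module.finrank k ρ.invariants ≤ 1 ∧
    ∀ b : V, (Nat.card {u : V | ∃ h : H, ρ h a = u}).Coprime (Nat.card {u : V | ∃ h : H, ρ h b = u}) → ∀ h : H, ρ h b = b := by
  open Subgroup Cfsg.Agent.FT Cfsg.Agent.H28 in
  open scoped commutatorElement Pointwise in
  obtain ⟨w, hw, h⟩ := key hchar ρ a hspan
  refine ⟨?_, fun b hb g => ?_⟩
  · have h1 : ρ.invariants ≤ Submodule.span k {w} := fun v hv =>
      h ⊤ (fun g => ⟨g, mem_top g, rfl⟩) v fun β _ => hv β
    refine le_trans (Submodule.finrank_mono h1) ?_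
    simpa using finrank_span_le_card (R := k) ({w} : Set V)
  · rw [← index_stab, ← index_stab, ← relIndex_top_right, ← relIndex_top_right] at hb
    have h1 := (mulEq_of_coprime_relIndex le_top le_top hb).symm
    have h2 := h (stab ρ b) (fun g => by
      obtain ⟨β, hβ, α, hα, rfl⟩ := h1.mul g (mem_top g)
      refine ⟨β, hβ, ?_⟩
      rw [map_mul, Module.End.mul_apply, show ρ α a = a from hα]) b fun β hβ => hβ
    obtain ⟨c, rfl⟩ := Submodule.mem_span_singleton.1 h2
    rw [map_smul, hw]

end Cfsg.Agent.S4177
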