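import Mathlib
-- Template for statement S4178 (row 4178; see /opt/grader/pristine/manifest.json for weights).
-- Copy to Cfsg/Agent/S4178.lean and replace the sorry. The statement below is byte-identical to the frozen
-- statement Cfsg.CfsgFrozen.S4178 (Cfsg/Statements/S4178.lean; the theorem Cfsg.fg9_linear_group_eigenvalue_one_subgroup_index);
-- the grader kernel-checks Cfsg.Agent.S4178.result against that frozen type. Keep the theorem IN THIS FILE
-- (a `result` declared elsewhere and merely imported here is not credited); helpers may live anywhere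
-- under Cfsg/Agent/.
import Cfsg.Statements.S4178
-- import your own Cfsg.Agent.* helpers here

set_option autoImplicit false
open Cfsg

namespace Cfsg.Agent.S4178

section
open Subgroup
set_option linter.style.haveILetI false

theorem index_le {H X : Type*} [Group H] [Finite X] (R : Subgroup H) (φ : H → X) (x : X) (h0 : ∀ a, φ a ≠ x)
    (h : ∀ a b, φ a = φ b → a⁻¹ * b ∈ R) : R.index + 1 ≤ Nat.card X := by
  have h1 : Nat.card (Option (H ⧸ R)) ≤ Nat.card X := Nat.card_le_card_of_injective (fun o => o.elim x fun q => φ q.out) (by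
    rintro (_ | a) (_ | b) e
    · rfl
    · exact absurd e.symm (h0 _)
    · exact absurd e (h0 _)
    · rw [← QuotientGroup.out_eq' a, ← QuotientGroup.out_eq' b, QuotientGroup.eq.2 (h _ _ e)])
  haveI : Finite (H ⧸ R) := Finite.of_injective (fun q : H ⧸ R => φ q.out) fun a b e => by
    rw [← QuotientGroup.out_eq' a, ← QuotientGroup.out_eq' b, QuotientGroup.eq.2 (h _ _ e)]
  rwa [Finite.card_option] at h1

end

/-- Let F be a finite field with q elements, V a non-zero finite-dimensional F-space of dimension d, H a group of invertible linear maps of V, and R the subgroup of H generated by the elements of H that fix some non-zero vector (have eigenvalue 1). Then the index of R in H is at most q^d − 1; and if H leaves invariant some proper non-zero subspace, the index is at most q^(d/2) − 1. -/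
theorem result {F V : Type*} [Field F] [Fintype F] [AddCommGroup V] [Module F V] [FiniteDimensional F V] [Nontrivial V]
    (H : Subgroup (V ≃ₗ[F] V)) :
    (Subgroup.closure {h : ↥H | ∃ v : V, v ≠ 0 ∧ (h : V ≃ₗ[F] V) v = v}).index ≤ Fintype.card F ^ Module.finrank F V - 1 ∧
    ((∃ W : Submodule F V, W ≠ ⊥ ∧ W ≠ ⊤ ∧ ∀ h ∈ H, ∀ w ∈ W, h w ∈ W) →
      ((Subgroup.closure {h : ↥H | ∃ v : V, v ≠ 0 ∧ (h : V ≃ₗ[F] V) v = v}).index : ℝ) ≤ Real.sqrt ((Fintype.card F : ℝ) ^ Module.finrank F V) - 1) := by
  open Subgroup in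
  · haveI : Finite V := Module.finite_of_finite F
    have hV : Nat.card V = Fintype.card F ^ Module.finrank F V := by
      rw [Module.natCard_eq_pow_finrank (K := F), Nat.card_eq_fintype_card]
    set R := closure {h : H | ∃ v : V, v ≠ 0 ∧ (h : V ≃ₗ[F] V) v = v}
    have e : ∀ (a : H) (v : V), ((a⁻¹ : H) : V ≃ₗ[F] V) ((a : V ≃ₗ[F] V) v) = v := fun a v => (a : V ≃ₗ[F] V).symm_apply_apply v
    have hA : ∀ W : Submodule F V, W ≠ ⊥ → (∀ h ∈ H, ∀ w ∈ W, h w ∈ W) → R.index + 1 ≤ Nat.card W := fun W h1 h2 => by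
      obtain ⟨v, hv, hv0⟩ := W.exists_mem_ne_zero_of_ne_bot h1
      refine index_le R (fun a => (⟨_, h2 a a.2 v hv⟩ : W)) 0 (fun a h => hv0 ?_) fun a b h => subset_closure ⟨v, hv0, ?_⟩
      · exact (a : V ≃ₗ[F] V).map_eq_zero_iff.1 (congrArg Subtype.val h)
      · have : (a : V ≃ₗ[F] V) v = (b : V ≃ₗ[F] V) v := congrArg Subtype.val h
        exact (congrArg _ this.symm).trans (e a v)
    refine ⟨Nat.le_sub_one_of_lt (hV ▸ (hA ⊤ top_ne_bot fun _ _ _ _ => trivial).trans (Finite.card_subtype_le _)), ?_⟩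
    rintro ⟨W, h1, h2, h3⟩
    have hB : R.index + 1 ≤ Nat.card (V ⧸ W) := by
      obtain ⟨v, -, hv⟩ := SetLike.exists_of_lt (lt_top_iff_ne_top.2 h2)
      haveI : Finite (V ⧸ W) := Finite.of_surjective _ W.mkQ_surjective
      refine index_le R (fun a => W.mkQ ((a : V ≃ₗ[F] V) v)) 0 (fun a h => hv ?_) fun a b h => subset_closure ?_
      · exact e a v ▸ h3 _ (a⁻¹).2 _ ((Submodule.Quotient.mk_eq_zero W).1 h)
      · by_contra hc
        have h4 := h3 _ (a⁻¹).2 _ ((Submodule.Quotient.eq W).1 h.symm)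
        rw [map_sub, e] at h4
        have h5 : ∀ u w, ((a⁻¹ * b : H) : V ≃ₗ[F] V) u - u = ((a⁻¹ * b : H) : V ≃ₗ[F] V) w - w → u = w := fun u w h =>
          by_contra fun hne => hc ⟨u - w, sub_ne_zero.2 hne, by rw [map_sub, sub_eq_sub_iff_sub_eq_sub.1 h]⟩
        obtain ⟨w, hw⟩ := Finite.surjective_of_injective (f := fun w : W =>
          (⟨_, W.sub_mem (h3 _ (a⁻¹ * b).2 _ w.2) w.2⟩ : W)) (fun u w h => Subtype.ext (h5 _ _ (congrArg Subtype.val h))) ⟨_, h4⟩
        exact hv (h5 _ _ (congrArg Subtype.val hw) ▸ w.2)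
    have := Nat.mul_le_mul (hA W h1 h3) hB
    rw [← Submodule.card_eq_card_quotient_mul_card, hV, ← sq] at this
    rw [le_sub_iff_add_le]
    exact Real.le_sqrt_of_sq_le (by exact_mod_cast this)

end Cfsg.Agent.S4178
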