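import Cfsg.Statements.S4182
import Mathlib
import Cfsg.Agent.FT.PLen

set_option autoImplicit false
open Cfsg

namespace Cfsg.Agent.S4182

open Subgroup Cfsg.Agent.FT

section
variable {G : Type*} [Group G] [Finite G] {ι : Type*} {p : ℕ}

theorem count (s : Finset ι) (S : Set G) (T : ι → Set G) (h : ∀ g ∈ S, ∃ i ∈ s, g ∈ T i) :
    S.ncard ≤ ∑ i ∈ s, (T i).ncard :=
  (Set.ncard_le_ncard (fun g hg => by simpa using h g hg)).trans (Finset.set_ncard_biUnion_le s T)

theorem ncard_eq (H : Subgroup G) : (H : Set G).ncard = #H := (Nat.card_coe_set_eq _).symm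

theorem pcase (hp : p.Prime) (s : Finset ι) (K : ι → Subgroup G) {P : Subgroup G} (hP : PGrp p P)
    (h1 : ∀ i ∈ s, ¬ P ≤ K i) (h2 : ∀ g ∈ P, ∃ i ∈ s, g ∈ K i) : p + 1 ≤ s.card := by
  by_contra hn
  obtain ⟨i₀, hi₀, -⟩ := h2 1 (one_mem _)
  have hne : P ≠ ⊥ := fun e => h1 i₀ hi₀ (e ▸ bot_le)
  obtain ⟨a, ha⟩ := hP.dvd hne
  have key := count s ((P : Set G) \ {1}) (fun i => ((P ⊓ K i : Subgroup G) : Set G) \ {1})
    fun g hg => let ⟨i, hi, h⟩ := h2 g hg.1; ⟨i, hi, ⟨hg.1, h⟩, hg.2⟩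
  rw [Set.ncard_diff_singleton_of_mem (one_mem P), ncard_eq] at key
  have b : ∀ i ∈ s, (((P ⊓ K i : Subgroup G) : Set G) \ {1}).ncard ≤ a - 1 := fun i hi => by
    rw [Set.ncard_diff_singleton_of_mem (one_mem _), ncard_eq]
    have := hP.mul_card_le (inf_lt_left.2 (h1 i hi))
    rw [ha] at this
    exact Nat.sub_le_sub_right (Nat.le_of_mul_le_mul_left this hp.pos) 1
  have c := key.trans (Finset.sum_le_card_nsmul s _ _ b)
  have a0 : 0 < a := Nat.pos_of_mul_pos_left (ha ▸ card_pos P)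
  obtain ⟨a, rfl⟩ := Nat.exists_eq_add_of_lt a0
  have d := hp.two_le
  rw [ha, smul_eq_mul] at c
  have e : s.card * (0 + a + 1 - 1) ≤ p * a := by
    rw [zero_add, Nat.add_sub_cancel]; exact Nat.mul_le_mul_right _ (by omega)
  have f : p * (0 + a + 1) = p * a + p := by ring
  omega

theorem main (hp : p.Prime) (n : ℕ) : ∀ (M : Subgroup G), #M = n → M ≤ piGen {p} M →
    ∀ (s : Finset ι) (K : ι → Subgroup G), (∀ i ∈ s, ¬ M ≤ K i) →
    (∀ g ∈ M, PiElt {p} g → ∃ i ∈ s, g ∈ K i) → p + 1 ≤ s.card := by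
  classical
  induction n using Nat.strong_induction_on with
  | _ n ih =>
  intro M hM hgen s K h1 h2
  have ex : ∀ i, ∃ H : Subgroup G, i ∈ s → M ⊓ K i ≤ H ∧ MaxIn H M := fun i => by
    by_cases hi : i ∈ s
    · obtain ⟨H, a, b⟩ := exists_maxIn (inf_lt_left.2 (h1 i hi))
      exact ⟨H, fun _ => ⟨a, b⟩⟩
    · exact ⟨⊥, fun h => absurd h hi⟩
  choose H hH using ex
  obtain ⟨t, ⟨hts, ht⟩, hmin⟩ := exists_minimal_of_wellFoundedLT
    (fun t : Finset ι => t ⊆ s ∧ ∀ g ∈ M, PiElt {p} g → ∃ i ∈ t, g ∈ H i)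
    ⟨s, subset_rfl, fun g hg hg' => let ⟨i, hi, h⟩ := h2 g hg hg'; ⟨i, hi, (hH i hi).1 ⟨hg, h⟩⟩⟩
  refine le_trans ?_ (Finset.card_le_card hts)
  have hmax : ∀ i ∈ t, MaxIn (H i) M := fun i hi => (hH i (hts hi)).2
  by_contra hn
  by_cases hMp : PGrp p M
  · exact hn (pcase hp t H hMp (fun i hi => (hmax i hi).lt.not_ge) fun g hg => ht g hg (hMp.piElt hg))
  obtain ⟨P, hP⟩ := exists_syl p M
  have key : ∀ i ∈ t, {g | g ∈ M ∧ cj g P ≤ H i}.ncard * (p + 1) ≤ #M := by
    intro i hi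
    have : ¬ ∀ g ∈ M, PiElt {p} g → ∃ j ∈ t.erase i, g ∈ H j := fun h =>
      (Finset.notMem_erase i t) (hmin ⟨(Finset.erase_subset i t).trans hts, h⟩ (Finset.erase_subset i t) hi)
    push Not at this
    obtain ⟨x, hx, hxp, hx'⟩ := this
    have k1 : ∀ L : Subgroup G, L < M → x ∈ L → ∀ y ∈ L, PiElt {p} y → y ∈ H i := by
      intro L hL hxL y hy hyp
      by_contra hy'
      refine hn (ih _ (hM ▸ card_lt ((piGen_le {p} L).trans_lt hL)) (piGen {p} L) rfl
        (piGen_idem _ _).ge t H (fun j hj a => ?_) fun g hg => ht g (hL.le (piGen_le _ _ hg)))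
      by_cases e : j = i
      · exact hy' (e ▸ a (mem_piGen hy hyp))
      · exact hx' j (Finset.mem_erase.2 ⟨e, hj⟩) (a (mem_piGen hxL hxp))
    obtain ⟨Q, hQ, hxQ⟩ := hxp.zpowers.exists_syl (zpowers_le.2 hx)
    have hQH : Q ≤ H i := fun y hy => k1 Q (lt_of_le_of_ne hQ.le fun e => hMp (e ▸ hQ.pi))
      (hxQ (mem_zpowers x)) y hy (hQ.pi.piElt hy)
    have k2 : ∀ g ∈ M, g * x * g⁻¹ ∈ H i → g ∈ H i := by
      intro g hg hg'
      have a : cj g⁻¹ (H i) < M := by
        have := (cj_lt_cj (g := g⁻¹)).2 (hmax i hi).lt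
        rwa [cj_of_mem (inv_mem hg)] at this
      have b : cj g⁻¹ (piGen {p} (H i)) ≤ piGen {p} (H i) := by
        rw [cj_piGen]
        exact piGen_le_iff.2 fun y hy hy' => mem_piGen (k1 _ a (mem_cj.2 (by simpa using hg')) y hy hy') hy'
      have c : g ∈ M ⊓ N(piGen {p} (H i)) := ⟨hg, by simpa using inv_mem (mem_nrm_of_cj_le b)⟩
      have d : H i ≤ M ⊓ N(piGen {p} (H i)) := le_inf (hmax i hi).lt.le (piGen_nml _ _).nrm
      rcases d.eq_or_lt with e | e
      · exact e ▸ c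
      · have e' := (hmax i hi).max _ e inf_le_left
        refine (hgen.trans (piGen_le_iff.2 fun y hy hy' => ?_)) hg
        exact piGen_le {p} _ (hQ.le_of_syl_le (e'.ge.trans inf_le_right) (le_piGen hQ.pi hQH)
          hy'.zpowers (zpowers_le.2 hy) (mem_zpowers y))
    have k3 : (p + 1) * #(H i) ≤ #M := by
      obtain ⟨y, hy, hy'⟩ := SetLike.not_le_iff_exists.1 (hmax i hi).lt.not_ge
      have a : Q ⊓ cj y (H i) < Q := inf_lt_left.2 fun h => hy' (by
        simpa using inv_mem (k2 y⁻¹ (inv_mem hy) (by simpa using mem_cj.1 (h (hxQ (mem_zpowers x))))))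
      have b := hQ.pi.mul_card_le a
      have c := card_mul_le hQ.le (cj_le_of_mem hy (hmax i hi).lt.le)
      rw [card_cj] at c
      have d := card_mul_relIndex (hmax i hi).lt.le
      have e : ¬ p ∣ (H i).relIndex M := (p'nat_iff hp).1 (hQ.relIndex_of_le hQH)
      have f : p ≤ (H i).relIndex M := by
        have h0 := card_pos (Q ⊓ cj y (H i))
        have h1 := card_pos (H i)
        have : p * (#(Q ⊓ cj y (H i)) * #(H i)) ≤ (H i).relIndex M * (#(Q ⊓ cj y (H i)) * #(H i)) := by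
          calc _ = p * #(Q ⊓ cj y (H i)) * #(H i) := by ring
            _ ≤ #Q * #(H i) := Nat.mul_le_mul_right _ b
            _ ≤ _ := c
            _ = _ := by rw [← d]; ring
        exact Nat.le_of_mul_le_mul_right this (Nat.mul_pos h0 h1)
      have g : p + 1 ≤ (H i).relIndex M := lt_of_le_of_ne f fun h => e (h ▸ dvd_rfl)
      rw [← d, mul_comm]
      exact Nat.mul_le_mul_left _ g
    obtain ⟨a, ha, rfl⟩ := hP.syl_trans hQ
    have k4 : {g | g ∈ M ∧ cj g P ≤ H i}.ncard ≤ #(H i) := by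
      rw [← ncard_eq]
      refine Set.ncard_le_ncard_of_injOn (fun g => g * a⁻¹) (fun g hg => ?_)
        fun _ _ _ _ e => mul_right_cancel e
      refine k2 _ (mul_mem hg.1 (inv_mem ha)) (hg.2 ?_)
      have : cj g P = cj (g * a⁻¹) (cj a P) := by rw [cj_cj, inv_mul_cancel_right]
      rw [this]
      exact conj_mem_cj.2 (hxQ (mem_zpowers x))
    exact (Nat.mul_le_mul_right _ k4).trans (mul_comm (p + 1) _ ▸ k3)
  have c := count t M (fun i => {g | g ∈ M ∧ cj g P ≤ H i}) fun g hg => by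
    by_contra k
    push Not at k
    exact hn (pcase hp t H (hP.cj_mem hg).pi (fun i hi a => k i hi ⟨hg, a⟩) fun y hy =>
      ht y ((hP.cj_mem hg).le hy) ((hP.cj_mem hg).pi.piElt hy))
  rw [ncard_eq] at c
  have d := Nat.mul_le_mul_right (p + 1) c
  rw [Finset.sum_mul] at d
  have e := d.trans (Finset.sum_le_card_nsmul t _ _ key)
  rw [smul_eq_mul, mul_comm t.card] at e
  exact hn (Nat.le_of_mul_le_mul_left e (card_pos M))

end

/-- Let p be a prime and G a finite group generated by its p-elements. If a finite family of proper subgroups of G covers the set of p-elements of G (every element of p-power order lies in one of them), then the family has at least p + 1 members. -/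
theorem result {G : Type*} [Group G] [Finite G] (p : ℕ) [Fact p.Prime] (hgen : Subgroup.closure {g : G | ∃ k : ℕ, orderOf g = p ^ k} = ⊤)
    {ι : Type*} [Fintype ι] (K : ι → Subgroup G) (hK : ∀ i, K i ≠ ⊤)
    (hcov : ∀ g : G, (∃ k : ℕ, orderOf g = p ^ k) → ∃ i, g ∈ K i) :
    p + 1 ≤ Fintype.card ι := by
  have hp : p.Prime := Fact.out
  have e : ∀ g : G, PiElt {p} g ↔ ∃ k : ℕ, orderOf g = p ^ k := fun g =>
    pnat_iff hp (orderOf_pos g).ne'
  refine main hp _ ⊤ rfl ?_ Finset.univ K (fun i _ h => hK i (top_le_iff.1 h)) fun g _ hg =>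
    let ⟨i, hi⟩ := hcov g ((e g).1 hg); ⟨i, Finset.mem_univ i, hi⟩
  rw [← hgen, closure_le]
  exact fun g hg => mem_piGen (subset_closure hg) ((e g).2 hg)

end Cfsg.Agent.S4182
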