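import Cfsg.Statements.S4184
import Mathlib
import Cfsg.Agent.H28.PCentral

set_option autoImplicit false
open Cfsg

namespace Cfsg.Agent.S4184

open Subgroup

/-- `d` contains the full `A`-part of `n` -/
def Full (A : Set ℕ) (n d : ℕ) : Prop := ∀ r ∈ A, r.Prime → r ^ n.factorization r ∣ d

theorem Full.mono {A : Set ℕ} {n d e : ℕ} (h : Full A n d) (hde : d ∣ e) : Full A n e :=
  fun r hr hp => (h r hr hp).trans hde

theorem dvd_of_full {A : Set ℕ} {n d : ℕ} (h1 : Full A n d) (h2 : Full Aᶜ n d) (hn : n ≠ 0) :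
    n ∣ d := by
  rcases eq_or_ne d 0 with rfl | hd
  · exact dvd_zero _
  rw [← Nat.factorization_prime_le_iff_dvd hn hd]
  intro r hr
  rw [← hr.pow_dvd_iff_le_factorization hd]
  by_cases h : r ∈ A
  · exact h1 r h hr
  · exact h2 r h hr

theorem cent_mul_le {G : Type*} [Group G] {g h : G} (hc : Commute g h)
    (hcop : (orderOf g).Coprime (orderOf h)) :
    centralizer ({g * h} : Set G) ≤ centralizer ({g} : Set G) := by
  intro c hc'
  rw [mem_centralizer_singleton_iff] at hc' ⊢
  have h1 : g ∈ zpowers (g ^ orderOf h) := by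
    rw [mem_zpowers_pow_iff]; exact hcop.symm
  obtain ⟨i, hi⟩ := h1
  have h2 : (g * h) ^ orderOf h = g ^ orderOf h := by
    rw [hc.mul_pow, pow_orderOf_eq_one, mul_one]
  have h3 : Commute c ((g ^ orderOf h) ^ i) := by
    rw [← h2]; exact ((show Commute c (g * h) from hc').pow_right _).zpow_right i
  have hi' : (g ^ orderOf h) ^ i = g := hi
  rw [hi'] at h3
  exact h3

theorem exists_central_elt {G : Type*} [Group G] [Finite G] {p : ℕ} [hp : Fact p.Prime]
    {P : Subgroup G} (hP : IsPGroup p P) (hne : P ≠ ⊥) :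
    ∃ z ∈ P, orderOf z = p ∧ P ≤ centralizer ({z} : Set G) := by
  haveI : Nontrivial P := (nontrivial_iff_ne_bot P).2 hne
  haveI := hP.center_nontrivial
  have h1 : p ∣ Nat.card (center P) := by
    obtain ⟨k, hk0, hk⟩ := (hP.to_subgroup (center P)).nontrivial_iff_card.1 inferInstance
    rw [hk]; exact dvd_pow_self p hk0.ne'
  obtain ⟨z, hz⟩ := exists_prime_orderOf_dvd_card' p h1
  refine ⟨((z : P) : G), (z : P).2, by rw [orderOf_coe, orderOf_coe, hz], fun g hg => ?_⟩
  rw [mem_centralizer_singleton_iff]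
  exact congrArg Subtype.val (mem_center_iff.1 z.2 ⟨g, hg⟩)

theorem key {G : Type*} [Group G] [Finite G] (hZ : center G = ⊥) {n : ℕ} (A : Set ℕ)
    (H1 : ∀ g : G, g ≠ 1 → Full A n (centralizer ({g} : Set G)).index ∨
      Full Aᶜ n (centralizer ({g} : Set G)).index)
    (H2 : ∀ g : G, ¬ (Full A n (centralizer ({g} : Set G)).index ∧
      Full Aᶜ n (centralizer ({g} : Set G)).index))
    (H3 : ∀ g : G, (centralizer ({g} : Set G)).index ∣ n) (hn : n ≠ 0)
    {q : ℕ} (hq : q.Prime) (hqA : q ∉ A) (hqn : q ∣ n) (hqG : q ∣ Nat.card G)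
    {p : ℕ} (hp : p.Prime) (hpA : p ∈ A) :
    (Nat.card G).factorization p ≤ n.factorization p := by
  haveI : Fact p.Prime := ⟨hp⟩
  haveI : Fact q.Prime := ⟨hq⟩
  have hG0 : Nat.card G ≠ 0 := Nat.card_pos.ne'
  by_cases hpn : p ∣ n
  swap
  · obtain ⟨P⟩ : Nonempty (Sylow p G) := inferInstance
    have htop : centralizer ((P : Subgroup G) : Set G) = ⊤ := by
      apply Cfsg.Agent.H6.eq_top_of_forall_conj_mem
      intro g
      obtain ⟨Q, -, hQ⟩ := Cfsg.Agent.H28.exists_sylow_between (p := p) (R := ⊥)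
        (H := centralizer ({g} : Set G)) (fun h => hpn (h.trans (H3 g))) IsPGroup.of_bot bot_le
      obtain ⟨x, -, hx⟩ := Cfsg.Agent.H28.exists_conj_sylow_in (H := ⊤) Q P le_top le_top
      refine ⟨x, ?_⟩
      rw [mem_centralizer_iff]
      intro y hy
      rw [← hx] at hy
      have hy' := Cfsg.Agent.H4.mem_conj_smul.1 hy
      have := mem_centralizer_singleton_iff.1 (hQ hy')
      calc y * (x * g * x⁻¹) = x * (x⁻¹ * y * x * g) * x⁻¹ := by group
        _ = x * (g * (x⁻¹ * y * x)) * x⁻¹ := by rw [this]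
        _ = x * g * x⁻¹ * y := by group
    have hP : (P : Subgroup G) = ⊥ := by
      rw [eq_bot_iff, ← hZ]
      intro y hy
      rw [mem_center_iff]
      intro g
      have : g ∈ centralizer ((P : Subgroup G) : Set G) := htop ▸ mem_top g
      exact (mem_centralizer_iff.1 this y hy).symm
    have := P.card_eq_multiplicity
    rw [hP, card_bot] at this
    rw [(Nat.pow_eq_one.1 this.symm).resolve_left hp.ne_one]
    exact Nat.zero_le _
  by_contra hlt
  rw [not_le] at hlt
  have hne : p ≠ q := fun e => hqA (e ▸ hpA)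
  have hnf : ∀ {r : ℕ} {B : Set ℕ}, r.Prime → r ∈ B → r ∣ n → ∀ d, ¬ r ∣ d → ¬ Full B n d :=
    fun {r B} hr hB hrn d hd hf => hd ((dvd_pow_self r
      (hr.factorization_pos_of_dvd hn hrn).ne').trans (hf r hB hr))
  obtain ⟨Q⟩ : Nonempty (Sylow q G) := inferInstance
  obtain ⟨w, -, hwo, hwQ⟩ := exists_central_elt Q.isPGroup' (Q.ne_bot_of_dvd_card hqG)
  have hw1 : w ≠ 1 := fun e => hq.ne_one (by rw [← hwo, e, orderOf_one])
  have hwA : Full A n (centralizer ({w} : Set G)).index :=
    (H1 w hw1).resolve_right (hnf hq hqA hqn _ (Cfsg.Agent.H28.not_dvd_index_of_sylow_le Q hwQ))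
  -- an element of order `p` commuting with `w` is `A`-full
  have hx : ∀ x : G, orderOf x = p → x ∈ centralizer ({w} : Set G) →
      Full A n (centralizer ({x} : Set G)).index := by
    intro x hxo hxw
    have hx1 : x ≠ 1 := fun e => hp.ne_one (by rw [← hxo, e, orderOf_one])
    refine (H1 x hx1).resolve_right fun hf => H2 (x * w) ⟨?_, ?_⟩
    · have hc : Commute x w := mem_centralizer_singleton_iff.1 hxw
      rw [hc.eq]
      exact hwA.mono (index_dvd_of_le (cent_mul_le hc.symm
        (by rw [hxo, hwo]; exact (Nat.coprime_primes hq hp).2 hne.symm)))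
    · exact hf.mono (index_dvd_of_le (cent_mul_le (mem_centralizer_singleton_iff.1 hxw)
        (by rw [hxo, hwo]; exact (Nat.coprime_primes hp hq).2 hne)))
  obtain ⟨P1, hP1⟩ := Cfsg.Agent.H4.IsSylowIn.exists_isSylowIn p (centralizer ({w} : Set G))
  have hfac : ∀ H : Subgroup G, (Nat.card H).factorization p + H.index.factorization p =
      (Nat.card G).factorization p := fun H => by
    rw [← H.card_mul_index, Nat.factorization_mul Nat.card_pos.ne' index_ne_zero_of_finite]
    rfl
  have hle : ∀ g : G, (centralizer ({g} : Set G)).index.factorization p ≤ n.factorization p :=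
    fun g => (Nat.factorization_le_iff_dvd index_ne_zero_of_finite hn).2 (H3 g) p
  have hge : ∀ g : G, Full A n (centralizer ({g} : Set G)).index →
      n.factorization p ≤ (centralizer ({g} : Set G)).index.factorization p := fun g hg =>
    (hp.pow_dvd_iff_le_factorization index_ne_zero_of_finite).1 (hg p hpA hp)
  have hP1ne : P1 ≠ ⊥ := by
    intro e
    have h1 := hP1.card_eq
    rw [e, card_bot] at h1
    have h2 := (Nat.pow_eq_one.1 h1.symm).resolve_left hp.ne_one
    have := hfac (centralizer ({w} : Set G))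
    have := hle w
    omega
  obtain ⟨x, hxP, hxo, hxc⟩ := exists_central_elt hP1.isPGroup hP1ne
  have hxA := hx x hxo (hP1.le hxP)
  obtain ⟨P, hP⟩ := hP1.isPGroup.exists_le_sylow
  obtain ⟨z, hzP, hzo, hzc⟩ := exists_central_elt P.isPGroup' (fun e => hP1ne (by
    rw [eq_bot_iff, ← e]; exact hP))
  have hsyl : Cfsg.Agent.H4.IsSylowIn p P1 (centralizer ({x} : Set G)) := by
    obtain ⟨S, hS⟩ := Cfsg.Agent.H4.IsSylowIn.exists_isSylowIn p (centralizer ({x} : Set G))
    refine hS.of_card_ge hP1.isPGroup hxc ?_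
    rw [hS.card_eq, hP1.card_eq]
    apply Nat.pow_le_pow_right hp.pos
    have := hfac (centralizer ({w} : Set G))
    have := hfac (centralizer ({x} : Set G))
    have := hle w
    have := hge x hxA
    omega
  have hzP1 : z ∈ P1 := by
    have := hsyl.eq_of_le (Q := P ⊓ centralizer ({x} : Set G)) (P.isPGroup'.to_le inf_le_left)
      inf_le_right (le_inf hP hxc)
    rw [← this]
    refine ⟨hzP, ?_⟩
    have h1 := mem_centralizer_singleton_iff.1 (hzc (hP hxP))
    exact mem_centralizer_singleton_iff.2 h1.symm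
  exact hnf hp hpA hpn _ (Cfsg.Agent.H28.not_dvd_index_of_sylow_le P hzc)
    (hx z hzo (hP1.le hzP1))

theorem full_of_disc {M : Type*} [Group M] [Finite M] (A : Set ℕ)
    (hA : ∀ a ∈ A, ∀ b ∉ A, a.Prime → b.Prime → a ∣ Nat.card M → b ∣ Nat.card M →
      ¬ ∃ x : M, orderOf x = a * b) {x : M} {r : ℕ} (hr : r.Prime) (hrA : r ∉ A)
    (hrx : r ∣ orderOf x) : Full A (Nat.card M) (centralizer ({x} : Set M)).index := by
  intro a ha hap
  haveI : Fact a.Prime := ⟨hap⟩
  have hnd : ¬ a ∣ Nat.card (centralizer ({x} : Set M)) := by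
    intro hd
    obtain ⟨y, hy⟩ := exists_prime_orderOf_dvd_card' a hd
    have hx0 : orderOf x ≠ 0 := (orderOf_pos x).ne'
    have ho : orderOf (x ^ (orderOf x / r)) = r := orderOf_pow_orderOf_div hx0 hrx
    have hc : Commute (y : M) (x ^ (orderOf x / r)) :=
      (show Commute (y : M) x from mem_centralizer_singleton_iff.1 y.2).pow_right _
    have hy' : orderOf (y : M) = a := by rw [orderOf_coe, hy]
    apply hA a ha r hrA hap hr (hd.trans (card_subgroup_dvd_card _))
      (hrx.trans (orderOf_dvd_natCard x))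
    refine ⟨(y : M) * x ^ (orderOf x / r), ?_⟩
    rw [hc.orderOf_mul_eq_mul_orderOf_of_coprime, hy', ho]
    rw [hy', ho]
    exact (Nat.coprime_primes hap hr).2 fun e => hrA (e ▸ ha)
  have h1 : a ^ (Nat.card M).factorization a ∣
      Nat.card (centralizer ({x} : Set M)) * (centralizer ({x} : Set M)).index := by
    rw [card_mul_index]; exact Nat.ordProj_dvd _ _
  exact (Nat.Coprime.pow_left _ ((Nat.Prime.coprime_iff_not_dvd hap).2 hnd)).dvd_of_dvd_mul_left h1

/-- Let G and M be finite groups with trivial centres and the same set of conjugacy class sizes, and suppose the prime graph of M is disconnected: the prime divisors of #M split into two non-empty parts such that M has no element of order pq with p in one part and q in the other. Then #G = #M. -/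
theorem result {G M : Type*}
    [Group G] [Finite G] [Group M] [Finite M] (hZG : Subgroup.center G = ⊥) (hZM : Subgroup.center M = ⊥)
    (h : Set.range (fun g : G => (Subgroup.centralizer ({g} : Set G)).index) = Set.range (fun g : M => (Subgroup.centralizer ({g} : Set M)).index))
    (hdisc : ∃ A : Set ℕ, (∃ a ∈ A, a.Prime ∧ a ∣ Nat.card M) ∧ (∃ b ∉ A, b.Prime ∧ b ∣ Nat.card M) ∧
      ∀ a ∈ A, ∀ b ∉ A, a.Prime → b.Prime → a ∣ Nat.card M → b ∣ Nat.card M → ¬ ∃ x : M, orderOf x = a * b) :
    Nat.card G = Nat.card M := by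
  obtain ⟨A, ⟨a, haA, ha, haM⟩, ⟨b, hbA, hb, hbM⟩, hA⟩ := hdisc
  have hA' : ∀ a ∈ Aᶜ, ∀ b ∉ Aᶜ, a.Prime → b.Prime → a ∣ Nat.card M → b ∣ Nat.card M →
      ¬ ∃ x : M, orderOf x = a * b := fun a ha b hb hap hbp h1 h2 => by
    rw [mul_comm]
    exact hA b (not_not.1 hb) a ha hbp hap h2 h1
  have hn : Nat.card M ≠ 0 := Nat.card_pos.ne'
  have hGM : ∀ g : G, ∃ x : M, (centralizer ({x} : Set M)).index =
      (centralizer ({g} : Set G)).index := fun g => by
    have : (centralizer ({g} : Set G)).index ∈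
        Set.range (fun g : M => (centralizer ({g} : Set M)).index) := h ▸ ⟨g, rfl⟩
    exact this
  have hMG : ∀ x : M, (centralizer ({x} : Set M)).index ∣ Nat.card G := fun x => by
    have : (centralizer ({x} : Set M)).index ∈
        Set.range (fun g : G => (centralizer ({g} : Set G)).index) := h ▸ ⟨x, rfl⟩
    obtain ⟨g, hg⟩ := this
    rw [← hg]; exact index_dvd_card _
  have H1 : ∀ g : G, g ≠ 1 → Full A (Nat.card M) (centralizer ({g} : Set G)).index ∨
      Full Aᶜ (Nat.card M) (centralizer ({g} : Set G)).index := by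
    intro g hg
    obtain ⟨x, hx⟩ := hGM g
    have hx1 : orderOf x ≠ 1 := by
      intro e
      rw [orderOf_eq_one_iff] at e
      have : centralizer ({x} : Set M) = ⊤ := by
        rw [eq_top_iff]; intro y _; rw [mem_centralizer_singleton_iff, e]; simp
      rw [this, index_top, eq_comm, index_eq_one] at hx
      apply hg
      rw [← mem_bot, ← hZG, mem_center_iff]
      intro y
      exact mem_centralizer_singleton_iff.1 (hx ▸ mem_top y)
    obtain ⟨r, hr, hrx⟩ := Nat.exists_prime_and_dvd hx1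
    rw [← hx]
    by_cases hrA : r ∈ A
    · exact Or.inr (full_of_disc Aᶜ hA' hr (not_not.2 hrA) hrx)
    · exact Or.inl (full_of_disc A hA hr hrA hrx)
  have H2 : ∀ g : G, ¬ (Full A (Nat.card M) (centralizer ({g} : Set G)).index ∧
      Full Aᶜ (Nat.card M) (centralizer ({g} : Set G)).index) := by
    rintro g ⟨h1, h2⟩
    obtain ⟨x, hx⟩ := hGM g
    have h3 := dvd_of_full h1 h2 hn
    rw [← hx] at h3
    have h4 := Nat.dvd_antisymm (index_dvd_card _) h3
    have h5 := (centralizer ({x} : Set M)).card_mul_index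
    rw [h4] at h5
    have h6 : Nat.card (centralizer ({x} : Set M)) = 1 :=
      Nat.eq_of_mul_eq_mul_right Nat.card_pos (h5.trans (one_mul _).symm)
    rw [card_eq_one] at h6
    have h7 : x = 1 := by
      rw [← mem_bot, ← h6, mem_centralizer_singleton_iff]
    have : centralizer ({x} : Set M) = ⊤ := by
      rw [eq_top_iff]; intro y _; rw [mem_centralizer_singleton_iff, h7]; simp
    rw [this, index_top] at h4
    exact ha.ne_one (Nat.dvd_one.1 (h4 ▸ haM))
  have H3 : ∀ g : G, (centralizer ({g} : Set G)).index ∣ Nat.card M := fun g => by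
    obtain ⟨x, hx⟩ := hGM g
    rw [← hx]; exact index_dvd_card _
  haveI : Fact a.Prime := ⟨ha⟩
  haveI : Fact b.Prime := ⟨hb⟩
  obtain ⟨xa, hxa⟩ := exists_prime_orderOf_dvd_card' a haM
  obtain ⟨xb, hxb⟩ := exists_prime_orderOf_dvd_card' b hbM
  have hdvd : Nat.card M ∣ Nat.card G := dvd_of_full
    ((full_of_disc A hA hb hbA (hxb ▸ dvd_rfl)).mono (hMG xb))
    ((full_of_disc Aᶜ hA' ha (not_not.2 haA) (hxa ▸ dvd_rfl)).mono (hMG xa)) hn
  refine Nat.dvd_antisymm ?_ hdvd
  rw [← Nat.factorization_prime_le_iff_dvd Nat.card_pos.ne' hn]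
  intro p hp
  by_cases hpA : p ∈ A
  · exact key hZG A H1 H2 H3 hn hb hbA hbM (hbM.trans hdvd) hp hpA
  · refine key hZG Aᶜ ?_ ?_ H3 hn ha (not_not.2 haA) haM (haM.trans hdvd) hp hpA
    · rw [compl_compl]; exact fun g hg => (H1 g hg).symm
    · rw [compl_compl]; exact fun g hg => H2 g hg.symm

end Cfsg.Agent.S4184
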