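import Mathlib
import Cfsg.Agent.H28.Util
-- Template for statement S4186 (row 4186; see /opt/grader/pristine/manifest.json for weights).
-- Copy to Cfsg/Agent/S4186.lean and replace the sorry. The statement below is byte-identical to the frozen
-- statement Cfsg.CfsgFrozen.S4186 (Cfsg/Statements/S4186.lean; the theorem Cfsg.fg11_two_group_acting_nontrivially_inverts_nonidentity_element);
-- the grader kernel-checks Cfsg.Agent.S4186.result against that frozen type. Keep the theorem IN THIS FILE
-- (a `result` declared elsewhere and merely imported here is not credited); helpers may live anywhere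
-- under Cfsg/Agent/.
import Cfsg.Statements.S4186
-- import your own Cfsg.Agent.* helpers here

set_option autoImplicit false
open Cfsg

namespace Cfsg.Agent.S4186

/-- Let T and X be subgroups of a group with T a finite 2-group normalizing X but not centralizing it. Then some element of T inverts some non-identity element of X under conjugation. -/
theorem result {G : Type*} [Group G] (T X : Subgroup G) [Finite ↥T] (hT : IsPGroup 2 ↥T) (hTN : T ≤ Subgroup.normalizer (X : Set G)) (hTC : ¬ T ≤ Subgroup.centralizer (X : Set G)) : ∃ t ∈ T, ∃ x ∈ X, x ≠ 1 ∧ t * x * t⁻¹ = x⁻¹ := by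
  open Subgroup Cfsg.Agent.FT Cfsg.Agent.H28 in
  open scoped commutatorElement Pointwise in
  obtain ⟨s, hs, hsC⟩ := SetLike.not_le_iff_exists.1 hTC
  obtain ⟨k, hk⟩ := hT ⟨s, hs⟩
  have hk' : s ^ 2 ^ k = 1 := by simpa using congrArg Subtype.val hk
  have key : ∀ k : ℕ, ∀ s ∈ T, s ∉ C(X) → s ^ 2 ^ k ∈ C(X) →
      ∃ t ∈ T, t ∉ C(X) ∧ t ^ 2 ∈ C(X) := by
    intro k
    induction k with
    | zero => intro s _ h1 h2; exact absurd (by simpa using h2) h1
    | succ k ih =>
      intro s hs h1 h2
      by_cases h : s ^ 2 ∈ C(X)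
      · exact ⟨s, hs, h1, h⟩
      · exact ih (s ^ 2) (T.pow_mem hs 2) h (by rwa [← pow_mul, ← pow_succ'])
  obtain ⟨t, ht, h1, h2⟩ := key k s hs hsC (hk' ▸ one_mem _)
  rw [mem_cen] at h1 h2
  push Not at h1
  obtain ⟨y, hy, hyt⟩ := h1
  refine ⟨t, ht, y⁻¹ * (t * y * t⁻¹), X.mul_mem (X.inv_mem hy) (conj_mem (hTN ht) hy), ?_, ?_⟩
  · intro h
    apply hyt
    have : t * y * t⁻¹ = y := by rw [← mul_left_cancel_iff (a := y⁻¹), h]; group
    rw [← mul_inv_eq_iff_eq_mul.1 this]
  · have h3 := h2 y hy
    have : t * (y⁻¹ * (t * y * t⁻¹)) * t⁻¹ = t * y⁻¹ * t⁻¹ * (t ^ 2 * y * (t ^ 2)⁻¹) := by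
      rw [pow_two]; group
    rw [this, ← h3]
    group

end Cfsg.Agent.S4186
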