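import Mathlib
import Cfsg.Agent.H28.Util3
import Cfsg.Agent.H3.Two
import Cfsg.Agent.H5.Frob
-- Template for statement S4188 (row 4188; see /opt/grader/pristine/manifest.json for weights).
-- Copy to Cfsg/Agent/S4188.lean and replace the sorry. The statement below is byte-identical to the frozen
-- statement Cfsg.CfsgFrozen.S4188 (Cfsg/Statements/S4188.lean; the theorem Cfsg.fg11_two_group_on_odd_abelian_unique_minimal_normal_frattini_index_bound);
-- the grader kernel-checks Cfsg.Agent.S4188.result against that frozen type. Keep the theorem IN THIS FILE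
-- (a `result` declared elsewhere and merely imported here is not credited); helpers may live anywhere
-- under Cfsg/Agent/.
import Cfsg.Statements.S4188
-- import your own Cfsg.Agent.* helpers here

set_option autoImplicit false
open Cfsg

namespace Cfsg.Agent.S4188

section
open Subgroup Cfsg.Agent.FT Cfsg.Agent.H28
open scoped commutatorElement Pointwise
set_option linter.style.haveILetI false

universe u

theorem phi_le {G : Type*} [Group G] [Finite G] {p : ℕ} {P K : Subgroup G} (hP : PGrp p P) (hK : K ⊴ P) :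
    (Phi P).relIndex P ≤ (Phi (P /ₛ K)).relIndex (P /ₛ K) * (Phi K).relIndex K := by
  rw [← hP.quo_Phi hK.nrm, relIndex_quo ((Phi_le P).trans hK.nrm) hK.nrm,
    ← relIndex_mul (le_sup_right : Phi P ≤ K ⊔ Phi P) (sup_le hK.le (Phi_le P)), mul_comm]
  refine Nat.mul_le_mul_left _ ?_
  rw [sup_comm, relIndex_sup_norm (hK.le.trans (Phi_nrm P))]
  exact Nat.le_of_dvd (relIndex_pos _ _) (relIndex_dvd_of_le (Phi_mono_nml hK) K)

theorem main {q : ℕ} (hq : q.Prime) (hq2 : q ≠ 2) (n : ℕ) : ∀ {G : Type u} [Group G] [Finite G] {N P : Subgroup G}, #N = n →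
    Abelem q N → PGrp 2 P → P ≤ N(N) → P ⊓ C(N) = ⊥ →
    2 * (Phi P).relIndex P ≤ n + 1 ∧ (3 < n → 2 * (Phi P).relIndex P ≤ n) := by
  induction n using Nat.strong_induction_on with | _ n ih =>
  intro G _ _ N P hn hN hP hPN hf
  have p2 := Nat.prime_two
  have q3 : 3 ≤ q := lt_of_le_of_ne hq.two_le hq2.symm
  have h3 : ∀ A ≤ N, A ≠ ⊥ → 3 ≤ #A := fun A hA h1 => q3.trans (Nat.le_of_dvd (card_pos _) (((hN.pGrp hq).mono hA).dvd h1))
  have split : ∀ Q ≤ P, ∀ A B, DP A B N → A ≠ ⊥ → B ≠ ⊥ → Q ≤ N(A) → Q ≤ N(B) → ∃ a b, (Phi Q).relIndex Q ≤ a * b ∧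
      (2 * a ≤ #A + 1 ∧ (3 < #A → 2 * a ≤ #A)) ∧ (2 * b ≤ #B + 1 ∧ (3 < #B → 2 * b ≤ #B)) := fun Q hQ A B h hA hB h1 h2 => by
    have hc : Cop (Q ⊓ C(A)) A := ((hP.mono hQ).inf_left _).cop_of_ne ((hN.pGrp hq).mono h.left) hq2.symm
    have h4 : A ≤ N(Q ⊓ C(A)) := cents_norm (centsC inf_le_right)
    have := h3 A h.left hA
    have := h3 B h.right hB
    refine ⟨_, _, phi_le (hP.mono hQ) (subcent_nml h1), ih _ (by rw [← hn, h.card]; nlinarith) (card_quo_of_cop h4 hc)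
      ((hN.mono h.left).quo _) ((hP.mono hQ).quo _) (quo_norms _ h1) ?_, ih _ (by rw [← hn, h.card]; nlinarith) rfl
      (hN.mono h.right) ((hP.mono hQ).inf_left _) (inf_le_left.trans h2) (eq_bot_of_le ?_ hf)⟩
    · rw [← coprime_quotient_cent_or inf_le_left h4 hc (Or.inr (hN.sol.mono h.left)), quo_eq_bot_of_le le_rfl]
    · rw [← h.sup, cen_sup, inf_assoc]; exact inf_le_inf_right _ hQ
  by_cases h1 : N = ⊥
  · subst h1
    obtain rfl : P = ⊥ := by rwa [cen_bot, inf_top_eq] at hf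
    simp [← hn]
  have n3 := hn ▸ h3 N le_rfl h1
  by_cases hm : ∀ K : Subgroup G, K ≤ N → K ≠ ⊥ → P ≤ N(K) → K = N
  swap
  · push Not at hm
    obtain ⟨A, hA, hA1, h4, h5⟩ := hm
    obtain ⟨B, h, h6⟩ := Maschke_abelem hq hN (hP.p' hq2.symm) hA hPN h4
    have hB1 : B ≠ ⊥ := by rintro rfl; exact h5 (by simpa using h.sup)
    obtain ⟨a, b, h7, ⟨h8, -⟩, h9, -⟩ := split P le_rfl A B h hA1 hB1 h4 h6
    have := h3 A h.left hA1
    have := h3 B h.right hB1
    have : 2 * (Phi P).relIndex P ≤ n := by rw [← hn, h.card]; nlinarith [Nat.mul_le_mul h8 h9]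
    omega
  by_cases hE : ∀ A, A ⊴ P → ¬ PnElem 2 2 A P
  · rcases H3.cyc_or_mc_of_no_normal_four hP hE with h | ⟨a, b, m, h⟩
    · have := Nat.le_of_dvd two_pos (hP.abelem_quo_Phi.card_dvd_of_cyc (h.quo _))
      rw [card_quo (Phi_nrm P)] at this; omega
    · have h4 : (Phi P).relIndex P = 4 := H3.relIndex_of_card_mul (Phi_le P) (by
        rw [h.Phi_eq, card_zpowers', h.ord_sq, h.card, show m + 1 = 2 + (m - 1) by have := h.two_le; omega, pow_add]; rfl)
      have := Nat.le_of_dvd (card_pos _) (hN.sq_dvd_card hq fun hc =>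
        h.not_cyc (cyc_of_faithful_prime (hN.card_of_cyc hq hc h1 ▸ hq) hPN hf))
      have : 9 ≤ n := by nlinarith
      omega
  push Not at hE
  obtain ⟨E, hE, hE2⟩ := hE
  have sq : ∀ e ∈ E, e * e = 1 := fun e he => by rw [← sq, hE2.abelem.pow he]
  have hinj : ∀ x ∈ P, ∀ y ∈ P, (∀ v ∈ N, x * v * x⁻¹ = y * v * y⁻¹) → x = y := fun x hx y hy h =>
    (inv_mul_eq_one.1 (eq_one_of_mem_inf hf (mul_mem (inv_mem hy) hx) (mem_cen.2 fun v hv => by
      calc _ = y⁻¹ * (y * v * y⁻¹) * x := by group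
        _ = _ := by rw [← h v hv]; group))).symm
  have inv : ∀ e ∈ E, N ⊓ C[e] = ⊥ → ∀ v ∈ N, e * v * e⁻¹ = v⁻¹ := fun e he h v hv =>
    H5b.conj_eq_inv_of_reg (hPN (hE.le he)) (sq e he) h hv
  have cz : ∀ e ∈ E, e ≠ 1 → P ≤ C[e] → N ⊓ C[e] = ⊥ := fun e he he1 h => by_contra fun hne => he1
    (eq_one_of_mem_inf hf (hE.le he) (mem_cen.2 fun _ hv => mem_cen1.1 ((hm _ inf_le_left hne (normsI hPN (norms_cen1 h))).ge hv).2))
  obtain ⟨z, ⟨hz, hzc⟩, hz1⟩ := exists_ne_one (hP.nil.meet_center hE hE2.ne_bot)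
  have hzP : P ≤ C[z] := fun g hg => mem_cen1.2 (mem_cen.1 hzc.2 g hg)
  have hzN := cz z hz hz1 hzP
  have hZ := hE2.zpowers hz hz1
  obtain ⟨e, he, hez⟩ := SetLike.not_le_iff_exists.1 (fun h : E ≤ ⟪z⟫ => by simpa using hE2.le_of_le hZ h)
  have hi : (⟪z⟫).relIndex E = 2 := PnElem.relIndex (m := 1) (n := 1) hE2 hZ hZ.le
  have uq : ∀ e ∈ E, e ∉ ⟪z⟫ → N ⊓ C[e] ≠ ⊥ := fun e he hez h => hez (hinj e (hE.le he) z hzc.1 (fun v hv => by
    rw [inv e he h v hv, inv z hz hzN v hv]) ▸ mem_zpowers z)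
  have hcj : ∀ g ∈ P, g * e * g⁻¹ = e ∨ g * e * g⁻¹ = z * e := fun g hg => by
    have h4 := H3.mul_mem_of_relIndex_two hi (hE.conj_mem hg he) he (fun h => hez (by
      simpa [mul_assoc] using conj_mem' (norms_zpowers_of_cen1 hzP hg) h)) hez
    refine ((H3.mem_zpowers_two (hE2.abelem.pow hz)).1 h4).imp (fun h => ?_) fun h => ?_ <;>
      rw [← mul_left_inj e, h] <;> simp [mul_assoc, sq e he]
  obtain ⟨x, hx, hxe⟩ := SetLike.not_le_iff_exists.1 (fun h : P ≤ C[e] => uq e he hez (cz e he (by rintro rfl; exact hez (one_mem _)) h))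
  have hxe' := (hcj x hx).resolve_left fun h => hxe (mem_cen1.2 (mul_inv_eq_iff_eq_mul.1 h))
  have hze : z * e ∉ ⟪z⟫ := fun h => hez ((Subgroup.mul_mem_cancel_left _ (mem_zpowers z)).1 h)
  have hQ : C[e].relIndex P ≤ 2 := by
    rw [← ncard_conj_set]
    exact (Set.ncard_le_ncard (t := {e, z * e}) (by rintro _ ⟨g, hg, rfl⟩; exact hcj g hg)).trans ((Set.ncard_insert_le _ _).trans (by simp))
  have hAB : cj x (N ⊓ C[e]) = N ⊓ C[z * e] := by rw [cj_inf, cj_of_mem_nrm (hPN hx), cj_cen1, hxe']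
  have hQz : P ⊓ C[e] ≤ C[z * e] := fun g hg => mem_cen1.2 (by
    rw [← mul_assoc, mem_cen1.1 (hzP hg.1), mul_assoc, mem_cen1.1 hg.2, mul_assoc])
  have hnA : P ⊓ C[e] ≤ N(N ⊓ C[e]) := normsI (inf_le_left.trans hPN) (norms_cen1 inf_le_right)
  have hnB : P ⊓ C[e] ≤ N(N ⊓ C[z * e]) := normsI (inf_le_left.trans hPN) (norms_cen1 hQz)
  have hdp : DP (N ⊓ C[e]) (N ⊓ C[z * e]) N := by
    refine ⟨hN.ab.cents inf_le_left inf_le_left, hm _ (sup_le inf_le_left inf_le_left) (ne_bot_of_le le_sup_left (uq e he hez))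
      fun g hg => cj_eq_self.1 ?_, eq_bot_of_le (B := N ⊓ C[z]) (fun v hv => ⟨hv.1.1, mem_cen1.2 ?_⟩) hzN⟩
    · have h4 : g * (z * e) * g⁻¹ = z * (g * e * g⁻¹) := by rw [← mul_assoc g, mem_cen1.1 (hzP hg)]; group
      rw [cj_sup, cj_inf, cj_inf, cj_of_mem_nrm (hPN hg), cj_cen1, cj_cen1, h4]
      rcases hcj g hg with h | h <;> rw [h]
      rw [← mul_assoc, sq z hz, one_mul, sup_comm]
    · rw [← mul_left_inj e, mul_assoc, mem_cen1.1 hv.2.2, mul_assoc, ← mem_cen1.1 hv.1.2, mul_assoc]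
  obtain ⟨a, b, h7, h8, h9⟩ := split _ inf_le_left _ _ hdp (uq e he hez) (uq _ (mul_mem hz he) hze) hnA hnB
  have hc := hdp.card
  have hB : #(N ⊓ C[z * e]) = #(N ⊓ C[e]) := hAB ▸ card_cj _ _
  rw [hB] at h9 hc
  have h10 := h3 _ inf_le_left (uq e he hez)
  rcases h10.eq_or_lt with h11 | h11
  · have h12 := Nat.le_of_dvd two_pos (relIndex_cen_dvd_pred Nat.prime_three h11.symm hnA)
    have h13 := Nat.le_of_dvd two_pos (relIndex_cen_dvd_pred Nat.prime_three (hB.trans h11.symm)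
      (A := C(N ⊓ C[e]) ⊓ (P ⊓ C[e])) (inf_le_right.trans hnB))
    have h14 := FT.card_inf_mul_relIndex C(N ⊓ C[z * e]) (C(N ⊓ C[e]) ⊓ (P ⊓ C[e]))
    rw [eq_bot_of_le (B := P ⊓ C(N)) (A := C(N ⊓ C[z * e]) ⊓ _) (le_inf (inf_le_right.trans (inf_le_right.trans inf_le_left))
      ((centsY (inf_le_right.trans inf_le_left) inf_le_left).trans (cen_anti hdp.sup.ge))) hf, card_bot', one_mul] at h14
    have h15 := FT.card_inf_mul_relIndex C(N ⊓ C[e]) (P ⊓ C[e])
    have h16 := FT.card_inf_mul_relIndex C[e] P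
    have h17 := FT.card_mul_relIndex (Phi_le P)
    have h18 := one_lt_card ((hP.Phi_eq_bot_iff p2).not.2 fun h => hxe (mem_cen1.2 (h.ab.comm hx (hE.le he))))
    rw [inf_comm] at h16
    have h19 : #(P ⊓ C[e]) ≤ 2 * 2 := h15 ▸ Nat.mul_le_mul (h14 ▸ h13) h12
    have h20 : #P ≤ 2 * 2 * 2 := h16 ▸ Nat.mul_le_mul h19 hQ
    have : 2 * (Phi P).relIndex P ≤ 8 := by nlinarith
    rw [← h11] at hc
    omega
  · have h12 : (Phi P).relIndex P ≤ (Phi (P ⊓ C[e])).relIndex (P ⊓ C[e]) * 2 := by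
      refine (Nat.le_of_dvd (relIndex_pos _ _) (relIndex_dvd_of_le (hP.Phi_mono (inf_le_left : P ⊓ C[e] ≤ P)) P)).trans ?_
      rw [← relIndex_mul (Phi_le _) inf_le_left, inf_relIndex_left]
      exact Nat.mul_le_mul_left _ hQ
    have : 2 * (Phi P).relIndex P ≤ n := by nlinarith [Nat.mul_le_mul (h8.2 h11) (h9.2 h11)]
    omega

end

/-- Let G be a finite group that is the semidirect product of a normal abelian subgroup N of odd order by a 2-subgroup P, and suppose N is the unique minimal normal subgroup of G. Then the index of the Frattini subgroup of P in P is at most #N − 1. -/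
theorem result {G : Type*} [Group G] [Finite G] (N P : Subgroup G) (hN : N.Normal) (hNab : IsMulCommutative ↥N) (hNodd : Odd (Nat.card ↥N)) (hP : IsPGroup 2 ↥P) (hdisj : N ⊓ P = ⊥) (hprod : N ⊔ P = ⊤) (hmin : N ≠ ⊥ ∧ ∀ M : Subgroup G, M.Normal → M ≠ ⊥ → N ≤ M) : (frattini ↥P).index ≤ Nat.card ↥N - 1 := by
  open Subgroup Cfsg.Agent.FT Cfsg.Agent.H28 in
  open scoped commutatorElement Pointwise in
  · have hm : MinNml N ⊤ := ⟨hmin.1, le_nrm_of_normal _ _, fun K h1 h2 h3 => h1.antisymm (hmin.2 K (normal_of_top_le h3) h2)⟩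
    have hA : FT.Ab N := hNab
    obtain ⟨q, hq, hab⟩ := hm.abelem hA.sol
    have hq2 := two_lt_of_odd hq ((hab.pGrp hq).dvd hmin.1) hNodd
    have := main hq hq2.ne' _ rfl hab (pGrp_of_isPGroup Nat.prime_two hP) (le_nrm_of_normal _ _) (by_contra fun h =>
      hmin.1 (eq_bot_of_le (le_inf le_rfl ((hmin.2 _ (normal_of_top_le (hprod ▸ sup_le (cents_norm (centsC inf_le_right))
        (subcent_nml (le_nrm_of_normal N P)).nrm)) h).trans inf_le_left)) hdisj))
    have h3 := Nat.le_of_dvd (card_pos _) ((hab.pGrp hq).dvd hmin.1)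
    rw [Phi, relIndex, so_map] at this
    omega

end Cfsg.Agent.S4188
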