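import Cfsg.Statements.S4189
import Mathlib
import Cfsg.Agent.H3.ABG

set_option autoImplicit false
open Cfsg

namespace Cfsg.Agent.S4189

/-- Let P be a finite non-abelian 2-group whose commutator subgroup has index 4 and whose automorphism group is not a 2-group (some automorphism has order that is not a power of 2). Then P is isomorphic to the quaternion group of order 8. -/
theorem result {P : Type*} [Group P] [Finite P] (hP : IsPGroup 2 P) (hna : ¬ IsMulCommutative P) (h4 : (commutator P).index = 4) (haut : ¬ IsPGroup 2 (MulAut P)) : Nonempty (P ≃* QuaternionGroup 2) := by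
  open Subgroup Cfsg.Agent.FT Cfsg.Agent.H3 in
  open scoped commutatorElement in
  · haveI : Fact (Nat.Prime 2) := ⟨Nat.prime_two⟩
    obtain ⟨G, _, _, ι, hι, ho⟩ := exists_amb 2 P
    have o := ho ⊤ fun e => haut (e.of_equiv (MulAut.congr topEquiv))
    obtain ⟨a, b, m, h⟩ := taussky (pGrp_top hP) (fun e => hna (ab_top.1 e)) (by rw [relIndex_top_right]; exact h4)
    rcases h.two_le.eq_or_lt with rfl | h3
    · by_cases e : b ^ 2 = 1
      · exact absurd o (((h.mcd_two e).map hι).not_oa ((h.mcd_two e).map hι).nrm_le)
      · exact nonempty_top_equiv.1 (h.mcq_two e).iso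
    · exact absurd o ((h.map hι).not_oa ((h.map hι).nrm_le h3))

end Cfsg.Agent.S4189
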