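import Cfsg.Statements.S4194
import Mathlib
import Cfsg.Agent.H28.PCentral

set_option autoImplicit false
open Cfsg

namespace Cfsg.Agent.S4194

/-- A finite group G has commutative Sylow 2-subgroups if and only if every 2-element of G (element of order a power of 2) is 2-central, that is, its centralizer contains a Sylow 2-subgroup of G. -/
theorem result {G : Type*} [Group G] [Finite G] (P : Sylow 2 G) :
    IsMulCommutative (P : Subgroup G) ↔ ∀ x : G, (∃ k : ℕ, orderOf x = 2 ^ k) → (∃ Q : Sylow 2 G, (Q : Subgroup G) ≤ Subgroup.centralizer ({x} : Set G)) := by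
  constructor
  · rintro hP x ⟨k, hk⟩
    have hx : IsPGroup 2 (Subgroup.zpowers x) :=
      IsPGroup.of_card (n := k) (by rw [Nat.card_zpowers, hk])
    obtain ⟨Q, hQ⟩ := hx.exists_le_sylow
    refine ⟨Q, fun g hg => ?_⟩
    have hxQ : x ∈ (Q : Subgroup G) := hQ (Subgroup.mem_zpowers x)
    let e := Sylow.equiv P Q
    rw [Subgroup.mem_centralizer_singleton_iff]
    have : (⟨g, hg⟩ : (Q : Subgroup G)) * ⟨x, hxQ⟩ = ⟨x, hxQ⟩ * ⟨g, hg⟩ := by
      apply e.symm.injective
      rw [map_mul, map_mul]
      exact hP.is_comm.comm _ _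
    exact congrArg Subtype.val this
  · intro h
    apply Cfsg.Agent.H28.camina_herzog
    intro x hx
    obtain ⟨Q, hQ⟩ := h x hx
    exact Cfsg.Agent.H28.not_dvd_index_of_sylow_le Q hQ

end Cfsg.Agent.S4194
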