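import Mathlib
import Cfsg.Agent.H28.Util
-- Template for statement S4195 (row 4195; see /opt/grader/pristine/manifest.json for weights).
-- Copy to Cfsg/Agent/S4195.lean and replace the sorry. The statement below is byte-identical to the frozen
-- statement Cfsg.CfsgFrozen.S4195 (Cfsg/Statements/S4195.lean; the theorem Cfsg.fg12_two_central_real_element_is_involution);
-- the grader kernel-checks Cfsg.Agent.S4195.result against that frozen type. Keep the theorem IN THIS FILE
-- (a `result` declared elsewhere and merely imported here is not credited); helpers may live anywhere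
-- under Cfsg/Agent/.
import Cfsg.Statements.S4195
-- import your own Cfsg.Agent.* helpers here

set_option autoImplicit false
open Cfsg

namespace Cfsg.Agent.S4195

/-- Let x be a non-identity element of a finite group G whose centralizer contains a Sylow 2-subgroup of G. If x is conjugate to its inverse, then x has order 2. -/
theorem result {G : Type*} [Group G] [Finite G] (x : G) (hx : x ≠ 1) (P : Sylow 2 G) (hP : (P : Subgroup G) ≤ Subgroup.centralizer ({x} : Set G)) (hreal : IsConj x x⁻¹) : orderOf x = 2 := by
  open Subgroup Cfsg.Agent.FT Cfsg.Agent.H28 in
  open scoped commutatorElement Pointwise in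
  haveI : Fact (Nat.Prime 2) := ⟨Nat.prime_two⟩
  obtain ⟨c, hc⟩ := isConj_iff.1 hreal
  have h := commute_of_conj_eq_inv (not_dvd_index_of_sylow_le P hP) hc
  have e : x = x⁻¹ := by rw [← hc, h.eq]; group
  refine orderOf_eq_prime ?_ hx
  rw [pow_two]
  nth_rewrite 2 [e]
  exact mul_inv_cancel x

end Cfsg.Agent.S4195
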