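import Mathlib
import Cfsg.Agent.H28.Util
-- Template for statement S4196 (row 4196; see /opt/grader/pristine/manifest.json for weights).
-- Copy to Cfsg/Agent/S4196.lean and replace the sorry. The statement below is byte-identical to the frozen
-- statement Cfsg.CfsgFrozen.S4196 (Cfsg/Statements/S4196.lean; the theorem Cfsg.fg12_sylow_two_elementary_abelian_iff_two_elements_two_central_and_real);
-- the grader kernel-checks Cfsg.Agent.S4196.result against that frozen type. Keep the theorem IN THIS FILE
-- (a `result` declared elsewhere and merely imported here is not credited); helpers may live anywhere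
-- under Cfsg/Agent/.
import Cfsg.Statements.S4196
-- import your own Cfsg.Agent.* helpers here

set_option autoImplicit false
open Cfsg

namespace Cfsg.Agent.S4196

/-- A finite group G has elementary abelian Sylow 2-subgroups (commutative with every element squaring to the identity) if and only if every 2-element of G has a Sylow 2-subgroup in its centralizer and is conjugate to its inverse. -/
theorem result {G : Type*} [Group G] [Finite G] (P : Sylow 2 G) :
    (IsMulCommutative (P : Subgroup G) ∧ ∀ x ∈ (P : Subgroup G), x ^ 2 = 1) ↔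
      ∀ x : G, (∃ k : ℕ, orderOf x = 2 ^ k) → (∃ Q : Sylow 2 G, (Q : Subgroup G) ≤ Subgroup.centralizer ({x} : Set G)) ∧ IsConj x x⁻¹ := by
  open Subgroup Cfsg.Agent.FT Cfsg.Agent.H28 in
  open scoped commutatorElement Pointwise in
  haveI : Fact (Nat.Prime 2) := ⟨Nat.prime_two⟩
  constructor
  · rintro ⟨hc, h2⟩ x ⟨k, hk⟩
    have h1 : IsPGroup 2 ⟪x⟫ := IsPGroup.of_card (by rw [card_zpowers', hk])
    obtain ⟨Q, hQ⟩ := h1.exists_le_sylow
    obtain ⟨c, hc'⟩ := MulAction.exists_smul_eq G Q P
    have hm : ∀ y ∈ (Q : Subgroup G), c * y * c⁻¹ ∈ (P : Subgroup G) := by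
      intro y hy
      rw [← hc']
      exact Subgroup.smul_mem_pointwise_smul y (MulAut.conj c) (Q : Subgroup G) hy
    have hx := hQ (mem_zpowers x)
    refine ⟨⟨Q, fun y hy => mem_cen1.2 ?_⟩, ?_⟩
    · have := Ab.comm hc (hm y hy) (hm x hx)
      have e : y * x = c⁻¹ * (c * y * c⁻¹ * (c * x * c⁻¹)) * c := by group
      rw [e, this]; group
    · have := h2 _ (hm x hx)
      rw [conj_pow, conj_eq_one_iff, pow_two] at this
      rw [inv_eq_of_mul_eq_one_right this]
  · intro h
    have h2 : ∀ x ∈ (P : Subgroup G), x ^ 2 = 1 := by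
      intro x hx
      obtain ⟨⟨Q, hQ⟩, hr⟩ := h x (exists_orderOf_eq_of_mem_sylow P.isPGroup' hx)
      obtain ⟨c, hc⟩ := isConj_iff.1 hr
      have h := commute_of_conj_eq_inv (not_dvd_index_of_sylow_le Q hQ) hc
      have e : x = x⁻¹ := by rw [← hc, h.eq]; group
      rw [pow_two]
      nth_rewrite 2 [e]
      exact mul_inv_cancel x
    refine ⟨ab_iff_forall.2 fun x hx y hy => ?_, h2⟩
    have i : ∀ z ∈ (P : Subgroup G), z⁻¹ = z := fun z hz =>
      inv_eq_of_mul_eq_one_right (by rw [← pow_two]; exact h2 z hz)
    rw [← i _ (P.mul_mem hx hy), mul_inv_rev, i x hx, i y hy]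

end Cfsg.Agent.S4196
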