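import Cfsg.Statements.S4250
import Mathlib
import Cfsg.Agent.H4.Cyc2
import Cfsg.Agent.H21.Fus

set_option autoImplicit false
open Cfsg

namespace Cfsg.Agent.S4250

/-- Let P be a Sylow p-subgroup of a finite group G. Call an intersection H = P ∩ Q with a Sylow p-subgroup Q tame when N_P(H) and N_Q(H) are Sylow p-subgroups of N_G(H). Then P ∩ G′ is generated by [P, N_G(P)] together with the commutator subgroups [P ∩ Q, ⟨x⟩] for all tame intersections P ∩ Q and all p-elements x of N_G(P ∩ Q). -/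
theorem result {G : Type*} [Group G] [Finite G] (p : ℕ) [Fact p.Prime] (P : Sylow p G) :
    (P : Subgroup G) ⊓ commutator G =
      ⁅(P : Subgroup G), Subgroup.normalizer ((P : Subgroup G) : Set G)⁆ ⊔
        ⨆ (Q : Sylow p G) (_ : (¬ p ∣ ((P : Subgroup G) ⊓ Subgroup.normalizer (((P : Subgroup G) ⊓ (Q : Subgroup G) : Subgroup G) : Set G)).relIndex (Subgroup.normalizer (((P : Subgroup G) ⊓ (Q : Subgroup G) : Subgroup G) : Set G)) ∧ ¬ p ∣ ((Q : Subgroup G) ⊓ Subgroup.normalizer (((P : Subgroup G) ⊓ (Q : Subgroup G) : Subgroup G) : Set G)).relIndex (Subgroup.normalizer (((P : Subgroup G) ⊓ (Q : Subgroup G) : Subgroup G) : Set G))))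
          (x : G) (_ : x ∈ Subgroup.normalizer (((P : Subgroup G) ⊓ (Q : Subgroup G) : Subgroup G) : Set G) ∧ ∃ k : ℕ, orderOf x = p ^ k),
          ⁅(P : Subgroup G) ⊓ (Q : Subgroup G), Subgroup.zpowers x⁆ := by
  open Subgroup Cfsg.Agent.H22 Cfsg.Agent.H4 in
  refine le_antisymm ?_ (sup_le (le_inf (comm_le_of_le_N le_rfl) (commutator_mono le_top le_top))
    (iSup_le fun Q => iSup_le fun _ => iSup_le fun x => iSup_le fun hx => le_inf
      ((comm_le_of_le_N (zpowers_le.2 hx.1)).trans inf_le_left) (commutator_mono le_top le_top)))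
  generalize hD : (_ ⊔ _ : Subgroup G) = D
  have h1 : ⁅(P : Subgroup G), N[(P : Subgroup G)]⁆ ≤ D := hD ▸ le_sup_left
  have key := alperin_induction_tame P (fun A g => ∀ a ∈ A, g * a * g⁻¹ * a⁻¹ ∈ D) ?_ ?_ ?_ ?_
  · rw [inf_comm, commutator_inf_eq_focal_of_hall P.card_coprime_index]
    refine (closure_le _).2 ?_
    rintro _ ⟨hy, x, hx, g, rfl⟩
    have h2 := conj_inv_mem_of_commutatorElement_mem hx hy
    have h3 := key (zpowers x⁻¹) g (zpowers_le.2 (inv_mem hx)) (conj_smul_zpowers_le h2) _ (mem_zpowers _)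
    have h4 := h1 (commutator_mem_commutator hx (le_normalizer h2))
    have h5 := mul_mem h4 h3
    simp only [commutatorElement_def] at h5 ⊢
    show _ ∈ D
    convert h5 using 1
    group
  · intro A g h _ _ _ a1 a2 a ha
    convert mul_mem (a2 _ (conj_mem_conj_smul.2 ha)) (a1 a ha) using 1
    group
  · intro A g _ _ a1 a ha
    have := inv_mem (a1 _ (mem_conj_smul.1 ha))
    convert this using 1
    group
  · exact fun A B g h _ _ a1 a ha => a1 a (h ha)
  · intro B hB hS ih x hx e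
    have hS' := H21.sylIn_of_isSylowIn hS
    have hgood : ∀ T : Subgroup G, ∀ n ∈ N[T], T ≤ P → ⁅T, zpowers n⁆ ≤ D →
        ∀ a ∈ T, n * a * n⁻¹ * a⁻¹ ∈ D := fun T n _ _ h a ha => by
      rw [commutator_comm] at h
      exact h (commutator_mem_commutator (mem_zpowers n) ha)
    by_cases hP : B = P
    · rw [hP] at hx ⊢
      exact hgood _ x hx le_rfl ((commutator_mono le_rfl (zpowers_le.2 hx)).trans h1)
    have hlt := pgrp_lt_inf_N P.isPGroup' (lt_of_le_of_ne hB hP)
    have hx' : (((x • P : Sylow p G) : Subgroup G)) = cj x P := rfl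
    have e' : (P : Subgroup G) ⊓ ((x • P : Sylow p G) : Subgroup G) = B := e.symm
    have h2 : ∀ y ∈ N[B], (∃ k, orderOf y = p ^ k) → ⁅B, zpowers y⁆ ≤ D := by
      intro y hy hk
      rw [← hD]
      refine le_sup_of_le_right (le_iSup_of_le (x • P) (le_iSup_of_le ?_ (le_iSup_of_le y
        (le_iSup_of_le ?_ ?_))))
      · rw [e']
        refine ⟨hS.not_dvd, ?_⟩
        have := (sylIn_cj_N hS' (le_normalizer hx)).not_dvd_relIndex
        rwa [cj_inf, cj_eq_of_mem (H := N[B]) hx] at this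
      · rw [e']; exact ⟨hy, hk⟩
      · rw [e']
    let M : Subgroup G :=
      { carrier := {n | n ∈ N[B] ∧ ∀ a ∈ B, n * a * n⁻¹ * a⁻¹ ∈ D}
        one_mem' := ⟨one_mem _, fun a _ => by simp⟩
        mul_mem' := fun {g h} hg hh => ⟨mul_mem hg.1 hh.1, fun a ha => by
          convert mul_mem (hg.2 _ (conj_mem_of_N hh.1 ha)) (hh.2 a ha) using 1
          group⟩
        inv_mem' := fun {g} hg => ⟨inv_mem hg.1, fun a ha => by
          convert inv_mem (hg.2 _ (conj_mem_of_N' hg.1 ha)) using 1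
          group⟩ }
    have h3 : pElementClosure p N[B] ≤ M := pElementClosure_le_iff'.2 fun y hy hk =>
      ⟨hy, hgood B y hy hB (h2 y hy hk)⟩
    obtain ⟨k, hk, n, hn, rfl⟩ := syl_frattini (sylIn_pElementClosure hS') (le_N_pElementClosure _ hx)
    have hn' : n ∈ N[B] := (mul_mem_cancel_left (h3 hk).1).1 hx
    refine (M.mul_mem (h3 hk) ⟨hn', fun a ha => ?_⟩).2
    exact ih _ n (card_lt_of_lt hlt) inf_le_left
      ((cj_eq_of_mem_N hn).le.trans inf_le_left) a (hlt.le ha)

end Cfsg.Agent.S4250
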