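import Cfsg.Statements.S4216
import Mathlib
import Cfsg.Agent.S4250
import Cfsg.Agent.H4.Cyc2

set_option autoImplicit false
open Cfsg

namespace Cfsg.Agent.S4216

/-- Grün's first Theorem: if `P` is a Sylow `p`-subgroup of the finite group `G`, then `P ∩ G'` is the subgroup generated by `P ∩ N_G(P)'` together with the subgroups `P ∩ z P' z⁻¹` for all `z ∈ G`, where `'` denotes the derived subgroup and `N_G(P)` the normalizer of `P`. -/
theorem result {G : Type*} [Group G] [Finite G] {p : ℕ} [Fact p.Prime] (P : Sylow p G) : (P : Subgroup G) ⊓ commutator G = ((P : Subgroup G) ⊓ ⁅Subgroup.normalizer ((P : Subgroup G) : Set G), Subgroup.normalizer ((P : Subgroup G) : Set G)⁆) ⊔ ⨆ z : G, (P : Subgroup G) ⊓ (⁅(P : Subgroup G), (P : Subgroup G)⁆).map (MulAut.conj z).toMonoidHom := by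
  open Subgroup Cfsg.Agent.H22 Cfsg.Agent.H4 in
  refine le_antisymm ?_ (sup_le (inf_le_inf_left _ (commutator_mono le_top le_top)) (iSup_le fun z =>
    inf_le_inf_left _ (by rw [map_commutator]; exact commutator_mono le_top le_top)))
  rw [S4250.result p P]
  refine sup_le_sup (le_inf (comm_le_of_le_N le_rfl) (commutator_mono le_normalizer le_rfl))
    (iSup_le fun Q => iSup_le fun _ => iSup_le fun x => iSup_le fun hx => ?_)
  obtain ⟨hx, k, hk⟩ := hx
  obtain ⟨z, -, hz⟩ := syl_exists_le_cj (H18.sylIn_top P) le_top (pgrp_sup'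
    (P.isPGroup'.to_le (inf_le_left (b := (Q : Subgroup G)))) (isPGroup_zpowers_of_orderOf hk) (zpowers_le.2 hx))
  refine le_iSup_of_le z (le_inf ((comm_le_of_le_N (zpowers_le.2 hx)).trans inf_le_left) ?_)
  rw [cj_def, cj_commutator]
  exact commutator_mono (le_sup_left.trans hz) (le_sup_right.trans hz)

end Cfsg.Agent.S4216
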