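import Cfsg.Statements.S4235
import Mathlib
import Cfsg.Agent.H20.SEc2

set_option autoImplicit false
open scoped Pointwise
open Cfsg

namespace Cfsg.Agent.S4235

open Cfsg.Agent.FT Cfsg.Agent.H20.SEc

/-- Let G be a finite group. Call a subgroup maximal solvable if it is solvable and not properly contained in a solvable subgroup. Suppose F assigns to each maximal solvable subgroup M a normal subgroup F(M) of M such that: every element of M outside F(M) centralizes no non-identity element of F(M); F(M) meets each conjugate g F(M) g⁻¹ with g outside M trivially; and F(M) is nontrivial unless M is abelian. Then G is solvable, or G is isomorphic to SL(2, K) for a finite field K of characteristic 2 with at least 4 elements, or G is isomorphic to a Suzuki group. -/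
theorem result {G : Type*} [Group G] [Finite G] (F : Subgroup G → Subgroup G)
    (h : ∀ M : Subgroup G, (Group.IsSolvable M ∧ ∀ M' : Subgroup G, M < M' → ¬ Group.IsSolvable M') →
      F M ≤ M ∧ M ≤ Subgroup.normalizer (F M : Set G) ∧
      (∀ a ∈ M, a ∉ F M → ∀ x ∈ F M, x * a = a * x → x = 1) ∧
      (∀ g : G, g ∉ M → F M ⊓ (MulAut.conj g • F M) = ⊥) ∧
      (F M ≠ ⊥ ∨ IsMulCommutative M)) :
    Group.IsSolvable G ∨
      (∃ (K : Type) (_ : Field K) (_ : Fintype K), (∃ n : ℕ, 2 ≤ n ∧ Fintype.card K = 2 ^ n) ∧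
        Nonempty (G ≃* Matrix.SpecialLinearGroup (Fin 2) K)) ∨
      Cfsg.Lie.IsoSuzuki G := by
  by_contra! hcon
  obtain ⟨hG, hL, hZ⟩ := hcon
  let MS : Subgroup G → Prop := fun M => Sol M ∧ ∀ M' : Subgroup G, M < M' → ¬ Sol M'
  have ex : ∀ X : Subgroup G, Sol X → ∃ M, MS M ∧ X ≤ M := fun X hX => by
    obtain ⟨M, h1, h2, h3⟩ := exists_max (G := G) Sol hX
    exact ⟨M, ⟨h2, fun M' hlt hs => hlt.ne' (h3 _ hs hlt.le)⟩, h1⟩
  have ti : ∀ M, MS M → ∀ g x : G, x ≠ 1 → x ∈ F M → x ∈ cj g (F M) → g ∈ M :=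
    fun M hM g x x1 h1 h2 => by_contra fun e => x1 (eq_one_of_mem_inf ((h M hM).2.2.2.1 g e) h1 h2)
  have cen : ∀ M, MS M → ∀ x ∈ F M, x ≠ 1 → C[x] ≤ F M := fun M hM x hx x1 g hg => by_contra fun e =>
    x1 ((h M hM).2.2.1 g (ti M hM g x x1 hx (mem_cj'.2 ⟨x, hx, by rw [mem_cen1.1 hg]; group⟩)) e x hx
      (mem_cen1.1 hg).symm)
  have ntop : ∀ M, MS M → M ≠ ⊤ := fun M hM e => hG (sol_top_iff.1 (e ▸ hM.1))
  have rad : ∀ N : Subgroup G, N ⊴ ⊤ → Sol N → N = ⊥ := fun N hN hs => by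
    by_contra hne
    obtain ⟨A, hA, hm⟩ := exists_minNml hne hN.nrm
    have hab := hm.ab (hs.mono hA)
    have c1 : ∀ M, MS M → Ab M := fun M hM => (h M hM).2.2.2.2.resolve_left fun hF => hF (by
      by_contra hF
      have d1 : A ≤ M := by
        by_contra e
        exact hM.2 (A ⊔ M) (lt_of_le_of_ne le_sup_right fun e' => e (e' ▸ le_sup_left))
          ((hs.mono hA).sup hM.1 (le_top.trans hm.nrm))
      have d2 : A ≤ F M := by
        by_cases e : A ⊓ F M = ⊥
        · obtain ⟨x, hx, x1⟩ := exists_ne_one hF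
          exact ((cents_of_norms_of_inf (le_top.trans hm.nrm) (d1.trans (h M hM).2.1) e).trans
            (cen_le_cen1 hx)).trans (cen M hM x hx x1)
        · obtain ⟨x, hx, x1⟩ := exists_ne_one e
          exact (hab.le_cen1 hx.1).trans (cen M hM x hx.2 x1)
      obtain ⟨x, hx, x1⟩ := exists_ne_one hm.ne
      exact ntop M hM (top_le_iff.1 fun g _ => ti M hM g x x1 (d2 hx)
        (mem_cj.2 (d2 (conj_mem' (hm.nrm trivial) hx)))))
    refine hG (sol_top_iff.1 (nil_of_forall_npc fun p hp _ => ?_).sol)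
    obtain ⟨P, hP⟩ := exists_syl p (⊤ : Subgroup G)
    refine Burnside_normal_complement hP fun g hg => ?_
    obtain ⟨M, hM, hle⟩ := ex _ (hP.pi.sol.sup (ab_zpowers g).sol (Subgroup.zpowers_le.2 hg.2))
    exact (c1 M hM).cents (le_sup_left.trans hle) (le_sup_right.trans hle) (Subgroup.mem_zpowers g)
  have h2 := rank2_of_rad hG rad
  obtain ⟨S, hS⟩ := exists_syl 2 (⊤ : Subgroup G)
  obtain ⟨M, hM, hle⟩ := ex _ (sol_nrm_syl hS)
  have hSM := (le_nrm S).trans hle
  obtain ⟨x, hx, y, hy, ox, oy, hxy, -⟩ := exists_pair h2 hS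
  obtain ⟨a1, a2, a3, -, a5⟩ := h M hM
  have hF : F M ≠ ⊥ := a5.resolve_right fun hab => by
    have := (Burnside_normal_complement hS (inf_le_right.trans (Ab.cents hab hSM hle))).sd hS
    rw [rad _ (pcore_nml _ _) (sol_of_pi (pcore_pi _ _))] at this
    exact hG (sol_top_iff.1 (this.eq_right_of_bot ▸ hS.pi.sol))
  have hFM : F M ≠ M := fun e => by
    obtain ⟨K, -, -, hK⟩ := H5b.exists_frob_of_compl (H := M) ⟨e ▸ hF, ntop M hM, fun g hg => by
      have := (h M hM).2.2.2.1 g hg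
      rwa [e] at this⟩
    exact hK.ker_ne (rad K hK.sd.nml (H5b.frob_ker_nil hK).sol)
  obtain ⟨D, hD⟩ := H27.exists_frob_of_cent1 ⟨a1, a2⟩ hF hFM fun x hx x1 =>
    inf_le_right.trans (cen M hM x hx x1)
  have hnil := H5b.frob_ker_nil hD
  have reg : ∀ a ∈ M, a ∉ F M → F M ⊓ C[a] = ⊥ := fun a ha e =>
    eq_bot_iff.2 fun x hx => a3 a ha e x hx.1 (mem_cen1.1 hx.2)
  have he : 2 ∣ #(F M) := by
    by_contra e
    refine hxy (H5b.invol_unique (hSM.trans a2) hF (fun a ha a1 => reg a (hSM ha) fun e' => a1 ?_)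
      hx hy ox oy)
    exact (hS.pi.piElt ha).eq_one_of_mem (p'grp_of_not_dvd e) e'
  have inv : ∀ t ∈ M, orderOf t = 2 → t ∈ F M := fun t ht h2 => by_contra fun e =>
    exists_cen_invol hnil he h2 (a2 ht) (reg t ht e)
  have hse : IsStronglyEmbedded M := se_of_invol (ntop M hM) (he.trans (card_dvd a1))
    fun g t ht h1 h2 => ti M hM g t (by rintro rfl; simp at ht) (inv t h1 ht)
      (mem_cj.2 (inv _ (mem_cj.1 h2) (by simpa using (orderOf_conj g⁻¹ t).trans ht)))
  obtain ⟨T, hT⟩ := exists_R3 hse h2 (oddCore_eq_bot rad)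
  have hs : T.s ∈ F M := inv _ (hT.le (T.Q_le T.s_mem_Q))
    (orderOf_eq_prime (by rw [sq, T.ss]) T.s_ne_one)
  rcases (cn_case T (hnil.mono (cen M hM _ hs T.s_ne_one))).2 with h | h
  · obtain ⟨K, _, _, h1, ⟨e⟩⟩ := h.iso
    obtain ⟨n, h2, h3⟩ := T.exists_q
    obtain ⟨f⟩ := BS.psl_equiv_sl (n := n) (by omega) (h1.trans h3)
    exact (hL K _ _ ⟨n, h2, h1.trans h3⟩).elim (e.trans f)
  · exact hZ h.iso

end Cfsg.Agent.S4235
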