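import Mathlib
import Cfsg.Agent.H28.Util2
-- Template for statement S4236 (row 4236; see /opt/grader/pristine/manifest.json for weights).
-- Copy to Cfsg/Agent/S4236.lean and replace the sorry. The statement below is byte-identical to the frozen
-- statement Cfsg.CfsgFrozen.S4236 (Cfsg/Statements/S4236.lean; the theorem Cfsg.fg13_no_group_has_thirty_five_sylow_seventeen_subgroups);
-- the grader kernel-checks Cfsg.Agent.S4236.result against that frozen type. Keep the theorem IN THIS FILE
-- (a `result` declared elsewhere and merely imported here is not credited); helpers may live anywhere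
-- under Cfsg/Agent/.
import Cfsg.Statements.S4236
-- import your own Cfsg.Agent.* helpers here

set_option autoImplicit false
open Cfsg

namespace Cfsg.Agent.S4236

/-- No finite group has exactly 35 Sylow 17-subgroups. -/
theorem result {G : Type*} [Group G] [Finite G] : Nat.card (Sylow 17 G) ≠ 35 := by
  open Subgroup Cfsg.Agent.FT Cfsg.Agent.H28 in
  open scoped commutatorElement Pointwise in
  haveI : Fact (Nat.Prime 17) := ⟨by norm_num⟩
  haveI : Fact (Nat.Prime 5) := ⟨by norm_num⟩
  refine card_sylow_ne_of_reduced 17 35 ?_ G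
  intro G _ _ hF hO hn
  have h2 := no_index_two_of_reduced (by norm_num) hO
  obtain ⟨P⟩ : Nonempty (Sylow 17 G) := inferInstance
  have hP := card_sylow_eq_of_le_sq hF (by rw [hn]; norm_num) (by rw [hn]; norm_num) P
  have h49 : ¬ 17 ^ 2 ∣ Nat.card G := fun h => by
    have := P.pow_dvd_card_of_pow_dvd_card h
    rw [show Nat.card P = 17 from hP] at this
    norm_num at this
  have hC : #C((P : Subgroup G)) = 17 := by
    apply card_eq_of_forall_prime (by norm_num) (le_centralizer_of_prime_card (by norm_num) hP)
      hP h49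
    intro g hg hr
    have a1 := fx_modEq_one_of_centralizer hP hg
    have a2 := card_modEq_fx (Y := Sylow 17 G) hr (pow_orderOf_eq_one g)
    have hg1 : g ≠ 1 := fun e => by rw [e, orderOf_one] at hr; exact Nat.not_prime_one hr
    have a3 : fx (Sylow 17 G) g < 35 := hn ▸ fx_lt (by
      by_contra hc
      push Not at hc
      exact hg1 (hF g hc))
    rw [hn] at a2
    have a4 := (Nat.modEq_iff_dvd' a3.le).1 a2.symm
    have : fx (Sylow 17 G) g = 1 ∨ fx (Sylow 17 G) g = 18 := by
      unfold Nat.ModEq at a1; omega
    rcases this with e | e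
    · rw [e, show 35 - 1 = 2 * 17 from rfl] at a4
      rcases (Nat.Prime.dvd_mul hr).1 a4 with h | h
      · have h' := (Nat.prime_dvd_prime_iff_eq hr Nat.prime_two).1 h
        have := four_dvd_card_sub_fx (Y := Sylow 17 G) h2 (t := g) (h' ▸ pow_orderOf_eq_one g)
        rw [hn, e] at this
        norm_num at this
      · exact (Nat.prime_dvd_prime_iff_eq hr (by norm_num)).1 h
    · rw [e] at a4
      exact (Nat.prime_dvd_prime_iff_eq hr (by norm_num)).1 a4
  have he := relIndex_centralizer_dvd (by norm_num : Nat.Prime 17) hP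
  have hN := card_mul_relIndex (cen_le_nrm (P : Subgroup G))
  have hG := card_eq_card_sylow_mul P
  rw [hn, ← hN, hC] at hG
  obtain ⟨T, hT⟩ := exists_syl 2 N((P : Subgroup G))
  have hT1 : Cyc T := cyc_of_faithful_prime (by rw [hP]; norm_num) hT.le
    (hT.pi.inf_eq_bot (p'grp_of_not_dvd (by rw [hC]; norm_num)))
  have hT2 : Syl 2 T ⊤ := hT.of_relIndex le_top (p'nat_of_not_dvd (by
    rw [relIndex_top_right, ← card_sylow_eq_index, hn]; norm_num))
  have h3 := (cyclic_pdiv_normal_complement hT2 hT1 fun q hq _ => hq.two_le)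
  have h4 := hO _ (nml_top_iff.1 (pcore_nml {2}ᶜ ⊤)) (by
    rw [← relIndex_top_right]
    exact h3.relIndex.not_dvd' (by norm_num) (by simp))
  have hodd : ¬ 2 ∣ Nat.card G := by
    have := (pcore_eq_self_iff.1 h4).not_dvd Nat.prime_two rfl
    rwa [card_top'] at this
  generalize C((P : Subgroup G)).relIndex N((P : Subgroup G)) = e at he hG
  have he' : e ≤ 16 := Nat.le_of_dvd (by norm_num) he
  obtain ⟨X⟩ : Nonempty (Sylow 5 G) := inferInstance
  have hX := card_sylow_of_dvd_of_not_sq_dvd (by rw [hG]; omega) (by
    rw [hG]; interval_cases e <;> simp_all) X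
  apply not_normalizer_le_of_reduced (by norm_num) hO X hX
  intro y hy
  apply mem_centralizer_of_coprime (by norm_num) hX hy
  apply Nat.Coprime.coprime_dvd_left (orderOf_dvd_natCard y)
  exact Nat.Coprime.pow_right 2 ((Nat.Prime.coprime_iff_not_dvd Nat.prime_two).2 hodd).symm

end Cfsg.Agent.S4236
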