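import Mathlib
import Cfsg.Agent.H28.Kulak2
-- Template for statement S4237 (row 4237; see /opt/grader/pristine/manifest.json for weights).
-- Copy to Cfsg/Agent/S4237.lean and replace the sorry. The statement below is byte-identical to the frozen
-- statement Cfsg.CfsgFrozen.S4237 (Cfsg/Statements/S4237.lean; the theorem Cfsg.fg13_count_of_subgroups_of_non_maximal_prime_power_order_mod_p_squared);
-- the grader kernel-checks Cfsg.Agent.S4237.result against that frozen type. Keep the theorem IN THIS FILE
-- (a `result` declared elsewhere and merely imported here is not credited); helpers may live anywhere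
-- under Cfsg/Agent/.
import Cfsg.Statements.S4237
-- import your own Cfsg.Agent.* helpers here

set_option autoImplicit false
open Cfsg

namespace Cfsg.Agent.S4237

/-- Let G be a finite group, p a prime and a a natural number such that p^(a+1) divides the order of G. Then the number of subgroups of G of order p^a is congruent to 1 or to 1 + p modulo p². -/
theorem result {G : Type*} [Group G] [Finite G] (p a : ℕ) (hp : p.Prime) (hdvd : p ^ (a + 1) ∣ Nat.card G) :
    Nat.card {H : Subgroup G // Nat.card H = p ^ a} ≡ 1 [MOD p ^ 2] ∨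
      Nat.card {H : Subgroup G // Nat.card H = p ^ a} ≡ 1 + p [MOD p ^ 2] := by
  open Subgroup Cfsg.Agent.FT Cfsg.Agent.H28 in
  open scoped commutatorElement Pointwise in
  · obtain ⟨P, hP⟩ := exists_syl p (⊤ : Subgroup G)
    have hd : p ^ (a + 1) ∣ #P := hP.card ▸ (piNat_self_pow hp _).dvd_partn (card_ne_zero _)
      (by rwa [card_top'])
    have h1 := ncard_sub_modEq_syl hp hP hd
    have h2 := sub_add_cyc hp a P hP.pi hd
    have key : ∀ c : ℕ, {H | H ≤ P ∧ #H = p ^ (a + 1) ∧ Cyc H}.ncard ≡ c [MOD p] →
        {H : Subgroup G | #H = p ^ a}.ncard + p * c ≡ 1 + p [MOD p ^ 2] := fun c h =>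
      (h1.add (pow_two p ▸ h.symm.mul_left' p)).trans h2
    have h3 : {H | H ≤ P ∧ #H = p ^ (a + 1) ∧ Cyc H}.ncard ≡ 0 [MOD p] ∨
        {H | H ≤ P ∧ #H = p ^ (a + 1) ∧ Cyc H}.ncard ≡ 1 [MOD p] := by
      by_cases e : p = 2
      · subst e; exact Nat.mod_two_eq_zero_or_one _
      by_cases hc : a = 0 ∨ Cyc P
      · right
        convert H27.ncard_sub_modEq hp hd using 2
        ext H
        refine ⟨fun h => ⟨h.1, h.2.1⟩, fun h => ⟨h.1, h.2, hc.elim (fun e => ?_) (·.mono h.1)⟩⟩
        exact cyc_of_prime (by simpa [h.2, e] using hp)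
      · push Not at hc
        obtain ⟨s, rfl⟩ := Nat.exists_eq_succ_of_ne_zero hc.1
        exact Or.inl (Nat.modEq_zero_iff_dvd.2 (dvd_cyc_of_elt hp
          (H27.pow_dvd_ncard_orderOf hp hP.pi (odd_of_two' (hP.pi.p' e)) hc.2 s)))
    rcases h3 with h | h
    · exact Or.inr (by simpa using! key 0 h)
    · exact Or.inl (Nat.ModEq.add_right_cancel' p (by simpa using! key 1 h))

end Cfsg.Agent.S4237
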