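import Cfsg.Statements.S4238
import Mathlib
import Cfsg.Agent.H4.Cyc2

set_option autoImplicit false
open Cfsg

namespace Cfsg.Agent.S4238

universe u

open Subgroup Cfsg.Agent.H22 Cfsg.Agent.H4 in
theorem aux (p : ℕ) [hp : Fact p.Prime] (G : Type u) [Group G] [Finite G] :
    (∀ (K : Type u) [Group K] (H : Subgroup G) (f : H →* K), Function.Surjective f →
      pPrimeCore p K = ⊥ → ∃ k : K, orderOf k = Monoid.exponent K) → HasNormalPComplement p G := by
  refine card_induction (P := fun G _ _ => (∀ (K : Type u) [Group K] (H : Subgroup G) (f : H →* K),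
    Function.Surjective f → pPrimeCore p K = ⊥ → ∃ k : K, orderOf k = Monoid.exponent K) →
      HasNormalPComplement p G) ?_ G
  intro G _ _ ih h
  have hsub : ∀ L : Subgroup G, L ≠ ⊤ → HasNormalPComplement p L := fun L hL =>
    ih L (by simpa using card_lt_of_lt (lt_top_iff_ne_top.2 hL)) fun K _ H f hf =>
      h K (H.map L.subtype) (f.comp (H.equivMapOfInjective _ L.subtype_injective).symm.toMonoidHom)
        (hf.comp (MulEquiv.surjective _))
  have hquo : ∀ (N : Subgroup G) [N.Normal], N ≠ ⊥ → HasNormalPComplement p (G ⧸ N) := fun N _ hN =>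
    ih _ (H2.card_quotient_lt_of_ne_bot hN) fun K _ H f hf =>
      h K (H.comap (QuotientGroup.mk' N)) (f.comp ((QuotientGroup.mk' N).subgroupComap H))
        (hf.comp (MonoidHom.subgroupComap_surjective_of_surjective _ _ (QuotientGroup.mk'_surjective N)))
  by_contra hG
  have h1 : pPrimeCore p G = ⊥ := by
    by_contra h1
    exact hG (hasNPC_of_quotient_coprime _ H2.pPrimeCore_coprime (hquo _ h1))
  have h2 : center G = ⊥ := by
    by_contra h2
    exact hG (hasNPC_of_quotient_central _ le_rfl (hquo _ h2))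
  obtain ⟨P⟩ : Nonempty (Sylow p G) := inferInstance
  obtain ⟨hP, q, hq, hqp, g, ⟨n, hn⟩, hs, hc⟩ := ito_structure hG hsub P
  have := Fact.mk hq
  obtain ⟨k, hk⟩ := h G ⊤ (⊤ : Subgroup G).subtype (fun x => ⟨⟨x, trivial⟩, rfl⟩) h1
  have hP0 : (P : Subgroup G) ≠ ⊥ := fun e => hc (by rw [e, C_bot]; trivial)
  obtain ⟨x, -, hx⟩ := pgrp_exists_orderOf_eq P.isPGroup' hP0
  obtain ⟨a, ha, ha'⟩ := exists_mem_orderOf_eq (H := zpowers k) (p := p)
    (by rw [Nat.card_zpowers, hk, ← hx]; exact Monoid.order_dvd_exponent x)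
  have hk0 : orderOf k ≠ 0 := (orderOf_pos k).ne'
  have hd : q ^ n ∣ orderOf k := by rw [hk, ← hn]; exact Monoid.order_dvd_exponent g
  obtain ⟨b, hb, hb'⟩ : ∃ b ∈ zpowers k, orderOf b = q ^ n :=
    ⟨k ^ (orderOf k / q ^ n), npow_mem_zpowers _ _, orderOf_pow_orderOf_div hk0 hd⟩
  have hcop : ∀ y : G, orderOf y = q ^ n → (Nat.card (zpowers y)).Coprime p := fun y hy => by
    rw [Nat.card_zpowers, hy]; exact ((Nat.coprime_primes hq hp.out).2 hqp).pow_left n
  have hs' : (P : Subgroup G) ⊔ zpowers b = ⊤ := by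
    have c : ∀ y : G, orderOf y = q ^ n → Nat.card ↥((P : Subgroup G) ⊔ zpowers y) =
        Nat.card (P : Subgroup G) * q ^ n := fun y hy => by
      have := card_sup_mul_of_le_N' (le_N_of_normal (zpowers y) (P : Subgroup G))
      rwa [pgrp_inf_eq_bot P.isPGroup' (hcop y hy), card_bot, mul_one, Nat.card_zpowers, hy] at this
    refine eq_top_of_card_eq _ ?_
    rw [c b hb', ← c g hn, hs, card_top]
  have haP : a ∈ (P : Subgroup G) := syl_le_of_le_N (H18.sylIn_top P) le_top
    (isPGroup_zpowers_of_orderOf_eq ha') (le_N_of_normal _ _) (mem_zpowers a)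
  have hZ : (P : Subgroup G) ⊓ C[(P : Subgroup G)] ⊔ zpowers b = ⊤ := by
    by_contra h3
    have := ito_isNilpotent hG hsub _ h3
    have h4 := le_centralizer_of_isNilpotent_of_coprime (P.isPGroup'.to_le inf_le_left) le_sup_left
      le_sup_right (hcop b hb') (H := (P : Subgroup G) ⊓ C[(P : Subgroup G)] ⊔ zpowers b)
    refine pgrp_center_ne_bot P.isPGroup' hP0 (eq_bot_iff.2 ?_)
    rw [← h2, ← C_top, ← hs', C_sup]
    exact le_inf inf_le_right (le_centralizer_iff.1 h4)
  have : a ∈ center G := by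
    rw [← C_top, ← hZ, C_sup]
    exact ⟨le_centralizer_iff.1 inf_le_right haP, mem_C.2 fun y hy =>
      H3.comm_of_mem_zpowers (zpowers_le.2 hb hy) ha⟩
  rw [h2] at this
  exact ne_one_of_orderOf_eq ha' this

/-- Let G be a finite group and p a prime. Then G has a normal p-complement if and only if every section K = H/N of G (N a normal subgroup of a subgroup H) whose largest normal subgroup of order prime to p is trivial contains an element whose order equals the exponent of K. -/
theorem result {G : Type*} [Group G] [Finite G] (p : ℕ) [Fact p.Prime] :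
    Cfsg.HasNormalPComplement p G ↔
      ∀ (H : Subgroup G) (N : Subgroup H) [N.Normal], Cfsg.pPrimeCore p (H ⧸ N) = ⊥ →
        ∃ k : H ⧸ N, orderOf k = Monoid.exponent (H ⧸ N) := by
  open Subgroup Cfsg.Agent.H22 Cfsg.Agent.H4 in
  refine ⟨fun h H N _ h0 => ?_, fun h => aux p G fun K _ H f hf h0 => ?_⟩
  · have h1 := hasNPC_quotient (hasNPC_subgroup h H) N
    have h2 := pResidual_eq_pPrimeCore h1
    rw [h0, pResidual_eq_bot_iff] at h2
    obtain ⟨n, hn⟩ := h2.exists_exponent_eq_pow
    obtain ⟨g, hg⟩ := (Fact.out : p.Prime).exists_orderOf_eq_pow_factorization_exponent (H ⧸ N)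
    exact ⟨g, by rw [hg, hn, (Fact.out : p.Prime).factorization_pow]; simp⟩
  · have e := QuotientGroup.quotientKerEquivOfSurjective f hf
    have : Finite K := Finite.of_surjective f hf
    obtain ⟨k, hk⟩ := h H f.ker (by rw [← H2.pPrimeCore_map_equiv e.symm, h0, Subgroup.map_bot])
    exact ⟨e k, by rw [MulEquiv.orderOf_eq, hk, Monoid.exponent_eq_of_mulEquiv e]⟩

end Cfsg.Agent.S4238
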