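import Cfsg.Statements.S4240
import Cfsg.Agent.H23.Inv

set_option autoImplicit false
open Cfsg

namespace Cfsg.Agent.S4240

/-- Let a finite group A act by automorphisms on a finite group G of order coprime to that of A. Suppose every maximal A-invariant proper subgroup of G is nilpotent while G is not. Then G is solvable, the order of G has the form p^a·q^b for two distinct primes p and q, and G has a normal A-invariant Sylow subgroup for some prime dividing its order. -/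
theorem result {A G : Type*} [Group A] [Group G] [Finite A] [Finite G] [MulDistribMulAction A G]
    (hcop : (Nat.card A).Coprime (Nat.card G))
    (hmax : ∀ H : Subgroup G, H ≠ ⊤ → (∀ a : A, ∀ x ∈ H, a • x ∈ H) →
      (∀ K : Subgroup G, H < K → (∀ a : A, ∀ x ∈ K, a • x ∈ K) → K = ⊤) → Group.IsNilpotent H)
    (hG : ¬ Group.IsNilpotent G) :
    Group.IsSolvable G ∧
      (∃ p q a b : ℕ, p.Prime ∧ q.Prime ∧ p ≠ q ∧ Nat.card G = p ^ a * q ^ b) ∧
      ∃ (p : ℕ) (P : Sylow p G), p.Prime ∧ p ∣ Nat.card G ∧ (P : Subgroup G).Normal ∧ (∀ a : A, ∀ x ∈ (P : Subgroup G), a • x ∈ (P : Subgroup G)) := by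
  have h : ∀ H, H < H28.gl A (⊤ : Subgroup G) → H28.al G (⊤ : Subgroup A) ≤ Subgroup.normalizer (H : Set _) →
      FT.Nil H := fun U hU hA => by
    obtain ⟨H, -, rfl⟩ := H28.exists_gl hU.le
    obtain ⟨M, hM, ⟨h1, h2⟩, h3⟩ := FT.exists_max (fun M : Subgroup G => M ≠ ⊤ ∧ ∀ a : A, ∀ x ∈ M, a • x ∈ M)
      ⟨(H28.gl_lt_gl.1 hU).ne, H28.al_top_norms_iff.1 hA⟩
    exact H28.nil_gl.2 (FT.Nil.mono (hmax M h1 h2 fun K hK h4 => by_contra fun h5 =>
      hK.ne' (h3 K ⟨h5, h4⟩ hK.le)) hM)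
  have hc := H28.cop_gl_al hcop (⊤ : Subgroup G) ⊤
  obtain ⟨⟨p, q, hp, hq, hne, h1⟩, r, U, hr, hrd, hU, hn⟩ := H23.schmidt_inv (H28.al_norms_top ⊤) hc h fun h' => by
    have : Group.IsNilpotent (⊤ : Subgroup G) := H28.nil_gl.1 h'
    exact hG (Group.nilpotent_of_mulEquiv Subgroup.topEquiv)
  refine ⟨H23.isSolvable_of_sol_top (H28.sol_gl.1 (H23.sol_of_inv_nil _ rfl (H28.al_norms_top ⊤) hc h)),
    ⟨p, q, (Nat.card G).factorization p, (Nat.card G).factorization q, hp, hq, hne, ?_⟩, ?_⟩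
  · have h2 := FT.piGrp_top.1 (H28.piGrp_gl.1 h1)
    have h0 : Nat.card G ≠ 0 := Nat.card_pos.ne'
    rw [← FT.partn_singleton hp, ← FT.partn_singleton hq]
    refine (FT.partn_mul_compl {p} h0).symm.trans ?_
    congr 1
    refine FT.partn_congr fun s hs hd => ?_
    rcases h2 s hs hd with rfl | rfl <;> simp [hne, hne.symm]
  · have hA := hU.norms_of_nml hn (H28.al_norms_top ⊤)
    obtain ⟨P, -, rfl⟩ := H28.exists_gl hU.le
    obtain ⟨T, rfl⟩ := (FT.syl_top_iff hr).1 (H28.hall_gl.1 hU)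
    exact ⟨r, T, hr, H28.card_gl_top (A := A) (G := G) ▸ hrd, FT.nml_top_iff.1 ⟨le_top, H28.gl_norms_iff.1 hn⟩,
      H28.al_top_norms_iff.1 hA⟩

end Cfsg.Agent.S4240
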