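import Cfsg.Statements.S4242
import Mathlib
import Cfsg.Agent.FT.BG01

set_option autoImplicit false
open Cfsg

namespace Cfsg.Agent.S4242

open Subgroup Cfsg.Agent.FT

theorem nil_sub {G : Type*} [Group G] {K : Subgroup G} (H : Subgroup K) :
    Group.IsNilpotent H ↔ Nil (H.map K.subtype) :=
  ⟨fun _ => Group.nilpotent_of_mulEquiv (subtypeEquiv H), fun _ =>
    Group.nilpotent_of_mulEquiv (subtypeEquiv H).symm⟩

theorem min_iff {G : Type*} [Group G] {K : Subgroup G} :
    IsMinimalNonNilpotent K ↔ ¬ Nil K ∧ ∀ L, L < K → Nil L := by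
  refine and_congr_right fun _ => ⟨fun h L hL => ?_, fun h H hH => ?_⟩
  · have := (nil_sub _).1 (h (L.subgroupOf K) fun e => hL.not_ge (subgroupOf_eq_top.1 e))
    rwa [map_subgroupOf_eq_of_le hL.le] at this
  · refine (nil_sub H).2 (h _ (lt_of_le_of_ne (map_subtype_le H) fun e => hH ?_))
    exact map_injective K.subtype_injective (e.trans (by simp [← MonoidHom.range_eq_map]))

/-- Let G be a finite group and p a prime dividing its order. Every maximal subgroup of G of order divisible by p is nilpotent if and only if G is nilpotent, or G is a minimal non-nilpotent group, or G is the internal direct product of a normal subgroup of order p and a normal minimal non-nilpotent subgroup of order prime to p. -/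
theorem result {G : Type*} [Group G] [Finite G] (p : ℕ) (hp : p.Prime) (hpG : p ∣ Nat.card G) :
    (∀ M : Subgroup G, IsCoatom M → p ∣ Nat.card M → Group.IsNilpotent M) ↔
      (Group.IsNilpotent G ∨ Cfsg.IsMinimalNonNilpotent G ∨
        ∃ Z K : Subgroup G, Z.Normal ∧ K.Normal ∧ Z ⊓ K = ⊥ ∧ Z ⊔ K = ⊤ ∧ Nat.card Z = p ∧
          Cfsg.IsMinimalNonNilpotent K ∧ ¬ p ∣ Nat.card K) := by
  haveI := Fact.mk hp
  constructor
  · intro h
    have h' : ∀ H : Subgroup G, H ≠ ⊤ → p ∣ Nat.card H → Nil H := fun H h1 h2 => by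
      obtain ⟨M, hM, hle⟩ := exists_coatom h1
      exact Nil.mono (h M hM (h2.trans (card_dvd hle))) hle
    by_contra hn
    push Not at hn
    obtain ⟨n1, n2, n3⟩ := hn
    obtain ⟨K, hK, hKn⟩ : ∃ K : Subgroup G, IsCoatom K ∧ ¬ Nil K := by
      by_contra hc
      push Not at hc
      refine n2 ⟨n1, fun H hH => ?_⟩
      obtain ⟨M, hM, hle⟩ := exists_coatom hH
      exact Nil.mono (hc M hM) hle
    have hKp : ¬ p ∣ Nat.card K := fun e => hKn (h K hK e)
    have hK' : PiGrp {p}ᶜ K := p'grp_of_not_dvd hKp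
    by_cases hU : ∃ U : Subgroup G, PGrp p U ∧ U ≠ ⊥ ∧ ⊤ ≤ N(U)
    · obtain ⟨U, hU, h1, h2⟩ := hU
      have hL : ∀ L, L < K → Nil (U ⊔ L) := fun L hL => by
        refine h' _ (fun e => hL.ne ?_) (hU.dvd_of_le h1 le_sup_left)
        have := inf_sup_right (L := K) (A := U) (le_top.trans h2) hL.le
        rw [e, inf_top_eq, hK'.inf_eq_bot' hU, bot_sup_eq] at this
        exact this.symm
      have hc : K ≤ C(U) := fun x hx => by
        have : ⟪x⟫ < K := lt_of_le_of_ne (zpowers_le.2 hx) fun e => hKn (e ▸ (cyc_zpowers x).nil)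
        exact centsC ((hL _ this).cents_of_pi le_sup_left le_sup_right hU (hK'.mono this.le))
          (mem_zpowers x)
      obtain ⟨z, hz⟩ := exists_prime_orderOf_dvd_card' (G := U) p (hU.dvd h1)
      have hz' : Nat.card ⟪(z : G)⟫ = p := by rw [Nat.card_zpowers, orderOf_coe, hz]
      have hZU : ⟪(z : G)⟫ ≤ U := zpowers_le.2 z.2
      have hsup : ⟪(z : G)⟫ ⊔ K = ⊤ := hK.2 _ (right_lt_sup.2 fun e => hKp (hz' ▸ card_dvd e))
      have hc' : K ≤ C(⟪(z : G)⟫) := centsS hZU hc
      refine hKp (n3 _ K (nml_top_iff.1 (hsup ▸ nml_sup_left (cents_norm hc')))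
        (nml_top_iff.1 (hsup ▸ nml_sup_right (cents_norm (centsC hc'))))
        ((hU.mono hZU).inf_eq_bot hK') hsup hz'
        (min_iff.2 ⟨hKn, fun L h => (hL L h).mono le_sup_right⟩))
    push Not at hU
    obtain ⟨P, hP⟩ := exists_syl p (⊤ : Subgroup G)
    have hP1 : P ≠ ⊥ := hP.syl_ne_bot ⟨hp, by rwa [card_top']⟩
    have hN : NPC p (⊤ : Subgroup G) := Frobenius_normal_complement hP fun Q hQ h1 g hg hg' => by
      have hQp := hP.pi.mono hQ
      have := h' N(Q) (fun e => hU Q hQp h1 e.ge) (hQp.dvd_of_le h1 (le_nrm Q))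
      exact centsC (this.cents_of_pi (le_nrm Q) (zpowers_le.2 hg.2) hQp hg'.zpowers) (mem_zpowers g)
    have sd := hN.sd hP
    refine hU P hP.pi hP1 (sd.sup ▸ sup_le (cents_norm (le_of_forall_syl fun q hq hd => ?_)) (le_nrm P))
    obtain ⟨Q, hQ, hPQ⟩ := coprime_Sylow_exists q sd.nrm ((pcore_pi _ _).cop' hP.pi) (Or.inr hP.pi.sol)
    refine ⟨Q, hQ, ?_⟩
    have hQ' : PiGrp {p}ᶜ Q := (pcore_pi _ _).mono hQ.le
    refine centsC ((h' (Q ⊔ P) (fun e => hKn ?_) (hP.pi.dvd_of_le hP1 le_sup_right)).cents_of_pi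
      le_sup_right le_sup_left hP.pi hQ')
    have h1 : Hall {p}ᶜ Q ⊤ := e ▸ (mulEq_sup hPQ).hall_left hQ' (by simpa using hP.pi)
    have h2 : K ≤ Q := hN.hall.eq_pcore h1 ▸ hN.hall.le_pcore hK' le_top
    exact (hQ.pi.mono h2).nil
  · rintro (h | h | ⟨Z, K, hZ, hK, hi, hs, hc, hm, hKp⟩) M hM hd
    · infer_instance
    · exact h.2 M hM.1
    · have hZp := pGrp_of_card_prime hp hc
      have hK' : PiGrp {p}ᶜ K := p'grp_of_not_dvd hKp
      have hn : ∀ X : Subgroup G, X ≤ N(Z) := fun X => le_top.trans (nml_top_iff.2 hZ).nrm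
      have hS : Syl p Z ⊤ := hs ▸ (mulEq_sup (hn K)).hall_left hZp hK'
      obtain ⟨z, hz⟩ := exists_prime_orderOf_dvd_card' (G := M) p hd
      have hz' : Nat.card ⟪(z : G)⟫ = p := by rw [Nat.card_zpowers, orderOf_coe, hz]
      have hZM : Z ≤ M := by
        have := hS.le_of_syl_le (hn ⊤) le_rfl (pGrp_of_card_prime hp hz') le_top
        rw [← eq_of_card_eq this (hz'.trans hc.symm)]
        exact zpowers_le.2 z.2
      have e := inf_sup_left (hn K) hZM
      rw [hs, inf_top_eq] at e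
      have hlt : M ⊓ K < K := inf_lt_right.2 fun h => hM.1 (eq_top_iff.2 (hs ▸ sup_le hZM h))
      change Nil M
      rw [e]
      exact hZp.nil.sup_cents ((min_iff.1 hm).2 _ hlt) (inf_le_right.trans (centsC
        ((nml_top_iff.2 hZ).cents_of_cop (nml_top_iff.2 hK) (hZp.cop hK'))))

end Cfsg.Agent.S4242
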