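import Cfsg.Statements.S4245
import Mathlib
import Cfsg.Agent.H27.Kazarin
import Cfsg.Agent.H27.ClassSize
import Cfsg.Agent.GW.Base
import Cfsg.Agent.H2.Subnormal

set_option autoImplicit false
open Cfsg

namespace Cfsg.Agent.S4245

open Subgroup Cfsg.Agent.FT

universe u

theorem aux {p s : ℕ} (hp : p.Prime) (h2 : p ≠ 2) (n : ℕ) : ∀ (G : Type u) [Group G] [Finite G], Nat.card G = n →
    ∀ (B : Subgroup G) (u : G), Cyc B → u ∈ N(B) → (B ⊔ ⟪u⟫).index ∣ p ^ s → Group.IsSolvable G := by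
  induction n using Nat.strong_induction_on with
  | _ n ih =>
  intro G _ _ hn B u hB hu hi
  have h0 : B ⊔ ⟪u⟫ ≤ N(B) := sup_le le_normalizer (zpowers_le.2 hu)
  by_cases h1 : 2 ∣ #B
  · obtain ⟨t, ht, h3⟩ := GW.exists_invo h1
    have h4 : B ⊔ ⟪u⟫ ≤ C[t] := fun g hg => by
      rcases h3.mem_zpowers.1 (conj_mem (hB.norms_sub (zpowers_le.2 ht) h0 hg) (mem_zpowers t)) with e | e
      · exact absurd (by simpa using e) h3.ne
      · exact mem_cen1.2 (mul_inv_eq_iff_eq_mul.1 e)
    haveI := H27.kazarin hp ((index_dvd_of_le h4).trans hi)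
    have h5 : normalClosure ({t} : Set G) ≠ ⊥ := ne_bot_of_mem (subset_normalClosure rfl) h3.ne
    haveI := ih _ (hn ▸ H2.card_quotient_lt_of_ne_bot h5) (G ⧸ normalClosure ({t} : Set G)) rfl
      (B.map (QuotientGroup.mk' _)) (QuotientGroup.mk' _ u) (hB.map _)
      (map_norms _ h0 (mem_map_of_mem _ (mem_sup_right (mem_zpowers u))))
      (by rw [← MonoidHom.map_zpowers, ← Subgroup.map_sup]
          exact (index_map_dvd _ (QuotientGroup.mk'_surjective _)).trans hi)
    exact Group.isSolvable_of_ker_le_range (normalClosure ({t} : Set G)).subtype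
      (QuotientGroup.mk' (normalClosure ({t} : Set G))) (by simp)
  · obtain ⟨S, hS⟩ := exists_syl 2 (B ⊔ ⟪u⟫)
    have h3 : Cyc S := Cyc.of_quo (K := B) (((cyc_zpowers u).quo B).mono (by
      rw [← quo_sup_left (zpowers_le.2 hu)]; exact quo_mono B hS.le)) (hS.le.trans h0)
      (PiGrp.cop' ((p'nat_iff Nat.prime_two).2 h1) hS.pi).inf
    refine sol_top.1 (GW.sol_npc (cyclic_pdiv_normal_complement (hS.of_relIndex le_top ?_) h3 fun q hq _ => hq.two_le))
    rw [relIndex_top_right]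
    exact p'nat_of_not_dvd fun k => h2 ((Nat.prime_dvd_prime_iff_eq Nat.prime_two hp).1
      (Nat.prime_two.dvd_of_dvd_pow (k.trans hi))).symm

/-- Let G be a finite group with a subgroup A of prime-power index. Suppose A has a normal cyclic subgroup B such that A/B is cyclic of order a power of 2. Then G is solvable. -/
theorem result {G : Type*} [Group G] [Finite G] (A : Subgroup G) (p s : ℕ) (hp : p.Prime) (hA : A.index = p ^ s)
    (B : Subgroup A) [B.Normal] (hB : IsCyclic B) (hAB : IsCyclic (A ⧸ B)) (r : ℕ) (hr : Nat.card (A ⧸ B) = 2 ^ r) :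
    Group.IsSolvable G := by
  have h1 : Cyc (B.map A.subtype) := Cyc.map _ hB
  by_cases h2 : p = 2
  · refine H27.isSolvable_of_abelian_index_prime_pow hp _ h1.ab (k := r + s) (dvd_of_eq ?_)
    rw [index_map_subtype, hA, index_eq_card, hr, h2, pow_add]
  obtain ⟨u, hu⟩ := hAB.exists_generator
  obtain ⟨u, rfl⟩ := QuotientGroup.mk_surjective u
  refine aux hp h2 _ G rfl _ u h1 ((nml_map_subtype B).2 u.2) ((index_dvd_of_le fun g hg => ?_).trans hA.dvd)
  obtain ⟨k, hk⟩ := hu (QuotientGroup.mk ⟨g, hg⟩)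
  have h3 : (u ^ k)⁻¹ * ⟨g, hg⟩ ∈ B := QuotientGroup.eq.1 hk
  simpa using mul_mem (mem_sup_right (zpow_mem (mem_zpowers (u : G)) k)) (mem_sup_left (mem_map_of_mem A.subtype h3))

end Cfsg.Agent.S4245
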