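import Cfsg.Statements.S4249
import Mathlib
import Cfsg.Agent.H1.Kegel

set_option autoImplicit false
open Cfsg

namespace Cfsg.Agent.S4249

open Cfsg.Agent.FT Cfsg.Agent.H1 Subgroup in
theorem main {G : Type*} [Group G] [Finite G] {p : ℕ} (hp : p.Prime) {K : Subgroup G} (hG : ¬ PGrp p (⊤ : Subgroup G))
    (hn : ⊤ ≤ N(K)) (h : ∀ g, g ∉ K → g ^ p = 1) (hH : K ≠ ⊤) : Nil K ∧ K.index = p := by
  have hq : PGrp p (⊤ /ₛ K) := piGrp_iff_forall.2 fun u hu => by
    obtain ⟨x, -, hx, rfl⟩ := mem_quo.1 hu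
    by_cases e : x ∈ K
    · rw [coset_of_mem e]; exact piElt_one _
    · exact pElt_of_pow_eq_one hp (by rw [← coset_pow hx, h x e, coset_one])
  obtain ⟨U, -, hU, hi⟩ := hq.exists_relIndex_p (H := ⊥) (bot_lt_iff_ne_bot.2 fun e =>
    hH (top_le_iff.1 ((quo_eq_bot hn).1 e)))
  rw [← relIndex_qpre U hn] at hi
  have nL := qpre_nml ⟨le_top, hn⟩ hU
  obtain ⟨x, -, hx⟩ := SetLike.not_le_iff_exists.1 (show ¬ ⊤ ≤ qpre(K, U) from fun e =>
    hp.one_lt.ne' (hi ▸ relIndex_eq_one.2 e))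
  have hL : Nil qpre(K, U) := Split.nil ⟨nL.nrm (mem_top x), fun y hy => h _ fun e =>
    hx ((mul_mem_cancel_left hy).1 (le_qpre U e))⟩ hp
  suffices e : qpre(K, U) ≤ K by
    rw [le_antisymm e (le_qpre U)] at hL hi
    exact ⟨hL, by rwa [relIndex_top_right] at hi⟩
  have hK : ¬ PGrp p K := fun e => hG (piGrp_of_quo e hn hq)
  simp only [PiGrp, PiNat, not_forall] at hK
  obtain ⟨q, hq', hd, hne⟩ := hK
  obtain ⟨w, hw, ow⟩ := exists_elt_of_prime_dvd hq' hd
  intro y hy
  by_contra hyK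
  have py := pElt_of_pow_eq_one hp (h y hyK)
  have pw : PiElt {p}ᶜ w := (piElt_of_orderOf_prime hq' ow).2 hne
  have c := hL.comm_of_coprime hy (le_qpre U hw) (py.coprime pw)
  have e := h (y * w) fun e => hyK ((mul_mem_cancel_right hw).1 e)
  rw [Commute.mul_pow c, h y hyK, one_mul] at e
  exact hq'.one_lt.ne' (by rw [← ow, (pElt_of_pow_eq_one hp e).eq_one pw, orderOf_one])

/-- Let G be a finite group and p a prime such that G is not a p-group, and suppose the Hughes subgroup H_p(G), generated by all elements g with g^p ≠ 1, is a proper subgroup. Then H_p(G) is nilpotent and has index p in G. -/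
theorem result {G : Type*} [Group G] [Finite G] (p : ℕ) (hp : p.Prime) (hG : ¬ IsPGroup p G)
    (hH : Subgroup.closure {g : G | g ^ p ≠ 1} ≠ ⊤) :
    Group.IsNilpotent (Subgroup.closure {g : G | g ^ p ≠ 1}) ∧ (Subgroup.closure {g : G | g ^ p ≠ 1}).index = p := by
  refine main hp (fun e => hG (e.isPGroup.of_equiv Subgroup.topEquiv)) ?_
    (fun g hg => by_contra fun e => hg (Subgroup.subset_closure e)) hH
  refine FT.le_nrm_iff.2 fun g _ x hx => ?_
  refine (Subgroup.closure_le ((Subgroup.closure {g : G | g ^ p ≠ 1}).comap (MulAut.conj g).toMonoidHom)).2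
    ?_ hx
  intro y hy
  refine Subgroup.subset_closure fun e => hy ?_
  rwa [← map_pow, MulEquiv.coe_toMonoidHom, MulEquiv.map_eq_one_iff] at e

end Cfsg.Agent.S4249
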