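import Cfsg.Statements.S4251
import Mathlib
import Cfsg.Agent.H4.Frobenius

set_option autoImplicit false
open Cfsg

namespace Cfsg.Agent.S4251

open scoped Pointwise

/-- Let P be a Sylow p-subgroup of a finite group G. Call an intersection H = P ∩ Q with a Sylow p-subgroup Q tame when N_P(H) and N_Q(H) are Sylow p-subgroups of N_G(H). If N_G(H)/C_G(H) is a p-group for every nontrivial tame intersection H = P ∩ Q, then G has a normal p-complement. -/
theorem result {G : Type*} [Group G] [Finite G] (p : ℕ) [Fact p.Prime] (P : Sylow p G)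
    (h : ∀ Q : Sylow p G, (P : Subgroup G) ⊓ (Q : Subgroup G) ≠ ⊥ → (¬ p ∣ ((P : Subgroup G) ⊓ Subgroup.normalizer (((P : Subgroup G) ⊓ (Q : Subgroup G) : Subgroup G) : Set G)).relIndex (Subgroup.normalizer (((P : Subgroup G) ⊓ (Q : Subgroup G) : Subgroup G) : Set G)) ∧ ¬ p ∣ ((Q : Subgroup G) ⊓ Subgroup.normalizer (((P : Subgroup G) ⊓ (Q : Subgroup G) : Subgroup G) : Set G)).relIndex (Subgroup.normalizer (((P : Subgroup G) ⊓ (Q : Subgroup G) : Subgroup G) : Set G))) →
      IsPGroup p (Subgroup.normalizer (((P : Subgroup G) ⊓ (Q : Subgroup G) : Subgroup G) : Set G) ⧸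
        (Subgroup.centralizer (((P : Subgroup G) ⊓ (Q : Subgroup G) : Subgroup G) : Set G)).subgroupOf
          (Subgroup.normalizer (((P : Subgroup G) ⊓ (Q : Subgroup G) : Subgroup G) : Set G)))) :
    Cfsg.HasNormalPComplement p G := by
  refine H4.hasNPC_of_forall_tame P fun B hB hne hs ⟨x, hx, e⟩ g hg hc => ?_
  have e' : (P : Subgroup G) ⊓ ((x • P : Sylow p G) : Subgroup G) = B := e.symm
  have h2 := (hs.conj_of_mem (Subgroup.le_normalizer hx)).not_dvd
  rw [H4.conj_smul_inf, H4.conj_smul_eq_of_mem hx] at h2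
  have := h (x • P) (by rwa [e']) (by rw [e']; exact ⟨hs.not_dvd, h2⟩)
  rw [e'] at this
  have h3 := H4.pResidual_le_of_isPGroup_quotient _ this
    (H4.mem_pResidual (g := (⟨g, hg⟩ : Subgroup.normalizer (B : Set G))) (by rwa [Subgroup.orderOf_mk]))
  exact h3

end Cfsg.Agent.S4251
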