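import Mathlib
import Cfsg.Agent.H28.Util
-- Template for statement S4253 (row 4253; see /opt/grader/pristine/manifest.json for weights).
-- Copy to Cfsg/Agent/S4253.lean and replace the sorry. The statement below is byte-identical to the frozen
-- statement Cfsg.CfsgFrozen.S4253 (Cfsg/Statements/S4253.lean; the theorem Cfsg.fg13_frobenius_complement_coset_action_only_identity_fixes_two_cosets);
-- the grader kernel-checks Cfsg.Agent.S4253.result against that frozen type. Keep the theorem IN THIS FILE
-- (a `result` declared elsewhere and merely imported here is not credited); helpers may live anywhere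
-- under Cfsg/Agent/.
import Cfsg.Statements.S4253
-- import your own Cfsg.Agent.* helpers here

set_option autoImplicit false
open Cfsg

namespace Cfsg.Agent.S4253

/-- Let H be a Frobenius complement in a finite group G (a nontrivial proper subgroup meeting each conjugate gHg⁻¹ with g outside H trivially). Then in the action of G on the left cosets of H by left multiplication, no non-identity element of G fixes two distinct cosets. -/
theorem result {G : Type*} [Group G] [Finite G] (H : Subgroup G) (hH : Cfsg.IsFrobeniusComplement H)
    (g : G) (hg : g ≠ 1) (a b : G ⧸ H) (ha : g • a = a) (hb : g • b = b) : a = b := by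
  open Subgroup Cfsg.Agent.FT Cfsg.Agent.H28 in
  open scoped commutatorElement Pointwise in
  obtain ⟨a, rfl⟩ := QuotientGroup.mk_surjective a
  obtain ⟨b, rfl⟩ := QuotientGroup.mk_surjective b
  rw [MulAction.Quotient.smul_mk, QuotientGroup.eq, smul_eq_mul] at ha hb
  rw [QuotientGroup.eq]
  by_contra h
  have h1 := hH.2.2 _ h
  have h2 : (g * a)⁻¹ * a ∈ H ⊓ MulAut.conj (a⁻¹ * b) • H := by
    refine ⟨ha, ?_⟩
    have := Subgroup.smul_mem_pointwise_smul _ (MulAut.conj (a⁻¹ * b)) H hb
    have e : MulAut.conj (a⁻¹ * b) • ((g * b)⁻¹ * b) = (g * a)⁻¹ * a := by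
      rw [MulAut.smul_def, MulAut.conj_apply]; group
    rwa [e] at this
  rw [h1, mem_bot] at h2
  apply hg
  have e : g = a * ((g * a)⁻¹ * a)⁻¹ * a⁻¹ := by group
  rw [e, h2]; group

end Cfsg.Agent.S4253
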