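import Cfsg.Statements.S4258
import Mathlib
import Cfsg.Agent.H1.Bry
import Cfsg.Agent.FT.Main

set_option autoImplicit false
open Cfsg

namespace Cfsg.Agent.S4258

open Cfsg.Agent.H1 Cfsg.Agent.FT

/-- Let G be a finite 2-soluble group whose Sylow 2-subgroups have exponent dividing 2^e. Then the 2-length of G is at most e. -/
theorem result {G : Type*} [Group G] [Finite G] (hG : Cfsg.IsPSolvable 2 G) (e : ℕ)
    (hexp : ∀ (P : Sylow 2 G), ∀ x ∈ (P : Subgroup G), x ^ 2 ^ e = 1) : Cfsg.PLengthLE 2 e G := by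
  obtain ⟨m, hm⟩ := PSol.exists_low Nat.prime_two _ rfl (psol_top Nat.prime_two hG)
  have key : ∀ i j, i + j = m → Sol (low 2 j (⊤ : Subgroup G)) := fun i => by
    induction i with
    | zero => intro j e; rw [← e, zero_add] at hm; rw [hm]; exact ab_bot.sol
    | succ i ih =>
      intro j e
      have h1 := (piGen_nml (ptau 2 j) (low 2 j (⊤ : Subgroup G))).nrm
      have h2 := (piGrp_quo_iff h1).2 (piGen_relIndex _ _)
      refine sol_of_quo h1 (ih (j + 1) (by omega)) ?_
      rcases ptau_cases 2 j with e | e <;> rw [e] at h2 ⊢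
      · exact odd_order_solvable (Nat.not_even_iff_odd.1 fun c => h2 2 Nat.prime_two c.two_dvd rfl)
      · exact PiGrp.sol (p := 2) (by simpa using h2)
  exact (bry e).2 (sol_top.1 (key m 0 rfl)) (pexp_of_syl hexp)

end Cfsg.Agent.S4258
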