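import Mathlib
import Cfsg.Agent.H28.Util
-- Template for statement S4260 (row 4260; see /opt/grader/pristine/manifest.json for weights).
-- Copy to Cfsg/Agent/S4260.lean and replace the sorry. The statement below is byte-identical to the frozen
-- statement Cfsg.CfsgFrozen.S4260 (Cfsg/Statements/S4260.lean; the theorem Cfsg.fg13_hall_subgroup_containing_all_index_powers_is_normal);
-- the grader kernel-checks Cfsg.Agent.S4260.result against that frozen type. Keep the theorem IN THIS FILE
-- (a `result` declared elsewhere and merely imported here is not credited); helpers may live anywhere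
-- under Cfsg/Agent/.
import Cfsg.Statements.S4260
-- import your own Cfsg.Agent.* helpers here

set_option autoImplicit false
open Cfsg

namespace Cfsg.Agent.S4260

/-- Let H be a Hall subgroup of a finite group G (the order of H is coprime to its index) such that x^[G : H] lies in H for every x in G. Then H is normal in G. -/
theorem result {G : Type*} [Group G] [Finite G] (H : Subgroup G) (hHall : (Nat.card H).Coprime H.index)
    (hexp : ∀ x : G, x ^ H.index ∈ H) : H.Normal := by
  open Subgroup Cfsg.Agent.FT Cfsg.Agent.H28 in
  open scoped commutatorElement Pointwise in
  refine ⟨fun h hh g => ?_⟩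
  have h1 : H.index.Coprime (orderOf (g * h * g⁻¹)) := by
    rw [orderOf_conj]
    exact Nat.Coprime.coprime_dvd_right (orderOf_dvd_card' hh) hHall.symm
  obtain ⟨m, hm⟩ := exists_pow_eq_self_of_coprime h1
  rw [← hm]
  exact H.pow_mem (hexp _) m

end Cfsg.Agent.S4260
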