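import Mathlib
import Cfsg.Agent.H28.Util2
-- Template for statement S4261 (row 4261; see /opt/grader/pristine/manifest.json for weights).
-- Copy to Cfsg/Agent/S4261.lean and replace the sorry. The statement below is byte-identical to the frozen
-- statement Cfsg.CfsgFrozen.S4261 (Cfsg/Statements/S4261.lean; the theorem Cfsg.fg13_maximal_subgroup_of_solvable_group_containing_all_index_powers_is_normal);
-- the grader kernel-checks Cfsg.Agent.S4261.result against that frozen type. Keep the theorem IN THIS FILE
-- (a `result` declared elsewhere and merely imported here is not credited); helpers may live anywhere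
-- under Cfsg/Agent/.
import Cfsg.Statements.S4261
-- import your own Cfsg.Agent.* helpers here

set_option autoImplicit false
open Cfsg

namespace Cfsg.Agent.S4261

/-- Let M be a maximal subgroup of a finite solvable group G such that x^[G : M] lies in M for every x in G. Then M is normal in G. -/
theorem result {G : Type*} [Group G] [Finite G] (hG : Group.IsSolvable G) (M : Subgroup G) (hM : IsCoatom M)
    (hexp : ∀ x : G, x ^ M.index ∈ M) : M.Normal := by
  open Subgroup Cfsg.Agent.FT Cfsg.Agent.H28 in
  open scoped commutatorElement Pointwise in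
  obtain ⟨p, hp, hi⟩ := exists_pnat_index_of_isCoatom hG hM
  let R : Subgroup G := closure {x | PiElt {p}ᶜ x}
  have hRM : R ≤ M := (closure_le M).2 fun x hx =>
    PiElt.mem_of_pow_mem hx (piNat_compl_compl.2 hi) (hexp x)
  have hRn : ⊤ ≤ N(R) := norms_closure fun g _ x hx => PiElt.conj hx g
  have hR : R ⊴ ⊤ := ⟨le_top, hRn⟩
  have h1 : PGrp p (⊤ /ₛ R) := by
    refine (piGrp_quo_iff hRn).2 fun q hq hd => ?_
    by_contra hne
    obtain ⟨Q, hQ⟩ := exists_syl q (⊤ : Subgroup G)
    have : Q ≤ R := fun x hx => subset_closure ((hQ.pi.p' hne).piElt hx)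
    exact (hQ.relIndex_of_le this).not_dvd hq rfl hd
  have h2 := (h1.maxIn_nml ((maxIn_top_iff.2 hM).quo hRn hRM))
  have h3 := h2.qpre
  rw [qpre_quo_of_nml hR, qpre_quo_of_nml (hR.mono hRM le_top)] at h3
  exact nml_top_iff.1 h3

end Cfsg.Agent.S4261
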