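import Cfsg.Statements.S4262
import Cfsg.Agent.H23.Inv

set_option autoImplicit false
open Cfsg

namespace Cfsg.Agent.S4262

open Cfsg.Agent.FT in
theorem nil_of_cen {G : Type*} [Group G] [Finite G] {M : Subgroup G} {p : ℕ}
    (h : ∀ q, q.Prime → q ≠ p → ∀ y ∈ M, PiElt {q} y → M ≤ C[y]) : Nil M := by
  have key : ∀ q Q, q.Prime → q ≠ p → Syl q Q M → M ≤ C(Q) := fun q Q hq hne hQ =>
    le_cen_iff_forall.2 fun y hy => h q hq hne y (hQ.le hy) (hQ.pi.piElt hy)
  refine nil_of_forall_syl fun q Q hq hQ => ?_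
  by_cases e : q = p
  · refine le_of_forall_syl fun r hr _ => ?_
    by_cases e' : r = q
    · exact ⟨Q, e' ▸ hQ, le_nrm _⟩
    · obtain ⟨R, hR⟩ := exists_syl r M
      exact ⟨R, hR, cents_norm (centsC (hQ.le.trans (key r R hr (e ▸ e') hR)))⟩
  · exact cents_norm (key q Q hq e hQ)

open Cfsg.Agent.FT in
theorem aux {G : Type*} [Group G] [Finite G] (h : ∀ g : G, C[g] ≠ ⊤ → IsCoatom C[g]) : Group.IsSolvable G := by
  by_cases h1 : ∀ q, q.Prime → q ≠ 2 → ∀ y ∈ (⊤ : Subgroup G), PiElt {q} y → ⊤ ≤ C[y]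
  · exact H23.isSolvable_of_sol_top (nil_of_cen h1).sol
  push Not at h1
  obtain ⟨p, hp, hp2, x, -, hx, hne⟩ := h1
  have hne' : C[x] ≠ ⊤ := fun e => hne e.ge
  have key : ∀ q, q.Prime → q ≠ p → ∀ y ∈ C[x], PiElt {q} y → C[x] ≤ C[y] := fun q hq hqp y hy hy' => by
    obtain ⟨e1, e2⟩ := constt_eq_of_mul hx (PiNat.p' hy' hqp) (mem_cen1.1 hy).symm rfl
    have e := cen1_constt_inf {p} (x * y)
    rw [e1, e2] at e
    have h2 := h (x * y) (ne_top_of_le_ne_top hne' (e ▸ inf_le_left))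
    rw [← ((h2.le_iff.1 (e ▸ inf_le_left : C[x * y] ≤ C[x])).resolve_left hne').symm, ← e]
    exact inf_le_right
  refine H23.sol_of_nil_coatom (h x hne') (nil_of_cen key) (clsLE_two.2 ((der_le _).trans ((pcore_le _ _).trans
    (le_cen_iff_forall.2 fun y hy => key 2 Nat.prime_two hp2.symm y (pcore_le _ _ hy) ((pcore_pi _ _).piElt hy)))))


/-- Let G be a finite group in which the centralizer of every non-central element is a maximal subgroup of G. Then G is solvable. -/
theorem result {G : Type*} [Group G] [Finite G]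
    (h : ∀ g : G, g ∉ Subgroup.center G → IsCoatom (Subgroup.centralizer ({g} : Set G))) :
    Group.IsSolvable G := by
  refine aux fun g hg => h g fun hc => hg (eq_top_iff.2 fun x _ => ?_)
  exact Subgroup.mem_centralizer_singleton_iff.2 (Subgroup.mem_center_iff.1 hc x)

end Cfsg.Agent.S4262
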