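import Cfsg.Statements.S4263
import Mathlib
import Cfsg.Agent.H2.Fitting

set_option autoImplicit false
open Cfsg

namespace Cfsg.Agent.S4263

open Subgroup

theorem pow_index_mem_nil {K : Type*} [Group K] [Finite K] [Group.IsNilpotent K] (x : K) :
    ∀ (n : ℕ) (H : Subgroup K), H.index = n → x ^ H.index ∈ H := by
  intro n
  induction n using Nat.strong_induction_on with
  | _ n ih =>
    intro H hn
    by_cases hH : H = ⊤
    · rw [hH]; exact mem_top _
    have hlt : H < normalizer (H : Set K) :=
      (Group.normalizerCondition_of_isNilpotent (G := K)) H (lt_top_iff_ne_top.2 hH)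
    set N := normalizer (H : Set K) with hN
    have hmul := relIndex_mul_index hlt.le
    have h1 : H.relIndex N ≠ 1 := fun h => hlt.not_ge (relIndex_eq_one.1 h)
    have h0 : H.index ≠ 0 := index_ne_zero_of_finite
    have hN0 : N.index ≠ 0 := index_ne_zero_of_finite
    have hr0 : H.relIndex N ≠ 0 := fun h => h0 (by rw [← hmul, h, zero_mul])
    have hlt' : N.index < n := by
      rw [← hn, ← hmul]
      have : 2 ≤ H.relIndex N := by omega
      nlinarith [Nat.pos_of_ne_zero hN0]
    have hx := ih _ hlt' N rfl
    haveI : (H.subgroupOf N).Normal := normal_in_normalizer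
    have := (H.subgroupOf N).pow_index_mem ⟨_, hx⟩
    rw [mem_subgroupOf] at this
    rw [← hmul, mul_comm, pow_mul]
    exact this

/-- Let G be a finite group. An element x lies in the Fitting subgroup F(G) if and only if, for every subgroup H of G, the power x^[G : H] lies in H. -/
theorem result {G : Type*} [Group G] [Finite G] (x : G) :
    x ∈ Cfsg.fittingSubgroup G ↔ ∀ H : Subgroup G, x ^ H.index ∈ H := by
  haveI := Cfsg.Agent.H2.fittingSubgroup_normal G
  constructor
  · intro hx H
    haveI := Cfsg.Agent.H2.fittingSubgroup_isNilpotent (G := G)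
    have h1 := pow_index_mem_nil (⟨x, hx⟩ : Cfsg.fittingSubgroup G) _
      (H.subgroupOf (Cfsg.fittingSubgroup G)) rfl
    rw [mem_subgroupOf] at h1
    have h2 : H.relIndex (Cfsg.fittingSubgroup G) ∣ H.index := by
      have e1 : H.relIndex (Cfsg.fittingSubgroup G) = H.relIndex (H ⊔ Cfsg.fittingSubgroup G) := by
        have a1 := relIndex_mul_relIndex (H ⊓ Cfsg.fittingSubgroup G) H
          (H ⊔ Cfsg.fittingSubgroup G) inf_le_left le_sup_left
        have a2 := relIndex_mul_relIndex (H ⊓ Cfsg.fittingSubgroup G) (Cfsg.fittingSubgroup G)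
          (H ⊔ Cfsg.fittingSubgroup G) inf_le_right le_sup_right
        rw [relIndex_sup_right, inf_relIndex_right] at a2
        rw [inf_relIndex_left] at a1
        have h0 : (Cfsg.fittingSubgroup G).relIndex H ≠ 0 := index_ne_zero_of_finite
        apply Nat.eq_of_mul_eq_mul_left (Nat.pos_of_ne_zero h0)
        rw [a1, ← a2, mul_comm]
      rw [e1]
      exact relIndex_dvd_index_of_le le_sup_left
    obtain ⟨c, hc⟩ := h2
    rw [hc, pow_mul]
    exact H.pow_mem h1 c
  · intro h
    rw [← QuotientGroup.eq_one_iff, ← orderOf_eq_one_iff]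
    by_contra hne
    obtain ⟨q, hq, hdvd⟩ := Nat.exists_prime_and_dvd hne
    haveI : Fact q.Prime := ⟨hq⟩
    obtain ⟨P⟩ : Nonempty (Sylow q G) := inferInstance
    have hmem : x ^ (P : Subgroup G).index ∈ Cfsg.pCore q G := by
      rw [Cfsg.Agent.H2.pCore_eq_iInf_sylow, mem_iInf]
      intro Q
      have : (P : Subgroup G).index = (Q : Subgroup G).index := by
        have a1 := (P : Subgroup G).card_mul_index
        have a2 := (Q : Subgroup G).card_mul_index
        rw [Sylow.card_eq_multiplicity] at a1 a2
        exact Nat.eq_of_mul_eq_mul_left (pow_pos hq.pos _) (a1.trans a2.symm)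
      rw [this]; exact h Q
    have h1 : ((x : G ⧸ Cfsg.fittingSubgroup G)) ^ (P : Subgroup G).index = 1 := by
      rw [← QuotientGroup.mk_pow, QuotientGroup.eq_one_iff]
      exact Cfsg.Agent.H2.pCore_le_fittingSubgroup q hmem
    exact P.not_dvd_index (hdvd.trans (orderOf_dvd_of_pow_eq_one h1))

end Cfsg.Agent.S4263
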