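import Mathlib
import Cfsg.Agent.H28.Pron
-- Template for statement S4269 (row 4269; see /opt/grader/pristine/manifest.json for weights).
-- Copy to Cfsg/Agent/S4269.lean and replace the sorry. The statement below is byte-identical to the frozen
-- statement Cfsg.CfsgFrozen.S4269 (Cfsg/Statements/S4269.lean; the theorem Cfsg.kfact10_pronormal_supplement_of_abelian_normal_subgroup_iff);
-- the grader kernel-checks Cfsg.Agent.S4269.result against that frozen type. Keep the theorem IN THIS FILE
-- (a `result` declared elsewhere and merely imported here is not credited); helpers may live anywhere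
-- under Cfsg/Agent/.
import Cfsg.Statements.S4269
-- import your own Cfsg.Agent.* helpers here

set_option autoImplicit false
open Cfsg

namespace Cfsg.Agent.S4269

/-- Let G be a finite group, V an abelian normal subgroup and H a subgroup with HV = G. Then H is pronormal in G (H and gHg⁻¹ are conjugate inside the subgroup they generate, for every g) if and only if every H-invariant subgroup U of V satisfies U = N_U(H)·[H, U], that is, U is the join of U ∩ N_G(H) and the commutator subgroup [H, U]. -/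
theorem result {G : Type*} [Group G] [Finite G]
    (V : Subgroup G) [V.Normal] (hV : IsMulCommutative ↥V) (H : Subgroup G) (hHV : H ⊔ V = ⊤) :
    Cfsg.IsPronormal H ↔
      ∀ U : Subgroup G, U ≤ V → (∀ h ∈ H, U.map (MulAut.conj h).toMonoidHom = U) →
        U = (U ⊓ Subgroup.normalizer (H : Set G)) ⊔ ⁅H, U⁆ := by
  open Subgroup Cfsg.Agent.FT Cfsg.Agent.H28 in
  open scoped commutatorElement Pointwise in
  · have hVn : ∀ X : Subgroup G, X ≤ N(V) := fun X => le_top.trans (nml_top_iff.2 ‹_›).nrm
    have hab : Ab V := hV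
    constructor
    · intro h U hU hH
      have hn : H ≤ N(U) := fun x hx => cj_eq_self.1 (hH x hx)
      refine le_antisymm (fun u hu => ?_) (sup_le inf_le_left (comm_le_right hn))
      obtain ⟨x, hx, e⟩ := pron_iff.1 h u
      have h1 : H ⊔ cj u H ≤ ⁅H, U⁆ ⊔ H := by
        refine sup_le le_sup_right fun y hy => ?_
        obtain ⟨k, hk, rfl⟩ := mem_cj'.1 hy
        have : u * k * u⁻¹ = ⁅k, u⁆⁻¹ * k := by simp only [commutatorElement_def]; group
        rw [this]
        exact mul_mem (mem_sup_left (inv_mem (commutator_mem_commutator hk hu))) (mem_sup_right hk)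
      obtain ⟨c, hc, k, hk, rfl⟩ := (mem_sup_norm (norm_comm_left H U)).1 (h1 hx)
      rw [← cj_cj, cj_of_mem hk] at e
      have h2 : c⁻¹ * u ∈ U ⊓ N(H) :=
        ⟨U.mul_mem (U.inv_mem (comm_le_right hn hc)) hu, cj_eq_cj_iff.1 e⟩
      have := mul_mem (mem_sup_right (S := U ⊓ N(H)) hc) (mem_sup_left h2)
      rwa [mul_inv_cancel_left] at this
    · intro h g
      have hg : g ∈ V ⊔ H := by rw [sup_comm, hHV]; trivial
      obtain ⟨v, hv, k, hk, rfl⟩ := (mem_sup_norm (hVn H)).1 hg
      refine PrR.mul_nrm (le_nrm H hk) ?_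
      have hvL : v ∈ N(H ⊔ cj v H) := by
        refine mem_nrm_of_cj_le ?_
        rw [cj_sup]
        refine sup_le le_sup_right fun y hy => ?_
        obtain ⟨z, hz, rfl⟩ := mem_cj'.1 hy
        obtain ⟨k, hk, rfl⟩ := mem_cj'.1 hz
        have h1 : v * k * v⁻¹ * k⁻¹ ∈ V := by
          have := mul_mem hv (conj_mem (hVn H hk) (inv_mem hv))
          simpa only [mul_assoc] using this
        have h2 : v * (v * k * v⁻¹) * v⁻¹ = (v * k * v⁻¹ * k⁻¹) * (v * k * v⁻¹) := by
          rw [← mul_assoc (v * k * v⁻¹ * k⁻¹), ← mul_assoc (v * k * v⁻¹ * k⁻¹), hab.comm h1 hv]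
          group
        rw [h2]
        exact mul_mem (mul_mem (mem_sup_right hz) (mem_sup_left (inv_mem hk))) (mem_sup_right hz)
      have hn : H ≤ N(V ⊓ N(H ⊔ cj v H)) := normsI (hVn H) (norms_norm (norms_of_le le_sup_left))
      have e := h (V ⊓ N(H ⊔ cj v H)) inf_le_left fun x hx => cj_of_mem_nrm (hn hx)
      have h3 : ⁅H, V ⊓ N(H ⊔ cj v H)⁆ ≤ H ⊔ cj v H :=
        (commSS le_sup_left le_rfl).trans (comm_le_left inf_le_right)
      have h4 : v ∈ ⁅H, V ⊓ N(H ⊔ cj v H)⁆ ⊔ (V ⊓ N(H ⊔ cj v H) ⊓ N(H)) := by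
        rw [sup_comm, ← e]; exact ⟨hv, hvL⟩
      obtain ⟨c, hc, n, hn, e2⟩ :=
        (mem_sup_norm (inf_le_left.trans (norm_comm_right _ _))).1 h4
      refine ⟨c, h3 hc, ?_⟩
      rw [cj_eq_cj_iff, e2, inv_mul_cancel_left]
      exact hn.2

end Cfsg.Agent.S4269
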