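import Mathlib
import Cfsg.Agent.H28.Pron
-- Template for statement S4271 (row 4271; see /opt/grader/pristine/manifest.json for weights).
-- Copy to Cfsg/Agent/S4271.lean and replace the sorry. The statement below is byte-identical to the frozen
-- statement Cfsg.CfsgFrozen.S4271 (Cfsg/Statements/S4271.lean; the theorem Cfsg.kfact10_pronormal_sylow_overgroups_extension_criterion_self_normalizing_quotient);
-- the grader kernel-checks Cfsg.Agent.S4271.result against that frozen type. Keep the theorem IN THIS FILE
-- (a `result` declared elsewhere and merely imported here is not credited); helpers may live anywhere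
-- under Cfsg/Agent/.
import Cfsg.Statements.S4271
-- import your own Cfsg.Agent.* helpers here

set_option autoImplicit false
open Cfsg

namespace Cfsg.Agent.S4271

/-- Let p be a prime and G a finite group with a normal subgroup A such that every subgroup of A containing a Sylow p-subgroup of A is pronormal in A, and the Sylow p-subgroups of G/A are self-normalizing. Let T be a Sylow p-subgroup of A. Then every subgroup of G containing a Sylow p-subgroup of G is pronormal in G if and only if every subgroup of N_G(T)/T containing a Sylow p-subgroup of N_G(T)/T is pronormal in N_G(T)/T. (Pronormal: H and gHg⁻¹ are conjugate inside the subgroup they generate, for every g.) -/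
theorem result {G : Type*} [Group G] [Finite G] {p : ℕ} [Fact p.Prime]
    (A : Subgroup G) [A.Normal] (hA : (∀ K : Subgroup ↥A, (∃ P : Sylow p ↥A, (P : Subgroup ↥A) ≤ K) → Cfsg.IsPronormal K))
    (hQ : ∀ P : Sylow p (G ⧸ A), Subgroup.normalizer ((P : Subgroup (G ⧸ A)) : Set (G ⧸ A)) = P)
    (T : Subgroup G) (hT : ∃ P : Sylow p ↥A, (P : Subgroup ↥A).map A.subtype = T) [(T.subgroupOf (Subgroup.normalizer (T : Set G))).Normal] :
    (∀ K : Subgroup G, (∃ P : Sylow p G, (P : Subgroup G) ≤ K) → Cfsg.IsPronormal K) ↔ (∀ K : Subgroup (↥(Subgroup.normalizer (T : Set G)) ⧸ T.subgroupOf (Subgroup.normalizer (T : Set G))), (∃ P : Sylow p (↥(Subgroup.normalizer (T : Set G)) ⧸ T.subgroupOf (Subgroup.normalizer (T : Set G))), (P : Subgroup (↥(Subgroup.normalizer (T : Set G)) ⧸ T.subgroupOf (Subgroup.normalizer (T : Set G)))) ≤ K) → Cfsg.IsPronormal K) := by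
  open Subgroup Cfsg.Agent.FT Cfsg.Agent.H28 in
  open scoped commutatorElement Pointwise in
  · obtain ⟨P, rfl⟩ := hT
    have hT := syl_map_subtype (Fact.out : p.Prime) P
    have h1 := pp_quot_sub hT.pi (le_nrm _)
    have h2 := pp_main A hA (fun K hK g => ⟨g, mem_of_selfnorm hQ hK g, rfl⟩) hT
    rw [← h1] at h2
    refine h2.trans (and_iff_left ?_)
    rintro K ⟨Q, hK⟩
    refine le_antisymm (map_norms _ le_rfl) fun u hu => ?_
    have := mem_of_selfnorm hQ (K := K.map (QuotientGroup.mk' A)) (ov_iff.2 fun hd =>
      ov_iff.1 ⟨Q, hK⟩ (hd.trans (index_map_dvd _ (QuotientGroup.mk'_surjective A)))) u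
    rw [cj_of_mem_nrm hu, sup_idem] at this
    exact map_mono (le_nrm K) this

end Cfsg.Agent.S4271
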