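import Cfsg.Statements.S4284
import Mathlib
import Cfsg.Agent.H8.Ito4

set_option autoImplicit false
open Cfsg

namespace Cfsg.Agent.S4284

/-- Let G be a finite group with no nontrivial abelian direct factor whose conjugacy class sizes are exactly 1, m and m·n with m, n > 1 coprime. Then m is a prime p dividing n − 1; the elements whose class has size 1 or p form an abelian normal subgroup of index p; G has a normal p-complement; and the commutator subgroup of a Sylow p-subgroup of G has order p. -/
theorem result {G : Type*} [Group G] [Finite G] (hnodf : ∀ A B : Subgroup G, A.Normal → B.Normal → A ⊓ B = ⊥ → A ⊔ B = ⊤ → IsMulCommutative A → A = ⊥) (m n : ℕ) (hm : 1 < m) (hn : 1 < n) (hcop : m.Coprime n) (h : Set.range (fun x : G => (Subgroup.centralizer ({x} : Set G)).index) = ({1, m, m * n} : Set ℕ)) : m.Prime ∧ m ∣ n - 1 ∧ (∃ M : Subgroup G, M.Normal ∧ (M : Set G) = {x : G | (Subgroup.centralizer ({x} : Set G)).index = 1 ∨ (Subgroup.centralizer ({x} : Set G)).index = m} ∧ M.index = m ∧ IsMulCommutative M)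 ∧ (∃ N : Subgroup G, N.Normal ∧ (Nat.card N).Coprime m ∧ ∃ a : ℕ, N.index = m ^ a) ∧ ∀ P : Sylow m G, Nat.card (commutator (P : Subgroup G)) = m := by
  obtain ⟨x, hx⟩ : m ∈ Set.range (fun x : G => (Subgroup.centralizer ({x} : Set G)).index) := by rw [h]; simp
  obtain ⟨y, hy⟩ : m * n ∈ Set.range (fun x : G => (Subgroup.centralizer ({x} : Set G)).index) := by rw [h]; simp
  obtain ⟨h1, h2, ⟨h3, h4, h5⟩, h6, h7⟩ := H8.Ito.fg_struct (k := n) (fun z hz => by
    have := h.le ⟨z, rfl⟩
    simp only [Set.mem_insert_iff, Set.mem_singleton_iff] at this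
    exact (this.resolve_left (mt H28.cs_eq_one.1 hz)).imp id fun e => e.trans (mul_comm _ _)) hm hn hcop hx
    (hy.trans (mul_comm _ _))
  refine ⟨h1, h2, ⟨_, h3, h4, hx, h5⟩, h6, fun P => ?_⟩
  have := h7 P (FT.syl_top h1 P)
  rwa [FT.der_eq_map, Subgroup.card_map_of_injective (Subgroup.subtype_injective _)] at this

end Cfsg.Agent.S4284
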