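import Cfsg.Statements.S4302
import Cfsg.Agent.H22.Hol
import Cfsg.Agent.H10.SmallIso
-- import your own Cfsg.Agent.* helpers here

set_option autoImplicit false
open Cfsg

namespace Cfsg.Agent.S4302


open Subgroup Cfsg.Agent.FT Cfsg.Agent.P22
open Cfsg.Agent.H5b (MaxAb Jn)
open scoped commutatorElement

section
variable {G : Type*} [Group G] [Finite G] {V H F L W S : Subgroup G}

theorem gen (h : FFS 2 V H F) (n : ℕ) : ∀ A : Subgroup G, #A = n → A ≤ H → PGrp 2 A → Ab A → Best V A →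
    (∀ B, B ≤ A → Trv 2 V B → B ≤ L) → A ≤ L := by
  induction n using Nat.strong_induction_on with
  | _ n ih =>
  intro A hn hA pA hab hb hL
  by_cases h1 : A = ⊥
  · exact h1 ▸ bot_le
  have nA : A ≤ N(V) := hA.trans h.hn
  have hVA : ⁅V, A⁆ ≤ V := comm_le_left nA
  obtain ⟨e, m⟩ := hb.repl h.hV.ab nA ((ab_iff_der.1 hab).le.trans bot_le) le_rfl
  set B := A ⊓ C(⁅V, A⁆) with hB
  have hB1 : B ≠ ⊥ := fun h2 => by
    have h3 : V = ⁅V, A⁆ ⊔ V ⊓ C(A) := by rw [← e, h2, cen_bot, inf_top_eq]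
    have h4 : ⁅V, A⁆ ≤ ⁅⁅V, A⁆, A⁆ := by
      conv_lhs => rw [h3]
      rw [comm_sup_ab h.hV.ab nA hVA inf_le_left, comm_eq_bot.2 inf_le_right, sup_bot_eq]
    exact (pA.comm_lt (h.pV.mono hVA) (norm_comm_right V A) (h.comm_ne hA h1)).not_ge h4
  have bB : BO 2 V B := by
    refine ⟨hb.of_le inf_le_left m.ge, (ab_iff_der.1 (hab.mono inf_le_left)).le.trans bot_le, fun a ha v hv => ?_⟩
    have h2 : ⁅v⁻¹, a⁆ ∈ ⁅V, A⁆ := comm_mem (inv_mem hv) ha.1
    have h3 := ha.2 _ h2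
    have h4 := h.hV.pow (hVA h2)
    have h5 : a * v * a⁻¹ = v * ⁅v⁻¹, a⁆ := by simp only [commutatorElement_def]; group
    calc v * a ^ 2 = v * ⁅v⁻¹, a⁆ ^ 2 * a ^ 2 := by rw [h4, mul_one]
      _ = (v * ⁅v⁻¹, a⁆) * (⁅v⁻¹, a⁆ * a) * a := by simp only [pow_two, mul_assoc]
      _ = a * (v * ⁅v⁻¹, a⁆) * a⁻¹ * a * a := by rw [h3, ← h5]; group
      _ = a ^ 2 * v := by rw [← h5, pow_two]; group
  obtain ⟨T, hT, tT⟩ : ∃ T, T ≤ B ∧ Trv 2 V T := by
    by_contra h2
    exact hB1 (eq_bot_iff.2 (h.le_of_trv (inf_le_left.trans hA) bB fun T h3 h4 => (h2 ⟨T, h3, h4⟩).elim))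
  have hTA : T ≤ A := hT.trans inf_le_left
  have hQ : #⁅F, T⁆ = 3 := ((h.card_Q (hTA.trans hA) tT).resolve_right (by simp)).2
  have nQ : A ≤ N(⁅F, T⁆) := normsR (hA.trans h.nF.nrm) (hab.norms hTA)
  have hTQ : ¬ T ≤ C(⁅F, T⁆) := fun h2 => by
    have := coprime_commGid ((hTA.trans hA).trans h.nF.nrm) (h.pF.cop' (pA.mono hTA))
    rw [comm_eq_bot'.2 h2] at this
    rw [← this] at hQ
    simp at hQ
  have hi : (A ⊓ C(⁅F, T⁆)).relIndex A = 2 := by
    rw [inf_relIndex_left]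
    refine ((Nat.dvd_prime Nat.prime_two).1 (relIndex_cen_dvd_pred Nat.prime_three hQ nQ)).resolve_left fun h2 => ?_
    exact hTQ (hTA.trans (relIndex_eq_one.1 h2))
  have hlt := h.lt_of_relIndex inf_le_left hi
  have h2 := h.hyper_ms hA pA hab inf_le_left hi fun h2 => hTQ (hTA.trans (centsC
    ((le_inf (h.comm_le_F (hTA.trans hA)) (centsC inf_le_right)).trans h2)))
  have h3 := ih _ (hn ▸ card_lt hlt) _ rfl (inf_le_left.trans hA) (pA.mono inf_le_left) (hab.mono inf_le_left)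
    (hb.of_le inf_le_left h2) fun D h3 => hL D (h3.trans inf_le_left)
  rcases eq_or_eq_of_prime_relIndex (hi ▸ Nat.prime_two) (le_sup_left : _ ≤ A ⊓ C(⁅F, T⁆) ⊔ T)
    (sup_le inf_le_left hTA) with h4 | h4
  · exact (hTQ ((le_sup_right.trans h4.le).trans inf_le_right)).elim
  · exact h4 ▸ sup_le h3 (hL T hTA tT)

theorem prod (h : FFS 2 V H F) (hg : TGen 2 V H) (h1 : H ≠ ⊥) :
    ∃ n, 1 ≤ n ∧ Nonempty (H ≃* (Fin n → Equiv.Perm (Fin 3))) := by
  classical
  let ι := {E : Subgroup G // ∃ A, A ≤ H ∧ Trv 2 V A ∧ E = ⁅F, A⁆ ⊔ A}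
  letI := Fintype.ofFinite ι
  obtain ⟨A₀, hA₀, t₀⟩ := FFS.exists_trv hg h1
  haveI : Nonempty ι := ⟨⟨_, A₀, hA₀, t₀, rfl⟩⟩
  have hc : Pairwise fun i j : ι => ∀ x y : G, x ∈ i.1 → y ∈ j.1 → Commute x y := by
    rintro ⟨_, A, hA, t, rfl⟩ ⟨_, B, hB, s, rfl⟩ hne x y hx hy
    have := h.E_comm hA t (h.E_le hB) (centsC (h.pair hA t hB s fun e => hne (Subtype.ext e.symm)).2)
    exact comm_eq_bot'.1 this hy x hx
  have hi : iSupIndep fun i : ι => i.1 := by
    rintro ⟨_, A, hA, t, rfl⟩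
    refine disjoint_iff.2 (inf_eq_bot_mono (h.E_faithful hA t) le_rfl (iSup₂_le ?_))
    rintro ⟨_, B, hB, s, rfl⟩ hne
    exact centsC (h.pair hA t hB s fun e => hne (Subtype.ext e)).2
  have hr : (noncommPiCoprod hc).range = H := by
    rw [noncommPiCoprod_range]
    refine le_antisymm (iSup_le ?_) (hg _ fun A hA t => le_iSup_of_le ⟨_, A, hA, t, rfl⟩ le_sup_right)
    rintro ⟨_, A, hA, -, rfl⟩
    exact h.E_le hA
  have he : ∀ i : ι, Nonempty (i.1 ≃* Equiv.Perm (Fin 3)) := by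
    rintro ⟨_, A, hA, t, rfl⟩
    exact ⟨(h.E_iso hA t).some.trans (H10.SL2_two_equiv (by simp)).some⟩
  exact ⟨Fintype.card ι, Fintype.card_pos, ⟨(((MulEquiv.subgroupCongr hr).symm.trans
    (MonoidHom.ofInjective (injective_noncommPiCoprod_of_iSupIndep hi)).symm).trans
    (MulEquiv.piCongrRight fun i => (he i).some)).trans
    (MulEquiv.arrowCongr (Fintype.equivFin ι) (MulEquiv.refl _))⟩⟩

theorem best {A : Subgroup G} (h : MaxAb 0 S A) (hV : Ab V) (hVS : V ≤ S) (hW : W ≤ V) (hn : A ≤ N(W)) :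
    Best (til W W) (bar W A) := by
  have hab : Ab A := H5b.elemAb_zero.1 h.ab
  intro B' hB'
  obtain ⟨B, hB, hAB, rfl⟩ := exists_bar hB'
  have h1 := h.max (B ⊔ V ⊓ C(B)) (sup_le (hB.trans h.le) (inf_le_left.trans hVS))
    (H5b.elemAb_zero.2 ((hab.mono hB).sup (hV.mono inf_le_left) inf_le_right))
  have h2 : ms V B ≤ ms V A := by
    rw [ms, ← card_sup_mul_card_inf (cents_norm (inf_le_right : V ⊓ C(B) ≤ C(B)))]
    exact Nat.mul_le_mul h1 (card_le (le_inf (inf_le_right.trans inf_le_left)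
      (inf_le_left.trans (hB.trans hab.le_cen))))
  have e : ∀ U : Subgroup G, #(U ⊓ C(B)) = #(U ⊓ C(A)) * C(A).relIndex (U ⊓ C(B)) := fun U => by
    rw [← card_inf_mul_relIndex C(A), inf_left_comm, inf_eq_left.2 (cen_anti hB)]
  have h3 : ms W B ≤ ms W A := by
    rw [ms, ms, e, mul_left_comm, mul_comm #A] at h2 ⊢
    refine Nat.mul_le_mul_left _ (le_trans (Nat.mul_le_mul_left _ ?_) (Nat.le_of_mul_le_mul_left h2 (card_pos _)))
    exact relIndex_le_of_le_right (inf_le_inf_right _ hW) index_ne_zero_of_finite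
  rw [← ms_bar hn, ← ms_bar (hB.trans hn),
    show B ⊓ C(W) = A ⊓ C(W) from le_antisymm (inf_le_inf_right _ hB) (le_inf hAB inf_le_right)] at h3
  exact Nat.le_of_mul_le_mul_left h3 (card_pos _)

end

/-- Let `X` be a finite solvable group whose Fitting subgroup is a 2-group (equivalently `F(X) = O₂(X)`), `T` a Sylow 2-subgroup of `X`, `J(T)` the subgroup generated by the abelian subgroups of `T` of largest order, `C` the largest normal subgroup of `X` centralizing the centre `Z(T)`, and `Y` the normal closure of `J(T)` in `X`. Then `X = C · Y · N_X(J(T))`, and either `Y ≤ C`, or `CY/C` is isomorphic to a direct product of at least one copy of the symmetric group of degree 3. -/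
theorem result {X : Type*} [Group X] [Finite X]
    [Group.IsSolvable X] (hF : Cfsg.fittingSubgroup X = Cfsg.pCore 2 X) (T : Sylow 2 X) :
    ((Subgroup.centralizer (((T : Subgroup X) ⊓ Subgroup.centralizer ((T : Subgroup X) : Set X) : Subgroup X) : Set X)).normalCore
        ⊔ Subgroup.normalClosure (Cfsg.thompsonSubgroupAOf (T : Subgroup X) : Set X)
        ⊔ Subgroup.normalizer (Cfsg.thompsonSubgroupAOf (T : Subgroup X) : Set X) = ⊤) ∧
    (Subgroup.normalClosure (Cfsg.thompsonSubgroupAOf (T : Subgroup X) : Set X)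
        ≤ (Subgroup.centralizer (((T : Subgroup X) ⊓ Subgroup.centralizer ((T : Subgroup X) : Set X) : Subgroup X) : Set X)).normalCore
      ∨ ∃ n : ℕ, 1 ≤ n ∧
        Nonempty (↥(Subgroup.normalClosure (Cfsg.thompsonSubgroupAOf (T : Subgroup X) : Set X)) ⧸
            ((Subgroup.centralizer (((T : Subgroup X) ⊓ Subgroup.centralizer ((T : Subgroup X) : Set X) : Subgroup X) : Set X)).normalCore).subgroupOf
              (Subgroup.normalClosure (Cfsg.thompsonSubgroupAOf (T : Subgroup X) : Set X))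
          ≃* (Fin n → Equiv.Perm (Fin 3)))) := by
  rw [H5b.thompsonAOf_eq_Jn]
  have hT : Syl 2 (T : Subgroup X) ⊤ := syl_top Nat.prime_two T
  set Y := normalClosure (Jn 0 (T : Subgroup X) : Set X) with hY
  have nY : Y ⊴ ⊤ := nml_top_iff.2 inferInstance
  have hJY : Jn 0 (T : Subgroup X) ≤ Y := le_normalClosure
  set V := normalClosure ((Z((T : Subgroup X)) : Subgroup X) : Set X) with hV
  have nV : V ⊴ ⊤ := nml_top_iff.2 inferInstance
  have hZV : Z((T : Subgroup X)) ≤ V := le_normalClosure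
  have hC : (C(Z((T : Subgroup X)))).normalCore = C(V) := by
    refine le_antisymm (centsC ?_) ?_
    · haveI : C((C(Z((T : Subgroup X)))).normalCore).Normal :=
        nml_top_iff.1 ⟨le_top, norms_cent (nml_top_iff.2 inferInstance).nrm⟩
      exact normalClosure_le_normal (centsC (normalCore_le _))
    · haveI : C(V).Normal := nml_top_iff.1 ⟨le_top, norms_cent nV.nrm⟩
      exact normal_le_normalCore.2 (cen_anti hZV)
  set K := (C(Z((T : Subgroup X)))).normalCore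
  refine ⟨?_, ?_⟩
  · have h1 := (hT.inf_nml nY).frattini nY
    rw [eq_top_iff, ← h1.sup]
    refine sup_le (le_sup_of_le_left le_sup_right) (le_sup_of_le_right (inf_le_right.trans ?_))
    rw [← H5b.Jn_eq_of_le (inf_le_left : (T : Subgroup X) ⊓ Y ≤ T) (le_inf (H5b.Jn_le _ _) hJY)]
    exact norms_Jn le_rfl
  by_cases hYC : Y ≤ C(V)
  · exact Or.inl (hYC.trans hC.ge)
  right
  have hs : Sol (⊤ : Subgroup X) := inferInstanceAs (Group.IsSolvable (⊤ : Subgroup X))
  have hO : ⊤ ⊓ C(O[{2}]((⊤ : Subgroup X))) ≤ O[{2}]((⊤ : Subgroup X)) := by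
    have := cent_sub_Fitting hs
    rwa [fitting_top, hF, ← piCore_singleton Nat.prime_two, ← pcore_top] at this
  have hVO : V ≤ Z(O[{2}]((⊤ : Subgroup X))) := by
    haveI := nml_top_iff.1 (pcore_nml {2} (⊤ : Subgroup X)).center
    have h1 : Z((T : Subgroup X)) ≤ C(O[{2}]((⊤ : Subgroup X))) := inf_le_right.trans (cen_anti (pcore_le_syl hT))
    exact normalClosure_le_normal (le_inf ((le_inf le_top h1).trans hO) h1)
  have aV : Ab V := (ab_center _).mono hVO
  have pV : PGrp 2 V := (pcore_pi _ _).mono (hVO.trans inf_le_left)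
  set W := Ω[2](V) with hW
  have nW : W ⊴ ⊤ := (Ohm_char 2 V).nml_trans nV
  have key : ∀ D : Subgroup X, D ⊴ ⊤ → (∀ q Q, q.Prime → q ≠ 2 → Syl q Q D → Q ≤ C(W)) → D ≤ C(V) := by
    intro D nD hD
    have h1 : D ≤ C(V) ⊔ T ⊓ D := by
      refine le_of_forall_syl fun q hq _ => ?_
      by_cases h2 : q = 2
      · exact ⟨_, h2 ▸ hT.inf_nml nD, le_sup_right⟩
      · obtain ⟨Q, hQ⟩ := exists_syl q D
        exact ⟨Q, hQ, le_sup_of_le_left (coprime_abelian_faithful_Ohm1 (le_top.trans nV.nrm)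
          (pV.cop_of_ne hQ.pi (Ne.symm h2)) aV pV (hD q Q hq h2 hQ))⟩
    have h2 := (hT.inf_nml nD).frattini nD
    refine h1.trans (sup_le le_rfl (centsC ?_))
    haveI : (V ⊓ C((T ⊓ D : Subgroup X))).Normal := by
      refine nml_top_iff.1 ⟨le_top, h2.sup ▸ sup_le (h1.trans (sup_le ?_ ?_)) ?_⟩
      · exact cents_norm (cen_anti inf_le_left)
      · exact cents_norm (centsC inf_le_right)
      · exact normsI (le_top.trans nV.nrm) (norms_cent inf_le_right)
    exact (normalClosure_le_normal (N := V ⊓ C((T ⊓ D : Subgroup X)))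
      (le_inf hZV (inf_le_right.trans (cen_anti inf_le_left)))).trans inf_le_right
  have hCW : C(W) = C(V) :=
    le_antisymm (key _ ⟨le_top, norms_cent nW.nrm⟩ fun q Q _ _ hQ => hQ.le) (cen_anti (Ohm_le _ _))
  have hO2 : O[{2}](bar W ⊤) = ⊥ := by
    have h1 := key _ ((pcore_nml {2} (bar W ⊤)).ppre_of_pmap nW.nrm le_top) fun q Q hq h2 hQ => by
      rw [← bar_eq_bot (le_top.trans nW.nrm)]
      simpa using (((pcore_pi _ _).mono ((pmap_mono _ hQ.le).trans (pmap_ppre_le _ _))).cop_of_ne (hQ.pi.pmap (act W))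
        (Ne.symm h2)).inf
    rw [← pmap_ppre_of_le (pcore_le {2} (bar W ⊤))]
    exact pmap_eq_bot_of_le (by rw [pker_act, hCW]; exact h1)
  have nYW : Y ≤ N(W) := le_top.trans nW.nrm
  have h := ffs_bar Nat.prime_two (aV.abelem_Ohm 2) nYW (H1.isPSolvable_of_isSolvable Nat.prime_two inferInstance)
    (eq_bot_iff.2 (hO2 ▸ pcore_max (pcore_pi _ _) ((pcore_char _ _).nml_trans (nY.pmap _))))
  have hg : TGen 2 (til W W) (bar W Y) := by
    intro L hL
    rw [pmap_le_iff nYW, hY, normalClosure, closure_le]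
    intro x hx
    obtain ⟨y, hy, hc⟩ := Group.mem_conjugatesOfSet_iff.1 hx
    obtain ⟨g, rfl⟩ := isConj_iff.1 hc
    have h1 : Jn 0 (cj g (T : Subgroup X)) ≤ Y := by
      rw [← cj_Jn, ← cj_eq_self.2 (nY.nrm (mem_top g))]
      exact cj_mono g hJY
    have hS := hT.cj_mem (mem_top g)
    have h2 : Jn 0 (cj g (T : Subgroup X)) ≤ ppre (act W) L := by
      refine H5b.Jn_le_iff.2 fun A hA => (pmap_le_iff (le_top.trans nW.nrm)).1 ?_
      have h3 := pmap_mono (act W) (hA.le_Jn.trans h1)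
      exact gen h _ _ rfl h3 ((hS.pi.mono hA.le).pmap _) (Ab.pmap (H5b.elemAb_zero.1 hA.ab) _)
        (best hA aV (hS.le_of_normed pV le_top (le_top.trans nV.nrm)) (Ohm_le _ _) (le_top.trans nW.nrm)) fun B hB => hL B (hB.trans h3)
    rw [← cj_Jn] at h2
    exact h2 (conj_mem_cj.2 hy)
  obtain ⟨n, hn, ⟨e⟩⟩ := prod h hg fun e => hYC (hCW ▸ (bar_eq_bot nYW).1 e)
  obtain ⟨_, ⟨e'⟩⟩ := quot_equiv_pmap (K := K) (act W) nYW (by rw [pker_act, hCW, hC])
  exact ⟨n, hn, ⟨e'.trans e⟩⟩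

end Cfsg.Agent.S4302
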