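import Cfsg.Statements.S4304
import Mathlib
import Cfsg.Agent.H28.SylNum

set_option autoImplicit false
open Cfsg

namespace Cfsg.Agent.S4304

open Subgroup MulAction Cfsg.Agent.H28

/-- No finite group has exactly 15 Sylow 7-subgroups. -/
theorem result {G : Type*} [Group G] [Finite G] : Nat.card (Sylow 7 G) ≠ 15 := by
  haveI : Fact (Nat.Prime 7) := ⟨by norm_num⟩
  haveI : Fact (Nat.Prime 5) := ⟨by norm_num⟩
  refine card_sylow_ne_of_reduced 7 15 ?_ G
  intro G _ _ hF hO hn
  have h2 := no_index_two_of_reduced (by norm_num) hO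
  obtain ⟨P⟩ : Nonempty (Sylow 7 G) := inferInstance
  have hP := card_sylow_eq_of_le_sq hF (by rw [hn]; norm_num) (by rw [hn]; norm_num) P
  have h49 : ¬ 7 ^ 2 ∣ Nat.card G := fun h => by
    have := P.pow_dvd_card_of_pow_dvd_card h
    rw [show Nat.card P = 7 from hP] at this
    norm_num at this
  have hC : Nat.card (centralizer ((P : Subgroup G) : Set G)) = 7 := by
    apply card_eq_of_forall_prime (by norm_num) (le_centralizer_of_prime_card (by norm_num) hP)
      hP h49
    intro g hg hr
    have a1 := fx_modEq_one_of_centralizer hP hg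
    have a2 := card_modEq_fx (Y := Sylow 7 G) hr (pow_orderOf_eq_one g)
    have hg1 : g ≠ 1 := fun e => by rw [e, orderOf_one] at hr; exact Nat.not_prime_one hr
    have a3 : fx (Sylow 7 G) g < 15 := hn ▸ fx_lt (by
      by_contra hc
      push Not at hc
      exact hg1 (hF g hc))
    rw [hn] at a2
    have a4 := (Nat.modEq_iff_dvd' a3.le).1 a2.symm
    have : fx (Sylow 7 G) g = 1 ∨ fx (Sylow 7 G) g = 8 := by
      unfold Nat.ModEq at a1; omega
    rcases this with e | e
    · rw [e, show 15 - 1 = 2 * 7 from rfl] at a4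
      rcases (Nat.Prime.dvd_mul hr).1 a4 with h | h
      · have h' := (Nat.prime_dvd_prime_iff_eq hr Nat.prime_two).1 h
        have := four_dvd_card_sub_fx (Y := Sylow 7 G) h2 (t := g) (h' ▸ pow_orderOf_eq_one g)
        rw [hn, e] at this
        norm_num at this
      · exact (Nat.prime_dvd_prime_iff_eq hr (by norm_num)).1 h
    · rw [e] at a4
      exact (Nat.prime_dvd_prime_iff_eq hr (by norm_num)).1 a4
  have he := relIndex_centralizer_dvd (by norm_num : Nat.Prime 7) hP
  have hN := Cfsg.Agent.H4.card_mul_relIndex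
    (Cfsg.Agent.H4.centralizer_le_normalizer' (P : Subgroup G))
  have hG := card_eq_card_sylow_mul P
  rw [hn, ← hN, hC] at hG
  generalize (centralizer ((P : Subgroup G) : Set G)).relIndex
    (normalizer ((P : Subgroup G) : Set G)) = e at he hG
  have he' : e ≤ 6 := Nat.le_of_dvd (by norm_num) he
  have hodd : ¬ 2 ∣ Nat.card G := by
    intro h
    obtain ⟨t, ht⟩ := exists_prime_orderOf_dvd_card' 2 h
    have h4 := two_mul_dvd_card_of_free (Y := G) h2 (h := t) (by rw [ht]; exact even_two)
      (fun i a h => by simpa using h)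
    rw [ht, hG] at h4
    interval_cases e <;> simp_all
  obtain ⟨X⟩ : Nonempty (Sylow 5 G) := inferInstance
  have hX := card_sylow_of_dvd_of_not_sq_dvd (by rw [hG]; omega) (by
    rw [hG]; interval_cases e <;> simp_all) X
  apply not_normalizer_le_of_reduced (by norm_num) hO X hX
  intro y hy
  apply mem_centralizer_of_coprime (by norm_num) hX hy
  apply Nat.Coprime.coprime_dvd_left (orderOf_dvd_natCard y)
  exact Nat.Coprime.pow_right 2 ((Nat.Prime.coprime_iff_not_dvd Nat.prime_two).2 hodd).symm

end Cfsg.Agent.S4304
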