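import Mathlib
import Cfsg.Agent.H28.Util2
-- Template for statement S4331 (row 4331; see /opt/grader/pristine/manifest.json for weights).
-- Copy to Cfsg/Agent/S4331.lean and replace the sorry. The statement below is byte-identical to the frozen
-- statement Cfsg.CfsgFrozen.S4331 (Cfsg/Statements/S4331.lean; the theorem Cfsg.fg11_involution_subnormal_with_class_representatives_outside_two_core_exists);
-- the grader kernel-checks Cfsg.Agent.S4331.result against that frozen type. Keep the theorem IN THIS FILE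
-- (a `result` declared elsewhere and merely imported here is not credited); helpers may live anywhere
-- under Cfsg/Agent/.
import Cfsg.Statements.S4331
-- import your own Cfsg.Agent.* helpers here

set_option autoImplicit false
open Cfsg

namespace Cfsg.Agent.S4331

section
open Subgroup Cfsg.Agent.FT Cfsg.Agent.H28
open scoped commutatorElement Pointwise
set_option linter.style.haveILetI false

/-- the affine semilinear group of the field with nine elements -/
def E : Type := {p : (ZMod 3 × ZMod 3) × (ZMod 3 × ZMod 3) × ZMod 3 //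
  p.2.1.1 * p.2.1.1 + p.2.1.2 * p.2.1.2 ≠ 0 ∧ p.2.2 * p.2.2 = 1}

instance : DecidableEq E := inferInstanceAs (DecidableEq (Subtype _))
instance : Fintype E := inferInstanceAs (Fintype (Subtype _))

/-- twisted product -/
def tw (m : ZMod 3 × ZMod 3) (s : ZMod 3) (t : ZMod 3 × ZMod 3) : ZMod 3 × ZMod 3 :=
  (m.1 * t.1 - m.2 * s * t.2, m.2 * t.1 + m.1 * s * t.2)

/-- twisted inverse -/
def iv (m : ZMod 3 × ZMod 3) (s : ZMod 3) : ZMod 3 × ZMod 3 :=
  (m.1 * (m.1 * m.1 + m.2 * m.2), -(s * m.2 * (m.1 * m.1 + m.2 * m.2)))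

theorem tw_ne : ∀ (m : ZMod 3 × ZMod 3) (s : ZMod 3) (t : ZMod 3 × ZMod 3),
    m.1 * m.1 + m.2 * m.2 ≠ 0 → s * s = 1 → t.1 * t.1 + t.2 * t.2 ≠ 0 →
    (tw m s t).1 * (tw m s t).1 + (tw m s t).2 * (tw m s t).2 ≠ 0 := by decide +kernel

theorem iv_ne : ∀ (m : ZMod 3 × ZMod 3) (s : ZMod 3), m.1 * m.1 + m.2 * m.2 ≠ 0 → s * s = 1 →
    (iv m s).1 * (iv m s).1 + (iv m s).2 * (iv m s).2 ≠ 0 := by decide +kernel

theorem sq1 : ∀ s t : ZMod 3, s * s = 1 → t * t = 1 → (s * t) * (s * t) = 1 := by decide +kernel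

instance : Mul E := ⟨fun p q => ⟨(p.1.1 + tw p.1.2.1 p.1.2.2 q.1.1, tw p.1.2.1 p.1.2.2 q.1.2.1,
  p.1.2.2 * q.1.2.2), tw_ne _ _ _ p.2.1 p.2.2 q.2.1, sq1 _ _ p.2.2 q.2.2⟩⟩

instance : One E := ⟨⟨((0, 0), (1, 0), 1), by decide⟩⟩

instance : Inv E := ⟨fun p => ⟨(-tw (iv p.1.2.1 p.1.2.2) p.1.2.2 p.1.1, iv p.1.2.1 p.1.2.2, p.1.2.2),
  iv_ne _ _ p.2.1 p.2.2, p.2.2⟩⟩

theorem mul_val (p q : E) : (p * q).1 = (p.1.1 + tw p.1.2.1 p.1.2.2 q.1.1,
  tw p.1.2.1 p.1.2.2 q.1.2.1, p.1.2.2 * q.1.2.2) := rfl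

theorem tw_add (m : ZMod 3 × ZMod 3) (s : ZMod 3) (t u : ZMod 3 × ZMod 3) :
    tw m s (t + u) = tw m s t + tw m s u := by
  ext <;> simp only [tw, Prod.fst_add, Prod.snd_add] <;> ring

theorem tw_tw (m n : ZMod 3 × ZMod 3) {s : ZMod 3} (h : s * s = 1) (r : ZMod 3)
    (u : ZMod 3 × ZMod 3) : tw (tw m s n) (s * r) u = tw m s (tw n r u) := by
  ext <;> simp only [tw]
  · linear_combination (- m.1 * n.2 * r * u.2) * h
  · linear_combination (- m.2 * n.2 * r * u.2) * h

instance : Group E := Group.ofLeftAxioms (fun p q r => Subtype.ext (by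
    rw [mul_val, mul_val, mul_val, mul_val]
    simp only [tw_add, tw_tw _ _ p.2.2, add_assoc, mul_assoc]))
  (by decide +kernel) (by decide +kernel)

/-- a reflection -/
def a : E := ⟨((0, 0), (1, 0), -1), by decide⟩
/-- a translation -/
def t : E := ⟨((0, 1), (1, 0), 1), by decide⟩

/-- a point stabiliser -/
def S : Subgroup E where
  carrier := {g | g.1.1 = 0}
  mul_mem' := (by decide +kernel : ∀ g h : E, g.1.1 = 0 → h.1.1 = 0 → (g * h).1.1 = 0) _ _
  one_mem' := rfl
  inv_mem' := (by decide +kernel : ∀ g : E, g.1.1 = 0 → (g⁻¹).1.1 = 0) _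

theorem key : ∀ c : E, ∃ h : E, (h * c * h⁻¹) * a = a * (h * c * h⁻¹) ∨ (h * c * h⁻¹).1.1 = 0 := by
  decide +kernel

theorem card_E : Fintype.card E = 144 := by decide +kernel

theorem S_pow : ∀ g : E, g.1.1 = 0 → (g * g * g * g) * (g * g * g * g) = 1 := by decide +kernel

theorem S_pGrp : PGrp 2 S := piGrp_iff_forall.2 fun g hg => (pElt_iff Nat.prime_two).2 ⟨3, by
  rw [← S_pow g hg]; norm_num [pow_succ, mul_assoc]⟩

theorem ord_a : orderOf a = 2 := orderOf_eq_prime (by rw [pow_two]; decide +kernel) (by decide +kernel)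

end

/-- There is a finite solvable group G with a subgroup A of order 2 such that every conjugacy class of G contains an element g for which A is subnormal in the subgroup generated by A and g, and yet A is not contained in O_2(G). (So the corresponding criteria for odd primes fail at the prime 2, even for solvable groups.) -/
theorem result :
    ∃ (G : Type) (_ : Group G) (_ : Finite G) (A : Subgroup G), Group.IsSolvable G ∧ Nat.card A = 2 ∧
      (∀ c : G, ∃ g : G, IsConj c g ∧ (A.subgroupOf (A ⊔ Subgroup.zpowers g)).IsSubnormal) ∧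
      ¬ A ≤ Cfsg.pCore 2 G := by
  open Subgroup Cfsg.Agent.FT Cfsg.Agent.H28 in
  open scoped commutatorElement Pointwise in
  · refine ⟨E, inferInstance, inferInstance, ⟪a⟫, ?_, ?_, fun c => ?_, fun h => ?_⟩
    · refine sol_top.1 (sol_of_two_primes Nat.prime_two Nat.prime_three fun q hq hd => ?_)
      rw [card_top', Nat.card_eq_fintype_card, card_E, show 144 = 2 ^ 4 * 3 ^ 2 by norm_num] at hd
      rcases (hq.dvd_mul).1 hd with h | h
      · exact Or.inl ((Nat.prime_dvd_prime_iff_eq hq Nat.prime_two).1 (hq.dvd_of_dvd_pow h))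
      · exact Or.inr ((Nat.prime_dvd_prime_iff_eq hq Nat.prime_three).1 (hq.dvd_of_dvd_pow h))
    · rw [card_zpowers', ord_a]
    · obtain ⟨h, hh⟩ := key c
      refine ⟨h * c * h⁻¹, isConj_iff.2 ⟨h, rfl⟩, ?_⟩
      rcases hh with hh | hh
      · refine (nml_sup_left (cents_norm ?_)).subn.subn
        rwa [cen_zpowers, zpowers_le, mem_cen1]
      · exact ((S_pGrp.nil.mono (sup_le (zpowers_le.2 rfl) (zpowers_le.2 hh))).subn le_sup_left).subn
    · rw [← piCore_singleton Nat.prime_two, ← pcore_top] at h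
      have h1 := h (mem_zpowers a)
      have h2 := mul_mem ((pcore_nml {2} ⊤).conj_mem (mem_top t) h1) h1
      have h3 : PiElt {3} (t * a * t⁻¹ * a) :=
        pElt_of_pow_eq_one Nat.prime_three (by rw [pow_three]; decide +kernel)
      exact absurd (((pcore_pi {2} ⊤).piElt h2).eq_one (h3.sub (by simp))) (by decide +kernel)

end Cfsg.Agent.S4331
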