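import Mathlib
import Cfsg.Agent.H28.Swaps
-- Template for statement S4332 (row 4332; see /opt/grader/pristine/manifest.json for weights).
-- Copy to Cfsg/Agent/S4332.lean and replace the sorry. The statement below is byte-identical to the frozen
-- statement Cfsg.CfsgFrozen.S4332 (Cfsg/Statements/S4332.lean; the theorem Cfsg.fg11_three_cycle_in_sym_eight_subnormal_in_join_with_some_conjugate_from_each_class);
-- the grader kernel-checks Cfsg.Agent.S4332.result against that frozen type. Keep the theorem IN THIS FILE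
-- (a `result` declared elsewhere and merely imported here is not credited); helpers may live anywhere
-- under Cfsg/Agent/.
import Cfsg.Statements.S4332
-- import your own Cfsg.Agent.* helpers here

set_option autoImplicit false
open Pointwise
open Cfsg

namespace Cfsg.Agent.S4332

section
open Subgroup Cfsg.Agent.FT Cfsg.Agent.H28
open scoped commutatorElement Pointwise
set_option linter.style.haveILetI false

open Equiv

theorem exists_triple (c : Perm (Fin 8)) : ∃ x y z : Fin 8, x ≠ y ∧ x ≠ z ∧ y ≠ z ∧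
    ((c x = x ∧ c y = y ∧ c z = z) ∨ (c x = y ∧ c y = z ∧ c z = x) ∨
      [c x, c y, c z, x, y, z].Nodup) := by
  classical
  by_cases h3 : 2 < (Finset.univ.filter fun x => c x = x).card
  · obtain ⟨x, hx, y, hy, z, hz, h1, h2, h4⟩ := Finset.two_lt_card.1 h3
    exact ⟨x, y, z, h1, h2, h4, Or.inl ⟨by simpa using hx, by simpa using hy, by simpa using hz⟩⟩
  have key : ∀ s : Finset (Fin 8), s.card ≤ 5 → ∃ z, z ∉ s ∧ c z ≠ z := by
    intro s hs
    have : (s ∪ Finset.univ.filter fun x => c x = x).card < (Finset.univ : Finset (Fin 8)).card := by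
      have := Finset.card_union_le s (Finset.univ.filter fun x => c x = x)
      rw [Finset.card_univ, Fintype.card_fin]; omega
    obtain ⟨z, -, hz⟩ := Finset.exists_mem_notMem_of_card_lt_card this
    exact ⟨z, by simpa using hz⟩
  have fin : ∀ x y, x ≠ y → c x ≠ x → c y ≠ y → c x ≠ y → c y ≠ x →
      ({x, y, c x, c y, c⁻¹ x, c⁻¹ y} : Finset (Fin 8)).card ≤ 5 → ∃ x y z : Fin 8,
      x ≠ y ∧ x ≠ z ∧ y ≠ z ∧ ((c x = x ∧ c y = y ∧ c z = z) ∨ (c x = y ∧ c y = z ∧ c z = x) ∨
      [c x, c y, c z, x, y, z].Nodup) := by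
    intro x y h1 h2 h3 h4 h5 h6
    obtain ⟨z, hz, h7⟩ := key _ h6
    simp only [Finset.mem_insert, Finset.mem_singleton, not_or, Perm.eq_inv_iff_eq] at hz
    obtain ⟨z1, z2, z3, z4, z5, z6⟩ := hz
    refine ⟨x, y, z, h1, Ne.symm z1, Ne.symm z2, Or.inr (Or.inr ?_)⟩
    simp [h1, h2, h3, h4, h5, h7, z5, z6, Ne.symm z1, Ne.symm z2, Ne.symm z3, Ne.symm z4]
  obtain ⟨x, -, hx⟩ := key ∅ (by simp)
  by_cases h2 : c (c x) = x
  · obtain ⟨y, hy, h1⟩ := key {x, c x} (Finset.card_le_two.trans (by norm_num))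
    simp only [Finset.mem_insert, Finset.mem_singleton, not_or] at hy
    have e : c⁻¹ x = c x := by rw [Perm.inv_eq_iff_eq, h2]
    refine fin x y (Ne.symm hy.1) hx h1 (Ne.symm hy.2) (fun h => hy.2 (c.injective (h.trans h2.symm))) ?_
    refine le_trans (Finset.card_le_card (t := {x, y, c x, c y, c⁻¹ y}) ?_) Finset.card_le_five
    intro w; simp only [e, Finset.mem_insert, Finset.mem_singleton]; tauto
  by_cases h4 : c (c (c x)) = x
  · exact ⟨x, c x, c (c x), Ne.symm hx, Ne.symm h2, fun h => hx (c.injective h).symm,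
      Or.inr (Or.inl ⟨rfl, rfl, h4⟩)⟩
  refine fin x (c (c x)) (Ne.symm h2) hx (fun h => hx (c.injective (c.injective h)))
    (fun h => hx (c.injective h).symm) h4 ?_
  refine le_trans (Finset.card_le_card (t := {x, c (c x), c x, c (c (c x)), c⁻¹ x}) ?_)
    Finset.card_le_five
  intro w; simp only [Perm.coe_inv, symm_apply_apply, Finset.mem_insert, Finset.mem_singleton]; tauto

theorem exists_rho (c : Perm (Fin 8)) :
    ∃ ρ : Perm (Fin 8), ρ.IsThreeCycle ∧ Commute ρ (c * ρ * c⁻¹) := by
  obtain ⟨x, y, z, h1, h2, h3, h⟩ := exists_triple c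
  refine ⟨swap x y * swap x z, Perm.isThreeCycle_swap_mul_swap_same h1 h2 h3, ?_⟩
  have e : c * (swap x y * swap x z) * c⁻¹ = swap (c x) (c y) * swap (c x) (c z) := by
    rw [swap_apply_apply, swap_apply_apply]; group
  rw [e]
  rcases h with ⟨a, b, d⟩ | ⟨a, b, d⟩ | h
  · rw [a, b, d]
  · rw [a, b, d]
    have : swap y z * swap y x = swap x y * swap x z := by
      rw [swap_comm y x, swap_mul_eq_mul_swap (swap x y) y z, swap_inv, swap_apply_right,
        swap_apply_of_ne_of_ne h2.symm h3.symm]
    rw [this]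
  · simp only [List.nodup_cons, List.mem_cons, not_or, List.not_mem_nil, or_false,
      not_false_eq_true, List.nodup_nil, and_true] at h
    refine Commute.mul_left (Commute.mul_right ?_ ?_) (Commute.mul_right ?_ ?_) <;>
      refine (Perm.disjoint_swap_swap ?_).symm.commute <;> simp [h]

end

/-- In the symmetric group of degree 8, let A be the subgroup generated by a 3-cycle. Then every conjugacy class contains an element g for which A is subnormal in the subgroup generated by A and its conjugate by g, although O_3 of the symmetric group of degree 8 is trivial. -/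
theorem result
    (σ : Equiv.Perm (Fin 8)) (hσ : σ.IsThreeCycle) :
    (∀ c : Equiv.Perm (Fin 8), ∃ g : Equiv.Perm (Fin 8), IsConj c g ∧
      ((Subgroup.zpowers σ).subgroupOf (Subgroup.zpowers σ ⊔ MulAut.conj g • Subgroup.zpowers σ)).IsSubnormal) ∧
    Cfsg.pCore 3 (Equiv.Perm (Fin 8)) = ⊥ := by
  open Subgroup Cfsg.Agent.FT Cfsg.Agent.H28 in
  open scoped commutatorElement Pointwise in
  · refine ⟨fun c => ?_, ?_⟩
    · obtain ⟨ρ, h1, h2⟩ := exists_rho c
      obtain ⟨h, rfl⟩ := isConj_iff.1 (Equiv.Perm.isConj_iff_cycleType_eq.2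
        (h1.cycleType.trans hσ.cycleType.symm))
      refine ⟨h * c * h⁻¹, isConj_iff.2 ⟨h, rfl⟩, ?_⟩
      show (⟪h * ρ * h⁻¹⟫.subgroupOf (⟪h * ρ * h⁻¹⟫ ⊔ cj (h * c * h⁻¹) ⟪h * ρ * h⁻¹⟫)).IsSubnormal
      refine (nml_sup_left (cents_norm ?_)).subn.subn
      rw [cj_zpowers, cen_zpowers, zpowers_le, mem_cen1]
      have := congrArg (fun w => h * w * h⁻¹) h2.eq.symm
      simpa only [mul_assoc, mul_inv_rev, inv_inv, inv_mul_cancel_left] using this
    · rw [← piCore_singleton Nat.prime_three, ← pcore_top]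
      by_contra hc
      haveI := nml_top_iff.1 (pcore_nml {3} (⊤ : Subgroup (Equiv.Perm (Fin 8))))
      have := card_dvd_of_normal _ hc
      simp only [Nat.card_eq_fintype_card (α := Fin 8), Fintype.card_fin] at this
      exact absurd ((pcore_pi {3} _).mem Nat.prime_two (Dvd.dvd.trans (by norm_num) this)) (by simp)

end Cfsg.Agent.S4332
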