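import Mathlib
import Cfsg.Agent.H28.Util2
-- Template for statement S4334 (row 4334; see /opt/grader/pristine/manifest.json for weights).
-- Copy to Cfsg/Agent/S4334.lean and replace the sorry. The statement below is byte-identical to the frozen
-- statement Cfsg.CfsgFrozen.S4334 (Cfsg/Statements/S4334.lean; the theorem Cfsg.fg11_hall_sylow_theorem_from_nilpotent_direct_factor);
-- the grader kernel-checks Cfsg.Agent.S4334.result against that frozen type. Keep the theorem IN THIS FILE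
-- (a `result` declared elsewhere and merely imported here is not credited); helpers may live anywhere
-- under Cfsg/Agent/.
import Cfsg.Statements.S4334
-- import your own Cfsg.Agent.* helpers here

set_option autoImplicit false
open Cfsg

namespace Cfsg.Agent.S4334

section
open Subgroup Cfsg.Agent.FT Cfsg.Agent.H28
open scoped commutatorElement Pointwise
set_option linter.style.haveILetI false

variable {G : Type*} [Group G] [Finite G]

/-- every `ρ`-subgroup is conjugate into `T` -/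
def Dom (ρ : Set ℕ) (T : Subgroup G) : Prop := ∀ K, PiGrp ρ K → ∃ g, cj g K ≤ T

theorem lemA {r : ℕ} {S X Y : Subgroup G} {g : G} (hS : Syl r S ⊤) (h : S ≤ C(cj g X))
    (hY : PGrp r Y) (hn : Y ≤ N(X)) : Y ≤ C(X) := by
  have h1 : cj g⁻¹ S ≤ C(X) := by rw [← cj_cen, le_cj_iff] at h; exact h
  exact ((hS.cj_mem (mem_top g⁻¹)).subl (cents_norm h1) le_top).le_of_syl_le
    (cen_nml_nrm X).nrm h1 hY hn

theorem step {p : ℕ} {τ : Set ℕ} {P T : Subgroup G} (hP : Syl p P ⊤) (hc : T ≤ C(P))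
    (hD : Dom τ T) : Dom (τ ∪ {p}) (P ⊔ T) := by
  intro K hK
  have hτ : ∀ X, X ≤ K → PiGrp {p}ᶜ X → PiGrp τ X := fun X h1 h2 =>
    ((hK.mono h1).inter h2).sub fun r hr => hr.1.resolve_right hr.2
  obtain ⟨R, hR⟩ := exists_syl p K
  have h1 : NPC p K := by
    refine Frobenius_normal_complement hR fun X hX _ x hx hx' => ?_
    refine zpowers_le.1 (le_of_forall_pGrp fun q Y _ hY hY' => ?_)
    obtain ⟨Q, hQ, hYQ⟩ := hY.exists_syl le_top
    by_cases h0 : Y = ⊥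
    · exact h0 ▸ bot_le
    obtain ⟨a, ha⟩ := hD Q (hQ.pi.pi ((hτ _ (zpowers_le.2 hx.1) hx'.zpowers).mem_of_pgrp hY h0 hY'))
    obtain ⟨b, -, hb⟩ := hP.syl_Jsub (hR.pi.mono hX) le_top
    exact lemA (hQ.cj_mem (mem_top a)) (centsS hb (ha.trans hc)) hY (hY'.trans (zpowers_le.2 hx.2))
  have hL := hτ _ (pcore_le _ _) (pcore_pi {p}ᶜ K)
  obtain ⟨a, ha⟩ := hD _ hL
  have h2 : P ≤ C(cj a O[{p}ᶜ](K)) := centsS ha (centsC hc)
  have h3 : R ≤ C(O[{p}ᶜ](K)) := lemA hP h2 hR.pi (hR.le.trans (pcore_nrm _ _))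
  obtain ⟨c, hc1, hc2⟩ := (hP.subl h2 le_top).syl_Jsub (hR.pi.cj a) (cj_cents.2 h3)
  refine ⟨c * a, ?_⟩
  rw [← (h1.sd hR).mulEq.sup, ← cj_cj, cj_sup, cj_sup, cj_of_mem_cen hc1, sup_comm]
  exact sup_le_sup hc2 ha

theorem main {π : Set ℕ} {H : Subgroup G} (hH : Hall π H ⊤) (n : ℕ) : ∀ (τ : Set ℕ)
    (A T : Subgroup G), #A = n → Nil A → PiGrp τᶜ A → PiGrp τ T → T ≤ C(A) → A ⊔ T = H →
    Dom τ T → Dom π H := by
  induction n using Nat.strong_induction_on with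
  | _ n ih =>
  intro τ A T hn h1 h2 h3 h4 h5 h6
  by_cases h0 : A = ⊥
  · rw [h0, bot_sup_eq] at h5
    subst h5
    exact fun K hK => h6 K (h3.piNat.of_dvd (hH.card_dvd hK le_top))
  obtain ⟨p, hp, hd⟩ := exists_prime_dvd_card h0
  have hAH : A ≤ H := h5 ▸ le_sup_left
  have hA : Hall τᶜ A H := (mulEq_of_sup (cents_norm h4) h5).hall_left h2 (piGrp_compl_compl.2 h3)
  have hP : Syl p O[{p}](A) ⊤ := hH.subHall_syl (hH.pi.mem hp (hd.trans (card_dvd hAH)))
    (hA.subHall_syl (h2.mem hp hd) (h1.pcore_hall _))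
  have h7 : T ≤ C(O[{p}](A)) := centsS (pcore_le _ _) h4
  refine ih _ (hn ▸ card_lt (lt_of_le_of_ne (pcore_le {p}ᶜ A) fun e => ?_)) (τ ∪ {p}) _ _ rfl
    (h1.mono (pcore_le _ _)) (piGrp_compl_union.2 ⟨h2.mono (pcore_le _ _), pcore_pi _ _⟩)
    ((hP.pi.sub Set.subset_union_right).sup (h3.sub Set.subset_union_left) (cents_norm h7))
    (sup_le (pcore_cents _ _) (centsS (pcore_le _ _) h4)) ?_ (step hP h7 h6)
  · rw [← sup_assoc, (h1.dp_pcore {p}).symm.mulEq.sup, h5]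
  · exact (e ▸ pcore_pi {p}ᶜ A).not_dvd hp rfl hd

theorem exists_maximal {ρ : Set ℕ} {K : Subgroup G} (h : PiGrp ρ K) :
    ∃ L, K ≤ L ∧ Maximal (Cfsg.IsPiSubgroup ρ) L := by
  obtain ⟨L, h1, h2, h3⟩ := exists_max (PiGrp ρ) h
  exact ⟨L, h1, piGrp_iff_isPiSubgroup.1 h2, fun Y hY hle =>
    (h3 Y (piGrp_iff_isPiSubgroup.2 hY) hle).le⟩

theorem dom_iff {ρ : Set ℕ} {T : Subgroup G} (h : Hall ρ T ⊤) : Dom ρ T ↔ Cfsg.IsDPiGroup ρ G := by
  constructor
  · intro hD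
    have key : ∀ K, Maximal (Cfsg.IsPiSubgroup ρ) K → ∃ g, cj g K = T := by
      intro K hK
      obtain ⟨g, hg⟩ := hD K (piGrp_iff_isPiSubgroup.2 hK.1)
      rw [cj_le_iff] at hg
      exact ⟨g, cj_eq_iff.2 (le_antisymm hg (hK.2 (piGrp_iff_isPiSubgroup.1 (h.pi.cj _)) hg))⟩
    intro K L hK hL
    obtain ⟨a, ha⟩ := key K hK
    obtain ⟨b, hb⟩ := key L hL
    refine ⟨b⁻¹ * a, ?_⟩
    rw [← cj_def, ← cj_cj, ha, ← hb, cj_inv_cj]
  · intro hD K hK
    obtain ⟨L, h1, h2⟩ := exists_maximal hK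
    obtain ⟨g, hg⟩ := hD L T h2 ⟨piGrp_iff_isPiSubgroup.1 h.pi, fun Y hY hle =>
      (h.max (piGrp_iff_isPiSubgroup.2 hY) hle le_top).le⟩
    exact ⟨g, hg ▸ cj_mono g h1⟩

end

/-- Let σ and τ be disjoint sets of primes with union π. Suppose a finite group G has a Hall π-subgroup H which is the direct product of a nilpotent σ-subgroup and a τ-subgroup (two elementwise-commuting subgroups generating H), and that the maximal τ-subgroups of G are pairwise conjugate. Then the maximal π-subgroups of G are pairwise conjugate. -/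
theorem result {G : Type*} [Group G] [Finite G]
    (σ τ π : Set ℕ) (hπ : π = σ ∪ τ) (hd : Disjoint σ τ) (H Hs Ht : Subgroup G) (hH : Cfsg.IsPiHall π H)
    (hs : Cfsg.IsPiSubgroup σ Hs) (ht : Cfsg.IsPiSubgroup τ Ht) (hsn : Group.IsNilpotent Hs)
    (hjoin : Hs ⊔ Ht = H) (hcomm : ∀ a ∈ Hs, ∀ b ∈ Ht, a * b = b * a) (hD : Cfsg.IsDPiGroup τ G) :
    Cfsg.IsDPiGroup π G := by
  open Subgroup Cfsg.Agent.FT Cfsg.Agent.H28 in
  open scoped commutatorElement Pointwise in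
  · have h1 := hall_top_iff.2 hH
    have h2 := piGrp_iff_isPiSubgroup.2 ht
    have h3 : PiGrp τᶜ Hs := (piGrp_iff_isPiSubgroup.2 hs).sub hd.subset_compl_right
    have h4 : Ht ≤ C(Hs) := fun b hb => mem_cen.2 fun a ha => hcomm a ha b hb
    have h5 : Hall τ Ht H := (mulEq_of_sup (cents_norm h4) hjoin).hall_right' h3 h2
    exact (dom_iff h1).1 (main h1 _ τ Hs Ht rfl hsn h3 h2 h4 hjoin
      ((dom_iff (h1.subHall (hπ ▸ Set.subset_union_right) h5)).2 hD))

end Cfsg.Agent.S4334
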