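import Mathlib
import Cfsg.Agent.H28.Swaps
-- Template for statement S4337 (row 4337; see /opt/grader/pristine/manifest.json for weights).
-- Copy to Cfsg/Agent/S4337.lean and replace the sorry. The statement below is byte-identical to the frozen
-- statement Cfsg.CfsgFrozen.S4337 (Cfsg/Statements/S4337.lean; the theorem Cfsg.fg11_three_transpositions_generate_solvable_subgroup);
-- the grader kernel-checks Cfsg.Agent.S4337.result against that frozen type. Keep the theorem IN THIS FILE
-- (a `result` declared elsewhere and merely imported here is not credited); helpers may live anywhere
-- under Cfsg/Agent/.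
import Cfsg.Statements.S4337
-- import your own Cfsg.Agent.* helpers here

set_option autoImplicit false
open Cfsg

namespace Cfsg.Agent.S4337

/-- In a finite symmetric group, any three transpositions generate a solvable subgroup. -/
theorem result (n : ℕ) (a b c : Equiv.Perm (Fin n))
    (ha : a.IsSwap) (hb : b.IsSwap) (hc : c.IsSwap) :
    Group.IsSolvable (Subgroup.closure ({a, b, c} : Set (Equiv.Perm (Fin n)))) := by
  open Subgroup Cfsg.Agent.FT Cfsg.Agent.H28 in
  open scoped commutatorElement Pointwise in
  · have e : ({a, b, c} : Set (Equiv.Perm (Fin n))) = Set.range ![a, b, c] := by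
      ext x; simp only [Matrix.range_cons, Matrix.range_empty]; simp; tauto
    rw [e]
    refine sol_of_two_primes Nat.prime_two Nat.prime_three fun q hq hd => ?_
    have := prime_le_swaps ![a, b, c] (fun i => by fin_cases i <;> assumption) hq hd
    simp only [Nat.card_eq_fintype_card, Fintype.card_fin] at this
    have h2 := hq.two_le
    interval_cases q
    · simp
    · simp
    · exact absurd hq (by norm_num)

end Cfsg.Agent.S4337
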