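import Mathlib
import Cfsg.Agent.H28.HallNum
-- Template for statement S4341 (row 4341; see /opt/grader/pristine/manifest.json for weights).
-- Copy to Cfsg/Agent/S4341.lean and replace the sorry. The statement below is byte-identical to the frozen
-- statement Cfsg.CfsgFrozen.S4341 (Cfsg/Statements/S4341.lean; the theorem Cfsg.fg11_sylow_number_product_formula_over_normal_subgroup);
-- the grader kernel-checks Cfsg.Agent.S4341.result against that frozen type. Keep the theorem IN THIS FILE
-- (a `result` declared elsewhere and merely imported here is not credited); helpers may live anywhere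
-- under Cfsg/Agent/.
import Cfsg.Statements.S4341
-- import your own Cfsg.Agent.* helpers here

set_option autoImplicit false
open Cfsg

namespace Cfsg.Agent.S4341

/-- Let K be a normal subgroup of a finite group G, p a prime and P a Sylow p-subgroup of G; let N be the normalizer of P ∩ K inside the subgroup PK. Then the number of Sylow p-subgroups of G equals the product of the numbers of Sylow p-subgroups of G/K, of K, and of N/(P ∩ K). (The normality of P ∩ K in N, which always holds, is assumed as a hypothesis so that the quotient can be formed.) -/
theorem result {G : Type*} [Group G] [Finite G]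
    (p : ℕ) [Fact p.Prime] (K : Subgroup G) [K.Normal] (P : Sylow p G) (N : Subgroup G)
    (hN : N = ((P : Subgroup G) ⊔ K) ⊓ Subgroup.normalizer (((P : Subgroup G) ⊓ K : Subgroup G) : Set G))
    [hn : (((P : Subgroup G) ⊓ K).subgroupOf N).Normal] :
    Nat.card (Sylow p G) =
      Nat.card (Sylow p (G ⧸ K)) * Nat.card (Sylow p K) * Nat.card (Sylow p (N ⧸ ((P : Subgroup G) ⊓ K).subgroupOf N)) := by
  open Subgroup Cfsg.Agent.FT Cfsg.Agent.H28 in
  open scoped commutatorElement Pointwise in
  subst hN
  rw [card_sylow_eq_mul K P, card_sylow_quot_pgroup (_ : Subgroup ↥(_ ⊓ _ : Subgroup G))]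
  exact (piGrp_so (le_inf (inf_le_left.trans le_sup_left) (le_nrm _))).2
    ((sylow_pGrp P).mono inf_le_left)

end Cfsg.Agent.S4341
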