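import Mathlib
import Cfsg.Agent.H28.Util2
-- Template for statement S4342 (row 4342; see /opt/grader/pristine/manifest.json for weights).
-- Copy to Cfsg/Agent/S4342.lean and replace the sorry. The statement below is byte-identical to the frozen
-- statement Cfsg.CfsgFrozen.S4342 (Cfsg/Statements/S4342.lean; the theorem Cfsg.fg11_sylow_number_of_normal_subgroup_mod_center_of_coprime_index);
-- the grader kernel-checks Cfsg.Agent.S4342.result against that frozen type. Keep the theorem IN THIS FILE
-- (a `result` declared elsewhere and merely imported here is not credited); helpers may live anywhere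
-- under Cfsg/Agent/.
import Cfsg.Statements.S4342
-- import your own Cfsg.Agent.* helpers here

set_option autoImplicit false
open Cfsg

namespace Cfsg.Agent.S4342

/-- Let H be a normal subgroup of a finite group G and p a prime not dividing the index of H. Then the number of Sylow p-subgroups of H/Z(H) equals the number of Sylow p-subgroups of G. -/
theorem result {G : Type*} [Group G] [Finite G]
    (p : ℕ) [Fact p.Prime] (H : Subgroup G) [H.Normal] (hp : ¬ p ∣ H.index) :
    Nat.card (Sylow p (H ⧸ Subgroup.center H)) = Nat.card (Sylow p G) := by
  open Subgroup Cfsg.Agent.FT Cfsg.Agent.H28 in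
  open scoped commutatorElement Pointwise in
  rw [card_sylow_quotient _ fun Q => center_le_normalizer _,
    card_sylow_subgroup H (sylow_le_of_normal_of_not_dvd_index H hp)]

end Cfsg.Agent.S4342
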