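import Mathlib
import Cfsg.Agent.H28.Util2
-- Template for statement S4343 (row 4343; see /opt/grader/pristine/manifest.json for weights).
-- Copy to Cfsg/Agent/S4343.lean and replace the sorry. The statement below is byte-identical to the frozen
-- statement Cfsg.CfsgFrozen.S4343 (Cfsg/Statements/S4343.lean; the theorem Cfsg.fg11_simple_group_with_sylow_number_below_p_squared_has_sylow_of_order_p);
-- the grader kernel-checks Cfsg.Agent.S4343.result against that frozen type. Keep the theorem IN THIS FILE
-- (a `result` declared elsewhere and merely imported here is not credited); helpers may live anywhere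
-- under Cfsg/Agent/.
import Cfsg.Statements.S4343
-- import your own Cfsg.Agent.* helpers here

set_option autoImplicit false
open Cfsg

namespace Cfsg.Agent.S4343

/-- Let S be a finite non-abelian simple group and p a prime dividing its order. If S has fewer than p² Sylow p-subgroups, then its Sylow p-subgroups have order p. -/
theorem result {S : Type*} [Group S] [Finite S]
    [IsSimpleGroup S] (hS : ¬ IsMulCommutative S) (p : ℕ) [Fact p.Prime] (hp : p ∣ Nat.card S)
    (hn : Nat.card (Sylow p S) < p ^ 2) (P : Sylow p S) : Nat.card P = p := by
  open Subgroup Cfsg.Agent.FT Cfsg.Agent.H28 in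
  open scoped commutatorElement Pointwise in
  have hpp : p.Prime := Fact.out
  have hP : ¬ (P : Subgroup S).Normal := by
    intro h
    rcases IsSimpleGroup.eq_bot_or_eq_top_of_normal _ h with h | h
    · exact (syl_top hpp P).syl_ne_bot ⟨hpp, by rwa [card_top']⟩ h
    · have h1 : Nil (⊤ : Subgroup S) := h ▸ (sylow_pGrp P).nil
      rcases IsSimpleGroup.eq_bot_or_eq_top_of_normal (center S) inferInstance with h2 | h2
      · exact h1.center_ne_bot top_ne_bot (center_top'.trans h2)
      · exact hS (ab_top.1 (by rw [← h2, ← center_top']; exact ab_center _))
  refine card_sylow_eq_of_le_sq (fun g hg => ?_) ?_ hn.le P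
  · rcases IsSimpleGroup.eq_bot_or_eq_top_of_normal (MulAction.toPermHom S (Sylow p S)).ker
      inferInstance with h | h
    · rw [← mem_bot, ← h, MonoidHom.mem_ker]
      exact Equiv.ext hg
    · refine absurd (normal_of_top_le fun x hx => sylow_smul_eq_iff.1 ?_) hP
      rw [← h, MonoidHom.mem_ker] at hx
      exact congrArg (· P) hx
  · rw [card_sylow_eq_index]
    exact one_lt_index_of_ne_top fun h => hP (normal_of_top_le h.ge)

end Cfsg.Agent.S4343
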