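import Mathlib
import Cfsg.Agent.H28.Util2
-- Template for statement S4344 (row 4344; see /opt/grader/pristine/manifest.json for weights).
-- Copy to Cfsg/Agent/S4344.lean and replace the sorry. The statement below is byte-identical to the frozen
-- statement Cfsg.CfsgFrozen.S4344 (Cfsg/Statements/S4344.lean; the theorem Cfsg.fg11_sylow_number_eq_index_of_maximal_with_cyclic_normal_subgroup_containing_sylow);
-- the grader kernel-checks Cfsg.Agent.S4344.result against that frozen type. Keep the theorem IN THIS FILE
-- (a `result` declared elsewhere and merely imported here is not credited); helpers may live anywhere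
-- under Cfsg/Agent/.
import Cfsg.Statements.S4344
-- import your own Cfsg.Agent.* helpers here

set_option autoImplicit false
open Cfsg

namespace Cfsg.Agent.S4344

/-- Let S be a finite non-abelian simple group, M a maximal subgroup of S and C a cyclic normal subgroup of M. If a Sylow p-subgroup P of S (for a prime p dividing the order of S) is contained in C, then the number of Sylow p-subgroups of S equals the index of M. -/
theorem result {S : Type*} [Group S] [Finite S]
    [IsSimpleGroup S] (hS : ¬ IsMulCommutative S) (p : ℕ) [Fact p.Prime] (hp : p ∣ Nat.card S)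
    (M : Subgroup S) (hM : IsCoatom M) (C : Subgroup S) (hCM : C ≤ M) (hCn : (C.subgroupOf M).Normal)
    (hC : IsCyclic C) (P : Sylow p S) (hP : (P : Subgroup S) ≤ C) :
    Nat.card (Sylow p S) = M.index := by
  open Subgroup Cfsg.Agent.FT Cfsg.Agent.H28 in
  open scoped commutatorElement Pointwise in
  have hpp : p.Prime := Fact.out
  have h1 : M ≤ N(C) := ((nml_iff_normal hCM).2 hCn).nrm
  have h2 : M ≤ N((P : Subgroup S)) :=
    (Cyc.nil hC).norms_hall ((syl_top hpp P).subl hP le_top) h1
  rw [card_sylow_eq_index]
  rcases h2.eq_or_lt with e | e
  · rw [e]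
  · exfalso
    rcases IsSimpleGroup.eq_bot_or_eq_top_of_normal _ (normal_of_top_le (hM.2 _ e).ge) with h | h
    · exact (syl_top hpp P).syl_ne_bot ⟨hpp, by rwa [card_top']⟩ h
    · exact hM.1 (top_le_iff.1 (h ▸ hP.trans hCM))

end Cfsg.Agent.S4344
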