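import Cfsg.Statements.S4346
import Mathlib
import Cfsg.Agent.H28.SylNum
import Cfsg.Agent.S4304

set_option autoImplicit false
open Cfsg

namespace Cfsg.Agent.S4346

open Subgroup MulAction Cfsg.Agent.H28

theorem card_sylow_three {G : Type*} [Group G] [Finite G] [Fact (Nat.Prime 3)]
    (hF : ∀ g : G, (∀ Q : Sylow 3 G, g • Q = Q) → g = 1) (hn : Nat.card (Sylow 3 G) = 22)
    (P₀ : Sylow 3 G) : Nat.card (P₀ : Subgroup G) = 3 := by
  classical
  let nb : Sylow 3 G → Set (Sylow 3 G) := fun P => {Q | (Q : Subgroup G).relIndex P = 3}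
  let O : Sylow 3 G → Set (Sylow 3 G) := fun P => {Q | (Q : Subgroup G).relIndex P = 9}
  have htri : ∀ P Q : Sylow 3 G, Q = P ∨ Q ∈ nb P ∨ Q ∈ O P := by
    intro P Q
    by_cases h : P = Q
    · exact Or.inl h.symm
    obtain ⟨j, hj0, hj⟩ := relIndex_sylow_eq_pow h
    have := relIndex_sylow_lt h
    rw [hj, hn] at this
    have hj3 : j < 3 := by
      by_contra hc
      have := Nat.pow_le_pow_right (show 0 < 3 by norm_num) (not_lt.1 hc)
      omega
    interval_cases j
    · exact Or.inr (Or.inl hj)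
    · exact Or.inr (Or.inr hj)
  have hself : ∀ P : Sylow 3 G, P ∉ nb P ∧ P ∉ O P := fun P => by
    simp only [nb, O, Set.mem_ofPred_eq, relIndex_self]; omega
  have hdisj : ∀ P Q : Sylow 3 G, Q ∈ nb P → Q ∉ O P := fun P Q h1 h2 => by
    simp only [nb, O, Set.mem_ofPred_eq] at h1 h2; omega
  have hsum : ∀ P, (nb P).ncard + (O P).ncard + 1 = 22 := fun P => by
    rw [← Set.ncard_union_eq (Set.disjoint_left.2 (hdisj P)),
      ← Set.ncard_insert_of_notMem (a := P) (by
        rintro (h | h)
        · exact (hself P).1 h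
        · exact (hself P).2 h), ← hn, ← Set.ncard_univ]
    congr 1
    exact Set.eq_univ_of_forall fun Q => htri P Q
  have h9 : 9 ∣ (O P₀).ncard := by
    apply dvd_ncard_of_orbits (P₀ : Subgroup G)
    intro Q hQ
    refine ⟨?_, by rw [ncard_orbit_sylow P₀.isPGroup', hQ]⟩
    rintro _ ⟨g, rfl⟩
    show (((g : G) • Q : Sylow 3 G) : Subgroup G).relIndex P₀ = 9
    have := relIndex_sylow_smul (g : G) P₀ Q
    rw [(sylow_smul_eq_iff_mem P₀.isPGroup' g.2 P₀).2 g.2] at this
    exact this.trans hQ
  have hconst : ∀ P, (nb P).ncard = (nb P₀).ncard := fun P => by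
    obtain ⟨g, rfl⟩ := exists_smul_eq G P₀ P
    symm
    apply Set.ncard_congr (fun Q _ => g • Q)
    · intro Q hQ
      show ((g • Q : Sylow 3 G) : Subgroup G).relIndex (g • P₀ : Sylow 3 G) = 3
      rw [relIndex_sylow_smul]; exact hQ
    · intro a b _ _ h; exact smul_left_cancel g h
    · intro Q hQ
      refine ⟨g⁻¹ • Q, ?_, smul_inv_smul g Q⟩
      show ((g⁻¹ • Q : Sylow 3 G) : Subgroup G).relIndex P₀ = 3
      rw [← relIndex_sylow_smul g, smul_inv_smul]; exact hQ
  set v := (nb P₀).ncard with hv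
  have hv3 : v = 21 ∨ v = 12 ∨ v = 3 := by have := hsum P₀; omega
  have hline : ∀ P Q : Sylow 3 G, Q ∈ nb P →
      {R : Sylow 3 G | (P : Subgroup G) ⊓ (Q : Subgroup G) ≤ R} = insert P (nb P) := by
    intro P Q hQ
    set D := (P : Subgroup G) ⊓ (Q : Subgroup G) with hD
    set L := {R : Sylow 3 G | D ≤ R} with hL
    have hcD : ∀ R : Sylow 3 G, Nat.card D * 3 = Nat.card (R : Subgroup G) := fun R => by
      have := card_inf_mul_relIndex (P : Subgroup G) Q
      rw [show (Q : Subgroup G).relIndex P = 3 from hQ] at this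
      exact this.trans (card_sylow_eq_card P R)
    have hPL : P ∈ L := (inf_le_left : D ≤ (P : Subgroup G))
    have hin : ∀ R R' : Sylow 3 G, R ∈ L → R' ∈ L → R ≠ R' →
        (R : Subgroup G) ⊓ R' = D ∧ R' ∈ nb R := fun R R' h1 h2 hne =>
      inf_eq_of_le_of_card hne h1 h2 (hcD R)
    have hsub : L \ {P} ⊆ nb P := fun R hR => (hin P R hPL hR.1 (Ne.symm hR.2)).2
    have hne : P ≠ Q := fun e => (hself P).1 (e ▸ hQ)
    have hg3 : 3 ≤ (L \ {P}).ncard := by
      refine ((ncard_orbit_sylow P.isPGroup' Q).trans hQ).symm.le.trans ?_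
      apply Set.ncard_le_ncard _ (Set.toFinite _)
      rintro R hR
      refine ⟨?_, fun e => not_mem_orbit_sylow hne (e ▸ hR)⟩
      obtain ⟨g, rfl⟩ := hR
      exact inf_le_smul_of_relIndex hQ g.2
    have hgv : (L \ {P}).ncard ≤ v := hconst P ▸ Set.ncard_le_ncard hsub (Set.toFinite _)
    have hlow : ∀ R ∈ L \ {P}, v - (L \ {P}).ncard ≤ (nb R ∩ O P).ncard := by
      intro R hR
      have h1 : nb R ⊆ (L \ {R}) ∪ (nb R ∩ O P) := by
        intro S hS
        have hSR : S ≠ R := fun e => (hself R).1 (e ▸ hS)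
        rcases htri P S with h | h | h
        · exact Or.inl ⟨h ▸ hPL, hSR⟩
        · refine Or.inl ⟨?_, hSR⟩
          have := sylow_triangle (hsub hR) h hS
          rw [(hin P R hPL hR.1 (Ne.symm hR.2)).1] at this
          show D ≤ S
          rw [this]; exact inf_le_right
        · exact Or.inr ⟨hS, h⟩
      have h2 := (Set.ncard_le_ncard h1 (Set.toFinite _)).trans (Set.ncard_union_le _ _)
      rw [hconst, Set.ncard_sdiff_singleton_of_mem hR.1] at h2
      rw [Set.ncard_sdiff_singleton_of_mem hPL]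
      omega
    have hpair : (L \ {P}).PairwiseDisjoint (fun R => nb R ∩ O P) := by
      intro R hR R' hR' hRR
      rw [Function.onFun, Set.disjoint_left]
      rintro S ⟨h1, h2⟩ ⟨h3, -⟩
      obtain ⟨a1, a2⟩ := hin R R' hR.1 hR'.1 hRR
      have := sylow_triangle a2 h1 h3
      rw [a1] at this
      have hSL : S ∈ L := by
        show D ≤ S
        rw [this]; exact inf_le_right
      by_cases hSP : S = P
      · exact (hself P).2 (hSP ▸ h2)
      · exact hdisj P S (hsub ⟨hSL, hSP⟩) h2
    have hcount : (L \ {P}).ncard * (v - (L \ {P}).ncard) ≤ (O P).ncard := by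
      haveI : Fintype (Sylow 3 G) := Fintype.ofFinite _
      have b1 : ((L \ {P}).toFinset.biUnion fun R => (nb R ∩ O P).toFinset).card ≤
          (O P).toFinset.card := Finset.card_le_card (by
        intro S hS
        obtain ⟨R, -, hR⟩ := Finset.mem_biUnion.1 hS
        exact Set.mem_toFinset.2 (Set.mem_toFinset.1 hR).2)
      rw [Finset.card_biUnion (by
        intro R hR R' hR' hRR
        rw [Function.onFun, Set.disjoint_toFinset]
        exact hpair (by simpa using hR) (by simpa using hR') hRR)] at b1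
      have b2 := Finset.card_nsmul_le_sum (L \ {P}).toFinset
        (fun R => (nb R ∩ O P).toFinset.card) (v - (L \ {P}).ncard) (fun R hR => by
          rw [← Set.ncard_eq_toFinset_card']
          exact hlow R (Set.mem_toFinset.1 hR))
      rw [smul_eq_mul, ← Set.ncard_eq_toFinset_card'] at b2
      rw [Set.ncard_eq_toFinset_card' (O P)]
      exact b2.trans b1
    have hgeq : (L \ {P}).ncard = v := by
      have := hsum P
      rw [hconst] at this
      generalize (L \ {P}).ncard = g at *
      generalize (O P).ncard = o at *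
      rcases hv3 with e | e | e <;> rw [e] at hcount hgv this ⊢
      · have : o = 0 := by omega
        subst this
        interval_cases g <;> omega
      · have : o = 9 := by omega
        subst this
        interval_cases g <;> omega
      · omega
    have := Set.eq_of_subset_of_ncard_le hsub (by rw [hgeq, hconst]) (Set.toFinite _)
    rw [← this, Set.insert_sdiff_singleton, Set.insert_eq_of_mem hPL]
  have hdvd : v + 1 ∣ 22 := by
    refine dvd_ncard_of_partition (fun P => insert P (nb P)) ?_ 22 Set.univ Set.finite_univ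
      (by rw [Set.ncard_univ, hn]) fun P _ => ⟨Set.mem_insert _ _, Set.subset_univ _, ?_⟩
    · rintro P Q (rfl | h)
      · rfl
      · have h' : P ∈ nb Q := by
          show (P : Subgroup G).relIndex Q = 3
          rw [relIndex_sylow_comm]; exact h
        show insert Q (nb Q) = insert P (nb P)
        rw [← hline P Q h, ← hline Q P h', inf_comm]
    · show v + 1 ∣ (insert P (nb P)).ncard
      rw [Set.ncard_insert_of_notMem (hself P).1, hconst]
  have hv21 : v = 21 := by
    rcases hv3 with e | e | e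
    · exact e
    · rw [e] at hdvd; norm_num at hdvd
    · rw [e] at hdvd; norm_num at hdvd
  obtain ⟨Q, hQ⟩ := (Set.ncard_pos (Set.toFinite (nb P₀))).1 (by omega)
  apply card_eq_of_inf_le_all hF hQ
  intro R
  have hO : O P₀ = ∅ := by
    rw [← Set.ncard_eq_zero]; have := hsum P₀; omega
  have : R ∈ insert P₀ (nb P₀) := by
    rcases htri P₀ R with h | h | h
    · exact Or.inl h
    · exact Or.inr h
    · rw [hO] at h; exact h.elim
  rw [← hline P₀ Q hQ] at this
  exact this

/-- No finite group has exactly 22 Sylow 3-subgroups. -/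
theorem result {G : Type*} [Group G] [Finite G] : Nat.card (Sylow 3 G) ≠ 22 := by
  haveI : Fact (Nat.Prime 3) := ⟨by norm_num⟩
  haveI : Fact (Nat.Prime 5) := ⟨by norm_num⟩
  haveI : Fact (Nat.Prime 7) := ⟨by norm_num⟩
  haveI : Fact (Nat.Prime 11) := ⟨by norm_num⟩
  refine card_sylow_ne_of_reduced 3 22 ?_ G
  intro G _ _ hF hO hn
  have h2 := no_index_two_of_reduced (by norm_num) hO
  have hP := card_sylow_three hF hn
  obtain ⟨P⟩ : Nonempty (Sylow 3 G) := inferInstance
  have hlt : ∀ g : G, g ≠ 1 → fx (Sylow 3 G) g < 22 := fun g hg1 => hn ▸ fx_lt (by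
    by_contra hc
    push Not at hc
    exact hg1 (hF g hc))
  have horb := card_orbits_sylow (hP P) (k := 7) hn
  have hfixP : ∀ g ∈ normalizer ((P : Subgroup G) : Set G), g • P = P :=
    fun g hg => sylow_smul_eq_iff.2 hg
  -- `N(P) / P` embeds in `S₇`
  have hm : (P : Subgroup G).relIndex (normalizer ((P : Subgroup G) : Set G)) ∣
      Nat.factorial 7 := by
    refine relIndex_dvd_factorial le_rfl horb hfixP (fun g hg h => ?_) le_normalizer
    by_cases hgc : g ∈ centralizer ((P : Subgroup G) : Set G)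
    · exact mem_of_centralizer_of_orbits hF (hP P) hgc h
    exfalso
    have hpow : ∀ (i : ℕ) (Q : Sylow 3 G), ∃ u ∈ (P : Subgroup G), g ^ i • Q = u • Q := by
      intro i Q
      induction i with
      | zero => exact ⟨1, one_mem _, by rw [pow_zero]⟩
      | succ i ih =>
        obtain ⟨u, hu, e⟩ := ih
        obtain ⟨w, hw, e'⟩ := h (u • Q)
        exact ⟨w * u, mul_mem hw hu, by rw [pow_succ', mul_smul, e, e', mul_smul]⟩
    have hg2c : g ^ 2 ∈ centralizer ((P : Subgroup G) : Set G) := by
      haveI : ((centralizer ((P : Subgroup G) : Set G)).subgroupOf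
          (normalizer ((P : Subgroup G) : Set G))).Normal := by
        rw [← normalizerMonoidHom_ker]; infer_instance
      have h1 := ((centralizer ((P : Subgroup G) : Set G)).subgroupOf
        (normalizer ((P : Subgroup G) : Set G))).pow_index_mem ⟨g, hg⟩
      rw [mem_subgroupOf] at h1
      obtain ⟨c, hc⟩ := relIndex_centralizer_dvd (by norm_num : Nat.Prime 3) (hP P)
      rw [show (2 : ℕ) = 3 - 1 from rfl, hc, pow_mul]
      exact pow_mem h1 c
    have hg2 := mem_of_centralizer_of_orbits hF (hP P) hg2c (hpow 2)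
    have ht2 : (g ^ 3) ^ 2 = 1 := by
      rw [← pow_mul, mul_comm, pow_mul, ← hP P]
      exact congrArg Subtype.val (pow_card_eq_one' (x := (⟨_, hg2⟩ : (P : Subgroup G))))
    have htc : g ^ 3 ∉ centralizer ((P : Subgroup G) : Set G) := fun h3 => hgc (by
      rw [pow_succ] at h3
      exact (mul_mem_cancel_left hg2c).1 h3)
    have a1 := fx_le_card_orbits (Y := Sylow 3 G) (by rw [hP P]; norm_num) (pow_mem hg 3) htc
    have a2 := four_dvd_card_sub_fx (Y := Sylow 3 G) h2 ht2
    have a3 : Nat.card (orbitRel.Quotient (P : Subgroup G) (Sylow 3 G)) ≤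
        fx (Sylow 3 G) (g ^ 3) := by
      rw [fx, ← Nat.card_coe_set_eq]
      apply Nat.card_le_card_of_surjective (fun a : fixedBy (Sylow 3 G) (g ^ 3) =>
        (Quotient.mk'' (a : Sylow 3 G) : orbitRel.Quotient (P : Subgroup G) (Sylow 3 G)))
      intro q
      refine Quotient.inductionOn' q fun Q => ?_
      have b1 := ncard_modEq_inter_fixedBy (S := orbit (P : Subgroup G) Q) Nat.prime_two ht2 (by
        rintro _ ⟨u, rfl⟩
        obtain ⟨w, hw, e⟩ := hpow 3 (u • Q)
        exact ⟨⟨w, hw⟩ * u, by rw [e]; exact mul_smul _ _ _⟩)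
      have b2 : (orbit (P : Subgroup G) Q).ncard ∣ 3 :=
        (Cfsg.Agent.H16.ncard_orbit_dvd (G := (P : Subgroup G)) Q).trans (hP P).dvd
      have b3 : 0 < (orbit (P : Subgroup G) Q ∩ fixedBy (Sylow 3 G) (g ^ 3)).ncard := by
        rcases (Nat.dvd_prime (by norm_num)).1 b2 with e | e <;>
        · rw [e] at b1; unfold Nat.ModEq at b1; omega
      obtain ⟨R, hR1, hR2⟩ := (Set.ncard_pos (Set.toFinite _)).1 b3
      exact ⟨⟨R, hR2⟩, Quotient.sound' (orbitRel_apply.2 hR1)⟩
    rw [horb] at a1 a3
    rw [hn] at a2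
    omega
  have hm3 : ¬ 3 ∣ (P : Subgroup G).relIndex (normalizer ((P : Subgroup G) : Set G)) :=
    fun h => P.not_dvd_index (h.trans (relIndex_dvd_index_of_le le_normalizer))
  have hN := Cfsg.Agent.H4.card_mul_relIndex (le_normalizer (H := (P : Subgroup G)))
  have hG := card_eq_card_sylow_mul P
  rw [hP P] at hN
  rw [hn, ← hN] at hG
  generalize (P : Subgroup G).relIndex (normalizer ((P : Subgroup G) : Set G)) = m at hm hm3 hN hG
  have hm11 : ¬ 11 ∣ m := fun h => by
    have := h.trans hm
    norm_num [Nat.factorial] at this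
  have hNQ : ∀ Q : Sylow 3 G, Nat.card (normalizer ((Q : Subgroup G) : Set G)) = 3 * m :=
    fun Q => by have := card_eq_card_sylow_mul Q; rw [hn, hG] at this; omega
  have h121 : ¬ 11 ^ 2 ∣ Nat.card G := by rw [hG]; omega
  obtain ⟨X⟩ : Nonempty (Sylow 11 G) := inferInstance
  have hX := card_sylow_of_dvd_of_not_sq_dvd (by rw [hG]; omega) h121 X
  have hxfix : ∀ x ∈ (X : Subgroup G), x ≠ 1 → fixedBy (Sylow 3 G) x = ∅ := by
    intro x hx hx1
    rw [Set.eq_empty_iff_forall_notMem]
    intro Q hQ
    have a1 : orderOf x ∣ 11 := hX ▸ orderOf_dvd_natCard (X : Subgroup G) hx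
    have a2 : orderOf x ∣ 3 * m := hNQ Q ▸ orderOf_dvd_natCard _ (sylow_smul_eq_iff.1 hQ)
    rcases (Nat.dvd_prime (by norm_num)).1 a1 with e | e
    · exact hx1 (orderOf_eq_one_iff.1 e)
    · rw [e] at a2; omega
  have hC : Nat.card (centralizer ((X : Subgroup G) : Set G)) = 11 := by
    apply card_eq_of_forall_prime (by norm_num) (le_centralizer_of_prime_card (by norm_num) hX)
      hX h121
    intro g hg hr
    obtain ⟨x, hx, hx1, hxp⟩ := exists_mem_ne_one_of_card (by norm_num) hX
    have a1 := fx_modEq_of_commute (Y := Sylow 3 G) (by norm_num) hxp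
      (mem_centralizer_iff.1 hg x hx)
    rw [hxfix x hx hx1, Set.inter_empty, Set.ncard_empty] at a1
    have a2 := card_modEq_fx (Y := Sylow 3 G) hr (pow_orderOf_eq_one g)
    have a3 := hlt g fun e => by rw [e, orderOf_one] at hr; exact Nat.not_prime_one hr
    rw [hn] at a2
    have a4 := (Nat.modEq_iff_dvd' a3.le).1 a2.symm
    have : fx (Sylow 3 G) g = 0 ∨ fx (Sylow 3 G) g = 11 := by
      unfold Nat.ModEq at a1; omega
    rcases this with e | e
    · rw [e, show 22 - 0 = 2 * 11 from rfl] at a4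
      rcases (Nat.Prime.dvd_mul hr).1 a4 with h | h
      · have h' := (Nat.prime_dvd_prime_iff_eq hr Nat.prime_two).1 h
        have := four_dvd_card_sub_fx (Y := Sylow 3 G) h2 (t := g) (h' ▸ pow_orderOf_eq_one g)
        rw [hn, e] at this
        norm_num at this
      · exact (Nat.prime_dvd_prime_iff_eq hr (by norm_num)).1 h
    · rw [e] at a4
      exact (Nat.prime_dvd_prime_iff_eq hr (by norm_num)).1 a4
  have hnc : ∀ y : G, orderOf y = 2 ∨ orderOf y = 5 →
      y ∉ centralizer ((X : Subgroup G) : Set G) := fun y hy h => by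
    have := hC ▸ orderOf_dvd_natCard _ h
    rcases hy with e | e <;> rw [e] at this <;> norm_num at this
  have hXorb : Nat.card (orbitRel.Quotient (X : Subgroup G) (Sylow 3 G)) = 2 := by
    have := card_mul_orbits_of_const_fx (Y := Sylow 3 G) (X : Subgroup G) (f := 0)
      fun u hu hu1 => by rw [fx, hxfix u hu hu1, Set.ncard_empty]
    rw [hX, hn] at this
    omega
  have he := relIndex_centralizer_dvd (by norm_num : Nat.Prime 11) hX
  have hNX := Cfsg.Agent.H4.card_mul_relIndex
    (Cfsg.Agent.H4.centralizer_le_normalizer' (X : Subgroup G))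
  have he1 : (centralizer ((X : Subgroup G) : Set G)).relIndex
      (normalizer ((X : Subgroup G) : Set G)) ≠ 1 := fun h =>
    not_normalizer_le_of_reduced (by norm_num) hO X hX (relIndex_eq_one.1 h)
  have h5 : ¬ 5 ∣ Nat.card (normalizer ((X : Subgroup G) : Set G)) := by
    intro h
    obtain ⟨y, hy⟩ := exists_prime_orderOf_dvd_card' 5 h
    have hy' : orderOf (y : G) = 5 := by rw [orderOf_coe, hy]
    have a1 := fx_le_card_orbits (Y := Sylow 3 G) (by rw [hX]; norm_num) y.2 (hnc y (Or.inr hy'))
    have a2 := card_modEq_fx (Y := Sylow 3 G) (by norm_num : Nat.Prime 5)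
      (hy' ▸ pow_orderOf_eq_one (y : G))
    rw [hXorb] at a1
    rw [hn] at a2
    have a3 : fx (Sylow 3 G) (y : G) = 2 := by unfold Nat.ModEq at a2; omega
    obtain ⟨Q, hQ⟩ := exists_fixed_of_fx_pos (Y := Sylow 3 G) (g := (y : G)) (by omega)
    have a4 := fx_modEq_one_of_centralizer (hP Q) (mem_centralizer_of_coprime (by norm_num) (hP Q)
      (sylow_smul_eq_iff.1 hQ) (by rw [hy']; norm_num))
    rw [a3] at a4
    exact absurd a4 (by decide)
  have hN22 : Nat.card (normalizer ((X : Subgroup G) : Set G)) = 22 := by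
    rw [← hNX, hC] at h5 ⊢
    generalize (centralizer ((X : Subgroup G) : Set G)).relIndex
      (normalizer ((X : Subgroup G) : Set G)) = e at he he1 h5
    have he' : e ≤ 10 := Nat.le_of_dvd (by norm_num) he
    interval_cases e <;> simp_all
  have hn11 : Nat.card (Sylow 11 G) = 3 * m := by
    have := card_eq_card_sylow_mul X
    rw [hN22, hG] at this; omega
  have hmod := card_sylow_modEq_one 11 G
  rw [hn11] at hmod
  have hm560 : m ∣ 560 := by
    have : m.Coprime 9 := (Nat.Coprime.pow_left 2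
      ((Nat.Prime.coprime_iff_not_dvd (by norm_num)).2 hm3)).symm
    exact this.dvd_of_dvd_mul_left (by simpa [Nat.factorial] using hm)
  have hm2 : m = 4 ∨ m = 70 := by
    have : ∀ m ∈ Nat.divisors 560, 3 * m % 11 = 1 → m = 4 ∨ m = 70 := by decide +kernel
    exact this m (Nat.mem_divisors.2 ⟨hm560, by norm_num⟩) hmod
  rcases hm2 with rfl | rfl
  · obtain ⟨t, ht⟩ := exists_prime_orderOf_dvd_card'
      (G := normalizer ((X : Subgroup G) : Set G)) 2 (by rw [hN22]; norm_num)
    have ht' : orderOf (t : G) = 2 := by rw [orderOf_coe, ht]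
    have a1 := fx_le_card_orbits (Y := Sylow 11 G) (by rw [hX]; norm_num) t.2 (hnc t (Or.inl ht'))
    rw [card_orbits_sylow hX (k := 1) hn11] at a1
    have a2 := four_dvd_card_sub_fx (Y := Sylow 11 G) h2 (ht' ▸ pow_orderOf_eq_one (t : G))
    have a3 := fx_pos (sylow_smul_eq_iff.2 t.2)
    rw [hn11] at a2
    omega
  · set N := normalizer ((P : Subgroup G) : Set G) with hNdef
    obtain ⟨Z⟩ : Nonempty (Sylow 7 N) := inferInstance
    have hZ : Nat.card (Z : Subgroup N) = 7 := card_sylow_of_dvd_of_not_sq_dvd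
      (by rw [← hN]; norm_num) (by rw [← hN]; norm_num) Z
    have hi : (Z : Subgroup N).index = 30 := by
      have := (Z : Subgroup N).card_mul_index
      rw [hZ, ← hN] at this; omega
    have b1 := Z.card_dvd_index
    have b2 := card_sylow_modEq_one 7 N
    have b3 := Cfsg.Agent.S4304.result (G := N)
    rw [hi] at b1
    have b4 : Nat.card (Sylow 7 N) = 1 := by
      have : ∀ m ∈ Nat.divisors 30, m % 7 = 1 → m = 1 ∨ m = 15 := by decide +kernel
      exact (this _ (Nat.mem_divisors.2 ⟨b1, by norm_num⟩) b2).resolve_right b3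
    haveI := (Nat.card_eq_one_iff_unique.1 b4).1
    haveI := Z.normal_of_subsingleton
    obtain ⟨y, hy⟩ := exists_prime_orderOf_dvd_card' (G := N) 5 (by rw [← hN]; norm_num)
    have hy' : orderOf (y : G) = 5 := by rw [orderOf_coe, hy]
    have hyc := mem_centralizer_of_coprime (by norm_num) hZ (y := y)
      (by rw [normalizer_eq_top]; exact mem_top _) (by rw [hy]; norm_num)
    obtain ⟨z, hz, hz1, hzp⟩ := exists_mem_ne_one_of_card (by norm_num) hZ
    have hzo : orderOf (z : G) = 7 := by
      rw [orderOf_coe]; exact orderOf_eq_prime hzp hz1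
    have hc : Commute (z : G) (y : G) := congrArg Subtype.val (mem_centralizer_iff.1 hyc z hz)
    have c1 := fx_modEq_one_of_centralizer (hP P) (mem_centralizer_of_coprime (by norm_num) (hP P)
      y.2 (by rw [hy']; norm_num))
    have c2 := card_modEq_fx (Y := Sylow 3 G) (by norm_num : Nat.Prime 5)
      (hy' ▸ pow_orderOf_eq_one (y : G))
    have c3 := hlt y fun e => by rw [e, orderOf_one] at hy'; norm_num at hy'
    have d1 := fx_modEq_one_of_centralizer (hP P) (mem_centralizer_of_coprime (by norm_num) (hP P)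
      z.2 (by rw [hzo]; norm_num))
    have d2 := card_modEq_fx (Y := Sylow 3 G) (by norm_num : Nat.Prime 7)
      (hzo ▸ pow_orderOf_eq_one (z : G))
    have d3 := hlt z fun e => by rw [e, orderOf_one] at hzo; norm_num at hzo
    rw [hn] at c2 d2
    have d4 : fx (Sylow 3 G) (z : G) = 1 := by unfold Nat.ModEq at d1 d2; omega
    have e1 := fx_modEq_of_commute (Y := Sylow 3 G) (by norm_num : Nat.Prime 7)
      (hzo ▸ pow_orderOf_eq_one (z : G)) hc
    have e2 : (fixedBy (Sylow 3 G) (y : G) ∩ fixedBy (Sylow 3 G) (z : G)).ncard ≤ 1 :=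
      d4 ▸ Set.ncard_le_ncard Set.inter_subset_right (Set.toFinite _)
    have e3 : 0 < (fixedBy (Sylow 3 G) (y : G) ∩ fixedBy (Sylow 3 G) (z : G)).ncard :=
      (Set.ncard_pos (Set.toFinite _)).2 ⟨P, hfixP y y.2, hfixP z z.2⟩
    unfold Nat.ModEq at c1 c2 e1
    omega

end Cfsg.Agent.S4346
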