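import Cfsg.Statements.S4354
import Mathlib
import Cfsg.Agent.H28.PCentral

set_option autoImplicit false
open Cfsg

namespace Cfsg.Agent.S4354

/-- Let G be a finite group and p a prime such that the Sylow p-subgroups of G are non-abelian while every element of p-power order has conjugacy class size prime to p, and suppose no nontrivial proper normal subgroup N of G has this property and no quotient G/N by such an N has it. Then G is simple. -/
theorem result {G : Type*} [Group G] [Finite G]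
    (p : ℕ) [Fact p.Prime] (h : ((∃ P : Sylow p G, ¬ IsMulCommutative P) ∧ ∀ x : G, (∃ k : ℕ, orderOf x = p ^ k) → ¬ p ∣ (Subgroup.centralizer ({x} : Set G)).index))
    (hmin : ∀ (N : Subgroup G) [N.Normal], N ≠ ⊥ → N ≠ ⊤ →
      ¬ ((∃ P : Sylow p N, ¬ IsMulCommutative P) ∧ ∀ x : N, (∃ k : ℕ, orderOf x = p ^ k) → ¬ p ∣ (Subgroup.centralizer ({x} : Set N)).index) ∧
      ¬ ((∃ P : Sylow p (G ⧸ N), ¬ IsMulCommutative P) ∧ ∀ x : (G ⧸ N), (∃ k : ℕ, orderOf x = p ^ k) → ¬ p ∣ (Subgroup.centralizer ({x} : Set (G ⧸ N))).index)) :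
    IsSimpleGroup G := by
  obtain ⟨⟨P, hP⟩, h⟩ := h
  have hp : p.Prime := Fact.out
  haveI : Nontrivial G := by
    by_contra hnt
    rw [not_nontrivial_iff_subsingleton] at hnt
    exact hP ⟨⟨fun a b => Subsingleton.elim _ _⟩⟩
  refine ⟨fun N hN => ?_⟩
  by_contra hne
  rw [not_or] at hne
  obtain ⟨h1, h2⟩ := hmin N hne.1 hne.2
  apply hP
  apply Cfsg.Agent.H28.sylow_comm_of_normal h N
  · intro S a b ha hb haN hbN
    by_contra hc
    apply h1
    constructor
    · obtain ⟨T, hT⟩ := (S.isPGroup'.comap_subtype (K := N)).exists_le_sylow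
      refine ⟨T, fun hT' => hc ?_⟩
      have := hT'.is_comm.comm (⟨⟨a, haN⟩, hT ha⟩ : (T : Subgroup N)) ⟨⟨b, hbN⟩, hT hb⟩
      exact congrArg (fun t : (T : Subgroup N) => ((t : N) : G)) this
    · rintro x ⟨k, hk⟩ hd
      exact h x ⟨k, by rw [Subgroup.orderOf_coe, hk]⟩
        (hd.trans (Cfsg.Agent.H27.index_centralizer_normal_dvd N x))
  · intro S a b ha hb
    by_contra hc
    apply h2
    constructor
    · obtain ⟨T, hT⟩ := (S.isPGroup'.map (QuotientGroup.mk' N)).exists_le_sylow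
      refine ⟨T, fun hT' => hc ?_⟩
      have := hT'.is_comm.comm (⟨(a : G ⧸ N), hT ⟨a, ha, rfl⟩⟩ : (T : Subgroup (G ⧸ N)))
        ⟨(b : G ⧸ N), hT ⟨b, hb, rfl⟩⟩
      exact congrArg Subtype.val this
    · rintro y ⟨k, hk⟩ hd
      obtain ⟨x, rfl, j, hj⟩ := Cfsg.Agent.H27.exists_lift_pow (QuotientGroup.mk' N)
        (QuotientGroup.mk'_surjective N) (n := p) (k := k) (y := y)
        (by rw [← hk, pow_orderOf_eq_one])
      obtain ⟨i, -, hi⟩ := (Nat.dvd_prime_pow hp).1 (orderOf_dvd_of_pow_eq_one hj)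
      exact h x ⟨i, hi⟩ (hd.trans (Cfsg.Agent.H27.index_centralizer_map_dvd _
        (QuotientGroup.mk'_surjective N) x))

end Cfsg.Agent.S4354
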