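import Cfsg.Statements.S4359
import Mathlib
import Cfsg.Agent.H27.Sims

set_option autoImplicit false
open Pointwise
open Cfsg

namespace Cfsg.Agent.S4359

open Subgroup Cfsg.Agent.FT in
theorem main {G : Type*} [Group G] [Finite G] {P K : Subgroup G} {h : G} {p n : ℕ} (hp : p.Prime)
    (hN : cj h P ≤ N(P ⊓ cj h P)) (hi : (P ⊓ cj h P).relIndex (cj h P) = p)
    (h1 : ∀ Q, Q ⊴ P → h ∈ N(Q) → Q = ⊥) (hn : 1 ≤ n) (hK : K = ⨆ i ∈ Finset.range (n + 1), cj (h ^ i) P)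
    (h2 : P ⊓ Z(K) = ⊥) : ∃ t : ℕ, Nat.card P = p ^ t ∧ 1 ≤ t ∧ t ≤ 3 * n ∧ t ≠ 3 * n - 1 := by
  obtain ⟨t, u, x, a1, a2, a3, a4, a5, a6, a7⟩ := H27.sims_main hp hN hi h1
  have : 2 * u ≤ n + t := by
    by_contra hc
    refine a6 (mem_bot.1 (h2 ▸ ⟨a5, ?_, le_cen1.1 ?_⟩))
    · rw [hK]
      refine mem_iSup_of_mem 0 (mem_iSup_of_mem (Finset.mem_range.2 (by omega)) ?_)
      rwa [pow_zero, cj_one]
    · rw [hK]
      refine iSup₂_le fun i hi => ?_
      have := Finset.mem_range.1 hi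
      rw [← zpow_natCast]
      exact a7 i (by omega) (by omega)
  exact ⟨t, a1, by omega, by omega, by omega⟩

/-- Let P be a subgroup of a finite group G and g an element such that P ∩ g⁻¹Pg is a normal subgroup of prime index p in g⁻¹Pg. Let n ≥ 1 and let K be the subgroup generated by P and its conjugates g⁻ⁱPgⁱ for i ≤ n. Suppose that g normalizes no non-identity normal subgroup of P and that P meets the center of K trivially. Then the order of P is pᵗ for some t with 1 ≤ t ≤ 3n and t ≠ 3n - 1. -/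
theorem result {G : Type*} [Group G] [Finite G]
    (P : Subgroup G) (g : G) (p : ℕ) (hp : p.Prime)
    (hN : ((P ⊓ MulAut.conj g⁻¹ • P).subgroupOf (MulAut.conj g⁻¹ • P)).Normal)
    (hidx : (P ⊓ MulAut.conj g⁻¹ • P).relIndex (MulAut.conj g⁻¹ • P) = p)
    (n : ℕ) (hn : 1 ≤ n) (K : Subgroup G) (hK : K = ⨆ i ∈ Finset.range (n + 1), MulAut.conj (g ^ i)⁻¹ • P)
    (h1 : ∀ Q : Subgroup G, Q ≤ P → (Q.subgroupOf P).Normal → MulAut.conj g • Q = Q → Q = ⊥)
    (h2 : P ⊓ (Subgroup.center K).map K.subtype = ⊥) :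
    ∃ t : ℕ, Nat.card P = p ^ t ∧ 1 ≤ t ∧ t ≤ 3 * n ∧ t ≠ 3 * n - 1 := by
  refine main (h := g⁻¹) (K := K) hp ((Subgroup.normal_subgroupOf_iff_le_normalizer inf_le_right).1 hN) hidx
    (fun Q hQ hg => h1 Q hQ.1 ((Subgroup.normal_subgroupOf_iff_le_normalizer hQ.1).2 hQ.2)
      (FT.cj_of_mem_nrm (inv_mem_iff.1 hg))) hn ?_ (by rw [FT.center_eq_map]; exact h2)
  rw [hK]
  simp only [inv_pow]
  rfl

end Cfsg.Agent.S4359
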