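import Mathlib
import Cfsg.Agent.H28.Cls
-- Template for statement S4365 (row 4365; see /opt/grader/pristine/manifest.json for weights).
-- Copy to Cfsg/Agent/S4365.lean and replace the sorry. The statement below is byte-identical to the frozen
-- statement Cfsg.CfsgFrozen.S4365 (Cfsg/Statements/S4365.lean; the theorem Cfsg.fg11_p_group_with_two_class_sizes_central_quotient_exponent_p);
-- the grader kernel-checks Cfsg.Agent.S4365.result against that frozen type. Keep the theorem IN THIS FILE
-- (a `result` declared elsewhere and merely imported here is not credited); helpers may live anywhere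
-- under Cfsg/Agent/.
import Cfsg.Statements.S4365
-- import your own Cfsg.Agent.* helpers here

set_option autoImplicit false
open Cfsg

namespace Cfsg.Agent.S4365

/-- Let P be a finite p-group whose conjugacy class sizes are exactly 1 and pᵃ for some a ≥ 1. Then every element of P has its p-th power in the center of P (P/Z(P) has exponent p). -/
theorem result {P : Type*} [Group P] [Finite P] (p : ℕ) [Fact p.Prime]
    (hP : IsPGroup p P) (a : ℕ) (ha : 1 ≤ a)
    (hcs : {k : ℕ | ∃ x : P, (Subgroup.centralizer ({x} : Set P)).index = k} = {1, p ^ a}) (x : P) :
    x ^ p ∈ Subgroup.center P := by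
  open Subgroup Cfsg.Agent.FT Cfsg.Agent.H28 in
  open scoped commutatorElement Pointwise in
  · refine pow_mem_center_of_rank_one (m := p ^ a) hP (fun y => ?_) x
    have : (C[y]).index ∈ ({1, p ^ a} : Set ℕ) := hcs ▸ ⟨y, rfl⟩
    exact this

end Cfsg.Agent.S4365
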