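import Mathlib
import Cfsg.Agent.H28.Util3
import Cfsg.Agent.H3.Two
import Cfsg.Agent.H3.Omega
import Cfsg.Agent.H3.HallPetrescu
-- Template for statement S4370 (row 4370; see /opt/grader/pristine/manifest.json for weights).
-- Copy to Cfsg/Agent/S4370.lean and replace the sorry. The statement below is byte-identical to the frozen
-- statement Cfsg.CfsgFrozen.S4370 (Cfsg/Statements/S4370.lean; the theorem Cfsg.fg11_nilpotent_groups_with_cyclic_proper_centralizers);
-- the grader kernel-checks Cfsg.Agent.S4370.result against that frozen type. Keep the theorem IN THIS FILE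
-- (a `result` declared elsewhere and merely imported here is not credited); helpers may live anywhere
-- under Cfsg/Agent/.
import Cfsg.Statements.S4370
-- import your own Cfsg.Agent.* helpers here

set_option autoImplicit false
open Cfsg

namespace Cfsg.Agent.S4370

/-- Let G be a finite non-abelian nilpotent group. Then the centralizer of every non-central element of G is cyclic if and only if G is isomorphic to the direct product of a generalized quaternion group and a cyclic group of odd order. -/
theorem result {G : Type*} [Group G] [Finite G] (hG : Group.IsNilpotent G)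
    (hna : ¬ IsMulCommutative G) :
    (∀ x : G, x ∉ Subgroup.center G → IsCyclic (Subgroup.centralizer ({x} : Set G))) ↔
      ∃ (k m : ℕ), 1 ≤ k ∧ Odd m ∧ Nonempty (G ≃* QuaternionGroup (2 ^ k) × Multiplicative (ZMod m)) := by
  open Subgroup Cfsg.Agent.FT Cfsg.Agent.H28 Cfsg.Agent.H3 in
  open scoped commutatorElement Pointwise in
  · have hnil : Nil (⊤ : Subgroup G) := nil_top.2 hG
    constructor
    · intro h
      have h1 : ∀ A : Subgroup G, Ab A → Cyc A := by
        intro A hA
        by_cases hc : A ≤ center G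
        · obtain ⟨x, -, hx⟩ := SetLike.not_le_iff_exists.1 (mt ab_iff.2 (mt ab_top.1 hna))
          refine Cyc.mono (h x fun e => hx (mem_cen.2 fun y _ => mem_center_iff.1 e y)) fun y hy => ?_
          exact mem_cen1.2 (mem_center_iff.1 (hc hy) x).symm
        · obtain ⟨x, h1, h2⟩ := SetLike.not_le_iff_exists.1 hc
          exact Cyc.mono (h x h2) (hA.le_cen1 h1)
      have hd := hnil.dp_pcore {2}
      have h2 : Ab O[{2}ᶜ]((⊤ : Subgroup G)) := nil_ab_of_forall (hnil.mono le_top) fun p hp hd => by
        rcases cyc_or_mc hp (pcore_pi {p} _) (fun A _ => h1 A) with h | ⟨rfl, -⟩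
        · exact h.ab
        · exact absurd hd ((pcore_pi {2}ᶜ ⊤).not_dvd hp rfl)
      rcases cyc_or_mcq_of_rank (pcore_pi {2} (⊤ : Subgroup G)) (prank_le_iff_forall.2 fun m A hA =>
        hA.prank_eq ▸ (h1 A hA.ab).prank_le 2) with h3 | ⟨a, b, m, h3⟩
      · exact absurd (ab_top.1 (hd.cp.ab h3.ab h2)) hna
      · obtain ⟨e1⟩ := dp_equiv hd
        obtain ⟨e2⟩ := h3.iso
        have := h3.two_le
        exact ⟨m - 1, _, by omega, odd_of_two' (pcore_pi _ _), ⟨(topEquiv.symm.trans e1).trans
          (e2.prodCongr (zmodCyclicMulEquiv (h1 _ h2)).symm)⟩⟩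
    · rintro ⟨k, m, hk, hm, ⟨e⟩⟩ x hx
      haveI : NeZero m := ⟨hm.pos.ne'⟩
      have hq : MCQ (⊤ : Subgroup (QuaternionGroup (2 ^ k))) (.a 1) (.xa 0) (k + 1) :=
        mcq_quaternion (m := k + 1) (by omega)
      have h1 : (e x).1 ∉ C((⊤ : Subgroup (QuaternionGroup (2 ^ k)))) := fun h =>
        hx (mem_center_iff.2 fun y => e.injective (by
          rw [map_mul, map_mul]
          exact Prod.ext (mem_cen.1 h _ trivial) (mul_comm _ _)))
      have h2 : Cyc (⊤ ⊓ C[(e x).1]) := by
        by_cases hc : (e x).1 ∈ ⟪QuaternionGroup.a 1⟫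
        · rw [hq.cen1_of_mem hc fun h => h1 (hq.center.ge h).2]
          exact cyc_zpowers _
        · have h3 := hq.out (mem_top _) hc
          rw [h3.cen1_b, ← h3.sq, sup_eq_right.2 (zpowers_pow_le _ _)]
          exact cyc_zpowers _
      have h3 := (h2.map (MonoidHom.inl _ (Multiplicative (ZMod m)))).sup_cop
        ((cyc_top.2 inferInstance).map (MonoidHom.inr _ (Multiplicative (ZMod m)))) (by
          rintro _ ⟨y, -, rfl⟩
          refine mem_cen.2 ?_
          rintro _ ⟨z, -, rfl⟩
          simp) (((hq.pGrp.mono le_top).map _).cop (PiGrp.map _ (piGrp_top.2 (p'nat_of_not_dvd (by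
            simpa using hm.not_two_dvd_nat)))))
      refine Cyc.mono (h3.map e.symm.toMonoidHom) fun y hy => ⟨e y, ?_, by simp⟩
      have h4 : e y = MonoidHom.inl _ _ (e y).1 * MonoidHom.inr _ _ (e y).2 := by simp
      rw [h4]
      refine mul_mem (mem_sup_left (mem_map_of_mem _ ⟨trivial, mem_cen1.2 ?_⟩))
        (mem_sup_right (mem_map_of_mem _ trivial))
      rw [← Prod.fst_mul, ← map_mul, mem_cen1.1 hy, map_mul, Prod.fst_mul]

end Cfsg.Agent.S4370
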