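import Cfsg.Statements.S4371
import Mathlib
import Cfsg.Agent.H1.No3

set_option autoImplicit false
open Cfsg

namespace Cfsg.Agent.S4371

open Cfsg.Agent.H1 Cfsg.Agent.HX

/-- Let G be a finite non-solvable group in which no prime divides three pairwise distinct element orders. Then one of the following holds, where 'a product of at most two primes' always counts primes with multiplicity: the quotient of G by its largest normal 2-subgroup is isomorphic to PSL(2, q) with q = 2ᶠ ≥ 4 and each of q + 1, q - 1 a product of at most two primes; G is isomorphic to PSL(2, q) with q > 5, q ≡ 3 or 5 (mod 8) and each of (q + 1)/2, (q - 1)/2 a product of at most two primes; G is isomorphic to PSL(2, 7), PSL(2, 9) or PSL(3, 4); or G is simple of order q²(q² + 1)(q - 1), the order of the Suzuki group Sz(q), where q = 2²ⁿ⁺¹ ≥ 8, and each of q - 1, q - r + 1, q + r + 1 (r = 2ⁿ⁺¹) is a product of at most two primes. -/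
theorem result {G : Type*} [Group G] [Finite G]
    (hG : ¬ Group.IsSolvable G) (h3 : (∀ p : ℕ, p.Prime → ∀ a b c : G, orderOf a ≠ orderOf b → orderOf b ≠ orderOf c → orderOf a ≠ orderOf c → ¬ (p ∣ orderOf a ∧ p ∣ orderOf b ∧ p ∣ orderOf c))) :
    (∃ (F : Type) (_ : Field F) (_ : Fintype F), CharP F 2 ∧ 4 ≤ Fintype.card F ∧
        (Fintype.card F + 1).primeFactorsList.length ≤ 2 ∧ (Fintype.card F - 1).primeFactorsList.length ≤ 2 ∧
        Nonempty (G ⧸ Cfsg.pCore 2 G ≃* Matrix.ProjectiveSpecialLinearGroup (Fin 2) F)) ∨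
    (∃ (F : Type) (_ : Field F) (_ : Fintype F), 5 < Fintype.card F ∧ (Fintype.card F % 8 = 3 ∨ Fintype.card F % 8 = 5) ∧
        ((Fintype.card F + 1) / 2).primeFactorsList.length ≤ 2 ∧ ((Fintype.card F - 1) / 2).primeFactorsList.length ≤ 2 ∧
        Nonempty (G ≃* Matrix.ProjectiveSpecialLinearGroup (Fin 2) F)) ∨
    (∃ (F : Type) (_ : Field F) (_ : Fintype F), (Fintype.card F = 7 ∨ Fintype.card F = 9) ∧
        Nonempty (G ≃* Matrix.ProjectiveSpecialLinearGroup (Fin 2) F)) ∨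
    (∃ (F : Type) (_ : Field F) (_ : Fintype F), Fintype.card F = 4 ∧ Nonempty (G ≃* Matrix.ProjectiveSpecialLinearGroup (Fin 3) F)) ∨
    (∃ n : ℕ, 1 ≤ n ∧ IsSimpleGroup G ∧ Nat.card G = (2 ^ (2 * n + 1)) ^ 2 * ((2 ^ (2 * n + 1)) ^ 2 + 1) * (2 ^ (2 * n + 1) - 1) ∧
        (2 ^ (2 * n + 1) - 1).primeFactorsList.length ≤ 2 ∧ (2 ^ (2 * n + 1) - 2 ^ (n + 1) + 1).primeFactorsList.length ≤ 2 ∧
        (2 ^ (2 * n + 1) + 2 ^ (n + 1) + 1).primeFactorsList.length ≤ 2) := by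
  have h : No3 G := by
    rintro p _ _ _ hp ⟨a, rfl⟩ ⟨b, rfl⟩ ⟨c, rfl⟩ ha hb hc
    by_contra! e
    exact h3 p hp a b c e.1 e.2.1 e.2.2 ⟨ha, hb, hc⟩
  rcases h.cases hG with ⟨n, hn, e⟩ | ⟨q, h5, hq, e⟩ | e | e | ⟨m, hm, e⟩
  · obtain ⟨h1, h2⟩ := pslq_even e (by omega)
    obtain ⟨F, _, _, hF, e⟩ := e
    refine Or.inl ⟨F, inferInstance, inferInstance, charP_of_card_eq_prime_pow hF, ?_, ?_, ?_, e⟩ <;> rw [hF]
    · exact Nat.pow_le_pow_right two_pos hn
    · exact h.len h2.quo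
    · exact h.len h1.quo
  · obtain ⟨a, rfl⟩ : ∃ a, q = 2 * a + 1 := ⟨q / 2, by omega⟩
    obtain ⟨h1, h2⟩ := pslq_odd e
    obtain ⟨F, _, _, hF, e⟩ := e
    refine Or.inr (Or.inl ⟨F, inferInstance, inferInstance, hF ▸ h5, hF ▸ hq, ?_, ?_, e⟩) <;> rw [hF]
    · rw [show (2 * a + 1 + 1) / 2 = a + 1 by omega]; exact h.len h2
    · rw [show (2 * a + 1 - 1) / 2 = a by omega]; exact h.len h1
  · rcases e with ⟨F, _, _, hF, e⟩ | ⟨F, _, _, hF, e⟩
    · exact Or.inr (Or.inr (Or.inl ⟨F, _, _, Or.inl hF, e⟩))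
    · exact Or.inr (Or.inr (Or.inl ⟨F, _, _, Or.inr hF, e⟩))
  · exact Or.inr (Or.inr (Or.inr (Or.inl e)))
  · obtain ⟨-, h1, h2, h4⟩ := szm_orders e hm
    obtain ⟨F, _, S, -⟩ := e.data hm
    exact Or.inr (Or.inr (Or.inr (Or.inr ⟨m, hm, S.isSimpleGroup, e.card hm, h.len h1, h.len h4,
      h.len h2⟩)))

end Cfsg.Agent.S4371
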