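import Mathlib
import Cfsg.Agent.H28.Util2
-- Template for statement S4377 (row 4377; see /opt/grader/pristine/manifest.json for weights).
-- Copy to Cfsg/Agent/S4377.lean and replace the sorry. The statement below is byte-identical to the frozen
-- statement Cfsg.CfsgFrozen.S4377 (Cfsg/Statements/S4377.lean; the theorem Cfsg.fg11_same_order_type_iff_same_power_map_kernel_counts);
-- the grader kernel-checks Cfsg.Agent.S4377.result against that frozen type. Keep the theorem IN THIS FILE
-- (a `result` declared elsewhere and merely imported here is not credited); helpers may live anywhere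
-- under Cfsg/Agent/.
import Cfsg.Statements.S4377
-- import your own Cfsg.Agent.* helpers here

set_option autoImplicit false
open Cfsg

namespace Cfsg.Agent.S4377

section
open Subgroup Cfsg.Agent.FT Cfsg.Agent.H28
open scoped commutatorElement Pointwise
set_option linter.style.haveILetI false

theorem cnt {G : Type*} [Group G] [Finite G] {n : ℕ} (hn : n ≠ 0) :
    Nat.card {g : G // g ^ n = 1} = ∑ d ∈ n.divisors, Nat.card {g : G // orderOf g = d} := by
  have := ncard_eq_sum_of_fibers (s := {g : G | g ^ n = 1}) n.divisors orderOf
    (fun a ha => Nat.mem_divisors.2 ⟨orderOf_dvd_of_pow_eq_one ha, hn⟩)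
  rw [← Nat.card_coe_set_eq] at this
  refine this.trans (Finset.sum_congr rfl fun d hd => ?_)
  rw [← Nat.card_coe_set_eq]
  refine Nat.card_congr (Equiv.subtypeEquivRight fun g => ⟨fun h => h.2, fun h => ⟨?_, h⟩⟩)
  exact orderOf_dvd_iff_pow_eq_one.1 (h ▸ Nat.dvd_of_mem_divisors hd)

end

/-- Two finite groups have the same number of elements of each order if and only if, for every n, they have the same number of elements g with gⁿ = 1. -/
theorem result {G H : Type*} [Group G] [Finite G] [Group H] [Finite H] :
    (∀ n : ℕ, Nat.card {g : G // orderOf g = n} = Nat.card {h : H // orderOf h = n}) ↔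
      ∀ n : ℕ, Nat.card {g : G // g ^ n = 1} = Nat.card {h : H // h ^ n = 1} := by
  open Subgroup Cfsg.Agent.FT Cfsg.Agent.H28 in
  open scoped commutatorElement Pointwise in
  constructor
  · intro h n
    let e : ∀ n : ℕ, {g : G // orderOf g = n} ≃ {g : H // orderOf g = n} := fun n =>
      (Finite.card_eq.1 (h n)).some
    refine Nat.card_congr ((Equiv.ofFiberEquiv e).subtypeEquiv fun g => ?_)
    rw [← orderOf_dvd_iff_pow_eq_one, ← orderOf_dvd_iff_pow_eq_one, Equiv.ofFiberEquiv_map e g]
  · intro h n
    induction n using Nat.strong_induction_on with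
    | _ n ih =>
      rcases Nat.eq_zero_or_pos n with rfl | hn
      · haveI : IsEmpty {g : G // orderOf g = 0} := ⟨fun g => (orderOf_pos g.1).ne' g.2⟩
        haveI : IsEmpty {g : H // orderOf g = 0} := ⟨fun g => (orderOf_pos g.1).ne' g.2⟩
        rw [Nat.card_of_isEmpty, Nat.card_of_isEmpty]
      · have := h n
        rw [cnt hn.ne', cnt hn.ne', ← Nat.insert_self_properDivisors hn.ne',
          Finset.sum_insert Nat.self_notMem_properDivisors,
          Finset.sum_insert Nat.self_notMem_properDivisors,
          Finset.sum_congr rfl fun d hd => ih d (Nat.mem_properDivisors.1 hd).2] at this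
        exact Nat.add_right_cancel this

end Cfsg.Agent.S4377
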