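import Cfsg.Statements.S4381
import Mathlib
import Cfsg.Agent.H28.Act
import Cfsg.Agent.FT.BG01
import Cfsg.Agent.S0025

set_option autoImplicit false
open Pointwise
open Cfsg

namespace Cfsg.Agent.S4381

open Subgroup Cfsg.Agent.H28 Cfsg.Agent.FT
open scoped Pointwise

section
variable {A G : Type*} [Group A] [Finite A] [Group G] [Finite G] [MulDistribMulAction A G]

theorem phi_inv (a : A) (x : G) (hx : x ∈ frattini G) : a • x ∈ frattini G :=
  (characteristic_iff_map_le.1 inferInstance (MulDistribMulAction.toMulEquiv G a)) ⟨x, hx, rfl⟩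

theorem ex_max {H : Subgroup G} (h1 : H ≠ ⊤) (h2 : ∀ a : A, ∀ x ∈ H, a • x ∈ H) :
    ∃ M : Subgroup G, H ≤ M ∧ M ≠ ⊤ ∧ (∀ a : A, ∀ x ∈ M, a • x ∈ M) ∧
      ∀ L : Subgroup G, M < L → (∀ a : A, ∀ x ∈ L, a • x ∈ L) → L = ⊤ := by
  obtain ⟨M, hM, ⟨h1, h2⟩, h3⟩ := FT.exists_max
    (fun M : Subgroup G => M ≠ ⊤ ∧ ∀ a : A, ∀ x ∈ M, a • x ∈ M) ⟨h1, h2⟩
  exact ⟨M, hM, h1, h2, fun K hK h4 => by_contra fun h5 => hK.ne' (h3 K ⟨h5, h4⟩ hK.le)⟩

theorem phi_le {M : Subgroup G} (h1 : M ≠ ⊤) (h2 : ∀ a : A, ∀ x ∈ M, a • x ∈ M)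
    (h3 : ∀ L : Subgroup G, M < L → (∀ a : A, ∀ x ∈ L, a • x ∈ L) → L = ⊤) : frattini G ≤ M := by
  by_contra hn
  refine h1 (frattini_nongenerating (h3 _ (left_lt_sup.2 hn) ?_))
  rw [← al_top_norms_iff, gl_sup] at *
  exact normsY h2 (al_top_norms_iff.2 phi_inv)

theorem ex_syl (hcop : (Nat.card A).Coprime (Nat.card G)) (hsol : Group.IsSolvable A ∨ Group.IsSolvable G)
    (p : ℕ) [Fact p.Prime] : ∃ P : Subgroup G, Nat.card P = p ^ (Nat.card G).factorization p ∧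
      ∀ a : A, ∀ x ∈ P, a • x ∈ P := by
  obtain ⟨P, -, hP⟩ := S0025.result (al G (⊤ : Subgroup A)) (gl A (⊤ : Subgroup G)) (al_norms_top ⊤)
    (by rwa [card_al_top, card_gl_top])
    (hsol.elim (fun h => Or.inl (sol_al.2 inferInstance)) fun h => Or.inr (sol_gl.2 inferInstance))
    p ⊥ bot_le IsPGroup.of_bot (le_normalizer_of_normal)
  obtain ⟨Q, -, hQ⟩ := exists_gl (map_subtype_le (P : Subgroup (gl A (⊤ : Subgroup G))))
  refine ⟨Q, ?_, al_top_norms_iff.1 (hQ ▸ hP)⟩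
  rw [← card_gl (A := A), hQ, card_map_of_injective (subtype_injective _), P.card_eq_multiplicity,
    card_gl_top]

theorem maschke (hcop : (Nat.card A).Coprime (Nat.card G)) {p : ℕ} (hp : p.Prime) (hG : IsPGroup p G)
    {M : Subgroup G} (h1 : frattini G < M) (h2 : ∀ a : A, ∀ x ∈ M, a • x ∈ M) :
    ∃ N : Subgroup G, N ≠ ⊤ ∧ (∀ a : A, ∀ x ∈ N, a • x ∈ N) ∧ M ⊔ N = ⊤ := by
  haveI := Fact.mk hp
  haveI : (gl A (frattini G)).Normal := nml_top_iff.1 (gl_nml_top phi_inv)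
  let π := QuotientGroup.mk' (gl A (frattini G))
  have hk : π.ker = gl A (frattini G) := QuotientGroup.ker_mk' _
  have hPhi := (PiGrp.Phi_le_iff (K := frattini G) (P := ⊤) (pGrp_of_isPGroup hp (hG.to_subgroup ⊤)) hp).1
    (map_le_iff_le_comap.2 (frattini_le_comap_frattini_of_surjective fun x => ⟨⟨x, trivial⟩, rfl⟩))
  have hV : Abelem p ((gl A ⊤).map π) := by
    rw [abelem_iff]
    constructor
    · rw [ab_iff_der, ← map_commutator, Subgroup.map_eq_bot_iff, hk, ← gl_comm, gl_le_gl]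
      exact hPhi.1
    · rintro _ ⟨_, ⟨x, -, rfl⟩, rfl⟩
      rw [← map_pow, ← MonoidHom.mem_ker, hk, ← map_pow, gi_mem_gl]
      exact hPhi.2 x trivial
  have hpG : p ∣ Nat.card G := by
    obtain ⟨k, hk⟩ := hG.exists_card_eq
    rcases k with _ | k
    · have : Subsingleton G := (Nat.card_eq_one_iff_unique.1 hk).1
      exact absurd (Subsingleton.elim _ _) h1.ne
    · rw [hk]; exact dvd_pow_self _ k.succ_ne_zero
  have hA : PiGrp {p}ᶜ (al G (⊤ : Subgroup A)) := by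
    rw [piGrp_al, piGrp_top]
    rintro q hq hd rfl
    exact hq.one_lt.ne' (Nat.eq_one_of_dvd_coprimes hcop hd hpG)
  obtain ⟨W, hW, hn⟩ := Maschke_abelem hp hV (hA.map π) (map_mono (gl_le_top M))
    (map_norms _ (al_norms_top ⊤)) (map_norms _ (al_top_norms_iff.2 h2))
  have hle : W.comap π ≤ gl A ⊤ := by
    refine (comap_mono (hW.sup ▸ le_sup_right)).trans ?_
    rw [comap_map_eq, hk]; exact sup_le le_rfl (gl_le_top _)
  obtain ⟨N, -, hN⟩ := exists_gl hle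
  have hWN : (gl A N).map π = W := by
    rw [hN]; exact map_comap_eq_self_of_surjective (QuotientGroup.mk'_surjective _) W
  refine ⟨N, ?_, al_top_norms_iff.1 (hN ▸ (le_comap_map π _).trans (comap_norms _ hn)), ?_⟩
  · rintro rfl
    have := hW.inf
    rw [← hWN, inf_eq_left.2 (map_mono (gl_le_top M)), Subgroup.map_eq_bot_iff, hk, gl_le_gl] at this
    exact h1.not_ge this
  · have := hW.sup
    rw [← hWN, ← Subgroup.map_sup, ← gl_sup] at this
    have h3 := congrArg (comap π) this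
    rw [comap_map_eq, comap_map_eq, hk, ← gl_sup, ← gl_sup, gl_inj, top_sup_eq] at h3
    exact frattini_nongenerating h3

end

/-- Let the finite group A act by automorphisms on the finite group G with the orders of A and G coprime, and assume that A or G is solvable. Call a proper A-invariant subgroup of G maximal A-invariant when no A-invariant subgroup lies strictly between it and G. Then all maximal A-invariant subgroups of G are conjugate under elements of the fixed-point subgroup C_G(A) if and only if G is a p-group for some prime p and A leaves invariant no subgroup strictly between the Frattini subgroup of G and G. In that case, if G is nontrivial, the Frattini subgroup is the only maximal A-invariant subgroup (a trivial G has none). -/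
theorem result {A G : Type*} [Group A] [Finite A]
    [Group G] [Finite G] [MulDistribMulAction A G] (hcop : (Nat.card A).Coprime (Nat.card G)) (hsol : Group.IsSolvable A ∨ Group.IsSolvable G) :
    ((∀ M N : Subgroup G, (M ≠ ⊤ ∧ (∀ a : A, ∀ x ∈ M, a • x ∈ M) ∧ ∀ L : Subgroup G, M < L → (∀ a : A, ∀ x ∈ L, a • x ∈ L) → L = ⊤) → (N ≠ ⊤ ∧ (∀ a : A, ∀ x ∈ N, a • x ∈ N) ∧ ∀ L : Subgroup G, N < L → (∀ a : A, ∀ x ∈ L, a • x ∈ L) → L = ⊤) →
        ∃ c : G, (∀ a : A, a • c = c) ∧ N = MulAut.conj c • M) ↔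
      ((∃ p : ℕ, p.Prime ∧ IsPGroup p G) ∧ ∀ L : Subgroup G, frattini G < L → (∀ a : A, ∀ x ∈ L, a • x ∈ L) → L = ⊤)) ∧
    (((∃ p : ℕ, p.Prime ∧ IsPGroup p G) ∧ ∀ L : Subgroup G, frattini G < L → (∀ a : A, ∀ x ∈ L, a • x ∈ L) → L = ⊤) →
      ∀ M : Subgroup G, (M ≠ ⊤ ∧ (∀ a : A, ∀ x ∈ M, a • x ∈ M) ∧ ∀ L : Subgroup G, M < L → (∀ a : A, ∀ x ∈ L, a • x ∈ L) → L = ⊤) ↔ (M = frattini G ∧ M ≠ ⊤)) := by
  have part2 : (∀ L : Subgroup G, frattini G < L → (∀ a : A, ∀ x ∈ L, a • x ∈ L) → L = ⊤) →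
      ∀ M : Subgroup G, (M ≠ ⊤ ∧ (∀ a : A, ∀ x ∈ M, a • x ∈ M) ∧ ∀ L : Subgroup G, M < L →
        (∀ a : A, ∀ x ∈ L, a • x ∈ L) → L = ⊤) ↔ (M = frattini G ∧ M ≠ ⊤) := fun h M => by
    constructor
    · rintro ⟨h1, h2, h3⟩
      exact ⟨((phi_le h1 h2 h3).eq_or_lt.resolve_right fun e => h1 (h M e h2)).symm, h1⟩
    · rintro ⟨rfl, h1⟩
      exact ⟨h1, phi_inv, h⟩
  refine ⟨⟨fun h => ?_, fun h M N hM hN => ⟨1, fun a => smul_one a, ?_⟩⟩, fun h => part2 h.2⟩
  swap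
  · rw [((part2 h.2 M).1 hM).1, ((part2 h.2 N).1 hN).1, map_one, one_smul]
  have hp : ∃ p : ℕ, p.Prime ∧ IsPGroup p G := by
    by_contra hn
    have hb : (⊥ : Subgroup G) ≠ ⊤ := fun e => hn ⟨2, Nat.prime_two, fun g => ⟨0, by
      simpa using (e ▸ mem_top g : g ∈ (⊥ : Subgroup G))⟩⟩
    obtain ⟨M, -, hM⟩ := ex_max (A := A) hb (by simp)
    refine hM.1 (eq_top_of_le_card _ (Nat.le_of_dvd Nat.card_pos ?_))
    rw [← Nat.factorization_prime_le_iff_dvd Nat.card_pos.ne' Nat.card_pos.ne']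
    intro p hp
    haveI := Fact.mk hp
    obtain ⟨P, hP, hPA⟩ := ex_syl hcop hsol p
    obtain ⟨N, hPN, hN⟩ := ex_max (A := A) (H := P) (by
      rintro rfl
      exact hn ⟨p, hp, IsPGroup.of_card (card_top.symm.trans hP)⟩) hPA
    obtain ⟨c, -, rfl⟩ := h M N hM hN
    rw [← hp.pow_dvd_iff_le_factorization Nat.card_pos.ne', ← hP]
    refine (card_dvd_of_le hPN).trans (dvd_of_eq ?_)
    exact card_map_of_injective (MulAut.conj c).injective
  refine ⟨hp, fun L hL hLA => by_contra fun hn => ?_⟩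
  obtain ⟨p, hp, hG⟩ := hp
  obtain ⟨M, hLM, hM⟩ := ex_max hn hLA
  obtain ⟨N, h1, h2, h3⟩ := maschke hcop hp hG (hL.trans_le hLM) hM.2.1
  obtain ⟨N', hNN, hN'⟩ := ex_max h1 h2
  obtain ⟨c, -, rfl⟩ := h M N' hM hN'
  have hPhi := (PiGrp.Phi_le_iff (K := frattini G) (P := ⊤) (pGrp_of_isPGroup hp (hG.to_subgroup ⊤)) hp).1
    (map_le_iff_le_comap.2 (frattini_le_comap_frattini_of_surjective fun x => ⟨⟨x, trivial⟩, rfl⟩))
  haveI : M.Normal := Subgroup.Normal.of_commutator_le _ (hPhi.1.trans (hL.le.trans hLM))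
  rw [Subgroup.Normal.conj_smul_eq_self] at hNN
  exact hM.1 (h3 ▸ (sup_eq_left.2 hNN).symm)

end Cfsg.Agent.S4381
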