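import Mathlib
import Cfsg.Agent.H28.Util3
-- Template for statement S4383 (row 4383; see /opt/grader/pristine/manifest.json for weights).
-- Copy to Cfsg/Agent/S4383.lean and replace the sorry. The statement below is byte-identical to the frozen
-- statement Cfsg.CfsgFrozen.S4383 (Cfsg/Statements/S4383.lean; the theorem Cfsg.fg11_two_conjugacy_classes_of_maximal_subgroups_solvable_two_primes);
-- the grader kernel-checks Cfsg.Agent.S4383.result against that frozen type. Keep the theorem IN THIS FILE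
-- (a `result` declared elsewhere and merely imported here is not credited); helpers may live anywhere
-- under Cfsg/Agent/.
import Cfsg.Statements.S4383
-- import your own Cfsg.Agent.* helpers here

set_option autoImplicit false
open Pointwise
open Cfsg

namespace Cfsg.Agent.S4383

section
open Subgroup Cfsg.Agent.FT Cfsg.Agent.H28
open scoped commutatorElement Pointwise
set_option linter.style.haveILetI false

universe u
variable {G : Type u} [Group G] [Finite G]

theorem uniq {L M S : Subgroup G} {s : ℕ} (h : ∀ X, IsCoatom X → ∃ g, X = cj g L ∨ X = cj g M)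
    (hF : O[{s}]((⊤ : Subgroup G)) = ⊥) :
    ∀ T, PGrp s T → (∀ g, ¬ T ≤ cj g L) → (∃ k, N(T) ≤ cj k M) ∧
      ((PiNat {s}ᶜ M.index) → ∀ g k, T ≤ cj g M → T ≤ cj k M → g⁻¹ * k ∈ M) := by
  intro T
  induction T using WellFoundedGT.induction with
  | _ T ih =>
  intro hT hL
  have h1 : ∃ k, N(T) ≤ cj k M := by
    obtain ⟨X, h1, h2⟩ := exists_coatom (H := N(T)) fun e =>
      hL 1 ((eq_bot_of_le (pcore_max hT ⟨le_top, e.ge⟩) hF).le.trans bot_le)
    obtain ⟨k, rfl | rfl⟩ := h X h1
    · exact absurd ((le_nrm T).trans h2) (hL k)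
    · exact ⟨k, h2⟩
  refine ⟨h1, fun hm => ?_⟩
  obtain ⟨k, hk⟩ := h1
  suffices H : ∀ g, T ≤ cj g M → g⁻¹ * k ∈ M by
    intro a b ha hb
    have := mul_mem (H a ha) (inv_mem (H b hb))
    simpa [mul_assoc] using this
  intro g hg
  obtain ⟨R, hR, hTR⟩ := hT.exists_syl (le_inf hg (le_nrm T))
  by_cases e : T = R
  · subst e
    have h2 : Syl s T ⊤ := (syl_of_subnorm hg hR).of_relIndex le_top (by
      rwa [relIndex_top_right, index_cj])
    have h3 : ∀ a, T ≤ cj a M → Syl s (cj a⁻¹ T) M := fun a ha =>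
      (h2.cj_mem (mem_top _)).subl (le_cj_iff.1 ha) le_top
    obtain ⟨x, hx, e⟩ := (h3 g hg).syl_trans (h3 k ((le_nrm T).trans hk))
    rw [cj_cj, cj_eq_cj_iff] at e
    have := mul_mem (inv_mem hx) (mem_cj.1 (hk (inv_mem e)))
    simpa [mul_assoc] using this
  · exact (ih R (lt_of_le_of_ne hTR e) hR.pi fun a ha => hL a (hTR.trans ha)).2 hm g k
      (hR.le.trans inf_le_left) ((hR.le.trans inf_le_right).trans hk)

theorem dvd_pred {L M : Subgroup G} (h : ∀ X, IsCoatom X → ∃ g, X = cj g L ∨ X = cj g M)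
    (hF : ∀ s, O[{s}]((⊤ : Subgroup G)) = ⊥) (hM : M ≠ ⊤) : L.index ∣ M.index - 1 := by
  have hm := one_lt_index_of_ne_top hM
  refine dvd_of_forall_partn (index_pos' L).ne' (by omega) fun s hs hd => ?_
  obtain ⟨S, hS⟩ := exists_syl s (⊤ : Subgroup G)
  have h1 : ∀ g, ¬ S ≤ cj g L := fun g hg => by
    have := hS.relIndex_of_le hg
    rw [relIndex_top_right, index_cj] at this
    exact this.not_dvd hs rfl hd
  obtain ⟨k, hk⟩ := (uniq (S := S) h (hF s) S hS.pi h1).1
  have hk' := (le_nrm S).trans hk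
  have h2 := hS.relIndex_of_le hk'
  rw [relIndex_top_right, index_cj] at h2
  have h3 : ∀ (g x : G), x • (g : G ⧸ M) = g ↔ x ∈ cj g M := fun g x => by
    rw [MulAction.Quotient.smul_coe, eq_comm, QuotientGroup.eq, mem_cj, smul_eq_mul, mul_assoc]
  have h4 := dvd_ncard_of_orbits S (s := partn {s} L.index) {(k : G ⧸ M)}ᶜ (by
    intro q hq
    obtain ⟨g, rfl⟩ := QuotientGroup.mk_surjective q
    refine ⟨?_, ?_⟩
    · rintro _ ⟨x, rfl⟩ e
      refine hq ?_
      have := (h3 k x).2 (hk' x.2)
      exact smul_left_cancel (x : G) (e.trans this.symm)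
    · have e1 : (MulAction.orbit S (g : G ⧸ M)).ncard = (cj g M).relIndex S := by
        rw [← MulAction.index_stabilizer, relIndex]
        congr 1
        ext x
        exact h3 g x
      obtain ⟨a, ha⟩ : ∃ a, cj g M ⊓ S ≤ cj a L := by
        by_contra hc
        push Not at hc
        exact hq (QuotientGroup.eq.2 ((uniq (S := S) h (hF s) _ (hS.pi.inf_right _) hc).2 h2 g k
          inf_le_left (inf_le_right.trans hk')))
      have e2 := (hS.pi.inf_right _).card_dvd_partn ha
      have e3 := FT.card_inf_mul_relIndex (cj g M) S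
      rw [hS.card, card_top', ← L.card_mul_index, partn_mul _ (card_ne_zero L) (index_pos' L).ne',
        ← card_cj a L] at e3
      exact (Nat.dvd_of_mul_dvd_mul_left (card_pos (cj g M ⊓ S))
        (e3 ▸ Nat.mul_dvd_mul_right e2 _)).trans e1.symm.dvd)
  rwa [Set.ncard_compl, Set.ncard_singleton] at h4

theorem sol (n : ℕ) : ∀ (G : Type u) [Group G] [Finite G] (L M : Subgroup G), Nat.card G = n →
    (∀ X, IsCoatom X → ∃ g, X = cj g L ∨ X = cj g M) → Group.IsSolvable G := by
  induction n using Nat.strong_induction_on with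
  | _ n ih =>
  intro G _ _ L M hn h
  by_cases hF : ∀ s, O[{s}]((⊤ : Subgroup G)) = ⊥
  · have key : ∀ L M : Subgroup G, (∀ X, IsCoatom X → ∃ g, X = cj g L ∨ X = cj g M) → L ≠ ⊤ →
        M ≠ ⊤ → False := fun L M h h1 h2 => by
      have a1 := one_lt_index_of_ne_top h1
      have a2 := one_lt_index_of_ne_top h2
      have b1 := Nat.le_of_dvd (by omega) (dvd_pred h hF h2)
      have b2 := Nat.le_of_dvd (by omega) (dvd_pred (fun X hX => (h X hX).imp fun _ => Or.symm) hF h1)
      omega
    have key2 : ∀ L : Subgroup G, (∀ X, IsCoatom X → ∃ g, X = cj g L) → Group.IsSolvable G := by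
      intro L h
      by_contra hc
      obtain ⟨X, h1, -⟩ := exists_coatom (H := (⊥ : Subgroup G)) fun e => hc (sol_top.1 (e ▸ sol_bot))
      obtain ⟨g, rfl⟩ := h X h1
      have := (isCoatom_cj.1 h1).1
      exact key L L (fun X hX => (h X hX).imp fun _ => Or.inl) this this
    by_cases h1 : L = ⊤
    · refine key2 M fun X hX => (h X hX).imp fun g e => e.resolve_left fun e => hX.1 ?_
      rw [e, h1, cj_top]
    by_cases h2 : M = ⊤
    · refine key2 L fun X hX => (h X hX).imp fun g e => e.resolve_right fun e => hX.1 ?_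
      rw [e, h2, cj_top]
    exact (key L M h h1 h2).elim
  · push Not at hF
    obtain ⟨s, hs⟩ := hF
    haveI := nml_top_iff.1 (pcore_nml {s} (⊤ : Subgroup G))
    refine isSolvable_of_normal _ (pcore_pi {s} ⊤).sol (ih _ (hn ▸ card_quot_lt _ hs) _
      (L.map (QuotientGroup.mk' _)) (M.map (QuotientGroup.mk' _)) rfl fun X hX => ?_)
    obtain ⟨g, hg⟩ := h _ (isCoatom_comap_of_surjective (QuotientGroup.mk'_surjective _) hX)
    refine ⟨QuotientGroup.mk' _ g, hg.imp (fun e => ?_) fun e => ?_⟩ <;>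
      rw [← map_cj, ← e, map_comap_mk']

end

/-- A finite group with exactly two conjugacy classes of maximal subgroups is solvable and its order has exactly two prime divisors. -/
theorem result {G : Type*} [Group G] [Finite G]
    (M₁ M₂ : Subgroup G) (h1 : IsCoatom M₁) (h2 : IsCoatom M₂) (hne : ∀ g : G, M₂ ≠ MulAut.conj g • M₁)
    (hall : ∀ M : Subgroup G, IsCoatom M → ∃ g : G, M = MulAut.conj g • M₁ ∨ M = MulAut.conj g • M₂) :
    Group.IsSolvable G ∧ (Nat.card G).primeFactors.card = 2 := by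
  open Subgroup Cfsg.Agent.FT Cfsg.Agent.H28 in
  open scoped commutatorElement Pointwise in
  · have hs := sol _ G M₁ M₂ rfl hall
    refine ⟨hs, ?_⟩
    obtain ⟨p, hp, e1⟩ := exists_pnat_index_of_isCoatom hs h1
    obtain ⟨q, hq, e2⟩ := exists_pnat_index_of_isCoatom hs h2
    have d1 := e1.dvd_of_ne_one (one_lt_index_of_ne_top h1.1).ne'
    have d2 := e2.dvd_of_ne_one (one_lt_index_of_ne_top h2.1).ne'
    have key : ∀ r, r.Prime → r ∣ Nat.card G → r = p ∨ r = q := by
      intro r hr hd
      obtain ⟨H, hH⟩ := Hall_exists {r}ᶜ (sol_top.2 hs)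
      obtain ⟨X, a1, a2⟩ := exists_coatom (H := H) fun e =>
        (e ▸ hH.pi).not_dvd hr rfl (by rwa [card_top'])
      have a3 := hH.relIndex_of_le a2
      rw [relIndex_top_right, piNat_compl_compl] at a3
      obtain ⟨g, rfl | rfl⟩ := hall X a1
      · exact Or.inl (a3.eq_prime hp (by rwa [smul_eq_cj, index_cj])).symm
      · exact Or.inr (a3.eq_prime hq (by rwa [smul_eq_cj, index_cj])).symm
    have hpq : p ≠ q := by
      rintro rfl
      have hG : PGrp p (⊤ : Subgroup G) := piGrp_top.2 fun r hr hd => (key r hr hd).elim id id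
      have hne' : M₁ ≠ M₂ := fun e => hne 1 (by rw [smul_eq_cj, cj_one, e])
      have n1 : ¬ M₁ ≤ M₂ := fun h => hne' ((h1.le_iff.1 h).resolve_left h2.1).symm
      have n2 : ¬ M₂ ≤ M₁ := fun h => hne' ((h2.le_iff.1 h).resolve_left h1.1)
      obtain ⟨x, x1, x2⟩ := SetLike.not_le_iff_exists.1 n1
      obtain ⟨y, y1, y2⟩ := SetLike.not_le_iff_exists.1 n2
      have hc : ⟪x * y⟫ = ⊤ := by
        by_contra hc
        obtain ⟨X, a1, a2⟩ := exists_coatom hc
        have a3 := a2 (mem_zpowers _)
        obtain ⟨g, rfl | rfl⟩ := hall X a1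
        · rw [smul_eq_cj, cj_of_mem_nrm ((hG.maxIn_nml (maxIn_top_iff.2 h1)).nrm trivial)] at a3
          exact y2 ((mul_mem_cancel_left x1).1 a3)
        · rw [smul_eq_cj, cj_of_mem_nrm ((hG.maxIn_nml (maxIn_top_iff.2 h2)).nrm trivial)] at a3
          exact x2 ((mul_mem_cancel_right y1).1 a3)
      exact ((hc ▸ cyc_zpowers (x * y) : Cyc ⊤).le_or_le hG le_top le_top).elim n1 n2
    rw [← Finset.card_pair hpq]
    congr 1
    ext r
    simp only [Nat.mem_primeFactors, Finset.mem_insert, Finset.mem_singleton]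
    refine ⟨fun h => key r h.1 h.2.1, ?_⟩
    rintro (rfl | rfl)
    · exact ⟨hp, d1.trans (index_dvd_card _), Nat.card_pos.ne'⟩
    · exact ⟨hq, d2.trans (index_dvd_card _), Nat.card_pos.ne'⟩

end Cfsg.Agent.S4383
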