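import Cfsg.Statements.S4385
import Cfsg.Agent.H5.Sims3

set_option autoImplicit false
open Pointwise
open Cfsg

namespace Cfsg.Agent.S4385

/-- Let H be a subgroup of a finite group G whose largest normal 2-subgroup O_2(H) is nontrivial and such that H/O_2(H) is a dihedral group of order at least 4. Let P be a Sylow 2-subgroup of H and S a Sylow 2-subgroup of G containing P. Suppose y ∈ S lies outside P, normalizes P, has y² in the product of P with the centralizer of P in G, and normalizes no non-identity normal subgroup of H contained in P. Then P has order 4, 8 or 16, and H modulo its largest normal subgroup of odd order is isomorphic to the four-group, to the symmetric group of degree 4, or to the direct product of the symmetric group of degree 4 with a group of order 2. -/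
theorem result {G : Type*} [Group G] [Finite G]
    (H : Subgroup G) (hO : Cfsg.pCore 2 ↥H ≠ ⊥) (n : ℕ) (hn : 2 ≤ n) (hdih : Nonempty (↥H ⧸ Cfsg.pCore 2 ↥H ≃* DihedralGroup n))
    (P : Subgroup G) (hPH : P ≤ H) (hP : IsPGroup 2 P) (hPsyl : ¬ 2 ∣ P.relIndex H)
    (S : Sylow 2 G) (hPS : P ≤ (S : Subgroup G)) (y : G) (hyS : y ∈ (S : Subgroup G)) (hyP : y ∉ P)
    (hy2 : y ^ 2 ∈ P ⊔ Subgroup.centralizer (P : Set G)) (hyN : MulAut.conj y • P = P)
    (hyQ : ∀ Q : Subgroup G, Q ≤ P → (Q.subgroupOf H).Normal → MulAut.conj y • Q = Q → Q = ⊥) :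
    (Nat.card P = 4 ∨ Nat.card P = 8 ∨ Nat.card P = 16) ∧
    (Nonempty (↥H ⧸ Cfsg.oddCore ↥H ≃* Multiplicative (ZMod 2) × Multiplicative (ZMod 2)) ∨
     Nonempty (↥H ⧸ Cfsg.oddCore ↥H ≃* Equiv.Perm (Fin 4)) ∨
     Nonempty (↥H ⧸ Cfsg.oddCore ↥H ≃* Equiv.Perm (Fin 4) × Multiplicative (ZMod 2))) := by
  open Cfsg.Agent.FT Cfsg.Agent.H5f in
  obtain ⟨e⟩ := hdih
  have hS : Syl 2 P H := syl_of_not_dvd hPH (pGrp_of_isPGroup Nat.prime_two hP) hPsyl
  obtain ⟨h1, h2, ⟨h, hh, h3⟩, K, k1, k2, k3⟩ := dihedral hn (e.toMonoidHom.comp (QuotientGroup.mk' _))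
    (by rw [pmap_dom, MonoidHom.range_eq_top.2 (e.surjective.comp (QuotientGroup.mk'_surjective _))])
    (by
      rw [pker, pcore_singleton Nat.prime_two, ← MonoidHom.comap_ker, (MonoidHom.ker_eq_bot_iff _).2 e.injective,
        MonoidHom.comap_bot, QuotientGroup.ker_mk']) hS
  have d : Gl H P O[{2}](H) y h := ⟨hS, pcore_nml _ _, pcore_le_syl hS, h1, fun e => hO (by
    rwa [pcore_singleton Nat.prime_two, Subgroup.map_eq_bot_iff_of_injective _ H.subtype_injective] at e), hh, h3, h2,
    cj_eq_self.1 hyN, hy2, fun X a b c => hyQ X a (Nml.normal ⟨a.trans hPH, b⟩) (cj_eq_self.2 c)⟩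
  exact d.main k1 k2 k3 (QuotientGroup.mk' _)
    (by rw [pmap_dom, MonoidHom.range_eq_top.2 (QuotientGroup.mk'_surjective _)])
    (by rw [pker, pcore_compl_singleton Nat.prime_two, QuotientGroup.ker_mk'])

end Cfsg.Agent.S4385
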