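import Mathlib
import Cfsg.Agent.H28.Util2
-- Template for statement S4387 (row 4387; see /opt/grader/pristine/manifest.json for weights).
-- Copy to Cfsg/Agent/S4387.lean and replace the sorry. The statement below is byte-identical to the frozen
-- statement Cfsg.CfsgFrozen.S4387 (Cfsg/Statements/S4387.lean; the theorem Cfsg.fg11_all_maximal_subgroups_conjugate_implies_cyclic_prime_power_order);
-- the grader kernel-checks Cfsg.Agent.S4387.result against that frozen type. Keep the theorem IN THIS FILE
-- (a `result` declared elsewhere and merely imported here is not credited); helpers may live anywhere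
-- under Cfsg/Agent/.
import Cfsg.Statements.S4387
-- import your own Cfsg.Agent.* helpers here

set_option autoImplicit false
open Pointwise
open Cfsg

namespace Cfsg.Agent.S4387

/-- Let G be a non-trivial finite group in which any two maximal subgroups are conjugate. Then G is cyclic of prime-power order. -/
theorem result {G : Type*} [Group G] [Finite G] [Nontrivial G]
    (h : ∀ M N : Subgroup G, IsCoatom M → IsCoatom N → ∃ g : G, N = MulAut.conj g • M) :
    IsCyclic G ∧ IsPrimePow (Nat.card G) := by
  open Subgroup Cfsg.Agent.FT Cfsg.Agent.H28 in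
  open scoped commutatorElement Pointwise in
  obtain ⟨M, hM, -⟩ := exists_coatom (bot_ne_top : (⊥ : Subgroup G) ≠ ⊤)
  have hc : IsCyclic G := by
    by_contra hc
    refine hM.1 (H6.eq_top_of_forall_conj_mem M fun g => ?_)
    obtain ⟨N, hN, hg⟩ := exists_coatom (H := ⟪g⟫) fun e => hc (cyc_top.1 (e ▸ cyc_zpowers g))
    obtain ⟨x, rfl⟩ := h N M hN hM
    exact ⟨x, by rw [smul_eq_cj, conj_mem_cj]; exact hg (mem_zpowers g)⟩
  refine ⟨hc, ?_⟩
  have hn : Nil (⊤ : Subgroup G) := (cyc_top.2 hc).nil
  have key : ∀ q : ℕ, q.Prime → q ∣ Nat.card G → PiNat {q} M.index := by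
    intro q hq hd
    have h1 := hn.pcore_hall {q}ᶜ
    obtain ⟨N, hN, hle⟩ := exists_coatom (H := O[{q}ᶜ]((⊤ : Subgroup G))) fun e =>
      h1.pi.not_dvd hq rfl (by rwa [e, card_top'])
    obtain ⟨x, rfl⟩ := h N M hN hM
    rw [smul_eq_cj, index_cj, ← relIndex_top_right]
    exact piNat_compl_compl.1 (h1.relIndex_of_le hle)
  have h1 : M.index ≠ 1 := fun e => hM.1 (index_eq_one.1 e)
  obtain ⟨p, hp, hd⟩ := Nat.exists_prime_and_dvd h1
  have h2 : PiNat {p} (Nat.card G) := fun q hq hd' => ((key q hq hd').eq_prime hp hd).symm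
  obtain ⟨k, hk⟩ := h2.exists_pow Nat.card_pos.ne'
  rw [isPrimePow_nat_iff]
  refine ⟨p, k, hp, Nat.pos_of_ne_zero ?_, hk.symm⟩
  rintro rfl
  exact (Finite.one_lt_card (α := G)).ne' (by simpa using hk)

end Cfsg.Agent.S4387
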