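import Cfsg.Statements.S4396
import Mathlib
import Cfsg.Agent.H27.Frob2
import Cfsg.Agent.H28.GL2
import Cfsg.Agent.FT.Nil

set_option autoImplicit false
open Cfsg

namespace Cfsg.Agent.S4396

open Subgroup Cfsg.Agent.FT Cfsg.Agent.H28 Module

theorem gen_of_hom {k A M : Type*} [Field k] [Ring A] [Algebra k A] [AddCommGroup M] [Module k M] [Module A M]
    [IsScalarTower k A M] [FiniteDimensional k M] (n : ℕ)
    (h : ∀ T : Submodule A M, finrank k (M →ₗ[A] M ⧸ T) = n * finrank k (M ⧸ T)) :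
    ∃ φ : (Fin n → A) →ₗ[A] M, LinearMap.range φ = ⊤ := by
  haveI : IsArtinian A M := isArtinian_of_tower k inferInstance
  haveI : IsNoetherian A M := isNoetherian_of_tower k inferInstance
  obtain ⟨U, -, hU⟩ := exists_minimal_le_of_wellFoundedLT
    (fun U : Submodule A M => ∃ φ : (Fin n → A) →ₗ[A] M, LinearMap.range φ ⊔ U = ⊤) ⊤ ⟨0, by simp⟩
  obtain ⟨φ, hφ⟩ := hU.1
  by_cases h0 : U = ⊥
  · exact ⟨φ, by simpa [h0] using hφ⟩
  exfalso
  obtain ⟨U', -, hU'⟩ := exists_le_covBy_of_lt (bot_lt_iff_ne_bot.2 h0)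
  have key : ∀ ψ : (Fin n → A) →ₗ[A] M, LinearMap.range ψ ⊔ U' ≠ ⊤ := fun ψ e =>
    hU'.lt.not_ge (hU.2 ⟨ψ, e⟩ hU'.le)
  have hcov : ∀ T : Submodule A M, U' ≤ T → ∀ x ∈ U, x ∈ T → x ∉ U' → U ≤ T := fun T hT x hx hxT hx' => by
    rcases hU'.eq_or_eq (le_inf hT hU'.le) inf_le_right with e | e
    · exact absurd (e ▸ ⟨hxT, hx⟩) hx'
    · exact inf_eq_right.1 e
  set T := LinearMap.range φ ⊔ U' with hT
  have hTU : ¬ U ≤ T := fun e => key φ (top_le_iff.1 (hφ ▸ sup_le le_sup_left e))
  haveI : FiniteDimensional k (M ⧸ T) := Module.Finite.of_surjective (T.mkQ.restrictScalars k) T.mkQ_surjective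
  haveI : FiniteDimensional k (M →ₗ[A] M ⧸ T) :=
    FiniteDimensional.of_injective (LinearMap.restrictScalarsₗ k A M (M ⧸ T) k) (LinearMap.restrictScalars_injective k)
  have hd : finrank k ((Fin n → A) →ₗ[A] M ⧸ T) = n * finrank k (M ⧸ T) := by
    rw [(LinearEquiv.piRing A (M ⧸ T) (Fin n) k).finrank_eq, finrank_pi_fintype]; simp
  haveI : FiniteDimensional k ((Fin n → A) →ₗ[A] M ⧸ T) :=
    (LinearEquiv.piRing A (M ⧸ T) (Fin n) k).symm.finiteDimensional
  let Φ : (M →ₗ[A] M ⧸ T) →ₗ[k] ((Fin n → A) →ₗ[A] M ⧸ T) := LinearMap.lcomp k (M ⧸ T) φ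
  have hΦ : ¬ Function.Surjective Φ := fun hs => by
    have hi := (LinearMap.injective_iff_surjective_of_finrank_eq_finrank ((h T).trans hd.symm)).2 hs
    have : T.mkQ = 0 := hi (by
      rw [map_zero]
      refine LinearMap.ext fun x => ?_
      exact (Submodule.Quotient.mk_eq_zero T).2 (Submodule.mem_sup_left ⟨x, rfl⟩))
    refine key φ (top_le_iff.1 fun x _ => ?_)
    exact (Submodule.Quotient.mk_eq_zero T).1 (congrArg (fun f : M →ₗ[A] M ⧸ T => f x) this)
  obtain ⟨ψ, hψ⟩ := not_forall.1 hΦ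
  obtain ⟨x, hx, hx0⟩ : ∃ x, φ x ∈ U ∧ ψ x ≠ 0 := by
    by_contra hn
    push Not at hn
    have hs : Function.Surjective (U.mkQ ∘ₗ φ) := by
      rw [← LinearMap.range_eq_top, LinearMap.range_comp, Submodule.map_mkQ_eq_top, sup_comm, hφ]
    have hk : LinearMap.ker (U.mkQ ∘ₗ φ) ≤ LinearMap.ker ψ := fun x hx =>
      hn x ((Submodule.Quotient.mk_eq_zero U).1 hx)
    refine hψ ⟨((LinearMap.ker (U.mkQ ∘ₗ φ)).liftQ ψ hk ∘ₗ
      ((U.mkQ ∘ₗ φ).quotKerEquivOfSurjective hs).symm.toLinearMap) ∘ₗ U.mkQ, LinearMap.ext fun y => ?_⟩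
    have := LinearMap.quotKerEquivOfSurjective_symm_apply (U.mkQ ∘ₗ φ) hs y
    show (LinearMap.ker (U.mkQ ∘ₗ φ)).liftQ ψ hk (((U.mkQ ∘ₗ φ).quotKerEquivOfSurjective hs).symm ((U.mkQ ∘ₗ φ) y)) = ψ y
    rw [this]; rfl
  have hs : ∀ y : M ⧸ T, ∃ u ∈ U, T.mkQ u = y := fun y => by
    obtain ⟨m, rfl⟩ := T.mkQ_surjective y
    obtain ⟨a, ha, u, hu, rfl⟩ := Submodule.mem_sup.1 (hφ ▸ Submodule.mem_top : m ∈ LinearMap.range φ ⊔ U)
    exact ⟨u, hu, by rw [map_add, T.mkQ_apply a, (Submodule.Quotient.mk_eq_zero T).2 (Submodule.mem_sup_left ha), zero_add]⟩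
  choose u hu hu' using fun i : Fin n => hs (ψ (Pi.single i 1))
  let ψ' : (Fin n → A) →ₗ[A] M := (LinearEquiv.piRing A M (Fin n) k).symm u
  have e1 : ∀ y, ψ' y ∈ U := fun y => by
    simp only [ψ', LinearEquiv.piRing_symm_apply]
    exact U.sum_mem fun i _ => U.smul_mem _ (hu i)
  have e2 : T.mkQ ∘ₗ ψ' = ψ := (LinearEquiv.piRing A (M ⧸ T) (Fin n) k).injective (funext fun i => by
    rw [LinearEquiv.piRing_apply, LinearEquiv.piRing_apply, LinearMap.comp_apply, ← LinearEquiv.piRing_apply (S := k),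
      LinearEquiv.apply_symm_apply, hu'])
  have e3 : ψ' x ∉ T := fun e => hx0 (by rw [← e2]; exact (Submodule.Quotient.mk_eq_zero T).2 e)
  have e4 : φ x ∈ U' := by
    by_contra e
    exact hTU (hcov T le_sup_right _ hx (Submodule.mem_sup_left ⟨x, rfl⟩) e)
  have e5 : U ≤ LinearMap.range (φ + ψ') ⊔ U' := by
    refine hcov _ le_sup_right _ (e1 x) ?_ fun e => e3 (Submodule.mem_sup_right e)
    have := sub_mem (Submodule.mem_sup_left (T := U') (LinearMap.mem_range_self (φ + ψ') x))
      (Submodule.mem_sup_right e4)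
    rwa [LinearMap.add_apply, add_sub_cancel_left] at this
  refine key (φ + ψ') (top_le_iff.1 (hφ ▸ sup_le ?_ e5))
  rintro _ ⟨y, rfl⟩
  have := sub_mem (Submodule.mem_sup_left (T := U') (LinearMap.mem_range_self (φ + ψ') y)) (e5 (e1 y))
  rwa [LinearMap.add_apply, add_sub_cancel_right] at this

theorem free_of {k V G : Type*} [Field k] [AddCommGroup V] [Module k V] [FiniteDimensional k V] [Group G] [Finite G]
    [DecidableEq G] (ρ : Representation k G V) (K R : Subgroup G) (π : G →* R) (hπ : ∀ h : R, π h = h)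
    (hK : K ≤ π.ker) (hRK : R ≤ N(K)) (hreg : H28.SemiReg K R) (hc : (Nat.card K : k) ≠ 0) (h0 : rfix ρ K = ⊥) :
    ∃ W : Submodule k V, DirectSum.IsInternal (fun h : R => W.map (ρ (h : G))) := by
  haveI := Fintype.ofFinite R
  haveI := Fintype.ofFinite K
  have hfr : ∀ {S : Type _} [AddCommGroup S] [Module k S] [FiniteDimensional k S] (σ : Representation k G S),
      rfix σ K = ⊥ → finrank k S = Nat.card R * finrank k (rfix σ R) := fun σ h => by
    have := finrank_rfix_frobenius σ K R hRK hreg hc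
    rw [rfix_sup, h, bot_inf_eq, finrank_bot] at this
    simpa using this
  set n := finrank k (rfix ρ R)
  have hn : finrank k V = Nat.card R * n := by
    have := finrank_rfix_frobenius ρ K R hRK hreg hc
    rw [rfix_sup, h0, bot_inf_eq, finrank_bot] at this
    simpa using this
  let τ : Representation k R V := ρ.comp R.subtype
  letI : Module (MonoidAlgebra k R) V := Module.compHom V τ.asAlgebraHom.toRingHom
  have hsm : ∀ (a : MonoidAlgebra k R) (v : V), a • v = τ.asAlgebraHom a v := fun _ _ => rfl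
  haveI : IsScalarTower k (MonoidAlgebra k R) V := ⟨fun c a v => by rw [hsm, hsm, map_smul]; rfl⟩
  have hof : ∀ (h : R) (v : V), MonoidAlgebra.of k R h • v = ρ h v := fun h v => by
    rw [hsm, Representation.asAlgebraHom_of]; rfl
  obtain ⟨φ, hφ⟩ := gen_of_hom (k := k) (A := MonoidAlgebra k R) (M := V) n fun T => by
    haveI : FiniteDimensional k (V ⧸ T) := Module.Finite.of_surjective (T.mkQ.restrictScalars k) T.mkQ_surjective
    let σ : Representation k R (V ⧸ T) :=
      (Algebra.lsmul k k (V ⧸ T) (A := MonoidAlgebra k R)).toMonoidHom.comp (MonoidAlgebra.of k R)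
    have hσ : ∀ h y, σ h y = MonoidAlgebra.of k R h • y := fun _ _ => rfl
    have h1 : rfix (Representation.linHom ρ (σ.comp π)) K = ⊥ := by
      rw [eq_bot_iff]
      intro f hf
      rw [Submodule.mem_bot]
      ext v
      have e1 : ∀ x : K, f (ρ x v) = f v := fun x => by
        have := congrArg (fun g : V →ₗ[k] V ⧸ T => g v) (mem_rfix.1 hf _ (inv_mem x.2))
        simpa [show π x = 1 from hK x.2] using this
      have e2 : ∑ x : K, ρ x v = 0 := by
        rw [← Submodule.mem_bot k, ← h0]; exact sum_mem_rfix ρ K v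
      have e3 := congrArg f e2
      rw [map_sum, map_zero, Finset.sum_congr rfl fun x _ => e1 x, Finset.sum_const, Finset.card_univ,
        ← Nat.card_eq_fintype_card, ← Nat.cast_smul_eq_nsmul k, smul_eq_zero] at e3
      exact e3.resolve_left hc
    have h2 := hfr _ h1
    have h3 : LinearMap.range (LinearMap.restrictScalarsₗ k (MonoidAlgebra k R) V (V ⧸ T) k) =
        rfix (Representation.linHom ρ (σ.comp π)) R := by
      ext f
      rw [mem_rfix]
      constructor
      · rintro ⟨f, rfl⟩ g hg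
        ext v
        show σ (π g) (f (ρ g⁻¹ v)) = f v
        rw [hπ ⟨g, hg⟩, hσ, ← map_smul, hof, ← Module.End.mul_apply, ← map_mul, mul_inv_cancel, map_one,
          Module.End.one_apply]
      · intro hf
        have e1 : ∀ (h : R) v, f (ρ h v) = MonoidAlgebra.of k R h • f v := fun h v => by
          have := congrArg (fun g : V →ₗ[k] V ⧸ T => g (ρ h v)) (hf h h.2)
          rw [← this]
          show σ (π h) (f (ρ (h : G)⁻¹ (ρ h v))) = _
          rw [hπ, hσ, ← Module.End.mul_apply, ← map_mul, inv_mul_cancel, map_one, Module.End.one_apply]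
        refine ⟨{ toFun := f, map_add' := f.map_add, map_smul' := fun a v => ?_ }, rfl⟩
        induction a using MonoidAlgebra.induction_on with
        | of h => rw [hof, e1]; rfl
        | add a b ha hb => simp only [add_smul, map_add, ha, hb, RingHom.id_apply]
        | smul c a ha => simp only [smul_assoc, map_smul, ha, RingHom.id_apply]
    rw [← h3, LinearMap.finrank_range_of_inj (LinearMap.restrictScalars_injective k), finrank_linearMap, hn,
      mul_assoc] at h2
    exact (Nat.eq_of_mul_eq_mul_left Nat.card_pos h2).symm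
  let v : Fin n → V := fun i => φ (Pi.single i 1)
  refine ⟨Submodule.span k (Set.range v), ?_⟩
  have hs : Function.Surjective (DirectSum.coeLinearMap fun h : R => (Submodule.span k (Set.range v)).map (ρ (h : G))) := by
    rw [← LinearMap.range_eq_top, DirectSum.range_coeLinearMap, eq_top_iff]
    intro x _
    obtain ⟨y, rfl⟩ := LinearMap.range_eq_top.1 hφ x
    rw [← (LinearEquiv.piRing (MonoidAlgebra k R) V (Fin n) k).symm_apply_apply φ, LinearEquiv.piRing_symm_apply]
    refine Submodule.sum_mem _ fun i _ => ?_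
    generalize y i = a
    induction a using MonoidAlgebra.induction_on with
    | of h =>
      rw [hof]
      exact Submodule.mem_iSup_of_mem h (Submodule.mem_map_of_mem (Submodule.subset_span ⟨i, rfl⟩))
    | add a b ha hb => rw [add_smul]; exact add_mem ha hb
    | smul c a ha => rw [smul_assoc]; exact Submodule.smul_mem _ c ha
  refine ⟨(LinearMap.injective_iff_surjective_of_finrank_eq_finrank
    (le_antisymm ?_ (LinearMap.finrank_le_finrank_of_surjective hs))).2 hs, hs⟩
  rw [finrank_directSum, hn, Nat.card_eq_fintype_card, ← smul_eq_mul, ← Finset.card_univ, ← Finset.sum_const]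
  exact Finset.sum_le_sum fun h _ => (Submodule.finrank_map_le _ _).trans
    ((finrank_range_le_card v).trans (Fintype.card_fin n).le)

/-- Let the finite group A act faithfully and linearly on a finite-dimensional vector space V over a field k, and suppose A is a Frobenius group with nilpotent kernel F (every Frobenius kernel is nilpotent) and complement H such that F fixes no nonzero vector. Then V is free as a module for H: there is a subspace W with V the direct sum of the translates hW, h ∈ H. (No assumption on the characteristic of k.) -/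
theorem result {k V A : Type*} [Field k] [AddCommGroup V] [Module k V] [FiniteDimensional k V] [Group A] [Finite A] [DecidableEq A]
    (ρ : Representation k A V) (hρ : Function.Injective ρ)
    (Fk Hc : Subgroup A) [Fk.Normal] (hHc : Cfsg.IsFrobeniusComplement Hc) (hker : Cfsg.frobeniusKernel Hc = (Fk : Set A)) (hnil : Group.IsNilpotent ↥Fk)
    (hCF : ∀ v : V, (∀ f ∈ Fk, ρ f v = v) → v = 0) :
    ∃ W : Submodule k V, DirectSum.IsInternal (fun h : ↥Hc => W.map (ρ (h : A))) := by
  have hF := H27.exists_frob_top hHc hker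
  have hc : IsComplement' Hc Fk := hF.sd.isComplement'_top.symm
  let π : A →* Hc := hc.QuotientMulEquiv.toMonoidHom.comp (QuotientGroup.mk' Fk)
  have hπ : ∀ h : Hc, π h = h := fun h => hc.QuotientMulEquiv.apply_symm_apply h
  have hK : Fk ≤ π.ker := fun x hx => by
    rw [MonoidHom.mem_ker]
    show hc.QuotientMulEquiv (x : A ⧸ Fk) = 1
    rw [(QuotientGroup.eq_one_iff x).2 hx, map_one]
  have hreg : H28.SemiReg Fk Hc := H28.semiReg_iff.2 hF.reg
  have hn : Hc ≤ N(Fk) := by rw [normalizer_eq_top]; exact le_top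
  have h0 : rfix ρ Fk = ⊥ := eq_bot_iff.2 fun v hv => hCF v (mem_rfix.1 hv)
  obtain ⟨p, hp⟩ := CharP.exists k
  rcases CharP.char_is_prime_or_zero k p with hpp | rfl
  · refine free_of ρ O[{p}ᶜ](Fk) Hc π hπ ((pcore_le _ _).trans hK) (norms_pcore _ hn) (hreg.mono (pcore_le _ _) le_rfl)
      (by rw [Ne, CharP.cast_eq_zero_iff k p]; exact (p'nat_iff hpp).1 (pcore_pi _ _)) ?_
    by_contra h1
    have hW : RInv ρ O[{p}](Fk) (rfix ρ O[{p}ᶜ](Fk)) := rInv_rfix ρ ((pcore_le _ _).trans (pcore_nrm _ _))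
    haveI : Nontrivial (rfix ρ O[{p}ᶜ](Fk)) := Submodule.nontrivial_iff_ne_bot.2 h1
    refine rfix_ne_bot_of_isPGroup (subRep ρ _ _ hW) hpp (CharP.cast_eq_zero k p) (P := ⊤)
      (((pGrp_iff hpp).1 (pcore_pi _ _)).to_subgroup ⊤) (eq_bot_iff.2 fun v hv => Subtype.ext ?_)
    have : (v : V) ∈ rfix ρ O[{p}](Fk) ⊓ rfix ρ O[{p}ᶜ](Fk) :=
      ⟨mem_rfix.2 fun g hg => congrArg Subtype.val (mem_rfix.1 hv ⟨g, hg⟩ trivial), v.2⟩
    rwa [← rfix_sup, (Nil.dp_pcore hnil {p}).sup, h0] at this
  · haveI := CharP.charP_to_charZero k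
    exact free_of ρ Fk Hc π hπ hK hn hreg (Nat.cast_ne_zero.2 Nat.card_pos.ne') h0

end Cfsg.Agent.S4396
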