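import Cfsg.Statements.S4399
import Mathlib
import Cfsg.Agent.H3.Two

set_option autoImplicit false
open Cfsg

namespace Cfsg.Agent.S4399

/-- Let S be a finite 2-group whose commutator quotient S/[S,S] is a Klein four-group (order 4 and exponent 2). Then S itself has order 4, or S is dihedral of order at least 8, semidihedral of order at least 16 (order 2^(k+4) with an element a of order 2^(k+3) and an involution b with b a b⁻¹ = a^(2^(k+2)−1)), or generalized quaternion of order at least 8. -/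
theorem result {S : Type*} [Group S] [Finite S] (h2 : IsPGroup 2 S) (hab : Nat.card (Abelianization S) = 4)
    (hexp : ∀ x : Abelianization S, x ^ 2 = 1) :
    Nat.card S = 4 ∨
    ((∃ k : ℕ, Nonempty (S ≃* DihedralGroup (2 ^ (k + 2)))) ∨
      (∃ k : ℕ, Nat.card S = 2 ^ (k + 4) ∧ ∃ a b : S, orderOf a = 2 ^ (k + 3) ∧ orderOf b = 2 ∧ b * a * b⁻¹ = a ^ (2 ^ (k + 2) - 1)) ∨
      (∃ k : ℕ, Nonempty (S ≃* QuaternionGroup (2 ^ (k + 1))))) := by
  open Subgroup Cfsg.Agent.FT Cfsg.Agent.H3 in
  open scoped commutatorElement in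
  · by_cases hna : IsMulCommutative S
    · refine Or.inl ?_
      have : commutator S = ⊥ := ab_iff_der.1 (ab_top.2 hna)
      rw [← hab, ← index_bot, ← this]; rfl
    obtain ⟨a, b, m, h⟩ := taussky (pGrp_top h2) (mt ab_top.1 hna) ((relIndex_top_right _).trans hab)
    right
    rcases h.cases with h | h | ⟨b', h⟩
    · obtain ⟨k, rfl⟩ := Nat.exists_eq_add_of_le' h.two_le
      exact Or.inl ⟨k, nonempty_top_equiv.1 h.iso⟩
    · obtain ⟨k, rfl⟩ := Nat.exists_eq_add_of_le' h.two_le
      exact Or.inr (Or.inr ⟨k, nonempty_top_equiv.1 h.iso⟩)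
    · obtain ⟨k, rfl⟩ := Nat.exists_eq_add_of_le' h.three_le
      exact Or.inr (Or.inl ⟨k, card_top'.symm.trans h.card, a, b', h.ord, h.ord_b_two h.sq, h.sd.trans h.sd_eq⟩)

end Cfsg.Agent.S4399
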