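import Mathlib
import Cfsg.Agent.H28.Util3
import Cfsg.Agent.H2.Rel
-- Template for statement S4403 (row 4403; see /opt/grader/pristine/manifest.json for weights).
-- Copy to Cfsg/Agent/S4403.lean and replace the sorry. The statement below is byte-identical to the frozen
-- statement Cfsg.CfsgFrozen.S4403 (Cfsg/Statements/S4403.lean; the theorem Cfsg.fg65_trivial_p_prime_core_and_cyclic_sylow_structure);
-- the grader kernel-checks Cfsg.Agent.S4403.result against that frozen type. Keep the theorem IN THIS FILE
-- (a `result` declared elsewhere and merely imported here is not credited); helpers may live anywhere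
-- under Cfsg/Agent/.
import Cfsg.Statements.S4403
-- import your own Cfsg.Agent.* helpers here

set_option autoImplicit false
open Cfsg

namespace Cfsg.Agent.S4403

/-- Let K be a finite group, p a prime dividing its order with O_{p'}(K) = 1 (no nontrivial normal subgroup of order prime to p), and P a cyclic Sylow p-subgroup of K. Then either P is normal and self-centralizing in K with K/P cyclic of order dividing p − 1 (so K is the semidirect product of P by a group of automorphisms of P of order dividing p − 1), or the generalized Fitting subgroup F*(K) is a non-abelian simple group and p does not divide the index of F*(K) in K. -/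
theorem result {K : Type*} [Group K] [Finite K] (p : ℕ) [Fact p.Prime] (hp : p ∣ Nat.card K) (hO : Cfsg.pPrimeCore p K = ⊥)
    (P : Sylow p K) (hP : IsCyclic ↥(P : Subgroup K)) :
    ((P : Subgroup K).Normal ∧ Subgroup.centralizer ((P : Subgroup K) : Set K) = (P : Subgroup K) ∧
      (∀ (_ : (P : Subgroup K).Normal), IsCyclic (K ⧸ (P : Subgroup K))) ∧ (P : Subgroup K).index ∣ p - 1) ∨
    (IsSimpleGroup ↥(Cfsg.generalizedFittingSubgroup K) ∧ ¬ IsMulCommutative ↥(Cfsg.generalizedFittingSubgroup K) ∧
      ¬ p ∣ (Cfsg.generalizedFittingSubgroup K).index) := by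
  open Subgroup Cfsg.Agent.FT Cfsg.Agent.H28 in
  open scoped commutatorElement Pointwise in
  · have pp : p.Prime := Fact.out
    have hS := syl_top pp P
    have hc : Cyc (P : Subgroup K) := hP
    rw [← piCore_compl_singleton pp, ← pcore_top] at hO
    by_cases hE : E((⊤ : Subgroup K)) = ⊥
    · left
      have h1 : ⊤ ⊓ C(O[{p}]((⊤ : Subgroup K))) ≤ O[{p}](⊤) := charP'_of hO hE
      rw [top_inf_eq] at h1
      have h2 : O[{p}]((⊤ : Subgroup K)) = P :=
        le_antisymm hS.pcore_le ((hc.ab.cents hS.pcore_le le_rfl).trans h1)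
      have h3 : (P : Subgroup K) ⊴ ⊤ := h2 ▸ pcore_nml _ _
      rw [h2] at h1
      have h4 : C((P : Subgroup K)) = P := le_antisymm h1 hc.ab.le_cen
      have h5 := hc.relIndex_cen_dvd_pred hS.pi h3.nrm (h4.symm ▸ hS.idx)
      have h6 : ∃ x ∈ (⊤ : Subgroup K), ⊤ ≤ (P : Subgroup K) ⊔ ⟪x⟫ := by
        by_cases h2 : p = 2
        · subst h2
          rw [h4] at h5
          exact ⟨1, trivial, le_sup_of_le_left (relIndex_eq_one.1 (Nat.dvd_one.1 h5))⟩
        · have := hc.cyc_quo_cen hS.pi (odd_of_two' (hS.pi.p' h2)) h3.nrm
          rw [h4] at this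
          exact (cyc_quo_iff h3.nrm).1 this
      rw [h4, relIndex_top_right] at h5
      refine ⟨nml_top_iff.1 h3, h4, fun _ => ?_, h5⟩
      obtain ⟨x, -, hx⟩ := h6
      refine cyc_top.1 ((cyc_zpowers (QuotientGroup.mk' (P : Subgroup K) x)).mono ?_)
      rw [← map_top_of_surjective _ (QuotientGroup.mk'_surjective (P : Subgroup K)),
        ← MonoidHom.map_zpowers]
      refine (map_mono hx).trans ?_
      rw [Subgroup.map_sup, (Subgroup.map_eq_bot_iff _).2 (QuotientGroup.ker_mk' _).ge, bot_sup_eq]
    · right
      obtain ⟨L, hL⟩ : ∃ L, Comp L (⊤ : Subgroup K) := by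
        by_contra h; push Not at h; exact hE (lay_eq_bot_iff.2 h)
      have h1 : ∀ L, Comp L (⊤ : Subgroup K) → (P : Subgroup K) ⊓ L ≠ ⊥ := fun L hL e =>
        hL.ne (eq_bot_of_le (pcore_max_subn ((hS.inf_subn hL.subn).eq_bot_iff.1 e) hL.subn) hO)
      have h2 : Z(L) = ⊥ := by
        have := (hS.inf_subn hL.subn).isHall.inf_der_center_ab (hc.ab.mono inf_le_left)
        rw [hL.perf] at this
        refine eq_bot_of_le (le_inf (le_inf (le_inf ?_ inf_le_left) inf_le_left) inf_le_right) this
        exact (hL.center_le_fitting.trans (fitting_eq_pcore hO).le).trans hS.pcore_le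
      have h3 : ∀ A, A ≤ C(L) → (P : Subgroup K) ⊓ A = ⊥ := fun A hA => by
        by_contra e
        exact hc.pGrp_meet hS.pi inf_le_left inf_le_left (h1 L hL) e
          (eq_bot_of_le (inf_le_inf inf_le_right (inf_le_right.trans hA)) h2)
      have h4 : F*((⊤ : Subgroup K)) = L := by
        refine le_antisymm ?_ hL.le_gfit
        rw [gfit_eq_lay_sup_pcore hO]
        refine sup_le (lay_le_iff.2 fun L' hL' => ?_) ?_
        · exact ((hL'.eq_or_cents hL).resolve_right fun h => h1 L' hL' (h3 _ h)).le
        · have := h3 _ (centsC (hL.le_lay.trans (lay_cents_pcore p ⊤)))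
          rw [inf_eq_right.2 hS.pcore_le] at this
          rw [this]; exact bot_le
      have hn : L ⊴ ⊤ := h4 ▸ gfit_nml ⊤
      rw [← gfit_top, h4]
      refine ⟨?_, fun h => hL.qs.not_cents (Ab.le_cen h), ?_⟩
      · haveI := (nontrivial_iff_ne_bot L).2 hL.ne
        refine ⟨fun H _ => ?_⟩
        rcases hL.qs.simple (nml_map_subtype H) with h | h
        · right; rw [← so_map H, h, subgroupOf_self]
        · left
          have := eq_bot_of_le (le_inf (map_subtype_le H) h) h2
          rw [← so_map H, this, bot_subgroupOf]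
      · have h5 : ⁅L ⊔ P, L ⊔ P⁆ = L := by
          refine le_antisymm ((der_sup_le (le_top.trans hn.nrm)).trans ?_) ?_
          · rw [ab_iff_der.1 hc.ab, sup_bot_eq]
          · exact hL.perf.ge.trans (der_mono le_sup_left)
        have h6 := cyclic_Sylow_tiVsub_der1 (hS.subl (le_sup_right (a := L)) le_top) hc
        rw [h5] at h6
        have := hS.relIndex_of_le (h6.resolve_left (h1 L hL))
        rw [relIndex_top_right] at this
        exact this.not_dvd pp rfl

end Cfsg.Agent.S4403
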