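import Cfsg.Statements.S4404
import Cfsg.Agent.H5.Tv

set_option autoImplicit false
open Cfsg

namespace Cfsg.Agent.S4404

/-- Let S be a finite solvable group and M a normal elementary abelian 2-subgroup of S. Suppose S contains an elementary abelian subgroup of order p³ for some odd prime p, and a cyclic 3-subgroup Q such that the cubes of the elements of Q centralize M and the commutator subgroup [Q, M] has order 4 (a four-group inside M). Then S contains an elementary abelian subgroup F of order r³, for some odd prime r, whose centralizer of [Q, M] in F — the subgroup C_F([Q, M]) — is not cyclic. -/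
theorem result {S : Type*} [Group S] [Finite S]
    [Group.IsSolvable S] (M : Subgroup S) [M.Normal] (hM : Cfsg.IsElementaryAbelian 2 M)
    (p : ℕ) (hp : p.Prime) (hp2 : p ≠ 2) (E : Subgroup S) (hE : Cfsg.IsElementaryAbelian p E) (hE3 : Nat.card ↥E = p ^ 3)
    (Q : Subgroup S) (hQc : IsCyclic ↥Q) (hQ3 : IsPGroup 3 ↥Q)
    (hQ1 : ∀ x ∈ Q, x ^ 3 ∈ Subgroup.centralizer (M : Set S)) (hQM : Nat.card ↥⁅Q, M⁆ = 4) :
    ∃ (r : ℕ) (F : Subgroup S), r.Prime ∧ r ≠ 2 ∧ Cfsg.IsElementaryAbelian r F ∧ Nat.card ↥F = r ^ 3 ∧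
      ¬ IsCyclic ↥(F ⊓ Subgroup.centralizer ((⁅Q, M⁆ : Subgroup S) : Set S)) := by
  open Cfsg.Agent.FT Cfsg.Agent.H5g Subgroup in
  have hs : Sol (⊤ : Subgroup S) := sol_top.2 ‹_›
  have pQ : PGrp 3 Q := pGrp_of_isPGroup Nat.prime_three hQ3
  have nM : ∀ X : Subgroup S, X ≤ N(M) := fun X => le_top.trans (nml_top_iff.2 ‹_›).nrm
  obtain ⟨H, hH, lQ⟩ := Hall_superset hs le_top (pQ.p' (by norm_num : 3 ≠ 2))
  have oH : Odd #H := Nat.not_even_iff_odd.1 fun e => (p'nat_iff Nat.prime_two).1 hH.pi e.two_dvd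
  have r3 : 3 ≤ prank p H := hH.prank_eq (p := p) hp2 ▸ (⟨hp, le_top, hE, hE3⟩ : PnElem p 3 E ⊤).le_prank
  rw [commutator_comm] at hQM ⊢
  by_cases h3 : 2 < prank 3 H
  · obtain ⟨T, hT, lT⟩ := pQ.exists_syl lQ
    obtain ⟨B, b1, b2, -⟩ := bg4_exists_SCN3 hT.pi (odd_of_le hT.le oH) (hT.prank_syl ▸ h3) (abelem_bot 3) (nml_bot T)
    rw [(hT.pi.mono b1.nml.le).rank_eq] at b2
    obtain ⟨A, a1, -, a2, a3⟩ := hT.pi.exists_nml_between (n := 3) Nat.prime_three (nml_bot T) (b1.nml.Ohm 3) bot_le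
      (by simp) (by rw [b1.ab.card_Ohm Nat.prime_three]; exact Nat.pow_le_pow_right (by norm_num) b2)
    have aA := (b1.ab.abelem_Ohm 3).mono a2
    obtain ⟨q, rfl⟩ := cyc_iff.1 hQc
    obtain ⟨C, c1, c2, c3⟩ := hyper_cents hM Nat.prime_three (by norm_num) aA (ne_bot_of_one_lt_card (by omega)) (nM A)
      ((hH.pi.mono lQ).piElt (mem_zpowers q)) (a1.nrm (lT (mem_zpowers q))) (nM _ (mem_zpowers q)) hQM
    exact ⟨3, A, Nat.prime_three, by norm_num, aA, a3, not_cyc_of_idx ⟨Nat.prime_three, le_rfl, aA, a3⟩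
      (Nat.le_of_dvd (by norm_num) (c2 ▸ relIndex_dvd_of_le_left A c3))⟩
  have p3 : p ≠ 3 := by rintro rfl; omega
  have hK : Hall {3}ᶜ O[{3}ᶜ](H) H := rank2_min_p_complement Nat.prime_three
    (fun q hq hd => two_lt_of_odd hq hd oH) (hs.mono le_top) oH (by omega)
  obtain ⟨P, hP, nP⟩ := coprime_Sylow_exists p (lQ.trans (pcore_nrm {3}ᶜ H)) (hK.pi.cop' pQ) (.inl (hs.mono le_top))
  obtain ⟨F, hF⟩ := (le_prank_iff hp).1 (hP.prank_syl ▸ hK.prank_eq (p := p) p3 ▸ r3 : 3 ≤ prank p P)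
  exact ⟨p, F, hp, hp2, hF.abelem, hF.card, not_cyc_of_idx hF ((relIndex_le_of_le_right hF.le (relIndex_pos _ _).ne').trans
    (Nat.le_of_dvd hp.pos (idx_general hM hp (by have := hp.two_le; omega) hP.pi hQc pQ hQ1 nP (nM P) (nM Q) hQM)))⟩

end Cfsg.Agent.S4404
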