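import Mathlib
import Cfsg.Agent.H28.Util2
-- Template for statement S4406 (row 4406; see /opt/grader/pristine/manifest.json for weights).
-- Copy to Cfsg/Agent/S4406.lean and replace the sorry. The statement below is byte-identical to the frozen
-- statement Cfsg.CfsgFrozen.S4406 (Cfsg/Statements/S4406.lean; the theorem Cfsg.fg19_alternating_four_squared_four_subgroups_of_sylow_two);
-- the grader kernel-checks Cfsg.Agent.S4406.result against that frozen type. Keep the theorem IN THIS FILE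
-- (a `result` declared elsewhere and merely imported here is not credited); helpers may live anywhere
-- under Cfsg/Agent/.
import Cfsg.Statements.S4406
-- import your own Cfsg.Agent.* helpers here

set_option autoImplicit false
open Cfsg

namespace Cfsg.Agent.S4406

section
open Subgroup Cfsg.Agent.FT Cfsg.Agent.H28
open scoped commutatorElement Pointwise
set_option linter.style.haveILetI false

theorem f1 : ∀ x : alternatingGroup (Fin 4), x ^ 4 = 1 → x ^ 2 = 1 := by decide +kernel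

set_option synthInstance.maxSize 2000 in
set_option synthInstance.maxHeartbeats 200000 in
theorem f2 : ∀ a : alternatingGroup (Fin 4), a ^ 3 = 1 → a ≠ 1 → ∀ u, u ^ 2 = 1 → u ≠ 1 →
    ∀ v, v ^ 2 = 1 → v ≠ 1 → u ≠ v →
    (a * u * a⁻¹ = v ∧ a * v * a⁻¹ = u * v ∧ a⁻¹ * u * a⁻¹⁻¹ = u * v ∧ a⁻¹ * v * a⁻¹⁻¹ = u) ∨
    (a * u * a⁻¹ = u * v ∧ a * v * a⁻¹ = u ∧ a⁻¹ * u * a⁻¹⁻¹ = v ∧ a⁻¹ * v * a⁻¹⁻¹ = u * v) := by
  decide +kernel

theorem f3 : ∃ c : alternatingGroup (Fin 4), c ≠ 1 ∧ c ^ 3 = 1 := by decide +kernel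

theorem f4 : ∀ x : alternatingGroup (Fin 4), x ^ 6 = 1 := by decide +kernel

theorem prod_pgroup {G H : Type*} [Group G] [Group H] {p : ℕ} {A : Subgroup G} {B : Subgroup H}
    (hA : IsPGroup p A) (hB : IsPGroup p B) : IsPGroup p (A.prod B) := by
  rintro ⟨⟨a, b⟩, ha, hb⟩
  obtain ⟨k, hk⟩ := hA ⟨a, ha⟩
  obtain ⟨l, hl⟩ := hB ⟨b, hb⟩
  refine ⟨k + l, Subtype.ext (Prod.ext ?_ ?_)⟩
  · have : a ^ p ^ k = 1 := congrArg Subtype.val hk
    change a ^ p ^ (k + l) = 1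
    rw [pow_add, pow_mul, this, one_pow]
  · have : b ^ p ^ l = 1 := congrArg Subtype.val hl
    change b ^ p ^ (k + l) = 1
    rw [add_comm, pow_add, pow_mul, this, one_pow]

theorem cube {A : Subgroup (alternatingGroup (Fin 4))} (hA : IsPGroup 3 A) (h : A ≠ ⊥) :
    ∃ a ∈ A, a ≠ 1 ∧ a ^ 3 = 1 := by
  obtain ⟨a, ha, h3⟩ := (pGrp_of_isPGroup Nat.prime_three hA).exists_elt h
  exact ⟨a, ha, by rintro rfl; simp at h3, h3 ▸ pow_orderOf_eq_one a⟩

end

/-- In the direct product P = A₄ × A₄, let X be the Sylow 2-subgroup, X₁ and X₂ its intersections with the two direct factors, Q a Sylow 3-subgroup and Q₁, Q₂ its intersections with the two factors. Then every subgroup B of X of order 4 either meets X₁ or X₂ nontrivially, or is normalized by one of the two subgroups of Q of order 3 other than Q₁ and Q₂. -/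
theorem result
    (X : Sylow 2 (↥(alternatingGroup (Fin 4)) × ↥(alternatingGroup (Fin 4))))
    (Q : Sylow 3 (↥(alternatingGroup (Fin 4)) × ↥(alternatingGroup (Fin 4))))
    (B : Subgroup (↥(alternatingGroup (Fin 4)) × ↥(alternatingGroup (Fin 4)))) (hBX : B ≤ (X : Subgroup _)) (hB4 : Nat.card ↥B = 4) :
    B ⊓ ((X : Subgroup _) ⊓ Subgroup.prod ⊤ ⊥) ≠ ⊥ ∨ B ⊓ ((X : Subgroup _) ⊓ Subgroup.prod ⊥ ⊤) ≠ ⊥ ∨
      ∃ R : Subgroup (↥(alternatingGroup (Fin 4)) × ↥(alternatingGroup (Fin 4))), R ≤ (Q : Subgroup _) ∧ Nat.card ↥R = 3 ∧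
        R ≠ (Q : Subgroup _) ⊓ Subgroup.prod ⊤ ⊥ ∧ R ≠ (Q : Subgroup _) ⊓ Subgroup.prod ⊥ ⊤ ∧ R ≤ Subgroup.normalizer (B : Set _) := by
  open Subgroup Cfsg.Agent.FT Cfsg.Agent.H28 in
  open scoped commutatorElement Pointwise in
  haveI := Fact.mk Nat.prime_three
  by_contra hcon
  push Not at hcon
  obtain ⟨h1, h2, h3⟩ := hcon
  have k1 : ∀ x ∈ B, x.2 = 1 → x = 1 := fun x hx e =>
    eq_one_of_mem_inf h1 hx ⟨hBX hx, mem_top _, e⟩
  have k2 : ∀ x ∈ B, x.1 = 1 → x = 1 := fun x hx e =>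
    eq_one_of_mem_inf h2 hx ⟨hBX hx, e, mem_top _⟩
  have k3 : ∀ x ∈ B, x.1 ^ 2 = 1 ∧ x.2 ^ 2 = 1 := fun x hx => by
    have := pow_card hx
    rw [hB4] at this
    exact ⟨f1 _ (congrArg Prod.fst this), f1 _ (congrArg Prod.snd this)⟩
  obtain ⟨u, hu, hu2⟩ := exists_elt_of_prime_dvd Nat.prime_two (by rw [hB4]; norm_num : 2 ∣ #B)
  have hu1 : u ≠ 1 := by rintro rfl; simp at hu2
  have hi : (⟪u⟫).relIndex B = 2 := by
    have := card_mul_relIndex (zpowers_le.2 hu)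
    rw [card_zpowers', hu2, hB4] at this
    omega
  obtain ⟨v, hv, hvu⟩ : ∃ v ∈ B, v ∉ ⟪u⟫ := SetLike.not_le_iff_exists.1 fun h => by
    rw [relIndex_eq_one.2 h] at hi; omega
  have hB : ⟪u⟫ ⊔ ⟪v⟫ = B := (eq_or_eq_of_prime_relIndex (hi ▸ Nat.prime_two) le_sup_left
    (sup_le (zpowers_le.2 hu) (zpowers_le.2 hv))).resolve_left fun e =>
      hvu (e ▸ mem_sup_right (mem_zpowers v))
  have hv1 : v ≠ 1 := by rintro rfl; exact hvu (one_mem _)
  have huv : u * v⁻¹ ≠ 1 := fun e => hvu (mul_inv_eq_one.1 e ▸ mem_zpowers u)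
  have hm := B.mul_mem hu (B.inv_mem hv)
  have q1 := Q.isPGroup'.map (MonoidHom.fst _ _)
  have q2 := Q.isPGroup'.map (MonoidHom.snd _ _)
  have hle := le_prod_iff.2 ⟨le_refl ((Q : Subgroup (alternatingGroup (Fin 4) × alternatingGroup (Fin 4))).map
    (MonoidHom.fst _ _)), le_rfl⟩
  have hQ := Q.is_maximal' (prod_pgroup q1 q2) hle
  obtain ⟨c, hc1, hc⟩ := f3
  have qc : IsPGroup 3 ⟪c⟫ := (pElt_of_pow_eq_one Nat.prime_three hc).zpowers.isPGroup
  obtain ⟨a, ha, ha1, ha3⟩ := cube q1 (fun e => by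
    have := Q.is_maximal' (prod_pgroup qc q2) (hle.trans (prod_mono (e ▸ bot_le) le_rfl))
    have h4 := mem_map_of_mem (MonoidHom.fst _ _) (this.le (x := (c, 1)) ⟨mem_zpowers c, one_mem _⟩)
    rw [e] at h4
    exact hc1 h4)
  obtain ⟨b, hb, hb1, hb3⟩ := cube q2 (fun e => by
    have := Q.is_maximal' (prod_pgroup q1 qc) (hle.trans (prod_mono le_rfl (e ▸ bot_le)))
    have h4 := mem_map_of_mem (MonoidHom.snd _ _) (this.le (x := (1, c)) ⟨one_mem _, mem_zpowers c⟩)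
    rw [e] at h4
    exact hc1 h4)
  have fin : ∀ b ∈ (Q : Subgroup (alternatingGroup (Fin 4) × alternatingGroup (Fin 4))).map (MonoidHom.snd _ _), b ≠ 1 → b ^ 3 = 1 →
      (a, b) * u * (a, b)⁻¹ ∈ B → (a, b) * v * (a, b)⁻¹ ∈ B → False := by
    intro b hb hb1 hb3 e1 e2
    refine h3 ⟪(a, b)⟫ (zpowers_le.2 (hQ.le ⟨ha, hb⟩)) ?_ (fun e => hb1 ?_) (fun e => ha1 ?_) ?_
    · rw [card_zpowers']
      exact orderOf_eq_prime (Prod.ext ha3 hb3) fun e => ha1 (congrArg Prod.fst e)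
    · exact (e.le (mem_zpowers (a, b))).2.2
    · exact (e.le (mem_zpowers (a, b))).2.1
    · refine zpowers_le.2 (mem_nrm_of_cj_le ?_)
      conv_lhs => rw [← hB, cj_sup, cj_zpowers, cj_zpowers]
      exact sup_le (zpowers_le.2 e1) (zpowers_le.2 e2)
  have huv' := B.mul_mem hu hv
  have t : ∀ x y : alternatingGroup (Fin 4) × alternatingGroup (Fin 4), y ∈ B → x.1 = y.1 →
      x.2 = y.2 → x ∈ B := fun x y hy e1 e2 => (Prod.ext e1 e2 : x = y) ▸ hy
  rcases f2 a ha3 ha1 u.1 (k3 u hu).1 (fun e => hu1 (k2 u hu e)) v.1 (k3 v hv).1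
    (fun e => hv1 (k2 v hv e)) (fun e => huv (k2 _ hm (mul_inv_eq_one.2 e))) with
      ⟨a1, a2, -, -⟩ | ⟨a1, a2, -, -⟩ <;>
  rcases f2 b hb3 hb1 u.2 (k3 u hu).2 (fun e => hu1 (k1 u hu e)) v.2 (k3 v hv).2
    (fun e => hv1 (k1 v hv e)) (fun e => huv (k1 _ hm (mul_inv_eq_one.2 e))) with
      ⟨b1, b2, b3, b4⟩ | ⟨b1, b2, b3, b4⟩
  · exact fin b hb hb1 hb3 (t _ _ hv a1 b1) (t _ _ huv' a2 b2)
  · exact fin b⁻¹ (inv_mem hb) (inv_ne_one.2 hb1) (by rw [inv_pow, hb3, inv_one])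
      (t _ _ hv a1 b3) (t _ _ huv' a2 b4)
  · exact fin b⁻¹ (inv_mem hb) (inv_ne_one.2 hb1) (by rw [inv_pow, hb3, inv_one])
      (t _ _ huv' a1 b3) (t _ _ hu a2 b4)
  · exact fin b hb hb1 hb3 (t _ _ huv' a1 b1) (t _ _ hu a2 b2)

end Cfsg.Agent.S4406
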