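import Cfsg.Statements.S4407
import Cfsg.Agent.H5.D8m

set_option autoImplicit false
open Cfsg

namespace Cfsg.Agent.S4407

/-- Let S be a finite group with a normal elementary abelian subgroup A of order 9 that is self-centralizing (C_S(A) = A), and a dihedral subgroup X of order 8 with S = AX. Let M be a finite-dimensional module for S over the field with two elements that is faithful and irreducible. Then M has 16 elements, and X contains exactly one subgroup B of order 4 and exponent 2 whose fixed points on M form a subspace with exactly 2 elements (equivalently, M is free of rank one over the group algebra of B). -/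
theorem result {S : Type*} [Group S] [Finite S]
    (A : Subgroup S) [A.Normal] (hA : Cfsg.IsElementaryAbelian 3 A) (hA9 : Nat.card ↥A = 9)
    (hAC : Subgroup.centralizer (A : Set S) = A) (X : Subgroup S) (hX : Nonempty (↥X ≃* DihedralGroup 4)) (hAX : A ⊔ X = ⊤)
    {M : Type*} [AddCommGroup M] [Module (ZMod 2) M] [Finite M] (ρ : Representation (ZMod 2) S M)
    (hfaith : Function.Injective ρ)
    (hirr : ∀ N : Submodule (ZMod 2) M, (∀ s : S, ∀ m ∈ N, ρ s m ∈ N) → N = ⊥ ∨ N = ⊤) (hM : Nontrivial M) :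
    Nat.card M = 16 ∧
      ∃! B : Subgroup S, B ≤ X ∧ Nat.card ↥B = 4 ∧ (∀ b ∈ B, b ^ 2 = 1) ∧
        Nat.card {m : M // ∀ b ∈ B, ρ b m = m} = 2 := by
  open Cfsg.Agent.FT Cfsg.Agent.H5g Subgroup in
  obtain ⟨e⟩ := hX
  have : Fact (Nat.Prime 2) := ⟨Nat.prime_two⟩
  have hi := li_inj ρ
  let ψ : DihedralGroup 4 →* Aff ρ := (li ρ).comp (X.subtype.comp e.symm.toMonoidHom)
  have hr : ψ.range = X.map (li ρ) := by
    rw [MonoidHom.range_comp, MonoidHom.range_comp, MonoidHom.range_eq_top.2 e.symm.surjective, map_subtype_top]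
  have d : Dm (tsub ρ ⊤) ((⊤ : Subgroup S).map (li ρ)) (A.map (li ρ)) ψ :=
    ⟨abelem_tsub ρ _, norms_tsub_top ρ _, faithful_tsub ρ fun x _ h => hfaith (h.trans (map_one ρ).symm), tsub_top_ne ρ,
      irr_tsub ρ hirr, Abelem.map hA _, (card_map_inj hi A).trans hA9, (nml_top_iff.2 ‹_›).map _,
      by rw [← map_subcent_inj hi, top_inf_eq, hAC], hi.comp (X.subtype_injective.comp e.symm.injective),
      by rw [hr, ← Subgroup.map_sup, hAX]⟩
  obtain ⟨h1, B, ⟨k1, k2, k3, k4⟩, hu⟩ := d.final
  rw [hr] at k1 hu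
  obtain ⟨B, rfl⟩ : ∃ B₀ : Subgroup S, B₀.map (li ρ) = B := ⟨_, map_comap_eq_self (k1.trans (map_le_range _ _))⟩
  refine ⟨(card_tsub_top ρ).symm.trans h1, B, ⟨(map_le_map_iff_of_injective hi).1 k1, (card_map_inj hi B).symm.trans k2,
    fun b hb => hi (by rw [map_pow, k3 _ (mem_map_of_mem _ hb), map_one]), (card_fix ρ B).symm.trans k4⟩,
    fun B' ⟨a1, a2, a3, a4⟩ => map_injective hi (hu _ ⟨map_mono a1, (card_map_inj hi B').trans a2, ?_,
      (card_fix ρ B').trans a4⟩)⟩
  rintro _ ⟨b, hb, rfl⟩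
  rw [← map_pow, a3 b hb, map_one]

end Cfsg.Agent.S4407
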