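import Mathlib
import Cfsg.Agent.H28.Dih
-- Template for statement S4408 (row 4408; see /opt/grader/pristine/manifest.json for weights).
-- Copy to Cfsg/Agent/S4408.lean and replace the sorry. The statement below is byte-identical to the frozen
-- statement Cfsg.CfsgFrozen.S4408 (Cfsg/Statements/S4408.lean; the theorem Cfsg.fg19_elementary_two_subgroup_acting_on_odd_fitting_subgroup_invariant_prime_order_factors);
-- the grader kernel-checks Cfsg.Agent.S4408.result against that frozen type. Keep the theorem IN THIS FILE
-- (a `result` declared elsewhere and merely imported here is not credited); helpers may live anywhere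
-- under Cfsg/Agent/.
import Cfsg.Statements.S4408
-- import your own Cfsg.Agent.* helpers here

set_option autoImplicit false
open Cfsg

namespace Cfsg.Agent.S4408

/-- Let S be a finite solvable group whose Fitting subgroup F(S) has odd order, and let I be an elementary abelian 2-subgroup of S of order 2ⁿ with n ≥ 1. Then F(S) contains subgroups A₁, …, Aₙ of prime order, each normalized by I, pairwise commuting and generating a subgroup A of order |A₁|⋯|Aₙ| (their internal direct product), such that no non-identity element of I centralizes A. -/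
theorem result {S : Type*} [Group S] [Finite S]
    [Group.IsSolvable S] (hF : Odd (Nat.card ↥(Cfsg.fittingSubgroup S)))
    (I : Subgroup S) (hI : Cfsg.IsElementaryAbelian 2 I) (n : ℕ) (hn : 1 ≤ n) (hIn : Nat.card ↥I = 2 ^ n) :
    ∃ f : Fin n → Subgroup S, (∀ i, (Nat.card ↥(f i)).Prime) ∧ (∀ i, f i ≤ Cfsg.fittingSubgroup S) ∧
      (∀ i, I ≤ Subgroup.normalizer ((f i) : Set S)) ∧ (∀ i j, i ≠ j → ∀ a ∈ f i, ∀ b ∈ f j, a * b = b * a) ∧
      Nat.card ↥(⨆ i, f i) = ∏ i, Nat.card ↥(f i) ∧ I ⊓ Subgroup.centralizer ((⨆ i, f i : Subgroup S) : Set S) = ⊥ := by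
  open Subgroup Cfsg.Agent.FT Cfsg.Agent.H28 in
  open scoped commutatorElement Pointwise in
  · rw [← fitting_top] at hF ⊢
    obtain ⟨f, a, h1, h2, h3, -⟩ := dihedral_lemma (fitting_nil _) hF hI (le_top.trans (fitting_nrm _))
      (eq_bot_of_le (inf_le_inf_left _ ((le_inf le_top le_rfl).trans (cent_sub_Fitting (sol_top.2 ‹_›))))
        ((Abelem.pGrp hI Nat.prime_two).inf_eq_bot (two'_of_odd hF))) hIn
    exact ⟨f, fun i => (h1 i).1, fun i => (h1 i).2.1, fun i => (h1 i).2.2.1,
      fun i j _ a ha b hb => (mem_cen.1 (((h1 i).2.2.2.2.2 j).1 ha) b hb).symm, h2, h3⟩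

end Cfsg.Agent.S4408
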