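import Cfsg.Statements.S4409
import Cfsg.Agent.H5.Nca2

set_option autoImplicit false
open Cfsg

namespace Cfsg.Agent.S4409

/-- Let S be a finite solvable group with O_{2'}(S) = 1 that contains a non-cyclic abelian subgroup of order 8, while no proper subgroup of S of 2-power index contains one. Then a Sylow 2-subgroup X of S is normal in S, and one of the following holds: X is abelian; X is extraspecial of order at least 32; X has a generalized quaternion subgroup X₀ of index 2 with X = X₀·C_X(X₀); or X is special with centre of order 4. -/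
theorem result {S : Type*} [Group S] [Finite S]
    [Group.IsSolvable S] (hO : Cfsg.pPrimeCore 2 S = ⊥)
    (h8 : ∃ A : Subgroup S, IsMulCommutative ↥A ∧ ¬ IsCyclic ↥A ∧ Nat.card ↥A = 8)
    (hmin : ∀ R : Subgroup S, R ≠ ⊤ → (∃ k : ℕ, R.index = 2 ^ k) →
      ¬ ∃ A : Subgroup S, A ≤ R ∧ IsMulCommutative ↥A ∧ ¬ IsCyclic ↥A ∧ Nat.card ↥A = 8)
    (X : Sylow 2 S) :
    (X : Subgroup S).Normal ∧
      (IsMulCommutative ↥X ∨
        (Cfsg.IsExtraspecial 2 ↥X ∧ 32 ≤ Nat.card ↥X) ∨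
        (∃ (X₀ : Subgroup S) (k : ℕ), X₀ ≤ (X : Subgroup S) ∧ X₀.relIndex (X : Subgroup S) = 2 ∧
          Nonempty (↥X₀ ≃* QuaternionGroup (2 ^ (k + 1))) ∧ X₀ ⊔ ((X : Subgroup S) ⊓ Subgroup.centralizer (X₀ : Set S)) = (X : Subgroup S)) ∨
        (Cfsg.IsSpecial 2 ↥X ∧ Nat.card ↥(Subgroup.center ↥X) = 4)) := by
  open Cfsg.Agent.FT Cfsg.Agent.H5g Subgroup in
  have hs : Sol (⊤ : Subgroup S) := sol_top.2 ‹_›
  obtain ⟨K, hK⟩ := Hall_exists {2}ᶜ hs
  have n8 : ¬ N8 (⊤ : Subgroup S) := fun h => let ⟨A, a, b, c⟩ := h8; b (h A le_top a c)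
  have hm : ∀ R, R ≠ ⊤ → K ≤ R → N8 R := fun R h1 h2 A a b c => by_contra fun d => hmin R h1
    (PiNat.exists_pow (by
      have := hK.idx
      rw [compl_compl, relIndex_top_right] at this
      exact this.of_dvd (index_dvd_of_le h2)) index_ne_zero_of_finite) ⟨A, a, b, d, c⟩
  have e := min_syl hs (by rw [pcore_top, piCore_compl_singleton Nat.prime_two, hO]) hK n8 hm
  have nH := pcore_nrm {2} (⊤ : Subgroup S)
  have pH := pcore_pi {2} (⊤ : Subgroup S)
  have sH := (mulEq_of_sup (le_top.trans nH) e).hall_left pH hK.pi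
  rw [← sH.eq_pcore (syl_top Nat.prime_two X)] at e nH pH sH
  refine ⟨nml_top_iff.1 ⟨le_top, nH⟩, ?_⟩
  by_cases na : Ab (X : Subgroup S)
  · exact .inl na
  rcases min_main pH hK.pi (le_top.trans nH) (fun h => n8 fun A _ a b => h A (sH.le_of_nml nH
    (pGrp_of_card (n := 3) Nat.prime_two b) le_top) a b) (fun Y a b => (hm (Y ⊔ K) (fun c => a.ne (by
      have := inf_sup_left b a.le
      rwa [c, inf_top_eq, pH.inf_eq_bot hK.pi, sup_bot_eq, eq_comm] at this)) le_sup_right).mono le_sup_left) na with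
    ⟨W, a, b, c, d⟩ | ⟨a, b, ⟨c, d⟩ | c⟩
  · exact .inr (.inr (.inl ⟨W, 0, a, b, c.equiv, d⟩))
  · exact .inr (.inl ⟨⟨isSpecial_of pH a b, (card_center' _).trans c⟩, d⟩)
  · exact .inr (.inr (.inr ⟨isSpecial_of pH a b, (card_center' _).trans c⟩))

end Cfsg.Agent.S4409
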