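import Cfsg.Statements.S4410
import Mathlib
import Cfsg.Agent.FT.Nil

set_option autoImplicit false
open Cfsg

namespace Cfsg.Agent.S4410

open Subgroup Cfsg.Agent.FT

theorem ring4 {R : Type*} [Ring R] (two : (2 : R) = 0) {A B : R} (hA : A * A = 0) (hB : B * B = 0)
    (h1 : A * B * A = 0) (h2 : B * A * B = 0) : ((1 + A) * (1 + B)) ^ 4 = 1 := by
  have e1 : ((1 + A) * (1 + B)) ^ 2 = 1 + (A * B + B * A) := by
    calc ((1 + A) * (1 + B)) ^ 2 = 1 + (A * B + B * A) + 2 * (A + B + A * B) + A * A + A * A * B + B * B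
        + B * A * B + A * B * A + A * (B * B) + A * B * A * B := by noncomm_ring
      _ = _ := by simp [two, hA, hB, h1, h2]
  calc ((1 + A) * (1 + B)) ^ 4 = (((1 + A) * (1 + B)) ^ 2) ^ 2 := by rw [← pow_mul]
    _ = 1 + 2 * (A * B + B * A) + A * B * A * B + A * (B * B) * A + B * (A * A) * B + B * A * B * A := by
        rw [e1]; noncomm_ring
    _ = 1 := by simp [two, hA, hB, h1, h2]

variable {V : Type*} [AddCommGroup V] [Module (ZMod 2) V]

theorem add_self' (v : V) : v + v = 0 := by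
  rw [← two_smul (ZMod 2), show (2 : ZMod 2) = 0 from rfl, zero_smul]

/-- transvections -/
def Tv (s : V ≃ₗ[ZMod 2] V) (a : V) : Prop := s a = a ∧ ∀ v, s v - v = 0 ∨ s v - v = a

theorem Tv.conj {s : V ≃ₗ[ZMod 2] V} {a : V} (h : Tv s a) (g : V ≃ₗ[ZMod 2] V) :
    Tv (g * s * g⁻¹) (g a) := by
  refine ⟨by simp [h.1], fun v => ?_⟩
  obtain ⟨v, rfl⟩ := g.surjective v
  simp only [LinearEquiv.mul_apply, LinearEquiv.coe_inv, LinearEquiv.symm_apply_apply, ← map_sub]
  exact (h.2 v).imp (fun e => by rw [e, map_zero]) fun e => by rw [e]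

theorem Tv.pair {s t : V ≃ₗ[ZMod 2] V} {a b : V} (hs : Tv s a) (ht : Tv t b) (ho : Odd (orderOf (s * t)))
    (h1 : s * t ≠ 1) : s b - b = a ∧ t a - a = b := by
  by_contra hc
  have hc' : s b - b = 0 ∨ t a - a = 0 := by
    rcases hs.2 b with e | e
    · exact Or.inl e
    · exact Or.inr ((ht.2 a).resolve_right fun e' => hc ⟨e, e'⟩)
  have k1 : ∀ {s : V ≃ₗ[ZMod 2] V} {a : V}, Tv s a →
      ((s : Module.End (ZMod 2) V) - 1) * ((s : Module.End (ZMod 2) V) - 1) = 0 := fun {s a} h => by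
    ext v
    rcases h.2 v with e | e <;> simp [e, h.1, -map_sub]
  have k2 : ∀ {s t : V ≃ₗ[ZMod 2] V} {a b : V}, Tv s a → Tv t b → s b - b = 0 ∨ t a - a = 0 →
      ((s : Module.End (ZMod 2) V) - 1) * ((t : Module.End (ZMod 2) V) - 1) *
        ((s : Module.End (ZMod 2) V) - 1) = 0 := fun {s t a b} h h' h'' => by
    ext v
    rcases h.2 v with e | e
    · simp [e, -map_sub]
    · rcases h'.2 a with e' | e'
      · simp [e, e', -map_sub]
      · rcases h'' with e'' | e''
        · simp [e, e', e'', -map_sub]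
        · simp [e, e'', -map_sub]
  have h4 := ring4 (by ext v; simp [two_smul, add_self']) (k1 hs) (k1 ht) (k2 hs ht hc')
    (k2 ht hs hc'.symm)
  rw [add_sub_cancel, add_sub_cancel] at h4
  have h5 : (s * t) ^ 4 = 1 := by
    ext v
    have := congrArg (fun f : Module.End (ZMod 2) V => f v) h4
    simpa [pow_succ] using this
  have h6 := orderOf_dvd_of_pow_eq_one h5
  exact h1 (orderOf_eq_one_iff.1 (Nat.Coprime.eq_one_of_dvd
    (Nat.Coprime.pow_right 2 (Nat.coprime_two_right.2 ho)) h6))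

/-- Let V be a finite-dimensional vector space over the field with two elements and S a solvable group of linear automorphisms of V with O₂(S) = 1. If P ∈ S has order 4 and (P − 1)³ = 0 on V, then the image of (P − 1)² has at least 4 elements; equivalently, in the decomposition of V into indecomposable modules for the cyclic group generated by P, at least two summands have dimension 3. -/
theorem result
    {V : Type*} [AddCommGroup V] [Module (ZMod 2) V] [Finite V]
    (S : Subgroup (V ≃ₗ[ZMod 2] V)) (hS : Group.IsSolvable ↥S) (hO2 : Cfsg.pCore 2 ↥S = ⊥)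
    (P : V ≃ₗ[ZMod 2] V) (hPS : P ∈ S) (hP4 : orderOf P = 4)
    (hcub : ((P : V →ₗ[ZMod 2] V) - LinearMap.id) ^ 3 = 0) :
    4 ≤ Nat.card ↥(LinearMap.range (((P : V →ₗ[ZMod 2] V) - LinearMap.id) ^ 2)) := by
  by_contra hlt
  haveI : Finite (V ≃ₗ[ZMod 2] V) := Finite.of_injective (fun f => (f : V → V)) DFunLike.coe_injective
  have hN : ∀ v, (((P : V →ₗ[ZMod 2] V) - LinearMap.id) ^ 2 : V →ₗ[ZMod 2] V) v = (P * P) v - v := fun v => by
    simp only [pow_two, Module.End.mul_apply, LinearMap.sub_apply, LinearEquiv.coe_coe, LinearMap.id_apply,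
      map_sub, LinearEquiv.mul_apply]
    rw [← sub_zero (P (P v) - v), ← add_self' (P v - v)]; abel
  have h4 : P * P * (P * P) = 1 := by rw [← pow_orderOf_eq_one P, hP4]; simp [pow_succ, mul_assoc]
  have h2 : P * P ≠ 1 := fun e => by
    have := orderOf_dvd_of_pow_eq_one (x := P) (n := 2) (by rw [pow_two, e])
    rw [hP4] at this; omega
  obtain ⟨a, ha⟩ : ∃ a : V, ∀ v, (P * P) v - v = 0 ∨ (P * P) v - v = a := by
    have h1 : Module.finrank (ZMod 2) (LinearMap.range (((P : V →ₗ[ZMod 2] V) - LinearMap.id) ^ 2)) ≤ 1 := by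
      by_contra hc
      rw [Module.natCard_eq_pow_finrank (K := ZMod 2), Nat.card_zmod] at hlt
      exact hlt (Nat.pow_le_pow_right (n := 2) (i := 2) (by norm_num) (by omega))
    obtain ⟨a, ha⟩ := finrank_le_one_iff.1 h1
    refine ⟨a, fun v => ?_⟩
    obtain ⟨c, hc⟩ := ha ⟨_, v, rfl⟩
    have hc' : c • (a : V) = (P * P) v - v := (congrArg Subtype.val hc).trans (hN v)
    fin_cases c
    · left; exact hc'.symm.trans (zero_smul _ _)
    · right; exact hc'.symm.trans (one_smul _ _)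
  obtain ⟨w, hw⟩ : ∃ w, (P * P) w - w ≠ 0 := by
    by_contra hc
    push Not at hc
    exact h2 (by ext v; exact sub_eq_zero.1 (hc v))
  have hwa := (ha w).resolve_left hw
  have hPa : P a = a := by
    have e : P a = (P * P) (P w) - P w := by rw [← hwa, map_sub]; rfl
    refine e.trans ((ha _).resolve_left ?_)
    rw [← e, map_eq_zero_iff _ P.injective, ← hwa]; exact hw
  have hT : Tv (P * P) a := ⟨by simp [hPa], ha⟩
  have hO : O[{2}](S) = ⊥ := by rw [pcore_singleton Nat.prime_two, hO2, Subgroup.map_bot]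
  have htS : P * P ∈ S := mul_mem hPS hPS
  obtain ⟨r, hr, hrc⟩ : ∃ r, r.Prime ∧ ¬ O[{r}](S) ≤ C[P * P] := by
    by_contra hc
    push Not at hc
    have h1 : P * P ∈ Z(F(S)) := by
      rw [← subcent_fitting hS]
      exact ⟨htS, le_cen1.1 (fitting_le_of_forall_pcore hc)⟩
    have h3 : PGrp 2 ⟪P * P⟫ := by
      refine PiNat.of_dvd (piNat_self_pow Nat.prime_two 1) ?_
      rw [card_zpowers']; exact orderOf_dvd_of_pow_eq_one (by rw [pow_one, pow_two, h4])
    have := h3.le_pcore_of_le_fitting (zpowers_le.2 h1.1)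
    rw [hO, le_bot_iff, zpowers_eq_bot] at this
    exact h2 this
  have hodd : ∀ x ∈ O[{r}](S), Odd (orderOf x) := fun x hx => by
    rw [← Nat.not_even_iff_odd, even_iff_two_dvd]
    intro h
    have := (pcore_pi {r} S).piNat.eq_prime Nat.prime_two (h.trans (orderOf_dvd_card' hx))
    subst this
    exact hrc (hO ▸ bot_le)
  obtain ⟨g, hg, hgc⟩ := SetLike.not_le_iff_exists.1 hrc
  rw [mem_cen1] at hgc
  have hi : (P * P)⁻¹ = P * P := inv_eq_of_mul_eq_one_right h4
  have m1 : g * (P * P) * g⁻¹ * (P * P) ∈ O[{r}](S) := by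
    have := mul_mem hg (conj_mem (pcore_nrm _ _ htS) (inv_mem hg))
    rwa [hi, ← mul_assoc, ← mul_assoc] at this
  have p1 := (hT.conj g).pair hT (hodd _ m1) fun e => hgc (by
    rw [mul_eq_one_iff_eq_inv, hi, mul_inv_eq_iff_eq_mul] at e; exact e)
  have m2 : g * (P * P) * g⁻¹ * (P * (g * (P * P) * g⁻¹) * P⁻¹) ∈ O[{r}](S) := by
    have := mul_mem m1 (conj_mem (pcore_nrm _ _ hPS) (inv_mem m1))
    have e : g * (P * P) * g⁻¹ * (P * P) * (P * (g * (P * P) * g⁻¹ * (P * P))⁻¹ * P⁻¹) =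
        g * (P * P) * g⁻¹ * (P * (g * (P * P)⁻¹ * g⁻¹) * P⁻¹) := by group
    rwa [e, hi] at this
  have p2 := (hT.conj g).pair ((hT.conj g).conj P) (hodd _ m2) fun e => by
    have e1 : P * (g * (P * P) * g⁻¹) * P⁻¹ = g * (P * P) * g⁻¹ := by
      rw [← inv_eq_of_mul_eq_one_right e]
      calc (g * (P * P) * g⁻¹)⁻¹ = g * (P * P)⁻¹ * g⁻¹ := by group
        _ = _ := by rw [hi]
    have e2 : (g * (P * P) * g⁻¹ * (P * P)) ^ 2 = 1 := by
      calc (g * (P * P) * g⁻¹ * (P * P)) ^ 2 = g * (P * P) * g⁻¹ *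
          (P * (P * (g * (P * P) * g⁻¹) * P⁻¹) * P⁻¹) * (P * P * (P * P)) := by
            simp only [pow_two, mul_assoc, inv_mul_cancel_left]
        _ = g * (P * P * (P * P)) * g⁻¹ := by
            rw [e1, e1, mul_assoc _ _ (P * P * (P * P))]
            conv_lhs => rw [h4]
            simp only [mul_assoc, inv_mul_cancel_left, mul_one]
        _ = 1 := by rw [h4]; group
    have e3 := orderOf_eq_one_iff.1 (Nat.Coprime.eq_one_of_dvd
      (Nat.coprime_two_right.2 (hodd _ m1)) (orderOf_dvd_of_pow_eq_one e2))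
    rw [mul_eq_one_iff_eq_inv, hi, mul_inv_eq_iff_eq_mul] at e3
    exact hgc e3
  generalize g * (P * P) * g⁻¹ = s at p1 p2
  generalize g a = b at p1 p2
  obtain ⟨q1, q2⟩ := p1
  obtain ⟨q3, q4⟩ := p2
  have hb : P⁻¹ b = P b + a := by
    apply P.injective
    rw [map_add, hPa, ← q2]
    simp only [LinearEquiv.mul_apply, LinearEquiv.coe_inv, LinearEquiv.apply_symm_apply]
    rw [add_sub, add_self', zero_sub, eq_neg_iff_add_eq_zero, add_self']
  rw [LinearEquiv.mul_apply, LinearEquiv.mul_apply, hb, map_add, eq_add_of_sub_eq q3, eq_add_of_sub_eq q1,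
    map_add, map_add, map_add, hPa] at q4
  have q5 : (P * P) b = a + b := eq_add_of_sub_eq q2
  rw [LinearEquiv.mul_apply] at q5
  rw [q5] at q4
  have q6 : P b = 0 := by
    calc P b = P b + (a + a) := by rw [add_self', add_zero]
      _ = P b + (a + b) + (P b + a) - b - P b := by abel
      _ = 0 := sub_eq_zero.2 q4
  rw [map_eq_zero_iff _ P.injective] at q6
  rw [q6, map_zero, sub_zero] at q2
  exact hw (hwa.trans q2.symm)

end Cfsg.Agent.S4410
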