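import Cfsg.Statements.S4412
import Cfsg.Agent.H5.Brd

set_option autoImplicit false
open Cfsg

namespace Cfsg.Agent.S4412

/-- Let p be an odd prime, P a finite p-group and I an elementary abelian subgroup of order 8 of Aut(P). Call T ∈ I, T ≠ 1, broad when its fixed-point subgroup C_P(T) is not cyclic. Suppose I has a proper subgroup I₀ containing no broad element such that the product of any two broad elements lies in I₀. Then P is abelian of rank exactly 3 (generated by three elements but not by two), there are exactly three broad elements and they generate I, and I₀ is exactly the set of products of two broad elements. -/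
theorem result
    {P : Type*} [Group P] [Finite P] (p : ℕ) (hp : p.Prime) (hp2 : p ≠ 2) (hP : IsPGroup p P)
    (I : Subgroup (MulAut P)) (hI : Cfsg.IsElementaryAbelian 2 I) (hI8 : Nat.card ↥I = 8)
    (I₀ : Subgroup (MulAut P)) (hI₀ : I₀ < I)
    (hdisj : ∀ T ∈ I₀, T ≠ 1 → ∃ g : P, ∀ x : P, (T x = x ↔ x ∈ Subgroup.zpowers g))
    (hprod : ∀ T ∈ I, ∀ T' ∈ I, T ≠ 1 → T' ≠ 1 → (¬ ∃ g : P, ∀ x : P, (T x = x ↔ x ∈ Subgroup.zpowers g)) →
      (¬ ∃ g : P, ∀ x : P, (T' x = x ↔ x ∈ Subgroup.zpowers g)) → T * T' ∈ I₀) :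
    IsMulCommutative P ∧ (∃ a b c : P, Subgroup.closure {a, b, c} = ⊤) ∧ (¬ ∃ a b : P, Subgroup.closure {a, b} = ⊤) ∧
      Nat.card {T : MulAut P // T ∈ I ∧ T ≠ 1 ∧ ¬ ∃ g : P, ∀ x : P, (T x = x ↔ x ∈ Subgroup.zpowers g)} = 3 ∧
      Subgroup.closure {T : MulAut P | T ∈ I ∧ T ≠ 1 ∧ ¬ ∃ g : P, ∀ x : P, (T x = x ↔ x ∈ Subgroup.zpowers g)} = I ∧
      (I₀ : Set (MulAut P)) = {S : MulAut P | ∃ T T' : MulAut P, T ∈ I ∧ T' ∈ I ∧ T ≠ 1 ∧ T' ≠ 1 ∧
        (¬ ∃ g : P, ∀ x : P, (T x = x ↔ x ∈ Subgroup.zpowers g)) ∧ (¬ ∃ g : P, ∀ x : P, (T' x = x ↔ x ∈ Subgroup.zpowers g)) ∧ S = T * T'} := by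
  open Cfsg.Agent.FT Cfsg.Agent.H5g SemidirectProduct Subgroup in
  let G := P ⋊[MonoidHom.id (MulAut P)] MulAut P
  have : Finite G := Finite.of_equiv _ SemidirectProduct.equivProd.symm
  let l : P →* G := inl
  let r : MulAut P →* G := inr
  have li : Function.Injective l := inl_injective
  have ri : Function.Injective r := inr_injective
  have act : ∀ T x, r T * l x * (r T)⁻¹ = l (T x) := fun T x => by rw [← map_inv]; exact (inl_aut (φ := MonoidHom.id _) T x).symm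
  have cen : ∀ T x, l x ∈ C[r T] ↔ T x = x := fun T x => by
    rw [mem_cen1, ← li.eq_iff, ← act, mul_inv_eq_iff_eq_mul, eq_comm]
  have cyc : ∀ T, Cyc (l.range ⊓ C[r T]) ↔ ∃ g : P, ∀ x : P, (T x = x ↔ x ∈ Subgroup.zpowers g) := fun T => by
    rw [cyc_iff]
    constructor
    · rintro ⟨y, e⟩
      obtain ⟨g, rfl⟩ := (e.ge (mem_zpowers y)).1
      refine ⟨g, fun x => ?_⟩
      rw [← cen, ← mem_map_iff_mem li, MonoidHom.map_zpowers, ← e]
      exact ⟨fun a => ⟨⟨x, rfl⟩, a⟩, fun a => a.2⟩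
    · rintro ⟨g, e⟩
      refine ⟨l g, le_antisymm ?_ (zpowers_le.2 ⟨⟨g, rfl⟩, (cen T g).2 ((e g).2 (mem_zpowers g))⟩)⟩
      rintro _ ⟨⟨x, rfl⟩, hx⟩
      rw [← MonoidHom.map_zpowers]
      exact mem_map_of_mem l ((e x).1 ((cen T x).1 hx))
  have r1 : ∀ T, r T ≠ 1 ↔ T ≠ 1 := fun T => (map_eq_one_iff r ri).not
  have hy : Hy p l.range (I.map r) := ⟨hp2, pGrp_of_isPGroup hp (hP.of_equiv (MonoidHom.ofInjective li)),
    Abelem.map hI r, (card_map_inj ri I).trans hI8, le_nrm_iff.2 (by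
      rintro _ ⟨T, -, rfl⟩ _ ⟨x, rfl⟩; exact ⟨T x, (act T x).symm⟩), eq_bot_iff.2 (by
      rintro _ ⟨⟨T, -, rfl⟩, hT⟩
      have : T = 1 := MulEquiv.ext fun x => (cen T x).1 (cen1_comm.1 (cen_le_cen1 (H := l.range) ⟨x, rfl⟩ hT))
      rw [this, map_one]; exact one_mem _)⟩
  obtain ⟨a1, ⟨a, b, c, a2⟩, a3, t₁, t₂, t₃, d12, d13, d23, a4, a5, a6⟩ := main (A₀ := I₀.map r) hp hy
    (lt_of_le_of_ne (map_mono hI₀.le) fun e => hI₀.ne (map_injective ri e))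
    (by rintro _ ⟨T, hT, rfl⟩ h1; exact (cyc T).2 (hdisj T hT ((r1 T).1 h1)))
    (by
      rintro _ ⟨T, hT, rfl⟩ _ ⟨T', hT', rfl⟩ h1 h2 h3 h4
      rw [← map_mul]
      exact mem_map_of_mem r (hprod T hT T' hT' ((r1 T).1 h1) ((r1 T').1 h2) (mt (cyc T).2 h3) (mt (cyc T').2 h4)))
  obtain ⟨T₁, m₁, rfl⟩ := ((a4 t₁).2 (.inl rfl)).1
  obtain ⟨T₂, m₂, rfl⟩ := ((a4 t₂).2 (.inr (.inl rfl))).1
  obtain ⟨T₃, m₃, rfl⟩ := ((a4 t₃).2 (.inr (.inr rfl))).1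
  have b4 : ∀ T : MulAut P, (T ∈ I ∧ T ≠ 1 ∧ ¬ ∃ g : P, ∀ x : P, (T x = x ↔ x ∈ Subgroup.zpowers g)) ↔
      T = T₁ ∨ T = T₂ ∨ T = T₃ := fun T => by
    rw [← cyc, ← r1, ← mem_map_iff_mem ri, a4, ri.eq_iff, ri.eq_iff, ri.eq_iff]
  have k₁ := (b4 T₁).2 (.inl rfl)
  have k₂ := (b4 T₂).2 (.inr (.inl rfl))
  have k₃ := (b4 T₃).2 (.inr (.inr rfl))
  refine ⟨⟨⟨fun x y => li (by rw [map_mul, map_mul]; exact a1.comm ⟨x, rfl⟩ ⟨y, rfl⟩)⟩⟩, ?_, ?_, ?_, ?_, ?_⟩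
  · obtain ⟨a, rfl⟩ := a2.le (mem_sup_left (mem_sup_left (mem_zpowers a)))
    obtain ⟨b, rfl⟩ := a2.le (mem_sup_left (mem_sup_right (mem_zpowers b)))
    obtain ⟨c, rfl⟩ := a2.le (mem_sup_right (mem_zpowers c))
    refine ⟨a, b, c, map_injective li ?_⟩
    rw [← MonoidHom.range_eq_map, ← a2, Set.insert_eq, Set.insert_eq, Subgroup.closure_union, Subgroup.closure_union, ← sup_assoc]
    simp only [← zpowers_eq_closure, Subgroup.map_sup, MonoidHom.map_zpowers]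
  · rintro ⟨a, b, e⟩
    refine a3 ⟨l a, l b, ?_⟩
    rw [MonoidHom.range_eq_map, ← e, Set.insert_eq, Subgroup.closure_union]
    simp only [← zpowers_eq_closure, Subgroup.map_sup, MonoidHom.map_zpowers]
  · classical
    rw [Nat.card_congr (Equiv.subtypeEquivRight (q := fun T => T ∈ ({T₁, T₂, T₃} : Finset (MulAut P))) fun T => by
      rw [b4]; simp), Nat.card_eq_fintype_card, Fintype.card_coe]
    exact Finset.card_eq_three.2 ⟨_, _, _, fun e => d12 (congrArg r e), fun e => d13 (congrArg r e),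
      fun e => d23 (congrArg r e), rfl⟩
  · refine le_antisymm ((closure_le _).2 fun T hT => hT.1) fun T hT => ?_
    have := a5 _ (mem_map_of_mem r hT)
    rw [← MonoidHom.map_zpowers, ← MonoidHom.map_zpowers, ← MonoidHom.map_zpowers, ← Subgroup.map_sup,
      ← Subgroup.map_sup, mem_map_iff_mem ri] at this
    refine (sup_le (sup_le (zpowers_le.2 ?_) (zpowers_le.2 ?_)) (zpowers_le.2 ?_) : _ ≤ _) this <;>
      apply Subgroup.subset_closure
    exacts [k₁, k₂, k₃]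
  · ext S
    constructor
    · intro hS
      have := a6 _ (mem_map_of_mem r hS)
      simp only [← map_mul, ri.eq_iff, map_eq_one_iff r ri] at this
      rcases this with e | e | e | e
      · exact ⟨T₁, T₁, m₁, m₁, k₁.2.1, k₁.2.1, k₁.2.2, k₁.2.2, by rw [e, ← pow_two]; exact (Abelem.pow hI m₁).symm⟩
      · exact ⟨T₁, T₂, m₁, m₂, k₁.2.1, k₂.2.1, k₁.2.2, k₂.2.2, e⟩
      · exact ⟨T₁, T₃, m₁, m₃, k₁.2.1, k₃.2.1, k₁.2.2, k₃.2.2, e⟩
      · exact ⟨T₂, T₃, m₂, m₃, k₂.2.1, k₃.2.1, k₂.2.2, k₃.2.2, e⟩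
    · rintro ⟨T, T', h1, h2, h3, h4, h5, h6, rfl⟩
      exact hprod T h1 T' h2 h3 h4 h5 h6

end Cfsg.Agent.S4412
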