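import Cfsg.Statements.S4414
import Cfsg.Agent.H5.Supp2

set_option autoImplicit false
open Cfsg

namespace Cfsg.Agent.S4414

/-- Let S be a finite solvable group whose order is divisible only by the primes 2, p, q (p, q distinct odd primes), with a Sylow system S₂, S_p, S_q (pairwise permutable Sylow subgroups) such that: S_p is a minimal normal subgroup of S of order p or p²; S_q has order q and [S_p, S_q] = S_p; and O₂(S) = 1. Let E be an irreducible module for S over the field with two elements on which S_p acts faithfully, and E₀ the subspace of fixed points of S₂. Then either E₀ has at least 8 elements, or E₀ has exactly 4 elements and S_q does not leave E₀ invariant. -/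
theorem result {S : Type*} [Group S] [Finite S]
    [Group.IsSolvable S] (p q : ℕ) (hp : p.Prime) (hq : q.Prime) (hp2 : p ≠ 2) (hq2 : q ≠ 2) (hpq : p ≠ q)
    (hπ : ∀ r : ℕ, r.Prime → r ∣ Nat.card S → r = 2 ∨ r = p ∨ r = q)
    (S₂ : Sylow 2 S) (Sp : Sylow p S) (Sq : Sylow q S)
    (h2q : Nat.card ↥((S₂ : Subgroup S) ⊔ (Sq : Subgroup S)) = Nat.card ↥S₂ * Nat.card ↥Sq)
    (h2p : Nat.card ↥((S₂ : Subgroup S) ⊔ (Sp : Subgroup S)) = Nat.card ↥S₂ * Nat.card ↥Sp)
    (hpq' : Nat.card ↥((Sp : Subgroup S) ⊔ (Sq : Subgroup S)) = Nat.card ↥Sp * Nat.card ↥Sq)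
    (hSpN : (Sp : Subgroup S).Normal) (hSpmin : ∀ N : Subgroup S, N.Normal → N ≤ (Sp : Subgroup S) → N = ⊥ ∨ N = (Sp : Subgroup S))
    (hSpcard : Nat.card ↥Sp = p ∨ Nat.card ↥Sp = p ^ 2)
    (hSq : Nat.card ↥Sq = q) (hcomm : ⁅(Sp : Subgroup S), (Sq : Subgroup S)⁆ = (Sp : Subgroup S))
    (hO2 : Cfsg.pCore 2 S = ⊥)
    {E : Type*} [AddCommGroup E] [Module (ZMod 2) E] [Finite E] (ρ : Representation (ZMod 2) S E) (hE : Nontrivial E)
    (hirr : ∀ N : Submodule (ZMod 2) E, (∀ s : S, ∀ m ∈ N, ρ s m ∈ N) → N = ⊥ ∨ N = ⊤)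
    (hfaith : ∀ x ∈ (Sp : Subgroup S), ρ x = 1 → x = 1) :
    8 ≤ Nat.card {v : E // ∀ s ∈ (S₂ : Subgroup S), ρ s v = v} ∨
      (Nat.card {v : E // ∀ s ∈ (S₂ : Subgroup S), ρ s v = v} = 4 ∧
        ∃ x ∈ (Sq : Subgroup S), ∃ v : E, (∀ s ∈ (S₂ : Subgroup S), ρ s v = v) ∧ ¬ ∀ s ∈ (S₂ : Subgroup S), ρ s (ρ x v) = ρ x v) := by
  open Cfsg.Agent.FT Cfsg.Agent.H5g Subgroup in
  have sp := syl_top hp Sp
  have ne : (Sp : Subgroup S) ≠ ⊥ := ne_bot_of_prime_dvd hp (by
    rcases hSpcard with e | e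
    exacts [e.symm.dvd, (dvd_pow_self p two_ne_zero).trans e.symm.dvd])
  have hab : Abelem p (Sp : Subgroup S) := by
    have a : Ω[p](Z((Sp : Subgroup S))) ⊴ ⊤ := ⟨le_top, norms_Ohm _ (norms_center (nml_top_iff.2 hSpN).nrm)⟩
    have b := (hSpmin _ (nml_top_iff.1 a) ((Ohm_le _ _).trans inf_le_left)).resolve_left (sp.pi.Ohm_center_ne_bot ne)
    rw [← b]; exact abelem_Ohm_center _ _
  have hfix : ∀ v : E, (∀ x ∈ (Sp : Subgroup S), ρ x v = v) → v = 0 := by
    let N : Submodule (ZMod 2) E :=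
      { carrier := {v | ∀ x ∈ (Sp : Subgroup S), ρ x v = v}
        zero_mem' := fun x _ => map_zero _
        add_mem' := fun ha hb x hx => by rw [map_add, ha x hx, hb x hx]
        smul_mem' := fun c v hv x hx => by rw [map_smul, hv x hx] }
    rcases hirr N (fun s v hv x hx => by
      have := hv _ (hSpN.conj_mem' x hx s)
      rw [← Module.End.mul_apply, ← map_mul, show x * s = s * (s⁻¹ * x * s) by group, map_mul, Module.End.mul_apply,
        this]) with e | e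
    · exact fun v hv => (Submodule.mem_bot _).1 (e.le hv)
    · obtain ⟨x, hx, x1⟩ := exists_ne_one ne
      exact absurd (hfaith x hx (LinearMap.ext fun v => (e.ge trivial : v ∈ N) x hx)) x1
  obtain ⟨h1, h2⟩ := fix_bound ρ hp hq hp2 hq2 hpq (syl_top Nat.prime_two S₂).pi hab hSpN hSq h2q hcomm hfix
  by_cases h8 : 8 ≤ Nat.card {v : E // ∀ s ∈ (S₂ : Subgroup S), ρ s v = v}
  · exact .inl h8
  refine .inr ⟨?_, by_contra fun hn => h8 (h2 fun x hx v hv => by_contra fun c => hn ⟨x, hx, v, hv, c⟩)⟩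
  obtain ⟨n, hn⟩ := ((abelem_tsub ρ ⊤).mono (inf_le_left : _ ⊓ C((S₂ : Subgroup S).map (li ρ)) ≤ _)).card Nat.prime_two
  rw [card_fix] at hn
  rw [hn] at h1 h8 ⊢
  have a : 2 ≤ n := (Nat.pow_le_pow_iff_right (by norm_num : 1 < 2)).1 h1
  have b : n < 3 := (Nat.pow_lt_pow_iff_right (by norm_num : 1 < 2)).1 (not_le.1 h8)
  rw [show n = 2 by omega]; rfl

end Cfsg.Agent.S4414
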