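import Cfsg.Statements.S4417
import Mathlib
import Cfsg.Agent.H27.DerLen

set_option autoImplicit false
open Cfsg

namespace Cfsg.Agent.S4417

open Cfsg.Agent.H27

/-- Let F be a field with q elements, p a prime not dividing q, and e the multiplicative order of q modulo p; assume e ≤ n. Then every p-subgroup of GL_n(F) has derived length at most ⌊log₂(n/e)⌋ + 1: that term of its derived series is trivial (n/e is the integer quotient). -/
theorem result {F : Type*} [Field F] [Fintype F] (q : ℕ) (hF : Fintype.card F = q) (p : ℕ) [Fact p.Prime] (hpq : ¬ p ∣ q) (n e : ℕ) (he : e = orderOf (q : ZMod p)) (hen : e ≤ n) (P : Subgroup (GL (Fin n) F)) (hP : IsPGroup p P) : derivedSeries ↥P (Nat.log 2 (n / e) + 1) = ⊥ := by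
  have hp : p.Prime := Fact.out
  let σ : Representation F P (Fin n → F) :=
    (Units.coeHom _).comp (Matrix.GeneralLinearGroup.toLin.toMonoidHom.comp P.subtype)
  have hσ : Function.Injective σ :=
    Units.val_injective.comp (Matrix.GeneralLinearGroup.toLin.injective.comp P.subtype_injective)
  have hq : Nat.card F = q := by rw [Nat.card_eq_fintype_card, hF]
  have hq0 : ((q : ℕ) : ZMod p) ≠ 0 := by rwa [Ne, ZMod.natCast_eq_zero_iff]
  have he0 : 0 < e := he ▸ (isOfFinOrder_iff_pow_eq_one.2 ⟨p - 1, by have := hp.two_le; omega,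
    ZMod.pow_card_sub_one_eq_one hq0⟩).orderOf_pos
  have := dser_le_ker_fin σ hp (hq ▸ hpq) hP (k := Nat.log 2 (n / e) + 1) (by
    rw [Module.finrank_fin_fun, hq, ← he, mul_comm, ← Nat.div_lt_iff_lt_mul he0]
    exact (Nat.lt_pow_succ_log_self one_lt_two _).trans_le (Nat.pow_le_pow_left hp.two_le _))
  rwa [(MonoidHom.ker_eq_bot_iff _).2 hσ, le_bot_iff] at this

end Cfsg.Agent.S4417
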