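import Mathlib
import Cfsg.Agent.H28.Util2
-- Template for statement S4420 (row 4420; see /opt/grader/pristine/manifest.json for weights).
-- Copy to Cfsg/Agent/S4420.lean and replace the sorry. The statement below is byte-identical to the frozen
-- statement Cfsg.CfsgFrozen.S4420 (Cfsg/Statements/S4420.lean; the theorem Cfsg.fg19_dgroup_has_inverted_abelian_subgroup_of_index_two);
-- the grader kernel-checks Cfsg.Agent.S4420.result against that frozen type. Keep the theorem IN THIS FILE
-- (a `result` declared elsewhere and merely imported here is not credited); helpers may live anywhere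
-- under Cfsg/Agent/.
import Cfsg.Statements.S4420
-- import your own Cfsg.Agent.* helpers here

set_option autoImplicit false
open Cfsg

namespace Cfsg.Agent.S4420

section
open Subgroup Cfsg.Agent.FT Cfsg.Agent.H28
open scoped commutatorElement Pointwise
set_option linter.style.haveILetI false

theorem inv_of {H : Type*} [Group H] {A : Subgroup H} (hD : ∀ x : H, x ∉ A → x ^ 2 = 1)
    {x : H} (hx : x ∉ A) {a : H} (ha : a ∈ A) : x * a * x⁻¹ = a⁻¹ := by
  have h1 := hD x hx
  have h2 := hD (x * a) fun h => hx (by simpa using A.mul_mem h (A.inv_mem ha))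
  rw [pow_two] at h1 h2
  rw [inv_eq_of_mul_eq_one_right h1, eq_inv_iff_mul_eq_one, mul_assoc (x * a), h2]

theorem comm_of_sq {H : Type*} [Group H] (h : ∀ x : H, x ^ 2 = 1) : IsMulCommutative H := by
  have i : ∀ z : H, z⁻¹ = z := fun z => inv_eq_of_mul_eq_one_right (by rw [← pow_two]; exact h z)
  exact ⟨⟨fun x y => by rw [← i (x * y), mul_inv_rev, i, i]⟩⟩

theorem ab_of {H : Type*} [Group H] {A : Subgroup H} (hA : A ≠ ⊤)
    (hD : ∀ x : H, x ∉ A → x ^ 2 = 1) : Ab A := by
  obtain ⟨x, -, hx⟩ := SetLike.not_le_iff_exists.1 (fun h => hA (top_le_iff.1 h))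
  refine ab_iff_forall.2 fun a ha b hb => ?_
  have e : x * (a * b) * x⁻¹ = x * a * x⁻¹ * (x * b * x⁻¹) := by group
  rw [inv_of hD hx (A.mul_mem ha hb), inv_of hD hx ha, inv_of hD hx hb, ← mul_inv_rev, inv_inj] at e
  exact e

theorem sq_of {H : Type*} [Group H] {A : Subgroup H} (hD : ∀ x : H, x ∉ A → x ^ 2 = 1)
    {x : H} (hx : x ∉ A) (hc : ∀ a ∈ A, x * a = a * x) (y : H) : y ^ 2 = 1 := by
  by_cases hy : y ∈ A
  · have := inv_of hD hx hy
    rw [hc y hy, mul_inv_cancel_right] at this
    rw [pow_two]
    nth_rewrite 2 [this]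
    exact mul_inv_cancel y
  · exact hD y hy

end

/-- Structure of groups in which every element outside some proper subgroup has square 1. Let H be a finite group with a proper subgroup A such that every element outside A has square 1. Then H has an abelian normal subgroup B of index 2 such that every element outside B is an involution inverting every element of B; and if H is not an elementary abelian 2-group, B is the only abelian normal subgroup of index 2 with this property. -/
theorem result {H : Type*} [Group H] [Finite H] (A : Subgroup H) (hA : A ≠ ⊤) (hD : ∀ x : H, x ∉ A → x ^ 2 = 1) :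
    ∃ B : Subgroup H, B.Normal ∧ IsMulCommutative ↥B ∧ B.index = 2 ∧
      (∀ x : H, x ∉ B → x ^ 2 = 1 ∧ ∀ b ∈ B, x * b * x⁻¹ = b⁻¹) ∧
      (¬ (IsMulCommutative H ∧ ∀ x : H, x ^ 2 = 1) →
        ∀ B' : Subgroup H, B'.Normal → IsMulCommutative ↥B' → B'.index = 2 →
          (∀ x : H, x ∉ B' → x ^ 2 = 1 ∧ ∀ b ∈ B', x * b * x⁻¹ = b⁻¹) → B' = B) := by
  open Subgroup Cfsg.Agent.FT Cfsg.Agent.H28 in
  open scoped commutatorElement Pointwise in
  obtain ⟨B, hB, hAB⟩ := exists_coatom hA
  have hD' : ∀ x : H, x ∉ B → x ^ 2 = 1 := fun x hx => hD x fun h => hx (hAB h)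
  have hi : B.index = 2 := by
    obtain ⟨x, -, hx⟩ := SetLike.not_le_iff_exists.1 (fun h => hB.1 (top_le_iff.1 h))
    by_cases h : ∀ y, y ∉ B → y * x ∈ B
    · refine index_eq_two_iff.2 ⟨x, fun y => ?_⟩
      by_cases hy : y ∈ B
      · exact Or.inr ⟨hy, fun h' => hx (by simpa using B.mul_mem (B.inv_mem hy) h')⟩
      · exact Or.inl ⟨h y hy, hy⟩
    · push Not at h
      obtain ⟨y, hy, hyx⟩ := h
      have h2 : ∀ z : H, z ^ 2 = 1 := by
        intro z
        by_cases hz : z ∈ B
        · have e := inv_of hD' hyx hz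
          have e2 : y * x * z * (y * x)⁻¹ = y * (x * z * x⁻¹) * y⁻¹ := by group
          rw [e2, inv_of hD' hx hz, inv_of hD' hy (B.inv_mem hz), inv_inv] at e
          rw [pow_two]
          nth_rewrite 2 [e]
          exact mul_inv_cancel z
        · exact hD' z hz
      have h3 : PGrp 2 (⊤ : Subgroup H) := piGrp_iff_forall.2 fun z _ =>
        pElt_of_pow_eq_one Nat.prime_two (h2 z)
      rw [← relIndex_top_right]
      exact h3.maxIn_relIndex (maxIn_top_iff.2 hB)
  refine ⟨B, normal_of_index_eq_two hi, ab_of hB.1 hD', hi,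
    fun x hx => ⟨hD' x hx, fun b hb => inv_of hD' hx hb⟩, fun hne B' _ hab hi' h => ?_⟩
  by_contra hc
  have h1 : ¬ B' ≤ B := fun hle => hc (eq_of_card_eq hle (by
    have e := (card_mul_index B').trans (card_mul_index B).symm
    rw [hi, hi'] at e
    omega))
  obtain ⟨x, hx, hxB⟩ := SetLike.not_le_iff_exists.1 h1
  have h2 : ∀ z : H, z ^ 2 = 1 := by
    intro z
    by_cases hz : z ∈ B
    · by_cases hz' : z ∈ B'
      · have e := inv_of hD' hxB hz
        rw [Ab.comm hab hx hz', mul_inv_cancel_right] at e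
        rw [pow_two]
        nth_rewrite 2 [e]
        exact mul_inv_cancel z
      · exact (h z hz').1
    · exact hD' z hz
  exact hne ⟨comm_of_sq h2, h2⟩

end Cfsg.Agent.S4420
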