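import Cfsg.Statements.S4519
import Mathlib
import Cfsg.Agent.H7.Gal

set_option autoImplicit false
open Cfsg

namespace Cfsg.Agent.S4519

open Cfsg Cfsg.Agent.H7

/-- Let N be a normal subgroup of odd index in the finite group G, and let k be coprime to the order of G with k ^ (2 ^ e) ≡ 1 modulo the order of G for some e and g ^ k = g⁻¹ for every element g of odd order (so g ↦ g ^ k induces a field automorphism of 2-power order inverting the roots of unity of odd order). If an irreducible character θ of N satisfies θ (n ^ k) = θ n for all n, then there is exactly one irreducible character χ of G with θ a constituent of its restriction to N and χ (g ^ k) = χ g for all g; moreover, if θ is invariant under conjugation by G, that χ restricts to θ. -/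
theorem result {G : Type*} [Group G] [Fintype G] (N : Subgroup G) [hN : N.Normal] [Fintype N] (hidx : Odd N.index) (k e : ℕ) (hk : Nat.Coprime k (Nat.card G)) (hke : k ^ (2 ^ e) ≡ 1 [MOD Nat.card G]) (hk₂ : ∀ g : G, Odd (orderOf g) → g ^ k = g⁻¹) (θ : Cfsg.IrrCharacter N) (hθ : ∀ n : N, (θ : N → ℂ) (n ^ k) = (θ : N → ℂ) n) : ∃ χ : Cfsg.IrrCharacter G, (Cfsg.classInner (fun n : N => (χ : G → ℂ) n) (θ : N → ℂ) ≠ 0 ∧ (∀ g : G, (χ : G → ℂ) (g ^ k) = (χ : G → ℂ) g) ∧ ((∀ g : G, ∀ n : N, (θ : N → ℂ) ⟨g * n * g⁻¹, hN.conj_mem n n.2 g⟩ = (θ : N → ℂ) n) → ∀ n : N, (χ : G → ℂ) n = (θ : N → ℂ) n)) ∧ ∀ χ' : Cfsg.IrrCharacter G, Cfsg.classInner (fun n : N => (χ' : G → ℂ) n) (θ : N → ℂ) ≠ 0 → (∀ g : G, (χ' : G → ℂ) (g ^ k) = (χ' : G → ℂ) g) → χ' = χ := by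
  have hf := isNE_subtype N
  obtain ⟨χ, h1, h2, h3, h4⟩ := hf.exists_unique_pow_fixed (e := e) (by rwa [N.range_subtype]) hk
    (fun g => by
      conv_rhs => rw [← pow_one g]
      exact pow_eq_pow_iff_modEq.mpr (hke.of_dvd (orderOf_dvd_natCard g)))
    (fun g => by
      rw [N.range_subtype, ← QuotientGroup.eq_one_iff, QuotientGroup.mk_mul, QuotientGroup.mk_pow]
      obtain ⟨a, m, hm, e1⟩ := Nat.exists_eq_two_pow_mul_odd (orderOf_pos g).ne'
      have h5 : Odd (orderOf (g ^ 2 ^ a)) := by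
        rw [orderOf_pow_of_dvd (by positivity) ⟨m, e1⟩, e1, Nat.mul_div_cancel_left _ (by positivity)]
        exact hm
      have h6 := congrArg (QuotientGroup.mk (s := N)) (hk₂ _ h5)
      rw [QuotientGroup.mk_inv, QuotientGroup.mk_pow, QuotientGroup.mk_pow, eq_inv_iff_mul_eq_one,
        ← pow_succ, ← pow_mul, mul_comm, pow_mul, pow_succ] at h6
      have h7 : (Nat.card (G ⧸ N)).Coprime (2 ^ a) := (Nat.coprime_two_right.mpr hidx).pow_right a
      exact (powCoprime h7).injective (h6.trans (powCoprime_one h7).symm)) θ.2 hθ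
  refine ⟨⟨χ, h1⟩, ⟨?_, h3, fun h => congrFun (hf.res_eq_of_ip_one h1 θ.2
    ((inv_subtype_iff N hf _).mpr h) h2)⟩, fun ψ a b => Subtype.ext (h4 ψ ψ.2 (by rwa [ip_eq_classInner]) b)⟩
  rw [← ip_eq_classInner]
  exact h2 ▸ one_ne_zero

end Cfsg.Agent.S4519
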