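import Cfsg.Statements.S4520
import Mathlib
import Cfsg.Agent.H8.PExt
import Cfsg.Agent.H8.Real
import Cfsg.Agent.H7.Gal
import Cfsg.Agent.H9.Dict4

set_option autoImplicit false
open Cfsg

namespace Cfsg.Agent.S4520

/-- Let N be a normal subgroup of odd index in the finite group G, M a maximal ideal of the algebraic integers containing 2, and k coprime to the order of G with k ^ (2 ^ e) ≡ 1 modulo the order of G for some e and g ^ k = g⁻¹ for every element g of odd order. Let θ be an irreducible character of N and χ an irreducible character of G over θ, both unchanged by composing with g ↦ g ^ k. Then χ lies in the principal 2-block of G if and only if θ lies in the principal 2-block of N. -/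
theorem result {G : Type*} [Group G] [Fintype G] (M : Ideal Cfsg.AlgInt) (hM : Cfsg.IsPModular 2 M) (N : Subgroup G) [N.Normal] [Fintype N] (hidx : Odd N.index) (k e : ℕ) (hk : Nat.Coprime k (Nat.card G)) (hke : k ^ (2 ^ e) ≡ 1 [MOD Nat.card G]) (hk₂ : ∀ g : G, Odd (orderOf g) → g ^ k = g⁻¹) (θ : Cfsg.IrrCharacter N) (hθ : ∀ n : N, (θ : N → ℂ) (n ^ k) = (θ : N → ℂ) n) (χ : Cfsg.IrrCharacter G) (hχ : ∀ g : G, (χ : G → ℂ) (g ^ k) = (χ : G → ℂ) g) (hover : Cfsg.classInner (fun n : N => (χ : G → ℂ) n) (θ : N → ℂ) ≠ 0) : χ ∈ Cfsg.principalBlock M G ↔ θ ∈ Cfsg.principalBlock M N := by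
  open H8 H9 in
  classical
  have := hM.2.1
  haveI : H9.PMod M 2 := ⟨hM⟩
  have hf := H7.isNE_subtype N
  refine ⟨fun h => mem_principal_of_under (p := 2) hf h (by rwa [H7.ip_eq_classInner]), fun h => ?_⟩
  have h1 := covers_of_constituent (H8.isPBlock_blockOf (M := M) χ) (H8.mem_blockOf_self χ) hover
  rw [← H8.block_eq_blockOf H8.isPBlock_principalBlock h] at h1
  obtain ⟨ψ, hψ, h2⟩ := exists_over_of_covers (H8.isPBlock_blockOf χ) H8.isPBlock_principalBlock h1
    (H8.mem_blockOf_self (irrOne N))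
  obtain ⟨β, hβ, h3⟩ := hf.exists_deflate (QuotientGroup.mk'_surjective N)
    (by rw [QuotientGroup.ker_mk', Subgroup.range_subtype]) ψ.2 (by rwa [H7.ip_eq_classInner])
  have h4 : ψ ∈ principalBlock M G := by
    refine mem_principal_of_inv hM (fun e => hidx.not_two_dvd_nat (e.trans ?_)) fun x hx => ?_
    · rw [H7.charDegree_eq (d := charDegree β) (by rw [h3]; exact H7.char_one_eq (H7.irr_char hβ))]
      exact H7.irr_degree_dvd_card hβ
    · have h5 := (lam_eq_iff _ _).1 ((mem_blockOf_iff χ ψ).1 hψ)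
      rw [h5, h5]
      simp only [centralChar, centralizer_singleton_inv]
      rw [← hk₂ x (Nat.not_even_iff_odd.1 fun h => hx h.two_dvd), hχ]
  rw [H8.block_eq_blockOf H8.isPBlock_principalBlock h4,
    ← H8.block_eq_blockOf (H8.isPBlock_blockOf χ) hψ]
  exact H8.mem_blockOf_self χ

end Cfsg.Agent.S4520
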