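import Cfsg.Statements.S4521
import Mathlib
import Cfsg.Agent.H7.PSB
import Cfsg.Agent.H6.Square

set_option autoImplicit false
open Cfsg

namespace Cfsg.Agent.S4521

/-- Let the finite group G be generated by subgroups U₁ and U₂ that commute elementwise and whose intersection is a p-group, and let M be a maximal ideal of the algebraic integers containing the prime p. If the irreducible character χ of G has the irreducible constituents ψ₁ on U₁ and ψ₂ on U₂, then χ lies in the principal block of G if and only if ψ₁ and ψ₂ lie in the principal blocks of U₁ and U₂. -/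
theorem result {G : Type*} [Group G] [Fintype G] (p : ℕ) [Fact p.Prime] (M : Ideal Cfsg.AlgInt) (hM : Cfsg.IsPModular p M) (U₁ U₂ : Subgroup G) [Fintype U₁] [Fintype U₂] (hcomm : ∀ u ∈ U₁, ∀ v ∈ U₂, u * v = v * u) (hgen : U₁ ⊔ U₂ = ⊤) (hZ : IsPGroup p ↥(U₁ ⊓ U₂)) (χ : Cfsg.IrrCharacter G) (ψ₁ : Cfsg.IrrCharacter U₁) (ψ₂ : Cfsg.IrrCharacter U₂) (h₁ : Cfsg.classInner (fun u : U₁ => (χ : G → ℂ) u) (ψ₁ : U₁ → ℂ) ≠ 0) (h₂ : Cfsg.classInner (fun u : U₂ => (χ : G → ℂ) u) (ψ₂ : U₂ → ℂ) ≠ 0) : χ ∈ Cfsg.principalBlock M G ↔ (ψ₁ ∈ Cfsg.principalBlock M U₁ ∧ ψ₂ ∈ Cfsg.principalBlock M U₂) := by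
  classical
  haveI := hM.2.1
  let f : U₁ × U₂ →* G := U₁.subtype.noncommCoprod U₂.subtype fun u v => hcomm u u.2 v v.2
  have hf : Function.Surjective f := by
    rw [← MonoidHom.range_eq_top]
    exact (MonoidHom.noncommCoprod_range _ _ _).trans (by simpa using hgen)
  have hk : ∀ x ∈ f.ker, (x.1 : G) = (x.2 : G)⁻¹ := fun x hx => eq_inv_of_mul_eq_one_left hx
  rw [← H8.inflIrr_mem_principal_of_central hM f hf ?_ ?_]
  · obtain ⟨α, β, hα, hβ, e⟩ := H6.exists_eq_prod_fun (H8.inflIrr f hf χ).2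
    have e1 : (fun u : U₁ => χ.1 u) = β 1 • α := funext fun u => by
      have : χ.1 (u * 1) = _ := congrFun e (u, 1)
      simpa [mul_comm] using this
    have e2 : (fun u : U₂ => χ.1 u) = α 1 • β := funext fun u => by
      have : χ.1 (1 * u) = _ := congrFun e (1, u)
      simpa using this
    rw [← H7.ip_eq_classInner] at h₁ h₂
    rw [e1, H7.ip_smul_left] at h₁
    rw [e2, H7.ip_smul_left] at h₂
    obtain rfl := H7.irr_eq_of_ip_ne_zero hα ψ₁.2 (right_ne_zero_of_mul h₁)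
    obtain rfl := H7.irr_eq_of_ip_ne_zero hβ ψ₂.2 (right_ne_zero_of_mul h₂)
    rw [H8.mem_principal_iff_sum hM, H8.mem_principal_iff_sum hM, H8.mem_principal_iff_sum hM,
      ← mul_ne_zero_iff, Finset.sum_mul_sum, ← Finset.sum_product', e]
    congr! 2
    ext x
    simp [Prod.orderOf, (Fact.out : p.Prime).dvd_lcm]
  · intro x
    obtain ⟨k, e⟩ := hZ ⟨x.1.1, x.1.1.2, by rw [hk _ x.2]; exact U₂.inv_mem x.1.2.2⟩
    have e : (x.1.1 : G) ^ p ^ k = 1 := congrArg Subtype.val e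
    refine ⟨k, Subtype.ext (Prod.ext (Subtype.ext e) (Subtype.ext ?_))⟩
    rw [hk _ x.2, inv_pow, inv_eq_one] at e
    exact e
  · intro x hx
    rw [Subgroup.mem_center_iff]
    intro y
    refine Prod.ext (Subtype.ext ?_) (Subtype.ext ?_)
    · exact hcomm _ y.1.2 _ (hk _ hx ▸ inv_mem x.2.2)
    · exact (hcomm _ (by rw [← inv_inv (x.2 : G), ← hk _ hx]; exact inv_mem x.1.2) _ y.2.2).symm

end Cfsg.Agent.S4521
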