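import Cfsg.Statements.S4523
import Mathlib
import Cfsg.Agent.H9.Sig
import Cfsg.Agent.H27.Real2
import Cfsg.Agent.FT.Main

set_option autoImplicit false
open Cfsg

namespace Cfsg.Agent.S4523

/-- Let S be a non-abelian finite simple group with commutative Sylow 2-subgroups and M a maximal ideal of the algebraic integers containing 2. Let k be a natural number with g ^ k = g for every 2-element g and g ^ k = g⁻¹ for every element g of odd order. Then S has an irreducible character χ₁ of even degree with χ₁ (g ^ k) = χ₁ g for all g, and its principal 2-block contains a character χ₂ other than the principal character with χ₂ (g ^ k) = χ₂ g for all g. -/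
theorem result {S : Type*} [Group S] [Finite S] [IsSimpleGroup S] (hna : ¬ IsMulCommutative S) (P : Sylow 2 S) (hP : IsMulCommutative P) (M : Ideal Cfsg.AlgInt) (hM : Cfsg.IsPModular 2 M) (k : ℕ) (hk₁ : ∀ g : S, (∃ j : ℕ, orderOf g = 2 ^ j) → g ^ k = g) (hk₂ : ∀ g : S, Odd (orderOf g) → g ^ k = g⁻¹) : (∃ χ₁ : Cfsg.IrrCharacter S, Even (Cfsg.charDegree (χ₁ : S → ℂ)) ∧ ∀ g : S, (χ₁ : S → ℂ) (g ^ k) = (χ₁ : S → ℂ) g) ∧ ∃ χ₂ ∈ Cfsg.principalBlock M S, (χ₂ : S → ℂ) ≠ (fun _ => 1) ∧ ∀ g : S, (χ₂ : S → ℂ) (g ^ k) = (χ₂ : S → ℂ) g := by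
  haveI := hM.2.1; haveI : H9.PMod M 2 := ⟨hM⟩
  have h : H9.SigExp S k := ⟨hk₁, hk₂⟩
  have hs : ¬ Group.IsSolvable S := fun hs =>
    hna ⟨⟨IsSimpleGroup.comm_iff_isSolvable.2 hs⟩⟩
  have h2 : 2 ∣ Nat.card S := by_contra fun h2 =>
    hs (FT.odd_order_solvable (Nat.odd_iff.2 (Nat.two_dvd_ne_zero.1 h2)))
  obtain ⟨t, ht⟩ := exists_prime_orderOf_dvd_card' 2 h2
  obtain ⟨x, h1, h3, h4⟩ := H27.exists_odd_inverted (s := t) (ht ▸ pow_orderOf_eq_one t) fun h1 => by
    rcases (pCore_normal 2 S).eq_bot_or_eq_top with h3 | h3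
    · rw [h3, Subgroup.mem_bot] at h1
      simp [h1] at ht
    · have := (((h3 ▸ H2.pCore_isPGroup : IsPGroup 2 (⊤ : Subgroup S)).of_equiv
        Subgroup.topEquiv).isNilpotent)
      exact hs inferInstance
  refine ⟨?_, (h.exists_principal h2).imp fun χ h => ⟨h.1, h.2.1, congrFun (congrArg Subtype.val h.2.2)⟩⟩
  refine (h.exists_even (M := M) P (fun a ha b hb => congrArg Subtype.val (hP.is_comm.comm (⟨a, ha⟩ : P) ⟨b, hb⟩))
    h3 (isConj_iff.2 ⟨t, h4⟩) ?_).imp fun χ h => ⟨h.1, congrFun (congrArg Subtype.val h.2)⟩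
  classical
  have := Fintype.ofFinite S
  rw [← H6.card_isConj_eq_index, Nat.subtype_card (Finset.univ.filter (IsConj x)) (by simp),
    ← ZMod.natCast_eq_zero_iff, Finset.card_eq_sum_ones, Nat.cast_sum]
  refine Finset.sum_involution (fun y _ => y⁻¹) (fun _ _ => rfl) (fun y hy _ e => h1 ?_)
    (fun y hy => ?_) (by simp)
  · obtain ⟨c, rfl⟩ := isConj_iff.1 (Finset.mem_filter.1 hy).2
    rw [conj_inv, mul_left_inj, mul_right_inj, inv_eq_iff_mul_eq_one, ← sq,
      ← orderOf_dvd_iff_pow_eq_one] at e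
    exact orderOf_eq_one_iff.1 (h3.coprime_two_right.eq_one_of_dvd e)
  · obtain ⟨c, rfl⟩ := isConj_iff.1 (Finset.mem_filter.1 hy).2
    exact Finset.mem_filter.2 ⟨Finset.mem_univ _, isConj_iff.2 ⟨c * t, by rw [conj_inv, ← h4]; group⟩⟩

end Cfsg.Agent.S4523
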