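import Cfsg.Statements.S4528
import Mathlib
import Cfsg.Agent.H9.TB6

set_option autoImplicit false
open Cfsg

namespace Cfsg.Agent.S4528

/-- Let B be a 2-block of the finite group G (relative to a maximal ideal M of the algebraic integers containing 2) whose defect group D is dihedral of order 2 ^ n with n ≥ 3. Then B contains exactly 2 ^ (n - 2) + 3 irreducible characters, its 2-regular rank (the number of irreducible Brauer characters) is between 1 and 3, exactly four of its members have height zero, and every member has height at most one. -/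
theorem result {G : Type*} [Group G] [Finite G] (M : Ideal Cfsg.AlgInt) (hM : Cfsg.IsPModular 2 M) (B : Set (Cfsg.IrrCharacter G)) (hB : Cfsg.IsPBlock M B) (D : Subgroup G) (hD : Cfsg.IsDefectGroup 2 M B D) (n : ℕ) (hn : 3 ≤ n) (hdih : Nonempty (D ≃* DihedralGroup (2 ^ (n - 1)))) : Nat.card B = 2 ^ (n - 2) + 3 ∧ 1 ≤ Cfsg.blockRank 2 B ∧ Cfsg.blockRank 2 B ≤ 3 ∧ Nat.card {χ : Cfsg.IrrCharacter G // χ ∈ B ∧ Cfsg.blockHeight 2 B (χ : G → ℂ) = 0} = 4 ∧ ∀ χ ∈ B, Cfsg.blockHeight 2 B (χ : G → ℂ) ≤ 1 := by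
  haveI := hM.2.1
  haveI : H9.PMod M 2 := ⟨hM⟩
  obtain ⟨φ⟩ := hdih
  obtain ⟨a, b, h⟩ := H3.exists_mcd_of_iso (by omega) φ
  obtain ⟨e, hm⟩ := H8.exists_maxPair_of_def hB hD
  obtain ⟨h1, h2, h3, h4, -⟩ := H9.dihedral_main hB hm h
  exact ⟨h1, H9.blockRank_pos hB, by omega, (H9.card_sub_eq _ _).trans h3, h4⟩

end Cfsg.Agent.S4528
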