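import Cfsg.Statements.S4529
import Mathlib
import Cfsg.Agent.H9.TB8

set_option autoImplicit false
open Cfsg

namespace Cfsg.Agent.S4529

/-- Let B be a 2-block of the finite group G (relative to a maximal ideal M of the algebraic integers containing 2) whose defect group D is semidihedral (quasi-dihedral) of order 2 ^ n, n ≥ 4. Then the number of irreducible characters in B is 2 ^ (n - 2) + 3 or 2 ^ (n - 2) + 4, its 2-regular rank l is between 1 and 3, with l = 3 forcing 2 ^ (n - 2) + 4 characters and l = 1 forcing 2 ^ (n - 2) + 3; exactly four members have height zero, exactly 2 ^ (n - 2) - 1 have height one, and every other member has height n - 2. -/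
theorem result {G : Type*} [Group G] [Finite G] (M : Ideal Cfsg.AlgInt) (hM : Cfsg.IsPModular 2 M) (B : Set (Cfsg.IrrCharacter G)) (hB : Cfsg.IsPBlock M B) (D : Subgroup G) (hD : Cfsg.IsDefectGroup 2 M B D) (n : ℕ) (hn : 4 ≤ n) (hcard : Nat.card D = 2 ^ n) (hsd : Cfsg.IsQuasiDihedral D) : (Nat.card B = 2 ^ (n - 2) + 3 ∨ Nat.card B = 2 ^ (n - 2) + 4) ∧ 1 ≤ Cfsg.blockRank 2 B ∧ Cfsg.blockRank 2 B ≤ 3 ∧ (Cfsg.blockRank 2 B = 3 → Nat.card B = 2 ^ (n - 2) + 4) ∧ (Cfsg.blockRank 2 B = 1 → Nat.card B = 2 ^ (n - 2) + 3) ∧ Nat.card {χ : Cfsg.IrrCharacter G // χ ∈ B ∧ Cfsg.blockHeight 2 B (χ : G → ℂ) = 0} = 4 ∧ Nat.card {χ : Cfsg.IrrCharacter G // χ ∈ B ∧ Cfsg.blockHeight 2 B (χ : G → ℂ) = 1} = 2 ^ (n - 2) - 1 ∧ ∀ χ ∈ B, Cfsg.blockHeight 2 B (χ : G → ℂ) = 0 ∨ Cfsg.blockHeight 2 B (χ : G → ℂ) = 1 ∨ Cfsg.blockHeight 2 B (χ : G → ℂ) = n - 2 := by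
  classical
  haveI := hM.2.1
  haveI : H9.PMod M 2 := ⟨hM⟩
  obtain ⟨a, b, m, h⟩ := H3.exists_mcs hsd
  obtain ⟨j, rfl⟩ : ∃ j, m = j + 3 := ⟨m - 3, by have := h.three_le; omega⟩
  obtain rfl : n = j + 3 + 1 := Nat.pow_right_injective le_rfl (hcard.symm.trans h.card)
  obtain ⟨e, hm⟩ := H8.exists_maxPair_of_def hB hD
  obtain ⟨h1, -, h2, h3, h4, h5⟩ := H9.qsd_main hB hm h.toMC h.sq_ab
  have h6 := h2 h.sq
  have h7 := (H9.ix_of_mc h.toMC).card_Us (p := 2) (e := e)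
  have h8 : H8.FC 2 D e b (a * b) → H9.Fz D a 2 e b → H9.Fz D a 2 e (a * b) :=
    fun h5 ⟨u, hu, h6⟩ => ⟨u, hu, h5.symm.trans h6⟩
  rw [H9.card_sub_eq, H9.card_sub_eq, show j + 3 + 1 - 2 = j + 2 from rfl]
  refine ⟨by split_ifs at h6 <;> omega, H9.blockRank_pos hB, by omega, fun h9 => ?_, fun h9 => ?_,
    h3, by omega, h5⟩ <;> split_ifs at h6 h7 <;> first | omega | tauto

end Cfsg.Agent.S4529
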