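import Cfsg.Statements.S4530
import Mathlib
import Cfsg.Agent.H9.TB9

set_option autoImplicit false
open Cfsg

namespace Cfsg.Agent.S4530

/-- Let B be a 2-block of the finite group G (relative to a maximal ideal M of the algebraic integers containing 2) whose defect group D is generalized quaternion of order 2 ^ n, n ≥ 3. Then its 2-regular rank l is between 1 and 3, the number of irreducible characters in B is l + 2 ^ (n - 2) + 2, exactly four members have height zero, and every other member has height one or height n - 2; when n ≥ 4 exactly 2 ^ (n - 2) - 1 members have height one. -/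
theorem result {G : Type*} [Group G] [Finite G] (M : Ideal Cfsg.AlgInt) (hM : Cfsg.IsPModular 2 M) (B : Set (Cfsg.IrrCharacter G)) (hB : Cfsg.IsPBlock M B) (D : Subgroup G) (hD : Cfsg.IsDefectGroup 2 M B D) (n : ℕ) (hn : 3 ≤ n) (hq : Nonempty (D ≃* QuaternionGroup (2 ^ (n - 2)))) : 1 ≤ Cfsg.blockRank 2 B ∧ Cfsg.blockRank 2 B ≤ 3 ∧ Nat.card B = Cfsg.blockRank 2 B + 2 ^ (n - 2) + 2 ∧ Nat.card {χ : Cfsg.IrrCharacter G // χ ∈ B ∧ Cfsg.blockHeight 2 B (χ : G → ℂ) = 0} = 4 ∧ (∀ χ ∈ B, Cfsg.blockHeight 2 B (χ : G → ℂ) = 0 ∨ Cfsg.blockHeight 2 B (χ : G → ℂ) = 1 ∨ Cfsg.blockHeight 2 B (χ : G → ℂ) = n - 2) ∧ (4 ≤ n → Nat.card {χ : Cfsg.IrrCharacter G // χ ∈ B ∧ Cfsg.blockHeight 2 B (χ : G → ℂ) = 1} = 2 ^ (n - 2) - 1) := by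
  classical
  haveI := hM.2.1
  haveI : H9.PMod M 2 := ⟨hM⟩
  obtain ⟨φ⟩ := hq
  obtain ⟨m, rfl⟩ : ∃ m, n = m + 3 := ⟨n - 3, by omega⟩
  obtain ⟨a, b, h⟩ := H3.exists_mcq_of_iso (m := m + 2) (by omega) φ
  obtain ⟨e, hm⟩ := H8.exists_maxPair_of_def hB hD
  rw [H9.card_sub_eq, H9.card_sub_eq]
  rcases m with _ | j
  · obtain ⟨h1, h2, h3, h4⟩ := H9.q8_main hB hm h
    exact ⟨H9.blockRank_pos hB, h1, h2, h3, fun χ hχ => by have := h4 χ hχ; omega, by omega⟩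
  obtain ⟨h1, h2, -, h3, h4, h5⟩ := H9.qsd_main hB hm h.toMC
    (h.out (mul_mem h.a_mem h.b_mem) (H9.ix_of_mc h.toMC).ab_nmem).sq
  have h6 := h2 h.sq
  rw [show j + 1 + 3 - 2 = j + 2 from rfl]
  exact ⟨H9.blockRank_pos hB, by omega, by omega, h3, h5, fun _ => by omega⟩

end Cfsg.Agent.S4530
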