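import Cfsg.Statements.S4531
import Mathlib
import Cfsg.Agent.H9.TB10

set_option autoImplicit false
open Cfsg

namespace Cfsg.Agent.S4531

/-- Let the finite group G have a 2-block B (relative to a maximal ideal M of the algebraic integers containing 2) of 2-regular rank three (three irreducible Brauer characters) whose defect group D is dihedral of order 2 ^ n with n ≥ 3 or semidihedral. Then the centre of G has odd order and G is not solvable. -/
theorem result {G : Type*} [Group G] [Finite G] (M : Ideal Cfsg.AlgInt) (hM : Cfsg.IsPModular 2 M) (B : Set (Cfsg.IrrCharacter G)) (hB : Cfsg.IsPBlock M B) (D : Subgroup G) (hD : Cfsg.IsDefectGroup 2 M B D) (hD' : (∃ n : ℕ, 3 ≤ n ∧ Nonempty (D ≃* DihedralGroup (2 ^ (n - 1)))) ∨ Cfsg.IsQuasiDihedral D) (hl : Cfsg.blockRank 2 B = 3) : Odd (Nat.card (Subgroup.center G)) ∧ ¬ Group.IsSolvable G := by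
  haveI := hM.2.1
  haveI : H9.PMod M 2 := ⟨hM⟩
  obtain ⟨a, b, m, h, hb⟩ : ∃ a b m, H3.MC D a b m ∧ b ^ 2 = 1 := by
    rcases hD' with ⟨n, hn, ⟨φ⟩⟩ | h
    · obtain ⟨a, b, h⟩ := H3.exists_mcd_of_iso (by omega) φ
      exact ⟨a, b, _, h.toMC, h.sq⟩
    · obtain ⟨a, b, m, h⟩ := H3.exists_mcs h
      exact ⟨a, b, m, h.toMC, h.sq⟩
  refine ⟨H9.odd_center_of_three hB hD h hb hl, fun hs => ?_⟩
  have := H9.rank_le_two_of_psolv (H1.isPSolvable_of_isSolvable Nat.prime_two hs) hB D a b m hD h hb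
  omega

end Cfsg.Agent.S4531
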