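import Cfsg.Statements.S4541
import Mathlib
import Cfsg.Agent.H9.Trace2

set_option autoImplicit false
open Cfsg

namespace Cfsg.Agent.S4541

theorem arith (l k q μ : ℕ) (hμ : Odd μ) (h1 : k ≤ q * μ) (h2 : k * μ ≤ q * l) :
    (Odd (Nat.sqrt l) → k ≤ Nat.sqrt l * q) ∧ (¬ Odd (Nat.sqrt l) → (Nat.sqrt l + 1) * k ≤ l * q) := by
  have a1 := Nat.sqrt_le l
  have a2 := Nat.lt_succ_sqrt l
  generalize Nat.sqrt l = s at *
  simp only [Nat.succ_eq_add_one] at a2
  constructor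
  · intro hs
    by_cases h : μ ≤ s
    · nlinarith
    · have h3 : s + 2 ≤ μ := by
        obtain ⟨a, rfl⟩ := hs; obtain ⟨c, rfl⟩ := hμ; omega
      have h4 : l ≤ s * (s + 2) := by nlinarith
      have h5 : k * (s + 2) ≤ s * q * (s + 2) := by
        calc k * (s + 2) ≤ k * μ := Nat.mul_le_mul_left _ h3
          _ ≤ q * l := h2
          _ ≤ q * (s * (s + 2)) := Nat.mul_le_mul_left _ h4
          _ = _ := by ring
      exact Nat.le_of_mul_le_mul_right h5 (by omega)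
  · intro hs
    by_cases h : s + 1 ≤ μ
    · nlinarith
    · have h3 : μ + 1 ≤ s := by
        obtain ⟨a, rfl⟩ := Nat.not_odd_iff_even.1 hs; obtain ⟨c, rfl⟩ := hμ; omega
      have h4 : (s + 1) * μ ≤ l := by nlinarith
      calc (s + 1) * k ≤ (s + 1) * (q * μ) := Nat.mul_le_mul_left _ h1
        _ = q * ((s + 1) * μ) := by ring
        _ ≤ q * l := Nat.mul_le_mul_left _ h4
        _ = _ := by ring

/-- Let B be a 2-block of the finite group G (relative to a maximal ideal M of the algebraic integers containing 2), u a 2-element, and b a block of the centralizer of u inducing B (a subsection (u, b)), of defect q and 2-regular rank l; write s for the integer square root of l and k₀(B) for the number of members of B of height zero. If s is odd then k₀(B) ≤ s·2 ^ q, and otherwise (s + 1)·k₀(B) ≤ l·2 ^ q; in particular k₀(B) ≤ 2 ^ q when l ≤ 3. -/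
theorem result {G : Type*} [Group G] [Finite G] (M : Ideal Cfsg.AlgInt) (hM : Cfsg.IsPModular 2 M) (B : Set (Cfsg.IrrCharacter G)) (hB : Cfsg.IsPBlock M B) (u : G) (hu : ∃ j : ℕ, orderOf u = 2 ^ j) (b : Set (Cfsg.IrrCharacter ↥(Subgroup.centralizer ({u} : Set G)))) (hb : Cfsg.IsInducedBlock M (Subgroup.centralizer ({u} : Set G)) b B) : (Odd (Nat.sqrt (Cfsg.blockRank 2 b)) → Nat.card {χ : Cfsg.IrrCharacter G // χ ∈ B ∧ Cfsg.blockHeight 2 B (χ : G → ℂ) = 0} ≤ Nat.sqrt (Cfsg.blockRank 2 b) * 2 ^ Cfsg.blockDefect 2 b) ∧ (¬ Odd (Nat.sqrt (Cfsg.blockRank 2 b)) → (Nat.sqrt (Cfsg.blockRank 2 b) + 1) * Nat.card {χ : Cfsg.IrrCharacter G // χ ∈ B ∧ Cfsg.blockHeight 2 B (χ : G → ℂ) = 0} ≤ Cfsg.blockRank 2 b * 2 ^ Cfsg.blockDefect 2 b) ∧ (Cfsg.blockRank 2 b ≤ 3 → Nat.card {χ : Cfsg.IrrCharacter G // χ ∈ B ∧ Cfsg.blockHeight 2 B (χ : G → ℂ) = 0} ≤ 2 ^ Cfsg.blockDefect 2 b) := by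
  classical
  haveI := hM.2.1
  haveI : H9.PMod M 2 := ⟨hM⟩
  have h := H9.Subs.of_induced (p := 2) hu rfl hb
  obtain ⟨k, hk⟩ := hu
  set S := (H9.bs B).filter fun χ : IrrCharacter G => blockHeight 2 B (χ : G → ℂ) = 0 with hS
  have hc : Nat.card {χ : IrrCharacter G // χ ∈ B ∧ blockHeight 2 B (χ : G → ℂ) = 0} = S.card := by
    rw [← Nat.card_eq_finsetCard]
    exact Nat.card_congr (Equiv.subtypeEquivRight fun χ => by simp [hS])
  rw [hc]
  have hex : ∃ n : ℕ, ∃ φ, H9.BG b φ ∧ ¬ 2 ∣ H9.mZ 2 b φ φ ∧ H9.mZ 2 b φ φ = n := by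
    obtain ⟨χ, hχ, h0⟩ := H8.exists_height_zero (p := 2) hB
    obtain ⟨φ, h1, h2, -⟩ := h.exists_odd_le hb.1 hB hk hχ h0
    exact ⟨_, φ, h1, h2, (Int.toNat_of_nonneg (H9.mZ_self_nonneg φ)).symm⟩
  obtain ⟨φ, h1, h2, h3⟩ := Nat.find_spec hex
  set μ := Nat.find hex
  have a1 : S.card ≤ 2 ^ blockDefect 2 b * μ := by
    have := h.card_ht_zero_le hb.1 hB h1 h2
    rw [h3] at this
    exact_mod_cast this
  have a2 : S.card * μ ≤ 2 ^ blockDefect 2 b * blockRank 2 b := by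
    have b1 : ∀ χ ∈ S, ((H9.resT 2 k).card : ℝ) * μ ≤
        2 ^ blockDefect 2 b * ∑ t ∈ H9.resT 2 k, (H9.contr 2 (u ^ t) b χ χ).re := by
      intro χ hχ
      obtain ⟨ψ, c1, c2, c3⟩ := h.exists_odd_le hb.1 hB hk (H9.mem_bs.1 (Finset.mem_filter.1 hχ).1)
        (Finset.mem_filter.1 hχ).2
      have c4 := Int.toNat_of_nonneg (H9.mZ_self_nonneg (p := 2) (B := b) ψ)
      have c5 : μ ≤ _ := Nat.find_min' hex ⟨ψ, c1, c2, c4.symm⟩
      refine le_trans (mul_le_mul_of_nonneg_left ?_ (by positivity)) c3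
      rw [← c4]; exact_mod_cast c5
    have b2 := (Finset.sum_le_sum b1).trans (Finset.sum_le_sum_of_subset_of_nonneg
      (Finset.filter_subset _ _) fun χ _ _ => mul_nonneg (by positivity) (Finset.sum_nonneg fun t _ => by
        obtain ⟨r, hr, e⟩ := H9.contr_self_nonneg (p := 2) (u ^ t) b χ
        rw [e]; exact hr))
    rw [← Finset.mul_sum, ← Finset.mul_sum, h.sum_sum_contr_self, Finset.sum_const, nsmul_eq_mul,
      mul_left_comm _ ((H9.resT 2 k).card : ℝ)] at b2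
    have := le_of_mul_le_mul_left b2 (by exact_mod_cast H9.card_resT_pos k)
    exact_mod_cast this
  have a3 : Odd μ := by
    rw [h3] at h2
    exact Nat.odd_iff.2 (by omega)
  obtain ⟨r1, r2⟩ := arith _ _ _ _ a3 a1 a2
  refine ⟨r1, r2, fun hl => ?_⟩
  have hp := H9.blockRank_pos (p := 2) hb.1
  have : Nat.sqrt (blockRank 2 b) = 1 := by
    symm; rw [Nat.eq_sqrt]; omega
  rw [this] at r1
  simpa using r1 odd_one

end Cfsg.Agent.S4541
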