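import Cfsg.Statements.S4551
import Mathlib
import Cfsg.Agent.H8.PExt

set_option autoImplicit false
open Cfsg

namespace Cfsg.Agent.S4551

/-- Let N be a normal subgroup of the finite group G of index prime to p, P a Sylow p-subgroup of G with G = N·C_G(P), and M a maximal ideal of the algebraic integers containing p. Then restriction to N is a bijection from the principal p-block of G onto the principal p-block of N: every member of the principal block of G restricts to a member of the principal block of N, and every member of the principal block of N is the restriction of exactly one member of the principal block of G. -/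
theorem result {G : Type*} [Group G] [Finite G] (p : ℕ) [Fact p.Prime] (M : Ideal Cfsg.AlgInt) (hM : Cfsg.IsPModular p M) (N : Subgroup G) [N.Normal] (hidx : ¬ p ∣ N.index) (P : Sylow p G) (hsup : N ⊔ Subgroup.centralizer ((P : Subgroup G) : Set G) = ⊤) : (∀ χ ∈ Cfsg.principalBlock M G, ∃ θ ∈ Cfsg.principalBlock M ↥N, ∀ n : N, (χ : G → ℂ) n = (θ : N → ℂ) n) ∧ ∀ θ ∈ Cfsg.principalBlock M ↥N, ∃! χ : Cfsg.IrrCharacter G, χ ∈ Cfsg.principalBlock M G ∧ ∀ n : N, (χ : G → ℂ) n = (θ : N → ℂ) n := by
  open H8 H9 in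
  classical
  have := hM.2.1
  haveI : H9.PMod M p := ⟨hM⟩
  have hPN : (P : Subgroup G) ≤ N := fun x hx => by
    obtain ⟨k, hk⟩ := H8.pElt_of_mem P.isPGroup' hx
    have h1 : orderOf (x : G ⧸ N) ∣ p ^ k := hk ▸ orderOf_map_dvd (QuotientGroup.mk' N) x
    have h2 : orderOf (x : G ⧸ N) ∣ N.index := orderOf_dvd_natCard _
    exact (QuotientGroup.eq_one_iff x).1 (orderOf_eq_one_iff.1 (Nat.eq_one_of_dvd_coprimes
      (((Nat.Prime.coprime_iff_not_dvd Fact.out).2 hidx).pow_left k) h1 h2))
  have hs : Sup p N.subtype := sup_subtype (P := P.1.subgroupOf N)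
    (P.isPGroup'.comap_of_injective _ N.subtype_injective)
    (fun h => P.not_dvd_index (h.trans (Subgroup.relIndex_dvd_index_of_le hPN))) fun g _ => by
      rw [Subgroup.subgroupOf_map_subtype, inf_eq_left.2 hPN, hsup]; trivial
  have hf := H7.isNE_subtype N
  have key := fun θ hθ => hs.exists_unique_ext (M := M) (θ := θ) hf
    (by rwa [Subgroup.range_subtype]) hθ
  refine ⟨fun χ hχ => ?_, fun θ hθ => ?_⟩
  · obtain ⟨θ, hθ, h⟩ := H7.exists_irr_under N.subtype χ.2
    have h1 := mem_principal_of_under (p := p) hf hχ (θ := ⟨θ, hθ⟩) h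
    obtain ⟨ψ, -, h2, h3⟩ := key _ h1
    exact ⟨_, h1, h3 χ hχ h ▸ h2⟩
  · obtain ⟨ψ, h1, h2, h3⟩ := key _ hθ
    refine ⟨ψ, ⟨h1, h2⟩, fun χ h => h3 χ h.1 ?_⟩
    rw [show (fun n => χ.1 (N.subtype n)) = θ.1 from funext h.2, H7.ip_irr_self θ.2]
    exact one_ne_zero

end Cfsg.Agent.S4551
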