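import Cfsg.Statements.S4552
import Mathlib
import Cfsg.Agent.H9.PI

set_option autoImplicit false
open Cfsg

namespace Cfsg.Agent.S4552

theorem mem_cent {G : Type*} [Group G] [Finite G] {D : Subgroup G} {p : ℕ} [hp : Fact p.Prime]
    (hD : IsPGroup p D) (hab : ∀ x ∈ D, ∀ y ∈ D, x * y = y * x) {t : G}
    (ht : ∀ x ∈ D, t * x * t⁻¹ ∈ D) {n : ℕ} (hn : ¬ p ∣ n)
    (htn : t ^ n ∈ Subgroup.centralizer (D : Set G)) (h : ∀ x ∈ D, x ^ p = 1 → t * x * t⁻¹ = x) :
    t ∈ Subgroup.centralizer (D : Set G) := by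
  have key : ∀ k : ℕ, ∀ x ∈ D, x ^ p ^ k = 1 → t * x * t⁻¹ = x := fun k => by
    induction k with
    | zero => intro x _ hx; simp_all
    | succ k ih =>
      intro x hx h1
      have h2 := ih _ (pow_mem hx p) (by rw [← pow_mul, ← pow_succ', h1])
      obtain ⟨w, hw⟩ : ∃ w, t * x * t⁻¹ = x * w := ⟨x⁻¹ * (t * x * t⁻¹), by group⟩
      have h3 : w ∈ D := (mul_mem_cancel_left hx).1 (hw ▸ ht x hx)
      have h4 : w ^ p = 1 := by
        rwa [← conj_pow, hw, Commute.mul_pow (hab x hx w h3), mul_eq_left] at h2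
      have h5 : ∀ j : ℕ, t ^ j * x * (t ^ j)⁻¹ = x * w ^ j := fun j => by
        induction j with
        | zero => simp
        | succ j ih =>
          calc t ^ (j + 1) * x * (t ^ (j + 1))⁻¹ = t * (t ^ j * x * (t ^ j)⁻¹) * t⁻¹ := by
                rw [pow_succ']; group
            _ = (t * x * t⁻¹) * (t * w * t⁻¹) ^ j := by rw [ih, conj_pow]; group
            _ = _ := by rw [hw, h w h3 h4, pow_succ', mul_assoc]
      have h6 := h5 n
      rw [← htn x hx, mul_inv_cancel_right, left_eq_mul] at h6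
      rw [hw, orderOf_eq_one_iff.1 (Nat.eq_one_of_dvd_coprimes
        ((Nat.Prime.coprime_iff_not_dvd hp.out).2 hn) (orderOf_dvd_of_pow_eq_one h4)
          (orderOf_dvd_of_pow_eq_one h6)), mul_one]
  intro x hx
  obtain ⟨k, hk⟩ := hD ⟨x, hx⟩
  exact (mul_inv_eq_iff_eq_mul.1 (key k x hx (congrArg Subtype.val hk))).symm

/-- Let B be a 2-block of the finite group G (relative to a maximal ideal M of the algebraic integers containing 2) whose defect group D is the direct product of two cyclic groups of the same order 2 ^ m, m ≥ 2. Then either B has 2-regular rank one and exactly 4 ^ m irreducible characters, or B has 2-regular rank three and exactly (4 ^ m + 8) / 3 irreducible characters. -/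
theorem result {G : Type*} [Group G] [Finite G] (M : Ideal Cfsg.AlgInt) (hM : Cfsg.IsPModular 2 M) (B : Set (Cfsg.IrrCharacter G)) (hB : Cfsg.IsPBlock M B) (D : Subgroup G) (hD : Cfsg.IsDefectGroup 2 M B D) (m : ℕ) (hm : 2 ≤ m) (hiso : Nonempty (D ≃* Multiplicative (ZMod (2 ^ m) × ZMod (2 ^ m)))) : (Cfsg.blockRank 2 B = 1 ∧ Nat.card B = 4 ^ m) ∨ (Cfsg.blockRank 2 B = 3 ∧ 3 * Nat.card B = 4 ^ m + 8) := by
  haveI := hM.2.1
  haveI : H9.PMod M 2 := ⟨hM⟩
  obtain ⟨φ⟩ := hiso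
  have hab : ∀ x ∈ D, ∀ y ∈ D, x * y = y * x := fun x hx y hy => congrArg Subtype.val
    (φ.injective (by rw [map_mul, map_mul, mul_comm]) : (⟨x, hx⟩ * ⟨y, hy⟩ : D) = ⟨y, hy⟩ * ⟨x, hx⟩)
  obtain ⟨e, h⟩ := H9.exists_abD hB hD fun x hx y hy => hab y hy x hx
  let Q : Subgroup G :=
    { carrier := {x | x ∈ D ∧ x ^ 2 = 1}
      mul_mem' := fun ha hb => ⟨mul_mem ha.1 hb.1, by
        rw [Commute.mul_pow (hab _ ha.1 _ hb.1), ha.2, hb.2, one_mul]⟩
      one_mem' := ⟨one_mem _, one_pow _⟩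
      inv_mem' := fun ha => ⟨inv_mem ha.1, by rw [inv_pow, ha.2, inv_one]⟩ }
  have hq : Nat.card D = 4 ^ m := by
    rw [Nat.card_congr φ.toEquiv]
    simp [← mul_pow]
  have hQ : Nat.card Q = 4 := by
    have h1 := IsCyclic.card_powMonoidHom_ker (Multiplicative (ZMod (2 ^ m))) 2
    rw [Nat.gcd_eq_right (by simp; omega)] at h1
    rw [show 4 = 2 * 2 from rfl]
    conv_rhs => rw [← h1, ← Nat.card_prod]
    refine Nat.card_congr ((Equiv.subtypeSubtypeEquivSubtypeInter (· ∈ D) (· ^ 2 = 1)).symm.trans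
      (((φ.trans (MulEquiv.prodMultiplicative _ _)).toEquiv.subtypeEquiv fun x => ?_).trans
        Equiv.subtypeProdEquivProd))
    rw [← Subgroup.coe_pow, OneMemClass.coe_eq_one,
      ← (φ.trans (MulEquiv.prodMultiplicative _ _)).map_eq_one_iff, map_pow, Prod.ext_iff]
    rfl
  have hQ1 := (Subgroup.one_lt_card_iff_ne_bot Q).1 (by omega)
  have := (Subgroup.nontrivial_iff_ne_bot Q).2 hQ1
  have hV : IsKleinFour Q :=
    ⟨hQ, (Monoid.exponent_eq_prime_iff Nat.prime_two).2 fun x hx =>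
      orderOf_eq_prime (Subtype.ext x.2.2) hx⟩
  have hT : H9.pstab ⊤ D e ≤ Subgroup.normalizer (Q : Set G) := fun t ht =>
    Subgroup.mem_normalizer_fintype fun x hx => ⟨H9.AbD.conj_mem hx.1 ht, by
      rw [conj_pow, hx.2, mul_one, mul_inv_cancel]⟩
  have hC : Subgroup.centralizer (D : Set G) ≤ Subgroup.centralizer (Q : Set G) :=
    Subgroup.centralizer_le fun x hx => hx.1
  have h' : H9.FrD 2 B D e := ⟨h, fun u hu hu1 t ht => by
    obtain ⟨k, hk⟩ := h.pelt hu
    obtain ⟨k, rfl⟩ := Nat.exists_eq_succ_of_ne_zero (n := k) (by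
      rintro rfl; exact hu1 (orderOf_eq_one_iff.1 hk))
    have h1 := H9.mem_centralizer_of_klein hV (hT ht.2) h.not_dvd (hC (H9.AbD.pow_mem ht.2))
      (u := u ^ 2 ^ k) ⟨pow_mem hu _, by rw [← pow_mul, ← pow_succ, ← hk, pow_orderOf_eq_one]⟩
      (pow_ne_one_of_lt_orderOf (by positivity) (by
        rw [hk]; exact Nat.pow_lt_pow_right one_lt_two (Nat.lt_succ_self k)))
      (Commute.pow_right (Subgroup.mem_centralizer_singleton_iff.1 ht.1) _)
    exact mem_cent h.max.isP hab (fun x hx => H9.AbD.conj_mem hx ht.2) h.not_dvd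
      (H9.AbD.pow_mem ht.2) fun x hx h2 => by rw [← h1 x ⟨hx, h2⟩, mul_inv_cancel_right]⟩
  have h1 := h'.iidx_dvd (Q := Q) (fun x hx => hx.1) hQ1 hT
  have h2 := h'.card_orb
  have h3 := h'.card_mul
  have h4 : 4 ^ 2 ≤ 4 ^ m := Nat.pow_le_pow_right (by norm_num) hm
  have hD1 := (Subgroup.one_lt_card_iff_ne_bot D).1 (by omega)
  have h5 := h'.rank_le hD1
  rw [hQ, Nat.dvd_prime Nat.prime_three] at h1
  have h6 := h'.le_rank hD1 (by omega) (.inr (by rcases h1 with h1 | h1 <;> rw [h1] at h2 ⊢ <;> omega))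
  rcases h1 with h1 | h1 <;> rw [h1] at h3 h5 h6 <;> omega

end Cfsg.Agent.S4552
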