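import Cfsg.Statements.S4560
import Mathlib
import Cfsg.Agent.H9.Ez5

set_option autoImplicit false
open Cfsg

namespace Cfsg.Agent.S4560

/-- For n ≥ 7 the alternating group on n letters has an irreducible character that vanishes at some 2-element and is the restriction of an irreducible character of the symmetric group, and an irreducible character that vanishes at some element of order 3 and is the restriction of an irreducible character of the symmetric group. -/
theorem result (n : ℕ) (hn : 7 ≤ n) : (∃ χ : Cfsg.IrrCharacter (alternatingGroup (Fin n)), (∃ x : alternatingGroup (Fin n), (∃ j : ℕ, orderOf x = 2 ^ j) ∧ (χ : alternatingGroup (Fin n) → ℂ) x = 0) ∧ ∃ ψ : Cfsg.IrrCharacter (Equiv.Perm (Fin n)), ∀ x : alternatingGroup (Fin n), (ψ : Equiv.Perm (Fin n) → ℂ) x = (χ : alternatingGroup (Fin n) → ℂ) x) ∧ (∃ χ : Cfsg.IrrCharacter (alternatingGroup (Fin n)), (∃ y : alternatingGroup (Fin n), orderOf y = 3 ∧ (χ : alternatingGroup (Fin n) → ℂ) y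 = 0) ∧ ∃ ψ : Cfsg.IrrCharacter (Equiv.Perm (Fin n)), ∀ x : alternatingGroup (Fin n), (ψ : Equiv.Perm (Fin n) → ℂ) x = (χ : alternatingGroup (Fin n) → ℂ) x) := by
  obtain ⟨x, h1, h2⟩ := H9.Ez.exists_two hn
  obtain ⟨y, h3, h4⟩ := H9.Ez.exists_three hn
  obtain ⟨χ, h5, h6⟩ := H9.Ez.exists_van hn x h2
  obtain ⟨φ, h7, h8⟩ := H9.Ez.exists_van hn y h4
  exact ⟨⟨χ, ⟨x, h1, h5⟩, h6⟩, ⟨φ, ⟨y, h3, h7⟩, h8⟩⟩

end Cfsg.Agent.S4560
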