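import Cfsg.Statements.S4566
import Mathlib
import Cfsg.Agent.H7.Small

set_option autoImplicit false
open Cfsg

namespace Cfsg.Agent.S4566

open Cfsg.Agent.H7

/-- Let N be a central subgroup of the finite group G, ψ a faithful irreducible (hence degree-one) character of N, and χ an irreducible character of G whose restriction to N contains ψ. If g ∈ G and some x ∈ G has commutator x⁻¹ g⁻¹ x g in N but different from 1, then χ g = 0. -/
theorem result {G : Type*} [Group G] [Fintype G] (N : Subgroup G) [Fintype N] (hN : N ≤ Subgroup.center G) (ψ : Cfsg.IrrCharacter ↥N) (hfaith : ∀ n : ↥N, (ψ : ↥N → ℂ) n = (ψ : ↥N → ℂ) 1 → n = 1) (χ : Cfsg.IrrCharacter G) (hover : Cfsg.classInner (fun n : ↥N => (χ : G → ℂ) n) (ψ : ↥N → ℂ) ≠ 0) (g x : G) (hcomm : x⁻¹ * g⁻¹ * x * g ∈ N) (hne : x⁻¹ * g⁻¹ * x * g ≠ 1) : (χ : G → ℂ) g = 0 := by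
  have h1 := central_mul (f := N.subtype) (fun n => hN n.2) χ.2 ψ.2
    (by rwa [ip_eq_classInner]) ⟨_, hcomm⟩ g⁻¹
  simp only [Subgroup.coe_subtype, mul_inv_cancel_right, cf_apply_conj' (irr_cf χ.2)] at h1
  by_contra h0
  have h2 : (χ : G → ℂ) g⁻¹ ≠ 0 := by rwa [char_inv (irr_char χ.2), map_ne_zero]
  refine hne (congrArg Subtype.val (hfaith ⟨_, hcomm⟩ ?_))
  rw [(mul_eq_right₀ h2).mp h1.symm, irr_one_eq_one_of_comm (fun a b => Subtype.ext
    (Subgroup.mem_center_iff.mp (hN b.2) a)) ψ.2]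

end Cfsg.Agent.S4566
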