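import Cfsg.Statements.S4567
import Mathlib
import Cfsg.Agent.H7.CT

set_option autoImplicit false
open Cfsg

namespace Cfsg.Agent.S4567

open Cfsg.Agent.H7

/-- Let N be a central subgroup of the finite group G and ψ a faithful irreducible (hence degree-one) character of N. Call a coset g N special when every x ∈ G whose commutator x⁻¹ g⁻¹ x g lies in N actually commutes with g (this depends only on the coset). Then the number of irreducible characters of G whose restriction to N contains ψ equals the number of conjugacy classes of G/N consisting of special cosets. -/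
theorem result {G : Type*} [Group G] [Fintype G] (N : Subgroup G) [N.Normal] [Fintype N] (hN : N ≤ Subgroup.center G) (ψ : Cfsg.IrrCharacter ↥N) (hfaith : ∀ n : ↥N, (ψ : ↥N → ℂ) n = (ψ : ↥N → ℂ) 1 → n = 1) : Nat.card {χ : Cfsg.IrrCharacter G // Cfsg.classInner (fun n : ↥N => (χ : G → ℂ) n) (ψ : ↥N → ℂ) ≠ 0} = Nat.card {C : ConjClasses (G ⧸ N) // ∃ g : G, ConjClasses.mk (g : G ⧸ N) = C ∧ ∀ x : G, x⁻¹ * g⁻¹ * x * g ∈ N → x * g = g * x} := by
  have h1 : (ψ : N → ℂ) 1 = 1 := irr_one_eq_one_of_comm
    (fun a b => Subtype.ext (Subgroup.mem_center_iff.mp (hN b.2) a)) ψ.2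
  obtain ⟨lam, hl⟩ := exists_linFun (irr_char ψ.2) h1
  have hi : Function.Injective lam := (injective_iff_map_eq_one lam).mpr fun n hn =>
    hfaith n (by rw [h1, hl, linFun_apply, hn]; rfl)
  simp only [← ip_eq_classInner, hl]
  rw [card_over_central hN hi (QuotientGroup.mk'_surjective N) (QuotientGroup.ker_mk' N)]
  refine Nat.card_congr (Equiv.subtypeEquivRight fun C => exists_congr fun g =>
    and_congr_right fun _ => forall_congr' fun x => imp_congr_left ?_)
  rw [← QuotientGroup.eq_one_iff, ← QuotientGroup.eq_one_iff]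
  simp only [QuotientGroup.mk_mul, QuotientGroup.mk_inv, mul_inv_eq_iff_eq_mul, one_mul,
    mul_assoc, inv_mul_eq_iff_eq_mul, mul_one]
  rw [← mul_assoc, ← mul_assoc, mul_inv_eq_one, mul_inv_eq_iff_eq_mul]

end Cfsg.Agent.S4567
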