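import Cfsg.Statements.S4574
import Mathlib
import Cfsg.Agent.H7.Small

set_option autoImplicit false
open Cfsg

namespace Cfsg.Agent.S4574

open Cfsg.Agent.H7

/-- Let χ be an irreducible character of the finite group G, of degree d, and let Z(χ) be the set of elements g with |χ g| = d (the centre of χ). Then χ vanishes on at least (d ^ 2 - 1) · |Z(χ)| elements of G, with equality when every value |χ g| is 0, 1 or d. -/
theorem result {G : Type*} [Group G] [Fintype G] [DecidableEq G] (χ : G → ℂ) (hχ : Cfsg.IsIrrCharacter G χ) : (Cfsg.charDegree χ ^ 2 - 1) * (Finset.univ.filter (fun g : G => ‖χ g‖ = (Cfsg.charDegree χ : ℝ))).card ≤ (Finset.univ.filter (fun g : G => χ g = 0)).card ∧ ((∀ g : G, ‖χ g‖ = 0 ∨ ‖χ g‖ = 1 ∨ ‖χ g‖ = (Cfsg.charDegree χ : ℝ)) → (Cfsg.charDegree χ ^ 2 - 1) * (Finset.univ.filter (fun g : G => ‖χ g‖ = (Cfsg.charDegree χ : ℝ))).card = (Finset.univ.filter (fun g : G => χ g = 0)).card) := by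
  classical
  have hd := char_one_eq (irr_char hχ)
  have hd0 := irr_degree_pos hχ
  set d := charDegree χ
  have hZ : ∀ g, ‖χ g‖ = d ↔ g ∈ H6.charCenter χ := fun g => by
    rw [H6.mem_charCenter_iff (irr_char hχ), hd, Complex.norm_natCast]
  set Z := Finset.univ.filter fun g : G => ‖χ g‖ = d
  set V := Finset.univ.filter fun g : G => χ g = 0
  set R := Finset.univ.filter fun g : G => ¬ (‖χ g‖ = d ∨ χ g = 0)
  have hdisj : Disjoint Z V := Finset.disjoint_filter.mpr fun g _ h h' => by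
    rw [h', norm_zero] at h
    exact hd0.ne (by exact_mod_cast h)
  have h1 : ∀ F : G → ℝ, ∑ g, F g = ∑ g ∈ Z, F g + ∑ g ∈ V, F g + ∑ g ∈ R, F g := fun F => by
    rw [← Finset.sum_union hdisj, ← Finset.filter_or, Finset.sum_filter_add_sum_filter_not]
  have h2 := h1 fun _ => 1
  have h3 := h1 fun g => ‖χ g‖ ^ 2
  rw [H6.sum_norm_sq_irr hχ, Finset.sum_congr rfl (g := fun _ => (d : ℝ) ^ 2) fun g hg => by
    rw [(Finset.mem_filter.mp hg).2], Finset.sum_eq_zero (s := V) fun g hg => by
    simp [(Finset.mem_filter.mp hg).2]] at h3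
  simp only [Finset.sum_const, nsmul_eq_mul, mul_one, Finset.card_univ,
    ← Nat.card_eq_fintype_card] at h2 h3
  have h4 := H6.card_le_sum_norm_sq_of_pow_closed (H6.isGen_of_irr hχ) R (fun m hm g hg => by
    simp only [R, Finset.mem_filter, Finset.mem_univ, true_and, hZ] at hg ⊢
    rwa [pow_mem_iff_of_coprime _ hm, gen_pow_eq_zero_iff (H6.isGen_of_irr hχ) hm])
    fun g hg h => (Finset.mem_filter.mp hg).2 (Or.inr h)
  have h5 : 1 ≤ d ^ 2 := Nat.one_le_pow _ _ hd0
  refine ⟨?_, fun h => ?_⟩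
  · rw [← Nat.cast_le (α := ℝ)]
    push_cast [h5]
    nlinarith
  · rw [Finset.sum_congr rfl (s₁ := R) (g := fun _ => 1) fun g hg => by
      have := not_or.mp (Finset.mem_filter.mp hg).2
      rw [((h g).resolve_left (norm_ne_zero_iff.mpr this.2)).resolve_right this.1, one_pow]] at h3
    rw [← Nat.cast_inj (R := ℝ)]
    push_cast [h5]
    simp only [Finset.sum_const, nsmul_eq_mul, mul_one] at h3
    linarith

end Cfsg.Agent.S4574
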