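import Cfsg.Statements.S4575
import Mathlib
import Cfsg.Agent.H9.Trace2

set_option autoImplicit false
open Cfsg

namespace Cfsg.Agent.S4575

/-- Let B be a 2-block of the finite group G (relative to a maximal ideal M of the algebraic integers containing 2) of defect d with defect group D. Let z be an element of D commuting with every element of D, and let b be a block of the centralizer of z with defect group D that induces B (a major subsection (z, b)). If the number of irreducible characters in B exceeds the 2-regular rank of b by at most three, then B contains at most 2 ^ d irreducible characters. -/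
theorem result {G : Type*} [Group G] [Finite G] (M : Ideal Cfsg.AlgInt) (hM : Cfsg.IsPModular 2 M) (B : Set (Cfsg.IrrCharacter G)) (hB : Cfsg.IsPBlock M B) (D : Subgroup G) (hD : Cfsg.IsDefectGroup 2 M B D) (z : G) (hzD : z ∈ D) (hzc : ∀ d ∈ D, d * z = z * d) (b : Set (Cfsg.IrrCharacter ↥(Subgroup.centralizer ({z} : Set G)))) (hb : Cfsg.IsInducedBlock M (Subgroup.centralizer ({z} : Set G)) b B) (hbD : Cfsg.IsDefectGroup 2 M b (D.subgroupOf (Subgroup.centralizer ({z} : Set G)))) (h : Nat.card B ≤ Cfsg.blockRank 2 b + 3) : Nat.card B ≤ 2 ^ Cfsg.blockDefect 2 B := by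
  classical
  haveI := hM.2.1
  haveI : H9.PMod M 2 := ⟨hM⟩
  obtain ⟨hs, hd⟩ := H9.major_of_defectGroup hB hD hzD hzc hb hbD
  obtain ⟨k, hk⟩ := hs.pelt
  have hT : (0 : ℝ) < (H9.resT 2 k).card := by exact_mod_cast H9.card_resT_pos k
  by_cases hd0 : blockDefect 2 B = 0
  · obtain ⟨χ, hχ⟩ := H8.block_nonempty hB
    rw [hd0, (H9.blockDefect_eq_zero_iff_singleton hB hχ).1 hd0]
    simp
  choose! n h1 h2 h3 using fun χ (hχ : χ ∈ B) => hs.exists_two_major hb.1 hB hd hk hχ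
  -- the complementary contributions
  have key : ∀ χ ∈ B, ∀ ψ ∈ B, blockHeight 2 B (ψ : G → ℂ) = 0 →
      (Nat.card B : ℝ) ≤ 2 ^ blockDefect 2 B * (2 ^ blockDefect 2 B - n ψ) ∧
      0 < (2 : ℝ) ^ blockDefect 2 B - 2 ^ blockHeight 2 B (χ : G → ℂ) * n χ := by
    intro χ hχ ψ hψ h0
    have sq : ∀ (θ : IrrCharacter G), θ ∈ B → ∑ ξ ∈ H9.bs B, ∑ t ∈ H9.resT 2 k,
        ‖(if θ = ξ then (2 : ℂ) ^ blockDefect 2 B else 0) -
          2 ^ blockDefect 2 B * H9.contr 2 (z ^ t) b θ ξ‖ ^ 2 = (H9.resT 2 k).card *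
        (2 ^ blockDefect 2 B * (2 ^ blockDefect 2 B - 2 ^ blockHeight 2 B (θ : G → ℂ) * n θ)) := by
      intro θ hθ
      have e1 := hs.sum_sum_norm_sq k (blockDefect 2 B) θ
      rw [← Finset.add_sum_erase _ _ (H9.mem_bs.2 hθ)] at e1 ⊢
      rw [Finset.sum_congr rfl (s₁ := (H9.bs B).erase θ) fun ξ hξ => by
        rw [if_neg (Finset.ne_of_mem_erase hξ).symm]]
      simp only [zero_sub, norm_neg, if_true]
      have e2 : ∀ t, ‖(2 : ℂ) ^ blockDefect 2 B - 2 ^ blockDefect 2 B * H9.contr 2 (z ^ t) b θ θ‖ ^ 2 =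
          ‖(2 : ℂ) ^ blockDefect 2 B * H9.contr 2 (z ^ t) b θ θ‖ ^ 2 + 2 ^ (2 * blockDefect 2 B) -
            2 * 2 ^ blockDefect 2 B * (2 ^ blockDefect 2 B * (H9.contr 2 (z ^ t) b θ θ).re) := by
        intro t
        obtain ⟨r, hr, e⟩ := H9.contr_self_nonneg (p := 2) (z ^ t) b θ
        rw [e, Complex.ofReal_re]
        norm_cast
        rw [Real.norm_eq_abs, Real.norm_eq_abs, sq_abs, sq_abs]
        push_cast; ring
      simp only [e2, Finset.sum_sub_distrib, Finset.sum_add_distrib, ← Finset.mul_sum, Finset.sum_const,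
        nsmul_eq_mul]
      have e3 := h3 θ hθ
      push_cast at e1
      rw [two_mul (blockDefect 2 B), pow_add] at e1 ⊢
      linear_combination e1 - 2 ^ blockDefect 2 B * e3
    have ge : ∀ θ ∈ B, ∀ ξ ∈ B, blockHeight 2 B (θ : G → ℂ) = 0 ∨ blockHeight 2 B (ξ : G → ℂ) = 0 →
        ((H9.resT 2 k).card : ℝ) ≤ ∑ t ∈ H9.resT 2 k, ‖(if θ = ξ then (2 : ℂ) ^ blockDefect 2 B else 0) -
          2 ^ blockDefect 2 B * H9.contr 2 (z ^ t) b θ ξ‖ ^ 2 := by
      intro θ hθ ξ hξ hh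
      have hf := hs.contr_mem_fam hk (H6.isGen_of_irr θ.2) (H6.isGen_of_irr ξ.2)
      rw [hd] at hf
      have hf' : (fun t => (if θ = ξ then (2 : ℂ) ^ blockDefect 2 B else 0) -
          2 ^ blockDefect 2 B * H9.contr 2 (z ^ t) b θ ξ) ∈ H9.fam (2 * 2 ^ k) := by
        refine sub_mem (x := fun _ => if θ = ξ then (2 : ℂ) ^ blockDefect 2 B else 0) ?_ hf
        split_ifs
        · exact pow_mem (ofNat_mem (H9.fam _) 2) _
        · exact zero_mem _
      have := H9.fam_sum_norm_sq_ge (M := M) (p := 2) (h := 0) hf' (by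
        simp only [pow_one]
        split_ifs with e
        · subst e
          rw [or_self] at hh
          have := (hs.rd_contr_ne_zero_iff hb.1 hB θ θ).2 ⟨⟨hθ, hh⟩, hθ, hh⟩
          rw [sub_ne_zero]
          intro e
          obtain ⟨m, hm⟩ := Nat.exists_eq_succ_of_ne_zero hd0
          rw [hd, Nat.cast_ofNat, ← e, hm] at this
          exact this (H9.rd_p_pow_succ (p := 2) m)
        · rw [zero_sub, neg_ne_zero]
          refine mul_ne_zero (pow_ne_zero _ two_ne_zero) ?_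
          rcases hh with hh | hh
          · rw [← H9.contr_conj, map_ne_zero]
            exact hs.contr_ne_zero_of_major hb.1 hB hd hξ hθ hh
          · exact hs.contr_ne_zero_of_major hb.1 hB hd hθ hξ hh) fun t _ => by
          rw [pow_zero, div_one]
          exact H8.mem_locRing_of_isIntegral M (H9.fam_isIntegral (by positivity) hf' t)
      simpa using this
    constructor
    · have := Finset.sum_le_sum fun ξ hξ => ge ψ hψ ξ (H9.mem_bs.1 hξ) (Or.inl h0)
      rw [sq ψ hψ, Finset.sum_const, H9.card_bs, nsmul_eq_mul, mul_comm, h0, pow_zero, one_mul] at this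
      exact le_of_mul_le_mul_left this hT
    · have := (ge χ hχ ψ hψ (Or.inr h0)).trans (Finset.single_le_sum (f := fun ξ => ∑ t ∈ H9.resT 2 k,
        ‖(if χ = ξ then (2 : ℂ) ^ blockDefect 2 B else 0) -
          2 ^ blockDefect 2 B * H9.contr 2 (z ^ t) b χ ξ‖ ^ 2)
        (fun ξ _ => Finset.sum_nonneg fun t _ => by positivity) (H9.mem_bs.2 hψ))
      rw [sq χ hχ] at this
      exact (pos_iff_pos_of_mul_pos ((pos_iff_pos_of_mul_pos (hT.trans_le this)).1 hT)).1 (by positivity)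
  obtain ⟨ψ₀, hψ₀, h0⟩ := H8.exists_height_zero (p := 2) hB
  by_cases h4 : ∃ ψ ∈ B, blockHeight 2 B (ψ : G → ℂ) = 0 ∧ 2 ^ blockDefect 2 B - n ψ = 1
  · obtain ⟨ψ, hψ, h5, h6⟩ := h4
    have := (key ψ hψ ψ hψ h5).1
    have h7 : (2 : ℝ) ^ blockDefect 2 B - n ψ = 1 := by exact_mod_cast h6
    rw [h7, mul_one] at this
    exact_mod_cast this
  have h5 : ∀ χ ∈ H9.bs B, (3 : ℤ) ≤ 2 ^ blockDefect 2 B - 2 ^ blockHeight 2 B (χ : G → ℂ) * n χ := by
    intro χ hχ
    rw [H9.mem_bs] at hχ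
    have a1 : (0 : ℤ) < 2 ^ blockDefect 2 B - 2 ^ blockHeight 2 B (χ : G → ℂ) * n χ := by
      exact_mod_cast (key χ hχ ψ₀ hψ₀ h0).2
    by_cases e : blockHeight 2 B (χ : G → ℂ) = 0
    · have a2 : 2 ^ blockDefect 2 B - n χ ≠ 1 := fun e' => h4 ⟨χ, hχ, e, e'⟩
      have a3 := (h2 χ hχ).2 e
      have a4 : (2 : ℤ) ∣ 2 ^ blockDefect 2 B := dvd_pow_self _ hd0
      rw [e, pow_zero, one_mul] at a1 ⊢
      omega
    · have a2 : (2 : ℤ) ^ 2 ∣ 2 ^ blockDefect 2 B :=
        pow_dvd_pow _ (le_trans (by omega) (H9.height_add_two_le hB hχ e))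
      have a3 : (2 : ℤ) * 2 ∣ 2 ^ blockHeight 2 B (χ : G → ℂ) * n χ :=
        mul_dvd_mul (dvd_pow_self _ e) (not_not.1 (mt (h2 χ hχ).1 e))
      omega
  have h6 := Finset.sum_le_sum h5
  have h7 := hs.sum_sum_contr_self k
  have h8 : ∑ χ ∈ H9.bs B, (2 : ℝ) ^ blockHeight 2 B (χ : G → ℂ) * n χ =
      2 ^ blockDefect 2 B * blockRank 2 b := by
    apply mul_left_cancel₀ hT.ne'
    rw [Finset.mul_sum, ← Finset.sum_congr rfl fun χ hχ => h3 χ (H9.mem_bs.1 hχ), ← Finset.mul_sum, h7]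
    ring
  have h9 : ∑ χ ∈ H9.bs B, (2 : ℤ) ^ blockHeight 2 B (χ : G → ℂ) * n χ =
      2 ^ blockDefect 2 B * blockRank 2 b := by exact_mod_cast h8
  rw [Finset.sum_sub_distrib, h9, Finset.sum_const, Finset.sum_const, H9.card_bs, nsmul_eq_mul,
    nsmul_eq_mul] at h6
  have h10 : (Nat.card B : ℤ) ≤ blockRank 2 b + 3 := by exact_mod_cast h
  have h11 : (0 : ℤ) < 2 ^ blockDefect 2 B := by positivity
  have : (Nat.card B : ℤ) ≤ 2 ^ blockDefect 2 B := by nlinarith
  exact_mod_cast this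

end Cfsg.Agent.S4575
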