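import Cfsg.Statements.S4580
import Mathlib
import Cfsg.Agent.H8.PExt
import Cfsg.Agent.H8.Real
import Cfsg.Agent.H7.Gal

set_option autoImplicit false
open Cfsg

namespace Cfsg.Agent.S4580

/-- Let N be a normal subgroup of the finite group G, M a maximal ideal of the algebraic integers containing 2, and θ a real-valued irreducible character of N of odd degree that extends to G (some irreducible character of G restricts to θ). Then θ has an extension to G lying in the principal 2-block of G. -/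
theorem result {G : Type*} [Group G] [Finite G] (N : Subgroup G) [N.Normal] (M : Ideal Cfsg.AlgInt) (hM : Cfsg.IsPModular 2 M) (θ : Cfsg.IrrCharacter N) (hreal : ∀ n : N, ((θ : N → ℂ) n).im = 0) (hodd : Odd (Cfsg.charDegree (θ : N → ℂ))) (hext : ∃ η : Cfsg.IrrCharacter G, ∀ n : N, (η : G → ℂ) n = (θ : N → ℂ) n) :
    ∃ η : Cfsg.IrrCharacter G, (∀ n : N, (η : G → ℂ) n = (θ : N → ℂ) n) ∧ η ∈ Cfsg.principalBlock M G := by
  open H8 H9 in
  classical
  have := hM.2.1
  haveI : H9.PMod M 2 := ⟨hM⟩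
  have hf := H7.isNE_subtype N
  obtain ⟨η, hη⟩ := hext
  have h1 : ∀ n : N, η.1 (N.subtype n) = θ.1 n := hη
  obtain ⟨lam, h2, h3⟩ := hf.exists_linear_of_ext (irr_isChar η) (funext h1 ▸ θ.2)
    (H7.irr_char (H7.irr_star η.2)) fun n => by
      rw [Pi.star_apply, h1]; exact Complex.conj_eq_iff_im.2 (hreal n)
  obtain ⟨e, m, hm, hcard⟩ := Nat.exists_eq_pow_mul_and_not_dvd
    (Nat.card_pos (α := G)).ne' 2 (by norm_num)
  obtain ⟨a, rfl⟩ := Nat.not_even_iff_odd.1 fun h => hm h.two_dvd
  have h4 : IsIrrCharacter G (H7.linFun (lam ^ (a + 1)) * η.1) := by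
    rw [mul_comm]
    exact H7.irr_mul_linear η.2 (H7.char_linFun _) (H7.linFun_one_apply _)
  have h5 : ∀ n : N, (H7.linFun (lam ^ (a + 1)) * η.1) n = θ.1 n := fun n => by
    rw [Pi.mul_apply, H7.linFun_apply, MonoidHom.pow_apply, show lam n = 1 from h2 n, hη, one_pow,
      Units.val_one, one_mul]
  refine ⟨⟨_, h4⟩, h5, mem_principal_of_inv hM ?_ fun x hx => ?_⟩
  · rw [H7.charDegree_eq ((h5 1).trans (H7.char_one_eq (irr_isChar θ)))]
    exact hodd.not_two_dvd_nat
  · have h6 : lam x ^ (2 * a + 1) = 1 := by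
      rw [← map_pow, orderOf_dvd_iff_pow_eq_one.1, map_one]
      exact (((Nat.Prime.coprime_iff_not_dvd Nat.prime_two).2 hx).pow_left e).symm.dvd_of_dvd_mul_left
        (hcard ▸ orderOf_dvd_natCard x)
    have h7 : (H7.linFun (lam ^ (a + 1)) * η.1) x⁻¹ = (H7.linFun (lam ^ (a + 1)) * η.1) x := by
      have h8 : lam x⁻¹ ^ (a + 1) * lam x = lam x ^ (a + 1) := by
        rw [map_inv, inv_pow, inv_mul_eq_iff_eq_mul, ← pow_add,
          show a + 1 + (a + 1) = 2 * a + 1 + 1 by ring, pow_succ, h6, one_mul]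
      rw [Pi.mul_apply, Pi.mul_apply, H7.char_inv (irr_isChar η),
        show (starRingEnd ℂ) (η.1 x) = _ from congrFun h3 x, Pi.mul_apply, ← mul_assoc,
        H7.linFun_apply, H7.linFun_apply, MonoidHom.pow_apply, MonoidHom.pow_apply, ← Units.val_mul,
        h8]
    simp only [centralChar, centralizer_singleton_inv, h7]

end Cfsg.Agent.S4580
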