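import Cfsg.Statements.S4581
import Mathlib
import Cfsg.Agent.H7.McKay2
import Cfsg.Agent.H3.Frattini

set_option autoImplicit false
open Cfsg

namespace Cfsg.Agent.S4581

open H7

theorem ov_bot {G H : Type*} [Group G] [Finite G] [Group H] [Finite H] [Subsingleton H] (f : H →* G)
    {χ : G → ℂ} (hχ : IsIrrCharacter G χ) : ip (fun l => χ (f l)) 1 ≠ 0 := by
  rw [show (fun l => χ (f l)) = χ 1 • (1 : H → ℂ) from funext fun l => by
    simp [Subsingleton.elim l 1], ip_smul_left, ip_one_one, mul_one]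
  exact irr_one_ne_zero hχ

theorem forall_iff_card {X : Type*} [Finite X] (P Q : X → Prop) :
    (∀ x, P x → Q x) ↔ Nat.card {x // Q x ∧ P x} = Nat.card {x // P x} := by
  refine ⟨fun h => Nat.card_congr (Equiv.subtypeEquivRight fun x => and_iff_right_of_imp (h x)),
    fun h x hx => ?_⟩
  obtain ⟨y, hy⟩ := ((Nat.bijective_iff_injective_and_card
    (fun y : {x // Q x ∧ P x} => (⟨y.1, y.2.2⟩ : {x // P x}))).mpr
    ⟨fun a b e => Subtype.ext (congrArg Subtype.val e :), h⟩).2 ⟨x, hx⟩
  exact (show y.1 = x from congrArg Subtype.val hy) ▸ y.2.1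

theorem two_group {X : Type*} [Group X] [Finite X] (hX : IsPGroup 2 X) :
    (∀ χ : IrrCharacter X, Odd (charDegree (χ : X → ℂ)) → ∀ g, ((χ : X → ℂ) g).im = 0) ↔
      commutator X = frattini X := by
  refine ⟨fun h => le_antisymm (H3.commutator_le_frattini hX) (H3.frattini_le_of (p := 2) _ le_rfl
    fun x => H6.mem_of_forall_irr_charKer _ fun χ hχ h1 => ?_), fun h χ h1 => ?_⟩
  · have h2 := (deg_eq_one_iff hχ).mpr h1
    have h3 := (real_iff_inv (irr_char hχ)).mp (h ⟨χ, hχ⟩ (h2 ▸ odd_one)) x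
    obtain ⟨lam, rfl⟩ := exists_linFun (irr_char hχ) (by rw [char_one_eq (irr_char hχ), h2]; simp)
    have h4 : lam x⁻¹ = lam x := Units.ext h3
    refine (H6.mem_charKer_iff (char_linFun _)).mpr (congrArg Units.val (?_ : lam _ = lam 1))
    rw [pow_two, map_mul, map_one]
    nth_rw 1 [← h4]
    simp
  · obtain ⟨k, hk⟩ := hX.exists_card_eq
    have h2 : charDegree (χ : X → ℂ) = 1 := Nat.eq_one_iff_not_exists_prime_dvd.mpr fun q hq a =>
      Nat.not_even_iff_odd.mpr h1 (even_iff_two_dvd.mpr
        (eq_of_dvd_card (S := ⊤) (hX.to_subgroup ⊤) hq (by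
          rw [Subgroup.card_top]; exact a.trans (irr_degree_dvd_card χ.2)) ▸ a))
    refine (real_iff_inv (irr_char χ.2)).mpr fun g => ?_
    have := apply_mul_of_lin χ.2 (by rw [char_one_eq (irr_char χ.2), h2]; simp) g⁻¹
      (h.ge (H3.pow_mem_frattini hX g))
    rw [← this, pow_two, inv_mul_cancel_left]

/-- Let G be a finite solvable group, P a Sylow 2-subgroup and N its normalizer. Then G and N have the same number of real-valued irreducible characters of odd degree; and every odd-degree irreducible character of G is real-valued exactly when the derived subgroup of P equals the Frattini subgroup of P and P is its own normalizer in G. -/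
theorem result {G : Type*} [Group G] [Finite G] [Group.IsSolvable G] (P : Sylow 2 G) :
    Nat.card {χ : Cfsg.IrrCharacter G // (∀ g : G, ((χ : G → ℂ) g).im = 0) ∧ Odd (Cfsg.charDegree (χ : G → ℂ))} =
      Nat.card {ψ : Cfsg.IrrCharacter (Subgroup.normalizer ((P : Subgroup G) : Set G)) // (∀ g, ((ψ : Subgroup.normalizer ((P : Subgroup G) : Set G) → ℂ) g).im = 0) ∧ Odd (Cfsg.charDegree (ψ : Subgroup.normalizer ((P : Subgroup G) : Set G) → ℂ))} ∧
    ((∀ χ : Cfsg.IrrCharacter G, Odd (Cfsg.charDegree (χ : G → ℂ)) → ∀ g : G, ((χ : G → ℂ) g).im = 0) ↔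
      (commutator (P : Subgroup G) = frattini (P : Subgroup G) ∧ Subgroup.normalizer ((P : Subgroup G) : Set G) = (P : Subgroup G))) := by
  have hS := H4.IsSylowIn.sylow_top P
  have hG := H1.isPSolvable_of_isSolvable (G := (⊤ : Subgroup G)) Nat.prime_two inferInstance
  have hL : Nrm ⊤ (⊥ : Subgroup G) := fun g _ x hx => Subgroup.normal_bot.conj_mem x hx g
  have h1 := cnt_mckay bot_le le_top hG hS inf_le_right hL irr_one fun _ _ _ _ _ => rfl
  have h2 := cnt_real bot_le le_top hG hS inf_le_right hL irr_one (fun _ _ _ _ _ => rfl)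
    fun _ => Complex.one_im
  have e : ∀ n : ℕ, ¬ 2 ∣ n ↔ Odd n := fun n => by rw [← even_iff_two_dvd, Nat.not_even_iff_odd]
  rw [cnt_top] at h1 h2
  replace h1 := (Nat.card_congr (Equiv.subtypeEquivRight fun χ => (and_iff_left
    (ov_bot (⊥ : Subgroup G).subtype χ.2)).symm)).trans (h1.trans (Nat.card_congr
      (Equiv.subtypeEquivRight fun χ => and_iff_left (ov_bot _ χ.2))))
  replace h2 := (Nat.card_congr (Equiv.subtypeEquivRight fun χ => (and_iff_left
    (ov_bot (⊥ : Subgroup G).subtype χ.2)).symm)).trans (h2.trans (Nat.card_congr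
      (Equiv.subtypeEquivRight fun χ => and_iff_left (ov_bot _ χ.2))))
  simp only [Gd, false_imp_iff, true_and, true_imp_iff, e, and_comm (a := Odd _)] at h1 h2
  refine ⟨h2, ?_⟩
  haveI := finite_irr G
  haveI := finite_irr (Subgroup.normalizer ((P : Subgroup G) : Set G))
  rw [forall_iff_card, h1, h2, ← forall_iff_card]
  have key : ∀ N : Subgroup G, N = P → ((∀ χ : IrrCharacter N, Odd (charDegree (χ : N → ℂ)) →
      ∀ g, ((χ : N → ℂ) g).im = 0) ↔ commutator (P : Subgroup G) = frattini (P : Subgroup G)) := by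
    rintro _ rfl
    exact two_group P.isPGroup'
  refine ⟨fun h => ?_, fun h => (key _ h.2).mpr h.1⟩
  suffices H : _ from ⟨(key _ H).mp h, H⟩
  refine le_antisymm (fun x hx => ?_) Subgroup.le_normalizer
  let π := QuotientGroup.mk' ((P : Subgroup G).subgroupOf (Subgroup.normalizer (P : Subgroup G)))
  have ho := (e _).mp (H4.IsSylowIn.sylow_of_le P Subgroup.le_normalizer).not_dvd
  refine (QuotientGroup.eq_one_iff (N := (P : Subgroup G).subgroupOf
    (Subgroup.normalizer (P : Subgroup G))) ⟨x, hx⟩).mp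
    (Subgroup.mem_bot.mp ((eq_bot_of_le_charKer (L := ⊤) fun β hβ => ?_).le trivial))
  have := h ⟨_, irr_comp_surjective π (QuotientGroup.mk'_surjective _) hβ⟩
    ((deg_comp π β).symm ▸ ho.of_dvd_nat (irr_degree_dvd_card hβ))
  rw [H6.irr_eq_one_of_odd_of_real ho hβ ((real_iff_star β).mp fun g => by
    obtain ⟨y, rfl⟩ := QuotientGroup.mk'_surjective _ g
    exact this y)]
  exact fun y _ => (H6.mem_charKer_iff char_one).mpr rfl

end Cfsg.Agent.S4581
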