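import Cfsg.Statements.S4584
import Mathlib
import Cfsg.Agent.H3.Extra2
import Cfsg.Agent.H3.Aut

set_option autoImplicit false
open Cfsg

namespace Cfsg.Agent.S4584

/-- Let p be a prime and P a group of order p^4. Then the derived subgroup P' has order p if and only if the centre Z(P) has index p^2 in P. -/
theorem result {P : Type*} [Group P] [Finite P] (p : ℕ) [Fact p.Prime] (hP : Nat.card P = p ^ 4) :
    Nat.card (commutator P) = p ↔ (Subgroup.center P).index = p ^ 2 := by
  open Subgroup Cfsg.Agent.FT Cfsg.Agent.H3 in
  open scoped commutatorElement in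
  · have hp : p.Prime := Fact.out
    have hc := card_top'.trans hP
    obtain ⟨A, -, h1, h2⟩ := exists_ab_of_card_four hp hc
    by_cases hna : Ab (⊤ : Subgroup P)
    · have h3 : commutator P = ⊥ := ab_iff_der.1 hna
      rw [h3, ← center_top', hna.center, card_bot', index_top]
      exact iff_of_false hp.one_lt.ne (Nat.one_lt_pow two_ne_zero hp.one_lt).ne
    have h3 := card_ab_max hp (pGrp_of_card hp hc) le_top h1 (relIndex_of_card_mul le_top (by rw [hc, h2, pow_succ'])) hna
    have h4 : (center P).index = p * Nat.card (commutator P) := by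
      refine Nat.eq_of_mul_eq_mul_left (FT.card_pos (center P)) ?_
      rw [card_mul_index, hP, pow_succ, ← h2, h3, center_top']
      show _ = _ * (p * #⁅(⊤ : Subgroup P), ⊤⁆)
      ring
    rw [h4, pow_two, Nat.mul_right_inj hp.ne_zero]

end Cfsg.Agent.S4584
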