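import Cfsg.Statements.S4585
import Mathlib
import Cfsg.Agent.H3.Extra2
import Cfsg.Agent.H3.Aut

set_option autoImplicit false
open Cfsg

namespace Cfsg.Agent.S4585

/-- Let p be a prime and P a group of order p^4. Then P' has index p^2 in P if and only if P has maximal nilpotency class, that is, nilpotency class exactly 3. -/
theorem result {P : Type*} [Group P] [Finite P] (p : ℕ) [Fact p.Prime] (hP : Nat.card P = p ^ 4) :
    (commutator P).index = p ^ 2 ↔ Group.nilpotencyClass P = 3 := by
  open Subgroup Cfsg.Agent.FT Cfsg.Agent.H3 in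
  open scoped commutatorElement in
  · have hp : p.Prime := Fact.out
    have hc := card_top'.trans hP
    refine Iff.trans ⟨fun e => ⟨hp, by omega, hc, fun e' => ?_⟩, fun h => (relIndex_top_right _).symm.trans h.relIndex_der⟩
      (maxCl_top_iff hP (by omega))
    obtain ⟨A, -, h1, h2⟩ := exists_ab_of_card_four hp hc
    have h3 : #⁅(⊤ : Subgroup P), (⊤ : Subgroup P)⁆ = p ^ 2 := Nat.eq_of_mul_eq_mul_right (pow_pos hp.pos 2) (by
      rw [← pow_add, ← hP, ← e]; exact (commutator P).card_mul_index)
    have h4 := card_ab_max hp (pGrp_of_card hp hc) le_top h1 (relIndex_of_card_mul le_top (by rw [hc, h2, pow_succ']))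
      fun h => by
        rw [ab_iff_der.1 h, card_bot'] at h3
        exact (Nat.one_lt_pow two_ne_zero hp.one_lt).ne h3
    have h5 := card_le (le_inf le_top (comm_eq_bot.1 e') : ⁅(⊤ : Subgroup P), (⊤ : Subgroup P)⁆ ≤ Z((⊤ : Subgroup P)))
    rw [h2, h3, pow_succ'] at h4
    rw [h3, ← Nat.eq_of_mul_eq_mul_right (pow_pos hp.pos 2) h4] at h5
    exact absurd h5 (not_le.2 p_lt_sq)

end Cfsg.Agent.S4585
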