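import Cfsg.Statements.S4586
import Mathlib
import Cfsg.Agent.H3.Extra2
import Cfsg.Agent.H3.Aut

set_option autoImplicit false
open Cfsg

namespace Cfsg.Agent.S4586

/-- Let p be a prime, P a finite p-group and N a normal subgroup of P of index p. For x ∈ P write c(x) for the number of elements n of N whose commutator x n x⁻¹ n⁻¹ lies in the derived subgroup N' (so c(x)/#N' is the order of the centralizer of x acting on N/N'). Then [P : P'] = p² if and only if c(x) = p·#N' for every x ∈ P outside N, and also if and only if c(x) = p·#N' for some x ∈ P outside N. -/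
theorem result {P : Type*} [Group P] [Finite P] (p : ℕ) [Fact p.Prime] (hP : IsPGroup p P) (N : Subgroup P) [N.Normal] (hN : N.index = p) :
    ((commutator P).index = p ^ 2 ↔ ∀ x : P, x ∉ N →
        Nat.card {n : N // x * n * x⁻¹ * (n : P)⁻¹ ∈ (commutator N).map N.subtype} = p * Nat.card (commutator N)) ∧
    ((commutator P).index = p ^ 2 ↔ ∃ x : P, x ∉ N ∧
        Nat.card {n : N // x * n * x⁻¹ * (n : P)⁻¹ ∈ (commutator N).map N.subtype} = p * Nat.card (commutator N)) := by
  open Subgroup Cfsg.Agent.FT Cfsg.Agent.H3 in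
  open scoped commutatorElement in
  · have hp : p.Prime := Fact.out
    rw [← der_eq_map]
    have hN' : N ⊴ ⊤ := nml_top_iff.2 ‹_›
    have hn : ∀ A : Subgroup P, A ≤ N(⁅N, N⁆) := fun A => le_top.trans hN'.der.nrm
    have key : ∀ x, x ∉ N → ((commutator P).index = p ^ 2 ↔
        Nat.card {n : N // x * n * x⁻¹ * (n : P)⁻¹ ∈ ⁅N, N⁆} = p * Nat.card (commutator N)) := fun x hx => by
      have h1 := card_der_of_ab (ab_quo_der N) (x := coset(⁅N, N⁆, x))
        (quo_norms _ hN'.nrm (mem_quo_of_mem (hn ⊤ (mem_top x)) (mem_top x)))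
      rw [← quo_zpowers (hn ⊤ (mem_top x)), ← quo_sup (hn _) (hn _), sup_zpowers_eq_top_of_index_prime hp hN hx,
        ← quo_der (hn _)] at h1
      have h2 : Nat.card {n : N // x * n * x⁻¹ * (n : P)⁻¹ ∈ ⁅N, N⁆} =
          #qpre(⁅N, N⁆, (N /ₛ ⁅N, N⁆) ⊓ C[coset(⁅N, N⁆, x)]) := by
        refine Nat.card_congr ((Equiv.subtypeSubtypeEquivSubtypeInter (· ∈ N) fun n => x * n * x⁻¹ * n⁻¹ ∈ ⁅N, N⁆).trans
          (Equiv.subtypeEquivRight fun n => ?_))
        rw [qpre_inf, qpre_quo_of_nml (der_nml N), mem_inf, mem_qpre, cen1_comm, mem_cen1,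
          coset_commute_iff (hn ⊤ (mem_top x)) (hn ⊤ (mem_top n)), and_iff_right (hn ⊤ (mem_top n))]
        rfl
      have h3 := card_quo_mul (der_nml N)
      have h4 := card_quo_mul (hN'.der.mono (der_mono le_top) le_top : ⁅N, N⁆ ⊴ ⁅(⊤ : Subgroup P), ⊤⁆)
      have h5 : #⁅(⊤ : Subgroup P), (⊤ : Subgroup P)⁆ * (commutator P).index = #N * p := by
        rw [← hN, N.card_mul_index]; exact (commutator P).card_mul_index
      have h6 : Nat.card (commutator N) = #⁅N, N⁆ := by rw [der_eq_map, card_map_of_injective N.subtype_injective]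
      rw [h2, card_qpre, h6, mul_comm p, Nat.mul_right_inj (card_ne_zero _)]
      rw [← h3, ← h4, h1, mul_assoc, mul_assoc, Nat.mul_right_inj (card_ne_zero _), mul_comm (Nat.card _) (Nat.card _),
        mul_assoc, Nat.mul_right_inj (card_ne_zero _)] at h5
      rw [h5, pow_two, Nat.mul_left_inj hp.ne_zero]
    obtain ⟨x, -, hx⟩ := SetLike.exists_of_lt (isCoatom_of_index_prime hp hN).1.lt_top
    exact ⟨⟨fun e y hy => (key y hy).1 e, fun e => (key x hx).2 (e x hx)⟩,
      fun e => ⟨x, hx, (key x hx).1 e⟩, fun ⟨y, hy, e⟩ => (key y hy).2 e⟩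

end Cfsg.Agent.S4586
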