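import Cfsg.Statements.S4587
import Mathlib
import Cfsg.Agent.H2.Misc
import Cfsg.Agent.H27.Schur4
import Cfsg.Agent.H3.Extra2
import Cfsg.Agent.H3.Two
import Cfsg.Agent.H2.GenFitting
import Cfsg.Agent.H28.Util

set_option autoImplicit false
open Cfsg

namespace Cfsg.Agent.S4587

open Subgroup Cfsg.Agent.FT
open scoped commutatorElement

section
variable {G : Type*} [Group G] [Finite G] {p : ℕ} {A B P Q S : Subgroup G} {a x y : G}

theorem ab_of_idx (hp : p.Prime) (hS : PGrp p S) (h : (⁅S, S⁆).relIndex S ∣ p) : Ab S := by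
  rcases (Nat.dvd_prime hp).1 h with i | i
  · have h1 : S ≤ ⁅S, S⁆ := relIndex_eq_one.1 i
    by_cases hb : S = ⊥
    · rw [hb]; exact ab_bot
    · exact absurd h1 (not_le_of_gt (hS.comm_lt hS (le_nrm S) hb))
  · exact (hS.nil.cyc_of_quo_der (cyc_quo_of_prime_relIndex (der_nml S).nrm (i.symm ▸ hp))).ab

theorem der_le_idx (hp : p.Prime) (hA : A ⊴ S) (i : A.relIndex S ∣ p) : ⁅S, S⁆ ≤ ⁅A, S⁆ := by
  rcases (Nat.dvd_prime hp).1 i with i | i
  · exact commSS (relIndex_eq_one.1 i) le_rfl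
  obtain ⟨x, hx, x1⟩ := SetLike.not_le_iff_exists.1 fun h : S ≤ A => hp.ne_one (i.symm.trans (relIndex_eq_one.2 h))
  have e := H3.sup_zpowers_eq_of_prime (i.symm ▸ hp) hA.le hx x1
  nth_rw 1 2 [← e]
  rw [der_sup_eq (zpowers_le.2 (hA.nrm hx)), ab_iff_der.1 (ab_zpowers x), sup_bot_eq]
  exact sup_le (commSS le_rfl hA.le) (commSS le_rfl (zpowers_le.2 hx))

theorem cen_idx_le (hx : x ∈ P) : C[x].relIndex P ≤ #⁅P, P⁆ := by
  rw [← H28.ncard_conj_set P x]
  have : (fun r => r * x * r⁻¹) '' P ⊆ (fun a => a * x) '' (⁅P, P⁆ : Subgroup G) := by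
    rintro _ ⟨r, hr, rfl⟩
    exact ⟨_, commutator_mem_commutator hr hx, by simp [commutatorElement_def]⟩
  exact (Set.ncard_le_ncard this).trans (Set.ncard_image_le (Set.toFinite _))

/-- the transfer into `Q / Q' B` -/
theorem transfer_aux (hQ : Q ⊴ P) (ha : a ∈ Q) (ha' : a ∈ ⁅P, P⁆)
    (h : ∀ y ∈ P, y ∉ Q → y⁻¹ * a * y ∈ B) : ∃ b ∈ B, b⁻¹ * a ∈ ⁅Q, Q⁆ := by
  classical
  set S : Subgroup P := Q.subgroupOf P with hS
  haveI : S.Normal := hQ.normal
  letI : Fintype (P ⧸ S) := Fintype.ofFinite _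
  let K : Subgroup (Abelianization Q) := (B.subgroupOf Q).map Abelianization.of
  let φ : S →* Abelianization Q ⧸ K :=
    ((QuotientGroup.mk' K).comp Abelianization.of).comp (subgroupOfEquivOfLe hQ.le).toMonoidHom
  have hφ : ∀ s : S, φ s = ((Abelianization.of (⟨s.1.1, s.2⟩ : Q) : Abelianization Q) : Abelianization Q ⧸ K) :=
    fun _ => rfl
  have haP : a ∈ P := hQ.le ha
  let g : P := ⟨a, haP⟩
  have hg : g ∈ S := ha
  have h1 : H27.transferProd S φ g = 1 := by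
    rw [der_eq_map] at ha'
    obtain ⟨g', hg', e⟩ := ha'
    have : g' = g := Subtype.ext e
    rw [← this]
    exact Abelianization.commutator_subset_ker _ hg'
  have hfix : ∀ q : P ⧸ S, g • q = q := fun q => by
    obtain ⟨r, rfl⟩ := QuotientGroup.mk_surjective q
    change ((g * r : P) : P ⧸ S) = r
    rw [QuotientGroup.eq]
    have := (inferInstance : S.Normal).conj_mem _ (inv_mem hg) r⁻¹
    simpa [mul_assoc] using this
  rw [H27.transferProd_apply, Finset.prod_eq_single (1 : P ⧸ S)] at h1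
  · have ho : (1 : P ⧸ S).out ∈ S := by
      rw [← QuotientGroup.eq_one_iff]; exact QuotientGroup.out_eq' _
    have e : (⟨_, H27.out_smul_mem S g 1⟩ : S) = (⟨_, ho⟩ : S)⁻¹ * ⟨g, hg⟩ * ⟨_, ho⟩ := by
      apply Subtype.ext; simp [hfix]
    rw [e, map_mul, map_mul, map_inv, mul_comm, ← mul_assoc, mul_inv_cancel, one_mul, hφ,
      QuotientGroup.eq_one_iff] at h1
    obtain ⟨b, hb, e⟩ := h1
    refine ⟨b, hb, ?_⟩
    have : b⁻¹ * ⟨a, ha⟩ ∈ commutator Q := by
      rw [← Abelianization.ker_of, MonoidHom.mem_ker, map_mul, map_inv, e]; exact inv_mul_cancel _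
    rw [der_eq_map]
    exact ⟨_, this, rfl⟩
  · intro q _ hq
    rw [hφ, QuotientGroup.eq_one_iff]
    refine ⟨_, ?_, rfl⟩
    have hq' : (q.out : G) ∉ Q := fun h' => hq (by
      rw [← QuotientGroup.out_eq' q, QuotientGroup.eq_one_iff]; exact h')
    have := h _ q.out.2 hq'
    rw [SetLike.mem_coe, mem_subgroupOf]
    simpa [hfix] using this
  · simp

/-- an abelian maximal subgroup -/
theorem card_cen_of_ab (hp : p.Prime) (hQ : Q ⊴ P) (hi : Q.relIndex P = p) (hab : Ab Q)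
    (h2 : (⁅P, P⁆).relIndex P = p ^ 2) (hy : y ∈ P) (hy' : y ∉ Q) : #(P ⊓ C[y]) = p ^ 2 := by
  have e := H3.sup_zpowers_eq_of_prime (hi.symm ▸ hp) hQ.le hy hy'
  have h1 := H3.card_der_of_ab hab (hQ.nrm hy)
  rw [e] at h1
  have h3 := card_mul_relIndex (der_le P)
  have h4 := card_mul_relIndex hQ.le
  rw [h2] at h3
  rw [hi, h1, ← h3] at h4
  have h5 : #(Q ⊓ C[y]) = p := by
    have : #⁅P, P⁆ * p * #(Q ⊓ C[y]) = #⁅P, P⁆ * p * p := by linarith
    exact Nat.eq_of_mul_eq_mul_left (Nat.mul_pos (card_pos _) hp.pos) this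
  have h6 := card_inf_mul_relIndex Q (P ⊓ C[y])
  have h7 : Q.relIndex (P ⊓ C[y]) ∣ p := hi ▸ relIndex_dvd_of_norm inf_le_left hQ.nrm
  rcases (Nat.dvd_prime hp).1 h7 with i | i
  · exact absurd (relIndex_eq_one.1 i ⟨hy, self_mem_cen1 y⟩) hy'
  · rw [i, ← inf_assoc, inf_eq_left.2 hQ.le, h5] at h6
    rw [← h6, sq]

/-- a normalised direct decomposition of a subgroup of index dividing `p` -/
theorem ab_of_dp (hp : p.Prime) (hP : PGrp p P) (hQ : Q ⊴ P) (hi : Q.relIndex P ∣ p) (hd : DP A B Q)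
    (hA : P ≤ N(A)) (hB : P ≤ N(B)) (hA1 : A ≠ ⊥) (hB1 : B ≠ ⊥) (h2 : (⁅P, P⁆).relIndex P = p ^ 2) : Ab P := by
  have hAP : A ≤ P := hd.left.trans hQ.le
  have hBP : B ≤ P := hd.right.trans hQ.le
  have hnA : P ≤ N(⁅A, P⁆) := norm_comm_right _ _
  have hnB : P ≤ N(⁅B, P⁆) := norm_comm_right _ _
  have h1 : ⁅P, P⁆ ≤ ⁅A, P⁆ ⊔ ⁅B, P⁆ := by
    refine (der_le_idx hp hQ hi).trans ?_
    rw [← hd.sup]
    exact comm_sup_le ((sup_le hAP hBP).trans (normsY hnA hnB)) le_sup_left le_sup_right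
  have h3 : #⁅P, P⁆ ≤ #⁅A, P⁆ * #⁅B, P⁆ :=
    (card_le h1).trans (Nat.le_of_dvd (Nat.mul_pos (card_pos _) (card_pos _))
      (card_sup_dvd ((comm_le_of_le hBP le_rfl).trans hnA)))
  have iA := card_mul_relIndex (comm_le_left hA)
  have iB := card_mul_relIndex (comm_le_left hB)
  have dA : p ∣ (⁅A, P⁆).relIndex A :=
    (hP.mono hAP).dvd_relIndex (not_le_of_gt (hP.comm_lt (hP.mono hAP) hA hA1))
  have dB : p ∣ (⁅B, P⁆).relIndex B :=
    (hP.mono hBP).dvd_relIndex (not_le_of_gt (hP.comm_lt (hP.mono hBP) hB hB1))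
  have lA := Nat.le_of_dvd (relIndex_pos _ _) dA
  have lB := Nat.le_of_dvd (relIndex_pos _ _) dB
  have h4 := card_mul_relIndex (der_le P)
  rw [h2] at h4
  have h5 := hd.card
  have h6 := card_le hQ.le
  have pA := card_pos ⁅A, P⁆
  have pB := card_pos ⁅B, P⁆
  have pp := hp.pos
  set a := #⁅A, P⁆
  set b := #⁅B, P⁆
  set i := (⁅A, P⁆).relIndex A
  set j := (⁅B, P⁆).relIndex B
  have h7 : a * b * (i * j) ≤ a * b * (p * p) := by
    calc a * b * (i * j) = #Q := by rw [h5, ← iA, ← iB]; ring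
      _ ≤ #P := h6
      _ = #⁅P, P⁆ * (p * p) := by rw [← h4, sq]
      _ ≤ _ := Nat.mul_le_mul_right _ h3
  have h8 := Nat.le_of_mul_le_mul_left h7 (Nat.mul_pos pA pB)
  have ei : i = p := by nlinarith
  have ej : j = p := by nlinarith
  have hQP : Q = P := by
    refine eq_of_card_le hQ.le ?_
    calc #P = #⁅P, P⁆ * (p * p) := by rw [← h4, sq]
      _ ≤ a * b * (p * p) := Nat.mul_le_mul_right _ h3
      _ = #Q := by rw [h5, ← iA, ← iB, ei, ej]; ring
  subst hQP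
  have eA : ⁅A, Q⁆ = ⁅A, A⁆ := hd.mulEq.comm_eq_of_cents' hd.cen
  have eB : ⁅B, Q⁆ = ⁅B, B⁆ := hd.symm.mulEq.comm_eq_of_cents' hd.symm.cen
  exact hd.cp.ab (ab_of_idx hp (hP.mono hAP) (by rw [← eA]; exact ei ▸ dvd_rfl))
    (ab_of_idx hp (hP.mono hBP) (by rw [← eB]; exact ej ▸ dvd_rfl))

/-- a direct factor moved into the other factor is abelian -/
theorem ab_of_moved (hp : p.Prime) (hP : PGrp p P) (hQ : Q ⊴ P) (hd : DP A B Q)
    (hi : (⁅P, P⁆).relIndex Q ∣ p) (h : ∀ y ∈ P, y ∉ Q → ∀ a ∈ A, y⁻¹ * a * y ∈ B) : Ab A := by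
  have hAP : A ≤ P := hd.left.trans hQ.le
  refine ab_of_idx hp (hP.mono hAP) ?_
  have e : ⁅P, P⁆ ⊓ A = ⁅A, A⁆ := by
    refine le_antisymm (fun a ha => ?_) (le_inf (der_mono hAP) (der_le A))
    obtain ⟨b, hb, h1⟩ := transfer_aux hQ (hd.left ha.2) ha.1 (fun y hy hy' => h y hy hy' a ha.2)
    rw [hd.cp.der, mem_sup_norm (cents_norm (centSS (der_le A) (der_le B) hd.cen))] at h1
    obtain ⟨u, hu, v, hv, e⟩ := h1
    have c : u * b = b * u := mem_cen.1 (hd.cen hb) u (der_le A hu)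
    have e2 : u⁻¹ * a = b * v := by
      calc u⁻¹ * a = u⁻¹ * b * (b⁻¹ * a) := by group
        _ = u⁻¹ * (b * u) * v := by rw [e]; group
        _ = b * v := by rw [← c]; group
    have : u⁻¹ * a = 1 := eq_one_of_mem_inf hd.inf (mul_mem (inv_mem (der_le A hu)) ha.2)
      (e2 ▸ mul_mem hb (der_le B hv))
    rw [inv_mul_eq_one] at this
    exact this ▸ hu
  rw [← e, inf_relIndex_right]
  exact (relIndex_dvd_of_norm hd.left (hQ.le.trans (der_nml P).nrm)).trans hi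


/-- the `p`-part of a normal subgroup contains the derived group with index dividing `p` -/
theorem key (hp : p.Prime) (hP : Syl p P ⊤) (hO : O[{p}ᶜ]((⊤ : Subgroup G)) = ⊥) (hc : (⁅P, P⁆).normalCore = ⊥)
    (h2 : (⁅P, P⁆).relIndex P = p ^ 2) (hna : ¬ Ab P) (N : Subgroup G) [hN : N.Normal] (h1 : N ≠ ⊥) :
    (N ⊓ P).relIndex P ∣ p ∧ (⁅P, P⁆).relIndex (N ⊓ P) ∣ p ^ 2 ∧
      ((N ⊓ P).relIndex P = p → (⁅P, P⁆).relIndex (N ⊓ P) = p) := by
  have hn : N ⊴ ⊤ := nml_top_iff.2 hN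
  have hQ : N ⊓ P ⊴ P := nml_inf_of_norms' (le_top.trans hn.nrm)
  have hd : (Phi P).relIndex P ∣ p ^ 2 := h2 ▸ relIndex_dvd_of_le hP.pi.der_le_Phi P
  have hΦ : Phi P = ⁅P, P⁆ := by
    have m := relIndex_mul hP.pi.der_le_Phi (Phi_le P)
    rw [h2] at m
    obtain ⟨k, hk, e⟩ := (Nat.dvd_prime_pow hp).1 hd
    interval_cases k
    · have : P = ⊥ := by_contra fun h => not_le_of_gt (Phi_lt h) (relIndex_eq_one.1 e)
      exact absurd (this ▸ ab_bot) hna
    · exact absurd (cyc_of_quo_le_Phi (Phi_nrm P) le_rfl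
        (cyc_quo_of_prime_relIndex (Phi_nrm P) (by rw [e, pow_one]; exact hp))).ab hna
    · rw [e] at m
      have : (⁅P, P⁆).relIndex (Phi P) = 1 := by
        have := pow_pos hp.pos 2
        nlinarith
      exact le_antisymm (relIndex_eq_one.1 this) hP.pi.der_le_Phi
  have hnle : ¬ N ⊓ P ≤ Phi P := fun h => by
    have hS : Syl p (N ⊓ P) N := hP.inf_nml' hn
    have t := (tate_rel hp hP.pi (le_top.trans hn.nrm) hS h).sd hS
    rw [eq_bot_of_le (pcore_mono_nml _ hn) hO] at t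
    have : N ≤ ⁅P, P⁆ := by rw [← t.eq_right_of_bot, ← hΦ]; exact h
    exact h1 (eq_bot_of_le (normal_le_normalCore.2 this) hc)
  obtain ⟨x, hx, e⟩ := (cyc_quo_iff hQ.nrm).1 (der_le_of_not_le_Phi hp hP.pi hd hQ hnle)
  have hle : ⁅P, P⁆ ≤ N ⊓ P := by
    refine (der_mono e).trans ((der_sup_le (zpowers_le.2 (hQ.nrm hx))).trans ?_)
    rw [ab_iff_der.1 (ab_zpowers x), sup_bot_eq]
  have m := relIndex_mul hle hQ.le
  rw [h2] at m
  have d1 : p ∣ (⁅P, P⁆).relIndex (N ⊓ P) := (hP.pi.mono hQ.le).dvd_relIndex (hΦ ▸ hnle)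
  refine ⟨?_, Dvd.intro _ m, fun h => ?_⟩
  · obtain ⟨c, hc⟩ := d1
    rw [hc, mul_assoc, sq] at m
    exact Dvd.intro_left _ (Nat.eq_of_mul_eq_mul_left hp.pos m)
  · rw [h, sq] at m
    exact Nat.eq_of_mul_eq_mul_right hp.pos m

theorem exists_ab (hp : p.Prime) (hP : Syl p P ⊤) (hO : O[{p}ᶜ]((⊤ : Subgroup G)) = ⊥)
    (hc : (⁅P, P⁆).normalCore = ⊥) (h2 : (⁅P, P⁆).relIndex P = p ^ 2) (hna : ¬ Ab P)
    (hnas : ¬ ∃ S : Subgroup G, S.Normal ∧ IsSimpleGroup S ∧ ¬ IsMulCommutative S ∧ C(S) = ⊥) :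
    ∃ N : Subgroup G, N.Normal ∧ N ≠ ⊥ ∧ Ab (N ⊓ P) := by
  by_cases hF : fittingSubgroup G = ⊥
  swap
  · haveI := H2.fittingSubgroup_normal G
    obtain ⟨M, hM, hle⟩ := H2.exists_isMinNormal_le _ hF
    haveI : Group.IsNilpotent (fittingSubgroup G) := H2.fittingSubgroup_isNilpotent
    haveI : Group.IsSolvable M := Sol.mono (inferInstance : Sol (fittingSubgroup G)) hle
    exact ⟨M, hM.1, hM.2.1, Ab.mono hM.isMulCommutative inf_le_left⟩
  set E := layer G with hE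
  haveI hEn : E.Normal := H2.layer_normal G
  have hgen : generalizedFittingSubgroup G = E := by rw [generalizedFittingSubgroup, hF, sup_bot_eq]
  have hC : C(E) = ⊥ := by
    rw [← hgen]; exact eq_bot_of_le H2.centralizer_generalizedFitting_le_fittingSubgroup hF
  have hE1 : E ≠ ⊥ := fun h => by
    rw [h, cen_bot] at hC
    exact hna (Ab.mono ab_bot (hC ▸ le_top))
  refine ⟨E, hEn, hE1, ?_⟩
  have hn : E ⊴ ⊤ := nml_top_iff.2 hEn
  have hQ : E ⊓ P ⊴ P := nml_inf_of_norms' (le_top.trans hn.nrm)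
  obtain ⟨k1, -, k3⟩ := key hp hP hO hc h2 hna E hE1
  have hS : Syl p (E ⊓ P) E := hP.inf_nml' hn
  rw [ab_iff_der]
  refine eq_bot_of_le (centsC (sSup_le fun S (hS' : IsComponent S) => centsC ?_)) hC
  have hZ : S ⊓ C(S) = ⊥ := eq_bot_of_le (H2.component_center_le_fittingSubgroup hS') hF
  have hSE : S ≤ E := H2.le_layer hS'
  have hES : E ≤ N(S) := H2.layer_le_normalizer_component hS'
  have hdp : DP S (E ⊓ C(S)) E := by
    refine ⟨inf_le_right, le_antisymm (sup_le hSE inf_le_left) (sSup_le fun K (hK : IsComponent K) => ?_),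
      inf_eq_bot_mono hZ le_rfl inf_le_right⟩
    rcases H2.component_eq_or_commutator_eq_bot hK hS' with h | h
    · exact h ▸ le_sup_left
    · exact le_sup_of_le_right (le_inf (H2.le_layer hK) (comm_eq_bot.1 h))
  have hSA : Syl p (S ⊓ (E ⊓ P)) S := hS.inf_nml' hdp.nml_left
  have hSB : Syl p (E ⊓ C(S) ⊓ (E ⊓ P)) (E ⊓ C(S)) := hS.inf_nml' hdp.nml_right
  have hd : DP (S ⊓ (E ⊓ P)) (E ⊓ C(S) ⊓ (E ⊓ P)) (E ⊓ P) := by
    have c : E ⊓ C(S) ⊓ (E ⊓ P) ≤ C(S ⊓ (E ⊓ P)) := centSS inf_le_left inf_le_left hdp.cen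
    have i := inf_eq_bot_mono hdp.inf (inf_le_left (b := E ⊓ P)) (inf_le_left (b := E ⊓ P))
    refine ⟨c, eq_of_card_eq (sup_le inf_le_right inf_le_right) ?_, i⟩
    rw [card_sup_of_inf (cents_norm c) i, hSA.card, hSB.card, hS.card, hdp.card,
      partn_mul _ (card_ne_zero _) (card_ne_zero _)]
  have hne : ∀ K : Subgroup G, K ⊴ E → K ≠ ⊥ → K ⊓ (E ⊓ P) ≠ ⊥ := fun K hK h1 h => by
    have := ((hS.inf_nml' hK).eq_bot_iff).1 h
    exact h1 (eq_bot_of_le (pcore_max_subn this (hK.subn.trans hn.subn)) hO)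
  have hS1 : S ≠ ⊥ := fun h => by
    have := hS'.2.2
    subst h
    exact not_subsingleton _ (Function.Surjective.subsingleton (QuotientGroup.mk_surjective (s := center (⊥ : Subgroup G))))
  by_cases hPS : P ≤ N(S)
  · exfalso
    by_cases hB : E ⊓ C(S) = ⊥
    · have hSE' : S = E := by rw [← hdp.sup, hB, sup_bot_eq]
      have hz : center S = ⊥ := by
        rw [← map_eq_bot_iff_of_injective _ S.subtype_injective, ← center_eq_map, hZ]
      refine hnas ⟨S, hSE' ▸ hEn, H2.isSimpleGroup_of_isQuasisimple hS'.2 hz, fun h => hS1 ?_, hSE' ▸ hC⟩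
      rw [← hZ]; exact (Ab.center h).symm
    · exact hna (ab_of_dp hp hP.pi hQ k1 hd (normsI hPS hQ.nrm)
        (normsI (norms_subcent (le_top.trans hn.nrm) hPS) hQ.nrm) (hne _ hdp.nml_left hS1)
        (hne _ hdp.nml_right hB) h2)
  · have hi : (E ⊓ P).relIndex P = p := by
      refine ((Nat.dvd_prime hp).1 k1).resolve_left fun h => hPS ?_
      exact (relIndex_eq_one.1 h).trans (inf_le_left.trans hES)
    have hab : Ab (S ⊓ (E ⊓ P)) := by
      refine ab_of_moved hp hP.pi hQ hd (k3 hi).dvd fun y hy hy' a ha => ⟨⟨?_, ?_⟩, conj_mem' (hQ.nrm hy) ha.2⟩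
      · exact conj_mem' (hn.nrm trivial) ha.2.1
      · have hK : IsComponent (cj y⁻¹ S) := H2.isComponent_smul hS' y⁻¹
        rcases H2.component_eq_or_commutator_eq_bot hK hS' with h | h
        · exfalso
          apply hPS
          rw [← H3.sup_zpowers_eq_of_prime (hi.symm ▸ hp) hQ.le hy hy']
          exact sup_le (inf_le_left.trans hES) (zpowers_le.2 (inv_mem_iff.1 (cj_eq_self.1 h)))
        · exact comm_eq_bot.1 h (by rw [mem_cj]; simpa [mul_assoc] using ha.1)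
    rw [hd.cp.der, ab_iff_der.1 hab, bot_sup_eq]
    exact (der_le _).trans (inf_le_left.trans inf_le_right)

end

/-- Let G be a finite group, p a prime and P a Sylow p-subgroup of order at least p². Assume that G has no nontrivial normal subgroup of order prime to p, that the derived subgroup P' of P contains no nontrivial normal subgroup of G, and that G is not almost simple (there is no non-abelian simple normal subgroup of G with trivial centralizer). Then [P : P'] = p² if and only if some p-element x of G has centralizer whose order has p-part exactly p². -/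
theorem result {G : Type*} [Group G] [Finite G] (p : ℕ) [Fact p.Prime] (P : Sylow p G) (hbig : p ^ 2 ∣ Nat.card G) (hcore : Cfsg.pPrimeCore p G = ⊥)
    (hcore' : (⁅(P : Subgroup G), (P : Subgroup G)⁆).normalCore = ⊥) (hnas : ¬ ∃ S : Subgroup G, S.Normal ∧ IsSimpleGroup S ∧ ¬ IsMulCommutative S ∧ Subgroup.centralizer (S : Set G) = ⊥) :
    (⁅(P : Subgroup G), (P : Subgroup G)⁆).relIndex (P : Subgroup G) = p ^ 2 ↔
      ∃ x : G, (∃ k : ℕ, orderOf x = p ^ k) ∧ (Nat.card (Subgroup.centralizer ({x} : Set G))).factorization p = 2 := by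
  have hp : p.Prime := Fact.out
  have hP := syl_top hp P
  set Q : Subgroup G := (P : Subgroup G) with hQ
  have hO : O[{p}ᶜ]((⊤ : Subgroup G)) = ⊥ := by rw [pcore_top, piCore_compl_singleton hp, hcore]
  have hcard : p ^ 2 ∣ #Q := by
    rw [hP.card_syl hp, card_top']
    exact pow_dvd_pow _ ((hp.pow_dvd_iff_le_factorization Nat.card_pos.ne').1 hbig)
  have hfac : ∀ (H R : Subgroup G), Syl p R H → (#R = p ^ 2 ↔ (#H).factorization p = 2) := fun H R h => by
    rw [h.card_syl hp]; exact (Nat.pow_right_injective hp.two_le).eq_iff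
  constructor
  · intro h2
    by_cases hab : Ab Q
    · refine ⟨1, ⟨0, by simp⟩, ?_⟩
      rw [cen1_one, ← hfac _ _ hP]
      rwa [ab_iff_der.1 hab, relIndex_bot_left] at h2
    obtain ⟨N, hN, h1, hA⟩ := exists_ab hp hP hO hcore' h2 hab hnas
    have hn : Q ≤ N(N) := le_top.trans (nml_top_iff.2 hN).nrm
    have hi : (N ⊓ Q).relIndex Q = p :=
      ((Nat.dvd_prime hp).1 (key hp hP hO hcore' h2 hab N h1).1).resolve_left fun h =>
        hab (hA.mono (relIndex_eq_one.1 h))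
    obtain ⟨y, hy, hy'⟩ := SetLike.not_le_iff_exists.1 fun h : Q ≤ N ⊓ Q => hab (hA.mono h)
    have hc := fun y hy hy' => card_cen_of_ab (y := y) hp (nml_inf_of_norms' hn) hi hA h2 hy hy'
    refine ⟨y, PiNat.exists_pow (hP.pi.piElt hy) (orderOf_pos y).ne', ?_⟩
    obtain ⟨R, hR, hle⟩ := (hP.pi.mono (inf_le_left (b := C[y]))).exists_syl inf_le_right
    rw [← hfac _ _ hR]
    obtain ⟨g, -, hg⟩ := hP.syl_Jsub hR.pi le_top
    have hyR : y ∈ R := hle ⟨hy, self_mem_cen1 y⟩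
    have h3 := hc (g * y * g⁻¹) (hg (conj_mem_cj.2 hyR)) fun h =>
      hy' ⟨by simpa [mul_assoc] using hN.conj_mem _ h.1 g⁻¹, hy⟩
    refine le_antisymm ?_ (hc y hy hy' ▸ card_le hle)
    rw [← h3, ← card_cj g R]
    exact card_le (le_inf hg (cj_cen1 g y ▸ cj_mono g hR.le))
  · rintro ⟨x, ⟨k, hk⟩, hx⟩
    have hpx : PiElt {p} x := (pElt_iff hp).2 ⟨k, hk ▸ pow_orderOf_eq_one x⟩
    obtain ⟨g, -, hg⟩ := hP.syl_elt trivial hpx
    obtain ⟨R, hR⟩ := exists_syl p C[g * x * g⁻¹]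
    have h1 : #R = p ^ 2 := by rwa [hfac _ _ hR, ← cj_cen1, card_cj]
    have h2 : #(C[g * x * g⁻¹] ⊓ Q) ≤ p ^ 2 := h1 ▸ hR.card_le (hP.pi.mono inf_le_right) inf_le_left
    have h3 := card_inf_mul_relIndex C[g * x * g⁻¹] Q
    have h4 := cen_idx_le hg
    have h5 := card_mul_relIndex (der_le Q)
    have h6 : (⁅Q, Q⁆).relIndex Q ≤ p ^ 2 := by
      refine Nat.le_of_mul_le_mul_left ?_ (card_pos ⁅Q, Q⁆)
      rw [h5, ← h3, mul_comm]
      exact Nat.mul_le_mul h4 h2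
    obtain ⟨n, hn⟩ := hP.pi.card
    obtain ⟨m, -, hm⟩ := (Nat.dvd_prime_pow hp).1 (hn ▸ relIndex_dvd ⁅Q, Q⁆ Q)
    rw [hm] at h6 ⊢
    have h7 := (Nat.pow_le_pow_iff_right hp.one_lt).1 h6
    by_contra hne
    have h8 : m ≤ 1 := by
      have : m ≠ 2 := fun h => hne (h ▸ rfl)
      omega
    have h9 : (⁅Q, Q⁆).relIndex Q ∣ p := by
      rw [hm]; exact (pow_dvd_pow p h8).trans (pow_one p).dvd
    rw [ab_iff_der.1 (ab_of_idx hp hP.pi h9), relIndex_bot_left] at h9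
    have := Nat.le_of_dvd hp.pos (hcard.trans h9)
    have := hp.two_le
    nlinarith

end Cfsg.Agent.S4587
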