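import Cfsg.Statements.S4588
import Mathlib
import Cfsg.Agent.H9.KB

set_option autoImplicit false
open Cfsg

namespace Cfsg.Agent.S4588

/-- Let G be a finite group, p a prime and M a maximal ideal of the algebraic integers containing p. If some p-element x of G (possibly x = 1) has centralizer whose order has p-part at most p², then the principal p-block of G contains at most p² irreducible characters of degree prime to p. -/
theorem result {G : Type*} [Group G] [Finite G] (p : ℕ) [Fact p.Prime] (M : Ideal Cfsg.AlgInt) (hM : Cfsg.IsPModular p M)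
    (hx : ∃ x : G, (∃ k : ℕ, orderOf x = p ^ k) ∧ (Nat.card (Subgroup.centralizer ({x} : Set G))).factorization p ≤ 2) :
    Nat.card {χ : Cfsg.IrrCharacter G // χ ∈ Cfsg.principalBlock M G ∧ ¬ p ∣ Cfsg.charDegree (χ : G → ℂ)} ≤ p ^ 2 := by
  classical
  haveI := hM.2.1
  haveI : H9.PMod M p := ⟨hM⟩
  obtain ⟨x, hx, h⟩ := hx
  have hB : IsPBlock M (principalBlock M G) := H8.isPBlock_principalBlock
  have hc : Nat.card {χ : IrrCharacter G // χ ∈ principalBlock M G ∧ ¬ p ∣ charDegree (χ : G → ℂ)} =
      ((H9.bs (principalBlock M G)).filter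
        fun χ : IrrCharacter G => ¬ p ∣ charDegree (χ : G → ℂ)).card := by
    rw [← Nat.card_eq_finsetCard]
    exact Nat.card_congr (Equiv.subtypeEquivRight fun χ => by simp)
  have hp : 0 < p := (Fact.out : p.Prime).pos
  rw [hc]
  by_cases h1 : x = 1
  · subst h1
    rw [Nat.card_congr (H9.oneEquiv G).toEquiv.symm] at h
    have h2 := (H9.blockDefect_le (p := p) (principalBlock M G)).trans h
    refine (Finset.card_filter_le _ _).trans ?_
    rw [H9.card_bs]
    exact (H9.card_le_pow_of_le_two hB h2).trans (Nat.pow_le_pow_right hp h2)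
  have hs := H9.Subs.of_indSet (M := M) hx (H8.isBlockUnion_of_block hB)
  rw [H8.indSet_principalBlock_centralizer hM hx] at hs
  have h2 := (H9.blockDefect_le (p := p) (principalBlock M _)).trans h
  refine (hs.card_le_of_defect H8.isPBlock_principalBlock h1 h2 (Finset.filter_subset _ _)
    fun χ hχ => ?_).trans (Nat.pow_le_pow_right hp h2)
  obtain ⟨h3, h4⟩ := Finset.mem_filter.1 hχ
  have h5 : blockHeight p (principalBlock M G) (χ : G → ℂ) = 0 := by
    rw [blockHeight, Nat.factorization_eq_zero_of_not_dvd h4, Nat.zero_sub]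
  exact hs.contr_ne_zero_of_height H8.isPBlock_principalBlock hB (H9.mem_bs.1 h3) (H9.mem_bs.1 h3) h5 h5

end Cfsg.Agent.S4588
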