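import Cfsg.Statements.S4594
import Mathlib
import Cfsg.Agent.G75.Q4
import Cfsg.Agent.GO.Fs
import Cfsg.Agent.GO.ApK
import Cfsg.Agent.S2116

set_option autoImplicit false
open Cfsg

namespace Cfsg.Agent.S4594

open Subgroup Cfsg.Agent.FT Cfsg.Agent.GW Cfsg.Agent.G75
open scoped commutatorElement

variable {G : Type*} [Group G] [Finite G] {S : Subgroup G} {x y z : G}

theorem cen_of_eq (h : QuotientGroup.mk' (center G) x = QuotientGroup.mk' (center G) y) (hx : S ≤ C[x]) :
    S ≤ C[y] := fun s hs => mem_cen1.2 (by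
  obtain ⟨c, rfl⟩ : ∃ c, y = x * c := ⟨x⁻¹ * y, by simp⟩
  have := mem_center_iff.1 (QuotientGroup.eq.1 h) s
  rw [inv_mul_cancel_left] at this
  rw [← mul_assoc, mem_cen1.1 (hx hs), mul_assoc, this, mul_assoc])

theorem nab (hq : IsQuasisimple G) : ¬ IsMulCommutative (G ⧸ center G) := fun e => by
  haveI := hq.1
  haveI := hq.2
  haveI := Group.IsPerfect.ofSurjective (QuotientGroup.mk'_surjective (center G))
  exact Group.IsPerfect.not_isMulCommutative (G ⧸ center G) e

theorem syl_map (hS : Syl 2 S ⊤) : Syl 2 (S.map (QuotientGroup.mk' (center G))) ⊤ :=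
  map_top_of_surjective _ (QuotientGroup.mk'_surjective (center G)) ▸ hS.map _

theorem uu_le (hq : IsQuasisimple G) (h : Q4 S z) : h.UU ≤ C((⊤ : Subgroup G)) := by
  haveI := hq.2
  set f := QuotientGroup.mk' (center G)
  have h0 : h.UU ≤ Z(S) := fun x hx => hx.1
  have hc := h.uu_sc
  generalize h.UU = U at h0 hc
  by_contra e
  have h1 : U.map f ≠ ⊥ := fun k => e fun x hx => mem_cen.2 fun g _ => mem_center_iff.1
    ((QuotientGroup.ker_mk' _).le ((map_eq_bot_iff U).1 k hx)) g
  have h2 : IsStronglyClosed (U.map f) (S.map f) := ⟨map_mono hc.1, by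
    rintro _ ⟨x, hx, rfl⟩ g ⟨s, hs, e⟩
    obtain ⟨g, rfl⟩ := QuotientGroup.mk'_surjective _ g
    rw [← map_inv, ← map_mul, ← map_mul] at e ⊢
    refine mem_map_of_mem f (hc.2 x hx g (h.syl.le_of_norm (piElt_conj.2 (h.syl.pi.piElt (hc.1 hx))).zpowers le_top
      (zpowers_le.2 ?_) (mem_zpowers _)))
    rw [← mul_inv_cancel_left s (g * x * g⁻¹)]
    exact mul_mem (le_nrm S hs) (cen_le_nrm S (mem_cen.2 fun y _ => mem_center_iff.1 (QuotientGroup.eq.1 e) y))⟩
  have hS := syl_map h.syl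
  have h3 := GO.gs_simple GO.fs (nab hq) hS (((ab_center S).mono h0).map _) h2 h1
  obtain ⟨Z, R, hF, h4⟩ := ty_frame (E := ⊤) (h3.imp GO.TB.top (Or.imp GO.TL.top GO.TJ.top)) hS
  obtain ⟨u, u1, u2⟩ := exists_invo ((hS.pi.mono h2.1).dvd h1)
  have h5 : ∀ w ∈ S.map f, Invo w → ∃ x, S ≤ C[x] ∧ f x = w := fun w a b =>
    let ⟨g, _, e⟩ := hF.cl u trivial w trivial u2 b
    let ⟨x, hx, k⟩ := h2.2 u u1 g (e ▸ a)
    ⟨x, le_cen1.2 (h0 hx).2, k.trans e⟩
  obtain ⟨a, ha, b, hb, e1⟩ := h.na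
  by_cases e2 : f z = 1
  · have h6 : Ab (S.map f) := ab_iff_der.2 (by
      rw [← map_commutator, eq_bot_iff]
      exact (map_mono h.der_le).trans (by rw [MonoidHom.map_zpowers, zpowers_le, e2]; exact one_mem _))
    have h7 := (fr_mem hF).1 (h4.elim id (fun k => (le_inf le_top h6.le_cen).trans (k.cenT (GO.as_top (nab hq)) hF))
      (mem_map_of_mem f hb))
    have h8 : S ≤ C[b] := by
      by_cases k : f b = 1
      · exact cen_of_eq (x := 1) ((map_one f).trans k.symm) (le_top.trans cen1_one.ge)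
      obtain ⟨x, h8, h9⟩ := h5 _ h7.1 (invo_of h7.2 k)
      exact cen_of_eq h9 h8
    exact h.hz.ne (by simpa [mem_cen1.1 (h8 ha)] using e1)
  have h6 : Invo (f z) := invo_of (by rw [← map_mul, h.hz.sq, map_one]) e2
  obtain ⟨w, w1, w2⟩ := SetLike.not_le_iff_exists.1 fun k : Z ≤ ⟪f z⟫ => by
    have := (card_le_of_le k).trans_eq h6.card
    have := hF.four
    omega
  have w3 : Invo w := invo_of ((fr_mem hF).1 w1).2 fun k => w2 (k ▸ one_mem _)
  obtain ⟨x, h7, rfl⟩ := h5 w (hF.ZT w1) w3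
  obtain ⟨g, -, e3⟩ := hF.cl _ trivial _ trivial h6 w3
  obtain ⟨g, rfl⟩ := QuotientGroup.mk'_surjective _ g
  rw [← map_inv, ← map_mul, ← map_mul] at e3
  exact w2 (by rw [← e3, h.eq_z (cen_of_eq e3.symm h7) (isC g z)]; exact mem_zpowers _)

theorem dvd_six (hq : IsQuasisimple G) (e : G ⧸ center G ≃* alternatingGroup (Fin 7)) : Nat.card (center G) ∣ 6 := by
  let k : Shrink.{0} G ≃* G := Shrink.mulEquiv
  let σ : Shrink.{0} G →* alternatingGroup (Fin 7) := (e.toMonoidHom.comp (QuotientGroup.mk' _)).comp k.toMonoidHom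
  haveI := hq.1
  haveI := Finite.of_equiv _ k.symm.toEquiv
  haveI := Group.IsPerfect.ofSurjective (f := k.symm.toMonoidHom) k.symm.surjective
  have h1 : σ.ker = (center G).comap k.toMonoidHom := by
    ext x; exact (map_eq_one_iff e e.injective).trans (QuotientGroup.eq_one_iff _)
  obtain ⟨π, h2⟩ := (S2116.result 7 (.inr rfl)).2 _ σ ⟨(e.surjective.comp (QuotientGroup.mk'_surjective _)).comp
    k.surjective, fun x hx => mem_center_iff.2 fun y => k.injective (by
      simpa using mem_center_iff.1 (h1.le hx) (k y)), fun _ _ => Group.IsPerfect.mem_commutator⟩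
  have := card_dvd_of_surjective π h2
  rwa [h1, comap_equiv_eq_map_symm', card_map_of_injective k.symm.injective, Nat.card_congr Multiplicative.toAdd,
    Nat.card_zmod] at this

/-- Let G be a finite quasisimple group with a non-abelian Sylow 2-subgroup P whose centre has index 4 in P. Then P has order 8, and G is isomorphic to the alternating group on 7 letters, or G has centre of order 3 with central quotient isomorphic to the alternating group on 7 letters, or the central quotient of G is isomorphic to PSL(2, F) for some finite field F of odd order. -/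
theorem result {G : Type*} [Group G] [Finite G] (hq : Cfsg.IsQuasisimple G) (P : Sylow 2 G) (hna : ¬ IsMulCommutative (P : Subgroup G)) (hZ : (Subgroup.center (P : Subgroup G)).index = 4) :
    Nat.card (P : Subgroup G) = 8 ∧
      (Nonempty (G ≃* alternatingGroup (Fin 7)) ∨
       (Nat.card (Subgroup.center G) = 3 ∧ Nonempty (G ⧸ Subgroup.center G ≃* alternatingGroup (Fin 7))) ∨
       ∃ (F : Type) (_ : Field F) (_ : Fintype F), Odd (Fintype.card F) ∧ Nonempty (G ⧸ Subgroup.center G ≃* Matrix.ProjectiveSpecialLinearGroup (Fin 2) F)) := by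
  haveI := hq.2
  have hS := syl_top Nat.prime_two P
  obtain ⟨z, h⟩ := q4_of hS hna (by rwa [center_eq_map, relIndex, so_map])
  have hp : ⁅(⊤ : Subgroup G), (⊤ : Subgroup G)⁆ = ⊤ := hq.1.commutator_eq_top
  obtain ⟨h1, h2⟩ := h.main hp (uu_le hq h)
  have h3 : Nat.card (P : Subgroup G) = 8 := by
    rw [← card_mul_relIndex (inf_le_left (b := C((P : Subgroup G)))), h1, h.hz.card, ← h1, center_eq_map, relIndex,
      so_map, hZ]
  refine ⟨h3, ?_⟩
  have h4 : (P : Subgroup G) ⊓ center G ≤ ⟪z⟫ := h1 ▸ inf_le_inf_left _ fun x hx => mem_cen.2 fun y _ =>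
    mem_center_iff.1 hx y
  by_cases e : z ∈ center G
  · obtain ⟨F, _, _, h5, h6⟩ := GO.psl4 (nab hq) (syl_map hS) (by
      have := card_inf_mul_relIndex (center G) (P : Subgroup G)
      rw [FT.card_map_eq, QuotientGroup.ker_mk']
      rw [inf_comm, le_antisymm h4 (zpowers_le.2 ⟨h.zS, e⟩), h.hz.card, h3] at this
      omega)
    exact .inr (.inr ⟨F, _, _, Nat.odd_iff.2 (by omega), h6⟩)
  obtain ⟨y, y1, y2, y3⟩ := h2.resolve_left fun k => e (mem_center_iff.2 fun g => mem_cen.1 k g trivial)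
  obtain ⟨T, hT⟩ := h.dh h1 h3 y1 y2 y3
  have h5 : ∀ x ∈ (P : Subgroup G), x ∈ center G → x = 1 := fun x a b =>
    (h.hz.mem_zpowers.1 (h4 ⟨a, b⟩)).resolve_right fun k => e (k ▸ b)
  rcases gw_iso (GO.nsol_top (nab hq)) ((hT.map _ fun x a b => h5 x a ((QuotientGroup.eq_one_iff x).1 b)).d2.dg
    (syl_map hS)) with k | ⟨⟨k⟩⟩
  · exact .inr (.inr k)
  have h6 : Odd (Nat.card (center G)) := odd_of_no_invo fun u a b => b.ne (h5 u (hS.mem_of_cen trivial b.pElt
    (mem_cen.2 fun y _ => mem_center_iff.1 a y)) a)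
  rcases (Nat.dvd_prime Nat.prime_three).1 ((Nat.coprime_two_right.2 h6).dvd_of_dvd_mul_left (dvd_six hq k)) with
    h7 | h7
  · exact .inl ⟨((QuotientGroup.quotientBot.symm.trans
      (QuotientGroup.quotientMulEquivOfEq (card_eq_one.1 h7).symm))).trans k⟩
  exact .inr (.inl ⟨h7, ⟨k⟩⟩)

end Cfsg.Agent.S4594
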