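import Cfsg.Statements.S4607
import Mathlib
import Cfsg.Agent.H9.SLB

set_option autoImplicit false
open Cfsg

namespace Cfsg.Agent.S4607

/-- Let G be a finite group, p a prime, M a maximal ideal of the algebraic integers containing p, and B a p-block of G with defect group D. Then B contains exactly two irreducible characters if and only if D has order 2. -/
theorem result {G : Type*} [Group G] [Finite G] (p : ℕ) [Fact p.Prime] (M : Ideal Cfsg.AlgInt) (hM : Cfsg.IsPModular p M) (B : Set (Cfsg.IrrCharacter G)) (hB : Cfsg.IsPBlock M B) (D : Subgroup G) (hD : Cfsg.IsDefectGroup p M B D) : Nat.card B = 2 ↔ Nat.card D = 2 := by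
  haveI := hM.2.1
  haveI : H9.PMod M p := ⟨hM⟩
  have hp : p.Prime := Fact.out
  have h1 := H9.blockRank_pos (p := p) hB
  rw [H8.card_defectGroup hM hB hD]
  constructor <;> intro h
  · have h0 : blockDefect p B ≠ 0 := fun h0 => by
      have := H9.card_le_pow_of_le_two (p := p) hB (by omega)
      rw [h0, pow_zero] at this
      omega
    have := H9.blockRank_lt_card hB h0
    rw [← H9.card_eq_pow_of_le_four hB (by omega) (by omega), h]
  · have h0 := ((Nat.Prime.pow_eq_iff Nat.prime_two).1 h).2
    have := H9.blockRank_lt_card (p := p) hB (by omega)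
    have := H9.card_le_pow_of_le_two (p := p) hB (by omega)
    omega

end Cfsg.Agent.S4607
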