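import Cfsg.Statements.S4608
import Mathlib
import Cfsg.Agent.H9.SL5

set_option autoImplicit false
open Cfsg

namespace Cfsg.Agent.S4608

/-- Let G be a finite group, p a prime, M a maximal ideal of the algebraic integers containing p, and B a p-block of G with defect group D. If B has p-regular rank one and exactly five irreducible characters, then D is cyclic of order 5, or D has order 8 and is non-abelian (dihedral or quaternion). -/
theorem result {G : Type*} [Group G] [Finite G] (p : ℕ) [Fact p.Prime] (M : Ideal Cfsg.AlgInt) (hM : Cfsg.IsPModular p M) (B : Set (Cfsg.IrrCharacter G)) (hB : Cfsg.IsPBlock M B) (D : Subgroup G) (hD : Cfsg.IsDefectGroup p M B D)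
    (hl : Cfsg.blockRank p B = 1) (hk : Nat.card B = 5) :
    (Nat.card D = 5) ∨ (Nat.card D = 8 ∧ ¬ IsMulCommutative D) := by
  haveI := hM.2.1
  haveI : H9.PMod M p := ⟨hM⟩
  have hp : p.Prime := Fact.out
  have h1 := H9.card_le_pow_of_rank_one hB hl
  have h2 := H9.pow_defect_le_eight hB hl hk.le
  have h3 := H8.card_defectGroup hM hB hD
  rw [← h3, hk] at h1
  rw [← h3] at h2
  have h4 : IsPrimePow (Nat.card D) := ⟨p, _, hp.prime, Nat.pos_of_ne_zero fun e => by
    rw [e, pow_zero] at h3; omega, h3.symm⟩
  have h6 : Nat.card D ≠ 6 := fun e => by rw [e] at h4; revert h4; decide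
  have h7 : Nat.card D ≠ 7 := fun e => by
    have hc : IsCyclic D := haveI := Fact.mk (by norm_num : Nat.Prime 7); isCyclic_of_prime_card e
    obtain ⟨e', h⟩ := H9.exists_abD hB hD (H9.le_centralizer_of_cyc hc)
    have := (h.frD_of_cyc hc).card_mul
    rw [← h.rank_of_cyc hc ((Subgroup.one_lt_card_iff_ne_bot D).1 (by omega)), hl] at this
    omega
  refine or_iff_not_imp_left.2 fun h5 => ⟨by omega, fun hc => ?_⟩
  have h8 : Nat.card D = 8 := by omega
  obtain rfl : p = 2 := (Nat.prime_dvd_prime_iff_eq hp Nat.prime_two).1 (hp.dvd_of_dvd_pow (n := 3)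
    (by rw [show 2 ^ 3 = Nat.card D from h8.symm, h3]
        exact dvd_pow_self p fun e => by rw [e, pow_zero] at h3; omega))
  obtain ⟨e', h⟩ := H9.exists_abD hB hD (H9.le_centralizer_of_comm hc)
  have := h.odd_of_eight h8
  rw [hk, hl] at this
  revert this; decide

end Cfsg.Agent.S4608
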