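import Cfsg.Statements.S4611
import Mathlib
import Cfsg.Agent.H7.PSB

set_option autoImplicit false
open Cfsg

namespace Cfsg.Agent.S4611

/-- Let G be a finite solvable group and π a nonempty set of primes, each dividing the order of G; fix for each p in π a maximal ideal M p of the algebraic integers containing p. Then the only irreducible character lying in the principal p-block for every p in π is the principal character if and only if G is generated by the subgroups O_{p'}(G), p in π (the largest normal subgroups of order prime to p). -/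
theorem result {G : Type*} [Group G] [Finite G] [Group.IsSolvable G] (π : Set ℕ) (hπ : ∀ p ∈ π, p.Prime ∧ p ∣ Nat.card G) (hne : π.Nonempty) (M : ℕ → Ideal Cfsg.AlgInt) (hM : ∀ p ∈ π, Cfsg.IsPModular p (M p)) :
    (∀ χ : Cfsg.IrrCharacter G, (∀ p ∈ π, χ ∈ Cfsg.principalBlock (M p) G) → (χ : G → ℂ) = fun _ => 1) ↔
      ⨆ p ∈ π, Cfsg.pPrimeCore p G = ⊤ := by
  have e : ∀ χ : IrrCharacter G, (∀ p ∈ π, χ ∈ principalBlock (M p) G) ↔
      ⨆ p ∈ π, pPrimeCore p G ≤ H6.charKer χ.1 := fun χ => by
    rw [iSup₂_le_iff]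
    refine forall₂_congr fun p hp => ?_
    haveI := Fact.mk (hπ p hp).1
    exact H7.mem_principal_iff_of_psolv (hM p hp) (H1.isPSolvable_of_isSolvable (hπ p hp).1 ‹_›) χ
  simp only [e]
  refine ⟨fun h => ?_, fun h χ hχ => H6.irr_eq_one_of_charKer_eq_top χ.2 (top_le_iff.mp (h ▸ hχ))⟩
  haveI : (⨆ p ∈ π, pPrimeCore p G).Normal := by
    have : ∀ p, (pPrimeCore p G).Normal := fun p => by
      haveI := H2.pPrimeCore_characteristic (p := p) (G := G); infer_instance
    exact Subgroup.biSup_normal _ _ fun p _ => this p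
  rw [eq_top_iff]
  exact fun g _ => H6.mem_of_forall_irr_charKer _ fun χ h1 h2 => by
    rw [show χ = fun _ => 1 from h ⟨χ, h1⟩ h2, H6.charKer_one]; trivial

end Cfsg.Agent.S4611
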