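import Cfsg.Statements.S4613
import Mathlib
import Cfsg.Agent.H17.Lie

set_option autoImplicit false
open Cfsg

namespace Cfsg.Agent.S4613

open Cfsg.Agent.H17
open scoped commutatorElement


/-- Let G be a finite simple group of Lie type in characteristic p and α an automorphism of G of order prime to p that fixes some Sylow p-subgroup of G elementwise. Then α is the identity. -/
theorem result {G : Type*} [Group G] [Finite G] [IsSimpleGroup G] (p : ℕ) [Fact p.Prime] (hG : Cfsg.IsLieTypeChar p G) (α : MulAut G) (hα : ¬ p ∣ orderOf α) (U : Sylow p G) (hfix : ∀ x ∈ (U : Subgroup G), α x = x) : α = 1 := by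
  obtain ⟨L, -⟩ := exists_ld hG
  obtain ⟨P, hP⟩ := L.char.exists_sylow L.top
  obtain ⟨g, rfl⟩ := MulAction.exists_smul_eq G P U
  have := aut_eq_one L.char L.gen (α := MulAut.conj (MulAut.conj g)⁻¹ α)
    (by rwa [MulEquiv.orderOf_eq]) fun x hx => by
      have := hfix (MulAut.conj g x) ⟨x, hP.ge hx, rfl⟩
      rw [MulAut.conj_apply, inv_inv, MulAut.mul_apply, MulAut.mul_apply, this]
      exact (MulAut.conj g).symm_apply_apply x
  exact (MulEquiv.map_eq_one_iff _).1 this

end Cfsg.Agent.S4613
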