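import Cfsg.Statements.S4623
import Mathlib
import Cfsg.Agent.H11.Syl2

set_option autoImplicit false
open Cfsg

namespace Cfsg.Agent.S4623

open Subgroup Equiv Equiv.Perm Cfsg.Agent.H11

theorem pc_of_closure {G : Type*} [Group G] {p : ℕ} {S : Subgroup G} {X : Set G} (hX : X ⊆ S)
    (hS : S ≤ closure X) (h : ∀ x ∈ X, x ^ p = 1) (x : S) : x ^ p ∈ commutator S := by
  have key : ∀ x (hx : x ∈ closure X),
      Abelianization.of (⟨x, (closure_le _).mpr hX hx⟩ : S) ^ p = 1 := by
    intro x hx
    induction hx using closure_induction with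
    | mem x hx =>
      rw [← map_pow, show (⟨x, (closure_le _).mpr hX (subset_closure hx)⟩ : S) ^ p = 1 from
        Subtype.ext (h x hx), map_one]
    | one => exact one_pow _
    | mul x y hx hy h1 h2 =>
      have := congrArg₂ (· * ·) h1 h2
      simp only [← mul_pow, ← map_mul, one_mul] at this
      exact this
    | inv x hx h1 =>
      have := congrArg (·⁻¹) h1
      simp only [← inv_pow, ← map_inv, inv_one] at this
      exact this
  have := key x (hS x.2)
  rw [← map_pow] at this
  exact (QuotientGroup.eq_one_iff _).mp this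

theorem pc_equiv {G H : Type*} [Group G] [Group H] {p : ℕ} (h : ∀ x : G, x ^ p ∈ commutator G)
    (e : G ≃* H) (x : H) : x ^ p ∈ commutator H := by
  obtain ⟨x, rfl⟩ := e.surjective x
  rw [← map_pow]
  exact (mem_commutator_equiv e _).mp (h x)

theorem exists_sylow (p : ℕ) [hp : Fact p.Prime] (n : ℕ) : ∀ (α : Type) [Fintype α] [DecidableEq α],
    Fintype.card α = n → ∃ T : Subgroup (Perm α), Nat.card T = p ^ padicValNat p n.factorial ∧
      T ≤ closure {g | g ∈ T ∧ g ^ p = 1 ∧ (sign g = 1 ∨ g.support.card ≤ p)} := by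
  have h2 := hp.out.two_le
  haveI : NeZero p := ⟨by omega⟩
  have ho : orderOf (finRotate p) = p := by
    rw [(isCycle_finRotate_of_le h2).orderOf, support_finRotate_of_le h2]; simp
  induction n using Nat.strong_induction_on with
  | _ n ih =>
    intro α _ _ hα
    rcases Nat.eq_zero_or_pos n with rfl | hn
    · exact ⟨⊥, by simp, bot_le⟩
    obtain ⟨T, hT, hT2⟩ := ih (n / p) (Nat.div_lt_self hn h2) (Fin (n / p)) (by simp)
    obtain ⟨e⟩ : Nonempty (Fin (n / p) × Fin p ↪ α) :=
      Function.Embedding.nonempty_of_card_le (by simp [hα, Nat.div_mul_le_self])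
    have h := (isWr_perm (Fin (n / p)) (Fin p)).comp (Perm.viaEmbeddingHom_injective e)
    refine ⟨wrSub ((Perm.viaEmbeddingHom e).comp (permW _ _))
      ((Perm.viaEmbeddingHom e).comp (permP _ _)) (zpowers (finRotate p)) T, ?_, ?_⟩
    · rw [h.card_wrSub, hT, ← padicValNat_mul_div_factorial n, padicValNat_factorial_mul,
        Nat.card_zpowers, ho]
      simp [pow_add, mul_comm]
    · refine wrSub_le (X := {finRotate p}) (by rw [← zpowers_eq_closure]) hT2 (fun i a ha => ?_)
        fun τ hτ => ?_
      · rw [Set.mem_singleton_iff] at ha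
        subst ha
        refine subset_closure ⟨single_mem_wrSub _ i (mem_zpowers _), ?_, Or.inr ?_⟩
        · have := pow_orderOf_eq_one (finRotate p)
          rw [ho] at this
          rw [← map_pow, ← Pi.mulSingle_pow, this, Pi.mulSingle_one, map_one]
        · refine (Finset.card_le_card (t := Finset.univ.image fun a => e (i, a)) fun x hx => ?_).trans
            (Finset.card_image_le.trans (by simp))
          rw [mem_support, MonoidHom.comp_apply, viaEmbeddingHom_apply] at hx
          by_cases hr : x ∈ Set.range e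
          · obtain ⟨⟨j, a⟩, rfl⟩ := hr
            by_cases hj : j = i
            · exact Finset.mem_image.2 ⟨a, Finset.mem_univ _, by rw [hj]⟩
            · refine absurd ?_ hx
              rw [viaEmbedding_apply]
              change e (j, (Pi.mulSingle i (finRotate p) : _ → Perm (Fin p)) j a) = _
              simp [hj]
          · exact absurd (viaEmbedding_apply_of_notMem _ _ _ hr) hx
      · refine subset_closure ⟨perm_mem_wrSub _ hτ.1, by rw [← map_pow, hτ.2.1, map_one], Or.inl ?_⟩
        have : permP (Fin (n / p)) (Fin p) τ = prodCongrLeft fun _ => τ := (prodCongr_refl_right τ).symm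
        rw [MonoidHom.comp_apply, viaEmbeddingHom_apply, viaEmbedding, sign_extendDomain, this,
          sign_prodCongrLeft]
        simp [← map_pow, hτ.2.1]

theorem sw6 {α : Type} [Fintype α] [DecidableEq α] {s t : Perm α} (hs : s.IsSwap) (ht : t.IsSwap) :
    (s * t) ^ 6 = 1 := by
  obtain ⟨a, b, hab, rfl⟩ := hs
  obtain ⟨c, d, hcd, rfl⟩ := ht
  have k : ∀ a b c : α, a ≠ b → a ≠ c → (swap a b * swap a c) ^ 6 = 1 := fun a b c h1 h2 => by
    by_cases h : b = c
    · simp [h]
    · have := pow_orderOf_eq_one (swap a b * swap a c)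
      rw [(isThreeCycle_swap_mul_swap_same h1 h2 h).orderOf] at this
      rw [show 6 = 3 * 2 from rfl, pow_mul, this, one_pow]
  by_cases h1 : a = c
  · subst h1; exact k _ _ _ hab hcd
  by_cases h2 : a = d
  · subst h2; rw [swap_comm c]; exact k _ _ _ hab h1
  by_cases h3 : b = c
  · subst h3; rw [swap_comm a]; exact k _ _ _ hab.symm hcd
  by_cases h4 : b = d
  · subst h4; rw [swap_comm a, swap_comm c]; exact k _ _ _ hab.symm h3
  have : Commute (swap a b) (swap c d) := by
    apply Equiv.Perm.Disjoint.commute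
    apply Equiv.Perm.disjoint_swap_swap
    simp [*]
  rw [this.mul_pow, show 6 = 2 * 3 from rfl, pow_mul, pow_mul]
  simp [pow_two]

theorem alt_gen {α : Type} [Fintype α] [DecidableEq α] {p : ℕ} [hp : Fact p.Prime]
    {T : Subgroup (Perm α)} (hT : IsPGroup p T)
    (h : T ≤ closure {g | g ∈ T ∧ g ^ p = 1 ∧ (sign g = 1 ∨ g.support.card ≤ p)}) :
    T ⊓ alternatingGroup α ≤ closure {g | g ∈ T ⊓ alternatingGroup α ∧ g ^ p = 1} := by
  set J := closure {g | g ∈ T ⊓ alternatingGroup α ∧ g ^ p = 1}
  by_cases hodd : ∃ t, t ∈ T ∧ t ^ p = 1 ∧ sign t ≠ 1 ∧ t.support.card ≤ p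
  swap
  · refine inf_le_left.trans (h.trans (closure_mono fun g hg => ⟨⟨hg.1, ?_⟩, hg.2.1⟩))
    by_contra hs
    exact hodd ⟨g, hg.1, hg.2.1, hs, hg.2.2.resolve_left hs⟩
  obtain ⟨t, ht, htp, hts, htc⟩ := hodd
  have p2 : p = 2 := by
    refine hp.out.eq_two_or_odd'.resolve_right fun ho => hts ?_
    have := congrArg sign htp
    rw [map_pow, map_one] at this
    rcases Int.units_eq_one_or (sign t) with e | e
    · exact e
    · rw [e, ho.neg_one_pow] at this; exact absurd this (by decide)
  subst p2
  have sw : ∀ s : Perm α, sign s ≠ 1 → s.support.card ≤ 2 → s.IsSwap := fun s h1 h2 => by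
    rw [← card_support_eq_two]
    have := one_lt_card_support_of_ne_one (f := s) (by rintro rfl; exact h1 (map_one _))
    omega
  have tt : t * t = 1 := by rw [← htp, pow_two]
  have ts : sign t = -1 := (Int.units_eq_one_or _).resolve_left hts
  have nK : ∀ g ∈ J, t * g * t ∈ J := fun g hg => by
    have := conj_mem_invSub (S := T ⊓ alternatingGroup α) (g := t) (x := g) (fun y hy =>
      ⟨T.mul_mem (T.mul_mem ht hy.1) (T.inv_mem ht), (alternatingGroup.normal).conj_mem _ hy.2 t⟩) hg
    rwa [inv_eq_of_mul_eq_one_left tt] at this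
  have gen : ∀ x, x ∈ T ∧ x ^ 2 = 1 ∧ (sign x = 1 ∨ x.support.card ≤ 2) → x ∈ J ∨ x * t ∈ J := by
    rintro x ⟨h1, h2, h3⟩
    by_cases hs : sign x = 1
    · exact Or.inl (subset_closure ⟨⟨h1, hs⟩, h2⟩)
    refine Or.inr (subset_closure ⟨⟨mul_mem h1 ht, ?_⟩, ?_⟩)
    · change sign (x * t) = 1
      rw [map_mul, ts, (Int.units_eq_one_or _).resolve_left hs]
      rfl
    · have h6 := sw6 (sw x hs (h3.resolve_left hs)) (sw t hts htc)
      obtain ⟨k, hk⟩ := hT ⟨x * t, mul_mem h1 ht⟩
      have hk' : (x * t) ^ 2 ^ k = 1 := congrArg Subtype.val hk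
      have d1 := orderOf_dvd_of_pow_eq_one h6
      have d2 := orderOf_dvd_of_pow_eq_one hk'
      refine orderOf_dvd_iff_pow_eq_one.1 (Nat.Coprime.dvd_of_dvd_mul_right (m := 2) (n := 3) ?_ d1)
      exact Nat.Coprime.coprime_dvd_left d2 (Nat.Coprime.pow_left _ (by norm_num))
  have all : ∀ g ∈ closure {g | g ∈ T ∧ g ^ 2 = 1 ∧ (sign g = 1 ∨ g.support.card ≤ 2)},
      g ∈ J ∨ g * t ∈ J := by
    intro g hg
    induction hg using closure_induction'' with
    | one => exact Or.inl (one_mem J)
    | mem x hx => exact gen x hx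
    | inv_mem x hx =>
      rw [inv_eq_of_mul_eq_one_left (show x * x = 1 by rw [← hx.2.1, pow_two])]
      exact gen x hx
    | mul a b _ _ ha hb =>
      rcases ha with ha | ha <;> rcases hb with hb | hb
      · exact Or.inl (mul_mem ha hb)
      · exact Or.inr (by rw [mul_assoc]; exact mul_mem ha hb)
      · refine Or.inr ?_
        have : a * b * t = (a * t) * (t * b * t) := by
          calc _ = a * (t * t) * b * t := by rw [tt]; group
            _ = _ := by group
        rw [this]; exact mul_mem ha (nK _ hb)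
      · refine Or.inl ?_
        have : a * b = (a * t) * (t * (b * t) * t) := by
          calc _ = a * (t * t) * b * (t * t) := by rw [tt]; group
            _ = _ := by group
        rw [this]; exact mul_mem ha (nK _ hb)
  intro g hg
  refine (all g (h hg.1)).resolve_right fun hj => ?_
  have : g * t ∈ alternatingGroup α := ((closure_le _).2 fun x hx => hx.1 : J ≤ _) hj |>.2
  rw [mem_alternatingGroup, map_mul, mem_alternatingGroup.1 hg.2, one_mul] at this
  exact hts this

/-- For every prime p and every n, a Sylow p-subgroup P of the symmetric group on n letters has P/P' elementary abelian (the p-th power of every element of P lies in the derived subgroup of P), and the same holds for a Sylow p-subgroup of the alternating group on n letters. -/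
theorem result (p : ℕ) [Fact p.Prime] (n : ℕ) (P : Sylow p (Equiv.Perm (Fin n))) (Q : Sylow p (alternatingGroup (Fin n))) :
    (∀ x : (P : Subgroup (Equiv.Perm (Fin n))), x ^ p ∈ commutator (P : Subgroup (Equiv.Perm (Fin n)))) ∧
    (∀ x : (Q : Subgroup (alternatingGroup (Fin n))), x ^ p ∈ commutator (Q : Subgroup (alternatingGroup (Fin n)))) := by
  obtain ⟨T, hT, h⟩ := exists_sylow p n (Fin n) (by simp)
  let S : Sylow p (Perm (Fin n)) := Sylow.ofCard T (by
    rw [hT, Nat.factorization_def _ Fact.out, Nat.card_perm, Nat.card_fin])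
  refine ⟨pc_equiv (pc_of_closure (fun _ hx => hx.1) h fun _ hx => hx.2.1) (Sylow.equiv S P), ?_⟩
  obtain ⟨P', hP'⟩ := exists_sylow_inf S (alternatingGroup (Fin n))
  refine pc_equiv ?_ (Sylow.equiv P' Q)
  rw [Sylow.coe_ofCard, ← inf_subgroupOf_right] at hP'
  exact pc_equiv (pc_of_closure (fun _ hx => hx.1) (alt_gen (IsPGroup.of_card hT) h) fun _ hx => hx.2)
    ((subgroupOfEquivOfLe inf_le_right).symm.trans (MulEquiv.subgroupCongr hP'.symm))

end Cfsg.Agent.S4623
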