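import Cfsg.Statements.S4630
import Mathlib
import Cfsg.Agent.H11.Syl2O

set_option autoImplicit false
open Cfsg

namespace Cfsg.Agent.S4630

/-- Let F be a finite field of odd order and m ≥ 1 with m even or m ≥ 4. For the commutator subgroup Ω of the isometry group of the plus-type quadratic form Σ_{i<m} x_i y_i in dimension 2m over F, a Sylow 2-subgroup P of Ω has P/P' elementary abelian: the square of every element of P lies in the derived subgroup of P. -/
theorem result {F : Type*} [Field F] [Fintype F] (hF : Odd (Fintype.card F)) (m : ℕ) (hm : 1 ≤ m) (hm' : Even m ∨ 4 ≤ m) (P : Sylow 2 (Cfsg.Omega F (Cfsg.quadFormPlus m F))) : ∀ x : (P : Subgroup (Cfsg.Omega F (Cfsg.quadFormPlus m F))), x ^ 2 ∈ commutator (P : Subgroup (Cfsg.Omega F (Cfsg.quadFormPlus m F))) := by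
  have h2 := H11.two_ne_zero_of_odd_card hF
  obtain ⟨k, rfl⟩ : ∃ k, m = k + 1 := ⟨m - 1, by omega⟩
  have h := H11.isQuad_plus (k + 1) F
  let e := H11.omegaEquiv h
  have := (h.sqComm_even (H11.bPlus_sep _ F) hF (k := k) (by simp; omega) (by
    rcases hm' with ⟨j, hj⟩ | hm'
    · refine .inr ⟨by omega, iff_of_true (H11.wittIdx_plus _ F) ?_⟩
      rw [← H11.isSquare_neg_one_pow_iff h2, hj, pow_add]
      exact ⟨_, rfl⟩
    · exact .inl (by omega))
    (P.mapSurjective (f := e.toMonoidHom) e.surjective))
  exact this.of_equiv (e.subgroupMap P).symm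

end Cfsg.Agent.S4630
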