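import Cfsg.Statements.S4741
import Mathlib
import Cfsg.Agent.H8.Robinson

set_option autoImplicit false
open Cfsg

namespace Cfsg.Agent.S4741

/-- Let p be a prime, M a maximal ideal of the algebraic integers containing p, and D a subgroup of the finite group G. Let x₁, …, x_r be pairwise non-conjugate elements of G such that D is a Sylow p-subgroup of the centralizer of each xᵢ, and such that for any conjugates g of some xᵢ and h of some xⱼ the element g h⁻¹ is never a non-identity p-element. Then there are r distinct p-blocks B₁, …, B_r of G, each having D as a defect group, such that for every choice of characters χᵢ ∈ Bᵢ of height zero the determinant of the r × r matrix (χᵢ(xⱼ)) does not lie in the local ideal at M. -/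
theorem result {G : Type*} [Group G] [Finite G] (p : ℕ) [Fact p.Prime] (M : Ideal Cfsg.AlgInt) (hM : Cfsg.IsPModular p M) (D : Subgroup G) {r : ℕ} (x : Fin r → G) (hx : ∀ i j : Fin r, IsConj (x i) (x j) → i = j) (hD : ∀ i : Fin r, ∃ S : Sylow p ↥(Subgroup.centralizer ({x i} : Set G)), (S : Subgroup ↥(Subgroup.centralizer ({x i} : Set G))).map (Subgroup.centralizer ({x i} : Set G)).subtype = D) (hsep : ∀ i j : Fin r, ∀ g h : G, IsConj (x i) g → IsConj (x j) h → ∀ k : ℕ, 0 < k → orderOf (g * h⁻¹) ≠ p ^ k) : ∃ B : Fin r → Set (Cfsg.IrrCharacter G), Function.Injective B ∧ (∀ i : Fin r, Cfsg.IsPBlock M (B i) ∧ Cfsg.IsDefectGroup p M (B i) D) ∧ ∀ χ : Fin r → Cfsg.IrrCharacter G, (∀ i : Fin r, χ i ∈ B i ∧ Cfsg.blockHeight p (B i) (χ i : G → ℂ) = 0) → ¬ Cfsg.MemLocalIdeal M (Matrix.det (Matrix.of fun i j : Fin r => (χ i : G → ℂ) (x j))) := by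
  classical
  have := hM.2.1
  have := H8.charP_resField hM
  have := Fintype.ofFinite (H8.BlkD M p D)
  obtain ⟨P⟩ : Nonempty (Sylow p G) := inferInstance
  simp only [H8.exists_sylow_map_eq_iff] at hD
  obtain ⟨f, hf, h1⟩ := H8.exists_rows_isUnit (H8.isUnit_coefMat_mul_lamMat hM P x hx hD
    fun i j g h hg hh h1 => by
      obtain ⟨_ | k, hk⟩ := H8.pElt_of_mem P.2 h1
      · exact mul_inv_eq_one.1 (orderOf_eq_one_iff.1 hk)
      · exact absurd hk (hsep j i h g hh hg _ k.succ_pos))
  refine ⟨fun i => (f i).1, Subtype.val_injective.comp hf, fun i => (f i).2, fun χ hχ => ?_⟩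
  have h2 : ∀ i j, (Subgroup.centralizer ({x j} : Set G)).index.factorization p =
      (Cfsg.charDegree (χ i : G → ℂ)).factorization p := fun i j => by
    have h2 := H8.card_defectGroup hM (f i).2.1 (f i).2.2
    rw [H8.sylIn_card_eq_pow (hD j), H8.blockDefect_eq] at h2
    have h3 := (Nat.pow_right_inj (Fact.out : p.Prime).one_lt).1 h2
    have h4 := H8.factorization_card_eq (p := p) (Subgroup.centralizer ({x j} : Set G))
    have h5 := H8.minVal_le_card (p := p) (H8.block_nonempty (f i).2.1)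
    rw [(H8.blockHeight_eq_zero_iff (hχ i).1).1 (hχ i).2]
    beta_reduce
    omega
  let A : Matrix (Fin r) (Fin r) (H8.locRing M) :=
    Matrix.of fun i j => ⟨_, H8.irr_mem_locRing (χ i) (x j)⟩
  have h3 : (Matrix.of fun i j : Fin r => (χ i : G → ℂ) (x j)).det = (A.det : ℂ) :=
    ((H8.locRing M).subtype.map_det A).symm
  rw [h3, ← H8.res_eq_zero_iff, RingHom.map_det]
  intro h4
  have hp : p.Prime := Fact.out
  have h5 : (H8.lamMat M p D x).submatrix f id = Matrix.diagonal
      (fun i => ((ordCompl[p] (Cfsg.charDegree (χ i : G → ℂ)) : ℕ) : H8.resField M)⁻¹) *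
      (H8.res M).mapMatrix A * Matrix.diagonal
      fun j => ((ordCompl[p] (Subgroup.centralizer ({x j} : Set G)).index : ℕ) : H8.resField M) := by
    ext i j
    rw [Matrix.mul_diagonal, Matrix.diagonal_mul]
    have h6 : H8.rd M (ordCompl[p] (Cfsg.charDegree (χ i : G → ℂ)) : ℕ) ≠ 0 := by
      rw [Ne, H8.rd_natCast_eq_zero_iff hM]
      exact Nat.not_dvd_ordCompl hp (H8.charDegree_irr_ne_zero _)
    have h7 : Cfsg.centralChar (χ i : G → ℂ) (x j) =
        (ordCompl[p] (Subgroup.centralizer ({x j} : Set G)).index : ℕ) * (χ i : G → ℂ) (x j) /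
          (ordCompl[p] (Cfsg.charDegree (χ i : G → ℂ)) : ℕ) := by
      rw [Cfsg.centralChar, div_eq_div_iff (H8.irr_one_ne_zero _) (H8.ne_zero_of_rd_ne_zero h6),
        H8.irr_one_eq]
      have h8 := Nat.ordProj_mul_ordCompl_eq_self (Subgroup.centralizer ({x j} : Set G)).index p
      have h9 := Nat.ordProj_mul_ordCompl_eq_self (Cfsg.charDegree (χ i : G → ℂ)) p
      generalize ordCompl[p] (Subgroup.centralizer ({x j} : Set G)).index = a at *
      generalize ordCompl[p] (Cfsg.charDegree (χ i : G → ℂ)) = b at *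
      rw [h2 i j] at h8
      generalize ordProj[p] (Cfsg.charDegree (χ i : G → ℂ)) = c at *
      rw [← h8, ← h9]
      push_cast
      ring
    change H8.rd M (Cfsg.centralChar _ (x j)) = _ * H8.res M ⟨_, _⟩ * _
    rw [(H8.lam_eq_iff _ _).1 (H8.block_lam_eq (f i).2.1 (H8.Blk.rep_mem ⟨_, (f i).2.1⟩) (hχ i).1),
      h7, H8.rd_div (mul_mem (natCast_mem _ _) (H8.irr_mem_locRing _ _)) h6,
      H8.rd_mul (natCast_mem _ _) (H8.irr_mem_locRing _ _), H8.rd_natCast, H8.rd_natCast,
      ← H8.rd_eq_res]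
    ring
  rw [h5, Matrix.isUnit_iff_isUnit_det, Matrix.det_mul, Matrix.det_mul, h4] at h1
  simp at h1

end Cfsg.Agent.S4741
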