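import Cfsg.Statements.S4742
import Mathlib
import Cfsg.Agent.H8.Murray2

set_option autoImplicit false
open Cfsg

namespace Cfsg.Agent.S4742

/-- Let p ≠ q be primes dividing the order of the finite group G, and suppose the centralizer of every non-identity p-element of G has order prime to q. Then either G has an irreducible character of p-defect zero, or for every non-identity q-element z of G there are conjugates g, h of z such that g h⁻¹ is a non-identity p-element. -/
theorem result {G : Type*} [Group G] [Finite G] (p q : ℕ) [Fact p.Prime] [Fact q.Prime] (hppq : p ≠ q) (hpG : p ∣ Nat.card G) (hqG : q ∣ Nat.card G) (hC : ∀ g : G, g ≠ 1 → (∃ k : ℕ, orderOf g = p ^ k) → ¬ q ∣ Nat.card ↥(Subgroup.centralizer ({g} : Set G))) : (∃ χ : Cfsg.IrrCharacter G, (Cfsg.charDegree (χ : G → ℂ)).factorization p = (Nat.card G).factorization p) ∨ ∀ z : G, z ≠ 1 → (∃ k : ℕ, orderOf z = q ^ k) → ∃ g h : G, IsConj z g ∧ IsConj z h ∧ g * h⁻¹ ≠ 1 ∧ ∃ k : ℕ, orderOf (g * h⁻¹) = p ^ k := by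
  open H8 FT in
  refine or_iff_not_imp_left.2 fun h z hz ⟨k, hk⟩ => ?_
  have h0 := dz_eq_empty h
  have h1 := noPQ_of_cent hC
  have hp : p.Prime := Fact.out
  obtain ⟨g, hg, e⟩ := exists_orderOf_eq h0 (h1.symm.not_dvd hp
    (PiElt.dvd_orderOf (p := q) (show PiNat _ _ from hk ▸ piNat_self_pow Fact.out k) hz))
  have e' : orderOf (z * g⁻¹) = p := by rw [← e, ← orderOf_conj z (g⁻¹ * z)]; simp [mul_assoc]
  exact ⟨z, g, IsConj.refl z, hg, fun e1 => hp.one_lt.ne' (by rw [← e', e1, orderOf_one]), 1,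
    by rw [e', pow_one]⟩

end Cfsg.Agent.S4742
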