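import Cfsg.Statements.S4745
import Mathlib
import Cfsg.Agent.H8.Murray2
import Cfsg.Agent.H4.Small

set_option autoImplicit false
open Cfsg

namespace Cfsg.Agent.S4745

open H8 FT MulAction

section
variable {G Ω : Type*} [Group G] [Finite G] [MulAction G Ω] [FaithfulSMul G Ω] [Fintype Ω]
  {p : ℕ} [hp : Fact p.Prime]

structure Hyp (G Ω : Type*) [Group G] [Finite G] [MulAction G Ω] [Fintype Ω] (p : ℕ) : Prop where
  tr : IsPretransitive G Ω
  h1 : NoPQ G p 2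
  h0 : dz p G = ∅
  card : PiNat {p} (Nat.card Ω)
  odd : Odd (Nat.card Ω)
  ab : ∀ P : Subgroup G, Syl p P ⊤ → Ab P

variable (h : Hyp G Ω p)
include h

omit hp [FaithfulSMul G Ω] in
theorem Hyp.mulEq {P : Subgroup G} (hP : Syl p P ⊤) (α : Ω) : MulEq P (stabilizer G α) ⊤ :=
  hP.mulEq_of_relIndex le_top (by
    have := h.tr
    rw [Subgroup.relIndex_top_right, index_stabilizer_of_transitive]; exact h.card)

omit hp [FaithfulSMul G Ω] in
theorem Hyp.trans {P : Subgroup G} (hP : Syl p P ⊤) (α β : Ω) : ∃ x ∈ P, x • α = β := by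
  obtain ⟨g, rfl⟩ := h.tr.exists_smul_eq α β
  obtain ⟨x, hx, y, hy, rfl⟩ := (h.mulEq hP α).mul g trivial
  exact ⟨x, hx, by rw [mul_smul, mem_stabilizer_iff.1 hy]⟩

omit hp in
theorem Hyp.eq_one {x : G} (hx : PiElt {p} x) {α : Ω} (e : x • α = α) : x = 1 := by
  obtain ⟨P, hP, hxP⟩ := hx.zpowers.exists_syl le_top
  refine FaithfulSMul.eq_of_smul_eq_smul (α := Ω) fun β => ?_
  obtain ⟨y, hy, rfl⟩ := h.trans hP α β
  rw [one_smul, ← mul_smul, (h.ab P hP).comm (hxP (Subgroup.mem_zpowers x)) hy, mul_smul, e]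

theorem Hyp.fix {s : G} (hs : s * s = 1) (h1 : s ≠ 1) : ∃! α : Ω, s • α = α := by
  have := Fact.mk Nat.prime_two
  obtain ⟨α, hα⟩ := ((pGrp_of_card_prime Nat.prime_two ((card_zpowers' s).trans
    (two_dvd_orderOf hs h1))).isPGroup).nonempty_fixed_point_of_prime_not_dvd_card Ω h.odd.not_two_dvd_nat
  have hα : s • α = α := hα ⟨s, Subgroup.mem_zpowers s⟩
  refine ⟨α, hα, fun β hβ => ?_⟩
  obtain ⟨P, hP, -, hn⟩ := h.h1.exists_syl hs h1 h.h0
  obtain ⟨x, hx, rfl⟩ := h.trans hP α β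
  have e := h.h1.inverts hs h1 hP.pi hn hx
  have h2 : x * x = 1 := h.eq_one (hP.pi.piElt (mul_mem hx hx)) (α := α) (by
    rw [mul_smul, ← hβ, ← mul_smul s, mul_inv_eq_iff_eq_mul.1 e, mul_smul, hα, smul_inv_smul])
  by_contra h3
  have h4 : x ≠ 1 := fun e => h3 (by rw [e, one_smul])
  exact h.h1 x x (((Nat.dvd_prime Nat.prime_two).1 (two_dvd_orderOf h2 h4 ▸ PiElt.dvd_orderOf
    (hP.pi.piElt hx) h4)).resolve_left hp.out.one_lt.ne' ▸ two_dvd_orderOf h2 h4)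
    (two_dvd_orderOf h2 h4) rfl

theorem Hyp.key {w s : G} (hw : w * w = 1) (hw1 : w ≠ 1) (hs : s * s = 1) (hs1 : s ≠ 1) {α γ : Ω}
    (hα : (w * s) • α = α) (hγ : w • γ = γ) : s • γ = γ := by
  by_contra hne
  have hw' := inv_eq_of_mul_eq_one_right hw
  obtain ⟨g, hg⟩ : ∃ g, g = w * s := ⟨_, rfl⟩
  have hg1 : g • γ ≠ γ := fun e => hne (by rwa [hg, mul_smul, smul_eq_iff_eq_inv_smul, hw', hγ] at e)
  have hi : w * g * w⁻¹ = g⁻¹ := by
    rw [hg, ← mul_assoc, hw, one_mul, mul_inv_rev, inv_eq_of_mul_eq_one_right hs]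
  have hn := mem_nrm_cen1_of_inverts hi
  have hw2 := pGrp_of_card_prime Nat.prime_two ((card_zpowers' w).trans (two_dvd_orderOf hw hw1))
  have ho : Odd #C[g] := Nat.not_even_iff_odd.1 fun e => by
    obtain ⟨T, hT, h2, -⟩ := hw2.exists_syl_norms (Subgroup.zpowers_le.2 hn)
    have h3 := hw2.meet_cen hT.pi h2 (hT.syl_ne_bot ⟨Nat.prime_two, e.two_dvd⟩)
    obtain ⟨z, hz, e⟩ := exists_elt_of_prime_dvd Nat.prime_two ((hT.pi.inf_left _).dvd h3)
    obtain ⟨δ, -, hδ⟩ := h.fix (s := z) (by rw [← sq, ← e, pow_orderOf_eq_one]) fun e1 => by simp [e1] at e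
    have h4 : z • γ = γ := (h.fix hw hw1).unique (by
      rw [← mul_smul, hz.2 w (Subgroup.mem_zpowers w), mul_smul, hγ]) hγ
    exact hg1 ((hδ _ (show z • g • γ = _ by
      rw [← mul_smul, mem_cen1.1 (hT.le hz.1), mul_smul, h4])).trans (hδ _ h4).symm)
  have := Fact.mk Nat.prime_two
  have hc := h.h1.symm.not_dvd hp.out (two_dvd_orderOf hw hw1).symm.dvd
  have hd : p ∣ #C[g] := by
    letI := MulAction.compHom G (MulAut.conj.comp (C[g]).subtype)
    refine (dvd_card_pairs h.h0 hc hc g).trans (Dvd.dvd.trans (dvd_of_eq ?_)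
      (stabilizer C[g] w).index_dvd_card)
    rw [index_stabilizer]
    congr 1
    ext a
    have sq : ∀ a, IsConj w a → a * a = 1 := fun a ha => by
      obtain ⟨c, rfl⟩ := isConj_iff.1 ha
      rw [conj_mul, hw]; simp
    constructor
    · rintro ⟨h1, h2⟩
      have h3 : w * a ∈ C[g] := by
        have h4 := sq _ h2
        rw [inv_eq_of_mul_eq_one_right (sq a h1), ← mul_assoc] at h4
        have h6 : g * (w * a) = w * g⁻¹ * a := by rw [← hi]; simp [← mul_assoc, hw, hw']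
        rw [mem_cen1, h6, ← eq_inv_of_mul_eq_one_left h4, mul_assoc _ a, mul_assoc _ _ a, mul_assoc _ a,
          sq a h1, mul_one]
      obtain ⟨k, hk⟩ := H20.exists_zpow_conj_of_odd hw (sq a h1) (ho.of_dvd_nat (orderOf_dvd_card' h3))
      exact ⟨⟨_, pow_mem h3 k⟩, hk⟩
    · rintro ⟨⟨c, hc⟩, rfl⟩
      refine ⟨isConj_iff.2 ⟨c, rfl⟩, (h.h1.isConj hs hs1 h.h0 hw hw1).trans (isConj_iff.2 ⟨c, ?_⟩)⟩
      change _ = (c * w * c⁻¹)⁻¹ * g
      rw [conj_inv, mul_assoc _ c⁻¹, mem_cen1.1 (inv_mem hc), hg]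
      simp [mul_assoc]
  obtain ⟨R, hR, hnR⟩ := exists_syl_of_odd (p := p) hw hw1 ho hn
  obtain ⟨y, hy, hy1⟩ := exists_ne_one (hR.syl_ne_bot ⟨hp.out, hd⟩)
  have hyo := h.h1.odd (PiElt.dvd_orderOf (hR.pi.piElt hy) hy1)
  have hny := mem_nrm_cen1_of_inverts (h.h1.inverts hw hw1 hR.pi hnR hy)
  obtain ⟨P, hP, hyP⟩ := (hR.pi.piElt hy).zpowers.exists_syl le_top
  have hO : O[{p}ᶜ](C[y]) = ⊥ := le_bot_iff.1 fun x hx =>
    FaithfulSMul.eq_of_smul_eq_smul (α := Ω) fun β => by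
      have h2 := (h.mulEq hP β).inf_left ((h.ab P hP).le_cen1 (hyP (Subgroup.mem_zpowers y)))
      rw [inf_top_eq] at h2
      rw [one_smul]
      exact ((h2.hall_right hP.pi (PiGrp.inf_right (piGrp_iff_forall.2 fun z hz => constt_eq_one_iff.1
        (h.eq_one (piElt_constt _ z) (α := β) (constt_mem _ hz))) _)).pcore_le hx).2
  have hgy : g ∈ C[y] := cen1_comm.1 (hR.le hy)
  have h5 := solvable_p_constrained (P := O[{p}](C[y])) hp.out (odd_order_solvable hyo)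
    (by rw [ppCore_eq_pcore hp.out hO]; exact hall_self (pcore_pi _ _))
  rw [ppCore_eq_pcore hp.out hO] at h5
  have h6 := fun v hv => h.h1.inverts hw hw1 (pcore_pi {p} C[y]) (nrm_le_nrm_pcore _ _ hny) (y := v) hv
  have h7 : g * g = 1 := h.eq_one ((pcore_pi _ _).piElt (h5 ⟨mul_mem hgy hgy, mem_cen.2 fun v hv => by
    have h8 := h6 _ (conj_mem (pcore_nrm _ _ hgy) (inv_mem hv))
    rw [← conj_mul, ← conj_mul, hi, h6 _ (inv_mem hv), ← conj_inv, hi] at h8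
    simp only [inv_inv, mul_inv_rev] at h8
    rw [mul_assoc, inv_mul_eq_iff_eq_mul] at h8
    rw [← mul_assoc, h8]
    simp [mul_assoc]⟩)) (α := α) (by rw [mul_smul, hg, hα, hα])
  exact ho.not_two_dvd_nat (two_dvd_orderOf h7 (fun e => hg1 (by rw [e, one_smul])) ▸
    orderOf_dvd_card' (self_mem_cen1 g))

theorem Hyp.normal {t : G} (ht : t * t = 1) (h1 : t ≠ 1) {P : Subgroup G} (hP : Syl p P ⊤)
    (hn : t ∈ N(P)) : P.Normal := by
  have hi := fun x hx => mul_inv_eq_iff_eq_mul.1 (h.h1.inverts ht h1 hP.pi hn (y := x) hx)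
  have h2 : ∀ x ∈ P, ∀ y ∈ P, t * x * (t * y) = x⁻¹ * y := fun x hx y hy => by
    rw [hi x hx, mul_assoc, ← mul_assoc t, ht, one_mul]
  have h3 : ∀ x ∈ P, t * x ≠ 1 := fun x hx e => by
    have h4 : t ∈ P := eq_inv_of_mul_eq_one_left e ▸ inv_mem hx
    exact h.h1 t t (((Nat.dvd_prime Nat.prime_two).1 (two_dvd_orderOf ht h1 ▸ PiElt.dvd_orderOf
      (hP.pi.piElt h4) h1)).resolve_left hp.out.one_lt.ne' ▸ two_dvd_orderOf ht h1)
      (two_dvd_orderOf ht h1) rfl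
  have h4 : ∀ α β : Ω, ∃ x ∈ P, (t * x) • α = β := fun α β => by
    obtain ⟨x, hx, e⟩ := h.trans hP α (t • β)
    exact ⟨x, hx, by rw [mul_smul, e, ← mul_smul, ht, one_smul]⟩
  have h5 : ∀ w : G, w * w = 1 → w ≠ 1 → ∃ x ∈ P, w = t * x := fun w hw hw1 => by
    obtain ⟨γ, hγ, -⟩ := h.fix hw hw1
    obtain ⟨x, hx, e⟩ := h4 γ γ
    refine ⟨x, hx, FaithfulSMul.eq_of_smul_eq_smul (α := Ω) fun α => ?_⟩
    obtain ⟨y, hy, e'⟩ := h4 α (w • α)
    have h6 := h.key hw hw1 (by rw [h2 y hy y hy, inv_mul_cancel]) (h3 y hy) (α := α)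
      (by rw [mul_smul, e', ← mul_smul, hw, one_smul]) hγ
    rw [inv_mul_eq_one.1 (h.eq_one (hP.pi.piElt (mul_mem (inv_mem hx) hy)) (α := γ)
      (by rw [← h2 x hx y hy, mul_smul, h6, e])), e']
  refine ⟨fun x hx g => ?_⟩
  obtain ⟨a, ha, e1⟩ := h5 (g * t * g⁻¹) (by rw [conj_mul, ht]; simp) (conj_ne_one.2 h1)
  obtain ⟨b, hb, e2⟩ := h5 (g * (t * x) * g⁻¹) (by rw [conj_mul, h2 x hx x hx]; simp)
    (conj_ne_one.2 (h3 x hx))
  have := mul_mem (inv_mem ha) hb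
  rwa [← h2 a ha b hb, ← e1, ← e2, conj_mul, ← mul_assoc t, ht, one_mul] at this

end

/-- Let p be an odd prime and G a finite group of even order divisible by p in which the centralizer of every non-identity p-element has odd order, and suppose G acts faithfully and transitively on a set with p ^ r elements, r ≥ 1. Then either G has an irreducible character of p-defect zero, or G is p-solvable and has an irreducible character of 2-defect zero. -/
theorem result {G Ω : Type*} [Group G] [Finite G] [MulAction G Ω] [FaithfulSMul G Ω] [Fintype Ω] (htr : MulAction.IsPretransitive G Ω) (p : ℕ) [Fact p.Prime] (hp2 : p ≠ 2) (hpG : p ∣ Nat.card G) (h2G : 2 ∣ Nat.card G) (hC : ∀ g : G, g ≠ 1 → (∃ k : ℕ, orderOf g = p ^ k) → Odd (Nat.card ↥(Subgroup.centralizer ({g} : Set G)))) (r : ℕ) (hr : 1 ≤ r) (hΩ : Fintype.card Ω = p ^ r) : (∃ χ : Cfsg.IrrCharacter G, (Cfsg.charDegree (χ : G → ℂ)).factorization p = (Nat.card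 G).factorization p) ∨ (Cfsg.IsPSolvable p G ∧ ∃ χ : Cfsg.IrrCharacter G, (Cfsg.charDegree (χ : G → ℂ)).factorization 2 = (Nat.card G).factorization 2) := by
  refine or_iff_not_imp_left.2 fun h => ?_
  have hp : p.Prime := Fact.out
  have := Fact.mk Nat.prime_two
  have h0 := dz_eq_empty h
  have h1 := noPQ_of_odd hC
  obtain ⟨t, ht⟩ := exists_prime_orderOf_dvd_card' 2 h2G
  have h2 : t * t = 1 := by rw [← sq, ← ht, pow_orderOf_eq_one]
  have h3 : t ≠ 1 := fun e => by simp [e] at ht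
  rw [← Nat.card_eq_fintype_card] at hΩ
  have H : Hyp G Ω p := ⟨htr, h1, h0, hΩ ▸ piNat_self_pow hp r, hΩ ▸ (hp.odd_of_ne_two hp2).pow,
    fun P => h1.ab h2 h3 h0⟩
  obtain ⟨P, hP, hP1, hn⟩ := h1.exists_syl h2 h3 h0
  have := H.normal h2 h3 hP hn
  refine ⟨H1.isPSolvable_of_normal_of_quotient hp P (H4.isPSolvable_of_isPGroup hP.pi.isPGroup)
    (H4.isPSolvable_of_coprime ((p'nat_iff_coprime hp).1 ?_)), Set.nonempty_iff_ne_empty.2
    ((h1.dz_or (N := P) (Or.inl ⟨hP.pi.dvd hP1, hP.pi.not_dvd' Nat.prime_two hp2.symm⟩)).resolve_left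
      (not_not.2 h0))⟩
  have := hP.idx
  rwa [Subgroup.relIndex_top_right] at this

end Cfsg.Agent.S4745
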