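import Cfsg.Statements.S4746
import Mathlib
import Cfsg.Agent.H8.Murray2

set_option autoImplicit false
open Cfsg

namespace Cfsg.Agent.S4746

/-- Let p be an odd prime and G a finite group of even order divisible by p in which the centralizer of every non-identity p-element has odd order. Then G has an irreducible character of p-defect zero or an irreducible character of even degree. -/
theorem result {G : Type*} [Group G] [Finite G] (p : ℕ) [Fact p.Prime] (hp2 : p ≠ 2) (hpG : p ∣ Nat.card G) (h2G : 2 ∣ Nat.card G) (hC : ∀ g : G, g ≠ 1 → (∃ k : ℕ, orderOf g = p ^ k) → Odd (Nat.card ↥(Subgroup.centralizer ({g} : Set G)))) : (∃ χ : Cfsg.IrrCharacter G, (Cfsg.charDegree (χ : G → ℂ)).factorization p = (Nat.card G).factorization p) ∨ ∃ χ : Cfsg.IrrCharacter G, Even (Cfsg.charDegree (χ : G → ℂ)) := by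
  open H8 FT in
  refine or_iff_not_imp_left.2 fun h => ?_
  have h0 := dz_eq_empty h
  have h1 := noPQ_of_odd hC
  obtain ⟨t, ht⟩ := exists_prime_orderOf_dvd_card' 2 h2G
  have h2 : t * t = 1 := by rw [← sq, ← ht, pow_orderOf_eq_one]
  have h3 : t ≠ 1 := fun e => by simp [e] at ht
  obtain ⟨P, hP, hP1, hn⟩ := h1.exists_syl h2 h3 h0
  obtain ⟨u, hu, hu1⟩ := exists_ne_one hP1
  exact exists_even_degree hu1 (isConj_iff.2 ⟨t, h1.inverts h2 h3 hP.pi hn hu⟩)
    (h1.odd (PiElt.dvd_orderOf (hP.pi.piElt hu) hu1))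

end Cfsg.Agent.S4746
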