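import Cfsg.Statements.S4754
import Mathlib
import Cfsg.Agent.H7.Small

set_option autoImplicit false
open Cfsg

namespace Cfsg.Agent.S4754

open Cfsg.Agent.H7

/-- For elements x, y of a finite group G, the conjugacy class of x y equals the set of all products of a conjugate of x with a conjugate of y if and only if χ(1) χ(a x a⁻¹ b y b⁻¹) = χ(x) χ(y) for all a, b ∈ G and every irreducible character χ. -/
theorem result {G : Type*} [Group G] [Finite G] (x y : G) : (∀ z : G, IsConj (x * y) z ↔ ∃ a b : G, z = a * x * a⁻¹ * (b * y * b⁻¹)) ↔ ∀ (a b : G) (χ : Cfsg.IrrCharacter G), (χ : G → ℂ) 1 * (χ : G → ℂ) (a * x * a⁻¹ * (b * y * b⁻¹)) = (χ : G → ℂ) x * (χ : G → ℂ) y := by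
  have := Fintype.ofFinite G
  refine ⟨fun h a b χ => ?_, fun h z => ⟨fun h' => ?_, ?_⟩⟩
  · have h1 := H6.sum_irr_conj_mul χ.2 x y
    have h2 : ∀ a b, (χ : G → ℂ) (a * x * a⁻¹ * (b * y * b⁻¹)) = (χ : G → ℂ) (x * y) :=
      fun a b => (cf_isConj (irr_cf χ.2) ((h _).mpr ⟨a, b, rfl⟩)).symm
    rw [Finset.sum_congr rfl (g := fun _ => (χ : G → ℂ) (x * y)) fun a _ => by
      simpa using h2 a 1, Finset.sum_const, Finset.card_univ, ← Nat.card_eq_fintype_card,
      nsmul_eq_mul, eq_div_iff (irr_one_ne_zero χ.2), mul_assoc, mul_assoc,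
      mul_right_inj' (card_ne_zero' G)] at h1
    rw [h2, ← h1, mul_comm]
  · obtain ⟨c, rfl⟩ := isConj_iff.mp h'
    exact ⟨c, c, by group⟩
  · rintro ⟨a, b, rfl⟩
    refine (H6.isConj_iff_forall_irr _ _).mpr fun χ hχ =>
      mul_left_cancel₀ (irr_one_ne_zero hχ) ?_
    simpa using (h 1 1 ⟨χ, hχ⟩).trans (h a b ⟨χ, hχ⟩).symm

end Cfsg.Agent.S4754
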