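import Cfsg.Statements.S4755
import Mathlib
import Cfsg.Agent.H7.Cod

set_option autoImplicit false
open Cfsg

namespace Cfsg.Agent.S4755

open Cfsg Cfsg.Agent.H7

/-- Let x, y be non-identity elements of the finite group G such that χ(x' y') = χ(x') χ(y') for all conjugates x' of x, y' of y and every irreducible character χ. Then the conjugacy class of x y is the set of all products of a conjugate of x with a conjugate of y; every irreducible character of degree greater than 1 vanishes at x y; and the conjugacy class of x y is the coset of the commutator subgroup containing x y. -/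
theorem result {G : Type*} [Group G] [Finite G] (x y : G) (hx : x ≠ 1) (hy : y ≠ 1) (h : ∀ (a b : G) (χ : Cfsg.IrrCharacter G), (χ : G → ℂ) (a * x * a⁻¹ * (b * y * b⁻¹)) = (χ : G → ℂ) (a * x * a⁻¹) * (χ : G → ℂ) (b * y * b⁻¹)) : (∀ z : G, IsConj (x * y) z ↔ ∃ a b : G, z = a * x * a⁻¹ * (b * y * b⁻¹)) ∧ (∀ χ : Cfsg.IrrCharacter G, (χ : G → ℂ) 1 ≠ 1 → (χ : G → ℂ) (x * y) = 0) ∧ (∀ z : G, IsConj (x * y) z ↔ (x * y)⁻¹ * z ∈ commutator G) := by
  have h1 : ∀ (a b : G) χ, IsIrrCharacter G χ → χ (a * x * a⁻¹ * (b * y * b⁻¹)) = χ x * χ y :=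
    fun a b χ hχ => (h a b ⟨χ, hχ⟩).trans (congrArg₂ _ (irr_cf hχ _ _) (irr_cf hχ _ _))
  have h2 : ∀ χ, IsIrrCharacter G χ → χ (x * y) = χ x * χ y := fun χ hχ => by
    simpa using h1 1 1 χ hχ
  have h3 : ∀ χ, IsIrrCharacter G χ → χ 1 ≠ 1 → χ (x * y) = 0 := fun χ hχ e => by
    letI := Fintype.ofFinite G
    have h3 := H6.sum_irr_conj_mul hχ x y
    rw [Finset.sum_congr rfl fun a _ => (by simpa using h1 a 1 χ hχ :
      χ (a * x * a⁻¹ * y) = χ x * χ y), Finset.sum_const, Finset.card_univ, nsmul_eq_mul,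
      ← Nat.card_eq_fintype_card, eq_div_iff (irr_one_ne_zero hχ), mul_assoc, mul_assoc _ (χ x),
      mul_right_inj' (card_ne_zero' G), ← h2 χ hχ] at h3
    by_contra h4
    exact e (mul_left_cancel₀ h4 (h3.trans (mul_one _).symm))
  refine ⟨fun z => ⟨fun e => ?_, ?_⟩, fun χ => h3 χ χ.2,
    fun z => ⟨inv_mul_mem_commutator_of_isConj, fun e => isConj_of_agree fun χ hχ => ?_⟩⟩
  · obtain ⟨c, rfl⟩ := isConj_iff.mp e
    exact ⟨c, c, by group⟩
  · rintro ⟨a, b, rfl⟩
    exact isConj_of_agree fun χ hχ => Or.inr (by rw [h1 a b χ hχ, h2 χ hχ])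
  · by_cases h4 : χ 1 = 1
    · exact Or.inr (by simpa only [mul_inv_cancel_left] using apply_mul_of_lin hχ h4 (x * y) e)
    · exact Or.inl (h3 χ hχ h4)

end Cfsg.Agent.S4755
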