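import Cfsg.Statements.S4756
import Mathlib
import Cfsg.Agent.H16.SemiReg
import Cfsg.Agent.H6.Except
import Cfsg.Agent.H7.Gag
import Cfsg.Agent.H1.Coprime
import Cfsg.Agent.H8.CharBase

set_option autoImplicit false
open Cfsg

namespace Cfsg.Agent.S4756

open scoped ComplexConjugate commutatorElement
open Subgroup

section
variable {G : Type*} [Group G] [Finite G]

theorem isConj_of_vanish {z w : G}
    (h : ∀ χ : IrrCharacter G, (χ : G → ℂ) 1 ≠ 1 → (χ : G → ℂ) z = 0)
    (hw : w * z⁻¹ ∈ commutator G) : IsConj z w := by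
  classical
  haveI : Finite (IrrCharacter G) := H8.finite_irr
  letI := Fintype.ofFinite (IrrCharacter G)
  by_contra hc
  have h1 := H6.sum_irr_mul_conj_of_not_isConj hc
  rw [Finset.sum_congr rfl
    (g := fun χ : IrrCharacter G => if (χ : G → ℂ) 1 = 1 then (1 : ℂ) else 0) fun χ _ => by
    split_ifs with e
    · have := H6.apply_mul_of_mem_charKer
        ((H6.degree_eq_one_iff_commutator_le χ.2).1 e hw) z
      rw [inv_mul_cancel_right] at this
      rw [this, H7.linear_mul_conj (H8.irr_isChar χ) e]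
    · rw [h χ e, zero_mul], Finset.sum_boole, Nat.cast_eq_zero, Finset.card_eq_zero,
    Finset.filter_eq_empty_iff] at h1
  exact h1 (Finset.mem_univ ⟨_, H8.isIrr_one⟩) rfl

/-- the multiplicativity condition -/
def Mu (G : Type*) [Group G] : Prop :=
  ∀ (x y : G) (χ : Cfsg.IrrCharacter G), x ≠ 1 → y ≠ 1 → (∃ p q a b : ℕ, p.Prime ∧ q.Prime ∧ p ≠ q ∧
    orderOf x = p ^ a ∧ orderOf y = q ^ b) → (χ : G → ℂ) (x * y) = (χ : G → ℂ) x * (χ : G → ℂ) y

theorem Mu.vanish (h : Mu G) {x y : G} (hx : x ≠ 1) (hy : y ≠ 1) {p q a b : ℕ} (hp : p.Prime)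
    (hq : q.Prime) (hpq : p ≠ q) (ha : orderOf x = p ^ a) (hb : orderOf y = q ^ b)
    (χ : IrrCharacter G) (h1 : (χ : G → ℂ) 1 ≠ 1) : (χ : G → ℂ) (x * y) = 0 := by
  letI := Fintype.ofFinite G
  have e := H7.sum_conj_of_irr_res (MonoidHom.id G) (H8.irr_isChar χ) χ.2 x y
  simp only [MonoidHom.id_apply] at e
  rw [Finset.sum_congr rfl (g := fun _ => (χ : G → ℂ) x * (χ : G → ℂ) y) fun g _ => by
    rw [h _ y χ (by simpa using hx) hy ⟨p, q, a, b, hp, hq, hpq, by
      rw [← ha]; exact (MulAut.conj g).orderOf_eq x, hb⟩, H8.irr_conj], Finset.sum_const,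
    Finset.card_univ, ← Nat.card_eq_fintype_card, nsmul_eq_mul] at e
  rw [h x y χ hx hy ⟨p, q, a, b, hp, hq, hpq, ha, hb⟩]
  have : ((χ : G → ℂ) 1 - 1) * (Nat.card G * ((χ : G → ℂ) x * (χ : G → ℂ) y)) = 0 := by
    linear_combination e
  exact (mul_eq_zero.1 ((mul_eq_zero.1 this).resolve_left (sub_ne_zero.2 h1))).resolve_left
    (H7.card_ne_zero' G)

theorem Mu.not_comm (h : Mu G) {x y : G} {p q : ℕ} (hp : p.Prime) (hq : q.Prime) (hpq : p ≠ q)
    (ha : orderOf x = p) (hb : orderOf y = q) (hx : x ∈ commutator G) :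
    y ∉ commutator G ∧ x * y ≠ y * x := by
  have hx1 : x ≠ 1 := by rintro rfl; exact hp.one_lt.ne (by simpa using ha)
  have hy1 : y ≠ 1 := by rintro rfl; exact hq.one_lt.ne (by simpa using hb)
  have hv := h.vanish hx1 hy1 hp hq hpq (ha.trans (pow_one p).symm) (hb.trans (pow_one q).symm)
  constructor
  · intro hy
    have := isConj_of_vanish (w := 1) hv (by simpa using mul_mem (inv_mem hy) (inv_mem hx))
    rw [isConj_one_left, mul_eq_one_iff_eq_inv] at this
    exact hpq (by rw [← ha, ← hb, this, orderOf_inv])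
  · intro hc
    have := isConj_of_vanish (w := y) hv (by simpa using inv_mem hx)
    obtain ⟨g, hg⟩ := isConj_iff.1 this
    have e : orderOf (x * y) = q := by
      rw [← hb]
      conv_rhs => rw [← hg]
      exact ((MulAut.conj g).orderOf_eq _).symm
    rw [(show Commute x y from hc).orderOf_mul_eq_mul_orderOf_of_coprime
      (by rw [ha, hb]; exact (Nat.coprime_primes hp hq).2 hpq), ha, hb] at e
    exact hp.one_lt.ne' (Nat.eq_of_mul_eq_mul_right hq.pos (by rw [e, one_mul]))

theorem exists_prime_pow {a : G} (ha : a ≠ 1) : ∃ k : ℕ, (orderOf (a ^ k)).Prime := by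
  have h1 : orderOf a ≠ 1 := by simpa using ha
  refine ⟨orderOf a / (orderOf a).minFac, ?_⟩
  rw [orderOf_pow_orderOf_div (orderOf_pos a).ne' (Nat.minFac_dvd _)]
  exact Nat.minFac_prime h1

theorem conj_of_fpf {D : Subgroup G} [hD : D.Normal] {h d : G}
    (hf : ∀ k ∈ D, k * h = h * k → k = 1) (hd : d ∈ D) : IsConj h (h * d) := by
  let f : D → D := fun e => ⟨h⁻¹ * e * h * (e : G)⁻¹,
    mul_mem (by simpa using hD.conj_mem _ e.2 h⁻¹) (inv_mem e.2)⟩
  have hi : Function.Injective f := fun a b e => by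
    have e1 : h⁻¹ * a * h * (a : G)⁻¹ = h⁻¹ * b * h * (b : G)⁻¹ := congrArg Subtype.val e
    have := hf ((b : G)⁻¹ * a) (mul_mem (inv_mem b.2) a.2) (by
      calc (b : G)⁻¹ * a * h = (b : G)⁻¹ * h * (h⁻¹ * a * h * (a : G)⁻¹) * a := by group
        _ = _ := by rw [e1]; group)
    exact Subtype.ext (inv_mul_eq_one.1 this).symm
  obtain ⟨e, he⟩ := Finite.surjective_of_injective hi ⟨d, hd⟩
  have e1 : h⁻¹ * e * h * (e : G)⁻¹ = d := congrArg Subtype.val he
  exact isConj_iff.2 ⟨e, by rw [← e1]; group⟩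

end

/-- For a finite group G the following are equivalent. (1) χ(x y) = χ(x) χ(y) for every irreducible character χ and all non-identity elements x, y of prime power orders for two different primes. (2) G is a p-group for some prime p, or G is abelian, or for some prime p: G = A P with P a normal Sylow p-subgroup and A a nontrivial cyclic subgroup of order prime to p such that, with C = C_P(A) and D = [A, P], one has P = C D, C abelian, D normal in G, C ∩ D = 1, and A acts fixed-point-freely on D (no non-identity element of A centralizes a non-identity element of D). -/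
theorem result {G : Type*} [Group G] [Finite G] : (∀ (x y : G) (χ : Cfsg.IrrCharacter G), x ≠ 1 → y ≠ 1 → (∃ p q a b : ℕ, p.Prime ∧ q.Prime ∧ p ≠ q ∧ orderOf x = p ^ a ∧ orderOf y = q ^ b) → (χ : G → ℂ) (x * y) = (χ : G → ℂ) x * (χ : G → ℂ) y) ↔ ((∃ p : ℕ, p.Prime ∧ IsPGroup p G) ∨ IsMulCommutative G ∨ ∃ (p : ℕ) (_ : Fact p.Prime) (P : Sylow p G) (A : Subgroup G), (P : Subgroup G).Normal ∧ IsCyclic ↥A ∧ A ≠ ⊥ ∧ (Nat.card ↥A).Coprime p ∧ A ⊔ (P : Subgroup G) = ⊤ ∧ IsMulCommutative ↥((P : Subgroup G) ⊓ Subgroup.centralizer (A : Set G)) ∧ (⁅A, (P : Subgroup G)⁆).Normal ∧ ((P : Subgroup G) ⊓ Subgroup.centralizer (A : Set G)) ⊔ ⁅A, (P : Subgroup G)⁆ = (P : Subgroup G) ∧ ((P : Subgroup G) ⊓ Subgroup.centralizer (A : Set G)) ⊓ ⁅A, (P : Subgroup G)⁆ = ⊥ ∧ ∀ a ∈ A, a ≠ 1 → ∀ d ∈ ⁅A, (P : Subgroup G)⁆, a * d = d * a → d = 1) := by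
  constructor
  · intro h
    change Mu G at h
    by_cases hab : commutator G = ⊥
    · refine Or.inr (Or.inl ⟨⟨fun a b => ?_⟩⟩)
      rw [← commutatorElement_eq_one_iff_mul_comm, ← mem_bot, ← hab]
      exact commutator_mem_commutator (mem_top a) (mem_top b)
    set p := (Nat.card (commutator G)).minFac with hpd
    have hp : p.Prime := Nat.minFac_prime (fun e => hab (card_eq_one.1 e))
    haveI : Fact p.Prime := ⟨hp⟩
    obtain ⟨x, hx⟩ := exists_prime_orderOf_dvd_card' (G := commutator G) p (Nat.minFac_dvd _)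
    have hpg : IsPGroup p (commutator G) := by
      refine IsPGroup.of_card (Nat.eq_prime_pow_of_unique_prime_dvd Nat.card_pos.ne' ?_)
      intro q hq hd
      haveI : Fact q.Prime := ⟨hq⟩
      by_contra hne
      obtain ⟨y, hy⟩ := exists_prime_orderOf_dvd_card' (G := commutator G) q hd
      exact (h.not_comm hp hq (Ne.symm hne) ((orderOf_coe x).trans hx) ((orderOf_coe y).trans hy)
        x.2).1 y.2
    obtain ⟨P, hP⟩ := hpg.exists_le_sylow
    haveI hPn : (P : Subgroup G).Normal := Normal.of_commutator_le _ hP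
    obtain ⟨A, hA⟩ := exists_right_complement'_of_coprime (N := (P : Subgroup G))
      P.card_coprime_index
    have hAc : Nat.card A = (P : Subgroup G).index := hA.symm.index_eq_card.symm
    have hAp : (Nat.card A).Coprime p := by
      rw [hAc]; exact ((hp.coprime_iff_not_dvd).2 P.not_dvd_index).symm
    by_cases hA1 : A = ⊥
    · refine Or.inl ⟨p, hp, ?_⟩
      have := hA.sup_eq_top
      rw [hA1, sup_bot_eq] at this
      exact (this ▸ P.isPGroup').of_surjective (⊤ : Subgroup G).subtype fun g => ⟨⟨g, trivial⟩, rfl⟩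
    have hreg : H28.SemiReg (commutator G) A := by
      intro a ha ha1 k hk e
      by_contra hk1
      obtain ⟨i, hi⟩ := exists_prime_pow ha1
      obtain ⟨j, hj⟩ := exists_prime_pow hk1
      refine (h.not_comm hj hi (fun e' => ?_) rfl rfl (pow_mem hk j)).2
        ((show Commute a k from e).symm.pow_pow j i)
      obtain ⟨m, hm⟩ := hpg.exists_card_eq
      have h1 : orderOf (k ^ j) ∣ p ^ m := hm ▸ Subgroup.orderOf_dvd_natCard _ (pow_mem hk j)
      have h2 : orderOf (k ^ j) ∣ Nat.card A := e' ▸ Subgroup.orderOf_dvd_natCard _ (pow_mem ha i)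
      exact hj.one_lt.ne' (Nat.eq_one_of_dvd_coprimes (hAp.pow_right m) h2 h1)
    have hcm : ∀ H : Subgroup G, H ⊓ commutator G = ⊥ → IsMulCommutative H := fun H hH =>
      ⟨⟨fun a b => Subtype.ext (by
        change (a : G) * b = b * a
        rw [← commutatorElement_eq_one_iff_mul_comm, ← mem_bot, ← hH]
        exact mem_inf.2 ⟨mul_mem (mul_mem (mul_mem a.2 b.2) (inv_mem a.2)) (inv_mem b.2),
          commutator_mem_commutator (mem_top _) (mem_top _)⟩)⟩⟩
    haveI : IsMulCommutative A := hcm A (eq_bot_iff.2 ((inf_le_inf_left A hP).trans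
      hA.symm.disjoint.le_bot))
    obtain ⟨a₀, ha₀, ha₀1⟩ := (bot_or_exists_ne_one A).resolve_left hA1
    have hC : ((P : Subgroup G) ⊓ centralizer (A : Set G)) ⊓ commutator G = ⊥ :=
      eq_bot_iff.2 fun k hk => hreg a₀ ha₀ ha₀1 k hk.2 (hk.1.2 a₀ ha₀)
    have hD : ⁅A, (P : Subgroup G)⁆ ≤ commutator G := commutator_mono le_top le_top
    refine Or.inr (Or.inr ⟨p, inferInstance, P, A, hPn,
      H16.semiReg_isCyclic_of_comm hab le_normalizer_of_normal hreg, hA1, hAp,
      hA.symm.sup_eq_top, hcm _ hC, ?_, ?_, eq_bot_iff.2 ((inf_le_inf_left _ hD).trans hC.le),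
      fun a ha h1 d hd => hreg a ha h1 d (hD hd)⟩)
    · rw [← normalizer_eq_top_iff, eq_top_iff, ← hA.symm.sup_eq_top]
      exact sup_le (normalizer_commutator_ge_left _ _) (normalizer_commutator_ge_right _ _)
    · rw [sup_comm, Subgroup.commutator_comm]
      haveI := P.isPGroup'.isNilpotent
      exact H1.commutator_sup_centralizer A P le_normalizer_of_normal
        (hAc ▸ P.card_coprime_index.symm) (Or.inr inferInstance)
  · rintro h x y χ hx hy ⟨p₁, q₁, a, b, hp₁, hq₁, hpq, ha, hb⟩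
    by_cases h1 : (χ : G → ℂ) 1 = 1
    · exact H7.linear_map_mul (H8.irr_isChar χ) h1 x y
    have hpr : ∀ {p r : ℕ} {S : Subgroup G} {z : G} {c : ℕ}, p.Prime → r.Prime → IsPGroup p S →
        z ∈ S → z ≠ 1 → orderOf z = r ^ c → r = p := fun {p r S z c} hp hr hS hz hz1 hc => by
      haveI : Fact p.Prime := ⟨hp⟩
      obtain ⟨m, hm⟩ := hS.exists_card_eq
      have h2 : r ^ c ∣ p ^ m := hc ▸ hm ▸ Subgroup.orderOf_dvd_natCard _ hz
      have h3 : c ≠ 0 := by rintro rfl; exact hz1 (by simpa using hc)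
      exact (Nat.prime_dvd_prime_iff_eq hr hp).1 (hr.dvd_of_dvd_pow ((dvd_pow_self r h3).trans h2))
    rcases h with ⟨p, hp, hG⟩ | h | ⟨p, hp, P, A, hPn, hAc, -, hAp, hAP, hC, hDn, hCD, -, hf⟩
    · exact absurd ((hpr hp hp₁ (hG.to_subgroup ⊤) (mem_top x) hx ha).trans
        (hpr hp hq₁ (hG.to_subgroup ⊤) (mem_top y) hy hb).symm) hpq
    · exact absurd (H7.irr_one_eq_one_of_comm h.1.1 χ.2) h1
    set C := (P : Subgroup G) ⊓ centralizer (A : Set G) with hCd
    set D := ⁅A, (P : Subgroup G)⁆ with hDd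
    have hdec : ∀ w : G, ∃ a ∈ A, ∃ c ∈ C, ∃ d ∈ D, w = a * c * d := fun w => by
      have : w ∈ A ⊔ (P : Subgroup G) := hAP ▸ mem_top w
      rw [← SetLike.mem_coe, mul_normal] at this
      obtain ⟨a, ha, u, hu, rfl⟩ := this
      rw [← hCD, mul_normal] at hu
      obtain ⟨c, hc, d, hd, rfl⟩ := hu
      exact ⟨a, ha, c, hc, d, hd, (mul_assoc _ _ _).symm⟩
    have hA : ∀ a ∈ A, ∀ a' ∈ A, a * a' = a' * a := fun a ha a' ha' =>
      congrArg Subtype.val (mul_comm' (⟨a, ha⟩ : A) ⟨a', ha'⟩)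
    have hC' : ∀ a ∈ C, ∀ a' ∈ C, a * a' = a' * a := fun a ha a' ha' =>
      congrArg Subtype.val (mul_comm' (⟨a, ha⟩ : C) ⟨a', ha'⟩)
    have hGD : commutator G ≤ D := by
      refine commutator_le.2 fun u _ v _ => ?_
      obtain ⟨a, ha, c, hc, d, hd, rfl⟩ := hdec u
      obtain ⟨a', ha', c', hc', d', hd', rfl⟩ := hdec v
      rw [← QuotientGroup.eq_one_iff]
      change QuotientGroup.mk' D _ = 1
      have e1 : QuotientGroup.mk' D d = 1 := (QuotientGroup.eq_one_iff d).2 hd
      have e2 : QuotientGroup.mk' D d' = 1 := (QuotientGroup.eq_one_iff d').2 hd'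
      rw [map_commutatorElement, map_mul _ _ d, map_mul _ _ d', e1, e2, mul_one, mul_one,
        ← map_commutatorElement, commutatorElement_eq_one_iff_commute.2, map_one]
      exact ((show Commute a a' from hA a ha a' ha').mul_right
        (show Commute a c' from hc'.2 a ha)).mul_left
        ((show Commute a' c from hc.2 a' ha').symm.mul_right (show Commute c c' from hC' c hc c' hc'))
    have hker : ¬ D ≤ H6.charKer (χ : G → ℂ) := fun e =>
      h1 ((H6.degree_eq_one_iff_commutator_le χ.2).2 (hGD.trans e))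
    have hv : ∀ w : G, w ∉ (P : Subgroup G) → (χ : G → ℂ) w = 0 := fun w hw => by
      obtain ⟨a, ha, c, hc, d, hd, rfl⟩ := hdec w
      have ha1 : a ≠ 1 := by
        rintro rfl
        exact hw (mul_mem (mul_mem (one_mem _) hc.1) ((le_sup_right.trans hCD.le) hd))
      have hfp : ∀ k ∈ D, k * (a * c) = a * c * k → k = 1 := fun k hk e => by
        obtain ⟨m, hm⟩ := P.isPGroup'.exists_card_eq
        have e1 : (a * c) ^ p ^ m = a ^ p ^ m := by
          rw [(show Commute a c from hc.2 a ha).mul_pow, ← hm,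
            orderOf_dvd_iff_pow_eq_one.1 (Subgroup.orderOf_dvd_natCard _ hc.1), mul_one]
        refine hf _ (pow_mem ha (p ^ m)) (fun e2 => ha1 ?_) k hk ?_
        · exact orderOf_eq_one_iff.1 (Nat.eq_one_of_dvd_coprimes (hAp.pow_right m)
            (Subgroup.orderOf_dvd_natCard _ ha) (orderOf_dvd_of_pow_eq_one e2))
        · rw [← e1]
          exact ((show Commute k (a * c) from e).pow_right _).symm
      rw [← H8.irr_isConj χ (conj_of_fpf hfp hd)]
      exact H6.irr_eq_zero_of_fpf D χ.2 hker hfp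
    have hxy : x ∉ (P : Subgroup G) ∨ y ∉ (P : Subgroup G) := by
      by_contra! e
      exact hpq ((hpr hp.out hp₁ P.isPGroup' e.1 hx ha).trans
        (hpr hp.out hq₁ P.isPGroup' e.2 hy hb).symm)
    have hz : x * y ∉ (P : Subgroup G) := fun e => by
      have e1 : (x : G ⧸ (P : Subgroup G)) = (y : G ⧸ (P : Subgroup G))⁻¹ := by
        rw [← mul_eq_one_iff_eq_inv, ← QuotientGroup.mk_mul, QuotientGroup.eq_one_iff]
        exact e
      have h2 : orderOf (x : G ⧸ (P : Subgroup G)) ∣ p₁ ^ a :=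
        ha ▸ orderOf_map_dvd (QuotientGroup.mk' _) x
      have h3 : orderOf (x : G ⧸ (P : Subgroup G)) ∣ q₁ ^ b := by
        rw [e1, orderOf_inv]
        exact hb ▸ orderOf_map_dvd (QuotientGroup.mk' _) y
      have h4 := orderOf_eq_one_iff.1 (Nat.eq_one_of_dvd_coprimes
        (Nat.coprime_pow_primes a b hp₁ hq₁ hpq) h2 h3)
      have h5 := (QuotientGroup.eq_one_iff x).1 h4
      rcases hxy with e' | e'
      · exact e' h5
      · exact e' ((Subgroup.mul_mem_cancel_left _ h5).1 e)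
    rw [hv _ hz]
    rcases hxy with e | e <;> simp [hv _ e]

end Cfsg.Agent.S4756
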