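import Cfsg.Statements.S4757
import Mathlib
import Cfsg.Agent.H7.Cod
import Cfsg.Agent.H3.Omega

set_option autoImplicit false
open Cfsg

namespace Cfsg.Agent.S4757

open Cfsg Cfsg.Agent.H7
open scoped ComplexConjugate

/-- Let u ≠ 1 be an element of the finite group G and c a complex number such that every non-principal irreducible character χ satisfies χ(1) − χ(u) = c or χ(u) = 0. Then the following are equivalent: (a) u has order 2, G is generated by u together with O(G), the largest normal subgroup of G of odd order, and the centralizer of u is {1, u}; (b) G is not perfect; (c) c = 2. -/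
theorem result {G : Type*} [Group G] [Finite G] (u : G) (hu : u ≠ 1) (c : ℂ) (hyp : ∀ χ : Cfsg.IrrCharacter G, (χ : G → ℂ) ≠ (fun _ => (1 : ℂ)) → ((χ : G → ℂ) 1 - (χ : G → ℂ) u = c ∨ (χ : G → ℂ) u = 0)) : ((orderOf u = 2 ∧ Subgroup.zpowers u ⊔ Cfsg.oddCore G = ⊤ ∧ Subgroup.centralizer ({u} : Set G) = Subgroup.zpowers u) ↔ commutator G ≠ ⊤) ∧ (commutator G ≠ ⊤ ↔ c = 2) := by
  classical
  have hyp' : ∀ χ ∈ (irrSet G).erase 1, χ u ≠ 0 → χ 1 - χ u = c := fun χ hχ h => by
    rw [Finset.mem_erase, mem_irrSet] at hχ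
    exact (hyp ⟨χ, hχ.2⟩ hχ.1).resolve_right h
  have h1 := sum_irr_mul_conj_of_not (G := G) (g := 1) (h := u) (by simpa using hu.symm)
  have h2 := sum_irr_mul_conj_self u
  rw [← Finset.add_sum_erase _ _ one_mem_irrSet] at h1 h2
  simp only [Pi.one_apply, map_one, mul_one] at h1 h2
  set n := Nat.card (Subgroup.centralizer ({u} : Set G)) with hn
  have h3 : c * ∑ χ ∈ (irrSet G).erase 1, conj (χ u) = -n := by
    rw [← h2, Finset.mul_sum, Finset.sum_congr rfl (g := fun χ => χ 1 * conj (χ u) -
      χ u * conj (χ u)) fun χ hχ => by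
        by_cases e : χ u = 0
        · simp [e]
        · rw [← hyp' χ hχ e]; ring, Finset.sum_sub_distrib]
    linear_combination h1
  have hn0 : 0 < n := Nat.card_pos
  have h4 : c ≠ 0 := by
    rintro rfl
    simp [hn0.ne'] at h3
  have h5 : ∀ lam : G →* ℂˣ, lam ≠ 1 → 1 - (lam u : ℂ) = c := fun lam h =>
    by simpa [linFun_apply] using hyp' (linFun lam) (Finset.mem_erase.mpr ⟨fun e =>
      h (linFun_injective (e.trans (map_one _).symm)), mem_irrSet.mpr (irr_linFun lam)⟩) (lam u).ne_zero
  have h6 : commutator G ≠ ⊤ → ∃ lam : G →* ℂˣ, lam ≠ 1 := fun h => by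
    haveI : Finite (G →* ℂˣ) := Nat.finite_of_card_ne_zero
      (H6.card_linear G ▸ Subgroup.index_ne_zero_of_finite)
    haveI : Nontrivial (G →* ℂˣ) := Finite.one_lt_card_iff_nontrivial.mp
      (H6.card_linear G ▸ Subgroup.one_lt_index_of_ne_top h)
    exact exists_ne 1
  have h7 : commutator G ≠ ⊤ → c = 2 := fun h => by
    obtain ⟨lam, hl⟩ := h6 h
    have h7 := h5 lam hl
    have h8 : (lam u : ℂ) ^ 2 = 1 := by
      have := (h5 lam⁻¹ (fun e => hl (MonoidHom.ext fun g =>
        inv_eq_one.mp (DFunLike.congr_fun e g)))).trans h7.symm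
      simp only [MonoidHom.inv_apply, Units.val_inv_eq_inv_val, sub_right_inj] at this
      rw [sq]; nth_rw 1 [← this]; exact inv_mul_cancel₀ (lam u).ne_zero
    rcases sq_eq_one_iff.mp h8 with e | e
    · exact absurd (by rw [← h7, e, sub_self]) h4
    · rw [← h7, e]; norm_num
  have h8 : c = 2 → ∀ χ ∈ (irrSet G).erase 1, χ 1 ≠ 1 → 0 ≤ (conj (χ u)).re := by
    rintro rfl χ hχ h
    by_cases e : χ u = 0
    · simp [e]
    have h8 := hyp' χ hχ e
    obtain ⟨d, h9, hd⟩ := irr_one_pos (mem_irrSet.mp (Finset.mem_of_mem_erase hχ))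
    have : 2 ≤ d := by
      by_contra h10
      exact h (by rw [hd, show d = 1 by omega, Nat.cast_one])
    rw [show χ u = d - 2 by linear_combination hd - h8]
    simpa using this
  have h9 : c = 2 → commutator G ≠ ⊤ := fun h e => by
    have h9 := Finset.sum_nonneg fun χ hχ => h8 h χ hχ fun e' => by
      rw [Finset.mem_erase, mem_irrSet] at hχ
      exact hχ.1 (H6.irr_eq_one_of_charKer_eq_top hχ.2
        (eq_top_iff.mpr (e ▸ (H6.degree_eq_one_iff_commutator_le hχ.2).mp e')))
    replace h3 := congrArg Complex.re h3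
    rw [h, ← Complex.re_sum] at *
    simp only [Complex.mul_re, Complex.re_ofNat, Complex.im_ofNat, zero_mul, sub_zero,
      Complex.neg_re, Complex.natCast_re] at h3
    have : (0 : ℝ) < n := by exact_mod_cast hn0
    linarith
  refine ⟨⟨fun ⟨h10, h11, _⟩ e => ?_, fun h => ?_⟩, h7, h9⟩
  · haveI := H2.pPrimeCore_characteristic (G := G) (p := 2)
    have h12 := H3.commutator_le_of_le_sup_zpowers (T := oddCore G) (H := ⊤) (y := u)
      (by rw [Subgroup.normalizer_eq_top]; trivial) (by rw [sup_comm, h11])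
    have h13 := H2.odd_card_oddCore (G := G)
    rw [eq_top_iff.mpr (e.ge.trans h12), Subgroup.card_top] at h13
    exact absurd (h13.of_dvd_nat (h10 ▸ orderOf_dvd_natCard u)) (by decide)
  · obtain ⟨lam, hl⟩ := h6 h
    have hc := h7 h
    have h10 : ∀ μ : G →* ℂˣ, μ ≠ 1 → (μ u : ℂ) = -1 := fun μ hμ => by
      linear_combination -(h5 μ hμ).trans hc
    have h11 : ∀ μ : G →* ℂˣ, μ ≠ 1 → μ = lam := fun μ hμ => by
      by_contra e
      have := h10 (μ * lam⁻¹) fun e' => e (mul_inv_eq_one.mp e')
      simp only [MonoidHom.mul_apply, MonoidHom.inv_apply, Units.val_mul, Units.val_inv_eq_inv_val,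
        h10 μ hμ, h10 lam hl] at this
      norm_num at this
    have h12 : (commutator G).index = 2 := by
      rw [← H6.card_linear, Nat.card_eq_two_iff' 1]
      exact ⟨lam, hl, h11⟩
    have h13 : linFun lam ∈ (irrSet G).erase 1 := Finset.mem_erase.mpr ⟨fun e =>
      hl (linFun_injective (e.trans (map_one _).symm)), mem_irrSet.mpr (irr_linFun lam)⟩
    have h14 := Finset.sum_nonneg (s := ((irrSet G).erase 1).erase (linFun lam)) fun χ hχ =>
      h8 hc χ (Finset.mem_of_mem_erase hχ) fun e => by
        simp only [Finset.mem_erase, mem_irrSet] at hχ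
        obtain ⟨μ, rfl⟩ := exists_linFun (irr_char hχ.2.2) e
        exact hχ.1 (by rw [h11 μ fun e => hχ.2.1 (by rw [e, map_one])])
    rw [hc, ← Finset.add_sum_erase _ _ h13, linFun_apply, h10 lam hl] at h3
    replace h3 := congrArg Complex.re h3
    rw [← Complex.re_sum] at h14
    simp only [Complex.mul_re, Complex.re_ofNat, Complex.im_ofNat, zero_mul, sub_zero,
      Complex.neg_re, Complex.natCast_re, Complex.add_re, map_neg, map_one, Complex.one_re] at h3
    have h15 : n ≤ 2 := by
      have : (n : ℝ) ≤ 2 := by linarith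
      exact_mod_cast this
    have h16 : Subgroup.zpowers u ≤ Subgroup.centralizer {u} :=
      Subgroup.zpowers_le.mpr (Subgroup.mem_centralizer_singleton_iff.mpr rfl)
    have h17 := Subgroup.card_le_of_le h16
    have h18 : orderOf u ≠ 1 := by simpa using hu
    have h19 := orderOf_pos u
    rw [Nat.card_zpowers] at h17
    have h20 : orderOf u = 2 := by omega
    have h21 := (Subgroup.eq_of_le_of_card_ge h16 (by rw [Nat.card_zpowers]; omega)).symm
    refine ⟨h20, ?_, h21⟩
    haveI := Fact.mk Nat.prime_two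
    have h22 : IsPGroup 2 (Subgroup.zpowers u) := IsPGroup.of_card (n := 1) (by simp [h20])
    obtain ⟨P, hP⟩ := h22.exists_le_sylow
    haveI : Nontrivial P := ⟨⟨⟨u, hP (Subgroup.mem_zpowers u)⟩, 1, by simpa using hu⟩⟩
    haveI := P.isPGroup'.center_nontrivial
    obtain ⟨⟨z, hz⟩, h23⟩ := exists_ne (1 : Subgroup.center P)
    have h24 : (z : G) = u := by
      have h24 : (z : G) ∈ Subgroup.zpowers u := h21 ▸ Subgroup.mem_centralizer_singleton_iff.mpr
        (congrArg Subtype.val (Subgroup.mem_center_iff.mp hz ⟨u, hP (Subgroup.mem_zpowers u)⟩)).symm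
      rw [mem_zpowers_iff_mem_range_orderOf, h20] at h24
      simp only [Finset.mem_image, Finset.mem_range] at h24
      obtain ⟨k, hk, e⟩ := h24
      interval_cases k
      · exact absurd (Subtype.ext (Subtype.ext (by simpa using e.symm))) h23
      · simpa using e.symm
    have h25 : (P : Subgroup G) = Subgroup.zpowers u := le_antisymm (fun x hx => h21 ▸
      Subgroup.mem_centralizer_singleton_iff.mpr (h24 ▸ congrArg Subtype.val
        (Subgroup.mem_center_iff.mp hz ⟨x, hx⟩))) hP
    have h26 : Nat.card (commutator G) = (P : Subgroup G).index := by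
      have e1 := (commutator G).card_mul_index
      have e2 := (P : Subgroup G).card_mul_index
      rw [h25, Nat.card_zpowers, h20, ← h25] at e2
      rw [h12] at e1
      omega
    have h27 : commutator G ≤ oddCore G := H2.le_pPrimeCore
      (h26 ▸ ((Nat.Prime.coprime_iff_not_dvd Nat.prime_two).mpr P.not_dvd_index).symm)
    have h28 := Subgroup.index_dvd_of_le (h27.trans (le_sup_right (a := Subgroup.zpowers u)))
    have h29 := Subgroup.index_dvd_of_le (h25.le.trans (le_sup_left (b := oddCore G)))
    rw [h12, Nat.dvd_prime Nat.prime_two] at h28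
    exact Subgroup.index_eq_one.mp (h28.resolve_right fun e => P.not_dvd_index (by rwa [e] at h29))

end Cfsg.Agent.S4757
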