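import Cfsg.Statements.S4774
import Mathlib
import Cfsg.Agent.L0.PSL2
import Cfsg.Agent.H8.CharBase
-- import your own Cfsg.Agent.* helpers here

set_option autoImplicit false
open Cfsg

namespace Cfsg.Agent.S4774

open Cfsg.Agent.L0 Cfsg.Agent.H6

/-- Let F be a finite field of odd characteristic t with q > 5 elements and let S be isomorphic to PSL(2,F) or to SL(2,F). Then the vertices of the character degree graph of S are the primes dividing q(q²−1); the prime t is adjacent to no vertex; two distinct primes dividing q² − 1 are adjacent exactly when one of them is 2, or both divide q + 1, or both divide q − 1. -/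
theorem result (F : Type*) [Field F] [Fintype F] (t : ℕ) [Fact t.Prime] [CharP F t] (ht : t ≠ 2) (q : ℕ) (hq : Fintype.card F = q) (h5 : 5 < q) {S : Type*} [Group S] [Finite S] (hS : Nonempty (S ≃* Matrix.ProjectiveSpecialLinearGroup (Fin 2) F) ∨ Nonempty (S ≃* Matrix.SpecialLinearGroup (Fin 2) F)) : Cfsg.degreePrimes S = {r : ℕ | r.Prime ∧ r ∣ q * (q ^ 2 - 1)} ∧ ∀ r s : ℕ, (Cfsg.degreeGraph S).Adj r s ↔ (r ≠ s ∧ r.Prime ∧ s.Prime ∧ r ∣ q ^ 2 - 1 ∧ s ∣ q ^ 2 - 1 ∧ (r = 2 ∨ s = 2 ∨ (r ∣ q + 1 ∧ s ∣ q + 1) ∨ (r ∣ q - 1 ∧ s ∣ q - 1))) := by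
  subst hq
  have ht' : t.Prime := Fact.out
  have h2 := two_ne_zero_of_charP (F := F) t ht
  have hodd := Nat.odd_iff.1 (odd_card_of_two_ne_zero h2)
  obtain ⟨n, -, hn⟩ := FiniteField.card F t
  obtain ⟨f, hf, hker⟩ : ∃ f : S2 F →* S, Function.Surjective f ∧ ∀ g ∈ f.ker, g = 1 ∨ g = -1 := by
    rcases hS with ⟨⟨e⟩⟩ | ⟨⟨e⟩⟩
    · refine ⟨e.symm.toMonoidHom.comp pj, e.symm.surjective.comp pj_surjective, fun g hg => ?_⟩
      exact pj_eq_one_iff.1 (by simpa using hg)
    · exact ⟨e.symm.toMonoidHom, e.symm.surjective, fun g hg => Or.inl (by simpa using hg)⟩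
  have hin : ∀ {χ : S2 F → ℂ} {m : ℕ}, IsIrrCharacter (S2 F) χ → χ (-1) = χ 1 → χ 1 = m →
      m ∈ charDegrees S := by
    intro χ m hχ h1 hm
    obtain ⟨ψ, hψ, h⟩ := exists_irr_comp_eq f hf hχ (fun g hg => by
      rw [mem_charKer_iff_irr hχ]
      rcases hker g hg with rfl | rfl
      · rfl
      · exact h1)
    refine ⟨⟨ψ, hψ⟩, ?_⟩
    have h3 : ψ 1 = m := by rw [← hm, h]; simp
    exact_mod_cast (H8.irr_one_eq (⟨ψ, hψ⟩ : IrrCharacter S)).symm.trans h3
  have hout : ∀ m ∈ charDegrees S, m ∣ Fintype.card F ∨ m ∣ Fintype.card F + 1 ∨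
      m ∣ Fintype.card F - 1 := by
    rintro _ ⟨χ, rfl⟩
    rcases irr_s2_cases' (QExt F) (isIrr_comp_of_surjective f hf χ.2)
      (n := charDegree (χ : S → ℂ)) (by simp only [map_one]; exact H8.irr_one_eq χ) with
      h | h | h | h | h | h <;> rw [h.1]
    · exact Or.inl (one_dvd _)
    · exact Or.inl dvd_rfl
    · exact Or.inr (Or.inl dvd_rfl)
    · exact Or.inr (Or.inr dvd_rfl)
    · exact Or.inr (Or.inl (Nat.div_dvd_of_dvd (by omega)))
    · exact Or.inr (Or.inr (Nat.div_dvd_of_dvd (by omega)))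
  have hRs : ∀ α : MulChar F ℂ, Rs α (-1) = ((Fintype.card F : ℂ) + 1) * α (-1) := fun α => by
    rw [Rs_scal α (by simp) (by simp) (by simp)]; simp
  have hA : Fintype.card F ∈ charDegrees S :=
    hin isIrr_Sts (by rw [Sts_eq, Sts_eq, hRs, Rs_one, MulChar.one_apply (by simp), mul_one]) Sts_one
  have hB : Fintype.card F + 1 ∈ charDegrees S := by
    obtain ⟨β, hβ⟩ : ∃ β : MulChar F ℂ, β ^ 4 ≠ 1 := by
      obtain ⟨e⟩ := MulChar.mulEquiv_units F ℂ
      obtain ⟨a, ha⟩ := exists_pow_four_ne_one (A := Fˣ) (by rw [card_units_eq]; omega)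
      exact ⟨e.symm a, fun h => ha (by rwa [← map_pow, EmbeddingLike.map_eq_one_iff] at h)⟩
    refine hin ((isIrr_Rs_iff (β ^ 2)).2 (by rwa [← pow_mul])) ?_ (by rw [Rs_one]; simp)
    rw [hRs, Rs_one, sq, MulChar.mul_apply, ← map_mul]
    simp
  have hC : Fintype.card F - 1 ∈ charDegrees S := by
    obtain ⟨η, hη⟩ : ∃ η : K1 F (QExt F) →* ℂˣ, η ^ 4 ≠ 1 := by
      obtain ⟨e⟩ := CommGroup.monoidHom_mulEquiv_of_hasEnoughRootsOfUnity (K1 F (QExt F)) ℂ
      obtain ⟨a, ha⟩ := exists_pow_four_ne_one (A := K1 F (QExt F))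
        (by rw [card_ker_nrmU]; omega)
      exact ⟨e.symm a, fun h => ha (by rwa [← map_pow, EmbeddingLike.map_eq_one_iff] at h)⟩
    refine hin (isIrr_Ps F (θ := extK F η ^ 2) ?_) ?_ (by rw [Ps_one, cast_card_sub_one])
    · rw [eqK_inv_iff]
      intro h
      apply hη
      rw [← h, ← resK_extK F η]
      ext c
      simp only [resK_extK, MonoidHom.pow_apply, Units.val_pow_eq_pow_val, resK_apply,
        MulChar.pow_apply_coe]
      rw [← resK_apply, resK_extK]
      ring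
    · rw [Ps_neg_one, Ps_one, sq, MulChar.mul_apply, ← map_mul]
      simp
  have hq1 : ∀ {r : ℕ}, r.Prime → r ∣ Fintype.card F → ¬ r ∣ Fintype.card F ^ 2 - 1 := by
    intro r hr h1 h3
    have := Nat.dvd_sub (dvd_pow h1 two_ne_zero) h3
    rw [Nat.sub_sub_self (Nat.one_le_pow _ _ (by omega))] at this
    exact hr.one_lt.ne' (Nat.dvd_one.1 this)
  have hp1 : Fintype.card F + 1 ∣ Fintype.card F ^ 2 - 1 := by
    rw [sq_sub_one_eq]; exact Dvd.intro_left _ rfl
  have hm1 : Fintype.card F - 1 ∣ Fintype.card F ^ 2 - 1 := by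
    rw [sq_sub_one_eq]; exact Dvd.intro _ rfl
  constructor
  · ext r
    constructor
    · rintro ⟨hr, m, hm, h⟩
      refine ⟨hr, ?_⟩
      rcases hout m hm with h1 | h1 | h1
      · exact (h.trans h1).mul_right _
      · exact ((h.trans h1).trans hp1).mul_left _
      · exact ((h.trans h1).trans hm1).mul_left _
    · rintro ⟨hr, h⟩
      refine ⟨hr, ?_⟩
      rw [sq_sub_one_eq] at h
      rcases (Nat.Prime.dvd_mul hr).1 h with h | h
      · exact ⟨_, hA, h⟩
      · rcases (Nat.Prime.dvd_mul hr).1 h with h | h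
        · exact ⟨_, hC, h⟩
        · exact ⟨_, hB, h⟩
  · intro r s
    constructor
    · rintro ⟨hne, hr, hs, m, hm, h⟩
      refine ⟨hne, hr, hs, ?_⟩
      have h1 : r ∣ m := (Dvd.intro _ rfl).trans h
      have h3 : s ∣ m := (Dvd.intro_left _ rfl).trans h
      rcases hout m hm with h4 | h4 | h4
      · rw [hn] at h4
        exact absurd (((Nat.prime_dvd_prime_iff_eq hr ht').1 (hr.dvd_of_dvd_pow (h1.trans h4))).trans
          ((Nat.prime_dvd_prime_iff_eq hs ht').1 (hs.dvd_of_dvd_pow (h3.trans h4))).symm) hne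
      · exact ⟨(h1.trans h4).trans hp1, (h3.trans h4).trans hp1,
          Or.inr (Or.inr (Or.inl ⟨h1.trans h4, h3.trans h4⟩))⟩
      · exact ⟨(h1.trans h4).trans hm1, (h3.trans h4).trans hm1,
          Or.inr (Or.inr (Or.inr ⟨h1.trans h4, h3.trans h4⟩))⟩
    · rintro ⟨hne, hr, hs, h1, h3, h⟩
      refine ⟨hne, hr, hs, ?_⟩
      have hco := (Nat.coprime_primes hr hs).2 hne
      have key : (r ∣ Fintype.card F + 1 ∧ s ∣ Fintype.card F + 1) ∨
          (r ∣ Fintype.card F - 1 ∧ s ∣ Fintype.card F - 1) := by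
        rw [sq_sub_one_eq] at h1 h3
        rcases h with rfl | rfl | h
        · exact ((Nat.Prime.dvd_mul hs).1 h3).symm.imp (fun h => ⟨by omega, h⟩)
            (fun h => ⟨by omega, h⟩)
        · exact ((Nat.Prime.dvd_mul hr).1 h1).symm.imp (fun h => ⟨h, by omega⟩)
            (fun h => ⟨h, by omega⟩)
        · exact h
      rcases key with h | h
      · exact ⟨_, hB, hco.mul_dvd_of_dvd_of_dvd h.1 h.2⟩
      · exact ⟨_, hC, hco.mul_dvd_of_dvd_of_dvd h.1 h.2⟩

end Cfsg.Agent.S4774
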