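import Cfsg.Statements.S4775
import Mathlib
import Cfsg.Agent.H29.ExC
import Cfsg.Agent.H29.Sz2
import Cfsg.Agent.H13.SzRep
import Cfsg.Agent.H13.SzModels
import Cfsg.Agent.H13.SzPart
import Cfsg.Agent.S0157

set_option autoImplicit false
open Cfsg

namespace Cfsg.Agent.S4775

open Cfsg.Agent.H6 Cfsg.Agent.H13 Cfsg.Agent.H29 Cfsg.Agent.H29.ExC MulAction Subgroup

theorem arith {ι : Type*} [DecidableEq ι] (R A B : Finset ι) (d : ι → ℕ) (X Y D wp wm : ℕ)
    (hDX : D < X) (hDY : D < Y) (hA : (R.filter (· ∈ A)).card ≤ wp + 2)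
    (hB : (R.filter (· ∈ B)).card ≤ wm + 2) (hR : wp + wm + 2 ≤ R.card)
    (h1 : ∀ χ ∈ R, χ ∉ A → X ≤ d χ) (h2 : ∀ χ ∈ R, χ ∉ B → Y ≤ d χ) (h3 : ∀ χ ∈ R, D ≤ d χ)
    (h4 : ∀ χ ∈ R, χ ∈ A ∨ χ ∈ B) (hs : ∑ χ ∈ R, d χ ^ 2 = wm * X ^ 2 + wp * Y ^ 2 + 2 * D ^ 2)
    (hp : 0 < wp) (hm : 0 < wm) : (∀ χ ∈ R, d χ = X ∨ d χ = Y ∨ d χ = D) ∧ (∃ χ, d χ = X) ∧
      (∃ χ, d χ = Y) ∧ ∃ χ, d χ = D := by
  let L : ι → ℕ := fun χ => if χ ∈ A then (if χ ∈ B then D else Y) else X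
  have a1 := Finset.card_filter_add_card_filter_not (s := R) (· ∈ A)
  have a2 := Finset.card_filter_add_card_filter_not (s := R) (· ∈ B)
  have a3 := Finset.card_filter_add_card_filter_not (s := R.filter (· ∈ A)) (· ∈ B)
  have a4 : (R.filter (· ∈ A)).filter (· ∉ B) = R.filter (· ∉ B) := by
    ext χ
    simp only [Finset.mem_filter]
    exact ⟨fun h => ⟨h.1.1, h.2⟩, fun h => ⟨⟨h.1, (h4 χ h.1).resolve_right h.2⟩, h.2⟩⟩
  have a5 : ∑ χ ∈ R, L χ ^ 2 = ((R.filter (· ∈ A)).filter (· ∈ B)).card * D ^ 2 +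
      (R.filter (· ∉ B)).card * Y ^ 2 + (R.filter (· ∉ A)).card * X ^ 2 := by
    rw [← a4]
    simp only [L, apply_ite (· ^ 2), Finset.sum_ite, Finset.sum_const, smul_eq_mul]
  have a6 : ∀ χ ∈ R, L χ ^ 2 ≤ d χ ^ 2 := fun χ hχ => Nat.pow_le_pow_left (by
    simp only [L]
    split_ifs with b1 b2
    exacts [h3 χ hχ, h2 χ hχ b2, h1 χ hχ b1]) 2
  have a7 := Finset.sum_le_sum a6
  rw [a4] at a3
  obtain ⟨a, ha⟩ : ∃ a, (R.filter (· ∉ A)).card = wm + a := Nat.exists_eq_add_of_le (by omega)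
  obtain ⟨b, hb⟩ : ∃ b, (R.filter (· ∉ B)).card = wp + b := Nat.exists_eq_add_of_le (by omega)
  obtain ⟨c, hc⟩ : ∃ c, ((R.filter (· ∈ A)).filter (· ∈ B)).card = c := ⟨_, rfl⟩
  have a8 : 2 ≤ a + b + c := by omega
  have b1 : D ^ 2 + 1 ≤ X ^ 2 := Nat.pow_lt_pow_left hDX two_ne_zero
  have b2 : D ^ 2 + 1 ≤ Y ^ 2 := Nat.pow_lt_pow_left hDY two_ne_zero
  have b3 := Nat.mul_le_mul_left a b1
  have b4 := Nat.mul_le_mul_left b b2
  have b5 := Nat.mul_le_mul_right (D ^ 2) a8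
  rw [ha, hb, hc] at a5
  have b6 : a + b = 0 := by nlinarith
  have b7 : ∑ χ ∈ R, L χ ^ 2 = ∑ χ ∈ R, d χ ^ 2 := le_antisymm a7 (by nlinarith)
  have b8 : ∀ χ ∈ R, L χ = d χ := fun χ hχ =>
    Nat.pow_left_injective two_ne_zero ((Finset.sum_eq_sum_iff_of_le a6).mp b7 χ hχ)
  refine ⟨fun χ hχ => ?_, ?_, ?_, ?_⟩
  · rw [← b8 χ hχ]
    simp only [L]
    split_ifs <;> simp
  · obtain ⟨χ, hχ⟩ := Finset.card_pos.mp (show 0 < (R.filter (· ∉ A)).card by omega)
    rw [Finset.mem_filter] at hχ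
    exact ⟨χ, by rw [← b8 χ hχ.1]; simp [L, hχ.2]⟩
  · obtain ⟨χ, hχ⟩ := Finset.card_pos.mp (show 0 < (R.filter (· ∉ B)).card by omega)
    rw [← a4, Finset.mem_filter, Finset.mem_filter] at hχ
    exact ⟨χ, by rw [← b8 χ hχ.1.1]; simp [L, hχ.2, hχ.1.2]⟩
  · obtain ⟨χ, hχ⟩ := Finset.card_pos.mp
      (show 0 < ((R.filter (· ∈ A)).filter (· ∈ B)).card by omega)
    rw [Finset.mem_filter, Finset.mem_filter] at hχ
    exact ⟨χ, by rw [← b8 χ hχ.1.1]; simp [L, hχ.2, hχ.1.2]⟩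

section
variable {G : Type*} [Group G] {F : Type*} [Field F] (S : SzData G F)

theorem not_conj_u : ¬ IsConj (S.u 1 0) (S.u 1 1) := fun h => by
  haveI := S.charP
  obtain ⟨g, hg⟩ := isConj_iff.mp h
  have h1 : g • S.inf = S.inf := by
    have h2 : S.u 1 1 • g • S.inf = g • S.inf := by
      rw [← hg, mul_smul, mul_smul, inv_smul_smul, S.u_smul_inf]
    rcases S.eq_inf_or_pt (g • S.inf) with h3 | ⟨x, y, h3⟩
    · exact h3
    · rw [h3, S.u_smul_pt, S.pt_inj] at h2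
      simpa using h2.1
  obtain ⟨a, b, k, rfl⟩ := S.eq_u_mul_h_of_fix h1
  have h2 : S.u a b * (S.h k * S.u 1 0 * (S.h k)⁻¹) = S.u 1 1 * S.u a b := by rw [← hg]; group
  rw [S.h_conj_u, S.u_mul, S.u_mul, S.u_eq_iff, map_one] at h2
  exact one_notMem_szW S ((mem_szW S).mpr ⟨a, by grind⟩)

theorem card_cls : S.q + 3 ≤ Nat.card (ConjClasses G) := by
  classical
  haveI := S.charP
  haveI := S.finiteG
  haveI := S.finiteF
  haveI := Fintype.ofFinite F
  haveI := Fintype.ofFinite (ConjClasses G)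
  choose x hx using fun t => (exists_tr S t).imp fun x h => h.1
  have h0 : ∀ a b, tr S (S.u a b) = 0 := fun a b => by
    rw [tr_eq_zero_iff, show 4 = 2 * 2 from rfl, pow_mul, sq (S.u a b), S.u_sq, sq, S.u_sq]
    simp
  have hsq : ∀ {g k : G}, IsConj g k → g * g = 1 → k * k = 1 := fun {g k} h hg => by
    obtain ⟨c, rfl⟩ := isConj_iff.mp h
    rw [conj_mul, hg]; group
  have e1 : ∀ b, S.u 1 b * S.u 1 b ≠ 1 := fun b => by rw [S.u_sq]; simpa using S.u_one_ne_one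
  have e2 : S.u 0 1 * S.u 0 1 = 1 := by rw [S.u_sq]; simp
  let A := (Finset.univ.erase (0 : F)).image fun t => ConjClasses.mk (x t)
  let B : Finset (ConjClasses G) := {ConjClasses.mk 1, ConjClasses.mk (S.u 0 1),
    ConjClasses.mk (S.u 1 0), ConjClasses.mk (S.u 1 1)}
  have hA : A.card + 1 = S.q := by
    rw [Finset.card_image_of_injective _ fun s t h => by
      rw [← hx s, ← hx t, tr_of_isConj (ConjClasses.mk_eq_mk_iff_isConj.mp h)],
      Finset.card_erase_add_one (Finset.mem_univ _), Finset.card_univ, ← Nat.card_eq_fintype_card,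
      S.card]
  have hB : B.card = 4 := by
    rw [Finset.card_insert_of_notMem, Finset.card_insert_of_notMem, Finset.card_pair]
    · exact fun h => not_conj_u S (ConjClasses.mk_eq_mk_iff_isConj.mp h)
    · simp only [Finset.mem_insert, Finset.mem_singleton, ConjClasses.mk_eq_mk_iff_isConj]
      rintro (h | h) <;> exact e1 _ (hsq h e2)
    · simp only [Finset.mem_insert, Finset.mem_singleton, ConjClasses.mk_eq_mk_iff_isConj]
      rintro (h | h | h)
      · exact S.u_one_ne_one (isConj_one_right.mp h)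
      · exact e1 _ (hsq h (mul_one 1))
      · exact e1 _ (hsq h (mul_one 1))
  have hAB : Disjoint A B := Finset.disjoint_left.mpr fun c hc hc' => by
    obtain ⟨t, ht, rfl⟩ := Finset.mem_image.mp hc
    refine (Finset.mem_erase.mp ht).1 ?_
    simp only [B, Finset.mem_insert, Finset.mem_singleton, ConjClasses.mk_eq_mk_iff_isConj] at hc'
    rw [← S.u_zero] at hc'
    rcases hc' with h | h | h | h <;> rw [← hx t, ← tr_of_isConj h, h0]
  have h := Finset.card_le_univ (A ∪ B)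
  rw [Finset.card_union_of_disjoint hAB, ← Nat.card_eq_fintype_card] at h
  omega

/-- The Steinberg character. -/
noncomputable def St : G → ℂ := fun g => (Nat.card (fixedBy S.Pt g) : ℂ) - 1

theorem St_irr : IsIrrCharacter G (St S) := by
  haveI := S.finiteG
  haveI := S.finitePt
  haveI := S.pretransitive
  exact (S0157.result S.Pt (by
    rw [S.card_Pt]; exact Nat.succ_le_succ (Nat.pos_of_ne_zero (by positivity)))).mpr S.two_pretransitive

theorem St_one : St S 1 = (S.q ^ 2 : ℕ) := by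
  rw [St, fixedBy_one_eq_univ, Nat.card_univ, S.card_Pt]; simp

theorem St_H (t : G) (ht : t ∈ S.H) (h1 : t ≠ 1) : St S t = 1 := by
  obtain ⟨k, rfl⟩ := ht
  have : fixedBy S.Pt (S.h k) = {S.inf, S.pt 0 0} := by
    ext p
    refine ⟨fun h => ?_, ?_⟩
    · by_contra h2
      exact h1 (S.eq_one_of_fix_three (S.h_smul_inf k) (S.h_smul_zero k) (fun e => h2 (Or.inl e))
        (fun e => h2 (Or.inr e)) h)
    · rintro (rfl | rfl)
      exacts [S.h_smul_inf k, S.h_smul_zero k]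
  rw [St, this, Nat.card_coe_set_eq, Set.ncard_pair (S.inf_ne_pt 0 0)]
  norm_num

theorem St_ell {T : Subgroup G} (hT : S.IsTorus T) (h : Nat.card T ≠ S.q - 1) (t : G) (ht : t ∈ T)
    (h1 : t ≠ 1) : St S t = -1 := by
  rcases S.trichotomy h1 with h2 | h2 | h2
  · obtain ⟨x, hx⟩ := (S.mem_conjSet_U_iff.mp h2).2
    exact absurd hx (hT.not_mem_UAt ht h1 x)
  · obtain ⟨k, hk⟩ := hT.isCC.conjSet_eq_of_mem S.isCC_H (mem_conjSet_of_mem ht h1) h2
    exact absurd (by rw [← hk, card_map_conj, S.card_H]) h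
  · have : fixedBy S.Pt t = ∅ := Set.eq_empty_of_forall_notMem h2
    rw [St, this]; simp

theorem cd_eq {χ : G → ℂ} {n : ℕ} (h : χ 1 = n) : charDegree χ = n := by simp [charDegree, h]

theorem cd_spec (χ : IrrCharacter G) : (χ : G → ℂ) 1 = charDegree (χ : G → ℂ) ∧
    0 < charDegree (χ : G → ℂ) := by
  obtain ⟨n, h1, h2⟩ := isIrr_degree χ.2
  rw [cd_eq h2]
  exact ⟨h2, h1⟩

theorem min_deg (χ : IrrCharacter G) (h : charDegree (χ : G → ℂ) ≠ 1) :
    2 ^ S.m * (S.q - 1) ≤ charDegree (χ : G → ℂ) := by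
  have h1 := (cd_spec χ).2
  obtain ⟨χ, n, ρ, hρ, rfl⟩ := χ
  have h2 : charDegree ρ.character = n := cd_eq (by simp)
  simp only [h2] at h h1 ⊢
  haveI := S.isSimpleGroup
  have h := S.le_finrank_of_rep ρ (rep_ne_one_of_isSimpleGroup ρ hρ (by omega) S.u_one_ne_one)
  rwa [Module.finrank_fin_fun] at h

theorem exists_A0 [Fintype G] : ∃ (A : Finset (IrrCharacter G)) (w : ℕ), w * 2 + 1 = S.q - 1 ∧
    A.card = w + 2 ∧ trivIrr G ∈ A ∧ ⟨St S, St_irr S⟩ ∈ A ∧
    ∑ χ ∈ A, charDegree (χ : G → ℂ) ^ 2 = 1 + S.q ^ 4 + w * (S.q ^ 2 + 1) ^ 2 ∧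
    (∀ χ ∈ A, charDegree (χ : G → ℂ) = 1 ∨ charDegree (χ : G → ℂ) = S.q ^ 2 ∨
      charDegree (χ : G → ℂ) = S.q ^ 2 + 1) ∧
    (∃ χ : IrrCharacter G, charDegree (χ : G → ℂ) = S.q ^ 2 + 1) ∧
    ∀ χ, χ ∉ A → S.q - 1 ∣ charDegree (χ : G → ℂ) := by
  classical
  obtain ⟨V, h1, h2, h3, -⟩ := exists_fam S.isCC_H (e := 2) (by rw [S.card_normalizer_H, S.card_H])
  rw [S.card_H] at h1
  have h8 := S.eight_le_q
  have d1 : charDegree (trivIrr G : G → ℂ) = 1 := cd_eq (n := 1) (by simp [trivIrr_apply])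
  have d2 := cd_eq (St_one S)
  have hne : (fun _ => 1) ≠ St S := fun h => by
    have : charDegree (trivIrr G : G → ℂ) = charDegree (St S) := by rw [← h]; rfl
    rw [d1, d2] at this
    nlinarith
  have d3 : ∀ v ∈ V, ((fun _ => 1) + St S - v : G → ℂ) 1 = (S.q ^ 2 + 1 : ℕ) := fun v hv => by
    obtain ⟨l, -, rfl⟩ := (h2 v).mp hv
    rw [Pi.sub_apply, Pi.add_apply, St_one, vv_one]
    push_cast; ring
  have h4 : ∀ v ∈ V, IsIrrCharacter G ((fun _ => 1) + St S - v) := fun v hv => by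
    have a0 := d3 v hv
    have a1 := h3 v hv
    obtain ⟨l, hl, rfl⟩ := (h2 v).mp hv
    have a2 := vv_const hl (isClassFunction_const 1) (c := 1) fun _ _ _ => rfl
    have a3 := vv_const hl (isClassFunction_of_irr (St_irr S)) (St_H S)
    have a4 := classInner_irr_of_ne isIrr_one (St_irr S) hne
    have a5 := classInner_irr_of_ne (St_irr S) isIrr_one hne.symm
    refine isIrr_of_norm_one_of_nonneg (isGen_sub (isGen_add (isGen_of_irr isIrr_one)
      (isGen_of_irr (St_irr S))) (vv_gen l)) ?_ (by rw [a0]; exact Nat.cast_nonneg _)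
    rw [classInner_sub_left, classInner_sub_right, classInner_sub_right, classInner_add_left,
      classInner_add_left, classInner_add_right, classInner_add_right, classInner_add_right,
      ← conj_classInner (vv _ l) (fun _ => 1), ← conj_classInner (vv _ l) (St S), a1, a2, a3, a4,
      a5, classInner_one_one, classInner_irr_self (St_irr S)]
    norm_num
  let f : V → IrrCharacter G := fun v => ⟨_, h4 v.1 v.2⟩
  have hf : Function.Injective f := fun v w h =>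
    Subtype.ext (sub_right_injective (congrArg Subtype.val h))
  have d4 : ∀ χ ∈ Finset.univ.image f, charDegree (χ : G → ℂ) = S.q ^ 2 + 1 := fun χ hχ => by
    obtain ⟨v, -, rfl⟩ := Finset.mem_image.mp hχ
    exact cd_eq (d3 v.1 v.2)
  have d5 : (Finset.univ.image f).card = V.card := by
    rw [Finset.card_image_of_injective _ hf]; simp
  have n1 : (⟨St S, St_irr S⟩ : IrrCharacter G) ∉ Finset.univ.image f := fun h => by
    have := d4 _ h
    simp only [d2] at this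
    omega
  have n2 : trivIrr G ∉ insert (⟨St S, St_irr S⟩ : IrrCharacter G) (Finset.univ.image f) := by
    rw [Finset.mem_insert]
    rintro (h | h)
    · exact hne (congrArg Subtype.val h)
    · have := d4 _ h
      rw [d1] at this
      nlinarith
  refine ⟨insert (trivIrr G) (insert ⟨St S, St_irr S⟩ (Finset.univ.image f)), V.card, h1, ?_,
    by simp, by simp, ?_, fun χ hχ => ?_, ?_, fun χ hχ => ?_⟩
  · rw [Finset.card_insert_of_notMem n2, Finset.card_insert_of_notMem n1, d5]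
  · rw [Finset.sum_insert n2, Finset.sum_insert n1, Finset.sum_congr rfl fun χ hχ => by
      rw [d4 χ hχ], Finset.sum_const, d5, d1]
    simp only [d2, smul_eq_mul]
    ring
  · simp only [Finset.mem_insert] at hχ
    rcases hχ with rfl | rfl | h
    exacts [Or.inl d1, Or.inr (Or.inl d2), Or.inr (Or.inr (d4 χ h))]
  · obtain ⟨χ, hχ⟩ := Finset.card_pos.mp (show 0 < (Finset.univ.image f).card by omega)
    exact ⟨χ, d4 χ hχ⟩
  · rw [← S.card_H]
    refine dvd_of_vv S.isCC_H (isCharacter_of_irr χ.2) (fun l hl => ?_) (cd_spec χ).1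
    simp only [Finset.mem_insert, not_or] at hχ
    have hv := (h2 _).mpr ⟨l, hl, rfl⟩
    have a1 := classInner_irr_of_ne isIrr_one χ.2 fun h => hχ.1 (Subtype.ext h.symm)
    have a2 := classInner_irr_of_ne (St_irr S) χ.2 fun h => hχ.2.1 (Subtype.ext h.symm)
    have a3 := classInner_irr_of_ne (h4 _ hv) χ.2 fun h => hχ.2.2
      (Finset.mem_image.mpr ⟨⟨_, hv⟩, Finset.mem_univ _, Subtype.ext h⟩)
    rwa [classInner_sub_left, classInner_add_left, a1, a2, add_zero, zero_sub, neg_eq_zero] at a3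

theorem exists_Ae [Fintype G] {T : Subgroup G} (hT : S.IsTorus T) (h : Nat.card T ≠ S.q - 1) :
    ∃ (A : Finset (IrrCharacter G)) (w : ℕ), w * 4 + 1 = Nat.card T ∧ A.card ≤ 4 + w ∧
      trivIrr G ∈ A ∧ ⟨St S, St_irr S⟩ ∈ A ∧ ∀ χ, χ ∉ A → Nat.card T ∣ charDegree (χ : G → ℂ) := by
  obtain ⟨A, w, h1, h2, h3⟩ := card_nonvan hT.isCC (hT.card.resolve_left fun e => h e.1).2
  obtain ⟨V, a1, a2, -⟩ := exists_fam hT.isCC (hT.card.resolve_left fun e => h e.1).2
  have h5 := hT.order.five_le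
  obtain ⟨v, hv⟩ := Finset.card_pos.mp (show 0 < V.card by omega)
  obtain ⟨l, hl, -⟩ := (a2 v).mp hv
  refine ⟨A, w, h1, h2, (h3 _).mpr ⟨l, hl, ?_⟩, (h3 _).mpr ⟨l, hl, ?_⟩, fun χ hχ => ?_⟩
  · rw [vv_const hl (isClassFunction_of_irr (trivIrr G).2) (c := 1) fun _ _ _ => rfl]
    simp
  · rw [vv_const hl (isClassFunction_of_irr (St_irr S)) (St_ell S hT h)]
    simp
  · refine dvd_of_vv hT.isCC (isCharacter_of_irr χ.2) (fun l hl => ?_) (cd_spec χ).1
    by_contra h4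
    exact hχ ((h3 χ).mpr ⟨l, hl, h4⟩)

theorem degs : (∀ d ∈ charDegrees G, d = 1 ∨ d = S.q ^ 2 ∨ d = S.q ^ 2 + 1 ∨
    d = (S.q - 1) * (S.q + S.r + 1) ∨ d = (S.q - 1) * (S.q - S.r + 1) ∨ d = 2 ^ S.m * (S.q - 1)) ∧
    S.q ^ 2 + 1 ∈ charDegrees G ∧ (S.q - 1) * (S.q + S.r + 1) ∈ charDegrees G ∧
    (S.q - 1) * (S.q - S.r + 1) ∈ charDegrees G ∧ 2 ^ S.m * (S.q - 1) ∈ charDegrees G := by
  classical
  haveI := S.finiteG
  haveI := Fintype.ofFinite G
  obtain ⟨A0, w0, a1, a2, a3, a4, a5, a6, a7, a8⟩ := exists_A0 S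
  obtain ⟨T, T', hT, hT', c1, c2, -⟩ := S.exists_isTorus_plus_minus
  have e1 := S.coprime_sub_one_plus
  have e2 := S.coprime_sub_one_minus
  have e3 := S.coprime_plus_minus
  have e4 := S.torus_mul
  have e5 := S.eight_le_q
  have e6 := S.r_lt_q
  have e7 := S.r_sq
  have e8 : S.r = 2 * 2 ^ S.m := pow_succ' 2 _
  have e9 := S.four_le_r
  obtain ⟨A, wp, b1, b2, b3, b4, b5⟩ := exists_Ae S hT (by omega)
  obtain ⟨B, wm, b1', b2', b3', b4', b5'⟩ := exists_Ae S hT' fun h => by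
    rw [← c2, h, Nat.coprime_self] at e2; omega
  rw [c1] at b1 b5
  rw [c2] at b1' b5'
  have hne : trivIrr G ≠ ⟨St S, St_irr S⟩ := fun h => by
    have h1 := congrFun (congrArg Subtype.val h) 1
    simp only [St_one, trivIrr_apply] at h1
    have h2 : 1 = S.q ^ 2 := by exact_mod_cast h1
    nlinarith
  have f1 : ∀ A : Finset (IrrCharacter G), trivIrr G ∈ A → ⟨St S, St_irr S⟩ ∈ A →
      (A0ᶜ.filter (· ∈ A)).card + 2 ≤ A.card := fun A h1 h2 => by
    rw [← Finset.card_pair hne, ← Finset.card_union_of_disjoint]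
    · refine Finset.card_le_card (Finset.union_subset (fun χ h => (Finset.mem_filter.mp h).2) ?_)
      simp [Finset.insert_subset_iff, h1, h2]
    · simp [a3, a4]
  have f2 := Finset.card_add_card_compl A0
  rw [← Nat.card_eq_fintype_card, card_irr_eq_card_conjClasses] at f2
  have f3 := card_cls S
  have f4 : ∑ χ : IrrCharacter G, charDegree (χ : G → ℂ) ^ 2 = Nat.card G := by
    have := sum_irr_degree_sq G
    rw [Finset.sum_congr rfl fun χ _ => by rw [(cd_spec χ).1]] at this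
    exact_mod_cast this
  have f5 := Finset.sum_add_sum_compl A0 fun χ => charDegree (χ : G → ℂ) ^ 2
  rw [f4, a5, S.card_G] at f5
  have g1 : ∀ χ ∈ A0ᶜ, ∀ n, (S.q - 1).Coprime n → n ∣ charDegree (χ : G → ℂ) →
      (S.q - 1) * n ≤ charDegree (χ : G → ℂ) := fun χ hχ n h1 h2 =>
    Nat.le_of_dvd (cd_spec χ).2 (h1.mul_dvd_of_dvd_of_dvd (a8 χ (Finset.mem_compl.mp hχ)) h2)
  have g2 := f1 A b3 b4
  have g3 := f1 B b3' b4'
  obtain ⟨k1, k2, k3, k4⟩ := arith A0ᶜ A B (fun χ => charDegree (χ : G → ℂ))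
    ((S.q - 1) * (S.q + S.r + 1)) ((S.q - 1) * (S.q - S.r + 1)) (2 ^ S.m * (S.q - 1)) wp wm
    (by rw [mul_comm]; exact Nat.mul_lt_mul_of_pos_left (by omega) (by omega))
    (by
      rw [mul_comm]
      refine Nat.mul_lt_mul_of_pos_left ?_ (by omega)
      have : 3 * 2 ^ S.m ≤ S.q := by nlinarith
      omega) (by omega) (by omega) (by omega)
    (fun χ hχ h => g1 χ hχ _ e1 (b5 χ h)) (fun χ hχ h => g1 χ hχ _ e2 (b5' χ h))
    (fun χ hχ => min_deg S χ fun h => by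
      have := a8 χ (Finset.mem_compl.mp hχ)
      rw [h, Nat.dvd_one] at this
      omega)
    (fun χ hχ => by
      by_contra h
      push Not at h
      have h1 := g1 χ hχ _ (e1.mul_right e2) (e3.mul_dvd_of_dvd_of_dvd (b5 χ h.1) (b5' χ h.2))
      have h2 := Finset.single_le_sum (f := fun χ : IrrCharacter G => charDegree (χ : G → ℂ) ^ 2)
        (fun _ _ => Nat.zero_le _) (Finset.mem_univ χ)
      rw [f4, S.card_G] at h2
      rw [e4] at h1
      have h3 := (Nat.pow_le_pow_left h1 2).trans h2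
      have h4 : (S.q - 1) * (S.q ^ 2 + 1) ≤ S.q ^ 2 := Nat.le_of_mul_le_mul_right
        (c := (S.q - 1) * (S.q ^ 2 + 1)) (by nlinarith) (Nat.mul_pos (by omega) (by positivity))
      have h5 := Nat.mul_le_mul_right (S.q ^ 2 + 1) (show 1 ≤ S.q - 1 by omega)
      omega)
    (by
      generalize ∑ χ ∈ A0ᶜ, charDegree (χ : G → ℂ) ^ 2 = Z at *
      generalize 2 ^ S.m = s at *
      generalize S.q = q at *
      generalize S.r = r at *
      have h1 : 1 ≤ q := by omega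
      have h2 := e6.le
      zify [h1, h2] at f5 a1 b1 b1' e7 e8 ⊢
      have h3 : (q : ℤ) = 2 * s ^ 2 := by rw [e8] at e7; linarith
      have h4 : (w0 : ℤ) = s ^ 2 - 1 := by linarith
      have h5 : (wp : ℤ) * 2 = s ^ 2 + s := by linarith
      have h6 : (wm : ℤ) * 2 = s ^ 2 - s := by linarith
      rw [h3, h4] at f5
      rw [h3, e8]
      refine mul_left_cancel₀ two_ne_zero ?_
      linear_combination 2 * f5 - ((2 * s ^ 2 - 1) * (2 * s ^ 2 + 2 * s + 1)) ^ 2 * h6 -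
        ((2 * s ^ 2 - 1) * (2 * s ^ 2 - 2 * s + 1)) ^ 2 * h5) (by omega) (by omega)
  refine ⟨?_, a7, k2, k3, k4⟩
  rintro _ ⟨χ, rfl⟩
  by_cases h : χ ∈ A0
  · rcases a6 χ h with h | h | h <;> simp [h]
  · rcases k1 χ (Finset.mem_compl.mpr h) with h | h | h <;> simp [h]

end

/-- Let F be a finite field with q = 2^(2m+1) ≥ 8 elements and let S be isomorphic to the Suzuki group over F. Then the vertices of the character degree graph of S are 2 and the primes dividing (q − 1)(q² + 1); the primes dividing (q − 1)(q² + 1) are pairwise adjacent, and 2 is adjacent exactly to the primes dividing q − 1. -/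
theorem result (F : Type*) [Field F] [Fintype F] (m : ℕ) (hm : 1 ≤ m) (q : ℕ) (hq : Fintype.card F = q) (hqm : q = 2 ^ (2 * m + 1)) {S : Type*} [Group S] [Finite S] (hS : Nonempty (S ≃* ↥(Cfsg.Lie.Sz F (2 ^ (m + 1))))) : Cfsg.degreePrimes S = {r : ℕ | r.Prime ∧ (r = 2 ∨ r ∣ (q - 1) * (q ^ 2 + 1))} ∧ ∀ r s : ℕ, (Cfsg.degreeGraph S).Adj r s ↔ (r ≠ s ∧ r.Prime ∧ s.Prime ∧ ((r ∣ (q - 1) * (q ^ 2 + 1) ∧ s ∣ (q - 1) * (q ^ 2 + 1)) ∨ (r = 2 ∧ s ∣ q - 1) ∨ (s = 2 ∧ r ∣ q - 1))) := by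
  obtain ⟨e⟩ := hS
  let D := (szDataB (F := F) hm (by rw [Nat.card_eq_fintype_card, hq, hqm])).ofEquiv e
  obtain ⟨h1, h2, h3, h4, h5⟩ := degs D
  have e4 := D.torus_mul
  have hq' : D.q = q := hqm.symm
  have hm' : D.m = m := rfl
  rw [hq'] at h1 h2 h3 h4 h5 e4
  rw [hm'] at h1 h5
  generalize D.r = r at *
  have t1 : 2 ∣ 2 ^ m := dvd_pow_self 2 (by omega)
  have t2 : ∀ p, p.Prime → p ∣ 2 ^ m * (q - 1) → p = 2 ∨ p ∣ q - 1 := fun p hp h =>
    (hp.dvd_mul.mp h).imp_left fun h =>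
      (Nat.prime_dvd_prime_iff_eq hp Nat.prime_two).mp (hp.dvd_of_dvd_pow h)
  have t3 : ∀ p, p.Prime → p ∣ q ^ 2 → p = 2 := fun p hp h => by
    rw [hqm] at h
    exact (Nat.prime_dvd_prime_iff_eq hp Nat.prime_two).mp
      (hp.dvd_of_dvd_pow (hp.dvd_of_dvd_pow h))
  have t4 : (q - 1) * (q + r + 1) ∣ (q - 1) * (q ^ 2 + 1) :=
    Nat.mul_dvd_mul_left _ (Dvd.intro _ e4)
  have t5 : (q - 1) * (q - r + 1) ∣ (q - 1) * (q ^ 2 + 1) :=
    Nat.mul_dvd_mul_left _ (Dvd.intro_left _ e4)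
  have t6 : ∀ p, p.Prime → p ∣ (q - 1) * (q ^ 2 + 1) → p ∣ q - 1 ∨ p ∣ q + r + 1 ∨ p ∣ q - r + 1 :=
    fun p hp h => (hp.dvd_mul.mp h).imp_right fun h => hp.dvd_mul.mp (e4 ▸ h)
  have t7 : ∀ a b d : ℕ, a ≠ b → a.Prime → b.Prime → d ∈ charDegrees S → a ∣ d → b ∣ d →
      (degreeGraph S).Adj a b := fun a b d h ha hb hd h6 h7 =>
    ⟨h, ha, hb, d, hd, ((Nat.coprime_primes ha hb).mpr h).mul_dvd_of_dvd_of_dvd h6 h7⟩
  refine ⟨?_, fun a b => ⟨?_, ?_⟩⟩
  · ext p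
    constructor
    · rintro ⟨hp, d, hd, h⟩
      refine ⟨hp, ?_⟩
      rcases h1 d hd with rfl | rfl | rfl | rfl | rfl | rfl
      · exact absurd (Nat.dvd_one.mp h) hp.ne_one
      · exact Or.inl (t3 p hp h)
      · exact Or.inr (h.mul_left _)
      · exact Or.inr (h.trans t4)
      · exact Or.inr (h.trans t5)
      · exact (t2 p hp h).imp_right fun h => h.mul_right _
    · rintro ⟨hp, rfl | h⟩
      · exact ⟨hp, _, h5, t1.mul_right _⟩
      · rcases t6 p hp h with h | h | h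
        exacts [⟨hp, _, h3, h.mul_right _⟩, ⟨hp, _, h3, h.mul_left _⟩, ⟨hp, _, h4, h.mul_left _⟩]
  · rintro ⟨hab, ha, hb, d, hd, h⟩
    refine ⟨hab, ha, hb, ?_⟩
    have s1 := (Dvd.intro _ rfl : a ∣ a * b).trans h
    have s2 := (Dvd.intro_left _ rfl : b ∣ a * b).trans h
    rcases h1 d hd with rfl | rfl | rfl | rfl | rfl | rfl
    · exact absurd (Nat.dvd_one.mp s1) ha.ne_one
    · exact absurd ((t3 a ha s1).trans (t3 b hb s2).symm) hab
    · exact Or.inl ⟨s1.mul_left _, s2.mul_left _⟩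
    · exact Or.inl ⟨s1.trans t4, s2.trans t4⟩
    · exact Or.inl ⟨s1.trans t5, s2.trans t5⟩
    · rcases t2 a ha s1 with s3 | s3 <;> rcases t2 b hb s2 with s4 | s4
      · exact absurd (s3.trans s4.symm) hab
      · exact Or.inr (Or.inl ⟨s3, s4⟩)
      · exact Or.inr (Or.inr ⟨s4, s3⟩)
      · exact Or.inl ⟨s3.mul_right _, s4.mul_right _⟩
  · rintro ⟨hab, ha, hb, ⟨s1, s2⟩ | ⟨rfl, s2⟩ | ⟨rfl, s1⟩⟩
    · have u1 : q + r + 1 ∣ q ^ 2 + 1 := Dvd.intro _ e4
      have u2 : q - r + 1 ∣ q ^ 2 + 1 := Dvd.intro_left _ e4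
      rcases t6 a ha s1 with s1 | s1 | s1 <;> rcases t6 b hb s2 with s2 | s2 | s2
      · exact t7 a b _ hab ha hb h3 (s1.mul_right _) (s2.mul_right _)
      · exact t7 a b _ hab ha hb h3 (s1.mul_right _) (s2.mul_left _)
      · exact t7 a b _ hab ha hb h4 (s1.mul_right _) (s2.mul_left _)
      · exact t7 a b _ hab ha hb h3 (s1.mul_left _) (s2.mul_right _)
      · exact t7 a b _ hab ha hb h2 (s1.trans u1) (s2.trans u1)
      · exact t7 a b _ hab ha hb h2 (s1.trans u1) (s2.trans u2)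
      · exact t7 a b _ hab ha hb h4 (s1.mul_left _) (s2.mul_right _)
      · exact t7 a b _ hab ha hb h2 (s1.trans u2) (s2.trans u1)
      · exact t7 a b _ hab ha hb h2 (s1.trans u2) (s2.trans u2)
    · exact t7 2 b _ hab ha hb h5 (t1.mul_right _) (s2.mul_left _)
    · exact t7 a 2 _ hab ha hb h5 (s1.mul_left _) (t1.mul_right _)

end Cfsg.Agent.S4775
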