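import Cfsg.Statements.S4784
import Mathlib
import Cfsg.Agent.H7.Cod

set_option autoImplicit false
open Cfsg

namespace Cfsg.Agent.S4784

open Cfsg Cfsg.Agent.H7
open scoped ComplexConjugate

/-- Let H be a subgroup of the finite group G and consider the permutation character of G on the cosets of H (the function induced from the principal character of H). Then exactly one irreducible constituent of it is real-valued with Frobenius–Schur indicator +1 (namely the principal character) if and only if the normal core of H has odd index in G. -/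
theorem result {G : Type*} [Group G] [Fintype G] (H : Subgroup G) : Nat.card {χ : Cfsg.IrrCharacter G // Cfsg.classInner (Cfsg.indFun H (fun _ : H => (1 : ℂ))) (χ : G → ℂ) ≠ 0 ∧ (∀ g : G, (starRingEnd ℂ) ((χ : G → ℂ) g) = (χ : G → ℂ) g) ∧ (Nat.card G : ℂ)⁻¹ * ∑ g : G, (χ : G → ℂ) (g * g) = 1} = 1 ↔ Odd H.normalCore.index := by
  classical
  set π := ind H.subtype (fun _ => 1) with hπ
  have hπc : IsCharacter G π := char_ind _ char_one
  have h0 : ip π 1 = 1 := by
    rw [hπ, ip_ind_left _ _ cf_one]; exact ip_one_one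
  have h1 : H6.fsInd (1 : G → ℂ) = 1 := by
    simp [H6.fsInd_def, ← Nat.card_eq_fintype_card]
  rw [← ind_subtype]
  simp only [← ip_eq_classInner]
  constructor
  · intro h
    by_contra h2
    haveI := Fact.mk Nat.prime_two
    obtain ⟨x, hx⟩ := exists_prime_orderOf_dvd_card' (G := G ⧸ H.normalCore) 2
      (Nat.not_odd_iff_even.mp h2).two_dvd
    obtain ⟨x, rfl⟩ := QuotientGroup.mk_surjective x
    rw [orderOf_eq_prime_iff, ← QuotientGroup.mk_pow, Ne, QuotientGroup.eq_one_iff,
      QuotientGroup.eq_one_iff, Subgroup.normalCore_eq_ker] at hx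
    obtain ⟨m, h3, -⟩ := exists_mult hπc
    have h4 : H6.fsInd π = ∑ χ ∈ irrSet G, m χ * H6.fsInd χ := by
      conv_lhs => rw [cf_expand (char_cf hπc)]
      simp only [H6.fsInd_def, Finset.sum_apply, Pi.smul_apply, smul_eq_mul, Finset.mul_sum]
      rw [Finset.sum_comm]
      exact Finset.sum_congr rfl fun χ hχ => Finset.sum_congr rfl fun g _ => by
        rw [h3 χ (mem_irrSet.mp hχ)]; ring
    have h5 : (H6.fsInd π).re ≤ 1 := by
      rw [h4, ← Finset.add_sum_erase _ _ one_mem_irrSet, ← h3 1 irr_one, h0, h1, Complex.add_re,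
        Complex.re_sum]
      have : ∑ χ ∈ (irrSet G).erase 1, ((m χ : ℂ) * H6.fsInd χ).re ≤ 0 :=
        Finset.sum_nonpos fun χ hχ => by
          rw [Finset.mem_erase, mem_irrSet] at hχ
          rcases H6.fsInd_trichotomy hχ.2 with e | e | e
          · simp [e]
          · by_cases h5 : ip π χ = 0
            · simp [← h3 χ hχ.2, h5]
            have := (Nat.card_eq_one_iff_unique.mp h).1
            exact absurd (congrArg (fun t => t.1.1) (this.elim ⟨⟨χ, hχ.2⟩, h5, fun g => congrFun
              (not_not.mp (mt (H6.fsInd_eq_zero_iff hχ.2).mpr (by simp [e]))) g, e⟩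
              ⟨⟨1, irr_one⟩, h0.trans_ne one_ne_zero, by simp, h1⟩)) hχ.1
          · simp [e]
      simpa using this
    have h6 : ∑ g : G, Nat.card (MulAction.fixedBy (G ⧸ H) g) <
        ∑ g : G, Nat.card (MulAction.fixedBy (G ⧸ H) (g * g)) := by
      refine Finset.sum_lt_sum (fun g _ => Nat.card_mono (Set.toFinite _) fun a ha => ?_)
        ⟨x, Finset.mem_univ _, ?_⟩
      · rw [MulAction.mem_fixedBy] at ha ⊢
        rw [mul_smul, ha, ha]
      · refine Set.Finite.card_lt_card (Set.toFinite _) ⟨fun a _ => ?_, fun e => hx.2 ?_⟩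
        · exact DFunLike.congr_fun (MonoidHom.mem_ker.mp (sq x ▸ hx.1)) a
        · refine MonoidHom.mem_ker.mpr (Equiv.ext fun a => @e a ?_)
          exact DFunLike.congr_fun (MonoidHom.mem_ker.mp (sq x ▸ hx.1)) a
    rw [ip_def] at h0
    rw [H6.fsInd_def] at h5
    simp only [hπ, ind_one_apply_eq_card, Pi.one_apply, map_one, mul_one, ← Nat.cast_sum] at h0 h5
    rw [inv_mul_eq_one₀ (card_ne_zero' G), Nat.cast_inj] at h0
    rw [← h0] at h6
    rw [← Complex.ofReal_natCast, ← Complex.ofReal_natCast, ← Complex.ofReal_inv,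
      ← Complex.ofReal_mul, Complex.ofReal_re, inv_mul_le_one₀ (by exact_mod_cast Nat.card_pos)] at h5
    exact absurd h6 (not_lt.mpr (by exact_mod_cast h5))
  · intro h
    refine Nat.card_eq_one_iff_exists.mpr ⟨⟨⟨1, irr_one⟩, h0.trans_ne one_ne_zero, by simp, h1⟩, ?_⟩
    rintro ⟨⟨χ, hχ⟩, h2, h3, h4⟩
    have h5 : H.normalCore ≤ H6.charKer χ :=
      (le_charKer_ind H.subtype_injective char_one _ (by simpa using H.normalCore_le)
        (le_top.trans H6.charKer_one.ge)).trans (charKer_le_of_ip hπc hχ h2)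
    obtain ⟨ψ, hψ, rfl⟩ := H6.exists_irr_quotient _ hχ h5
    have h6 := H6.irr_eq_one_of_odd_of_real h hψ (funext fun q => by
      obtain ⟨g, rfl⟩ := QuotientGroup.mk_surjective q
      exact h3 g)
    subst h6
    rfl

end Cfsg.Agent.S4784
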