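import Cfsg.Statements.S4796
import Mathlib
import Cfsg.Agent.H7.Cod

set_option autoImplicit false
open Cfsg

namespace Cfsg.Agent.S4796

open Cfsg Cfsg.Agent.H7

/-- Let G be a finite group with a faithful irreducible complex character χ whose codegree #G / χ(1) is a prime p (for a faithful character the kernel is trivial, so the codegree is #G / χ(1)). Then either G is cyclic of order p, or G is a Frobenius group whose Frobenius kernel has order p: some proper non-trivial subgroup H satisfies H ∩ gHg⁻¹ = 1 for every element g outside H, and the set of elements lying in no conjugate of H, together with the identity, has exactly p elements. -/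
theorem result {G : Type*} [Group G] [Finite G] (χ : Cfsg.IrrCharacter G) (hfaith : ∀ g : G, (χ : G → ℂ) g = (χ : G → ℂ) 1 → g = 1) (p : ℕ) (hp : p.Prime) (hcod : Nat.card G = p * Cfsg.charDegree (χ : G → ℂ)) : (IsCyclic G ∧ Nat.card G = p) ∨ ∃ H : Subgroup G, Cfsg.IsFrobeniusComplement H ∧ Nat.card ↥(Cfsg.frobeniusKernel H) = p := by
  obtain ⟨P, hP, h1, h2⟩ := prime_cod χ.2 hp hcod
  haveI := Fact.mk hp
  by_cases h : P = ⊤
  · rw [h, Subgroup.card_top] at h1
    exact Or.inl ⟨isCyclic_of_prime_card h1, h1⟩
  · obtain ⟨H, h3, h4, -⟩ := exists_frob_of_centralizer P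
      (fun e => hp.one_lt.ne' (by rw [← h1, e, Subgroup.card_bot])) h h2
    exact Or.inr ⟨H, h3, by rw [h4]; exact h1⟩

end Cfsg.Agent.S4796
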