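import Cfsg.Statements.S4797
import Mathlib
import Cfsg.Agent.H7.Cod

set_option autoImplicit false
open Cfsg

namespace Cfsg.Agent.S4797

open Cfsg Cfsg.Agent.H7

/-- The codegree of an irreducible complex character χ of a finite group G is [G : ker χ] / χ(1), where ker χ is the set of elements at which χ takes the value χ(1). A non-trivial finite group is perfect if and only if no irreducible complex character of it has prime codegree. -/
theorem result {G : Type*} [Group G] [Finite G] [Nontrivial G] : commutator G = ⊤ ↔ ∀ χ : Cfsg.IrrCharacter G, ¬ ((Nat.card G / (Nat.card {g : G // (χ : G → ℂ) g = (χ : G → ℂ) 1} * Cfsg.charDegree (χ : G → ℂ)))).Prime := by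
  constructor
  · intro h χ hp
    have h1 := cod_mul χ.2
    generalize Nat.card G / _ = p at hp h1
    obtain ⟨_, β, hβ, h2, -⟩ := exists_faithful_deflate χ.2
    obtain ⟨P, hP, h3, h4⟩ := prime_cod hβ hp (by
      rw [← deg_comp (QuotientGroup.mk' _) β, ← h2, h1]; rfl)
    haveI := Fact.mk hp
    haveI : IsCyclic P := isCyclic_of_prime_card h3
    have h5 : commutator (G ⧸ H6.charKer (χ : G → ℂ)) = ⊤ := by
      rw [commutator_def, ← Subgroup.map_top_of_surjective _ (QuotientGroup.mk'_surjective _),
        ← Subgroup.map_commutator, ← commutator_def, h]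
    have h6 : (MulAut.conjNormal (H := P)).ker = ⊤ := by
      letI := (IsCyclic.mulAutMulEquiv P).commGroup
      letI : CommGroup (MulAut P) := { (inferInstance : Group (MulAut P)) with
        mul_comm := fun a b => (IsCyclic.mulAutMulEquiv P).injective (by
          rw [map_mul, map_mul, mul_comm]) }
      exact eq_top_iff.mpr (h5 ▸ Abelianization.commutator_subset_ker _)
    obtain ⟨x, hx, h7⟩ := P.bot_or_exists_ne_one.resolve_left fun e =>
      hp.one_lt.ne' (by rw [← h3, e, Subgroup.card_bot])
    have h8 : ∀ g, ∀ y ∈ P, g * y = y * g := fun g y hy => by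
      have := congrArg Subtype.val (DFunLike.congr_fun
        (MonoidHom.mem_ker.mp (h6.ge (Subgroup.mem_top g))) ⟨y, hy⟩)
      exact mul_inv_eq_iff_eq_mul.mp (by simpa using this)
    have h9 : commutator (G ⧸ H6.charKer (χ : G → ℂ)) = ⊥ := by
      rw [commutator_def, Subgroup.commutator_eq_bot_iff_le_centralizer]
      exact fun a _ b _ => h8 b a (h4 x hx h7 a (h8 a x hx))
    exact h7 (Subgroup.mem_bot.mp (h9 ▸ h5 ▸ Subgroup.mem_top x))
  · intro h
    by_contra h1
    obtain ⟨p, hp, h2⟩ := Nat.exists_prime_and_dvd (n := (commutator G).index) (by simpa using h1)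
    rw [← H6.card_linear] at h2
    haveI := Fact.mk hp
    obtain ⟨lam, h3⟩ := exists_prime_orderOf_dvd_card' p h2
    refine h ⟨_, irr_linFun lam⟩ ?_
    have h4 := cod_mul (irr_linFun lam)
    change Nat.Prime (Nat.card G / (Nat.card {g // linFun lam g = linFun lam 1} *
      charDegree (linFun lam)))
    rw [charDegree_eq (d := 1) (by simp [linFun_apply])] at h4 ⊢
    rw [← mul_one (_ / _), h4, show H6.charKer (linFun lam) = lam.ker from H6.charKer_linear lam, Subgroup.index_ker]
    haveI : Finite lam.range := Finite.of_surjective _ lam.rangeRestrict_surjective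
    haveI : IsCyclic lam.range := isCyclic_subgroup_units _
    rw [← IsCyclic.exponent_eq_card]
    convert hp
    refine Nat.dvd_antisymm (Monoid.exponent_dvd_of_forall_pow_eq_one ?_) ?_
    · rintro ⟨_, g, rfl⟩
      exact Subtype.ext (DFunLike.congr_fun (h3 ▸ pow_orderOf_eq_one lam) g)
    · rw [← h3]
      exact orderOf_dvd_of_pow_eq_one (MonoidHom.ext fun g =>
        congrArg Subtype.val (Monoid.pow_exponent_eq_one (⟨lam g, g, rfl⟩ : lam.range)))

end Cfsg.Agent.S4797
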