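import Cfsg.Statements.S4798
import Mathlib
import Cfsg.Agent.H7.Cod

set_option autoImplicit false
open Cfsg

namespace Cfsg.Agent.S4798

open Cfsg Cfsg.Agent.H7

/-- Let p be a prime and χ a faithful irreducible complex character of the finite group G (χ(g) = χ(1) only for g = 1), so that its codegree is #G / χ(1). Then #G / χ(1) is a power of p if and only if χ is induced from a character of a Sylow p-subgroup of G. -/
theorem result {G : Type*} [Group G] [Fintype G] (p : ℕ) [Fact p.Prime] (χ : Cfsg.IrrCharacter G) (hfaith : ∀ g : G, (χ : G → ℂ) g = (χ : G → ℂ) 1 → g = 1) : (∃ k : ℕ, Nat.card G = p ^ k * Cfsg.charDegree (χ : G → ℂ)) ↔ ∃ (P : Sylow p G) (θ : ↥(P : Subgroup G) → ℂ), Cfsg.IsCharacter ↥(P : Subgroup G) θ ∧ (χ : G → ℂ) = Cfsg.indFun (P : Subgroup G) θ := by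
  have hp : p.Prime := Fact.out
  constructor
  · rintro ⟨k, hk⟩
    obtain ⟨P⟩ : Nonempty (Sylow p G) := inferInstance
    obtain ⟨n, hn⟩ := P.isPGroup'.exists_card_eq
    have h1 := (P : Subgroup G).card_mul_index
    have h2 : (P : Subgroup G).index ∣ charDegree (χ : G → ℂ) :=
      (Nat.Coprime.pow_right k ((Nat.Prime.coprime_iff_not_dvd hp).mpr P.not_dvd_index).symm).dvd_of_dvd_mul_left
        (hk ▸ Subgroup.index_dvd_card _)
    obtain ⟨c, hc⟩ := h2
    have h0 : 0 < (P : Subgroup G).index := Nat.pos_of_ne_zero Subgroup.index_ne_zero_of_finite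
    have h3 : c ∣ p ^ n := by
      rw [hn, hk, hc, mul_comm _ c, ← mul_assoc, Nat.mul_left_inj h0.ne'] at h1
      exact h1 ▸ dvd_mul_left _ _
    obtain ⟨a, -, rfl⟩ := (Nat.dvd_prime_pow hp).mp h3
    have h4 : ¬ p ^ (a + 1) ∣ charDegree (fun x => (χ : G → ℂ) ((P : Subgroup G).subtype x)) := by
      rw [deg_comp, hc, pow_succ, mul_comm (P : Subgroup G).index,
        Nat.mul_dvd_mul_iff_left (pow_pos hp.pos a)]
      exact P.not_dvd_index
    obtain ⟨θ, hθ, h5, h6⟩ : ∃ θ, IsIrrCharacter P θ ∧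
        ip (fun x => (χ : G → ℂ) ((P : Subgroup G).subtype x)) θ ≠ 0 ∧
        ¬ p ^ (a + 1) ∣ charDegree θ := by
      by_contra! H
      exact h4 (dvd_deg_of_forall (char_comp _ (irr_char χ.2)) H)
    refine ⟨P, θ, irr_char hθ, ?_⟩
    rw [← ind_subtype]
    have h7 : ip (ind (P : Subgroup G).subtype θ) χ ≠ 0 := by
      rwa [ip_ne_zero_comm, ip_ind_right _ _ (irr_cf χ.2)]
    have h8 := deg_le_of_ip (char_ind _ (irr_char hθ)) χ.2 h7
    obtain ⟨b, -, hb⟩ := (Nat.dvd_prime_pow hp).mp (hn ▸ irr_degree_dvd_card hθ)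
    have h9 := deg_ind (P : Subgroup G).subtype_injective (irr_char hθ)
    rw [Subgroup.range_subtype, hb] at h9
    rw [h9, hc, Nat.mul_le_mul_left_iff h0, Nat.pow_le_pow_iff_right hp.one_lt] at h8
    rw [hb, Nat.pow_dvd_pow_iff_le_right hp.one_lt] at h6
    refine (eq_irr_of_degree_eq (char_ind _ (irr_char hθ)) χ.2 h7 ?_).symm
    rw [char_one_eq (char_ind _ (irr_char hθ)), char_one_eq (irr_char χ.2), h9, hc,
      show b = a by omega]
  · rintro ⟨P, θ, hθ, h⟩
    rw [← ind_subtype] at h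
    have h1 := irr_of_irr_ind (P : Subgroup G).subtype_injective hθ (h ▸ χ.2)
    obtain ⟨n, hn⟩ := P.isPGroup'.exists_card_eq
    obtain ⟨c, hc⟩ := irr_degree_dvd_card h1
    obtain ⟨b, -, rfl⟩ := (Nat.dvd_prime_pow hp).mp (hn ▸ hc ▸ dvd_mul_left _ _ : c ∣ p ^ n)
    refine ⟨b, ?_⟩
    rw [h, deg_ind (P : Subgroup G).subtype_injective hθ, Subgroup.range_subtype,
      ← Nat.card_eq_fintype_card.trans Nat.card_eq_fintype_card.symm,
      ← (P : Subgroup G).card_mul_index, hc]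
    ring

end Cfsg.Agent.S4798
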