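import Cfsg.Statements.S4801
import Mathlib
import Cfsg.Agent.H7.Cod

set_option autoImplicit false
open Cfsg

namespace Cfsg.Agent.S4801

open Cfsg Cfsg.Agent.H7

/-- The codegree of an irreducible complex character χ of a finite group G is [G : ker χ] / χ(1), where ker χ is the set of elements at which χ takes the value χ(1). Let S be a finite simple group and G a finite group such that every codegree of an irreducible character of S is a codegree of an irreducible character of G. Then the order of S divides the order of G. -/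
theorem result {S : Type*} [Group S] [Finite S] (hS : IsSimpleGroup S) {G : Type*} [Group G] [Finite G] (hsub : ∀ χ : Cfsg.IrrCharacter S, ∃ ψ : Cfsg.IrrCharacter G, (Nat.card S / (Nat.card {g : S // (χ : S → ℂ) g = (χ : S → ℂ) 1} * Cfsg.charDegree (χ : S → ℂ))) = (Nat.card G / (Nat.card {g : G // (ψ : G → ℂ) g = (ψ : G → ℂ) 1} * Cfsg.charDegree (ψ : G → ℂ)))) : Nat.card S ∣ Nat.card G := by
  refine (Nat.dvd_iff_prime_pow_dvd_dvd _ _).mpr fun p k hp h => ?_
  rcases k with _ | k
  · simp
  obtain ⟨χ, hχ, h1, h2⟩ := exists_pPrime_ne_one hp ((dvd_pow_self p k.succ_ne_zero).trans h)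
  obtain ⟨ψ, h3⟩ := hsub ⟨χ, hχ⟩
  have h4 := cod_mul hχ
  rw [H6.charKer_eq_bot_of_simple hχ h1, Subgroup.index_bot] at h4
  rw [← h4] at h
  have h5 := (Nat.Coprime.pow_left _ ((Nat.Prime.coprime_iff_not_dvd hp).mpr h2)).dvd_of_dvd_mul_right h
  exact ((h3 ▸ h5).mul_right _).trans ((cod_mul ψ.2).dvd.trans (Subgroup.index_dvd_card _))

end Cfsg.Agent.S4801
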