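import Cfsg.Statements.S4802
import Mathlib
import Cfsg.Agent.H7.Cod

set_option autoImplicit false
open Cfsg

namespace Cfsg.Agent.S4802

open Cfsg Cfsg.Agent.H7

/-- Let N < M be normal subgroups of the finite group G and g ∈ M ∖ N. Then the conjugacy class of g is exactly M ∖ N if and only if every irreducible complex character of G whose kernel contains N takes the same value at all elements of M ∖ N, and every irreducible complex character of G whose kernel does not contain N vanishes at g. -/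
theorem result {G : Type*} [Group G] [Finite G] (N M : Subgroup G) [N.Normal] [M.Normal] (hNM : N < M) (g : G) (hgM : g ∈ M) (hgN : g ∉ N) : {h : G | IsConj g h} = (M : Set G) \ (N : Set G) ↔ ((∀ χ : Cfsg.IrrCharacter G, (∀ x ∈ N, (χ : G → ℂ) x = (χ : G → ℂ) 1) → ∀ x ∈ M, x ∉ N → ∀ y ∈ M, y ∉ N → (χ : G → ℂ) x = (χ : G → ℂ) y) ∧ (∀ χ : Cfsg.IrrCharacter G, (∃ x ∈ N, (χ : G → ℂ) x ≠ (χ : G → ℂ) 1) → (χ : G → ℂ) g = 0)) := by
  constructor
  · intro h
    have h1 : ∀ x ∈ M, x ∉ N → IsConj g x := fun x h1 h2 => (h.ge ⟨h1, h2⟩ :)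
    refine ⟨fun χ _ x hx hx' y hy hy' => ?_, fun χ ⟨x, hx, h2⟩ => ?_⟩
    · rw [← cf_isConj (irr_cf χ.2) (h1 x hx hx'), cf_isConj (irr_cf χ.2) (h1 y hy hy')]
    · letI := Fintype.ofFinite N
      have h3 := H6.sum_normal_coset_eq_zero N χ.2
        (fun e => h2 (H6.apply_eq_of_mem_charKer (e hx))) g
      rw [Finset.sum_congr rfl fun n _ => (cf_isConj (irr_cf χ.2) (h1 _ (mul_mem (hNM.le n.2) hgM)
        fun e => hgN ((N.mul_mem_cancel_left n.2).mp e))).symm] at h3
      simpa using h3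
  · rintro ⟨h1, h2⟩
    ext x
    constructor
    · intro h
      obtain ⟨c, rfl⟩ := isConj_iff.mp h
      exact ⟨Subgroup.Normal.conj_mem inferInstance _ hgM c,
        fun e => hgN (by simpa [mul_assoc] using Subgroup.Normal.conj_mem inferInstance _ e c⁻¹)⟩
    · rintro ⟨h3, h4⟩
      refine isConj_of_agree fun χ hχ => ?_
      by_cases e : ∀ x ∈ N, χ x = χ 1
      · exact Or.inr (h1 ⟨χ, hχ⟩ e x h3 h4 g hgM hgN)
      · push Not at e
        exact Or.inl (h2 ⟨χ, hχ⟩ e)

end Cfsg.Agent.S4802
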