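import Cfsg.Statements.S4807
import Mathlib
import Cfsg.Agent.H7.McKay2

set_option autoImplicit false
open Cfsg

namespace Cfsg.Agent.S4807

open H7

/-- Let p be a prime and G a finite p-solvable group, L a normal subgroup of G, S a Sylow p-subgroup of G and P the subgroup generated by L and S (so P/L is a Sylow p-subgroup of G/L), and let ν be an irreducible complex character of L that is invariant under conjugation by every element of P. Let N be the normalizer of P in G (it contains L). Then the number of irreducible characters of G of degree prime to p lying over ν (restriction to L not orthogonal to ν) equals the number of irreducible characters of N of degree prime to p lying over ν. -/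
theorem result {G : Type*} [Group G] [Finite G] (p : ℕ) [Fact p.Prime] (hG : Cfsg.IsPSolvable p G) (L : Subgroup G) [L.Normal] (S : Sylow p G) (P : Subgroup G) (hP : P = L ⊔ (S : Subgroup G)) (hLN : L ≤ (Subgroup.normalizer ((P : Subgroup G) : Set G))) (ν : Cfsg.IrrCharacter ↥L) (hν : ∀ x ∈ P, Cfsg.IsConjCharOf L x (ν : ↥L → ℂ) (ν : ↥L → ℂ)) : Nat.card {χ : Cfsg.IrrCharacter G // ¬ p ∣ Cfsg.charDegree (χ : G → ℂ) ∧ (∑ᶠ l : ↥L, (χ : G → ℂ) (l : G) * (starRingEnd ℂ) ((ν : ↥L → ℂ) l)) ≠ 0} = Nat.card {ψ : Cfsg.IrrCharacter ↥(Subgroup.normalizer ((P : Subgroup G) : Set G)) // ¬ p ∣ Cfsg.charDegree (ψ : ↥(Subgroup.normalizer ((P : Subgroup G) : Set G)) → ℂ) ∧ (∑ᶠ l : ↥L, (ψ : ↥(Subgroup.normalizer ((P : Subgroup G) : Set G)) → ℂ) (Subgroup.inclusion hLN l) * (starRingEnd ℂ) ((ν : ↥L → ℂ) l)) ≠ 0} := by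
  have hS := H4.IsSylowIn.sylow_top S
  have hL : Nrm ⊤ L := fun g _ x hx => ‹L.Normal›.conj_mem x hx g
  have := cnt_mckay hLN le_top (H1.isPSolvable_subgroup Fact.out hG ⊤) hS
    (hP ▸ le_sup_right.trans ((normalizer_sup_eq hS le_top hL).ge.trans inf_le_right)) hL ν.2
    fun s hs => hν s (hP ▸ Subgroup.mem_sup_right hs)
  rw [cnt_top] at this
  simpa only [finsum_ne_zero_iff, cnt, Gd, Ov, false_imp_iff, and_true] using this

end Cfsg.Agent.S4807
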