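import Cfsg.Statements.S4812
import Mathlib
import Cfsg.Agent.L0.PSL2
import Cfsg.Agent.H7.U33

set_option autoImplicit false
open Cfsg

namespace Cfsg.Agent.S4812

theorem key {A : Type*} [Group A] [Finite A] (h1 : 2 < Nat.card A)
    (h3 : Nat.card {a : A // a ^ 2 = 1} ≤ 2) : ∃ a : A, a ^ 2 ≠ 1 := by
  have := L0.card_not_sq (A := A)
  exact nonempty_subtype.1 (Nat.card_pos_iff.1 (by omega)).1

/-- Let F be a finite field of characteristic 2 with q ≥ 4 elements and let S be isomorphic to PSL(2,F) or to SL(2,F). Then the vertices of the character degree graph of S are the primes dividing q(q²−1), and two distinct primes are adjacent exactly when both divide q + 1 or both divide q − 1; so the graph has the three connected components {2}, the primes dividing q + 1 and the primes dividing q − 1, each complete. -/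
theorem result (F : Type*) [Field F] [Fintype F] [CharP F 2] (q : ℕ) (hq : Fintype.card F = q) (h4 : 4 ≤ q) {S : Type*} [Group S] [Finite S] (hS : Nonempty (S ≃* Matrix.ProjectiveSpecialLinearGroup (Fin 2) F) ∨ Nonempty (S ≃* Matrix.SpecialLinearGroup (Fin 2) F)) : Cfsg.degreePrimes S = {r : ℕ | r.Prime ∧ r ∣ q * (q ^ 2 - 1)} ∧ ∀ r s : ℕ, (Cfsg.degreeGraph S).Adj r s ↔ (r ≠ s ∧ r.Prime ∧ s.Prime ∧ ((r ∣ q + 1 ∧ s ∣ q + 1) ∨ (r ∣ q - 1 ∧ s ∣ q - 1))) := by
  subst hq
  have h2 : (2 : F) = 0 := CharP.cast_eq_zero F 2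
  obtain ⟨n, -, hn⟩ := FiniteField.card F 2
  obtain ⟨e⟩ : Nonempty (S ≃* L0.S2 F) :=
    hS.elim (fun ⟨e⟩ => ⟨e.trans (L0.pjEquiv h2).symm⟩) id
  have hev : Fintype.card F % 2 = 0 := by
    rw [hn]; exact Nat.mod_eq_zero_of_dvd (dvd_pow_self _ n.ne_zero)
  have hd := H7.charDegrees_congr e
  have hout : ∀ m ∈ charDegrees S, m ∣ Fintype.card F ∨ m ∣ Fintype.card F + 1 ∨
      m ∣ Fintype.card F - 1 := by
    rw [hd]
    rintro _ ⟨χ, rfl⟩
    rcases L0.irr_s2_cases' (L0.QExt F) χ.2 (H8.irr_one_eq χ) with h | h | h | h | h | h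
    · exact .inl (h.1 ▸ one_dvd _)
    · exact .inl (dvd_of_eq h.1)
    · exact .inr (.inl (dvd_of_eq h.1))
    · exact .inr (.inr (dvd_of_eq h.1))
    all_goals omega
  have hA : Fintype.card F ∈ charDegrees S := hd ▸ H7.mem_charDegrees L0.isIrr_Sts L0.Sts_one
  have hB : Fintype.card F + 1 ∈ charDegrees S := by
    obtain ⟨e⟩ := MulChar.mulEquiv_units F ℂ
    have : Finite (MulChar F ℂ) := Finite.of_equiv Fˣ e.symm.toEquiv
    obtain ⟨β, hβ⟩ := key (A := MulChar F ℂ)
      (by rw [Nat.card_congr e.toEquiv, L0.card_units_eq]; omega)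
      (by rw [L0.card_mulChar_sq]; exact L0.card_sq_le_two F)
    exact hd ▸ H7.mem_charDegrees ((L0.isIrr_Rs_iff β).2 hβ) (by rw [L0.Rs_one]; simp)
  have hC : Fintype.card F - 1 ∈ charDegrees S := by
    obtain ⟨η, hη⟩ := key (A := L0.K1 F (L0.QExt F) →* ℂˣ) (by rw [L0.card_hom_K1]; omega)
      (by rw [L0.card_hom_K1_sq]; exact L0.card_sq_le_two F)
    exact hd ▸ H7.mem_charDegrees (L0.isIrr_Ps F (θ := L0.extK F η)
      (by rwa [L0.eqK_inv_iff, L0.resK_extK])) (by rw [L0.Ps_one, L0.cast_card_sub_one])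
  constructor
  · ext r
    rw [L0.sq_sub_one_eq]
    constructor
    · rintro ⟨hr, m, hm, h⟩
      refine ⟨hr, ?_⟩
      rcases hout m hm with h1 | h1 | h1
      · exact (h.trans h1).mul_right _
      · exact ((h.trans h1).mul_left _).mul_left _
      · exact ((h.trans h1).mul_right _).mul_left _
    · rintro ⟨hr, h⟩
      refine ⟨hr, ?_⟩
      rcases (Nat.Prime.dvd_mul hr).1 h with h | h
      · exact ⟨_, hA, h⟩
      · rcases (Nat.Prime.dvd_mul hr).1 h with h | h
        · exact ⟨_, hC, h⟩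
        · exact ⟨_, hB, h⟩
  · intro r s
    constructor
    · rintro ⟨hne, hr, hs, m, hm, h⟩
      refine ⟨hne, hr, hs, ?_⟩
      have h1 : r ∣ m := (Dvd.intro _ rfl).trans h
      have h3 : s ∣ m := (Dvd.intro_left _ rfl).trans h
      rcases hout m hm with h4 | h4 | h4
      · rw [hn] at h4
        exact absurd (((Nat.prime_dvd_prime_iff_eq hr Nat.prime_two).1
          (hr.dvd_of_dvd_pow (h1.trans h4))).trans ((Nat.prime_dvd_prime_iff_eq hs Nat.prime_two).1
          (hs.dvd_of_dvd_pow (h3.trans h4))).symm) hne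
      · exact .inl ⟨h1.trans h4, h3.trans h4⟩
      · exact .inr ⟨h1.trans h4, h3.trans h4⟩
    · rintro ⟨hne, hr, hs, h⟩
      have hco := (Nat.coprime_primes hr hs).2 hne
      exact ⟨hne, hr, hs, h.elim (fun h => ⟨_, hB, hco.mul_dvd_of_dvd_of_dvd h.1 h.2⟩)
        fun h => ⟨_, hC, hco.mul_dvd_of_dvd_of_dvd h.1 h.2⟩⟩

end Cfsg.Agent.S4812
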