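import Cfsg.Statements.S4813
import Mathlib
import Cfsg.Agent.H9.Ez1

set_option autoImplicit false
open Cfsg

namespace Cfsg.Agent.S4813

/-- If every irreducible complex character of the finite group G of degree greater than one has prime degree, then G has at most three distinct irreducible character degrees. -/
theorem result {G : Type*} [Group G] [Finite G] (hprime : ∀ d ∈ Cfsg.charDegrees G, d = 1 ∨ d.Prime) : Nat.card ↥(Cfsg.charDegrees G) ≤ 3 := by
  classical
  obtain ⟨m, n, h⟩ := H9.Ez.PD.three (G := G) fun χ hχ => hprime _ ⟨⟨χ, hχ⟩, rfl⟩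
  have : charDegrees G ⊆ (({1, m, n} : Finset ℕ) : Set ℕ) := by
    rintro _ ⟨χ, rfl⟩
    simpa using h χ.1 χ.2
  exact (Set.ncard_le_ncard this (Finset.finite_toSet _)).trans (by rw [Set.ncard_coe_finset]; exact Finset.card_le_three)

end Cfsg.Agent.S4813
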