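import Cfsg.Statements.S4814
import Mathlib
import Cfsg.Agent.H7.Cod

set_option autoImplicit false
open Cfsg

namespace Cfsg.Agent.S4814

open Cfsg Cfsg.Agent.H7
open scoped ComplexConjugate

/-- Let G be a finite group such that the sum, over the irreducible complex characters χ of G, of 1/χ(1)² is less than 2. Then every element of G is a product of two commutators. -/
theorem result {G : Type*} [Group G] [Finite G]
    (h : ∑ᶠ χ : Cfsg.IrrCharacter G, 1 / ‖(χ : G → ℂ) 1‖ ^ 2 < (2 : ℝ)) (g : G) :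
    ∃ a b c d : G, (a * b * a⁻¹ * b⁻¹) * (c * d * c⁻¹ * d⁻¹) = g := by
  classical
  by_contra! H
  letI := Fintype.ofFinite G
  have h1 : ∀ χ, IsIrrCharacter G χ → ∀ y, ∑ b, ∑ a, χ (a * b * a⁻¹ * b⁻¹ * y) =
      Nat.card G ^ 2 * χ y / χ 1 ^ 2 := fun χ hχ y => by
    have h2 := H6.sum_conj_mul_irr_mul (irr_cf hχ) hχ y
    rw [H6.classInner_irr_self hχ] at h2
    simp only [mul_assoc _ _ y, mul_assoc _ _ (_ * y)]
    simp only [← mul_assoc _ _ (_ * y), H6.sum_irr_conj_mul hχ]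
    rw [← Equiv.sum_comp (Equiv.inv G)]
    simp only [Equiv.inv_apply, inv_inv, char_inv (irr_char hχ), mul_assoc, mul_div_assoc]
    simp only [← mul_div_assoc, ← Finset.mul_sum, ← Finset.sum_div, h2]
    field_simp
  have h2 : ∑ χ ∈ irrSet G, ∑ d, ∑ c, ∑ b, ∑ a,
      χ 1 * χ (a * b * a⁻¹ * b⁻¹ * (c * d * c⁻¹ * d⁻¹ * g⁻¹)) = 0 := by
    rw [Finset.sum_comm]
    refine Finset.sum_eq_zero fun d _ => ?_
    rw [Finset.sum_comm]
    refine Finset.sum_eq_zero fun c _ => ?_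
    rw [Finset.sum_comm]
    refine Finset.sum_eq_zero fun b _ => ?_
    rw [Finset.sum_comm]
    refine Finset.sum_eq_zero fun a _ => ?_
    rw [← sum_irr_eq_sum (fun χ => χ 1 * χ _)]
    exact H6.sum_irr_degree_mul fun e => H a b c d (by
      rw [← mul_assoc] at e; exact mul_inv_eq_one.mp e)
  rw [Finset.sum_congr rfl (g := fun χ : G → ℂ => (Nat.card G : ℂ) ^ 4 * (χ g⁻¹ / χ 1 ^ 3)) fun χ hχ => by
    have h3 := mem_irrSet.mp hχ
    have h4 := irr_one_ne_zero h3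
    simp only [← Finset.mul_sum, h1 χ h3, ← Finset.sum_div]
    field_simp, ← Finset.mul_sum, mul_eq_zero, ← Finset.add_sum_erase _ _ one_mem_irrSet] at h2
  replace h2 := h2.resolve_left (pow_ne_zero _ (card_ne_zero' G))
  rw [finsum_irr_eq_sum (fun χ => 1 / ‖χ 1‖ ^ 2), ← Finset.add_sum_erase _ _ one_mem_irrSet] at h
  have h3 : ‖∑ χ ∈ (irrSet G).erase 1, χ g⁻¹ / χ 1 ^ 3‖ ≤
      ∑ χ ∈ (irrSet G).erase 1, 1 / ‖χ 1‖ ^ 2 := by
    refine norm_sum_le_of_le _ fun χ hχ => ?_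
    have h3 := mem_irrSet.mp (Finset.mem_of_mem_erase hχ)
    have h4 := norm_pos_iff.mpr (irr_one_ne_zero h3)
    rw [norm_div, norm_pow, div_le_div_iff₀ (by positivity) (by positivity)]
    have := H6.isCharacter_norm_le (irr_char h3) g⁻¹
    nlinarith [pow_pos h4 2]
  rw [eq_neg_of_add_eq_zero_right h2] at h3
  simp at h h3
  linarith

end Cfsg.Agent.S4814
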