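import Cfsg.Statements.S4828
import Mathlib
import Cfsg.Agent.H9.Misc

set_option autoImplicit false
open Cfsg

namespace Cfsg.Agent.S4828

/-- Let p be a prime, M a maximal ideal of the algebraic integers containing p, and (Q, e) a Brauer pair of the finite group G (Q a p-subgroup, e a block of C_G(Q)). Then (Q, e) is a maximal Brauer pair of some block of G if and only if e contains an irreducible character θ such that θ takes the value θ(1) at every element of Z(Q) = Q ∩ C_G(Q), the p-part of θ(1) times the p-part of the order of Z(Q) equals the p-part of the order of C_G(Q) (θ has defect zero as a character of C_G(Q)/Z(Q)), and every element of N_G(Q) of p-power order that stabilizes e lies in Q·C_G(Q) (the stabilizer of e in N_G(Q) has index prime to p over Q·C_G(Q)). -/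
theorem result {G : Type*} [Group G] [Finite G] (p : ℕ) [Fact p.Prime] (M : Ideal Cfsg.AlgInt) (hM : Cfsg.IsPModular p M) (Q : Subgroup G) (e : Set (Cfsg.IrrCharacter (Subgroup.centralizer (Q : Set G)))) (he : Cfsg.IsBrauerPair p M Q e) :
    (∃ B : Set (Cfsg.IrrCharacter G), Cfsg.IsMaximalBrauerPair p M B Q e) ↔
      ∃ θ ∈ e, (∀ z : Subgroup.centralizer (Q : Set G), (z : G) ∈ Q → (θ : Subgroup.centralizer (Q : Set G) → ℂ) z = (θ : Subgroup.centralizer (Q : Set G) → ℂ) 1) ∧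
        (Cfsg.charDegree (θ : Subgroup.centralizer (Q : Set G) → ℂ)).factorization p + (Nat.card ↥(Q ⊓ Subgroup.centralizer (Q : Set G))).factorization p = (Nat.card (Subgroup.centralizer (Q : Set G))).factorization p ∧
        (∀ g : G, g ∈ Subgroup.normalizer (Q : Set G) → Cfsg.StabilizesBlock (Subgroup.centralizer (Q : Set G)) e g → (∃ k : ℕ, orderOf g = p ^ k) → g ∈ Q ⊔ Subgroup.centralizer (Q : Set G)) := by
  haveI := hM.2.1; haveI : H9.PMod M p := ⟨hM⟩
  obtain ⟨h1, h2⟩ := H9.isBrauerPair_iff.1 he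
  obtain ⟨b, ⟨hb, h3⟩, -⟩ := H9.existsUnique_isPairOf (T := ⊤) le_rfl le_top h2
  have h4 := h3.isDef_iff hb le_top
  rw [H9.isDef_sup_centralizer_iff h2, top_inf_eq, H9.isDef_centralizer_iff h2.isP h1] at h4
  have h5 : Q ⊔ Subgroup.centralizer (Q : Set G) ≤ H9.pstab ⊤ Q (H9.eI M e) :=
    sup_le (h2.le_pstab le_top) (by simpa using h2.centralizer_le_pstab)
  have h6 : H9.pstab ⊤ Q (H9.eI M e) ≤ Subgroup.normalizer (Q ⊔ Subgroup.centralizer (Q : Set G) : Subgroup G) :=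
    (H9.pstab_le.trans inf_le_right).trans (H9.normalizer_le_normalizer_sup Q)
  refine ⟨fun ⟨B, hB⟩ => ?_, fun ⟨θ, hθ, h7, h8, h9⟩ => ?_⟩
  · obtain ⟨hB, -, h7⟩ := H9.maxPair_iff.1 hB
    obtain ⟨b', -, h8⟩ := H9.existsUnique_isPairOf (T := ⊤) le_rfl le_top h2
    obtain ⟨⟨θ, hθ, h9, h10⟩, h11⟩ := h4.1 ((h8 _ ⟨hb, h3⟩).trans (h8 _ ⟨h7.blk, h7.pair⟩).symm ▸ h7.isDef)
    exact ⟨θ, hθ, h9, h10, fun g hg hs hk =>
      H9.mem_of_pElt_of_not_dvd h5 h6 h11 ((H9.mem_pstab_iff h1).2 ⟨hg, hs⟩) hk⟩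
  · obtain ⟨B, hB, rfl⟩ := H9.exists_eB hb
    refine ⟨B, H9.maxPair_iff.2 ⟨hB, h1, hb, h4.2 ⟨⟨θ, hθ, h7, h8⟩, fun h => ?_⟩, h3⟩⟩
    obtain ⟨S, hS, -⟩ := H18.exists_sylIn_ge (IsPGroup.of_bot (p := p)) (bot_le (a := H9.pstab ⊤ Q (H9.eI M e)))
    refine hS.not_dvd_relIndex (h.trans (Subgroup.relIndex_dvd_of_le_left _ fun x hx => ?_))
    obtain ⟨h10, h11⟩ := (H9.mem_pstab_iff h1).1 (hS.le hx)
    exact h9 x h10 h11 (H8.pElt_of_mem hS.isP hx)

end Cfsg.Agent.S4828
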