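import Cfsg.Statements.S4838
import Mathlib
import Cfsg.Agent.H7.Gag

set_option autoImplicit false
open Cfsg

namespace Cfsg.Agent.S4838

open Cfsg Cfsg.Agent.H7
open scoped commutatorElement

/-- Let G be a finite group of order greater than 2 with an irreducible character χ nonzero on exactly two conjugacy classes, N the normal p-subgroup of elements where χ is nonzero, and P a Sylow p-subgroup of G. Then (a) for every x outside N the centralizer of x in G has the same order as the centralizer of xN in G/N; (b) the centre of P lies in N, and equals N exactly when P is normal in G; (c) N, viewed inside P, is a term of the upper central series of P. -/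
theorem result {G : Type*} [Group G] [Finite G] (hG : 2 < Nat.card G) (χ : Cfsg.IrrCharacter G) (hχ : Nat.card {C : ConjClasses G // ∃ g ∈ C.carrier, (χ : G → ℂ) g ≠ 0} = 2) (p : ℕ) [Fact p.Prime] (N : Subgroup G) [N.Normal] (hN : ∀ g : G, g ∈ N ↔ (χ : G → ℂ) g ≠ 0) (hNp : IsPGroup p N) (hN1 : N ≠ ⊥) (P : Sylow p G) :
    (∀ x : G, x ∉ N → Nat.card (Subgroup.centralizer ({x} : Set G)) = Nat.card (Subgroup.centralizer ({(x : G ⧸ N)} : Set (G ⧸ N)))) ∧
      ((Subgroup.center ↥(P : Subgroup G)).map (P : Subgroup G).subtype ≤ N ∧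
        ((Subgroup.center ↥(P : Subgroup G)).map (P : Subgroup G).subtype = N ↔ (P : Subgroup G).Normal)) ∧
      (∃ i : ℕ, Subgroup.upperCentralSeries ↥(P : Subgroup G) i = N.subgroupOf (P : Subgroup G)) := by
  obtain ⟨M, h⟩ := exists_gag hG χ.2 hχ
  obtain rfl : M = N := Subgroup.ext fun g => (h.supp g).symm.trans (hN g).symm
  have hMP : M ≤ P := hNp.le_sylow_of_normal P
  haveI := P.isPGroup'.isNilpotent
  have key : ∀ i, Subgroup.upperCentralSeries P i < M.subgroupOf P →
      Subgroup.upperCentralSeries P (i + 1) ≤ M.subgroupOf P := by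
    intro i hi x hx
    by_contra h1
    set Z := Subgroup.upperCentralSeries P i with hZ
    have h2 : ¬ M.subgroupOf P ≤ Z ⊔ ⁅M.subgroupOf P, ⊤⁆ := fun e => by
      have h2 : ∀ j, M.subgroupOf (P : Subgroup G) ≤ Z ⊔ Subgroup.lowerCentralSeries ⊤ j := by
        have : ∀ j, M.subgroupOf (P : Subgroup G) ≤
            Z ⊔ M.subgroupOf P ⊓ Subgroup.lowerCentralSeries ⊤ j := by
          intro j
          induction j with
          | zero => simp
          | succ j ih =>
            refine e.trans (sup_le le_sup_left ((Subgroup.commutator_mono ih le_rfl).trans ?_))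
            rw [Subgroup.commutator_le]
            intro a ha b _
            obtain ⟨z, hz, c, hc, rfl⟩ := Subgroup.mem_sup_of_normal_left.mp ha
            have : ⁅z * c, b⁆ = (z * (⁅c, b⁆ * (b * z⁻¹ * b⁻¹) * ⁅c, b⁆⁻¹)) * ⁅c, b⁆ := by group
            rw [this]
            refine Subgroup.mul_mem_sup (mul_mem hz (Subgroup.Normal.conj_mem inferInstance _
              (Subgroup.Normal.conj_mem inferInstance _ (inv_mem hz) _) _)) ⟨?_, ?_⟩
            · exact Subgroup.commutator_le_left _ ⊤ (Subgroup.commutator_mem_commutator hc.1 trivial)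
            · exact Subgroup.commutator_mem_commutator hc.2 trivial
        exact fun j => (this j).trans (sup_le_sup_left inf_le_right _)
      obtain ⟨n, hn⟩ := Subgroup.nilpotent_iff_lowerCentralSeries.mp this
      exact hi.not_ge (by simpa [hn] using h2 n)
    obtain ⟨n, hn, h3⟩ := SetLike.not_le_iff_exists.mp h2
    obtain ⟨ψ, hψ, h4, h5⟩ : ∃ ψ, IsIrrCharacter P ψ ∧ Z ⊔ ⁅M.subgroupOf P, ⊤⁆ ≤ H6.charKer ψ ∧
        n ∉ H6.charKer ψ := by
      by_contra! e
      exact h3 (H6.mem_of_forall_irr_charKer _ e)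
    have h6 := h.vanish hNp P hψ (fun e => h5 (e hn)) (le_sup_right.trans h4) h1
    have h7 := (H6.mem_charCenter_iff (irr_char hψ)).mp (H6.mem_charCenter_of_commutator hψ
      fun y => h4 (Subgroup.mem_sup_left (hx y)))
    rw [h6, norm_zero, eq_comm, norm_eq_zero] at h7
    exact irr_one_ne_zero hψ h7
  have h1 : (Subgroup.center P).map (P : Subgroup G).subtype ≤ M := by
    rw [Subgroup.map_le_iff_le_comap, ← Subgroup.upperCentralSeries_one]
    refine key 0 (bot_lt_iff_ne_bot.mpr fun e => hN1 ?_)
    rwa [Subgroup.subgroupOf_eq_bot, disjoint_iff, inf_eq_left.mpr hMP] at e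
  refine ⟨fun x hx => h.card_centralizer hx, ⟨h1, fun e => ?_, fun _ => le_antisymm h1
    (h.le_of_normal _ fun e => ?_)⟩, ?_⟩
  · obtain ⟨x, hx, h2⟩ := M.bot_or_exists_ne_one.resolve_left hN1
    have h3 : IsPGroup p (Subgroup.centralizer (M : Set G)) :=
      (h.isPGroup_centralizer hNp hx h2).to_le (Subgroup.centralizer_le (by simpa using hx))
    rw [← P.is_maximal' h3 fun g hg y hy => ?_]
    · infer_instance
    obtain ⟨y, h4, rfl⟩ := e.ge hy
    exact (congrArg Subtype.val (Subgroup.mem_center_iff.mp h4 ⟨g, hg⟩)).symm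
  · haveI := (Subgroup.nontrivial_iff_ne_bot (P : Subgroup G)).mpr fun e =>
      hN1 (eq_bot_iff.mpr (e ▸ hMP))
    exact (Subgroup.nontrivial_iff_ne_bot _).mp P.isPGroup'.center_nontrivial
      ((Subgroup.map_eq_bot_iff_of_injective _ (Subgroup.subtype_injective _)).mp e)
  · by_contra! e
    have h2 : ∀ i, Subgroup.upperCentralSeries P i ≤ M.subgroupOf P := fun i => by
      induction i with
      | zero => simp
      | succ i ih => exact key i (lt_of_le_of_ne ih (e i))
    obtain ⟨n, hn⟩ := this.nilpotent'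
    exact e n (le_antisymm (h2 n) (hn ▸ le_top))

end Cfsg.Agent.S4838
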