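import Cfsg.Statements.S4839
import Mathlib
import Cfsg.Agent.H7.Gag
import Cfsg.Agent.H27.Real2
import Cfsg.Agent.H2.Cores
import Cfsg.Agent.H6.Frobenius
import Cfsg.Agent.H16.Zass3
-- import your own Cfsg.Agent.* helpers here

set_option autoImplicit false
open Cfsg

namespace Cfsg.Agent.S4839

open Cfsg.Agent.H7 Subgroup

theorem fpf_iff {G : Type*} [Group G] [Finite G] (N : Subgroup G) [hN : N.Normal] (g : G) :
    (∀ u ∈ N, u * g = g * u → u = 1) ↔ ∀ n ∈ N, ∃ u ∈ N, u * g * u⁻¹ = n * g := by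
  let φ : N → N := fun u => ⟨u * (g * (u : G)⁻¹ * g⁻¹), mul_mem u.2 (hN.conj_mem _ (inv_mem u.2) g)⟩
  constructor
  · intro h n hn
    obtain ⟨u, hu⟩ := (Finite.injective_iff_surjective (f := φ)).1 (fun u v e => by
      have e' : (u : G) * (g * (u : G)⁻¹ * g⁻¹) = v * (g * (v : G)⁻¹ * g⁻¹) := congrArg Subtype.val e
      have := h ((v : G)⁻¹ * u) (mul_mem (inv_mem v.2) u.2) (by
        rw [show (v : G)⁻¹ * u * g = (v : G)⁻¹ * (u * (g * (u : G)⁻¹ * g⁻¹)) * g * u by group, e']; group)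
      exact Subtype.ext (inv_mul_eq_one.1 this).symm) ⟨n, hn⟩
    have e' : (u : G) * (g * (u : G)⁻¹ * g⁻¹) = n := congrArg Subtype.val hu
    exact ⟨u, u.2, by rw [← e']; group⟩
  · intro h u hu e
    have := (Finite.injective_iff_surjective (f := φ)).2 (fun n => by
      obtain ⟨u, hu, e⟩ := h n n.2
      exact ⟨⟨u, hu⟩, Subtype.ext (show u * (g * u⁻¹ * g⁻¹) = n by
        rw [show u * (g * u⁻¹ * g⁻¹) = u * g * u⁻¹ * g⁻¹ by group, e]; group)⟩)
      (a₁ := ⟨u, hu⟩) (a₂ := 1) (Subtype.ext (show u * (g * u⁻¹ * g⁻¹) = 1 * (g * 1⁻¹ * g⁻¹) by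
        rw [show u * (g * u⁻¹ * g⁻¹) = u * g * u⁻¹ * g⁻¹ by group, e]; group))
    exact congrArg Subtype.val this

theorem key {G : Type*} [Group G] [Finite G] {χ : G → ℂ} {N : Subgroup G} [hn : N.Normal] (h : Gag χ N) {p : ℕ}
    [hp : Fact p.Prime] (hNp : IsPGroup p N) (e : N = pCore p G) {x : G} (hx : x ∈ N) (h1 : x ≠ 1) {g : G}
    (hg : g * x = x * g) : g ∈ N := by
  have hC : ∀ c : G, (∀ n ∈ N, n * c = c * n) → c ∈ N := fun c hc => by
    have : centralizer (N : Set G) ≤ N := e.symm ▸ e ▸ (H2.le_pCore ((h.isPGroup_centralizer hNp hx h1).to_le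
      (centralizer_le (Set.singleton_subset_iff.2 hx))))
    exact this hc
  have hF : ∀ y : G, (orderOf y).Coprime p → y ≠ 1 → ∀ u ∈ N, u * y = y * u → u = 1 := fun y hy y1 u hu e => by
    by_contra u1
    obtain ⟨k, hk⟩ := h.isPGroup_centralizer hNp hu u1 ⟨y, mem_centralizer_singleton_iff.2 e.symm⟩
    exact y1 (orderOf_eq_one_iff.1 (Nat.eq_one_of_dvd_coprimes (hy.pow_right k) dvd_rfl
      (orderOf_dvd_of_pow_eq_one (congrArg Subtype.val hk))))
  by_contra gN
  obtain ⟨q, hq, hq'⟩ := h.exists_prime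
  obtain rfl : q = p := by
    obtain ⟨k, hk⟩ := hNp ⟨x, hx⟩
    by_contra c
    exact h1 (orderOf_eq_one_iff.1 (Nat.eq_one_of_dvd_coprimes (((Nat.coprime_primes hq hp.out).2 c).pow_right k)
      (orderOf_dvd_of_pow_eq_one (hq' x hx)) (orderOf_dvd_of_pow_eq_one (congrArg Subtype.val hk))))
  by_cases h2 : q = 2
  · subst h2
    obtain ⟨k, hk⟩ := h.isPGroup_centralizer hNp hx h1 ⟨g, mem_centralizer_singleton_iff.2 hg⟩
    obtain ⟨t, tN, t2⟩ : ∃ t : G, t ∉ N ∧ t ^ 2 ∈ N := by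
      by_contra! c
      have : ∀ k, g ^ 2 ^ k ∉ N := fun k => by
        induction k with
        | zero => simpa
        | succ k ih => rw [pow_succ, pow_mul]; exact c _ ih
      exact this k (by rw [show g ^ 2 ^ k = 1 from congrArg Subtype.val hk]; exact one_mem _)
    have hb : pCore 2 (G ⧸ N) = ⊥ := by
      subst e; exact H2.pCore_quotient_self
    obtain ⟨y, y1, yo, hy⟩ := H27.exists_odd_inverted (s := (t : G ⧸ N))
      (by rw [← QuotientGroup.mk_pow]; exact (QuotientGroup.eq_one_iff _).2 t2)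
      (by rw [hb, mem_bot, QuotientGroup.eq_one_iff]; exact tN)
    obtain ⟨y', rfl⟩ := QuotientGroup.mk_surjective y
    set m := orderOf (y' : G ⧸ N)
    have a1 : y' ^ m ∈ N := by
      rw [← QuotientGroup.eq_one_iff, QuotientGroup.mk_pow]; exact pow_orderOf_eq_one _
    have a2 : ((y' ^ (m + 1) : G) : G ⧸ N) = y' := by
      rw [QuotientGroup.mk_pow, pow_succ, pow_orderOf_eq_one, one_mul]
    set y := y' ^ (m + 1)
    have a3 : y ^ m = 1 := by
      obtain ⟨j, hj⟩ := yo.add_one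
      rw [← pow_mul, mul_comm, pow_mul, hj, ← two_mul, pow_mul, hq' _ a1, one_pow]
    rw [← a2] at hy y1
    have a4 : (orderOf y).Coprime 2 := (Nat.coprime_two_right.2 yo).coprime_dvd_left (orderOf_dvd_of_pow_eq_one a3)
    have a5 : y ≠ 1 := fun c => y1 (by rw [c]; rfl)
    obtain ⟨u, hu, eu⟩ := (fpf_iff N y⁻¹).1 (hF _ (by rwa [orderOf_inv]) (inv_ne_one.2 a5)) (t * y * t⁻¹ * y) (by
      rw [← QuotientGroup.eq_one_iff]
      simp only [QuotientGroup.mk_mul, QuotientGroup.mk_inv, hy, inv_mul_cancel])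
    have a6 : u⁻¹ * t * y * (u⁻¹ * t)⁻¹ = y⁻¹ := by
      rw [show u⁻¹ * t * y * (u⁻¹ * t)⁻¹ = u⁻¹ * (t * y * t⁻¹ * y * y⁻¹) * u by group, ← eu]; group
    have a7 : u⁻¹ * t ∉ N := fun c => tN (by simpa using mul_mem hu c)
    have a8 : (u⁻¹ * t) ^ 2 ∈ N := by
      rw [show (u⁻¹ * t) ^ 2 = u⁻¹ * (t * u⁻¹ * t⁻¹) * t ^ 2 by rw [sq, sq]; group]
      exact mul_mem (mul_mem (inv_mem hu) (hn.conj_mem _ (inv_mem hu) t)) t2
    generalize u⁻¹ * t = s at a6 a7 a8
    have a9 : s ^ 2 = 1 := hF y a4 a5 _ a8 (by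
      rw [show s ^ 2 * y = s * (s * y * s⁻¹) * s by rw [sq]; group, a6,
        show s * y⁻¹ * s = (s * y * s⁻¹)⁻¹ * s ^ 2 by rw [sq]; group, a6, inv_inv])
    refine a7 (hC s fun n hn' => ?_)
    obtain ⟨c, hc⟩ := isConj_iff.1 (h.isConj_mul a7 hn')
    have b1 : (n * s) ^ 2 = 1 := by rw [← hc, conj_pow, a9]; simp
    have b2 := hq' n hn'
    rw [sq] at b1 b2 a9
    rw [eq_inv_of_mul_eq_one_left b1, mul_inv_rev, inv_eq_of_mul_eq_one_left b2, inv_eq_of_mul_eq_one_left a9]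
  · have o1 : Odd (Nat.card N) := by
      obtain ⟨k, hk⟩ := IsPGroup.iff_card.1 hNp
      exact hk ▸ (hq.odd_of_ne_two h2).pow
    have := Fact.mk Nat.prime_two
    obtain ⟨z, hz⟩ := exists_prime_orderOf_dvd_card' (G := G) 2 (dvd_trans (by
      have := h.index_centralizer hx h1
      obtain ⟨j, hj⟩ := o1
      exact ⟨j, by omega⟩) (centralizer ({x} : Set G)).index_dvd_card)
    have z2 : z * z = 1 := by rw [← sq, ← hz, pow_orderOf_eq_one]
    have zF := hF z (hz ▸ (Nat.coprime_primes Nat.prime_two hq).2 (Ne.symm h2)) (fun c => by simp [c] at hz)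
    have zi : ∀ n ∈ N, z * n * z⁻¹ = n⁻¹ := fun n hn' =>
      H16.inverts_of_fpf z2 (by rw [normalizer_eq_top]; trivial) (fun x hx e => zF x hx e.symm) hn'
    have ex : ∀ c : G, ∃ u ∈ N, z * (u * c) = u * c * z := fun c => by
      have : c * z * c⁻¹ * z⁻¹ ∈ N := hC _ fun n hn' => by
        have b1 := zi _ (hn.conj_mem _ (inv_mem hn') c⁻¹)
        have b2 := zi n hn'
        rw [show c * z * c⁻¹ * z⁻¹ * n = c * z * c⁻¹ * (z⁻¹ * n * z) * z⁻¹ by group,
          show z⁻¹ * n * z = z * n * z⁻¹ by rw [inv_eq_of_mul_eq_one_left z2], b2,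
          show c * z * c⁻¹ * n⁻¹ * z⁻¹ = c * (z * (c⁻¹ * n⁻¹ * c⁻¹⁻¹) * z⁻¹) * (z * c⁻¹ * z⁻¹) by group, b1]
        group
      obtain ⟨u, hu, eu⟩ := (fpf_iff N z).1 zF _ this
      refine ⟨u⁻¹, inv_mem hu, ?_⟩
      rw [show u⁻¹ * c * z = u⁻¹ * (c * z * c⁻¹ * z⁻¹ * z) * c by group, ← eu]; group
    obtain ⟨v, hv, ev⟩ := ex g
    have g1 : v * g ∉ N := fun c => gN (by simpa using mul_mem (inv_mem hv) c)
    have g2 : x * (v * g) = v * g * x := by rw [← mul_assoc, h.comm x hx v hv, mul_assoc, mul_assoc, hg]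
    generalize v * g = s at ev g1 g2
    refine h1 ((fpf_iff N s).2 (fun n hn' => ?_) x hx g2)
    obtain ⟨c, hc⟩ := isConj_iff.1 (h.isConj_mul g1 hn')
    obtain ⟨u, hu, eu⟩ := ex c
    refine ⟨u⁻¹, inv_mem hu, ?_⟩
    have b1 : u * c * s * (u * c)⁻¹ * s⁻¹ = 1 := zF _ (by
      rw [show u * c * s * (u * c)⁻¹ * s⁻¹ = u * (c * s * c⁻¹) * u⁻¹ * s⁻¹ by group, hc,
        show u * (n * s) * u⁻¹ * s⁻¹ = u * n * (s * u⁻¹ * s⁻¹) by group]
      exact mul_mem (mul_mem hu hn') (hn.conj_mem _ (inv_mem hu) s)) (by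
      have c1 : Commute z (u * c) := eu
      have c2 : Commute z s := ev
      exact (((c1.mul_right c2).mul_right c1.inv_right).mul_right c2.inv_right).symm.eq)
    rw [← hc, show c * s * c⁻¹ = u⁻¹ * (u * c * s * (u * c)⁻¹ * s⁻¹) * s * u by group, b1]; group

/-- Let G be a finite group of order greater than 2 with an irreducible character χ nonzero on exactly two conjugacy classes, and let N be the normal p-subgroup of elements where χ is nonzero. Then N is the whole p-core O_p(G) if and only if G is a doubly transitive Frobenius group with kernel N: G has a Frobenius complement H whose Frobenius kernel is N and whose order is one less than that of N. -/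
theorem result {G : Type*} [Group G] [Finite G] (hG : 2 < Nat.card G) (χ : Cfsg.IrrCharacter G) (hχ : Nat.card {C : ConjClasses G // ∃ g ∈ C.carrier, (χ : G → ℂ) g ≠ 0} = 2) (p : ℕ) [Fact p.Prime] (N : Subgroup G) [N.Normal] (hN : ∀ g : G, g ∈ N ↔ (χ : G → ℂ) g ≠ 0) (hNp : IsPGroup p N) (hN1 : N ≠ ⊥) :
    N = Cfsg.pCore p G ↔ ∃ H : Subgroup G, Cfsg.IsFrobeniusComplement H ∧ Cfsg.frobeniusKernel H = (N : Set G) ∧ Nat.card H + 1 = Nat.card N := by
  obtain ⟨M, h⟩ := exists_gag hG χ.2 hχ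
  obtain rfl : M = N := Subgroup.ext fun g => (h.supp g).symm.trans (hN g).symm
  obtain ⟨x, hx, h1⟩ := M.bot_or_exists_ne_one.resolve_left hN1
  have hi := h.index_centralizer hx h1
  constructor
  · intro e
    have hc : centralizer ({x} : Set G) = M := le_antisymm (fun g hg => key h hNp e hx h1
      (mem_centralizer_singleton_iff.1 hg)) fun g hg => mem_centralizer_singleton_iff.2 (h.comm g hg x hx)
    rw [hc] at hi
    obtain ⟨H, a, b, c⟩ := exists_frob_of_centralizer M hN1 (by rintro rfl; simp at hi; omega)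
      fun x hx h1 g hg => key h hNp e hx h1 hg
    exact ⟨H, a, b, c ▸ hi⟩
  · rintro ⟨H, a, b, c⟩
    obtain ⟨K, k1, -, k2⟩ := H6.exists_frobeniusKernel H a
    obtain rfl : K = M := SetLike.coe_injective (k1.trans b)
    have : ¬ p ∣ K.index := fun d => (Fact.out : p.Prime).one_lt.ne' (Nat.dvd_one.1 ((Nat.dvd_add_right
      (k2.symm.index_eq_card ▸ d)).1 (c ▸ hNp.card_eq_or_dvd.resolve_left (by simpa using hN1))))
    exact le_antisymm (H2.le_pCore hNp) (H2.pCore_isPGroup.le_sylow_of_normal (hNp.toSylow this))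

end Cfsg.Agent.S4839
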