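import Cfsg.Statements.S4840
import Cfsg.Agent.S4835
import Cfsg.Agent.S4837
import Cfsg.Agent.H16.NearField
import Cfsg.Agent.H1.Hall
-- import your own Cfsg.Agent.* helpers here

set_option autoImplicit false
open Cfsg

namespace Cfsg.Agent.S4840

open Subgroup Function Cfsg.Agent.H16

theorem core {X W : Type*} [Group X] [Finite X] [Group.IsSolvable X] [CommGroup W] [Finite W]
    [Nontrivial W] {p : ℕ} [hp : Fact p.Prime] (hW : IsPGroup p W) (φ : X →* MulAut W)
    (ht : ∀ v w : W, v ≠ 1 → w ≠ 1 → ∃ g, φ g v = w)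
    (hs : ∀ (g : X) (v : W), v ≠ 1 → φ g v = v → ∃ k : ℕ, g ^ p ^ k = 1)
    (hO : pCore p X = ⊥) : (Nat.card (_root_.commutator X)).Coprime p := by
  have fr : ∀ H : Subgroup X, (Nat.card H).Coprime p →
      FreeRep (MonoidHom.comp (autRep φ) H.subtype) := fun H hH g hg v e => by
    by_contra hv
    obtain ⟨k, hk⟩ := hs g v.toMul hv (congrArg Additive.toMul e)
    exact hg (Subtype.ext (orderOf_eq_one_iff.1 (Nat.eq_one_of_dvd_coprimes (hH.pow_right k)
      (orderOf_dvd_natCard H g.2) (orderOf_dvd_of_pow_eq_one hk))))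
  have tr : TransNZ (autRep φ) := fun v w hv hw => by
    obtain ⟨g, hg⟩ := ht v.toMul w.toMul hv hw
    exact ⟨g, congrArg Additive.ofMul hg⟩
  have cq : ∀ r : ℕ, r.Prime → r ≠ p → ∀ H : Subgroup X, IsPGroup r H → (Nat.card H).Coprime p :=
    fun r hr ne H hH => by
      have := Fact.mk hr
      obtain ⟨k, hk⟩ := hH.exists_card_eq
      exact hk ▸ ((Nat.coprime_primes hr hp.out).2 ne).pow_left k
  refine ((Nat.Prime.coprime_iff_not_dvd hp.out).2 fun hd => ?_).symm
  obtain ⟨⟨u, hu⟩, ou⟩ := exists_prime_orderOf_dvd_card' p hd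
  rw [orderOf_mk] at ou
  have key : u ∈ centralizer (fittingSubgroup X : Set X) := by
    rw [← zpowers_le, le_centralizer_iff, H2.fittingSubgroup_eq_iSup_pCore]
    refine iSup_le fun ⟨r, hr⟩ => le_centralizer_iff.1 (zpowers_le.2 ?_)
    have := Fact.mk hr
    change u ∈ centralizer (pCore r X : Set X)
    by_cases h0 : r = p
    · rw [h0, hO]
      rintro _ rfl
      simp
    have hI : NoInt (pCore r X) := (fr _ (cq r hr h0 _ H2.pCore_isPGroup)).noInt'
    by_cases h4 : r = 2
    swap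
    · have := hI.isCyclic_of_odd h4 (H2.pCore_isPGroup.to_subgroup ⊤)
      have : IsCyclic (pCore r X) := isCyclic_of_surjective _ topEquiv.surjective
      exact commutator_le_centralizer_of_isCyclic _ hu
    subst h4
    by_contra hC
    have o2 : (orderOf u).Coprime 2 := ou ▸ ((Nat.coprime_primes hp.out hr).2 (Ne.symm h0))
    have un : ∀ s ∈ pCore 2 X, ∀ t ∈ pCore 2 X, orderOf s = 2 → orderOf t = 2 → s = t :=
      fun s h1 t h2 h3 h4 => congrArg Subtype.val (hI.unique_two ⟨s, h1⟩ ⟨t, h2⟩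
        (by rwa [orderOf_mk]) (by rwa [orderOf_mk]))
    have nu : u ∈ normalizer (pCore 2 X : Set X) := le_normalizer_of_normal (mem_top u)
    obtain rfl : p = 3 := by_contra fun h3 => by
      have c := pow_three_mem_centralizer H2.pCore_isPGroup un nu o2
      obtain ⟨m, hm⟩ := exists_pow_eq_self_of_coprime (x := u) (n := 3)
        (ou ▸ (Nat.coprime_primes Nat.prime_three hp.out).2 (Ne.symm h3))
      exact hC (hm ▸ pow_mem c m)
    obtain ⟨e⟩ := q8_of_not_centralizes H2.pCore_isPGroup un nu o2 hC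
    obtain ⟨ψ, hψ, a0⟩ := exists_hom_of_equiv e
    have c8 : Nat.card (pCore 2 X) = 8 := by
      rw [Nat.card_congr e.toEquiv]; simp [QuaternionGroup.card]
    rw [← a0] at hC c8 hI
    have : ψ.range.Normal := a0 ▸ inferInstance
    obtain ⟨f, a1⟩ := exists_hom_S4 hψ
    have a2 : (centralizer (ψ.range : Set X)).index ∣ 24 := by
      rw [← a1, index_ker]
      exact (card_subgroup_dvd_card _).trans H10.card_S4.dvd
    set C := centralizer (ψ.range : Set X) with hCd
    obtain ⟨n, hn⟩ := hW.exists_card_eq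
    have n0 : n ≠ 0 := by
      rintro rfl
      exact Finite.one_lt_card.ne' hn
    have ho : Odd (Nat.card (Additive W)) := by
      rw [show Nat.card (Additive W) = Nat.card W from rfl, hn]
      exact Odd.pow (by decide)
    have h1 : autRep φ (ψ (.a 2)) = -1 := (fr ψ.range (by rw [c8]; norm_num)).invol_eq
      (z := ⟨ψ (.a 2), _, rfl⟩)
      (fun e => absurd ((map_eq_one_iff ψ hψ).1 (congrArg Subtype.val e)) (by decide))
      (Subtype.ext (by
        change ψ (.a 2) * ψ (.a 2) = 1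
        rw [← map_mul, map_eq_one_iff ψ hψ]; decide))
    obtain ⟨U, h2, h3⟩ := exists_half_of_quat ho (I := autRep φ (ψ (.a 1)))
      (J := autRep φ (ψ (.xa 0)))
      (by rw [← map_mul, ← map_mul, ← h1]; rfl) (by rw [← map_mul, ← map_mul, ← h1]; rfl)
      (by rw [← neg_one_mul, ← h1]; simp only [← map_mul]; rfl)
    obtain ⟨H, b1, b2⟩ := H1.exists_isPiHall (G := X) {3}ᶜ inferInstance
    have b3 : (Nat.card H).Coprime 3 :=
      ((Nat.Prime.coprime_iff_not_dvd hp.out).2 fun e => b1 3 hp.out e rfl).symm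
    obtain ⟨k, hk⟩ : ∃ k, H.index = 3 ^ k := ⟨_, Nat.eq_prime_pow_of_unique_prime_dvd
      index_ne_zero_of_finite fun {q} hq hd => by_contra fun e => b2 q hq e hd⟩
    have b4 := (fr H b3).card_dvd_sub (C.subgroupOf H) U fun c hc => h3 _
      (Commute.map (hc _ ⟨_, rfl⟩).symm (autRep φ)) (Commute.map (hc _ ⟨_, rfl⟩).symm (autRep φ))
    have b5 : (C.subgroupOf H).index ∣ 8 :=
      (b3.coprime_dvd_left (index_dvd_card _)).dvd_of_dvd_mul_right
        ((relIndex_dvd_index_of_normal C H).trans a2)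
    have b6 : Nat.card H ∣ Nat.card (Additive W) - 1 := (fr H b3).freeAut.card_dvd
    have b7 : Nat.card (Additive W) - 1 ∣ Nat.card H := by
      have := tr.card_dvd
      rw [← H.card_mul_index, hk] at this
      refine Nat.Coprime.dvd_of_dvd_mul_right (Nat.Coprime.pow_right _ ?_) this
      rw [show Nat.card (Additive W) = Nat.card W from rfl, hn]
      refine ((Nat.Prime.coprime_iff_not_dvd hp.out).2 fun e => ?_).symm
      have := (Nat.dvd_sub_iff_right (Nat.one_le_pow _ _ (by norm_num)) (dvd_pow_self 3 n0)).1 e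
      omega
    have b8 : 3 ∣ Nat.card U := Nat.prime_three.dvd_of_dvd_pow
      (h2 ▸ (show 3 ∣ Nat.card W from hn ▸ dvd_pow_self 3 n0))
    have b9 : 3 ≤ Nat.card U := Nat.le_of_dvd Nat.card_pos b8
    have d1 : Nat.card U + 1 ∣ 8 := by
      rw [h2, ← one_pow 2, Nat.sq_sub_sq, ← (C.subgroupOf H).index_mul_card] at b7
      exact Nat.dvd_of_mul_dvd_mul_right (by omega) (b7.trans (Nat.mul_dvd_mul b5 b4))
    have d2 : Nat.card U = 3 := by
      have := Nat.le_of_dvd (by norm_num) d1
      generalize Nat.card U = m at *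
      have : m ≤ 7 := by omega
      interval_cases m <;> simp_all
    have d3 : ψ.range.index = 3 ^ k := by
      have e1 := ψ.range.card_mul_index
      rw [c8, ← H.card_mul_index, Nat.dvd_antisymm b6 b7, h2, d2, hk] at e1
      omega
    have d4 : (ψ.range ⊔ C).index ∣ 3 :=
      (Nat.Coprime.coprime_dvd_left ((index_dvd_of_le le_sup_left).trans d3.dvd)
        (Nat.Coprime.pow_left k (by norm_num : Nat.Coprime 3 8))).dvd_of_dvd_mul_left
        ((index_dvd_of_le le_sup_right).trans a2)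
    have : IsCyclic (X ⧸ (ψ.range ⊔ C)) := isCyclic_of_card_dvd_prime (p := 3) d4
    have d5 : u ∈ ψ.range ⊔ C :=
      Subgroup.Normal.quotient_commutative_iff_commutator_le.1 inferInstance hu
    obtain ⟨a, ha, c, hc, rfl⟩ := mem_sup_of_normal_right.1 d5
    have d6 : (a * c) ^ 8 = c ^ 8 := by
      rw [Commute.mul_pow (hc a ha), ← c8, show a ^ Nat.card ψ.range = 1 from
        orderOf_dvd_iff_pow_eq_one.1 (orderOf_dvd_natCard _ ha), one_mul]
    have d7 : (a * c) ^ 8 = (a * c)⁻¹ := by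
      rw [eq_inv_iff_mul_eq_one, ← pow_succ]
      exact orderOf_dvd_iff_pow_eq_one.1 (ou ▸ by norm_num)
    exact hC (inv_mem_iff.1 (d7 ▸ d6 ▸ pow_mem hc 8))
  have h1 := (H2.fittingSubgroup_eq_iSup_pCore.le.trans (H2.iSup_pCore_le p))
    (H2.centralizer_fittingSubgroup_le key)
  rw [hO, bot_sup_eq] at h1
  exact hp.out.one_lt.ne' (Nat.eq_one_of_dvd_coprimes H2.pPrimeCore_coprime
    (ou ▸ orderOf_dvd_natCard _ h1) dvd_rfl)


/-- Let G be a finite solvable group of order greater than 2 with an irreducible character nonzero on exactly two conjugacy classes. Then there is exactly one prime p with O_p(G) ≠ 1, and the quotient G/O_p(G) has a normal p-complement and commutative Sylow p-subgroups. -/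
theorem result {G : Type*} [Group G] [Finite G] [hs : Group.IsSolvable G] (hG : 2 < Nat.card G) (χ : Cfsg.IrrCharacter G) (hχ : Nat.card {C : ConjClasses G // ∃ g ∈ C.carrier, (χ : G → ℂ) g ≠ 0} = 2) :
    ∃ p : ℕ, p.Prime ∧ (∀ q : ℕ, q.Prime → (Cfsg.pCore q G ≠ ⊥ ↔ q = p)) ∧
      Cfsg.HasNormalPComplement p (G ⧸ Cfsg.pCore p G) ∧ ∀ Q : Sylow p (G ⧸ Cfsg.pCore p G), IsMulCommutative (Q : Subgroup (G ⧸ Cfsg.pCore p G)) := by
  obtain ⟨N, hN, N0, hmin, ⟨p, hp, hE⟩, hsup, htr⟩ := S4835.result hG χ hχ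
  have := Fact.mk hp
  have hNp : IsPGroup p N := fun x => ⟨1, Subtype.ext (by rw [pow_one]; exact hE.2 x x.2)⟩
  obtain ⟨hc, -⟩ := S4837.result hG χ hχ p N (fun g => (hsup g).symm) hNp N0
  have : Nontrivial N := (nontrivial_iff_ne_bot N).2 N0
  have hcomm : IsMulCommutative N := hE.1
  have k1 : pCore p G ≤ (MulAut.conjNormal (H := N)).ker := fun g hg => MulEquiv.ext fun x => by
    by_cases hx : x = 1
    · rw [hx, map_one, map_one]
    obtain ⟨P, hP⟩ := hc x x.2 fun e => hx (Subtype.ext e)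
    have := hP.ge (H2.pCore_isPGroup.le_sylow_of_normal P hg) x rfl
    exact Subtype.ext (mul_inv_eq_iff_eq_mul.2 this.symm)
  letI : CommGroup N := { (inferInstance : Group N) with mul_comm := hcomm.is_comm.comm }
  have k2 := core (X := G ⧸ pCore p G) hNp (QuotientGroup.lift _ MulAut.conjNormal k1)
    (fun v w hv hw => by
      obtain ⟨g, hg⟩ := htr v v.2 w w.2 (fun e => hv (Subtype.ext e)) (fun e => hw (Subtype.ext e))
      exact ⟨g, Subtype.ext hg⟩)
    (fun g v hv e => by
      obtain ⟨g, rfl⟩ := QuotientGroup.mk_surjective g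
      obtain ⟨P, hP⟩ := hc v v.2 fun e => hv (Subtype.ext e)
      obtain ⟨k, hk⟩ := P.isPGroup' ⟨g, hP.le (mem_centralizer_singleton_iff.2
        (mul_inv_eq_iff_eq_mul.1 (congrArg Subtype.val e)))⟩
      exact ⟨k, by rw [← QuotientGroup.mk_pow, show g ^ p ^ k = 1 from congrArg Subtype.val hk]; rfl⟩)
    H2.pCore_quotient_self
  refine ⟨p, hp, fun q hq => ⟨fun h => by_contra fun ne => ?_, fun e h => ?_⟩, ?_, fun Q => ?_⟩
  · have := Fact.mk hq
    exact N0 (eq_bot_iff.2 (le_inf le_rfl le_rfl |>.trans (IsPGroup.disjoint_of_ne q p ne N N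
      (H2.pCore_isPGroup.to_le (hmin _ inferInstance h)) hNp).le_bot))
  · subst e
    exact N0 (eq_bot_iff.2 ((H2.le_pCore hNp).trans h.le))
  · have : Group.IsNilpotent ((G ⧸ pCore p G) ⧸ _root_.commutator (G ⧸ pCore p G)) :=
      inferInstanceAs (Group.IsNilpotent (Abelianization (G ⧸ pCore p G)))
    exact H4.hasNPC_of_quotient_coprime _ k2 H4.hasNPC_of_isNilpotent
  · refine ⟨⟨fun a b => Subtype.ext (commutatorElement_eq_one_iff_mul_comm.1 ?_)⟩⟩
    exact (H4.disjoint_of_isPGroup_of_coprime Q.isPGroup' k2).le_bot ⟨commutator_mem_commutator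
      (mem_top _) (mem_top _), (Q : Subgroup (G ⧸ pCore p G)).commutator_le_self
        (commutator_mem_commutator a.2 b.2)⟩


end Cfsg.Agent.S4840
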