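import Cfsg.Statements.S4843
import Mathlib
import Cfsg.Agent.H7.Gag

set_option autoImplicit false
open Cfsg

namespace Cfsg.Agent.S4843

open Cfsg Cfsg.Agent.H7
open scoped commutatorElement ComplexConjugate

/-- Let G be a finite group with a faithful irreducible character χ (taking the value χ(1) only at the identity) and let k be prime to the order of G, so that g ↦ χ(g^k) is a Galois conjugate of χ. If the pointwise product g ↦ χ(g)·χ(g^k) is again an irreducible character, then the Fitting subgroup of G equals its centre. -/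
theorem result {G : Type*} [Group G] [Finite G] (χ : Cfsg.IrrCharacter G) (hfaith : ∀ g : G, (χ : G → ℂ) g = (χ : G → ℂ) 1 → g = 1) (k : ℕ) (hk : Nat.Coprime k (Nat.card G)) (hirr : Cfsg.IsIrrCharacter G (fun g => (χ : G → ℂ) g * (χ : G → ℂ) (g ^ k))) : Cfsg.fittingSubgroup G = Subgroup.center G := by
  obtain ⟨χ, hχ⟩ := χ
  simp only at hfaith hirr
  letI := Fintype.ofFinite G
  have hker := charKer_eq_bot_of_faithful hfaith
  refine le_antisymm ?_ H2.center_le_fittingSubgroup
  by_contra h
  obtain ⟨N, ⟨hN, h1, h2⟩, h3⟩ := exists_minimal_of_wellFoundedLT (fun N : Subgroup G => N.Normal ∧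
    Group.IsNilpotent N ∧ ¬ N ≤ Subgroup.center G)
    ⟨_, H2.fittingSubgroup_normal G, H2.fittingSubgroup_isNilpotent, h⟩
  have h4 : ∀ M : Subgroup G, M.Normal → M < N → M ≤ Subgroup.center G := fun M hM e => by
    by_contra e'
    exact e.not_ge (h3 ⟨hM, isNilpotent_of_injective _ (Subgroup.inclusion_injective e.le), e'⟩ e.le)
  have h5 : ⁅N, N⁆ ≤ Subgroup.center G := h4 _ inferInstance
    (by
      have hH : N ≠ ⊥ := fun e => h2 (e ▸ bot_le)
      rw [← Subgroup.nontrivial_iff_ne_bot] at hH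
      rw [← N.range_subtype, MonoidHom.range_eq_map, ← Subgroup.map_commutator,
        Subgroup.map_subtype_lt_map_subtype]
      exact Group.IsSolvable.commutator_lt_top_of_nontrivial N)
  have h6 : ∀ a ∈ N, ∀ b ∈ N, a * b ≠ b * a → χ b = 0 := fun a ha b hb e =>
    vanish_of_commutator (irr_cf hχ) (H6.center_le_charCenter hχ
      (h5 (Subgroup.commutator_mem_commutator ha hb))) (by
        rwa [hker, Subgroup.mem_bot, commutatorElement_eq_one_iff_mul_comm])
  have h7 : ∀ a b : G, Commute a (b ^ k) → Commute a b := fun a b e => by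
    obtain ⟨m, hm⟩ := exists_pow_eq_self_of_coprime
      (hk.coprime_dvd_right (orderOf_dvd_natCard b))
    rw [← hm]; exact e.pow_right m
  obtain ⟨n, hn, h8⟩ := SetLike.not_le_iff_exists.mp h2
  have h9 := sum_conj_of_irr_res (MonoidHom.prod (MonoidHom.id G) (MonoidHom.id G))
    (H6.isCharacter_prod_fun (irr_char hχ) (irr_char (H6.isIrr_comp_pow hχ hk))) hirr
    ((n ^ k)⁻¹, n) (n ^ k, n⁻¹)
  have h10 := H6.sum_irr_conj_mul hχ (n ^ k) (n ^ k)⁻¹
  set m := n ^ k with hm
  have h11 : ∀ g, χ (g * m⁻¹ * g⁻¹ * m) * χ ((g * n * g⁻¹ * n⁻¹) ^ k) =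
      χ (g * m * g⁻¹ * m⁻¹) * conj (χ (g * m * g⁻¹ * m⁻¹)) := fun g => by
    have e1 : χ (g * m⁻¹ * g⁻¹ * m) = conj (χ (g * m * g⁻¹ * m⁻¹)) := by
      rw [← char_inv (irr_char hχ), cf_mul_comm (irr_cf hχ)]
      congr 1; group
    rw [e1, mul_comm]
    congr 1
    have hc := hN.conj_mem n hn g
    have e2 : g * m * g⁻¹ = (g * n * g⁻¹) ^ k := conj_pow.symm
    rw [e2]
    generalize g * n * g⁻¹ = c at hc
    by_cases e : Commute n c
    · rw [(e.symm.inv_right).mul_pow, inv_pow]
    · rw [h6 n hn _ (pow_mem (mul_mem hc (inv_mem hn)) k) fun e' => e ?_,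
        h6 n hn _ (mul_mem (pow_mem hc k) (inv_mem (pow_mem hn k))) fun e' => e ?_]
      · simpa using (Commute.mul_right e' ((Commute.refl n).pow_right k)) |> fun e'' =>
          h7 n c (by simpa using e'')
      · simpa using (h7 _ _ e').mul_right (Commute.refl n)
  simp only [MonoidHom.prod_apply, MonoidHom.id_apply, Prod.mk_mul_mk, Prod.inv_mk, Prod.fst_one,
    Prod.snd_one, one_pow, h11, inv_pow, ← hm] at h9
  have h12 := irr_one_ne_zero hχ
  have h13 : conj (χ 1) = χ 1 := H6.isCharacter_conj_one (irr_char hχ)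
  rw [char_inv (irr_char hχ)] at h9 h10
  set a := χ m * conj (χ m) / χ 1 with ha
  have h14 : conj a = a := by simp [ha, h13, mul_comm]
  have h15 : ∑ g, (χ (g * m * g⁻¹ * m⁻¹) - a) * conj (χ (g * m * g⁻¹ * m⁻¹) - a) = 0 := by
    have e := congrArg conj h10
    rw [map_sum] at e
    simp only [map_sub, h14, sub_mul, mul_sub, Finset.sum_sub_distrib, ← Finset.sum_mul,
      ← Finset.mul_sum, e, h10, Finset.sum_const, Finset.card_univ, nsmul_eq_mul,
      ← Nat.card_eq_fintype_card]
    simp only [ha, map_div₀, map_mul, h13, map_natCast, Complex.conj_conj]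
    field_simp
    linear_combination h9
  simp only [Complex.mul_conj, ← Complex.ofReal_sum, Complex.ofReal_eq_zero] at h15
  rw [Finset.sum_eq_zero_iff_of_nonneg fun _ _ => Complex.normSq_nonneg _] at h15
  simp only [Finset.mem_univ, Complex.normSq_eq_zero, sub_eq_zero, true_imp_iff] at h15
  refine h8 (Subgroup.mem_center_iff.mpr fun g => h7 g n ?_)
  exact commutatorElement_eq_one_iff_commute.mp
    (hfaith _ ((h15 g).trans (by simpa using (h15 1).symm)))

end Cfsg.Agent.S4843
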