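import Cfsg.Statements.S4866
import Mathlib
import Cfsg.Agent.H7.Gal
import Cfsg.Agent.H27.Real

set_option autoImplicit false
open Cfsg

namespace Cfsg.Agent.S4866

open Cfsg Cfsg.Agent.H7

/-- Let K be a normal subgroup of odd index in the finite group G. Then G has as many orbits on the real-valued irreducible complex characters of K (acting by conjugation) as it has orbits on the conjugacy classes of K that are real in K; equivalently, the number of G-orbits of real-valued irreducible characters of K equals the number of G-conjugacy classes of elements of K that are conjugate in K to their inverses. -/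
theorem result {G : Type*} [Group G] [Finite G] (K : Subgroup G) [K.Normal] (hodd : Odd K.index) : Nat.card (Quot (fun θ η : {θ : Cfsg.IrrCharacter ↥K // (∀ k : ↥K, ((θ : ↥K → ℂ) k).im = 0)} => ∃ g : G, ∀ k k' : ↥K, (k' : G) = g * (k : G) * g⁻¹ → (η.1 : ↥K → ℂ) k' = (θ.1 : ↥K → ℂ) k)) = Nat.card (Quot (fun x y : {x : ↥K // IsConj x x⁻¹} => ∃ g : G, (y.1 : G) = g * x.1 * g⁻¹)) := by
  have hf := isNE_subtype K
  have ho : Odd K.subtype.range.index := by rwa [K.range_subtype]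
  choose F h1 h2 h3 h4 using fun θ : {θ : IrrCharacter K // ∀ k : K, ((θ : K → ℂ) k).im = 0} =>
    hf.exists_unique_real ho θ.1.2 θ.2
  have h5 := H6.card_irr_fixed_eq (G := G) (fun g => g⁻¹) fun χ hχ => by
    simp only [char_inv (irr_char hχ)]; exact irr_star hχ
  refine (Nat.card_eq_of_bijective (Quot.lift (fun θ => (⟨⟨F θ, h1 θ⟩,
    (real_iff_inv (irr_char (h1 θ))).mp (h3 θ)⟩ : {χ : IrrCharacter G // ∀ g, χ.1 g⁻¹ = χ.1 g})) ?_)
    ⟨?_, ?_⟩).trans (h5.trans (Nat.card_eq_of_bijective (Quot.lift (fun x =>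
      (⟨ConjClasses.mk (x.1 : G), fun g hg => ?_⟩ :
        {C : ConjClasses G // ∀ g, ConjClasses.mk g = C → IsConj g g⁻¹})) ?_) ⟨?_, ?_⟩).symm)
  · rintro θ η ⟨g, hg⟩
    refine Subtype.ext (Subtype.ext (h4 η _ (h1 θ) ?_ (h3 θ)))
    rw [← hf.ip_res_cjf (irr_cf (h1 θ)) g, show hf.cjf g η.1 = θ.1 from
      funext fun n => hg n _ (hf.cj_spec g n), h2]
    exact one_ne_zero
  · rintro ⟨θ⟩ ⟨η⟩ e
    have e' : F θ = F η := congrArg (fun t => t.1.1) e
    obtain ⟨g, hg⟩ := hf.mem_orbit.mp (hf.mem_orbit_of_under (h1 θ) η.1.2 θ.1.2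
      (by rw [e', h2]; exact one_ne_zero) (by rw [h2]; exact one_ne_zero))
    exact Quot.sound ⟨g, fun k k' h => by rw [← hg, hf.cjf_apply, hf.cj_eq h]⟩
  · rintro ⟨χ, hχ⟩
    obtain ⟨θ, hθ, h⟩ := exists_irr_under K.subtype χ.2
    have hr := (real_iff_inv (irr_char χ.2)).mpr hχ
    have hr' := hf.real_under χ.2 hr hθ h fun a => Nat.not_even_iff_odd.mpr ho
      (even_iff_two_dvd.mpr (a.trans (Subgroup.index_dvd_of_le (hf.range_le_inertia (irr_cf hθ)))))
    exact ⟨Quot.mk _ ⟨⟨θ, hθ⟩, hr'⟩,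
      Subtype.ext (Subtype.ext (h4 ⟨⟨θ, hθ⟩, hr'⟩ _ χ.2 h hr).symm)⟩
  · have a1 := ConjClasses.mk_eq_mk_iff_isConj.mp hg
    obtain ⟨c, hc⟩ := isConj_iff.mp a1
    refine (a1.trans (K.subtype.map_isConj x.2)).trans (isConj_iff.mpr ⟨c⁻¹, ?_⟩)
    simp only [Subgroup.subtype_apply, Subgroup.coe_inv, ← hc]
    group
  · rintro x y ⟨g, hg⟩
    exact Subtype.ext (ConjClasses.mk_eq_mk_iff_isConj.mpr (isConj_iff.mpr ⟨g, hg.symm⟩))
  · rintro ⟨x⟩ ⟨y⟩ e
    obtain ⟨g, hg⟩ := isConj_iff.mp (ConjClasses.mk_eq_mk_iff_isConj.mp (congrArg Subtype.val e))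
    exact Quot.sound ⟨g, hg.symm⟩
  · rintro ⟨C, hC⟩
    obtain ⟨x, rfl⟩ := ConjClasses.mk_surjective C
    obtain ⟨g, hg⟩ := isConj_iff.mp (hC x rfl)
    obtain ⟨t, -, ⟨j, hj⟩, ht⟩ := H27.exists_two_elt_inverts hg
    have a1 : t ∈ K := mem_of_coprime_index K (hj ▸ (Nat.coprime_two_left.mpr hodd).pow_left j)
    have a2 : x ∈ K := by
      have a3 := congrArg (QuotientGroup.mk (s := K)) ht
      simp only [QuotientGroup.mk_mul, QuotientGroup.mk_inv, (QuotientGroup.eq_one_iff t).mpr a1,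
        one_mul, inv_one, mul_one] at a3
      have h7 : (Nat.card (G ⧸ K)).Coprime 2 := Nat.coprime_two_right.mpr hodd
      rw [← QuotientGroup.eq_one_iff]
      refine (powCoprime h7).injective (Eq.trans ?_ (powCoprime_one h7).symm)
      change (x : G ⧸ K) ^ 2 = 1
      rw [sq, mul_eq_one_iff_eq_inv]; exact a3
    exact ⟨Quot.mk _ ⟨⟨x, a2⟩, isConj_iff.mpr ⟨⟨t, a1⟩, Subtype.ext ht⟩⟩, rfl⟩

end Cfsg.Agent.S4866
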