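import Cfsg.Statements.S4870
import Mathlib
import Cfsg.Agent.H7.Gal

set_option autoImplicit false
open Cfsg

namespace Cfsg.Agent.S4870

open Cfsg Cfsg.Agent.H7

/-- Let G be a finite group with a non-abelian minimal normal subgroup N, and let φ be an irreducible complex character of N with stabilizer I in G (the elements g with φ(g n g⁻¹) = φ(n) for all n ∈ N) such that φ extends to an irreducible character of I. Put d = φ(1)·[G : I]. Then the number of linear characters of G is at most [G : I] times the number of irreducible characters of G of degree d. -/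
theorem result {G : Type*} [Group G] [Finite G] (N : Subgroup G) (hN : N.Normal) (hN1 : N ≠ ⊥) (hmin : ∀ M : Subgroup G, M.Normal → M ≤ N → M = ⊥ ∨ M = N) (hna : ¬ IsMulCommutative ↥N) (φ : Cfsg.IrrCharacter ↥N) (I : Subgroup G) (hI : ∀ g : G, g ∈ I ↔ ∀ n n' : ↥N, (n' : G) = g * (n : G) * g⁻¹ → (φ : ↥N → ℂ) n' = (φ : ↥N → ℂ) n) (hNI : N ≤ I) (hext : ∃ ψ : Cfsg.IrrCharacter ↥I, ∀ n : ↥N, (ψ : ↥I → ℂ) (Subgroup.inclusion hNI n) = (φ : ↥N → ℂ) n) : Nat.card {χ : Cfsg.IrrCharacter G // Cfsg.charDegree (χ : G → ℂ) = 1} ≤ I.index * Nat.card {χ : Cfsg.IrrCharacter G // Cfsg.charDegree (χ : G → ℂ) = Cfsg.charDegree (φ : ↥N → ℂ) * I.index} := by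
  obtain ⟨ψ, hψ⟩ := hext
  have e : (fun n => ψ.1 (Subgroup.inclusion hNI n)) = φ := funext hψ
  have hf := isNE_subtype N
  have := card_lin_le hf (k := Subgroup.inclusion hNI) I.subtype_injective (fun _ => rfl) ψ.2
    (e ▸ φ.2) (fun g hg => by
      rw [I.range_subtype, hI]
      intro n n' h
      rw [e] at hg
      rw [← hf.mem_inertia'.mp hg n, hf.cj_eq h])
    (by rw [N.range_subtype]; exact le_commutator_of_minimal hmin hna)
    (fun χ => charDegree χ = 1) (fun χ => charDegree χ = charDegree φ.1 * I.index) (fun _ h => h)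
    fun χ h1 h2 _ => by
      rw [deg_mul (char_ind _ (irr_char ψ.2)) (irr_char h1), h2, deg_ind I.subtype_injective (irr_char ψ.2),
        I.range_subtype, ← e, deg_comp, mul_one, mul_comm]
  rwa [I.range_subtype] at this

end Cfsg.Agent.S4870
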