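import Cfsg.Statements.S4871
import Mathlib
import Cfsg.Agent.H9.Ez3

set_option autoImplicit false
open Cfsg

namespace Cfsg.Agent.S4871

/-- Let G be a finite group that is the semidirect product of a normal elementary abelian subgroup N of odd order by a non-trivial 2-subgroup P, with N the unique minimal normal subgroup of G. Consider the strongly real irreducible complex characters of G (Frobenius–Schur indicator +1) whose degree is 1 or even. Then their average degree is at least 4/3: four times their number is at most three times the sum of their degrees. -/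
theorem result {G : Type*} [Group G] [Finite G] (N P : Subgroup G) (hN : N.Normal) (q : ℕ) [Fact q.Prime] (hq : q ≠ 2) (hNel : Cfsg.IsElementaryAbelian q N) (hP : IsPGroup 2 ↥P) (hP1 : P ≠ ⊥) (hdisj : N ⊓ P = ⊥) (hprod : N ⊔ P = ⊤) (hmin : N ≠ ⊥ ∧ ∀ M : Subgroup G, M.Normal → M ≠ ⊥ → N ≤ M) : 4 * Nat.card {χ : Cfsg.IrrCharacter G // (Cfsg.charDegree (χ : G → ℂ) = 1 ∨ 2 ∣ Cfsg.charDegree (χ : G → ℂ)) ∧ (Nat.card G : ℂ)⁻¹ * ∑ᶠ g : G, (χ : G → ℂ) (g * g) = 1} ≤ 3 * (∑ᶠ χ : {χ : Cfsg.IrrCharacter G // (Cfsg.charDegree (χ : G → ℂ) = 1 ∨ 2 ∣ Cfsg.charDegree (χ : G → ℂ)) ∧ (Nat.card G : ℂ)⁻¹ * ∑ᶠ g : G, (χ : G → ℂ) (g * g) = 1}, Cfsg.charDegree (χ.1 : G → ℂ)) := by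
  classical
  letI : Fintype G := Fintype.ofFinite G
  letI : Fintype (IrrCharacter G) := @Fintype.ofFinite _ (H7.finite_irr G)
  obtain ⟨z, hz⟩ := H9.Ez.exists_inverting hNel.1 hP hP1 hdisj hprod hmin.1 hmin.2
  have ho : Odd (Nat.card N) := by
    obtain ⟨k, hk⟩ := IsPGroup.iff_card.1 (show IsPGroup q N from fun g => ⟨1, Subtype.ext (by simpa using hNel.2 g g.2)⟩)
    exact hk ▸ ((Fact.out : q.Prime).odd_of_ne_two hq).pow
  obtain ⟨χ, hχ, h1, h2, h3⟩ := H9.Ez.exists_sreal hNel.1.is_comm.comm hdisj hprod hP ho hmin.1 hz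
  have := H9.Ez.acd_le ho hχ h1 h2 h3 (Finset.univ.filter fun χ : IrrCharacter G =>
    (charDegree (χ : G → ℂ) = 1 ∨ 2 ∣ charDegree (χ : G → ℂ)) ∧ (Nat.card G : ℂ)⁻¹ * ∑ᶠ g : G, (χ : G → ℂ) (g * g) = 1)
    (fun φ => by simp only [Finset.mem_filter, Finset.mem_univ, true_and, finsum_eq_sum_of_fintype, H6.fsInd_def])
  rw [Nat.card_eq_fintype_card, Fintype.card_subtype, finsum_eq_sum_of_fintype]
  refine this.trans (le_of_eq (congrArg _ (Finset.sum_subtype _ (by simp) _)))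

end Cfsg.Agent.S4871
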