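import Cfsg.Statements.S4872
import Mathlib
import Cfsg.Agent.H7.Gal

set_option autoImplicit false
open Cfsg

namespace Cfsg.Agent.S4872

open Cfsg Cfsg.Agent.H7

/-- Let N be a normal subgroup of the finite group G with G/N a 2-group, and let φ be an irreducible complex character of N of 2-defect zero (the 2-part of #N divides φ(1)) whose complex conjugate is G-conjugate to φ. Then some irreducible character of G with Frobenius–Schur indicator +1 contains φ with multiplicity exactly one on restriction to N. -/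
theorem result {G : Type*} [Group G] [Finite G] (N : Subgroup G) [N.Normal] (h2 : IsPGroup 2 (G ⧸ N)) (φ : Cfsg.IrrCharacter ↥N) (hdef : 2 ^ (Nat.card ↥N).factorization 2 ∣ Cfsg.charDegree (φ : ↥N → ℂ)) (hconj : ∃ g : G, ∀ n n' : ↥N, (n' : G) = g * (n : G) * g⁻¹ → (φ : ↥N → ℂ) n' = (starRingEnd ℂ) ((φ : ↥N → ℂ) n)) : ∃ χ : Cfsg.IrrCharacter G, (Nat.card G : ℂ)⁻¹ * ∑ᶠ g : G, (χ : G → ℂ) (g * g) = 1 ∧ (Nat.card ↥N : ℂ)⁻¹ * ∑ᶠ n : ↥N, (χ : G → ℂ) n * (starRingEnd ℂ) ((φ : ↥N → ℂ) n) = 1 := by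
  haveI := Fact.mk Nat.prime_two
  obtain ⟨P⟩ : Nonempty (Sylow 2 G) := inferInstance
  have hf := isNE_subtype N
  have h1 := H4.sup_eq_top_of_isPGroup_quotient N h2 (H4.sylow_index_coprime P)
  have h3 := res_ind_of_sup h1 (cf_one (G := P))
  have h4 := ((H4.IsSylowIn.sylow_top P).inf_of_normal_le (N := N) le_top
    (by rw [Subgroup.normalizer_eq_top])).card_eq
  obtain ⟨d, hd⟩ := hdef
  have h5 : ¬ 2 ∣ d := fun e => Nat.pow_succ_factorization_not_dvd (Nat.card_pos (α := N)).ne'
    Nat.prime_two (((Nat.mul_dvd_mul_left _ e).trans (dvd_of_eq hd.symm)).trans (irr_degree_dvd_card φ.2))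
  have h6 : ip (fun x : N => ind (P : Subgroup G).subtype 1 x) φ = d := by
    rw [h3, ip_ind_left _ _ (irr_cf φ.2)]
    refine ip_natCast_comm ((ip_one_of_vanish fun g hg => ?_).trans ?_)
    · refine defectZero_vanish Nat.prime_two φ.2 ?_ ?_
      · exact (Nat.prime_two.pow_dvd_iff_le_factorization (irr_degree_pos φ.2).ne').mp ⟨d, hd⟩
      · rw [orderOf_injective _ (Subgroup.inclusion_injective _)]
        obtain ⟨k, hk⟩ := IsPGroup.iff_orderOf.mp (P.2.to_inf_left (K := N)) g
        rw [hk]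
        refine dvd_pow_self 2 ?_
        rintro rfl
        exact hg (orderOf_eq_one_iff.mp hk)
    · rw [map_one, char_one_eq (irr_char φ.2), hd, h4]
      push_cast
      field_simp
  obtain ⟨m, hm, -⟩ := exists_mult (char_ind (P : Subgroup G).subtype (char_one (G := P)))
  choose! e he using fun χ (hχ : IsIrrCharacter G χ) =>
    ip_char_nat (char_comp N.subtype (irr_char hχ)) (irr_char φ.2)
  have h7 : d = ∑ χ ∈ irrSet G, m χ * e χ := by
    apply Nat.cast_injective (R := ℂ)
    rw [← h6, ← show _ = ip (fun x : N => ind (P : Subgroup G).subtype 1 x) φ from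
      ip_ind_right N.subtype _ (ind_cf _ _), ip_expand (ind_cf _ _), Nat.cast_sum]
    refine Finset.sum_congr rfl fun χ hχ => ?_
    rw [hm _ (mem_irrSet.mp hχ), ip_ind_right _ _ (irr_cf (mem_irrSet.mp hχ)), he _ (mem_irrSet.mp hχ),
      Nat.cast_mul]
  obtain ⟨g, hg⟩ := hconj
  have h8 : star φ.1 = hf.cjf g φ := funext fun n => (hg n _ (hf.cj_spec g n)).symm
  obtain ⟨χ, hχ, h9, h10⟩ := exists_fixed_of_sum (e := 1) Nat.prime_two (irrSet G) star
    (fun χ hχ => mem_irrSet.mpr (irr_star (mem_irrSet.mp hχ))) (fun χ _ => star_star χ)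
    (fun χ => m χ * e χ) (fun χ hχ => by
      have hχ := mem_irrSet.mp hχ
      have a1 := hm _ (irr_star hχ)
      have a2 := he _ (irr_star hχ)
      rw [← star_star (ind _ _), ip_star_star, ← ind_star, star_one, ip_natCast_comm (hm _ hχ)] at a1
      rw [← hf.ip_res_cjf (irr_cf (irr_star hχ)) g, ← h8,
        show (fun x => star χ (N.subtype x)) = star fun x => χ (N.subtype x) from rfl, ip_star_star,
        ip_natCast_comm (he _ hχ)] at a2
      simp only [← Nat.cast_injective a1, ← Nat.cast_injective a2]) (h7 ▸ h5)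
  have hχ := mem_irrSet.mp hχ
  have h11 : e χ = 1 := by
    have a1 := hf.mult_dvd_index hχ φ.2 (he χ hχ) (by rintro a; simp [a] at h10)
    obtain ⟨k, hk⟩ := IsPGroup.iff_card.mp h2
    rw [N.range_subtype, Subgroup.index, hk] at a1
    exact Nat.eq_one_of_dvd_coprimes (((Nat.prime_two.coprime_iff_not_dvd.mpr
      fun a => h10 (a.mul_left _))).pow_left k) a1 dvd_rfl
  refine ⟨⟨χ, hχ⟩, ?_, (ip_finsum _ _).trans ((he χ hχ).trans (by simp [h11]))⟩
  refine (fs_eq_of_odd (P : Subgroup G).subtype hχ ((real_iff_star _).mpr h9) irr_one (by simp)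
    (m := m χ) ?_ (Nat.odd_iff.mpr (by rw [h11] at h10; omega))).trans
    (fs_linear char_one rfl (by simp))
  rw [← ip_ind_right _ _ (irr_cf hχ)]
  exact ip_natCast_comm (hm χ hχ)

end Cfsg.Agent.S4872
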