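import Cfsg.Statements.S4873
import Mathlib
import Cfsg.Agent.H7.Gal

set_option autoImplicit false
open Cfsg

namespace Cfsg.Agent.S4873

open Cfsg Cfsg.Agent.H7

/-- Let N be a normal subgroup of odd index in the finite group G. Then every irreducible complex character of N with Frobenius–Schur indicator +1 lies under exactly one irreducible character of G with Frobenius–Schur indicator +1. -/
theorem result {G : Type*} [Group G] [Finite G] (N : Subgroup G) [N.Normal] (hodd : Odd N.index) (φ : Cfsg.IrrCharacter ↥N) (hφ : (Nat.card ↥N : ℂ)⁻¹ * ∑ᶠ g : ↥N, (φ : ↥N → ℂ) (g * g) = 1) : ∃! χ : Cfsg.IrrCharacter G, (Nat.card G : ℂ)⁻¹ * ∑ᶠ g : G, (χ : G → ℂ) (g * g) = 1 ∧ (∑ᶠ n : ↥N, (χ : G → ℂ) n * (starRingEnd ℂ) ((φ : ↥N → ℂ) n)) ≠ 0 := by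
  have hf := isNE_subtype N
  have h0 := real_of_fs φ.2 hφ
  obtain ⟨χ, h1, h2, h3, h4⟩ := hf.exists_unique_real (by rwa [N.range_subtype]) φ.2 h0
  refine ⟨⟨χ, h1⟩, ⟨(fs_eq_of_odd N.subtype h1 h3 φ.2 h0 (m := 1) (by simpa using h2) odd_one).trans hφ,
    (finsum_ne_zero_iff _ _).mpr (h2 ▸ one_ne_zero)⟩, fun ψ a => Subtype.ext
    (h4 ψ ψ.2 ((finsum_ne_zero_iff _ _).mp a.2) (real_of_fs ψ.2 a.1))⟩

end Cfsg.Agent.S4873
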