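import Cfsg.Statements.S4885
import Mathlib
import Cfsg.Agent.H9.TP

set_option autoImplicit false
open Cfsg

namespace Cfsg.Agent.S4885

/-- Let p and q be primes dividing the order of the finite group G, and suppose G is p-solvable and q-solvable. Fix maximal ideals of the algebraic integers containing p and q, defining the principal p-block and the principal q-block. If the irreducible characters of degree prime to p in the principal p-block are exactly the irreducible characters of degree prime to q in the principal q-block, then p = q. -/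
theorem result {G : Type*} [Group G] [Finite G] (p q : ℕ) [Fact p.Prime] [Fact q.Prime] (hp : p ∣ Nat.card G) (hq : q ∣ Nat.card G) (hps : Cfsg.IsPSolvable p G) (hqs : Cfsg.IsPSolvable q G) (Mp Mq : Ideal Cfsg.AlgInt) (hMp : Cfsg.IsPModular p Mp) (hMq : Cfsg.IsPModular q Mq) (h : ∀ χ : Cfsg.IrrCharacter G, (χ ∈ Cfsg.principalBlock Mp G ∧ ¬ p ∣ Cfsg.charDegree (χ : G → ℂ)) ↔ (χ ∈ Cfsg.principalBlock Mq G ∧ ¬ q ∣ Cfsg.charDegree (χ : G → ℂ))) : p = q := by
  by_contra hpq
  haveI := hMp.2.1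
  haveI := hMq.2.1
  obtain ⟨P, Q, hP, hQ, hc⟩ := (H9.TP.main hpq hps hqs).1
    ⟨(H9.TP.hyp_iff hMp hps).2 fun χ a b => ((h χ).1 ⟨a, b⟩).2, (H9.TP.hyp_iff hMq hqs).2 fun χ a b => ((h χ).2 ⟨a, b⟩).2⟩
  haveI := FT.nml_top_iff.1 (FT.pcore_nml {p}ᶜ (⊤ : Subgroup G))
  obtain ⟨χ, h1, h2, h3, h4⟩ := H9.TP.exists_ker hP
    (fun e => (hP.syl_eq_bot_iff Fact.out).1 e (by rwa [FT.card_top'])) (FT.pcore_pi {p}ᶜ ⊤)
  rw [FT.pcore_top, FT.piCore_compl_singleton Fact.out] at h2
  have := (H7.mem_principal_iff_of_psolv hMq hqs _).1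
    ((h ⟨χ, h1⟩).1 ⟨(H7.mem_principal_iff_of_psolv hMp hps _).2 h2, h3⟩).1
  rw [← FT.piCore_compl_singleton Fact.out, ← FT.pcore_top] at this
  exact h4 ((H9.TP.le_core (Ne.symm hpq) hqs hQ hP.pi (FT.centsC hc)).trans this)

end Cfsg.Agent.S4885
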