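import Cfsg.Statements.S4888
import Mathlib
import Cfsg.Agent.H8.Prin2

set_option autoImplicit false
open Cfsg

namespace Cfsg.Agent.S4888

/-- Let G be a finite group, p a prime and M a maximal ideal of the algebraic integers containing p. Then all height-zero irreducible characters of the principal p-block of G (equivalently, all its characters of degree prime to p) have the same degree if and only if G has a normal p-complement. -/
theorem result {G : Type*} [Group G] [Finite G] (p : ℕ) [Fact p.Prime] (M : Ideal Cfsg.AlgInt) (hM : Cfsg.IsPModular p M) : (∃ d : ℕ, ∀ χ : Cfsg.IrrCharacter G, χ ∈ (Cfsg.principalBlock M G) → Cfsg.blockHeight p (Cfsg.principalBlock M G) (χ : G → ℂ) = 0 → Cfsg.charDegree (χ : G → ℂ) = d) ↔ Cfsg.HasNormalPComplement p G := by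
  open H8 H9 in
  classical
  have := hM.2.1
  haveI : H9.PMod M p := ⟨hM⟩
  refine ⟨fun ⟨d, hd⟩ => hasNPC_of_height_zero_lin (M := M) fun χ hχ h => ?_, fun h => ⟨1, ?_⟩⟩
  · have h1 : charDegree (irrOne G : G → ℂ) = 1 := H7.charDegree_eq (by simp)
    rw [hd χ hχ ((blockHeight_principal_eq_zero χ).2 h), ← h1, hd _ irrOne_mem_principalBlock
      ((blockHeight_principal_eq_zero _).2 (h1 ▸ (Fact.out : p.Prime).not_dvd_one))]
  · intro χ hχ h0
    rw [blockHeight_principal_eq_zero] at h0
    obtain ⟨ψ, rfl⟩ := exists_inflIrr_eq (QuotientGroup.mk' (pResidual p G))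
      (QuotientGroup.mk'_surjective _)
      (by rw [QuotientGroup.ker_mk']; exact (mem_principal_iff_of_hasNPC hM h χ).1 hχ)
    obtain ⟨k, hk⟩ := IsPGroup.iff_card.1 (H4.isPGroup_quotient_pResidual p (G := G))
    have h1 : charDegree ψ.1 ∣ p ^ k := hk ▸ charDegree_dvd_card ψ
    obtain ⟨j, -, hj⟩ := (Nat.dvd_prime_pow Fact.out).1 h1
    change ¬ p ∣ charDegree ψ.1 at h0
    change charDegree ψ.1 = 1
    rw [hj] at h0 ⊢
    rw [show j = 0 from by_contra fun h => h0 (dvd_pow_self p h), pow_zero]

end Cfsg.Agent.S4888
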