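import Cfsg.Statements.S4889
import Mathlib
import Cfsg.Agent.H9.OT
import Cfsg.Agent.H9.SL5
import Cfsg.Agent.H9.Dict3

set_option autoImplicit false
open Cfsg

namespace Cfsg.Agent.S4889

/-- Let G be a finite group, p a prime, M a maximal ideal of the algebraic integers containing p, and B a p-block of G that has an abelian defect group and in which every irreducible character has height zero. Then all irreducible characters of B have the same degree if and only if B is a nilpotent block. -/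
theorem result {G : Type*} [Group G] [Finite G] (p : ℕ) [Fact p.Prime] (M : Ideal Cfsg.AlgInt) (hM : Cfsg.IsPModular p M) (B : Set (Cfsg.IrrCharacter G)) (hB : Cfsg.IsPBlock M B) (D : Subgroup G) (hD : Cfsg.IsDefectGroup p M B D) (hDab : IsMulCommutative ↥D) (h0 : ∀ χ : Cfsg.IrrCharacter G, χ ∈ B → Cfsg.blockHeight p B (χ : G → ℂ) = 0) : (∃ d : ℕ, ∀ χ : Cfsg.IrrCharacter G, χ ∈ B → Cfsg.charDegree (χ : G → ℂ) = d) ↔ Cfsg.IsNilpotentBlock p M B := by
  haveI := hM.2.1; haveI : H9.PMod M p := ⟨hM⟩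
  obtain ⟨e, h⟩ := H9.exists_abD hB hD (H9.le_centralizer_of_comm hDab)
  rw [H9.isNilpotentBlock_iff, and_iff_right hB, h.max.isNil_iff_of_ab h.ab]
  refine ⟨fun ⟨d, hd⟩ => h.le_of_uni (H9.uni_of_deg hB h0 hd), fun hT => ?_⟩
  obtain ⟨ψ, hψ⟩ := H8.block_nonempty hB
  exact ⟨_, fun χ hχ => by rw [charDegree, (h.uni hT).deg_eq hχ hψ]⟩

end Cfsg.Agent.S4889
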