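import Cfsg.Statements.S4892
import Mathlib
import Cfsg.Agent.H8.PExt

set_option autoImplicit false
open Cfsg

namespace Cfsg.Agent.S4892

/-- Let p be an odd prime, M a maximal ideal of the algebraic integers containing p, N a normal subgroup of the finite group G, and θ an irreducible character of N that is G-invariant, of degree prime to p, p-rational (values in the field generated over ℚ by a root of unity of order prime to p) and lies in the principal p-block of N. Let Q be a Sylow p-subgroup of N and suppose the index of N·C_G(Q) in G is a power of p. Then θ extends to a p-rational irreducible character of G lying in the principal p-block of G. -/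
theorem result {G : Type*} [Group G] [Finite G] (p : ℕ) [Fact p.Prime] (hp : p ≠ 2) (M : Ideal Cfsg.AlgInt) (hM : Cfsg.IsPModular p M) (N : Subgroup G) [N.Normal] (θ : Cfsg.IrrCharacter ↥N) (hinv : ∀ g : G, ∀ n n' : ↥N, (n' : G) = g * (n : G) * g⁻¹ → (θ : ↥N → ℂ) n' = (θ : ↥N → ℂ) n) (hdeg : ¬ p ∣ Cfsg.charDegree (θ : ↥N → ℂ)) (hrat : ∃ m : ℕ, ¬ p ∣ m ∧ ∀ n : ↥N, (θ : ↥N → ℂ) n ∈ IntermediateField.adjoin ℚ ({Complex.exp (2 * Real.pi * Complex.I / m)} : Set ℂ)) (hB : θ ∈ Cfsg.principalBlock M ↥N) (Q : Sylow p ↥N) (hidx : ∃ a : ℕ, (N ⊔ Subgroup.centralizer (((Q : Subgroup ↥N).map N.subtype : Subgroup G) : Set G)).index = p ^ a) : ∃ χ : Cfsg.IrrCharacter G, χ ∈ (Cfsg.principalBlock M G) ∧ (∃ n : ℕ, ¬ p ∣ n ∧ ∀ g : G, (χ : G → ℂ) g ∈ IntermediateField.adjoin ℚ ({Complex.exp (2 * Real.pi * Complex.I / n)} : Set ℂ)) ∧ ∀ n : ↥N, (χ : G → ℂ) n = (θ : ↥N → ℂ) n := by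
  open H8 H9 in
  classical
  have := hM.2.1
  haveI : H9.PMod M p := ⟨hM⟩
  have hn := normal_sup_centralizer Q
  obtain ⟨a, ha⟩ := hidx
  have hs : Sup p N.subtype := sup_subtype Q.isPGroup' Q.not_dvd_index fun g hg => by
    set K := N ⊔ Subgroup.centralizer (((Q : Subgroup N).map N.subtype : Subgroup G) : Set G)
    have h1 : orderOf (g : G ⧸ K) ∣ orderOf g := orderOf_map_dvd (QuotientGroup.mk' K) g
    have h2 : orderOf (g : G ⧸ K) ∣ p ^ a := ha ▸ orderOf_dvd_natCard _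
    exact (QuotientGroup.eq_one_iff g).1 (orderOf_eq_one_iff.1 (Nat.eq_one_of_dvd_coprimes
      (((Nat.Prime.coprime_iff_not_dvd Fact.out).2 hg).pow_left a) h2 h1))
  have hf := H7.isNE_subtype N
  obtain ⟨m, hm, hF⟩ := hrat
  have hm0 : m ≠ 0 := fun e => hm (e ▸ dvd_zero p)
  have hdet : ¬ p ∣ detOrder θ.1 := not_dvd_detOrder hp (irr_isChar θ) hm fun τ hτ n => by
    refine IntermediateField.adjoin_induction ℚ (p := fun x _ => τ x = x) ?_ ?_ ?_ ?_ ?_ (hF n)
    · rintro x rfl; exact hτ _ (Complex.isPrimitiveRoot_exp m hm0).pow_eq_one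
    · intro x; simp
    · intro x y _ _ hx hy; rw [map_add, hx, hy]
    · intro x _ hx; rw [map_inv₀, hx]
    · intro x y _ _ hx hy; rw [map_mul, hx, hy]
  obtain ⟨χ₀, h1, h2⟩ := hs.exists_ext hf hB ((H7.inv_subtype_iff N hf _).2 fun g n => hinv g n _ rfl)
    fun _ => (Fact.out : p.Prime).not_dvd_mul hdet hdeg
  obtain ⟨χ, h3, h4, h5⟩ := h1.exists_det hf hB h2 hdeg hdet
  refine ⟨χ, h3.mem_principal_of_ext hf.inj hB h4, ⟨m, hm, fun g => ?_⟩, h4⟩
  obtain ⟨x, hx⟩ := H6.mem_range_of_fixed (F := IntermediateField.adjoin ℚ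
      ({Complex.exp (2 * Real.pi * Complex.I / m)} : Set ℂ)) (z := χ.1 g)
    (H6.isGen_isIntegral (H6.isGen_of_irr χ.2) g).tower_top fun τ hτ => by
      have h6 := h3.ext_unique hf (ψ := H6.irrMapEquiv τ χ) (h3.map τ.toRingHom) hB h4
        (fun n => (congrArg τ (h4 n)).trans (hτ ⟨_, hF n⟩)) hdeg h5
        (by rwa [show detOrder (H6.irrMapEquiv τ χ).1 = _ from
          detOrder_map τ.toRingHom (irr_isChar χ)])
      exact congrFun (congrArg Subtype.val h6) g
  exact hx ▸ x.2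

end Cfsg.Agent.S4892
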