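import Cfsg.Statements.S4911
import Mathlib
import Cfsg.Agent.H7.Gal

set_option autoImplicit false
open Cfsg

namespace Cfsg.Agent.S4911

open Cfsg Cfsg.Agent.H7

theorem card_real (G : Type*) [Group G] [Finite G] :
    Nat.card {χ : IrrCharacter G // ∀ g, (χ.1 g).im = 0} =
      Nat.card {C : ConjClasses G // ∀ g, ConjClasses.mk g = C → IsConj g g⁻¹} :=
  (Nat.card_congr (Equiv.subtypeEquivRight fun χ => real_iff_inv (irr_char χ.2))).trans
    (H6.card_irr_fixed_eq (G := G) (fun g => g⁻¹) fun χ hχ => by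
      simp only [char_inv (irr_char hχ)]; exact irr_star hχ)

/-- Let P and K be subgroups of a finite group with P a p-group normalizing K and K of order prime to p. Then the number of P-invariant real-valued irreducible complex characters of K equals the number of conjugacy classes of K that are real (closed under inversion) and P-invariant. Moreover, if every real-valued irreducible character of K is P-invariant, then every real element of K (one conjugate in K to its inverse) is conjugate in K to an element centralized by P. -/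
theorem result {G : Type*} [Group G] [Finite G] (p : ℕ) [Fact p.Prime] (P K : Subgroup G) (hP : IsPGroup p ↥P) (hK : ¬ p ∣ Nat.card ↥K) (hPK : P ≤ Subgroup.normalizer (K : Set G)) : Nat.card {θ : Cfsg.IrrCharacter ↥K // (∀ k : ↥K, ((θ : ↥K → ℂ) k).im = 0) ∧ (∀ x ∈ P, ∀ k k' : ↥K, (k' : G) = x * (k : G) * x⁻¹ → (θ : ↥K → ℂ) k' = (θ : ↥K → ℂ) k)} = Nat.card {c : ConjClasses ↥K // (∀ k : ↥K, ConjClasses.mk k = c → IsConj k k⁻¹) ∧ ∀ k : ↥K, ConjClasses.mk k = c → ∀ x ∈ P, ∀ k' : ↥K, (k' : G) = x * (k : G) * x⁻¹ → ConjClasses.mk k' = c} ∧ ((∀ θ : Cfsg.IrrCharacter ↥K, (∀ k : ↥K, ((θ : ↥K → ℂ) k).im = 0) → (∀ x ∈ P, ∀ k k' : ↥K, (k' : G) = x * (k : G) * x⁻¹ → (θ : ↥K → ℂ) k' = (θ : ↥K → ℂ) k)) → ∀ k : ↥K, IsConj k k⁻¹ → ∃ k' : ↥K, IsConj k k' ∧ ∀ x ∈ P, x * (k' : G) * x⁻¹ = (k' : G)) := by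
  have hs := H1.isSolvable_of_isPGroup hP
  have h : CopAct P K (K ⊓ Subgroup.centralizer (P : Set G)) := ⟨nrm_iff.mpr hPK,
    H1.coprime_card_of_isPGroup hP ((Fact.out : p.Prime).coprime_iff_not_dvd.mpr hK).symm, rfl⟩
  set C := K ⊓ Subgroup.centralizer (P : Set G)
  obtain ⟨X⟩ := nonempty_glSys P hs
  have key : ∀ χ β, X.R K C χ β → ((∀ k, (χ k).im = 0) ↔ ∀ k, (β k).im = 0) := fun χ β r => by
    have r' := X.gal r (starRingEnd ℂ)
    rw [real_iff_star, real_iff_star]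
    exact ⟨fun e => X.uniq h (e ▸ r') r, fun e => X.inj h (e ▸ r') r⟩
  have h1 : Nat.card {θ : Cfsg.IrrCharacter ↥K // (∀ k : ↥K, ((θ : ↥K → ℂ) k).im = 0) ∧ (∀ x ∈ P, ∀ k k' : ↥K, (k' : G) = x * (k : G) * x⁻¹ → (θ : ↥K → ℂ) k' = (θ : ↥K → ℂ) k)} = Nat.card {c : ConjClasses ↥K // (∀ k : ↥K, ConjClasses.mk k = c → IsConj k k⁻¹) ∧ ∀ k : ↥K, ConjClasses.mk k = c → ∀ x ∈ P, ∀ k' : ↥K, (k' : G) = x * (k : G) * x⁻¹ → ConjClasses.mk k' = c} := by
    refine (card_eq_of_rel (Y := {χ : IrrCharacter C // ∀ g, (χ.1 g).im = 0})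
      (fun χ β => X.R K C χ.1.1 β.1.1) (fun χ => ?_) (fun β => ?_)
      (fun χ β β' r r' => Subtype.ext (Subtype.ext (X.uniq h (χ := χ.1.1) r r')))
      (fun χ χ' β r r' => Subtype.ext (Subtype.ext (X.inj h (β := β.1.1) r r')))).trans ((card_real C).trans ?_)
    · obtain ⟨β, r⟩ := X.ex h χ.1.2 χ.2.2
      exact ⟨⟨⟨β, X.irr_right r⟩, (key _ _ r).mp χ.2.1⟩, r⟩
    · obtain ⟨χ, r⟩ := X.surj h β.1.2
      exact ⟨⟨⟨χ, X.irr_left r⟩, (key _ _ r).mpr β.2, X.inv_left r⟩, r⟩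
    · refine Eq.trans (Nat.card_congr (Equiv.subtypeEquivRight fun c => ?_))
        ((h.card_classes (Or.inl hs) fun c => ∀ k : K, ConjClasses.mk k = c → IsConj k k⁻¹).symm.trans
          (Nat.card_congr (Equiv.subtypeEquivRight fun c => and_congr_right fun _ =>
            ⟨fun a k e x hx k' e' => a x hx k k' e' e, fun a x hx k k' e' e => a k e x hx k' e'⟩)))
      obtain ⟨c, rfl⟩ := ConjClasses.mk_surjective c
      constructor
      · intro a k e
        obtain ⟨u, rfl⟩ := isConj_iff.mp (ConjClasses.mk_eq_mk_iff_isConj.mp e).symm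
        obtain ⟨v, hv⟩ := isConj_iff.mp ((Subgroup.inclusion h.le).map_isConj (a c rfl))
        refine isConj_iff.mpr ⟨u * v * u⁻¹, ?_⟩
        rw [map_inv] at hv
        calc _ = u * (v * Subgroup.inclusion h.le c * v⁻¹) * u⁻¹ := by group
          _ = _ := by rw [hv]; group
      · intro a k e
        refine (h.isConj_iff (Or.inl hs) _ _).mp ?_
        rw [map_inv]
        exact a _ (congrArg (ConjClasses.map (Subgroup.inclusion h.le)) e)
  refine ⟨h1, fun H k hk => ?_⟩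
  haveI : Finite (ConjClasses K) := Finite.of_surjective _ ConjClasses.mk_surjective
  have h2 := ((card_real K).symm.trans (Nat.card_congr (Equiv.subtypeEquivRight fun θ =>
    (and_iff_left_of_imp (H θ)).symm))).trans h1
  obtain ⟨⟨c, h3, h4⟩, e⟩ := ((Nat.bijective_iff_injective_and_card (fun c : {c : ConjClasses ↥K // (∀ k : ↥K, ConjClasses.mk k = c → IsConj k k⁻¹) ∧ ∀ k : ↥K, ConjClasses.mk k = c → ∀ x ∈ P, ∀ k' : ↥K, (k' : G) = x * (k : G) * x⁻¹ → ConjClasses.mk k' = c} => (⟨c.1, c.2.1⟩ :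
    {C : ConjClasses K // ∀ g, ConjClasses.mk g = C → IsConj g g⁻¹}))).mpr
    ⟨fun a b e => Subtype.ext (Subtype.mk.inj e), h2.symm⟩).2 ⟨ConjClasses.mk k, fun g e => by
      obtain ⟨u, rfl⟩ := isConj_iff.mp (ConjClasses.mk_eq_mk_iff_isConj.mp e).symm
      obtain ⟨v, hv⟩ := isConj_iff.mp hk
      refine isConj_iff.mpr ⟨u * v * u⁻¹, ?_⟩
      calc _ = u * (v * k * v⁻¹) * u⁻¹ := by group
        _ = _ := by rw [hv]; group⟩
  obtain rfl : c = ConjClasses.mk k := Subtype.mk.inj e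
  obtain ⟨u, hu, h5⟩ := h.exists_conj_mem (Or.inl hs) k.2 fun s hs => by
    obtain ⟨v, hv⟩ := isConj_iff.mp (ConjClasses.mk_eq_mk_iff_isConj.mp
      (h4 k rfl s hs ⟨_, h.nrm s hs k k.2⟩ rfl)).symm
    exact ⟨v, v.2, (congrArg Subtype.val hv).symm⟩
  exact ⟨⟨u, hu⟩ * k * ⟨u, hu⟩⁻¹, isConj_iff.mpr ⟨_, rfl⟩, fun x hx => by
    rw [mul_inv_eq_iff_eq_mul]; exact (h.mem.mp h5).2 x hx⟩

end Cfsg.Agent.S4911
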