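import Cfsg.Statements.S4912
import Mathlib
import Cfsg.Agent.H7.Gal

set_option autoImplicit false
open Cfsg

namespace Cfsg.Agent.S4912

open Cfsg Cfsg.Agent.H7

/-- Let G be a finite group with a non-abelian minimal normal subgroup N, and let φ be an irreducible complex character of N with stabilizer I in G such that φ extends to an irreducible character of I with Frobenius–Schur indicator +1. Put d = φ(1)·[G : I]. Then the number of linear characters of G with Frobenius–Schur indicator +1 is at most [G : I] times the number of irreducible characters of G of degree d with Frobenius–Schur indicator +1. -/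
theorem result {G : Type*} [Group G] [Finite G] (N : Subgroup G) (hN : N.Normal) (hN1 : N ≠ ⊥) (hmin : ∀ M : Subgroup G, M.Normal → M ≤ N → M = ⊥ ∨ M = N) (hna : ¬ IsMulCommutative ↥N) (φ : Cfsg.IrrCharacter ↥N) (I : Subgroup G) (hI : ∀ g : G, g ∈ I ↔ ∀ n n' : ↥N, (n' : G) = g * (n : G) * g⁻¹ → (φ : ↥N → ℂ) n' = (φ : ↥N → ℂ) n) (hNI : N ≤ I) (hext : ∃ ψ : Cfsg.IrrCharacter ↥I, (Nat.card ↥I : ℂ)⁻¹ * ∑ᶠ g : ↥I, (ψ : ↥I → ℂ) (g * g) = 1 ∧ ∀ n : ↥N, (ψ : ↥I → ℂ) (Subgroup.inclusion hNI n) = (φ : ↥N → ℂ) n) : Nat.card {χ : Cfsg.IrrCharacter G // Cfsg.charDegree (χ : G → ℂ) = 1 ∧ (Nat.card G : ℂ)⁻¹ * ∑ᶠ g : G, (χ : G → ℂ) (g * g) = 1} ≤ I.index * Nat.card {χ : Cfsg.IrrCharacter G // Cfsg.charDegree (χ : G → ℂ) = Cfsg.charDegree (φ : ↥N → ℂ) * I.index ∧ (Nat.card G : ℂ)⁻¹ * ∑ᶠ g : G, (χ : G → ℂ) (g * g) = 1} := by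
  obtain ⟨ψ, hψ1, hψ⟩ := hext
  have e : (fun n => ψ.1 (Subgroup.inclusion hNI n)) = φ := funext hψ
  have hf := isNE_subtype N
  have := card_lin_le hf (k := Subgroup.inclusion hNI) I.subtype_injective (fun _ => rfl) ψ.2
    (e ▸ φ.2) (fun g hg => by
      rw [I.range_subtype, hI]
      intro n n' h
      rw [e] at hg
      rw [← hf.mem_inertia'.mp hg n, hf.cj_eq h])
    (by rw [N.range_subtype]; exact le_commutator_of_minimal hmin hna)
    (fun χ => charDegree χ = 1 ∧ fs χ = 1)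
    (fun χ => charDegree χ = charDegree φ.1 * I.index ∧ fs χ = 1) (fun _ h => h.1)
    fun χ h1 h2 h3 => ⟨by
      rw [deg_mul (char_ind _ (irr_char ψ.2)) (irr_char h1), h2.1, deg_ind I.subtype_injective (irr_char ψ.2),
        I.range_subtype, ← e, deg_comp, mul_one, mul_comm], by
      have h4 : χ 1 = 1 := by rw [char_one_eq (irr_char h1), h2.1, Nat.cast_one]
      have h5 := real_of_fs h1 h2.2
      have h6 := real_of_fs ψ.2 hψ1
      have h7 : ∀ g, ((ψ.1 * fun x => χ (I.subtype x)) g).im = 0 := fun g => by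
        simp [h5, h6]
      rw [← ind_mul_comp _ _ (irr_cf h1)] at h3 ⊢
      rw [fs_eq_of_odd I.subtype h3 (real_ind _ h7) (irr_mul_linear ψ.2 (char_comp _ (irr_char h1))
        (by rw [map_one, h4])) h7 (m := 1)
        (by rw [← ip_ind_right _ _ (irr_cf h3), ip_irr_self h3, Nat.cast_one]) odd_one, ← hψ1, fs]
      refine congrArg _ (finsum_congr fun g => ?_)
      have h8 := linear_mul_conj (irr_char h1) h4 g
      rw [Complex.conj_eq_iff_im.mpr (h5 _)] at h8
      simp [linear_map_mul (irr_char h1) h4, h8]⟩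
  rwa [I.range_subtype] at this

end Cfsg.Agent.S4912
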