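import Cfsg.Statements.S4914
import Mathlib
import Cfsg.Agent.H7.RelGl

set_option autoImplicit false
open Cfsg

namespace Cfsg.Agent.S4914

open Cfsg.Agent.H7

/-- Let P and K be subgroups of a finite group G with P a p-group normalizing K, and suppose K has a normal Sylow p-subgroup Q. Let C be the subgroup of those k ∈ K whose commutator with every element of P lies in Q (so that C/Q is the fixed-point subgroup of P on K/Q). Then there is a bijection f from the P-invariant irreducible complex characters of K onto the P-invariant irreducible complex characters of C such that, for every P-invariant irreducible character χ of K, the multiplicity of f(χ) in the restriction of χ to C is a natural number congruent to 1 or to −1 modulo p, every other P-invariant irreducible character of C occurs in that restriction with multiplicity divisible by p, and the degrees of χ and f(χ) are congruent modulo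 p up to sign. -/
theorem result {G : Type*} [Group G] [Finite G] (p : ℕ) [Fact p.Prime] (P K Q C : Subgroup G) (hP : IsPGroup p ↥P) (hPK : P ≤ Subgroup.normalizer (K : Set G)) (hQK : Q ≤ K) (hQn : ∀ k ∈ K, ∀ q ∈ Q, k * q * k⁻¹ ∈ Q) (hQp : ∃ a : ℕ, Nat.card ↥Q = p ^ a) (hQsyl : ¬ p ∣ Q.relIndex K) (hCK : C ≤ K) (hC : ∀ k : G, k ∈ C ↔ (k ∈ K ∧ ∀ x ∈ P, x * k * x⁻¹ * k⁻¹ ∈ Q)) : ∃ f : {χ : Cfsg.IrrCharacter ↥K // (∀ x ∈ P, ∀ k k' : ↥K, (k' : G) = x * (k : G) * x⁻¹ → (χ : ↥K → ℂ) k' = (χ : ↥K → ℂ) k)} → {ξ : Cfsg.IrrCharacter ↥C // (∀ x ∈ P, ∀ k k' : ↥C, (k' : G) = x * (k : G) * x⁻¹ → (ξ : ↥C → ℂ) k' = (ξ : ↥C → ℂ) k)}, Function.Bijective f ∧ ∀ χ, (∀ ξ : {ξ : Cfsg.IrrCharacter ↥C // (∀ x ∈ P, ∀ k k' : ↥C, (k' : G) = x * (k : G) * x⁻¹ → (ξ : ↥C → ℂ) k' = (ξ : ↥C → ℂ) k)}, ∃ m : ℕ, (Nat.card ↥C : ℂ)⁻¹ * ∑ᶠ c : ↥C, (χ.1 : ↥K → ℂ) (Subgroup.inclusion hCK c) * (starRingEnd ℂ) ((ξ.1 : ↥C → ℂ) c) =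 (m : ℂ) ∧ (ξ = f χ → ((m : ZMod p) = 1 ∨ (m : ZMod p) = -1)) ∧ (ξ ≠ f χ → p ∣ m)) ∧ ((Cfsg.charDegree ((f χ).1 : ↥C → ℂ) : ZMod p) = (Cfsg.charDegree (χ.1 : ↥K → ℂ) : ZMod p) ∨ (Cfsg.charDegree ((f χ).1 : ↥C → ℂ) : ZMod p) = -(Cfsg.charDegree (χ.1 : ↥K → ℂ) : ZMod p)) := by
  have hp : p.Prime := Fact.out
  have hK : Nrm P K := nrm_of_le_normalizer hPK
  have hQ : Nrm P Q := fun x hx q hq => by
    obtain ⟨a, ha⟩ := hQp
    have hn : (Q.subgroupOf K).Normal := Nrm.normal_subgroupOf hQn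
    have h1 : (⟨x * q * x⁻¹, hK x hx q (hQK hq)⟩ : K) ∈ Q.subgroupOf K := by
      apply mem_of_coprime_index
      have : orderOf (⟨x * q * x⁻¹, hK x hx q (hQK hq)⟩ : K) ∣ p ^ a := by
        rw [orderOf_dvd_iff_pow_eq_one, ← ha]
        apply Subtype.ext
        have := congrArg Subtype.val (pow_card_eq_one' (x := (⟨q, hq⟩ : Q)))
        simp only [SubmonoidClass.coe_pow, OneMemClass.coe_one] at this ⊢
        rw [conj_pow, this]; simp
      exact (((Nat.Prime.coprime_iff_not_dvd hp).mpr hQsyl).pow_left a).coprime_dvd_left this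
    exact h1
  have h : RelAct P K Q C := ⟨hK, hQ, hQK, hQn, hC⟩
  have H := h.rGl hp hP hQsyl
  choose f h1 h2 h3 using fun χ : {χ : Cfsg.IrrCharacter ↥K // SInv P K χ} => H.ex χ.1 χ.1.2 χ.2
  refine ⟨fun χ => ⟨⟨f χ, h1 χ⟩, h2 χ⟩, ⟨fun χ χ' e => ?_, fun ξ => ?_⟩, fun χ => ⟨fun ξ => ?_, ?_⟩⟩
  · have e' : f χ = f χ' := congrArg (fun x => x.1.1) e
    exact Subtype.ext (Subtype.ext (H.inj _ _ _ χ.1.2 χ.2 χ'.1.2 χ'.2 (h1 χ) (h2 χ)
      ((h3 χ).ne_zero hp) (e' ▸ (h3 χ').ne_zero hp)))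
  · obtain ⟨χ, a1, a2, a3⟩ := H.surj ξ.1 ξ.1.2 ξ.2
    exact ⟨⟨⟨χ, a1⟩, a2⟩, Subtype.ext (Subtype.ext
      ((h3 ⟨⟨χ, a1⟩, a2⟩).eq ξ.1.2 ξ.2 a3).symm)⟩
  · obtain ⟨m, hm⟩ := ip_char_nat (char_comp (Subgroup.inclusion hCK) (irr_char χ.1.2))
      (irr_char ξ.1.2)
    have := Fintype.ofFinite C
    have e : ipZ (fun c => (χ.1 : K → ℂ) (Subgroup.inclusion h.C_le c)) ξ.1 = m :=
      ipZ_eq (hm.trans (Int.cast_natCast m).symm)
    refine ⟨m, by rw [finsum_eq_sum_of_fintype, ← ip_def]; exact hm, ?_, fun hne => ?_⟩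
    · rintro rfl
      simpa only [e, Int.cast_natCast] using (h3 χ).1
    · rw [← ZMod.natCast_eq_zero_iff]
      simpa only [e, Int.cast_natCast] using (h3 χ).2 _ ξ.1.2 ξ.2 fun e =>
        hne (Subtype.ext (Subtype.ext e))
  · have e := (h3 χ).degree hp hP h.nrmC (char_comp _ (irr_char χ.1.2)) (SInv.res χ.2 _) (h1 χ)
      (h2 χ)
    have e' : charDegree (fun c => (χ.1 : K → ℂ) (Subgroup.inclusion h.C_le c)) =
        charDegree (χ.1 : K → ℂ) := by simp [charDegree]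
    rw [e'] at e
    rcases (h3 χ).1 with h4 | h4 <;> simp [e, h4]

end Cfsg.Agent.S4914
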