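import Cfsg.Statements.S4916
import Mathlib
import Cfsg.Agent.H7.PSB

set_option autoImplicit false
open Cfsg

namespace Cfsg.Agent.S4916

/-- Let G be a finite group, p a prime and M a maximal ideal of the algebraic integers containing p. Then the principal character is the only irreducible character of degree prime to p in the principal p-block of G if and only if p does not divide the order of G. -/
theorem result {G : Type*} [Group G] [Finite G] (p : ℕ) [Fact p.Prime] (M : Ideal Cfsg.AlgInt) (hM : Cfsg.IsPModular p M) : (∀ χ : Cfsg.IrrCharacter G, χ ∈ Cfsg.principalBlock M G → ¬ p ∣ Cfsg.charDegree (χ : G → ℂ) → (χ : G → ℂ) = fun _ => (1 : ℂ)) ↔ ¬ p ∣ Nat.card G := by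
  haveI := hM.2.1; haveI : H9.PMod M p := ⟨hM⟩
  refine ⟨fun h hd => ?_, fun h χ hχ _ => ?_⟩
  · obtain ⟨P⟩ : Nonempty (Sylow p G) := inferInstance
    have h1 : (P : Subgroup G) ≠ ⊥ := P.ne_bot_of_dvd_card hd
    haveI : Nontrivial P := (Subgroup.nontrivial_iff_ne_bot _).mpr h1
    haveI := P.isPGroup'.isNilpotent
    have h2 : 1 < Nat.card (P →* ℂˣ) := by
      rw [H6.card_linear]
      exact Subgroup.one_lt_index_of_ne_top (Group.IsSolvable.commutator_lt_top_of_nontrivial P).ne
    haveI : Finite (P →* ℂˣ) := Nat.finite_of_card_ne_zero (by omega)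
    haveI := Finite.one_lt_card_iff_nontrivial.mp h2
    obtain ⟨l, hl⟩ := exists_ne (1 : P →* ℂˣ)
    obtain ⟨χ, h3, h4, m, h5, h6⟩ := H8.exists_principal_over (M := M) P
      (H6.isGen_of_isCharacter (H7.char_linFun l)) (n := 1) (by simp [H7.linFun_apply])
      (fun e => (Fact.out : p.Prime).not_dvd_one (by exact_mod_cast e))
    rw [h χ h3 h4] at h6
    have h6 := h6.symm.trans (H7.ip_irr_ne (H7.irr_linFun l) H7.irr_one
      (fun e => hl (H7.linFun_injective e)))
    exact h5 (by rw [show m = 0 by exact_mod_cast h6]; exact dvd_zero _)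
  · have := H9.blockOf_eq_singleton_of_not_dvd (M := M) h (H8.irrOne G)
    exact congrArg Subtype.val ((this ▸ hχ : χ ∈ ({H8.irrOne G} : Set _)))

end Cfsg.Agent.S4916
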