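import Cfsg.Statements.S4923
import Mathlib
import Cfsg.Agent.H3.Two
import Cfsg.Agent.H8.PPart
import Cfsg.Agent.H8.CharBase
import Cfsg.Agent.H6.Galois
import Cfsg.Agent.H6.Column

set_option autoImplicit false
open Cfsg

namespace Cfsg.Agent.S4923

open Subgroup Cfsg.Agent.FT Cfsg.Agent.H3

section Grp
variable {G : Type*} [Group G] [Finite G] {g x y : G} {m : ℕ}

theorem relIndex_dvd_two (P : Sylow 2 G) (hP : Nat.card P = 2 ^ (m + 1)) (hg : orderOf g = 2 ^ m) :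
    (C[g]).relIndex N(⟪g⟫) ∣ 2 := by
  have h1 : (C[g]).relIndex N(⟪g⟫) ∣ 2 ^ m := by
    have e : (C[g]).relIndex N(⟪g⟫) = (⟪g⟫).normalizerMonoidHom.ker.index := by
      rw [normalizerMonoidHom_ker, cen_zpowers]; rfl
    rw [e, index_ker]
    refine (card_subgroup_dvd_card _).trans ?_
    rw [IsCyclic.card_mulAut, Nat.card_zpowers, hg]
    rcases m with _ | m
    · simp
    · rw [Nat.totient_prime_pow_succ Nat.prime_two]
      simp [pow_succ]
  obtain ⟨j, -, hj⟩ := (Nat.dvd_prime_pow Nat.prime_two).1 h1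
  have h2 : (C[g]).relIndex N(⟪g⟫) ∣ (⟪g⟫).relIndex N(⟪g⟫) :=
    relIndex_dvd_of_le_left _ (zpowers_le_cen1 g)
  have h3 : (⟪g⟫).relIndex N(⟪g⟫) * 2 ^ m ∣ Nat.card G := by
    rw [← hg, ← Nat.card_zpowers, ← card_of_relIndex le_normalizer rfl]
    exact card_subgroup_dvd_card _
  have h4 : 2 ^ (j + m) ∣ Nat.card G := by
    rw [pow_add, ← hj]
    exact (Nat.mul_dvd_mul_right h2 _).trans h3
  have h5 := P.pow_dvd_card_of_pow_dvd_card h4
  rw [hP, Nat.pow_dvd_pow_iff_le_right (by norm_num)] at h5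
  rw [hj]
  have : j ≤ 1 := by omega
  simpa using Nat.pow_dvd_pow 2 this

theorem conj_unique (P : Sylow 2 G) (hP : Nat.card P = 2 ^ (m + 1)) (hg : orderOf g = 2 ^ m)
    (hx : x ∈ N(⟪g⟫)) (hy : y ∈ N(⟪g⟫)) (hx1 : x * g * x⁻¹ ≠ g) (hy1 : y * g * y⁻¹ ≠ g) :
    x * g * x⁻¹ = y * g * y⁻¹ := by
  have hx' : x ∉ C[g] := fun h => hx1 (by rw [mem_cen1.1 h]; group)
  have hy' : y⁻¹ ∉ C[g] := fun h => hy1 (by
    have := mem_cen1.1 (inv_mem h)
    rw [inv_inv] at this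
    rw [this]; group)
  rcases (Nat.dvd_prime Nat.prime_two).1 (relIndex_dvd_two P hP hg) with h | h
  · exact absurd (relIndex_eq_one.1 h hx) hx'
  · have := mem_cen1.1 (mul_mem_of_relIndex_two h (inv_mem hy) hx hy' hx')
    calc x * g * x⁻¹ = y * (y⁻¹ * x * g) * x⁻¹ := by group
      _ = y * g * y⁻¹ := by rw [this]; group

theorem index_comm (S : Subgroup G) : (commutator S).index = ⁅S, S⁆.relIndex S := by
  rw [← map_subtype_commutator, relIndex, subgroupOf, comap_map_eq_self_of_injective S.subtype_injective]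

theorem index_comm_equiv {H K : Type*} [Group H] [Group K] (e : H ≃* K) :
    (commutator H).index = (commutator K).index := by
  have : (commutator H).map e.toMonoidHom = commutator K := by
    rw [_root_.commutator_def, _root_.commutator_def, map_commutator,
      map_top_of_surjective _ e.surjective]
  rw [← this, index_map_of_bijective e.bijective]

theorem index_of_mc {S : Subgroup G} {a b : G} (h : MC S a b m) : (commutator S).index = 4 := by
  rw [index_comm, h.der]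
  refine relIndex_of_card_mul ((zpowers_pow_le a 2).trans h.le) ?_
  rw [Nat.card_zpowers, h.ord_sq, h.card]
  have := h.two_le
  obtain ⟨k, rfl⟩ : ∃ k, m = k + 1 := ⟨m - 1, by omega⟩
  simp [pow_succ]; ring

theorem index_of_conj (P : Sylow 2 G) (hP : Nat.card P = 2 ^ (m + 1)) (h2 : 2 ≤ m)
    (hg : orderOf g = 2 ^ m) (hx1 : x * g * x⁻¹ ≠ g)
    (hc : x * g * x⁻¹ = g⁻¹ ∨ 3 ≤ m ∧ x * g * x⁻¹ = g⁻¹ * g ^ 2 ^ (m - 1)) :
    (commutator P).index = 4 := by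
  have hx : x ∈ N(⟪g⟫) := by
    refine mem_nrm_zpowers ?_
    rcases hc with e | ⟨-, e⟩ <;> rw [e]
    · exact inv_mem (mem_zpowers g)
    · exact mul_mem (inv_mem (mem_zpowers g)) (npow_mem_zpowers _ _)
  set b := H8.pPart 2 x with hb
  have hbN : b ∈ N(⟪g⟫) := H8.pPart_mem hx
  have hyN : H8.pReg 2 x ∈ N(⟪g⟫) := H8.pReg_mem hx
  have hyC : H8.pReg 2 x ∈ C[g] := by
    set y := H8.pReg 2 x with hy
    have ho : ¬ 2 ∣ orderOf y := H8.not_dvd_orderOf_pReg x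
    have hy2 : y * y ∈ C[g] := by
      by_cases h : y ∈ C[g]
      · exact mul_mem h h
      rcases (Nat.dvd_prime Nat.prime_two).1 (relIndex_dvd_two P hP hg) with h' | h'
      · exact absurd (relIndex_eq_one.1 h' hyN) h
      · exact mul_mem_of_relIndex_two h' hyN hyN h h
    obtain ⟨k, hk⟩ : ∃ k, orderOf y = 2 * k + 1 := ⟨orderOf y / 2, by omega⟩
    have : y = ((y * y) ^ (k + 1)) := by
      rw [← sq, ← pow_mul, show 2 * (k + 1) = orderOf y + 1 by omega, pow_succ,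
        pow_orderOf_eq_one, one_mul]
    rw [this]
    exact pow_mem hy2 _
  have hbx : b * g * b⁻¹ = x * g * x⁻¹ := by
    have e : x = b * H8.pReg 2 x := (H8.pPart_mul_pReg 2 x).symm
    have := mem_cen1.1 hyC
    conv_rhs => rw [e]
    calc b * g * b⁻¹ = b * (g * H8.pReg 2 x) * (H8.pReg 2 x)⁻¹ * b⁻¹ := by group
      _ = _ := by rw [← this]; group
  have hpg : IsPGroup 2 (⟪g⟫) := IsPGroup.of_card (by rw [Nat.card_zpowers, hg])
  have hpb : IsPGroup 2 (⟪b⟫) := by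
    obtain ⟨k, hk⟩ := H8.orderOf_pPart (p := 2) x
    exact IsPGroup.of_card (by rw [Nat.card_zpowers]; exact hk)
  have hs : IsPGroup 2 (⟪g⟫ ⊔ ⟪b⟫ : Subgroup G) :=
    hpg.to_sup_of_normal_left' hpb (zpowers_le.2 hbN)
  obtain ⟨Q, hQ⟩ := hs.exists_le_sylow
  have hcQ : Nat.card Q = 2 ^ (m + 1) := by rw [← hP]; exact Nat.card_congr (Q.equiv P).toEquiv
  have hmc : MC (Q : Subgroup G) g b m := by
    refine mc_of_card h2 hcQ (hQ (mem_sup_left (mem_zpowers g))) (hQ (mem_sup_right (mem_zpowers b)))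
      hg (fun h => hx1 ?_) (by rw [hbx]; exact hc)
    rw [← hbx, mem_cen1.1 (zpowers_le_cen1 g h)]; group
  rw [index_comm_equiv (P.equiv Q)]
  exact index_of_mc hmc

theorem not_le_cen (P : Sylow 2 G) (h : 2 ∣ (C[g]).index) : ¬ (P : Subgroup G) ≤ C[g] := fun hle =>
  P.not_dvd_index (h.trans (index_dvd_of_le hle))

end Grp

section Fld

theorem fix_adjoin (τ : ℂ ≃+* ℂ) {S : Set ℂ} (h : ∀ z ∈ S, τ z = z) {z : ℂ}
    (hz : z ∈ IntermediateField.adjoin ℚ S) : τ z = z := by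
  induction hz using IntermediateField.adjoin_induction with
  | mem x hx => exact h x hx
  | algebraMap x => simp
  | add x y _ _ hx hy => rw [map_add, hx, hy]
  | inv x _ hx => rw [map_inv₀, hx]
  | mul x y _ _ hx hy => rw [map_mul, hx, hy]

theorem mem_adjoin_of_fix (S : Set ℂ) {z : ℂ} (hz : IsIntegral ℚ z)
    (h : ∀ τ : ℂ ≃+* ℂ, (∀ s ∈ S, τ s = s) → τ z = z) : z ∈ IntermediateField.adjoin ℚ S := by
  obtain ⟨a, ha⟩ := H6.mem_range_of_fixed (F := IntermediateField.adjoin ℚ S) hz.tower_top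
    (fun τ hτ => h τ fun s hs => hτ ⟨s, IntermediateField.subset_adjoin _ _ hs⟩)
  rw [← ha]
  exact a.2

variable {G : Type*} [Group G] [Finite G]

/-- the values at `g` -/
abbrev V (g : G) : Set ℂ := {z : ℂ | ∃ χ : Cfsg.IrrCharacter G, (χ : G → ℂ) g = z}

theorem fix_iff {g : G} {N k : ℕ} (hg : g ^ N = 1) (τ : ℂ ≃+* ℂ)
    (hτ : ∀ z : ℂ, z ^ N = 1 → τ z = z ^ k) : (∀ z ∈ V g, τ z = z) ↔ IsConj g (g ^ k) := by
  rw [H6.isConj_iff_forall_irr]
  constructor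
  · intro h χ hχ
    have := H6.map_apply_eq_pow τ.toRingHom hτ (H6.isGen_of_isCharacter (H8.irr_isChar ⟨χ, hχ⟩)) hg
    exact (h _ ⟨⟨χ, hχ⟩, rfl⟩).symm.trans this
  · rintro h _ ⟨χ, rfl⟩
    have := H6.map_apply_eq_pow τ.toRingHom hτ (H6.isGen_of_isCharacter (H8.irr_isChar χ)) hg
    rw [h χ.1 χ.2]
    conv_lhs => rw [← h χ.1 χ.2]
    exact this

theorem fix_a {ζ : ℂ} {k : ℕ} (h0 : ζ ≠ 0) (hε : ζ * ζ ^ k = 1 ∨ ζ * ζ ^ k = -1) (τ : ℂ ≃+* ℂ) :
    τ (ζ + ζ ^ k) = ζ + ζ ^ k ↔ τ ζ = ζ ∨ τ ζ = ζ ^ k := by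
  have hm : τ ζ * τ (ζ ^ k) = ζ * ζ ^ k := by
    rw [← map_mul]
    rcases hε with h | h <;> simp [h]
  rw [map_add]
  constructor
  · intro h
    have : (τ ζ - ζ) * (τ ζ - ζ ^ k) = 0 := by
      linear_combination τ ζ * h - hm
    rcases mul_eq_zero.1 this with h | h
    · exact Or.inl (sub_eq_zero.1 h)
    · exact Or.inr (sub_eq_zero.1 h)
  · rintro (h | h)
    · rw [map_pow, h]
    · rw [h] at hm
      have : τ (ζ ^ k) = ζ := mul_left_cancel₀ (pow_ne_zero k h0) (by rw [hm, mul_comm])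
      rw [h, this, add_comm]

theorem pow_iff {g : G} {N : ℕ} (hg : orderOf g = N) {ζ : ℂ} (hζ : IsPrimitiveRoot ζ N)
    (l k : ℕ) : ζ ^ l = ζ ^ k ↔ g ^ l = g ^ k := by
  rw [pow_eq_pow_iff_modEq (x := g), hg, hζ.eq_orderOf]
  exact (isOfFinOrder_iff_pow_eq_one.2 ⟨N, by rw [← hg]; exact orderOf_pos g, hζ.pow_eq_one⟩).pow_eq_pow_iff_modEq

theorem adjoin_eq {g : G} {N k : ℕ} (hN : N ≠ 0) (hg : orderOf g = N) {ζ : ℂ}
    (hζ : IsPrimitiveRoot ζ N) (hk : ∀ l : ℕ, IsConj g (g ^ l) ↔ g ^ l = g ∨ g ^ l = g ^ k)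
    (hε : ζ * ζ ^ k = 1 ∨ ζ * ζ ^ k = -1) :
    IntermediateField.adjoin ℚ (V g) = IntermediateField.adjoin ℚ ({ζ + ζ ^ k} : Set ℂ) := by
  have key : ∀ τ : ℂ ≃+* ℂ, (∀ z ∈ V g, τ z = z) ↔ τ (ζ + ζ ^ k) = ζ + ζ ^ k := by
    intro τ
    obtain ⟨l, -, hl⟩ := H6.exists_pow_of_ringHom τ.toRingHom hN
    have e : τ ζ = ζ ^ l := hl ζ hζ.pow_eq_one
    rw [fix_iff (by rw [← hg, pow_orderOf_eq_one]) τ hl, hk, fix_a (hζ.ne_zero hN) hε, e,
      pow_iff hg hζ l k]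
    have := pow_iff hg hζ l 1
    rw [pow_one, pow_one] at this
    rw [this]
  apply le_antisymm
  · rw [IntermediateField.adjoin_le_iff]
    rintro _ ⟨χ, rfl⟩
    refine mem_adjoin_of_fix _ (H8.char_isIntegral (H8.irr_isChar χ) g).tower_top fun τ hτ => ?_
    exact (key τ).2 (hτ _ rfl) _ ⟨χ, rfl⟩
  · rw [IntermediateField.adjoin_le_iff]
    rintro _ rfl
    have hi : IsIntegral ℚ ζ := (hζ.isIntegral (Nat.pos_of_ne_zero hN)).tower_top
    exact mem_adjoin_of_fix _ (hi.add (hi.pow k)) fun τ hτ => (key τ).1 hτ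

theorem conj_of_adjoin {g : G} {N k : ℕ} (hN : N ≠ 0) (hg : g ^ N = 1) {ζ : ℂ}
    (hζ : IsPrimitiveRoot ζ N) (hk : k.Coprime N) (hε : ζ * ζ ^ k = 1 ∨ ζ * ζ ^ k = -1)
    (h : IntermediateField.adjoin ℚ (V g) = IntermediateField.adjoin ℚ ({ζ + ζ ^ k} : Set ℂ)) :
    IsConj g (g ^ k) := by
  obtain ⟨τ, hτ⟩ := H6.exists_ringEquiv_pow hN hk
  rw [← fix_iff hg τ hτ]
  intro z hz
  refine fix_adjoin τ (S := {ζ + ζ ^ k}) ?_ (h ▸ IntermediateField.subset_adjoin _ _ hz)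
  rintro _ rfl
  exact (fix_a (hζ.ne_zero hN) hε τ).2 (Or.inr (hτ ζ hζ.pow_eq_one))

theorem half {ζ : ℂ} {m : ℕ} (hζ : IsPrimitiveRoot ζ (2 ^ (m + 1))) : ζ ^ 2 ^ m = -1 :=
  (hζ.pow (by positivity) (show 2 ^ (m + 1) = 2 ^ m * 2 from pow_succ 2 m)).eq_neg_one_of_two_right

theorem not_small {g : G} {m k : ℕ} (hm : 2 ≤ m) (hg : g ^ 2 ^ m = 1) {ζ : ℂ}
    (hζ : IsPrimitiveRoot ζ (2 ^ (m + 1))) (hε : ζ ^ k = ζ⁻¹ ∨ ζ ^ k = -ζ⁻¹) (hk : Odd k)
    (h : IntermediateField.adjoin ℚ (V g) = IntermediateField.adjoin ℚ ({ζ + ζ ^ k} : Set ℂ)) :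
    False := by
  have hN : 2 ^ (m + 1) ≠ 0 := by positivity
  have h0 := hζ.ne_zero hN
  have hc : (1 + 2 ^ m).Coprime (2 ^ (m + 1)) := by
    refine Nat.Coprime.pow_right _ ((Nat.coprime_two_right).2 ?_)
    obtain ⟨j, rfl⟩ : ∃ j, m = j + 1 := ⟨m - 1, by omega⟩
    exact ⟨2 ^ j, by ring⟩
  obtain ⟨τ, hτ⟩ := H6.exists_ringEquiv_pow hN hc
  have h1 : ∀ z ∈ V g, τ z = z := by
    rw [fix_iff (N := 2 ^ (m + 1)) (by rw [pow_succ, pow_mul, hg, one_pow]) τ hτ, pow_add, hg,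
      pow_one, mul_one]
  have h2 : τ (ζ + ζ ^ k) = ζ + ζ ^ k :=
    fix_adjoin τ h1 (h ▸ IntermediateField.subset_adjoin _ _ rfl)
  have h3 : τ ζ = -ζ := by rw [hτ ζ hζ.pow_eq_one, pow_add, half hζ]; ring
  rw [map_add, map_pow, h3, hk.neg_pow] at h2
  have h4 : ζ + ζ ^ k = 0 := by linear_combination (-1 / 2 : ℂ) * h2
  have h5 : ζ ^ 4 = 1 := by
    rcases hε with e | e <;> rw [e] at h4 <;> field_simp at h4
    · linear_combination (ζ ^ 2 - 1) * h4
    · linear_combination (ζ ^ 2 + 1) * h4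
  have := (hζ.pow_eq_one_iff_dvd 4).1 h5
  have h6 : 2 ^ (m + 1) ≤ 2 ^ 2 := Nat.le_of_dvd (by norm_num) this
  rw [Nat.pow_le_pow_iff_right (by norm_num)] at h6
  omega

end Fld

/-- Let G be a finite group with Sylow 2-subgroup P of order 2^n ≥ 8, and let ζ be a primitive 2^(n−1)-th root of unity in ℂ. Then the commutator subgroup of P has index 4 in P if and only if there is an element g of P whose conjugacy class in G has even size and such that the field generated over ℚ by the values at g of all irreducible complex characters of G equals ℚ(ζ + ζ⁻¹) or ℚ(ζ − ζ⁻¹). -/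
theorem result {G : Type*} [Group G] [Finite G] (P : Sylow 2 G) (n : ℕ) (hn : 3 ≤ n) (hP : Nat.card P = 2 ^ n) (ζ : ℂ) (hζ : IsPrimitiveRoot ζ (2 ^ (n - 1))) :
    (commutator ↥P).index = 4 ↔
      ∃ g : G, g ∈ (P : Subgroup G) ∧ 2 ∣ (Subgroup.centralizer ({g} : Set G)).index ∧
        (IntermediateField.adjoin ℚ {z : ℂ | ∃ χ : Cfsg.IrrCharacter G, (χ : G → ℂ) g = z} = IntermediateField.adjoin ℚ ({ζ + ζ⁻¹} : Set ℂ) ∨
          IntermediateField.adjoin ℚ {z : ℂ | ∃ χ : Cfsg.IrrCharacter G, (χ : G → ℂ) g = z} = IntermediateField.adjoin ℚ ({ζ - ζ⁻¹} : Set ℂ)) := by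
  obtain ⟨m, rfl⟩ : ∃ m, n = m + 3 := ⟨n - 3, by omega⟩
  rw [show m + 3 - 1 = m + 1 + 1 by omega] at hζ
  have hN : 2 ^ (m + 1 + 1) ≠ 0 := by positivity
  have h0 := hζ.ne_zero hN
  have hpos : ∀ j, 1 ≤ 2 ^ j := fun j => Nat.one_le_two_pow
  have k1 : ζ ^ (2 ^ (m + 1 + 1) - 1) = ζ⁻¹ := by
    refine eq_inv_of_mul_eq_one_left ?_
    rw [← pow_succ, Nat.sub_add_cancel (hpos _), hζ.pow_eq_one]
  have k2 : ζ ^ (2 ^ (m + 1) - 1) = -ζ⁻¹ := by
    have : ζ ^ (2 ^ (m + 1) - 1) * ζ = -1 := by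
      rw [← pow_succ, Nat.sub_add_cancel (hpos _), half hζ]
    field_simp
    linear_combination this
  have g1 : ∀ g : G, g ^ 2 ^ (m + 1 + 1) = 1 → g ^ (2 ^ (m + 1 + 1) - 1) = g⁻¹ := fun g hg => by
    refine eq_inv_of_mul_eq_one_left ?_
    rw [← pow_succ, Nat.sub_add_cancel (hpos _), hg]
  have g2 : ∀ g : G, g ^ (2 ^ (m + 1) - 1) = g⁻¹ * g ^ 2 ^ (m + 1) := fun g => by
    rw [eq_inv_mul_iff_mul_eq, ← pow_succ', Nat.sub_add_cancel (hpos _)]
  have ho : ∀ j, Odd (2 ^ (j + 1) - 1) := fun j =>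
    Nat.Even.sub_odd (hpos _) ((Nat.even_pow).2 ⟨even_two, by omega⟩) odd_one
  constructor
  · intro h
    replace h := (index_comm (P : Subgroup G)).symm.trans h
    obtain ⟨a, b, hab⟩ := taussky_aux m hP h
    have hba : b * a * b⁻¹ ≠ a := fun e => hab.not_comm (by
      conv_lhs => rw [← e]
      group)
    have hcl : ∀ l : ℕ, IsConj a (a ^ l) ↔ a ^ l = a ∨ a ^ l = b * a * b⁻¹ := by
      intro l
      constructor
      · intro hl
        obtain ⟨x, hx⟩ := isConj_iff.1 hl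
        by_cases e : a ^ l = a
        · exact Or.inl e
        right
        rw [← hx]
        exact conj_unique P hP hab.ord (mem_nrm_zpowers (hx ▸ npow_mem_zpowers _ _)) hab.b_nrm
          (hx ▸ e) hba
      · rintro (e | e) <;> rw [e]
        exact isConj_iff.2 ⟨b, rfl⟩
    refine ⟨a, hab.a_mem, ?_, ?_⟩
    · by_contra hodd
      have h1 := relIndex_dvd_two P hP hab.ord
      have h2 : (C[a]).relIndex N(⟪a⟫) ∣ (C[a]).index := by
        refine relIndex_dvd_index_of_le ?_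
        exact norms_zpowers_of_cen1 le_rfl
      rcases (Nat.dvd_prime Nat.prime_two).1 h1 with h' | h'
      · have := mem_cen1.1 (relIndex_eq_one.1 h' hab.b_nrm)
        exact hab.not_comm this.symm
      · exact hodd (h' ▸ h2)
    · have ha1 : a ^ 2 ^ (m + 1 + 1) = 1 := by rw [← hab.ord, pow_orderOf_eq_one]
      rcases hab.conj with e | ⟨-, e⟩
      · left
        rw [← k1]
        refine adjoin_eq hN hab.ord hζ ?_ (Or.inl (by rw [k1]; field_simp))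
        rw [g1 a ha1, ← e]; exact hcl
      · right
        rw [sub_eq_add_neg, ← k2]
        refine adjoin_eq hN hab.ord hζ ?_ (Or.inr (by rw [k2]; field_simp))
        rw [g2 a, ← show b * a * b⁻¹ = a⁻¹ * a ^ 2 ^ (m + 1) from e]; exact hcl
  · rintro ⟨g, hg, hev, h⟩
    have hnle := not_le_cen P hev
    rcases Nat.eq_zero_or_pos m with rfl | hm
    · obtain ⟨a, b, hab⟩ := mc_of_card_eight hP (fun hA => hnle (hA.le_cen1 hg))
      exact index_of_mc hab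
    obtain ⟨j, hj, hoj⟩ : ∃ j ≤ m + 3, orderOf g = 2 ^ j := by
      rw [← Nat.dvd_prime_pow Nat.prime_two, ← hP]
      exact Subgroup.orderOf_dvd_natCard _ hg
    have hj3 : j ≠ m + 3 := by
      rintro rfl
      refine hnle ?_
      have : ⟪g⟫ = (P : Subgroup G) :=
        eq_of_le_of_card_ge (zpowers_le.2 hg) (by rw [Nat.card_zpowers, hoj, hP])
      rw [← this]
      exact zpowers_le_cen1 g
    have h' : ∃ k, Odd k ∧ (ζ ^ k = ζ⁻¹ ∧ k = 2 ^ (m + 1 + 1) - 1 ∨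
        ζ ^ k = -ζ⁻¹ ∧ k = 2 ^ (m + 1) - 1) ∧
        IntermediateField.adjoin ℚ (V g) = IntermediateField.adjoin ℚ ({ζ + ζ ^ k} : Set ℂ) := by
      rcases h with h | h
      · exact ⟨_, ho _, Or.inl ⟨k1, rfl⟩, by rw [k1]; exact h⟩
      · exact ⟨_, ho _, Or.inr ⟨k2, rfl⟩, by rw [k2, ← sub_eq_add_neg]; exact h⟩
    obtain ⟨k, hko, hk, hF⟩ := h'
    have hj2 : j = m + 1 + 1 := by
      by_contra hne
      refine not_small (m := m + 1) (by omega) ?_ hζ (hk.imp And.left And.left) hko hF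
      exact orderOf_dvd_iff_pow_eq_one.1 (hoj ▸ Nat.pow_dvd_pow 2 (by omega))
    subst hj2
    have hg1 : g ^ 2 ^ (m + 1 + 1) = 1 := by rw [← hoj, pow_orderOf_eq_one]
    have hc := conj_of_adjoin hN hg1 hζ
      (Nat.Coprime.pow_right _ ((Nat.coprime_two_right).2 hko))
      (by rcases hk with ⟨e, -⟩ | ⟨e, -⟩ <;> rw [e]
          · left; field_simp
          · right; field_simp) hF
    obtain ⟨x, hx⟩ := isConj_iff.1 hc
    refine index_of_conj (x := x) P hP (by omega) hoj ?_ ?_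
    · rw [hx]
      intro e
      have e' : ζ ^ k = ζ ^ 1 := (pow_iff hoj hζ k 1).2 (by rw [e, pow_one])
      have h4 : ζ ^ 4 = 1 := by
        rcases hk with ⟨e1, -⟩ | ⟨e1, -⟩ <;> rw [e1] at e' <;> field_simp at e'
        · linear_combination (-(ζ ^ 2 + 1)) * e'
        · linear_combination (-(ζ ^ 2 - 1)) * e'
      have := (hζ.pow_eq_one_iff_dvd 4).1 h4
      have h6 : 2 ^ (m + 1 + 1) ≤ 2 ^ 2 := Nat.le_of_dvd (by norm_num) this
      rw [Nat.pow_le_pow_iff_right (by norm_num)] at h6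
      omega
    · rw [hx]
      rcases hk with ⟨-, rfl⟩ | ⟨-, rfl⟩
      · exact Or.inl (g1 g hg1)
      · exact Or.inr ⟨by omega, g2 g⟩

end Cfsg.Agent.S4923
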