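import Cfsg.Statements.S4931
import Mathlib
import Cfsg.Agent.H9.Ez2

set_option autoImplicit false
open Cfsg

namespace Cfsg.Agent.S4931

/-- Let G be a finite group, p a prime and P a Sylow p-subgroup of G with normalizer N. Then every irreducible complex character of N of degree not divisible by p is the restriction of an irreducible character of G if and only if there is a normal subgroup K of G with KN = G and K ∩ N = 1. -/
theorem result {G : Type*} [Group G] [Finite G] (p : ℕ) [Fact p.Prime] (P : Sylow p G) :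
    (∀ θ : Cfsg.IrrCharacter ↥(Subgroup.normalizer ((P : Subgroup G) : Set G)), ¬ p ∣ Cfsg.charDegree (θ : ↥(Subgroup.normalizer ((P : Subgroup G) : Set G)) → ℂ) →
        ∃ χ : Cfsg.IrrCharacter G, ∀ x : ↥(Subgroup.normalizer ((P : Subgroup G) : Set G)), (χ : G → ℂ) x = (θ : ↥(Subgroup.normalizer ((P : Subgroup G) : Set G)) → ℂ) x) ↔
      ∃ K : Subgroup G, K.Normal ∧ K ⊔ Subgroup.normalizer ((P : Subgroup G) : Set G) = ⊤ ∧ K ⊓ Subgroup.normalizer ((P : Subgroup G) : Set G) = ⊥ := by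
  refine ⟨fun h => H9.Ez.compl_of_ext Fact.out (FT.syl_top Fact.out P) fun θ hθ hd => ?_, ?_⟩
  · obtain ⟨χ, h⟩ := h ⟨θ, hθ⟩ hd
    exact ⟨χ.1, χ.2, h⟩
  · rintro ⟨K, _, h1, h2⟩ θ -
    obtain ⟨χ, hχ, h⟩ := H9.Ez.ext_of_compl h1 h2 θ.2
    exact ⟨⟨χ, hχ⟩, h⟩

end Cfsg.Agent.S4931
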