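import Cfsg.Statements.S4937
import Mathlib
import Cfsg.Agent.H8.PExt

set_option autoImplicit false
open Cfsg

namespace Cfsg.Agent.S4937

/-- Let G be a finite group, p a prime, M a maximal ideal of the algebraic integers containing p, N a normal subgroup of G and P a Sylow p-subgroup of N such that G = N·C_G(P). Let θ be an irreducible character in the principal p-block of N that is the restriction of some irreducible character of G. Then θ is the restriction of an irreducible character χ of G lying in the principal p-block of G such that, for every subgroup J of G containing N, the restriction of χ to J is an irreducible character of J lying in the principal p-block of J. -/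
theorem result {G : Type*} [Group G] [Finite G] (p : ℕ) [Fact p.Prime] (M : Ideal Cfsg.AlgInt) (hM : Cfsg.IsPModular p M) (N : Subgroup G) [N.Normal] (P : Sylow p ↥N)
    (hcov : N ⊔ Subgroup.centralizer (((P : Subgroup ↥N).map N.subtype : Subgroup G) : Set G) = ⊤)
    (θ : Cfsg.IrrCharacter ↥N) (hθ : θ ∈ Cfsg.principalBlock M ↥N)
    (hext : ∃ ψ : Cfsg.IrrCharacter G, ∀ x : ↥N, (ψ : G → ℂ) x = (θ : ↥N → ℂ) x) :
    ∃ χ : Cfsg.IrrCharacter G, χ ∈ Cfsg.principalBlock M G ∧ (∀ x : ↥N, (χ : G → ℂ) x = (θ : ↥N → ℂ) x) ∧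
      ∀ J : Subgroup G, N ≤ J → ∃ ξ : Cfsg.IrrCharacter ↥J, ξ ∈ Cfsg.principalBlock M ↥J ∧ ∀ y : ↥J, (ξ : ↥J → ℂ) y = (χ : G → ℂ) y := by
  open H8 H9 in
  classical
  have := hM.2.1
  haveI : H9.PMod M p := ⟨hM⟩
  have hs : Sup p N.subtype := sup_subtype P.isPGroup' P.not_dvd_index fun g _ => by
    rw [hcov]; trivial
  have hf := H7.isNE_subtype N
  obtain ⟨ψ, hψ⟩ := hext
  obtain ⟨lam, h2, h3⟩ := hs.exists_good hf hθ (irr_isChar ψ) hψ
  have h4 : IsIrrCharacter G (H7.linFun lam * ψ.1) := by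
    rw [mul_comm]
    exact H7.irr_mul_linear ψ.2 (H7.char_linFun lam) (H7.linFun_one_apply lam)
  have h5 : ∀ n : N, (H7.linFun lam * ψ.1) n = θ.1 n := fun n => by
    rw [Pi.mul_apply, H7.linFun_apply, show lam n = 1 from h2 n, hψ, Units.val_one, one_mul]
  refine ⟨⟨_, h4⟩, Good.mem_principal_of_ext hf.inj (χ := ⟨_, h4⟩) h3 hθ h5, h5, fun J hJ => ?_⟩
  have h6 : IsIrrCharacter J fun y => (H7.linFun lam * ψ.1) y :=
    H7.irr_of_irr_comp (Subgroup.inclusion hJ) (H7.char_comp J.subtype (H7.irr_char h4))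
      ((funext h5 : _ = θ.1) ▸ θ.2)
  exact ⟨⟨_, h6⟩, Good.mem_principal_of_ext (Subgroup.inclusion_injective hJ) (χ := ⟨_, h6⟩)
    (h3.comp J.subtype_injective fun _ => rfl) hθ h5, fun _ => rfl⟩

end Cfsg.Agent.S4937
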