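import Cfsg.Statements.S4958
import Mathlib
import Cfsg.Agent.H9.Knorr

set_option autoImplicit false
open Cfsg

namespace Cfsg.Agent.S4958

/-- Let X be a finite group and V a normal subgroup of X in which every element has order dividing the prime p, whose index in X is prime to p and which is its own centralizer in X; so V is an elementary abelian normal Sylow p-subgroup, and any complement G to V in X is a group of order prime to p acting faithfully on the vector space V by conjugation (the coprime linear setting of the k(GV) problem). Let G be a complement to V in X and suppose that for some v in V the centralizer of v in G is abelian. Then the number of conjugacy classes of X is at most the order of V (the abelian-stabilizer criterion for the k(GV) problem). -/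
theorem result {X : Type*} [Group X] [Finite X] (p : ℕ) [Fact p.Prime] (V : Subgroup X) [V.Normal] (hVexp : ∀ v ∈ V, v ^ p = 1) (hidx : ¬ p ∣ V.index) (hself : Subgroup.centralizer (V : Set X) = V) (G : Subgroup X) (hGV : Subgroup.IsComplement' V G) (v : X) (hv : v ∈ V) (hab : ∀ a ∈ G ⊓ Subgroup.centralizer ({v} : Set X), ∀ b ∈ G ⊓ Subgroup.centralizer ({v} : Set X), a * b = b * a) : Nat.card (ConjClasses X) ≤ Nat.card V := by
  have hp : p.Prime := Fact.out
  have hV : FT.Abelem p V := ⟨⟨⟨fun a b => Subtype.ext (FT.mem_cen.1 (hself.ge b.2) a a.2)⟩⟩, hVexp⟩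
  by_cases v1 : v = 1
  · subst v1
    rw [FT.cen1_one, inf_top_eq] at hab
    by_cases V1 : V = ⊥
    · subst V1
      rw [← hself, FT.cen_bot, FT.card_top']
      exact Nat.card_le_card_of_surjective _ ConjClasses.mk_surjective
    · obtain ⟨u, hu, u1⟩ := FT.exists_ne_one V1
      exact H9.Kn.knorr hp hV hidx hself hGV hu u1 ⟨⟨fun a b => Subtype.ext (hab _ a.2.1 _ b.2.1)⟩⟩
  · exact H9.Kn.knorr hp hV hidx hself hGV hv v1 ⟨⟨fun a b => Subtype.ext (hab _ a.2 _ b.2)⟩⟩

end Cfsg.Agent.S4958
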