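import Cfsg.Statements.S4989
import Mathlib
import Cfsg.Agent.H7.Small

set_option autoImplicit false
open Cfsg

namespace Cfsg.Agent.S4989

open Cfsg.Agent.H7

/-- Let H be a subgroup of the finite group G and χ an irreducible complex character of G. Then the inner product of the restriction of χ to H with itself, (1/#H)·Σ_{h ∈ H} |χ(h)|², is at most 1 + #(Z ∖ H)/#H, where Z is the set of zeros of χ in G. -/
theorem result {G : Type*} [Group G] [Finite G] (H : Subgroup G) (χ : Cfsg.IrrCharacter G) : (Nat.card ↥H : ℝ)⁻¹ * ∑ᶠ h : ↥H, ‖(χ : G → ℂ) h‖ ^ 2 ≤ 1 + (Set.ncard ({x : G | (χ : G → ℂ) x = 0} \ (H : Set G)) : ℝ) / (Nat.card ↥H : ℝ) := by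
  classical
  have := Fintype.ofFinite G
  set V := Finset.univ.filter fun g : G => (χ : G → ℂ) g = 0 ∧ g ∉ H
  set R := Finset.univ.filter fun g : G => ¬ (g ∈ H ∨ (χ : G → ℂ) g = 0 ∧ g ∉ H)
  have h1 : ∀ F : G → ℝ, ∑ g, F g = ∑ g : H, F g + ∑ g ∈ V, F g + ∑ g ∈ R, F g := fun F => by
    rw [← Finset.sum_subtype (Finset.univ.filter (· ∈ H)) (by simp), ← Finset.sum_union
      (Finset.disjoint_filter.mpr fun g _ h h' => h'.2 h), ← Finset.filter_or,
      Finset.sum_filter_add_sum_filter_not]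
  have h2 := h1 fun _ => 1
  have h3 := h1 fun g => ‖(χ : G → ℂ) g‖ ^ 2
  rw [H6.sum_norm_sq_irr χ.2, Finset.sum_eq_zero (s := V) fun g hg => by
    simp [(Finset.mem_filter.mp hg).2.1]] at h3
  simp only [Finset.sum_const, nsmul_eq_mul, mul_one, Finset.card_univ,
    ← Nat.card_eq_fintype_card] at h2
  have h4 := H6.card_le_sum_norm_sq_of_pow_closed (H6.isGen_of_irr χ.2) R (fun m hm g hg => by
    simp only [R, Finset.mem_filter, Finset.mem_univ, true_and] at hg ⊢
    rwa [pow_mem_iff_of_coprime _ hm, gen_pow_eq_zero_iff (H6.isGen_of_irr χ.2) hm])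
    fun g hg h => (Finset.mem_filter.mp hg).2 (by tauto)
  have h5 : ({x : G | (χ : G → ℂ) x = 0} \ (H : Set G)) = V := by
    ext; simp [V]
  have h6 : (0 : ℝ) < Nat.card H := Nat.cast_pos.mpr Nat.card_pos
  rw [h5, Set.ncard_coe_finset, finsum_eq_sum_of_fintype, inv_mul_le_iff₀ h6, mul_add,
    mul_div_cancel₀ _ h6.ne']
  linarith

end Cfsg.Agent.S4989
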