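import Cfsg.Statements.S4993
import Mathlib
import Cfsg.Agent.H8.AvgFix

set_option autoImplicit false
open Cfsg

namespace Cfsg.Agent.S4993

/-- Let G be a group of odd order whose order has exactly two prime divisors and whose quotient by its Fitting subgroup is nilpotent (G is metanilpotent), and let χ be a primitive irreducible complex character of G (not induced from a character of any proper subgroup). Then χ(1) divides the size of some conjugacy class of G. -/
theorem result {G : Type*} [Group G] [Fintype G] (hodd : Odd (Nat.card G)) (h2 : (Nat.card G).primeFactors.card = 2) [hF : (Cfsg.fittingSubgroup G).Normal] (hmeta : Group.IsNilpotent (G ⧸ Cfsg.fittingSubgroup G)) (χ : Cfsg.IrrCharacter G) (hprim : ¬ ∃ (H : Subgroup G), H ≠ ⊤ ∧ ∃ θ : ↥H → ℂ, Cfsg.IsCharacter ↥H θ ∧ Cfsg.indFun H θ = (χ : G → ℂ)) : ∃ g : G, Cfsg.charDegree (χ : G → ℂ) ∣ (Subgroup.centralizer ({g} : Set G)).index := by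
  haveI := H2.fittingSubgroup_isNilpotent (G := G)
  haveI : Group.IsSolvable G :=
    (Group.isSolvable_iff_subgroup_quotient (fittingSubgroup G)).2 ⟨inferInstance, inferInstance⟩
  obtain ⟨p, q, hpq, e⟩ := Finset.card_eq_two.1 h2
  have hp : p.Prime := Nat.prime_of_mem_primeFactors (e ▸ Finset.mem_insert_self _ _)
  have hq : q.Prime := Nat.prime_of_mem_primeFactors
    (e ▸ Finset.mem_insert_of_mem (Finset.mem_singleton_self _))
  have pq : ∀ r : ℕ, r.Prime → r ∣ Nat.card G → r = p ∨ r = q := fun r hr h => by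
    have := Nat.mem_primeFactors.2 ⟨hr, h, Nat.card_pos.ne'⟩
    rw [e] at this
    simpa using this
  haveI := Fact.mk hp
  haveI := Fact.mk hq
  let P : Sylow p (G ⧸ fittingSubgroup G) := default
  let Q : Sylow q (G ⧸ fittingSubgroup G) := default
  haveI : (P : Subgroup (G ⧸ fittingSubgroup G)).Normal := Sylow.normal_of_normalizerCondition
    Group.normalizerCondition_of_isNilpotent P
  haveI : (Q : Subgroup (G ⧸ fittingSubgroup G)).Normal := Sylow.normal_of_normalizerCondition
    Group.normalizerCondition_of_isNilpotent Q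
  have top : (P : Subgroup (G ⧸ fittingSubgroup G)) ⊔ Q = ⊤ := by
    by_contra h
    obtain ⟨r, hr, hd⟩ := Nat.exists_prime_and_dvd (mt Subgroup.index_eq_one.1 h)
    rcases pq r hr ((hd.trans (Subgroup.index_dvd_card _)).trans
      (Subgroup.card_quotient_dvd_card _)) with rfl | rfl
    · exact P.not_dvd_index (hd.trans (Subgroup.index_dvd_of_le le_sup_left))
    · exact Q.not_dvd_index (hd.trans (Subgroup.index_dvd_of_le le_sup_right))
  have tp : ∀ (r : ℕ) [Fact r.Prime] (R : Sylow r (G ⧸ fittingSubgroup G))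
      [(R : Subgroup (G ⧸ fittingSubgroup G)).Normal] (z : G), (z : G ⧸ fittingSubgroup G) ∈ R.1 →
      H8.Avg.Tp r z := fun r _ R _ z hz =>
    H8.Avg.tp_of (M := R.1.comap (QuotientGroup.mk' _)) (fun x hx => by
      obtain ⟨k, hk⟩ := R.isPGroup' ⟨_, hx⟩
      exact ⟨k, (QuotientGroup.eq_one_iff _).1 (congrArg Subtype.val hk)⟩) hz
  obtain ⟨x, hx⟩ := H8.Avg.prim_deg p χ.2 (H8.Avg.isPrim_of hprim)
  obtain ⟨y, hy⟩ := H8.Avg.prim_deg q χ.2 (H8.Avg.isPrim_of hprim)
  obtain ⟨a, ha, b, hb, hab⟩ := Subgroup.mem_sup_of_normal_left.1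
    (top ▸ Subgroup.mem_top ((x⁻¹ * y : G) : G ⧸ fittingSubgroup G))
  obtain ⟨a, rfl⟩ := QuotientGroup.mk_surjective a
  have h1 := hx a (tp p P a ha)
  have h2 := hy (y⁻¹ * (x * a)) (tp q Q _ (by
    have : ((y⁻¹ * (x * a) : G) : G ⧸ fittingSubgroup G) = b⁻¹ := by
      rw [← mul_assoc, ← inv_inv (y⁻¹ * x), mul_inv_rev, inv_inv, QuotientGroup.mk_mul,
        QuotientGroup.mk_inv, ← hab]
      group
    exact this ▸ inv_mem hb))
  rw [mul_inv_cancel_left] at h2
  refine ⟨x * a, (Nat.factorization_le_iff_dvd (H7.irr_degree_pos χ.2).ne'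
    Subgroup.index_ne_zero_of_finite).1 fun r => ?_⟩
  by_cases hr : r.Prime ∧ r ∣ charDegree (χ : G → ℂ)
  · rcases pq r hr.1 (hr.2.trans (H7.irr_degree_dvd_card χ.2)) with rfl | rfl
    exacts [h1, h2]
  · rw [(Nat.factorization_eq_zero_iff _ _).2 (by tauto)]; exact Nat.zero_le _

end Cfsg.Agent.S4993
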