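import Cfsg.Statements.S5001
import Mathlib
import Cfsg.Agent.H9.Misc

set_option autoImplicit false
open Cfsg

namespace Cfsg.Agent.S5001

open Cfsg.Agent.H7 (ip) in
theorem exists_rd {M : Ideal AlgInt} [M.IsMaximal] {H : Type*} [Group H] [Finite H] {θ : H → ℂ}
    (hθ : IsCharacter H θ) {x : H} (h : H8.rd M (θ x) ≠ 0) :
    ∃ ξ : IrrCharacter H, ip θ ξ ≠ 0 ∧ H8.rd M (ξ.1 x) ≠ 0 := by
  by_contra! hne
  refine h ?_
  rw [H7.cf_expand (H7.char_cf hθ), Finset.sum_apply, H8.rd_eq_zero_iff (sum_mem fun ξ hξ => ?_),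
    ← H8.rd_eq_zero_iff (sum_mem fun ξ hξ => ?_), H8.rd_sum _ _ fun ξ hξ => ?_]
  · refine Finset.sum_eq_zero fun ξ hξ => ?_
    have hξ := H7.mem_irrSet.1 hξ
    obtain ⟨n, hn⟩ := H7.ip_char_nat hθ (H7.irr_char hξ)
    by_cases h0 : ip θ ξ = 0
    · simp [h0]
    · rw [Pi.smul_apply, smul_eq_mul, hn, H8.rd_mul (natCast_mem _ _) (H8.irr_mem_locRing ⟨ξ, hξ⟩ x),
        hne ⟨ξ, hξ⟩ h0, mul_zero]
  all_goals
    have hξ := H7.mem_irrSet.1 hξ
    obtain ⟨n, hn⟩ := H7.ip_char_nat hθ (H7.irr_char hξ)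
    rw [Pi.smul_apply, smul_eq_mul, hn]
    exact mul_mem (natCast_mem _ _) (H8.irr_mem_locRing ⟨ξ, hξ⟩ x)

/-- Let p be a prime, G a finite group and B a p-block of G (relative to a maximal ideal M of the algebraic integers containing p) with defect group D. Let Z be a central p-subgroup of G contained in D and λ a linear character of Z (a homomorphism to the nonzero complex numbers). Say an irreducible character χ of G lies over λ when χ(z) = χ(1)λ(z) for all z ∈ Z. If some irreducible character in B lying over λ has height zero, then λ extends to a linear character of D. -/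
theorem result {G : Type*} [Group G] [Finite G] (p : ℕ) [Fact p.Prime] (M : Ideal Cfsg.AlgInt) (hM : Cfsg.IsPModular p M) (B : Set (Cfsg.IrrCharacter G)) (hB : Cfsg.IsPBlock M B) (D : Subgroup G) (hD : Cfsg.IsDefectGroup p M B D) (Z : Subgroup G) (hZc : Z ≤ Subgroup.center G) (hZp : IsPGroup p ↥Z) (hZD : Z ≤ D) (lam : ↥Z →* ℂˣ) (χ : Cfsg.IrrCharacter G) (hχ : χ ∈ B) (hover : (∀ z : ↥Z, (χ : G → ℂ) z = (χ : G → ℂ) 1 * (lam z : ℂ))) (h0 : Cfsg.blockHeight p B (χ : G → ℂ) = 0) : (∃ μ : ↥D →* ℂˣ, ∀ z : ↥Z, μ ⟨(z : G), hZD z.2⟩ = lam z) := by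
  haveI := hM.2.1
  obtain ⟨g, hg, P, hP⟩ := hD
  have hDp : IsPGroup p D := hP ▸ P.2.map _
  have hDC : D ≤ Subgroup.centralizer {g} := hP ▸ Subgroup.map_subtype_le _
  obtain ⟨ξ, h1, h2⟩ := exists_rd (M := M) (H7.char_comp (Subgroup.centralizer {g}).subtype
    (H8.irr_isChar χ)) (x := H8.selfC g) ((H8.height_eq_zero_iff hM hB hg hχ).1 h0)
  have h3 := H8.degree_le_of_rd_ne_zero hM ξ h2
  rw [show Subgroup.centralizer {H8.selfC g} = ⊤ from eq_top_iff.2 fun x _ =>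
    Subgroup.mem_centralizer_singleton_iff.2 (Subtype.ext
      (Subgroup.mem_centralizer_singleton_iff.1 x.2)), Subgroup.index_top, Nat.factorization_one,
    Finsupp.zero_apply, Nat.le_zero, Nat.factorization_eq_zero_iff] at h3
  obtain ⟨μ, h4, h5⟩ := exists_rd (M := M) (H7.char_comp (Subgroup.inclusion hDC) (H8.irr_isChar ξ))
    (x := 1) (by
      rw [map_one, H8.irr_one_eq, Ne, H8.rd_natCast_eq_zero_iff hM]
      exact (h3.resolve_left (not_not.2 hM.1)).resolve_right (H8.charDegree_irr_ne_zero ξ))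
  rw [H8.irr_one_eq, Ne, H8.rd_natCast_eq_zero_iff hM] at h5
  obtain ⟨n, hn⟩ := IsPGroup.iff_card.1 hDp
  obtain ⟨k, -, hk⟩ := (Nat.dvd_prime_pow hM.1).1 (hn ▸ H8.charDegree_dvd_card μ)
  obtain ⟨ν, hν⟩ := H7.exists_hom_of_char_one (H8.irr_isChar μ) (by
    rcases k with _ | k
    · rw [H8.irr_one_eq, hk]; simp
    · exact absurd (hk ▸ dvd_pow_self p k.succ_ne_zero) h5)
  have h6 := H7.ip_comp_comp_ne_zero _ _ (H8.irr_isChar χ) ξ.2 (H8.irr_isChar μ) h1 h4
  have h7 := H7.ip_comp_ne_zero_of_le (Subgroup.inclusion hZD)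
    (H7.char_comp D.subtype (H8.irr_isChar χ)) μ.2 h6
    (H7.char_of_hom (ν.comp (Subgroup.inclusion hZD))) (by
      rw [hν]
      exact (H7.ip_irr_self (H7.irr_of_hom (ν.comp (Subgroup.inclusion hZD)))).trans_ne one_ne_zero)
  have h8 : (fun z : Z => (χ : G → ℂ) (D.subtype (Subgroup.inclusion hZD z))) =
      (χ : G → ℂ) 1 • fun z => (lam z : ℂ) := funext hover
  rw [h8, H7.ip_smul_left] at h7
  exact ⟨ν, fun z => Units.ext (congrFun (H7.irr_eq_of_ip_ne_zero (H7.irr_of_hom lam)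
    (H7.irr_of_hom _) (right_ne_zero_of_mul h7)) z).symm⟩

end Cfsg.Agent.S5001
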