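import Cfsg.Statements.S5011
import Mathlib
import Cfsg.Agent.H7.Small

set_option autoImplicit false
open Cfsg

namespace Cfsg.Agent.S5011

open Cfsg.Agent.H7

/-- Let G be a finite non-abelian simple group and ρ an irreducible complex representation of G on a space of dimension greater than one (irreducible in the sense that the only subspaces invariant under every ρ(x) are 0 and the whole space). Then for every non-identity element g of G, the centralizer of g does not act irreducibly: there is a non-zero proper subspace invariant under ρ(c) for every c commuting with g. -/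
theorem result {G : Type*} [Group G] [Finite G] [IsSimpleGroup G]
    (hG : ¬ IsMulCommutative G) {V : Type*} [AddCommGroup V] [Module ℂ V] [FiniteDimensional ℂ V]
    (ρ : Representation ℂ G V)
    (hirr : ∀ W : Submodule ℂ V, (∀ x : G, ∀ v ∈ W, ρ x v ∈ W) → W = ⊥ ∨ W = ⊤)
    (hdim : 1 < Module.finrank ℂ V) (g : G) (hg : g ≠ 1) :
    ∃ W : Submodule ℂ V, W ≠ ⊥ ∧ W ≠ ⊤ ∧ ∀ c ∈ Subgroup.centralizer ({g} : Set G), ∀ v ∈ W, ρ c v ∈ W := by
  by_contra hc
  push Not at hc
  have hnt : Nontrivial V := Module.nontrivial_of_finrank_pos (R := ℂ) (by omega)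
  let σ : Representation ℂ (Subgroup.centralizer ({g} : Set G)) V := ρ.comp (Subgroup.subtype _)
  have h0 : Nontrivial (Subrepresentation σ) := ⟨⊥, ⊤, fun h =>
    bot_ne_top (α := Submodule ℂ V) (congrArg Subrepresentation.toSubmodule h)⟩
  have h1 : σ.IsIrreducible := ⟨fun U => by
    by_contra h
    push Not at h
    obtain ⟨c, hc', v, hv, hv'⟩ := hc U.toSubmodule (fun e => h.1 (Subrepresentation.ext e))
      fun e => h.2 (Subrepresentation.ext e)
    exact hv' (U.apply_mem_toSubmodule ⟨c, hc'⟩ hv)⟩
  have h0' : Nontrivial (Subrepresentation ρ) := ⟨⊥, ⊤, fun h =>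
    bot_ne_top (α := Submodule ℂ V) (congrArg Subrepresentation.toSubmodule h)⟩
  have h2 : ρ.IsIrreducible := ⟨fun U => (hirr U.toSubmodule fun x v hv =>
    U.apply_mem_toSubmodule x hv).imp (fun e => Subrepresentation.ext e)
      fun e => Subrepresentation.ext e⟩
  obtain ⟨c, h3⟩ := H6.exists_scalar_of_comm σ (ρ g) fun x => by
    change ρ g * ρ x = ρ x * ρ g
    rw [← map_mul, ← map_mul, Subgroup.mem_centralizer_singleton_iff.mp x.2]
  have h4 := (H6.mem_charCenter_character ρ g).mpr ⟨c, h3⟩
  rw [H6.charCenter_eq_center (irr_of_rep ρ) (H6.charKer_eq_bot_of_simple (irr_of_rep ρ) fun h => by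
    have := congrFun h 1
    simp only [Representation.char_one, Nat.cast_eq_one] at this
    omega)] at h4
  rcases Subgroup.Normal.eq_bot_or_eq_top (inferInstance : (Subgroup.center G).Normal) with h | h
  · exact hg (by rwa [h] at h4)
  · exact hG ⟨⟨fun a b => Subgroup.mem_center_iff.mp (h ▸ Subgroup.mem_top b) a⟩⟩

end Cfsg.Agent.S5011
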