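import Cfsg.Statements.S5075
import Mathlib
import Cfsg.Agent.H3.McL2

set_option autoImplicit false
open Cfsg

namespace Cfsg.Agent.S5075

/-- Let p be an odd prime, V a finite-dimensional vector space over the field with p elements, and H a group of linear automorphisms of V generated by transvections (elements of order p fixing a hyperplane pointwise) and having no nontrivial normal p-subgroup. Then for some n ≥ 1 there are a decomposition V = V₀ ⊕ V₁ ⊕ ⋯ ⊕ Vₙ into H-invariant subspaces and a decomposition of H as the internal direct product of normal subgroups H₁, …, Hₙ such that Hⱼ acts trivially on every Vᵢ with i ≠ j, and Hⱼ induces on Vⱼ exactly the special linear group of Vⱼ or exactly the isometry group of a non-degenerate alternating form on Vⱼ. -/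
theorem result {p : ℕ} [Fact p.Prime] (hp : Odd p) {V : Type*} [AddCommGroup V] [Module (ZMod p) V] [Finite V]
    (H : Subgroup (V ≃ₗ[ZMod p] V)) (T : Set (V ≃ₗ[ZMod p] V)) (hHT : H = Subgroup.closure T)
    (hT : ∀ t ∈ T, orderOf t = p ∧
      Module.finrank (ZMod p) ↥(LinearMap.ker ((t : V →ₗ[ZMod p] V) - LinearMap.id)) + 1 =
        Module.finrank (ZMod p) V)
    (hOp : Cfsg.pCore p ↥H = ⊥) :
    ∃ (n : ℕ) (W : Fin (n + 1) → Submodule (ZMod p) V) (K : Fin n → Subgroup (V ≃ₗ[ZMod p] V)),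
      1 ≤ n ∧ DirectSum.IsInternal W ∧
      (∀ h ∈ H, ∀ i, (W i).map (h : V →ₗ[ZMod p] V) = W i) ∧
      (∀ j, K j ≤ H ∧ ((K j).subgroupOf H).Normal) ∧ ⨆ j, K j = H ∧
      (∀ j, K j ⊓ (⨆ j' ∈ {j' : Fin n | j' ≠ j}, K j') = ⊥) ∧
      (∀ j j', j ≠ j' → ∀ a ∈ K j, ∀ b ∈ K j', a * b = b * a) ∧
      (∀ j, ∀ h ∈ K j, ∀ i : Fin (n + 1), i ≠ j.succ → ∀ v ∈ W i, h v = v) ∧
      (∀ j, ∃ ρ : ↥(K j) →* (↥(W j.succ) ≃ₗ[ZMod p] ↥(W j.succ)),
        (∀ (h : ↥(K j)) (v : ↥(W j.succ)), ((ρ h v : ↥(W j.succ)) : V) = (h : V ≃ₗ[ZMod p] V) (v : V)) ∧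
        ((ρ.range : Set (↥(W j.succ) ≃ₗ[ZMod p] ↥(W j.succ))) =
            {f : ↥(W j.succ) ≃ₗ[ZMod p] ↥(W j.succ) | LinearMap.det (f : ↥(W j.succ) →ₗ[ZMod p] ↥(W j.succ)) = 1} ∨
          ∃ B : LinearMap.BilinForm (ZMod p) ↥(W j.succ), B.IsAlt ∧ B.Nondegenerate ∧
            (ρ.range : Set (↥(W j.succ) ≃ₗ[ZMod p] ↥(W j.succ))) = {f : ↥(W j.succ) ≃ₗ[ZMod p] ↥(W j.succ) | ∀ x y, B (f x) (f y) = B x y})) := by
  open Cfsg.Agent.H3 in
  open scoped commutatorElement in
  ·   have : FiniteDimensional (ZMod p) V := Module.Finite.of_finite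
      have hp' : p.Prime := Fact.out
      have h3 : 3 ≤ p := by
        have := hp'.two_le
        obtain ⟨k, e⟩ := hp
        omega
      refine McL.mclaughlin (fun c => ⟨c.val, ZMod.natCast_zmod_val c⟩) h3 ?_ fun N hn hP => ?_
      · rw [hHT]
        refine (Subgroup.closure_le _).2 fun t ht => ?_
        obtain ⟨h1, h2⟩ := hT t ht
        have := LinearMap.finrank_range_add_finrank_ker ((t : V →ₗ[ZMod p] V) - LinearMap.id)
        obtain ⟨φ, u, e⟩ := LinearEquiv.mem_dilatransvections_iff_finrank.2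
          (show Module.finrank (ZMod p) (LinearMap.range ((t : V →ₗ[ZMod p] V) - LinearMap.id)) ≤ 1 by omega)
        have i : McL.Is t u φ := fun v => LinearMap.congr_fun e v
        have t1 : t ≠ 1 := fun e => by rw [e, orderOf_one] at h1; omega
        have u0 : u ≠ 0 := fun e => t1 (LinearEquiv.ext fun v => by rw [i, e]; simp)
        have k : ∀ n : ℕ, (t ^ n) u = (1 + φ u) ^ n • u := fun n => by
          induction n with
          | zero => simp
          | succ n ih => rw [pow_succ', LinearEquiv.mul_apply, ih, map_smul, i, pow_succ]; module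
        have z := k p
        rw [ZMod.pow_card, orderOf_dvd_iff_pow_eq_one.1 h1.dvd, add_smul, one_smul] at z
        exact Subgroup.subset_closure ⟨(u, φ), ⟨u0, fun e => t1 (LinearEquiv.ext fun v => by
          rw [i, show φ = 0 from e]; simp), (smul_eq_zero.1 (left_eq_add.1 z)).resolve_right u0, t,
          Subgroup.subset_closure ht, i⟩, i⟩
      · exact eq_bot_iff.2 (hOp ▸ le_sSup ⟨hn, hP⟩)

end Cfsg.Agent.S5075
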