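import Cfsg.Statements.S5138
import Mathlib
import Cfsg.Agent.H17.Layer

set_option autoImplicit false
open Cfsg

namespace Cfsg.Agent.S5138

open Cfsg.Agent.H17
open Cfsg.FusionSystem hiding inv_mem
open scoped commutatorElement


/-- Let F be a saturated fusion system over a finite p-group S and E₁, E₂ normal subsystems over T₁, T₂ with [T₁, T₂] = 1. Then there is a normal subsystem of F over T₁T₂ which, if moreover T₁ ∩ T₂ lies in the centre of E₁ and in the centre of E₂, is a central product of E₁ and E₂ (the factor system of a direct product of E₁ and E₂ modulo a subgroup of its centre meeting both factors trivially). -/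
theorem result {Ω : Type*} [Group Ω] {S : Subgroup Ω} [Finite S] (p : ℕ) [Fact p.Prime] (hS : IsPGroup p S) (F : Cfsg.FusionSystem S) (hF : F.IsSaturated p) {T₁ T₂ : Subgroup Ω} (E₁ : Cfsg.FusionSystem T₁) (E₂ : Cfsg.FusionSystem T₂) (hE₁ : E₁.IsNormalIn F p) (hE₂ : E₂.IsNormalIn F p) (hc : ⁅T₁, T₂⁆ = ⊥) : ∃ D : Cfsg.FusionSystem (T₁ ⊔ T₂), D.IsNormalIn F p ∧ (T₁ ⊓ T₂ ≤ E₁.center → T₁ ⊓ T₂ ≤ E₂.center → Cfsg.FusionSystem.IsCentralProductOf E₁ E₂ D) := by
  have hc' : ∀ x ∈ T₁, ∀ y ∈ T₂, x * y = y * x := fun x hx y hy =>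
    (Subgroup.commutator_eq_bot_iff_le_centralizer.1 hc hx y hy).symm
  by_cases h : T₁ ⊓ T₂ ≤ E₁.center ∧ T₁ ⊓ T₂ ≤ E₂.center
  · haveI := finite_of_le (nml_le hE₁)
    haveI := finite_of_le (nml_le hE₂)
    obtain ⟨D, h1, -, h2⟩ := exists_normal_cProd hS hE₁ hE₂ hc' (central_mono (central_center E₁) h.1)
      (central_mono (central_center E₂) h.2) rfl
    exact ⟨D, h2, fun _ _ => h1⟩
  have hZ := normal_of_sc_comm hS hF (sc_inf (nml_sc hE₁) (nml_sc hE₂)) fun x hx y hy => hc' x hx.1 y hy.2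
  obtain ⟨D₁, h1, -, h2⟩ := exists_normal_cent hS hE₁ hZ fun x hx =>
    ⟨nml_le hE₁ hx, fun y hy => (hc' x hx y hy.2).symm⟩
  obtain ⟨D₂, h3, -, h4⟩ := exists_normal_cent hS hE₂ hZ fun x hx =>
    ⟨nml_le hE₂ hx, fun y hy => hc' y hy.1 x hx⟩
  obtain ⟨D, -, -, h5⟩ := exists_normal_cProd hS h1 h3 hc'
    (central_mono (h2.central hS (nml_sat h1)) (le_inf inf_le_left le_rfl))
    (central_mono (h4.central hS (nml_sat h3)) (le_inf inf_le_right le_rfl)) rfl
  exact ⟨D, h5, fun a b => (h ⟨a, b⟩).elim⟩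

end Cfsg.Agent.S5138
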