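import Cfsg.Statements.S5152
import Mathlib
import Cfsg.Agent.H17.Layer

set_option autoImplicit false
open Cfsg

namespace Cfsg.Agent.S5152

open Cfsg.Agent.H17
open Cfsg.FusionSystem hiding inv_mem
open scoped commutatorElement

theorem nmor_conj {Ω : Type*} [Group Ω] {S : Subgroup Ω} {F : FusionSystem S} {U P : Subgroup Ω}
    {ψ : Equiv.Perm Ω} {f : Ω → Ω} (hU : U ≤ S) (hψ : Mor F (normalizerIn S U) ψ) (h : NMor F U P f) :
    NMor F (img ψ U) (img ψ P) (ψ ∘ f ∘ ⇑(ψ⁻¹)) := by
  obtain ⟨h1, g, h2, h3, h4⟩ := h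
  have h5 : P ⊔ U ≤ normalizerIn S U := sup_le h1 (le_normalizerIn hU)
  have h6 : ∀ x ∈ P ⊔ U, g x ∈ normalizerIn S U := fun x hx => by
    simpa only [h4] using h2.map_mem_normalizerIn le_sup_right hx (h5 hx).2
  have h7 := hψ.mono h5
  refine ⟨hψ.img_le_normalizerIn (le_normalizerIn hU) h1 (h1.trans inf_le_right), ψ ∘ g ∘ ⇑(ψ⁻¹),
    h7.homOn.img_sup ▸ h7.inv.comp (h2.comp hψ h6) fun y hy => h7.homOn.perm_mem_img.1 hy,
    fun y hy => ?_, ?_⟩
  · simp only [Function.comp_apply, h3 _ ((hψ.homOn.mono h1).perm_mem_img.1 hy)]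
  · rw [(hψ.homOn.mono (le_normalizerIn hU)).img_img]
    conv_rhs => rw [← h4, (h2.homOn.mono le_sup_right).img_img]
    exact img_congr fun x _ => by simp

theorem key {Ω : Type*} [Group Ω] {S : Subgroup Ω} [Finite S] {p : ℕ} [Fact p.Prime] (hS : IsPGroup p S)
    {F : FusionSystem S} (hF : F.IsSaturated p) {U X : Subgroup Ω} (hU : F.IsFullyNormalized U)
    (h1 : X ≤ U) (h2 : normalizerIn S U ≤ centralizerIn S X)
    {G : FusionSystem (centralizerIn S X)} (hG : ∀ P f, Mor G P f ↔ CMor F X P f)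
    (hc : G.IsConstrained p) {N : FusionSystem (normalizerIn S U)}
    (hN : ∀ P f, Mor N P f ↔ NMor F U P f) : N.IsConstrained p := by
  haveI : Finite (centralizerIn S X) := finite_of_le centralizerIn_le
  haveI : Finite (normalizerIn S U) := finite_of_le normalizerIn_le
  haveI : Finite (centralizerIn S U) := finite_of_le centralizerIn_le
  have hS1 : IsPGroup p (centralizerIn S X) := hS.to_le centralizerIn_le
  have hS2 : IsPGroup p (normalizerIn S U) := hS.to_le normalizerIn_le
  have h3 : U ≤ centralizerIn S X := (le_normalizerIn hU.1).trans h2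
  have h4 : normalizerIn (centralizerIn S X) U = normalizerIn S U :=
    le_antisymm (inf_le_inf_right _ centralizerIn_le) (le_inf h2 inf_le_right)
  have h5 : G.IsFullyNormalized U := fn_iff.2 ⟨h3, fun f hf => by
    rw [h4]
    haveI : Finite (normalizerIn S (img f U)) := finite_of_le normalizerIn_le
    exact (card_le_of_le (Q := normalizerIn S (img f U)) (inf_le_inf_right _ centralizerIn_le)).trans
      ((fn_iff.1 hU).2 f ((hG _ _).1 hf).mor)⟩
  obtain ⟨N', h6⟩ := exists_normalizerSystem G h3 rfl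
  have h7 := nsys_constrained hS1 hc h5 h6
  obtain ⟨Y, hY⟩ := exists_centralizerSystem F hU.1 rfl
  have h8 := normalizerSystem_saturated hS hF hU rfl hN
  have h9 := centralizerSystem_normal hS2 h8 (nsys_normal hU.1 hN) centralizerIn_normalizerIn.symm
    fun P f => (hY P f).trans (cmor_nsys hN hU.1).symm
  haveI : Finite (normalizerIn (centralizerIn S X) U) := finite_of_le normalizerIn_le
  have h10 := centralizerSystem_normal (hS1.to_le normalizerIn_le) h7.1 (nsys_normal h3 h6)
    (E := Y) (by rw [h4, centralizerIn_normalizerIn]) fun P f => (hY P f).trans (Iff.trans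
      ⟨fun ⟨k1, g, k2, k3, k4⟩ => ⟨fun x hx => ⟨centralizerIn_anti h1 (k1 hx), (k1 hx).2⟩, g, (hG _ _).2
        ⟨sup_le (k1.trans (centralizerIn_anti h1)) h3, g, by rwa [sup_assoc, sup_eq_left.2 h1],
          fun _ _ => rfl, fun x hx => k4 x (h1 hx)⟩, k3, k4⟩,
      fun ⟨k1, g, k2, k3, k4⟩ => ⟨fun x hx => ⟨(k1 hx).1.1, (k1 hx).2⟩, g, ((hG _ _).1 k2).mor, k3, k4⟩⟩
      (cmor_nsys h6 h3).symm)
  exact (constrained_iff_no_comp hS2 h8).2 fun ⟨V, C, hC⟩ => not_comp_of_constrained
    (hS.to_le centralizerIn_le) (constrained_of_subn (hS1.to_le normalizerIn_le) h7 (subn_of_normal h10))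
    (comp_of_le hS2 hC h9 (le_trans ((comp_qs hS2 hC).cents_of_normal hS2 h8 hC.1
      (nsys_normal hU.1 hN) _ _ (mor_id C le_rfl)).1 centralizerIn_normalizerIn.le))

/-- Dichotomy for saturated fusion systems: a saturated fusion system over a finite p-group is of characteristic p-type (the normalizer system of every nontrivial fully normalized subgroup is constrained) or of component type (the centralizer system of some fully normalized subgroup of order p has a component). -/
theorem result {Ω : Type*} [Group Ω] {S : Subgroup Ω} [Finite S] (p : ℕ) [Fact p.Prime] (hS : IsPGroup p S) (F : Cfsg.FusionSystem S) (hF : F.IsSaturated p) : F.IsOfCharacteristicPType p ∨ F.IsOfComponentType p := by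
  refine or_iff_not_imp_right.2 fun h U h1 h2 N hN => ?_
  haveI : Finite (normalizerIn S U) := finite_of_le normalizerIn_le
  have h3 := inf_centralizer_ne_bot (hS.to_le normalizerIn_le) (le_normalizerIn h2.1) inf_le_right h1
  haveI : Finite ↥(U ⊓ Subgroup.centralizer (normalizerIn S U : Set Ω)) := finite_of_le (inf_le_left.trans h2.1)
  obtain ⟨n, hn⟩ := IsPGroup.iff_card.1 (hS.to_le (inf_le_left.trans h2.1 :
    U ⊓ Subgroup.centralizer (normalizerIn S U : Set Ω) ≤ S))
  obtain ⟨x, hx⟩ := exists_prime_orderOf_dvd_card' (G := ↥(U ⊓ Subgroup.centralizer (normalizerIn S U : Set Ω)))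
    p (hn ▸ dvd_pow_self p fun h0 => h3 (Subgroup.card_eq_one.1 (by rw [hn, h0, pow_zero])))
  have h4 : Subgroup.zpowers (x : Ω) ≤ U := Subgroup.zpowers_le.2 x.2.1
  have h5 : normalizerIn S U ≤ centralizerIn S (Subgroup.zpowers (x : Ω)) := fun y hy =>
    ⟨hy.1, fun z hz => ((Subgroup.zpowers_le.2 x.2.2 hz) y hy).symm⟩
  obtain ⟨ψ, h6, h7⟩ := sat_exists_fn hS hF (h4.trans h2.1)
  have h8 := h6.mono (h5.trans centralizerIn_le_normalizerIn)
  have h9 := fn_img_normalizerIn h2 h8 le_rfl
  obtain ⟨G, hG⟩ := exists_centralizerSystem F h7.1 rfl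
  obtain ⟨N', hN'⟩ := exists_normalizerSystem F (h8.mono (le_normalizerIn h2.1)).img_le rfl
  haveI : Finite (centralizerIn S (img ψ (Subgroup.zpowers (x : Ω)))) := finite_of_le centralizerIn_le
  have h10 := key hS hF (fn_img h2 h8 le_rfl) (img_mono _ h4) (h9 ▸ img_le_iff.2 fun y hy =>
    h8.map_mem_centralizerIn (h4.trans (le_normalizerIn h2.1)) hy (h5 hy).2) hG
    ((constrained_iff_no_comp (hS.to_le centralizerIn_le) (centralizerSystem_saturated hS hF
      (sat_fc_of_fn hS hF h7) rfl hG)).2 fun h11 => h ⟨_, by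
        rw [h6.card_img (le_normalizerIn (h4.trans h2.1)), Nat.card_zpowers, Subgroup.orderOf_coe, hx],
        h7, G, centralizerSystem_iff.2 hG, h11⟩) hN'
  have h11 := normalizerSystem_iff.1 hN
  refine H18.Iso.constrained (j := ⇑(ψ⁻¹)) (k := ψ) ⟨h9 ▸ (pIso_of_homOn h8.homOn).symm, fun P f hf => ?_,
    fun P f hf => (hN' _ _).2 (nmor_conj h2.1 h8 ((h11 _ _).1 hf))⟩ h10
  have := nmor_conj (h8.mono (le_normalizerIn h2.1)).img_le (h9 ▸ h8.inv) ((hN' _ _).1 hf)
  rw [(h8.homOn.mono (le_normalizerIn h2.1)).img_inv_img, inv_inv] at this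
  exact (h11 _ _).2 this

end Cfsg.Agent.S5152
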