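import Cfsg.Statements.S5153
import Mathlib
import Cfsg.Agent.H17.Inv

set_option autoImplicit false
open Cfsg

namespace Cfsg.Agent.S5153

open Cfsg.Agent.H17
open Cfsg.FusionSystem hiding inv_mem
open scoped commutatorElement


/-- Let F be a saturated fusion system over a finite p-group S and E a subnormal subsystem of F over T. Then every subgroup of T that is fully normalized in F is fully normalized in E. -/
theorem result {Ω : Type*} [Group Ω] {S : Subgroup Ω} [Finite S] (p : ℕ) [Fact p.Prime] (hS : IsPGroup p S) (F : Cfsg.FusionSystem S) (hF : F.IsSaturated p) {T : Subgroup Ω} (E : Cfsg.FusionSystem T) (hE : E.IsSubnormalIn F p) (P : Subgroup Ω) (hPT : P ≤ T) (hP : F.IsFullyNormalized P) : E.IsFullyNormalized P := by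
  suffices h : ∀ {T S : Subgroup Ω} {E : FusionSystem T} {F : FusionSystem S} {q : ℕ},
      E.IsSubnormalIn F q → q = p → Finite S → IsPGroup p S → F.IsSaturated p → P ≤ T →
      F.IsFullyNormalized P → E.IsFullyNormalized P from h hE rfl inferInstance hS hF hPT hP
  intro T S E F q h
  induction h with
  | refl F p => exact fun _ _ _ _ _ h => h
  | step h1 h2 ih =>
    rintro rfl _ hS hF hPT hP
    have h3 := h2.1.2.2
    have h4 : ∀ {T S : Subgroup Ω} {E : FusionSystem T} {F : FusionSystem S} {q : ℕ},
        E.IsSubnormalIn F q → T ≤ S := fun h => by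
      induction h with
      | refl => exact le_rfl
      | step _ h2 ih => exact ih.trans h2.1.2.2.2.1.1
    exact ih rfl (finite_of_le h3.2.1.1) (hS.to_le h3.2.1.1) h2.1.1 hPT
      (fn_of_sub hS hF h3.2.1 h3.1 (hPT.trans (h4 h1)) hP)

end Cfsg.Agent.S5153
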