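import Cfsg.Statements.S5196
import Mathlib
import Cfsg.Agent.H18.WCtl

set_option autoImplicit false
universe u
open Cfsg

namespace Cfsg.Agent.S5196

open Cfsg.Agent.H17 Cfsg.Agent.H18

/-- Let p be an odd prime and W a positive characteristic p-functor: W assigns to every finite p-group Q (in a fixed universe) a subgroup W(Q), nontrivial when Q is, carried to W(R) by every isomorphism Q ≅ R; assume also Z(Q) ≤ W(Q) for every finite p-group Q. Suppose W satisfies the local condition: for every finite group G with Sylow p-subgroup P, O_p(G) ∩ Z(G) = O_p(G) ∩ Z(N_G(W(P))). Then W controls weak closure of elements in every saturated fusion system F over a finite p-group S: the centre of the normalizer fusion system of W(S) in F equals the centre of F. (For p = 2 no functor satisfies the local condition, so p is taken odd.) -/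
theorem result {p : ℕ} [Fact p.Prime] (hp : p ≠ 2) (W : ∀ (Q : Type u) [Group Q], Subgroup Q) (hW1 : ∀ (Q : Type u) [Group Q] [Finite Q], IsPGroup p Q → Nontrivial Q → W Q ≠ ⊥) (hW2 : ∀ (Q R : Type u) [Group Q] [Group R] [Finite Q], IsPGroup p Q → ∀ φ : Q ≃* R, (W Q).map φ.toMonoidHom = W R) (hWZ : ∀ (Q : Type u) [Group Q] [Finite Q], IsPGroup p Q → Subgroup.center Q ≤ W Q) (hC : ∀ (G : Type u) [Group G] [Finite G] (P : Sylow p G), Cfsg.pCore p G ⊓ Subgroup.center G = Cfsg.pCore p G ⊓ (Subgroup.center ↥(Subgroup.normalizer (((W ↥(P : Subgroup G)).map (P : Subgroup G).subtype : Subgroup G) : Set G))).map (Subgroup.normalizer (((W ↥(P : Subgroup G)).map (P : Subgroup G).subtype : Subgroup G) : Set G)).subtype) {Ω : Type u} [Group Ω] {S : Subgroup Ω} [Finite S] (hS : IsPGroup p S) (F : Cfsg.FusionSystem S) (hF : F.IsSaturated p) (N : Cfsg.FusionSystem (Cfsg.FusionSystem.normalizerIn S ((W ↥S).map S.subtype))) (hN : F.IsNormalizerSystem ((W ↥S).map S.subtype) N) : N.center = F.center := by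
  have h1 := nsys_iff.1 hN
  have hW : PosFunctor p W := ⟨hW1, hW2⟩
  have h2 := h1.saturated hS hF (fn_of_normal F (WOf_le S) (hW.le_normalizer hS))
  have : Finite (Cfsg.FusionSystem.normalizerIn S (WOf W S)) := H17.finite_of_le h1.carrier_le
  refine le_antisymm (fun z hz => ?_) fun z hz => ?_
  · refine center_control hW hWZ (fun _ => True) (fun _ _ _ _ => trivial) (fun _ _ _ _ _ => trivial)
      (fun G _ _ P _ _ z h3 h4 h5 => ?_) hS hF trivial (h1.carrier_le (center_le N hz))
      fun P f hf hzP => central_apply (central_center N) ((h1 P f).2 hf) hzP hz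
    refine ((hC G P).ge ⟨h3, ⟨z, Subgroup.le_normalizer h4⟩, Subgroup.mem_center_iff.2 fun g =>
      Subtype.ext (mul_inv_eq_iff_eq_mul.1 (h5 g g.2)), rfl⟩).2
  · exact (mem_center_iff (hS.to_le h1.carrier_le) h2).2
      ⟨⟨center_le F hz, hW.le_normalizer hS (center_le F hz)⟩,
        fun P f hf hzP => central_apply (central_center F) (H18.Mor.of_sub h1.sub hf) hzP hz⟩
end Cfsg.Agent.S5196
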