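import Cfsg.Statements.S5199
import Mathlib
import Cfsg.Agent.H17.Gen

set_option autoImplicit false
open Cfsg

namespace Cfsg.Agent.S5199

open Cfsg.Agent.H17
open Cfsg.FusionSystem hiding inv_mem
open scoped commutatorElement


/-- Let F be a saturated fusion system over a finite p-group S, E a normal subsystem of F over T, and F₀ a normal subsystem of F over a subgroup U containing both T and the hyperfocal subgroup of F, such that F₀ has p-power index in F. Then E is a subsystem of F₀. -/
theorem result {Ω : Type*} [Group Ω] {S : Subgroup Ω} [Finite S] (p : ℕ) [Fact p.Prime] (hS : IsPGroup p S) (F : Cfsg.FusionSystem S) (hF : F.IsSaturated p) {T U : Subgroup Ω} (E : Cfsg.FusionSystem T) (hE : E.IsNormalIn F p) (F₀ : Cfsg.FusionSystem U) (hF₀ : F₀.IsNormalIn F p) (hU : T ⊔ F.hyperfocalSubgroup p ≤ U) (hidx : F₀.HasPPowerIndexIn F p) : E.IsSubsystemOf F₀ := by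
  have hT := (inv_sc hE.1.2.2).1
  haveI := finite_of_le hT
  refine subsystem_of_ppr (hS.to_le hT) hE.1.1 (le_sup_left.trans hU) fun R hR σ hσ hp => ?_
  have h1 := (ess_le hR).trans (le_sup_left.trans hU)
  exact AutF.mor h1 (lift_mono (hidx.2.2 R h1) (hp.mem_OupF (AutF_mono (inv_sub hE.1.2.2) (ess_le hR) hσ)))

end Cfsg.Agent.S5199
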