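import Cfsg.Statements.S5200
import Mathlib
import Cfsg.Agent.H17.Env
import Cfsg.Agent.H18.Retract

set_option autoImplicit false
open Cfsg

namespace Cfsg.Agent.S5200

open Cfsg.Agent.H17
open Cfsg.FusionSystem hiding inv_mem
open scoped commutatorElement


/-- Let F be a saturated fusion system over a finite p-group S and E a normal subsystem of F over T whose centralizer in S lies in T: every subgroup Y of C_S(T) such that E is contained in the centralizer fusion system of Y in F satisfies Y ≤ T. Then T·C_S(T)/T is abelian (the commutator subgroup of T·C_S(T) lies in T), and if p is odd then C_S(T) ≤ T. -/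
theorem result {Ω : Type*} [Group Ω] {S : Subgroup Ω} [Finite S] (p : ℕ) [Fact p.Prime] (hS : IsPGroup p S) (F : Cfsg.FusionSystem S) (hF : F.IsSaturated p) {T : Subgroup Ω} (E : Cfsg.FusionSystem T) (hE : E.IsNormalIn F p) (hCE : ∀ Y : Subgroup Ω, Y ≤ Cfsg.FusionSystem.centralizerIn S T → (∀ C : Cfsg.FusionSystem (Cfsg.FusionSystem.centralizerIn S Y), F.IsCentralizerSystem Y C → E.IsSubsystemOf C) → Y ≤ T) : ⁅T ⊔ Cfsg.FusionSystem.centralizerIn S T, T ⊔ Cfsg.FusionSystem.centralizerIn S T⁆ ≤ T ∧ (p ≠ 2 → Cfsg.FusionSystem.centralizerIn S T ≤ T) := by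
  have hc : ∀ Y, Cents E F Y → Y ≤ T := fun Y h7 => hCE _ h7.le fun C hC =>
    subsystem_iff.2 fun P f hf => (centralizerSystem_iff.1 hC P f).2 (h7 P f hf)
  have hT := nml_sc hE
  have h0 : T ⊔ centralizerIn S T ≤ S := sup_le hT.1 centralizerIn_le
  have key : ∀ a ∈ T ⊔ centralizerIn S T, ∀ b ∈ T ⊔ centralizerIn S T, b⁻¹ * (a * b * a⁻¹) ∈ T := by
    intro a ha b hb
    obtain ⟨t, ht, c, hc', rfl⟩ := mem_sup_centralizerIn.1 ha
    have h1 : cj c ∈ TrivMod (T ⊔ centralizerIn S T) T := TrivMod.sup (cj_mem_Stab.2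
      (Subgroup.le_normalizer (Subgroup.mem_sup_right hc'))) (h0.trans (sc_le_normalizer hT))
      (fun x hx => by simp [cj_mem_Fix.2 hc'.2 x hx]) fun x hx => hc _ (cents_CE hS hE)
        (inv_mul_mem_CE hS hE ⟨le_rfl, cj c, mor_cj F (sup_le centralizerIn_le hT.1) hc'.1, fun _ _ => rfl,
          cj_mem_Fix.2 hc'.2⟩ hx)
    simpa [mul_assoc] using (mul_mem (AutS_le_TrivMod (h0.trans (sc_le_normalizer hT)) (cj_mem_AutS ht
      (Subgroup.le_normalizer (Subgroup.mem_sup_left ht)))) h1).2 b hb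
  refine ⟨Subgroup.commutator_le.2 fun a ha b hb => ?_, fun hp x hx => ?_⟩
  · simpa [commutatorElement_def, mul_assoc] using T.inv_mem (key a ha b⁻¹ (inv_mem hb))
  obtain ⟨F₀, h1, h2, h3⟩ := exists_envelope_cent hS hE rfl
  haveI := finite_of_le h0
  have h4 := hS.to_le h0
  have h5 : F₀.hyperfocalSubgroup p ≤ T := (hyp_le_sup_CE h4 h2 h3.le).trans
    (sup_le le_rfl (hc _ ((cents_CE h4 h2).to_sup (nml_sub h1))))
  have h6 : T ⊔ Subgroup.zpowers x ≤ T ⊔ centralizerIn S T := sup_le_sup_left (Subgroup.zpowers_le.2 hx) _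
  set R := T ⊔ Subgroup.zpowers x
  obtain ⟨D, h7, h8⟩ := exists_ppow h4 (nml_sat h1) _ h6 (h5.trans le_sup_left)
  haveI := finite_of_le h6
  have h9 := h4.to_le h6
  have h10 := sub_of_ppow h4 (nml_le h2) (nml_sat hE) (nml_sub h2) h8 le_sup_left
  have h11 : D.center ≤ T := hc _ (((cents_of_central (central_center D) (sub_refl D)).of_sub h10).to_sup
    (sub_trans h8.1 (nml_sub h1)))
  have h12 : D.focalSubgroup ≤ T := by
    rw [focal_eq h9 h7]
    exact sup_le ((hyp_mono h8.1).trans h5) (Subgroup.commutator_le.2 fun a ha b hb => by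
      simpa [commutatorElement_def, mul_assoc] using T.inv_mem (key a (h6 ha) b⁻¹ (inv_mem (h6 hb))))
  obtain ⟨N, hN⟩ := H18.exists_nsys_top D (H18.thompsonAOf_le R) (H18.le_normalizer_thompsonA h9)
  have h13 := hN.saturated h9 h7 (fn_of_normal D (H18.thompsonAOf_le R) (H18.le_normalizer_thompsonA h9))
  have h14 : x ∈ centralizerIn R R := ⟨Subgroup.mem_sup_right (Subgroup.mem_zpowers x),
    Subgroup.le_centralizer_iff.1 (sup_le (Subgroup.le_centralizer_iff.1 (Subgroup.zpowers_le.2 hx.2))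
      (Subgroup.le_centralizer _)) (Subgroup.mem_zpowers x)⟩
  have h15 : x ∈ ucs N.core 1 := mem_ucs_one.2 ⟨le_core hN.normal (H18.centralizerIn_self_le_WOf
    (W := fun (Q : Type _) [Group Q] => thompsonSubgroupA Q) (fun Q _ _ _ => H18.center_le_thompsonA) h9 h14),
    Subgroup.centralizer_le (core_le N) h14.2⟩
  obtain ⟨π, -, -, k2, -, k4⟩ := H18.exists_center_retract h9 h13 (normal_of_char (normal_core N) ucs_le
    (ucs_char (i := 1))) fun z hz => Subgroup.centralizer_le ucs_le (mem_ucs_one.1 hz).2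
  have k5 := k2 x h15 h14.2
  have k6 := h11 (H18.center_thompsonA h9 h7 (Or.inl hp) (center_le N k5) fun P f hf hP =>
    central_apply (central_center N) ((hN P f).2 hf) hP k5)
  simpa using T.mul_mem k6 (T.inv_mem (h12 (focal_mono hN.sub (k4 x h15))))

end Cfsg.Agent.S5200
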