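import Cfsg.Statements.S5201
import Mathlib
import Cfsg.Agent.H17.Env

set_option autoImplicit false
open Cfsg

namespace Cfsg.Agent.S5201

open Cfsg.Agent.H17
open Cfsg.FusionSystem hiding inv_mem
open scoped commutatorElement


/-- A reduction to normal subsystems. Let F be a saturated fusion system over a finite p-group S and E a normal subsystem of F over T whose centralizer in S lies in T (every subgroup Y of C_S(T) with E contained in the centralizer fusion system of Y in F satisfies Y ≤ T), and suppose Aut_F(T)/Aut_E(T) is p-solvable. Then F and E have the same residual limit: if F∞ is the residual limit of F (reached by alternately passing to the p-residual and the p'-residual subsystem until nothing changes) and E∞ that of E, then F∞ and E∞ have the same maps. -/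
theorem result {Ω : Type*} [Group Ω] {S : Subgroup Ω} [Finite S] (p : ℕ) [Fact p.Prime] (hS : IsPGroup p S) (F : Cfsg.FusionSystem S) (hF : F.IsSaturated p) {T : Subgroup Ω} (E : Cfsg.FusionSystem T) (hE : E.IsNormalIn F p) (hCE : ∀ Y : Subgroup Ω, Y ≤ Cfsg.FusionSystem.centralizerIn S T → (∀ C : Cfsg.FusionSystem (Cfsg.FusionSystem.centralizerIn S Y), F.IsCentralizerSystem Y C → E.IsSubsystemOf C) → Y ≤ T) [hn : ((E.autGroup T).subgroupOf (F.autGroup T)).Normal] (hsolv : Cfsg.IsPSolvable p (↥(F.autGroup T) ⧸ (E.autGroup T).subgroupOf (F.autGroup T))) {U V : Subgroup Ω} (Finf : Cfsg.FusionSystem U) (hFinf : Finf.IsResidualLimitOf F p) (Einf : Cfsg.FusionSystem V) (hEinf : Einf.IsResidualLimitOf E p) : ∀ P : Subgroup Ω, Finf.Hom P = Einf.Hom P := by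
  obtain ⟨F₀, h1, h2, h3⟩ := exists_envelope_cent hS hE rfl
  have h4 := lim_normal hS hFinf (normalIn_refl hS hF)
  have hs := lim_stable hFinf
  have h5 := stable_le_of_pSol hS hE h4 hs.1 hs.2 (pSol_of_isPSolvable hsolv)
  haveI := finite_of_le (nml_le h1)
  have h6 := hS.to_le (nml_le h1)
  have h7 := (cents_CE h6 h2).to_sup (nml_sub h1)
  exact lim_eq hS hE hFinf hEinf (hs.1.ge.trans ((hyp_mono (nml_sub (normal_of_p'stable hS h4 h1 h5
    hs.2))).trans ((hyp_le_sup_CE h6 h2 h3.le).trans (sup_le le_rfl (hCE _ h7.le fun C hC =>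
      subsystem_iff.2 fun P f hf => (centralizerSystem_iff.1 hC P f).2 (h7 P f hf))))))

end Cfsg.Agent.S5201
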