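import Cfsg.Statements.S5202
import Mathlib
import Cfsg.Agent.H17.Env

set_option autoImplicit false
open Cfsg

namespace Cfsg.Agent.S5202

open Cfsg.Agent.H17
open Cfsg.FusionSystem hiding inv_mem
open scoped commutatorElement


/-- Let F be a saturated fusion system over a finite p-group S and E a normal subsystem of F over T such that Aut_F(T)/Aut_E(T) is p-solvable. Then there is a normal subsystem F₀ of F over T·C_S(T) containing E, with Aut_{F₀}(T) = Aut_E(T), containing every residual limit of F, and whose residual limits have the same maps as those of F. -/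
theorem result {Ω : Type*} [Group Ω] {S : Subgroup Ω} [Finite S] (p : ℕ) [Fact p.Prime] (hS : IsPGroup p S) (F : Cfsg.FusionSystem S) (hF : F.IsSaturated p) {T : Subgroup Ω} (E : Cfsg.FusionSystem T) (hE : E.IsNormalIn F p) [hn : ((E.autGroup T).subgroupOf (F.autGroup T)).Normal] (hsolv : Cfsg.IsPSolvable p (↥(F.autGroup T) ⧸ (E.autGroup T).subgroupOf (F.autGroup T))) : ∃ F₀ : Cfsg.FusionSystem (T ⊔ Cfsg.FusionSystem.centralizerIn S T), F₀.IsNormalIn F p ∧ E.IsSubsystemOf F₀ ∧ F₀.autGroup T = E.autGroup T ∧ ∀ {U : Subgroup Ω} (Finf : Cfsg.FusionSystem U), Finf.IsResidualLimitOf F p → Finf.IsSubsystemOf F₀ ∧ ∀ {V : Subgroup Ω} (L : Cfsg.FusionSystem V), L.IsResidualLimitOf F₀ p → ∀ P : Subgroup Ω, L.Hom P = Finf.Hom P := by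
  obtain ⟨F₀, h1, h2, h3⟩ := exists_envelope_cent hS hE rfl
  refine ⟨F₀, h1, nml_sub h2, lift_inj.1 h3, fun Finf h => ?_⟩
  have h4 := lim_normal hS h (normalIn_refl hS hF)
  have h5 := stable_le_of_pSol hS hE h4 (lim_stable h).1 (lim_stable h).2 (pSol_of_isPSolvable hsolv)
  exact ⟨nml_sub (normal_of_p'stable hS h4 h1 h5 (lim_stable h).2), fun L hL P =>
    (lim_eq hS h1 h hL h5 P).symm⟩

end Cfsg.Agent.S5202
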