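import Cfsg.Statements.S5203
import Mathlib
import Cfsg.Agent.H17.Env

set_option autoImplicit false
open Cfsg

namespace Cfsg.Agent.S5203

open Cfsg.Agent.H17
open Cfsg.FusionSystem hiding inv_mem
open scoped commutatorElement


/-- Let F be a saturated fusion system over a finite p-group S and E a normal subsystem of F over T that has p-power index in F. Then every residual limit of E has the same maps as every residual limit of F (the residual limit is reached by alternately passing to the p-residual and the p'-residual subsystem until nothing changes). -/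
theorem result {Ω : Type*} [Group Ω] {S : Subgroup Ω} [Finite S] (p : ℕ) [Fact p.Prime] (hS : IsPGroup p S) (F : Cfsg.FusionSystem S) (hF : F.IsSaturated p) {T : Subgroup Ω} (E : Cfsg.FusionSystem T) (hE : E.IsNormalIn F p) (hidx : E.HasPPowerIndexIn F p) {U V : Subgroup Ω} (Finf : Cfsg.FusionSystem U) (hFinf : Finf.IsResidualLimitOf F p) (Einf : Cfsg.FusionSystem V) (hEinf : Einf.IsResidualLimitOf E p) : ∀ P : Subgroup Ω, Finf.Hom P = Einf.Hom P := by
  exact lim_eq hS hE hFinf hEinf ((lim_stable hFinf).1.ge.trans ((hyp_mono (nml_sub (lim_normal hS hFinf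
    (normalIn_refl hS hF)))).trans (ppow_iff.1 hidx).2.1))

end Cfsg.Agent.S5203
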