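import Cfsg.Statements.S5212
import Mathlib
import Cfsg.Agent.H3.Sc

set_option autoImplicit false
open Cfsg

namespace Cfsg.Agent.S5212

/-- Let S be a finite metacyclic 2-group that is not homocyclic abelian (a direct product of cyclic groups of one common order), not dihedral, not semidihedral and not generalized quaternion. Then every saturated fusion system over S is the inner fusion system of S. -/
theorem result {Ω : Type*} [Group Ω] {S : Subgroup Ω} [Finite S] (hS : IsPGroup 2 S) (F : Cfsg.FusionSystem S) (hF : F.IsSaturated 2) (hm : Cfsg.IsMetacyclic ↥S) (hh : ¬ ∃ n k : ℕ, Nonempty (↥S ≃* Multiplicative (Fin k → ZMod (2 ^ n)))) (hd : ¬ ∃ m : ℕ, Nonempty (↥S ≃* DihedralGroup m)) (hq : ¬ ∃ m : ℕ, Nonempty (↥S ≃* QuaternionGroup m)) (hsd : ¬ Cfsg.IsQuasiDihedral ↥S) : ∀ P : Subgroup Ω, F.Hom P = (Cfsg.innerFusionSystem S).Hom P := by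
  open Subgroup Cfsg.Agent.FT Cfsg.Agent.H3 in
  open scoped commutatorElement in
  · haveI : Fact (Nat.Prime 2) := ⟨Nat.prime_two⟩
    have hn : F.IsNormal S := by
      refine normal_of_scf hS hF ⟨le_rfl, fun R _ φ hφ x => ?_⟩ fun G _ _ S' P' R L M e h => ?_
      · have := (H17.mor_extF hφ).mem x.2
        rwa [H17.extF_coe] at this
      obtain ⟨a, b, m, h1⟩ := h.mc_of_metacyc (isMetacyclic_of_surjective hm e.toMonoidHom e.surjective)
      rcases h1.iso_cases_equiv e with h2 | h2 | h2
      · exact hd ⟨_, h2⟩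
      · exact hq ⟨_, h2⟩
      · exact hsd h2
    have hA : IsPGroup 2 (MulAut S) := by
      by_contra hA
      rcases metacyc_two_aut' hS hm hA with h | ⟨n, ⟨e⟩, -⟩
      · exact hq ⟨_, h⟩
      · exact hh ⟨n, 2, ⟨e.trans (AddEquiv.toMultiplicative
          (LinearEquiv.finTwoArrow ℤ (ZMod (2 ^ n))).toAddEquiv.symm)⟩⟩
    have := H17.eq_inner_of_ppr hS hF fun R hR σ hσ ⟨n, hn1, hn2⟩ => by
      rcases hR with rfl | hR
      · obtain ⟨α, -, hα⟩ := H17.mem_lift.1 hσ
        obtain ⟨k, hk⟩ := hA α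
        have h1 := (H17.pow_eq_one_iff_of_aut hα n).2 hn2
        have h2 : α = 1 := by
          rw [← orderOf_eq_one_iff]
          exact Nat.eq_one_of_dvd_coprimes (hn1.pow_right k) (orderOf_dvd_of_pow_eq_one h1)
            (orderOf_dvd_of_pow_eq_one hk)
        simpa using (H17.pow_eq_one_iff_of_aut hα 1).1 (by rw [h2, one_pow])
      · exact absurd hR (H17.not_ess_of_normal_top hS hF hn)
    intro P; rw [this]

end Cfsg.Agent.S5212
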