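import Cfsg.Statements.S5214
import Mathlib
import Cfsg.Agent.H3.SzG
import Cfsg.Agent.H3.Loc

set_option autoImplicit false
open Cfsg

namespace Cfsg.Agent.S5214

/-- Let S be a Suzuki 2-group (a finite nonabelian 2-group with more than one involution admitting a cyclic group of automorphisms permuting its involutions regularly). Then S is normal in every saturated fusion system over S (such a group is resistant). -/
theorem result {Ω : Type*} [Group Ω] {S : Subgroup Ω} [Finite S] (hS : IsPGroup 2 S) (F : Cfsg.FusionSystem S) (hF : F.IsSaturated 2) (hsz : Cfsg.IsSuzukiTwoGroup ↥S) : F.IsNormal S := by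
  open Subgroup Cfsg.Agent.FT Cfsg.Agent.H3 in
  open scoped commutatorElement in
  · refine normal_of_scf hS hF (H17.sc_top F) fun G _ _ S' P R L M e h => ?_
    have c1 : ∀ x ∈ P, x ^ 2 = 1 → x ∈ C(P) := fun x hx h2 => FT.mem_cen.2 fun y hy => by
      have h3 : e.symm ⟨x, hx⟩ * e.symm ⟨x, hx⟩ = 1 := by
        rw [← map_mul, ← map_one e.symm]; congr 1; exact Subtype.ext ((sq x).symm.trans h2)
      have h4 := mem_center_iff.1 ((suz_mem_center hsz _).2 h3) (e.symm ⟨y, hy⟩)
      rw [← map_mul, ← map_mul] at h4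
      exact congrArg Subtype.val (e.symm.injective h4)
    have c2 : ∀ x ∈ P, (x * x) ^ 2 = 1 := fun x hx => by
      have h3 := (suz_mem_center hsz _).1 (suz_sq hsz (e.symm ⟨x, hx⟩))
      rw [← map_mul, ← map_mul, ← map_one e.symm] at h3
      rw [sq]
      exact congrArg Subtype.val (e.symm.injective h3)
    have c3 : ∀ x ∈ P, ∀ y ∈ P, ⁅x, y⁆ ^ 2 = 1 := fun x hx y hy =>
      (abelem_Ohm_center 2 P).pow (comm_mem_of_sq (fun z hz => mem_Ohm
        ⟨mul_mem hz hz, c1 _ (mul_mem hz hz) (c2 z hz)⟩ (c2 z hz)) hx hy)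
    have hn : L ≤ N(Ω[2](P ⊓ R)) := norms_Ohm 2 h.nQ
    refine h.not_tr le_rfl h.not_le ((Tr.of_cents (h.pQ.mono (Ohm_le 2 _)) (ncl_cents hn ?_)).step_ncl
      (Ohm_nml 2 _) h.pQ h.nQ hn h.P0_le_L ?_)
    · exact centsC (Ohm_le_iff.2 fun x hx h2 => cen_anti inf_le_left (c1 x hx.1 h2))
    · exact commutator_le.2 fun x hx y hy => mem_Ohm
        (comm_le_left (h.P0_le_L.trans h.nQ) (commutator_mem_commutator hx hy)) (c3 x hx.1 y hy.1)

end Cfsg.Agent.S5214
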