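import Cfsg.Statements.S5215
import Mathlib
import Cfsg.Agent.H18.TwoReal

set_option autoImplicit false
open Cfsg

namespace Cfsg.Agent.S5215

open Cfsg.Agent.H18 Cfsg.Agent.H3 Cfsg.Agent.FT Subgroup
open scoped commutatorElement

/-- Let S be a finite 2-group of 2-rank 2 (an elementary abelian subgroup of order 4, none of order 8) and F a simple saturated fusion system over S. Then S is dihedral, semidihedral or wreathed, and F is the fusion system of the projective special linear group PSL₂(q) for some odd prime power q ≡ ±1 (mod 8) or of PSL₃(q) for some odd prime power q: it is realized by an injective homomorphism of S into that group whose image is a Sylow 2-subgroup. -/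
theorem result {Ω : Type*} [Group Ω] {S : Subgroup Ω} [Finite S] (hS : IsPGroup 2 S) (F : Cfsg.FusionSystem S) (hF : F.IsSaturated 2) (hr : Cfsg.PRankAtLeast 2 2 ↥S ∧ ¬ Cfsg.PRankAtLeast 2 3 ↥S) (hsimple : F.IsSimple 2) : ((∃ m : ℕ, Nonempty (↥S ≃* DihedralGroup m)) ∨ Cfsg.IsQuasiDihedral ↥S ∨ Cfsg.IsWreathed ↥S) ∧ ∃ (K : Type) (_ : Field K) (_ : Fintype K) (q : ℕ), Fintype.card K = q ∧ Odd q ∧ (((q % 8 = 1 ∨ q % 8 = 7) ∧ ∃ ι : ↥S →* Matrix.ProjectiveSpecialLinearGroup (Fin 2) K, F.IsRealizedBy ι ∧ ∃ T : Sylow 2 (Matrix.ProjectiveSpecialLinearGroup (Fin 2) K), (T : Subgroup (Matrix.ProjectiveSpecialLinearGroup (Fin 2) K)) = ι.range) ∨ (∃ ι : ↥S →* Matrix.ProjectiveSpecialLinearGroup (Fin 3) K, F.IsRealizedBy ι ∧ ∃ T : Sylow 2 (Matrix.ProjectiveSpecialLinearGroup (Fin 3) K), (T : Subgroup (Matrix.ProjectiveSpecialLinearGroup (Fin 3) K)) = ι.range)) := by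
  haveI : Fact (Nat.Prime 2) := ⟨Nat.prime_two⟩
  obtain ⟨G, _, _, S', F', j, k, h, hB⟩ := exists_iso_big F
  have hI := h.toPIso
  have e := hI.equiv
  have pS := pGrp_of_isPGroup Nat.prime_two (hI.isPGroup hS)
  obtain ⟨h1, q, _, hq, h2⟩ := simple_cases pS (h.simple hS hsimple) hB ((prank_le_iff Nat.prime_two).2
    (pRankLE_of_injective (pRankLE_of_not hr.2) e.symm.toMonoidHom e.symm.injective)) fun c => by
      obtain ⟨A, -, -, h⟩ := hr.1
      have := h.trans (Nat.le_of_dvd Nat.card_pos A.card_subgroup_dvd_card)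
      rw [Nat.card_congr e.toEquiv] at this
      exact absurd (this.trans c) (by decide)
  refine ⟨h1.imp (fun ⟨m, ⟨f⟩⟩ => ⟨m, ⟨e.trans f⟩⟩) (Or.imp (qd_of_equiv e) (wreathed_of_equiv e)),
    ZMod q, inferInstance, inferInstance, q, ZMod.card q, hq, h2.imp (And.imp_right ?_) ?_⟩
  · exact fun ⟨T, j', k', hT, hi⟩ => realized_of_iso hT (h.trans hi)
  · exact fun ⟨T, j', k', hT, hi⟩ => realized_of_iso hT (h.trans hi)

end Cfsg.Agent.S5215
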