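import Cfsg.Statements.S5219
import Mathlib
import Cfsg.Agent.H18.Agemo

set_option autoImplicit false
open Cfsg

namespace Cfsg.Agent.S5219

open Cfsg.Agent.H17 Cfsg.Agent.H18

/-- Let p be a prime, n a natural number, S a nontrivial finite p-group of nilpotence class at most n(p−1)+1, and F a saturated fusion system over S with no nontrivial normal subgroup (O_p(F) = 1). Then S has exponent dividing p^(n²(p−1)+n). -/
theorem result {Ω : Type*} [Group Ω] {S : Subgroup Ω} [Finite S] (p : ℕ) [Fact p.Prime] (hS : IsPGroup p S) (F : Cfsg.FusionSystem S) (hF : F.IsSaturated p) (n : ℕ) (hS1 : S ≠ ⊥) (hcl : Subgroup.lowerCentralSeries S (n * (p - 1) + 1) = ⊥) (hcore : F.core = ⊥) : Monoid.exponent ↥S ∣ p ^ (n ^ 2 * (p - 1) + n) := by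
  have h1 := le_core (normal_agZ_of_class hS hF hcl)
  rw [hcore] at h1
  rw [← Subgroup.top_subtype_lowerCentralSeries, Subgroup.map_eq_bot_iff_of_injective _ S.subtype_injective,
    Subgroup.lowerCentralSeries_eq_bot_iff_upperCentralSeries_eq_top] at hcl
  refine Monoid.exponent_dvd_of_forall_pow_eq_one fun x => ?_
  have h2 := pow_eq_one_of_mem_ucs (m := p ^ n) (G := S) (fun z hz => Subtype.ext (Subgroup.mem_bot.1
    (h1 (pow_mem_powerClosure ⟨z.2, fun g hg =>
      congrArg Subtype.val (Subgroup.mem_center_iff.1 hz (⟨g, hg⟩ : S))⟩)))) _ x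
    (hcl ▸ Subgroup.mem_top x)
  rwa [← pow_mul, mul_add, ← mul_assoc, ← sq, mul_one] at h2
end Cfsg.Agent.S5219
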