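import Cfsg.Statements.S5223
import Mathlib
import Cfsg.Agent.H17.Foc

set_option autoImplicit false
open Cfsg

namespace Cfsg.Agent.S5223

open Cfsg.Agent.H17
open Cfsg.FusionSystem hiding inv_mem
open scoped commutatorElement


/-- Let F be a saturated fusion system over a finite p-group S. Suppose there are subgroups Q₀ = S, Q₁, …, Qₙ = 1 (not required to be nested) such that for each i < n the focal subgroup of Qᵢ (generated by the elements x⁻¹φ(x), x ∈ Qᵢ, φ a map of F defined on the cyclic group generated by x) lies in Qᵢ₊₁. Then F is the inner fusion system of S. -/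
theorem result {Ω : Type*} [Group Ω] {S : Subgroup Ω} [Finite S] (p : ℕ) [Fact p.Prime] (hS : IsPGroup p S) (F : Cfsg.FusionSystem S) (hF : F.IsSaturated p) (n : ℕ) (Q : Fin (n + 1) → Subgroup Ω) (hQ0 : Q 0 = S) (hQn : Q (Fin.last n) = ⊥) (hstep : ∀ i : Fin n, Subgroup.closure {y : Ω | ∃ x ∈ Q i.castSucc, ∃ φ ∈ F.Hom (Subgroup.zpowers x), y = x⁻¹ * φ ⟨x, Subgroup.mem_zpowers x⟩} ≤ Q i.succ) : ∀ P : Subgroup Ω, F.Hom P = (Cfsg.innerFusionSystem S).Hom P := by
  suffices h : F = innerFusionSystem S by intro P; rw [h]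
  refine eq_inner_of_ppr hS hF fun R hR σ hσ h => ?_
  have hm := AutF.mor (ess_le hR) hσ
  have h1 : ∀ (i : Fin n) x, x ∈ R → x ∈ Q i.castSucc → x⁻¹ * σ x ∈ Q i.succ := fun i x hx hxi =>
    hstep i (Subgroup.subset_closure ⟨x, hxi, _, (hm.mono (Subgroup.zpowers_le.2 hx)).toHom_mem, rfl⟩)
  let U : ℕ → Subgroup Ω := fun i => R ⊓ ⨅ (j : Fin (n + 1)) (_ : (j : ℕ) ≤ i), Q j
  have hU : ∀ i x, x ∈ U i ↔ x ∈ R ∧ ∀ j : Fin (n + 1), (j : ℕ) ≤ i → x ∈ Q j := fun i x => by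
    simp [U, Subgroup.mem_iInf]
  have h0 : ∀ x ∈ R, x⁻¹ * σ x ∈ R := fun x hx =>
    R.mul_mem (R.inv_mem hx) (Stab.apply_mem (AutF_le_Stab hσ) hx)
  have h2 : ∀ i, ∀ x ∈ U i, x⁻¹ * σ x ∈ U (i + 1) := by
    intro i x hx
    rw [hU] at hx ⊢
    refine ⟨h0 x hx.1, fun j hj => ?_⟩
    induction j using Fin.cases with
    | zero => rw [hQ0]; exact ess_le hR (h0 x hx.1)
    | succ j => exact h1 j x hx.1 (hx.2 _ (by simpa using hj))
  have h3 : ∀ i, ∀ x ∈ R, x⁻¹ * σ x ∈ U i := by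
    intro i
    induction i with
    | zero =>
      intro x hx
      refine (hU _ _).2 ⟨h0 x hx, fun j hj => ?_⟩
      rw [show j = 0 from Fin.ext (Nat.le_zero.1 hj), hQ0]
      exact ess_le hR (h0 x hx)
    | succ i ih =>
      intro x hx
      refine ppr_step hS (ess_le hR) hm.homOn h (U := U i) inf_le_left (h2 i) hx (ih x hx) fun y hy => ?_
      have h4 : y⁻¹ * σ y ∈ U i :=
        (hU _ _).2 ⟨h0 y hy.1, fun j hj => ((hU _ _).1 (h2 i y hy)).2 j (Nat.le_succ_of_le hj)⟩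
      simpa using (U i).mul_mem hy h4
  intro x hx
  have := ((hU _ _).1 (h3 n x hx)).2 (Fin.last n) le_rfl
  rw [hQn, Subgroup.mem_bot, inv_mul_eq_one] at this
  exact this.symm

end Cfsg.Agent.S5223
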