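import Cfsg.Statements.S5233
import Mathlib
import Cfsg.Agent.H3.Sc

set_option autoImplicit false
open Cfsg

namespace Cfsg.Agent.S5233

/-- Let F be a saturated fusion system over a finite p-group S and P a subgroup of S strongly closed in F that is generalized extraspecial (its Frattini subgroup equals its commutator subgroup and has order p) and not isomorphic to E × A with A elementary abelian and E dihedral of order 8 (p = 2) or extraspecial of order p³ and exponent p (p odd). Then P is normal in F. -/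
theorem result {Ω : Type*} [Group Ω] {S : Subgroup Ω} [Finite S] (p : ℕ) [Fact p.Prime] (hS : IsPGroup p S) (F : Cfsg.FusionSystem S) (hF : F.IsSaturated p) (P : Subgroup Ω) (hP : F.StronglyClosed P) (hge : frattini ↥P = commutator ↥P ∧ Nat.card ↥(commutator ↥P) = p) (h2 : p = 2 → ¬ ∃ (A : Type) (_ : CommGroup A), (∀ a : A, a ^ 2 = 1) ∧ Nonempty (↥P ≃* DihedralGroup 4 × A)) (hodd : p ≠ 2 → ¬ ∃ (E : Type) (_ : Group E) (A : Type) (_ : CommGroup A), Cfsg.IsExtraspecial p E ∧ Nat.card E = p ^ 3 ∧ Monoid.exponent E = p ∧ (∀ a : A, a ^ p = 1) ∧ Nonempty (↥P ≃* E × A)) : F.IsNormal P := by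
  open Subgroup Cfsg.Agent.FT Cfsg.Agent.H3 in
  open scoped commutatorElement in
  · refine normal_of_scf hS hF hP fun G _ _ S' P' R L M e h => ?_
    obtain ⟨E, A, hdp, hA, hE, hna, h3, h4⟩ := h.ges (Phi_eq_der_of_equiv h.pP e hge.1)
      ((card_der_of_equiv e).trans hge.2)
    obtain ⟨Y, _, hY, hAY⟩ := exists_small_abelem hA
    by_cases h5 : p = 2
    · refine h2 h5 ⟨Y, _, h5 ▸ hY, ?_⟩
      exact ⟨e.trans (dp_equiv' hdp (h3 h5) hAY).some⟩
    · obtain ⟨X, _, _, hX1, hX2, hX3, hEX⟩ := exists_small_es hE hna (h4 h5)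
      haveI : Nontrivial X := Finite.one_lt_card_iff_nontrivial.1
        (hX2 ▸ Nat.one_lt_pow (by norm_num) (Fact.out : p.Prime).one_lt)
      exact hodd h5 ⟨X, _, Y, _, hX1, hX2, exponent_eq_of_pow hX3, hY,
        ⟨e.trans (dp_equiv' hdp hEX hAY).some⟩⟩

end Cfsg.Agent.S5233
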