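import Cfsg.Statements.S5236
import Cfsg.Agent.H17.Chain
import Cfsg.Agent.H3.Aut
import Cfsg.Agent.H22.Core
-- import your own Cfsg.Agent.* helpers here

set_option autoImplicit false
open Cfsg

namespace Cfsg.Agent.S5236

open Cfsg.Agent.H17 Cfsg.FusionSystem
open scoped commutatorElement

section
variable {Ω : Type*} [Group Ω] {S : Subgroup Ω} {F : FusionSystem S} {R : Subgroup Ω} {p : ℕ}

theorem step [Fact p.Prime] (hR : IsPGroup p R) {v : Equiv.Perm Ω} (hv : v ∈ Stab R) {b : ℕ}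
    (hb : b.Coprime p) (h : v ^ b ∈ H17.Fix R) {x : Ω} (hx : x ∈ R)
    (hz : v (x⁻¹ * v x) = x⁻¹ * v x) : v x = x := by
  have h1 : x⁻¹ * v x ∈ R := R.mul_mem (R.inv_mem hx) (Stab.apply_mem hv hx)
  have h2 : ∀ m : ℕ, (v ^ m) x = x * (x⁻¹ * v x) ^ m := fun m => by
    induction m with
    | zero => simp
    | succ m ih =>
      rw [pow_succ', Equiv.Perm.mul_apply, ih, (Stab.homOn hv).map_mul hx (pow_mem h1 m),
        (Stab.homOn hv).map_pow h1, hz, pow_succ', ← mul_assoc, mul_inv_cancel_left]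
  obtain ⟨k, hk⟩ := hR ⟨_, h1⟩
  have h3 : (x⁻¹ * v x) ^ b = 1 := by
    have := (h2 b).symm.trans (h x hx)
    exact mul_eq_left.1 this
  have h4 := orderOf_eq_one_iff.1 (Nat.eq_one_of_dvd_coprimes (hb.pow_right k)
    (orderOf_dvd_of_pow_eq_one h3) (orderOf_dvd_of_pow_eq_one (congrArg Subtype.val hk)))
  exact (inv_mul_eq_one.1 h4).symm

theorem mem_OpF_of_pairs {ι : Type*} (A B : ι → Subgroup Ω) (hRS : R ≤ S)
    (hA : ∀ i, F.StronglyClosed (A i)) (hB : ∀ i, F.StronglyClosed (B i))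
    (hp : ∀ w ∈ AutF F R, (∀ (k : ℕ) i, ∀ x ∈ R, x ∈ B i → x⁻¹ * (w ^ k) x ∈ A i) →
      ∃ k : ℕ, w ^ p ^ k ∈ H17.Fix R) {τ : Equiv.Perm Ω} (hτ : τ ∈ AutF F R)
    (h : ∀ i, ∀ x ∈ R, x ∈ B i → x⁻¹ * τ x ∈ A i) : τ ∈ OpF F p R := by
  let W : Subgroup (Equiv.Perm Ω) :=
    { carrier := {τ | τ ∈ AutF F R ∧ ∀ i, ∀ x ∈ R, x ∈ B i → x⁻¹ * τ x ∈ A i}
      mul_mem' := by
        rintro a b ⟨ha, ha'⟩ ⟨hb, hb'⟩
        refine ⟨mul_mem ha hb, fun i x hx hxi => ?_⟩
        have := mul_mem (hb' i x hx hxi) (ha' i _ (Stab.apply_mem (AutF_le_Stab hb) hx)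
          (sc_mem (hB i) (AutF.mor hRS hb) hx hxi))
        simpa [mul_assoc] using this
      one_mem' := ⟨one_mem _, fun i x _ _ => by simp⟩
      inv_mem' := by
        rintro a ⟨ha, ha'⟩
        refine ⟨inv_mem ha, fun i x hx hxi => ?_⟩
        have := inv_mem (ha' i _ (Stab.apply_mem (AutF_le_Stab (inv_mem ha)) hx)
          (sc_mem (hB i) (AutF.mor hRS (inv_mem ha)) hx hxi))
        simpa using this }
  refine le_OpF (W := W) (fun w hw => ⟨Fix_le_AutF hw, fun i x hx _ => by simp [hw x hx]⟩)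
    (fun w hw => hw.1) ?_ (fun w hw => hp w hw.1 fun k => (W.pow_mem hw k).2) ⟨hτ, h⟩
  rintro σ hσ w ⟨hw, hw'⟩
  refine ⟨mul_mem (mul_mem hσ hw) (inv_mem hσ), fun i x hx hxi => ?_⟩
  have h1 := Stab.apply_mem (AutF_le_Stab (inv_mem hσ)) hx
  have h2 := Stab.apply_mem (AutF_le_Stab hw) h1
  have := sc_mem (hA i) (AutF.mor hRS hσ) (R.mul_mem (R.inv_mem h1) h2)
    (hw' i _ h1 (sc_mem (hB i) (AutF.mor hRS (inv_mem hσ)) hx hxi))
  rw [(Stab.homOn (AutF_le_Stab hσ)).map_mul (R.inv_mem h1) h2,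
    (Stab.homOn (AutF_le_Stab hσ)).map_inv h1] at this
  simpa using this

theorem omega_char (P : Subgroup Ω) : ((omegaOne p P).subgroupOf P).Characteristic := by
  have e : (omegaOne p P).subgroupOf P = omegaOne p ⊤ := by
    apply Subgroup.map_injective P.subtype_injective
    rw [Subgroup.map_subgroupOf_eq_of_le (H22.omegaOne_le P),
      H22.map_omegaOne_inj P.subtype_injective, ← MonoidHom.range_eq_map, Subgroup.range_subtype]
  rw [e, Subgroup.characteristic_iff_map_le]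
  exact fun φ => (H22.map_omegaOne_le _ _).trans (H22.omegaOne_mono le_top)

end


/-- Let p be an odd prime, F a saturated fusion system over a finite p-group S and P a subgroup of S strongly closed in F. Then P is normal in F if and only if Ω₁(P) (the subgroup generated by the elements of order p of P) has a chain of subgroups 1 = Q₀ ≤ Q₁ ≤ ⋯ ≤ Qₙ = Ω₁(P), each strongly closed in F, with [Qᵢ₊₁, P] ≤ Qᵢ for all i. -/
theorem result {Ω : Type*} [Group Ω] {S : Subgroup Ω} [Finite S] (p : ℕ) [Fact p.Prime] (hS : IsPGroup p S) (F : Cfsg.FusionSystem S) (hF : F.IsSaturated p) (hp : p ≠ 2) (P : Subgroup Ω) (hP : F.StronglyClosed P) : F.IsNormal P ↔ ∃ (n : ℕ) (Q : Fin (n + 1) → Subgroup Ω), Q 0 = ⊥ ∧ Q (Fin.last n) = Cfsg.omegaOne p P ∧ Monotone Q ∧ (∀ i : Fin (n + 1), F.StronglyClosed (Q i)) ∧ ∀ i : Fin n, ⁅Q i.succ, P⁆ ≤ Q i.castSucc := by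
  haveI := finite_of_le hP.1
  constructor
  · intro h
    obtain ⟨n, hn⟩ := exists_ucs_eq (hS.to_le h.1)
    refine ⟨n, fun i => omegaOne p P ⊓ ucs P i, by simp [ucs_zero],
      by simpa [hn] using H22.omegaOne_le P, fun i j hij => inf_le_inf_left _ (ucs_mono hij),
      fun i => sc_inf (normal_sc (normal_of_char h (H22.omegaOne_le P) (omega_char P)))
        (normal_sc (normal_of_char h ucs_le ucs_char)), fun i => le_inf ?_
        ((Subgroup.commutator_mono inf_le_right le_rfl).trans commutator_ucs_le)⟩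
    refine Subgroup.commutator_le.2 fun x hx y hy => ?_
    have := (omegaOne p P).mul_mem hx.1 (sc_conj_mem (normal_sc (normal_of_char h
      (H22.omegaOne_le P) (omega_char P))) (h.1 hy) ((omegaOne p P).inv_mem hx.1))
    simpa [commutatorElement_def, mul_assoc] using this
  rintro ⟨n, Q, h0, hn, -, hsc, hc⟩
  refine normal_of_sc_cr hS hF hP fun R _ h1 h2 => ?_
  haveI := finite_of_le h1.1
  refine le_of_inf_normalizer_le hS h1.1 hP.1 (h1.1.trans (sc_le_normalizer hP)) fun x hx hN => ?_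
  refine mem_of_cj_mem_OpF hS h1 h2 (hP.1 hx) ?_
  refine mem_OpF_of_pairs (ι := Option (Fin n)) (fun i => i.elim P fun i => Q i.castSucc)
    (fun i => i.elim S fun i => Q i.succ) h1.1 (by rintro (_ | i); exacts [hP, hsc _])
    (by rintro (_ | i); exacts [sc_top F, hsc _]) (fun w hw h => ?_)
    (AutS_le_AutF F h1.1 hP.1 (cj_mem_AutS hx hN)) ?_
  swap
  · rintro (_ | i) y hy hyi
    · have := P.mul_mem (sc_conj_mem hP (S.inv_mem hyi) hx) (P.inv_mem hx)
      simpa [mul_assoc] using this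
    · have := hc i (Subgroup.commutator_mem_commutator ((Q i.succ).inv_mem hyi) hx)
      simpa [commutatorElement_def, mul_assoc] using this
  obtain ⟨m, hm, h3⟩ := exists_pow_mem_Fix (AutF_le_Stab hw)
  obtain ⟨a, b, hb, rfl⟩ := Nat.exists_eq_pow_mul_and_not_dvd hm.ne' p (Fact.out : p.Prime).ne_one
  replace hb : b.Coprime p := (((Fact.out : p.Prime).coprime_iff_not_dvd).2 hb).symm
  refine ⟨a, ?_⟩
  replace h := h (p ^ a)
  rw [pow_mul] at h3
  have hv : w ^ p ^ a ∈ AutF F R := pow_mem hw _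
  generalize w ^ p ^ a = v at *
  have hvS := AutF_le_Stab hv
  have st := fun y => step (x := y) (hS.to_le h1.1) hvS hb h3
  have hz : ∀ y ∈ R, y⁻¹ * v y ∈ R := fun y hy => R.mul_mem (R.inv_mem hy) (Stab.apply_mem hvS hy)
  have k1 : ∀ i, ∀ y ∈ R, y ∈ Q i → v y = y := fun i => by
    induction i using Fin.induction with
    | zero =>
      intro y _ hy
      rw [h0, Subgroup.mem_bot] at hy
      rw [hy]
      exact (Stab.homOn hvS).map_one
    | succ i ih => exact fun y hy hyi => st y hy (ih _ (hz y hy) (h (some i) y hy hyi))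
  have k2 : v ∈ Stab (R ⊓ P) := Stab_of_le (Stab.homOn hvS) inf_le_left (le_antisymm
    (img_le_iff.2 fun y hy => ⟨Stab.apply_mem hvS hy.1, sc_mem hP (AutF.mor h1.1 hv) hy.1 hy.2⟩)
    fun y hy => by
      have := mem_img_of_mem (P := R ⊓ P) v (x := v⁻¹ y) ⟨Stab.apply_mem (inv_mem hvS) hy.1,
        sc_mem hP (AutF.mor h1.1 (inv_mem hv)) hy.1 hy.2⟩
      simpa using this)
  obtain ⟨α, -, hα⟩ := k2
  haveI : Finite ↥(R ⊓ P) := finite_of_le inf_le_left
  have k3 : α = 1 := H3.aut_eq_one_of_fix_omegaOne (hS.to_le (inf_le_left.trans h1.1)) hp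
    (hb.coprime_dvd_left (orderOf_dvd_of_pow_eq_one
      ((pow_eq_one_iff_of_aut hα b).2 (Fix_anti inf_le_left h3))))
    fun y hy => Subtype.ext ((hα y).trans (k1 _ y y.2.1
      (hn ▸ H22.mem_omegaOne y.2.2 (congrArg Subtype.val hy))))
  exact fun y hy => st y hy ((hα ⟨_, hz y hy, h none y hy (h1.1 hy)⟩).symm.trans (by rw [k3]; rfl))


end Cfsg.Agent.S5236
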