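import Cfsg.Statements.S5243
import Mathlib
import Cfsg.Agent.H17.Env

set_option autoImplicit false
open Cfsg

namespace Cfsg.Agent.S5243

open Cfsg.Agent.H17
open Cfsg.FusionSystem hiding inv_mem
open scoped commutatorElement


/-- Let F be a saturated fusion system over a finite p-group S, E a normal subsystem of F over T ≤ S, and χ a surjective homomorphism from Aut_F(T) onto a nontrivial finite group Δ of order prime to p whose kernel contains Aut_E(T). Then there is a proper normal subsystem F₀ of F over S containing E such that Aut_{F₀}(S) consists of those α ∈ Aut_F(S) whose restriction to T is an element of Aut_F(T) in the kernel of χ; moreover every p'-residual subsystem O^{p'}(F) of F is contained in F₀. -/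
theorem result {Ω : Type*} [Group Ω] {S : Subgroup Ω} [Finite S] (p : ℕ) [Fact p.Prime] (hS : IsPGroup p S) (F : Cfsg.FusionSystem S) (hF : F.IsSaturated p) {T : Subgroup Ω} (hTS : T ≤ S) (E : Cfsg.FusionSystem T) (hE : E.IsNormalIn F p) {Δ : Type*} [Group Δ] [Finite Δ] [Nontrivial Δ] (hΔ : (Nat.card Δ).Coprime p) (χ : ↥(F.autGroup T) →* Δ) (hχ : Function.Surjective χ) (hker : (E.autGroup T).subgroupOf (F.autGroup T) ≤ χ.ker) : ∃ F₀ : Cfsg.FusionSystem S, F₀.IsNormalIn F p ∧ ¬ (∀ P : Subgroup Ω, F₀.Hom P = F.Hom P) ∧ E.IsSubsystemOf F₀ ∧ (∀ α : MulAut ↥S, α ∈ F₀.autGroup S ↔ α ∈ F.autGroup S ∧ ∃ β : ↥(F.autGroup T), χ β = 1 ∧ ∀ t : ↥T, (((β : MulAut ↥T) t : ↥T) : Ω) = ((α ⟨(t : Ω), hTS t.2⟩ : ↥S) : Ω)) ∧ ∀ R : Cfsg.FusionSystem S, F.IsPPrimeResidual p R → R.IsSubsystemOf F₀ := by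
  have hK : ∀ (σ : Equiv.Perm Ω) (β : F.autGroup T), (∀ x : T, ((β : MulAut T) x : Ω) = σ x) →
      (σ ∈ lift (χ.ker.map (F.autGroup T).subtype) ↔ χ β = 1) := fun σ β e => by
    rw [mem_lift_of_eq e]
    exact ⟨fun ⟨γ, k1, k2⟩ => Subtype.ext k2 ▸ k1, fun k => ⟨β, k, rfl⟩⟩
  obtain ⟨F₀, h1, h2, h3, h4⟩ := exists_envelope_p' hS hE (K := lift (χ.ker.map (F.autGroup T).subtype))
    (fun σ hσ => by
      obtain ⟨α, k1, k2⟩ := AutF_mono (nml_sub hE) le_rfl hσ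
      exact (hK σ ⟨α, k1⟩ k2).2 (hker (Subgroup.mem_subgroupOf.2 ((mem_lift_of_eq k2).1 hσ))))
    (lift_mono (Subgroup.map_subtype_le _)) (fun σ hσ w hw => lift_conj_mem inferInstance hσ hw)
    fun σ hσ => by
      obtain ⟨α, k1, k2⟩ := AutS_le_AutF F hTS le_rfl hσ
      obtain ⟨k, hk⟩ := AutS_pmod hS σ hσ
      refine mem_of_coprime_pow ((hK _ (⟨α, k1⟩ ^ Nat.card Δ) (pow_apply_of_aut k2 _)).2 ?_)
        (Fix_le_lift hk) (hΔ.pow_right k)
      rw [map_pow, pow_card_eq_one']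
  refine ⟨F₀, h1, fun h5 => ?_, nml_sub h2, fun α => ?_, fun R hR => p'res_sub hS hR h1⟩
  · obtain ⟨d, hd⟩ := exists_ne (1 : Δ)
    obtain ⟨β, rfl⟩ := hχ d
    obtain ⟨σ, hσ⟩ := exists_perm_of_aut (β : MulAut T)
    exact hd ((hK σ β hσ).1 (h4 (AutF_mono (fun P => (h5 P).ge) hTS ⟨β, β.2, hσ⟩)))
  obtain ⟨σ, hσ⟩ := exists_perm_of_aut α
  rw [← mem_lift_of_eq hσ, ← mem_lift_of_eq hσ]
  refine (SetLike.ext_iff.1 h3 σ).trans (and_congr_right fun h5 => ⟨fun h6 => ?_, fun ⟨β, k1, k2⟩ =>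
    (hK σ β fun x => (k2 x).trans (hσ _)).2 k1⟩)
  obtain ⟨β, k1, k2⟩ := lift_mono (Subgroup.map_subtype_le _) h6
  exact ⟨⟨β, k1⟩, (hK σ ⟨β, k1⟩ k2).1 h6, fun t => (k2 t).trans (hσ ⟨t, hTS t.2⟩).symm⟩

end Cfsg.Agent.S5243
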