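import Cfsg.Statements.S5244
import Mathlib
import Cfsg.Agent.H18.AbIdx

set_option autoImplicit false
open Cfsg

namespace Cfsg.Agent.S5244

open Cfsg.Agent.H18 Cfsg.Agent.H3 Cfsg.Agent.FT Subgroup
open scoped commutatorElement

/-- Let p be an odd prime, S a finite nonabelian p-group with a unique abelian subgroup A of index p, and F a saturated fusion system over S with no nontrivial normal subgroup (O_p(F) = 1) in which A is not F-essential. Then some subgroup Z(S)⟨x⟩ with x ∈ S outside A is F-essential, the centre Z(S) is contained in the commutator subgroup of S, and S has maximal nilpotency class (if S has order pⁿ with n ≥ 3, the term of index n − 2 of its lower central series, counting S itself as the term of index 0, is nontrivial). -/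
theorem result {Ω : Type*} [Group Ω] {S : Subgroup Ω} [Finite S] (p : ℕ) [Fact p.Prime] (hS : IsPGroup p S) (F : Cfsg.FusionSystem S) (hF : F.IsSaturated p) (hp : p ≠ 2) (hna : ¬ IsMulCommutative ↥S) (A : Subgroup Ω) (hA : A ≤ S ∧ IsMulCommutative ↥A ∧ (A.subgroupOf S).index = p) (huniq : ∀ B : Subgroup Ω, B ≤ S → IsMulCommutative ↥B → (B.subgroupOf S).index = p → B = A) (hcore : F.core = ⊥) (hAe : ¬ F.IsEssential p A) : (∃ x ∈ S, x ∉ A ∧ F.IsEssential p ((S ⊓ Subgroup.centralizer (S : Set Ω)) ⊔ Subgroup.zpowers x)) ∧ (S ⊓ Subgroup.centralizer (S : Set Ω)) ≤ (commutator ↥S).map S.subtype ∧ ∀ n : ℕ, Nat.card S = p ^ n → 3 ≤ n → Subgroup.lowerCentralSeries S (n - 2) ≠ ⊥ := by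
  obtain ⟨G, _, _, S', F', j, k, h, hB⟩ := exists_iso_big F
  have hI := h.toPIso
  have hA' := ai_img hI hS hna hA
  have hF' := h.saturated hF
  haveI : Finite S' := inferInstance
  obtain ⟨⟨x, hx, h1, h2⟩, h3, h4⟩ := hA'.no_A (uniq_img hI huniq) hp hF' hB
    (by rw [← h.img_core, hcore, hI.img_bot]) fun e => hAe (by
      have := iso_essential h.symm hA'.pS.isPGroup hF' e
      rwa [hI.img_img hA.1] at this)
  rw [map_subtype_commutator]
  refine ⟨⟨k x, hI.mk' x hx, fun e => h1 ((hI.mem_img hA.1).2 ⟨hx, e⟩), ?_⟩, ?_, fun n hn h5 e => ?_⟩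
  · have := iso_essential h.symm hA'.pS.isPGroup hF' h2
    rwa [hI.symm.img_sup inf_le_left (zpowers_le.2 hx), pi_center hI.symm, pi_zpowers hI.symm hx] at this
  · rw [← pi_center hI.symm, ← pi_der hI.symm]; exact H17.img_mono k h3
  · refine (h4 n ((Nat.card_congr hI.equiv.toEquiv).symm.trans hn) (by omega)).ne ?_
    rw [← pi_lcs hI, e, hI.img_bot]

end Cfsg.Agent.S5244
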