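import Cfsg.Statements.S5248
import Mathlib
import Cfsg.Agent.H18.TwoReal

set_option autoImplicit false
open Cfsg

namespace Cfsg.Agent.S5248

open Cfsg.Agent.H18 Cfsg.Agent.H3 Cfsg.Agent.FT Subgroup
open scoped commutatorElement

/-- Let S be a finite 2-group that is dihedral of order at least 8, generalized quaternion of order at least 8, semidihedral, or wreathed, and let F be a saturated fusion system over S. Then F has at most two F-conjugacy classes of F-essential subgroups (among any three essential subgroups two are joined by a map of F), and F is realizable: it is the fusion system of a finite group on a Sylow 2-subgroup. -/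
theorem result {Ω : Type*} [Group Ω] {S : Subgroup Ω} [Finite S] (hS : IsPGroup 2 S) (F : Cfsg.FusionSystem S) (hF : F.IsSaturated 2) (hshape : ((∃ m : ℕ, 4 ≤ m ∧ Nonempty (↥S ≃* DihedralGroup m)) ∨ (∃ m : ℕ, 2 ≤ m ∧ Nonempty (↥S ≃* QuaternionGroup m)) ∨ Cfsg.IsQuasiDihedral ↥S ∨ Cfsg.IsWreathed ↥S)) : (∀ E₁ E₂ E₃ : Subgroup Ω, F.IsEssential 2 E₁ → F.IsEssential 2 E₂ → F.IsEssential 2 E₃ → (∃ φ ∈ F.Hom E₁, φ.range = E₂) ∨ (∃ φ ∈ F.Hom E₁, φ.range = E₃) ∨ (∃ φ ∈ F.Hom E₂, φ.range = E₃)) ∧ F.IsRealizable 2 := by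
  haveI : Fact (Nat.Prime 2) := ⟨Nat.prime_two⟩
  obtain ⟨G, _, _, S', F', j, k, h, hB⟩ := exists_iso_big F
  have hI := h.toPIso
  have e := hI.equiv.symm
  have pS := pGrp_of_isPGroup Nat.prime_two (hI.isPGroup hS)
  have hF' := h.saturated hF
  have key : Two F' ∧ CR F' := by
    rcases hshape with ⟨m, hm, ⟨f⟩⟩ | ⟨m, hm, ⟨f⟩⟩ | hq | hw
    · obtain ⟨a, b, n, -, H⟩ := exists_mcd_of_iso' pS (by omega) (e.trans f)
      exact ⟨two_mc H.toMC hF' hB, cr_mcd H hF' hB⟩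
    · obtain ⟨a, b, n, -, H⟩ := exists_mcq_of_iso' pS (by omega) (e.trans f)
      exact ⟨two_mc H.toMC hF' hB, cr_mcq H hF' hB⟩
    · obtain ⟨a, b, n, H⟩ := exists_mcs (qd_of_equiv e hq)
      exact ⟨two_mc H.toMC hF' hB, cr_mcs H hF' hB⟩
    · obtain ⟨x, y, t, n, H⟩ := exists_wr (wreathed_of_equiv e hw)
      exact ⟨two_wr H hF' hB, cr_wr H hF' hB⟩
  refine ⟨fun E₁ E₂ E₃ h1 h2 h3 => ?_, key.2.realizable hS h⟩
  have c : ∀ {P Q : Subgroup Ω}, P ≤ S → Q ≤ S → F'.IsConj (H17.img j P) (H17.img j Q) → F.IsConj P Q :=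
    fun hP hQ e => hI.img_img hQ ▸ h.isConj_img hP e
  exact (key.1 _ _ _ (iso_essential h hS hF h1) (iso_essential h hS hF h2) (iso_essential h hS hF h3)).imp
    (c h1.1.1 h2.1.1) (Or.imp (c h1.1.1 h3.1.1) (c h2.1.1 h3.1.1))

end Cfsg.Agent.S5248
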