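import Cfsg.Statements.S5251
import Mathlib
import Cfsg.Agent.H17.Gen

set_option autoImplicit false
open Cfsg

namespace Cfsg.Agent.S5251

open Cfsg.Agent.H17
open Cfsg.FusionSystem hiding inv_mem
open scoped commutatorElement


/-- Let F be a saturated fusion system over a finite p-group S, E a normal subsystem of F over T, and P an F-centric subgroup of S such that P ∩ T is not E-centric. Then some F-conjugate P* of P satisfies Out_S(P*) ∩ O_p(Out_F(P*)) ≠ 1: there is an element of N_S(P*) outside P* whose conjugation action on P* lies in O_p(Aut_F(P*)). In particular P is not both centric and radical in F. -/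
theorem result {Ω : Type*} [Group Ω] {S : Subgroup Ω} [Finite S] (p : ℕ) [Fact p.Prime] (hS : IsPGroup p S) (F : Cfsg.FusionSystem S) (hF : F.IsSaturated p) {T : Subgroup Ω} (E : Cfsg.FusionSystem T) (hE : E.IsNormalIn F p) (P : Subgroup Ω) (hP : F.IsCentric P) (hPT : ¬ E.IsCentric (P ⊓ T)) : (∃ φ ∈ F.Hom P, ∃ x ∈ S ⊓ Subgroup.normalizer (φ.range : Set Ω), x ∉ φ.range ∧ ∃ α ∈ ((Cfsg.pCore p ↥(F.autGroup φ.range)).map (F.autGroup φ.range).subtype : Subgroup (MulAut ↥φ.range)), ∀ y : ↥φ.range, ((α y : ↥φ.range) : Ω) = x * (y : Ω) * x⁻¹) ∧ ¬ F.IsRadical p P := by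
  have hT := inv_sc hE.1.2.2
  rw [centric_iff_tc hE.1.2.2] at hPT
  refine ⟨?_, fun hr => hPT (tc_inf_of_cr hS hF hT hP hr)⟩
  obtain ⟨ρ, h1, h2⟩ := exists_conj_not_NK_le hS hF hT hP.1 hPT
  obtain ⟨x, h3, h4⟩ := SetLike.not_le_iff_exists.1 h2
  refine ⟨h1.homOn.toHom, h1.toHom_mem, x, ?_⟩
  rw [← img_eq_range (f := ρ) h1.homOn.toHom fun _ => rfl]
  exact ⟨NK_OpF_le h3, h4, h3.2⟩

end Cfsg.Agent.S5251
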