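import Cfsg.Statements.S5253
import Mathlib
import Cfsg.Agent.H18.Gen

set_option autoImplicit false
universe u
open Cfsg

namespace Cfsg.Agent.S5253

open Cfsg.Agent.H17 Cfsg.Agent.H18

/-- Let p be a prime and W a positive characteristic p-functor with Z(Q) ≤ W(Q): W assigns to every finite p-group Q (in a fixed universe) a subgroup W(Q), nontrivial when Q is, carried to W(R) by every isomorphism Q ≅ R, and containing the centre of Q. Suppose that for every finite group G with Sylow p-subgroup P in which W(P) is not normal there is g ∈ P outside O_p(G) with [Z(O_p(G)), g, g] = 1. Then for every saturated fusion system F over a finite p-group S and every normalizer fusion system N of W(S) in F, every p-th power of an element of Z(S) that lies in the centre of N lies in the centre of F. -/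
theorem result {p : ℕ} [Fact p.Prime] (W : ∀ (Q : Type u) [Group Q], Subgroup Q) (hW1 : ∀ (Q : Type u) [Group Q] [Finite Q], IsPGroup p Q → Nontrivial Q → W Q ≠ ⊥) (hW2 : ∀ (Q R : Type u) [Group Q] [Group R] [Finite Q], IsPGroup p Q → ∀ φ : Q ≃* R, (W Q).map φ.toMonoidHom = W R) (hWZ : ∀ (Q : Type u) [Group Q] [Finite Q], IsPGroup p Q → Subgroup.center Q ≤ W Q) (hq : ∀ (G : Type u) [Group G] [Finite G] (P : Sylow p G), ¬ (((W ↥(P : Subgroup G)).map (P : Subgroup G).subtype : Subgroup G)).Normal → ∃ g : G, g ∈ (P : Subgroup G) ∧ g ∉ Cfsg.pCore p G ∧ ⁅⁅Subgroup.center ↥(Cfsg.pCore p G) |>.map (Cfsg.pCore p G).subtype, Subgroup.zpowers g⁆, Subgroup.zpowers g⁆ = ⊥) {Ω : Type u} [Group Ω] {S : Subgroup Ω} [Finite S] (hS : IsPGroup p S) (F : Cfsg.FusionSystem S) (hF : F.IsSaturated p) (N : Cfsg.FusionSystem (Cfsg.FusionSystem.normalizerIn S ((W ↥S).map S.subtype))) (hN : F.IsNormalizerSystem ((W ↥S).map S.subtype) N) : Subgroup.closure ((fun z => z ^ p) '' ((S ⊓ Subgroup.centralizer (S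 : Set Ω) : Subgroup Ω) : Set Ω)) ⊓ N.center ≤ F.center := by
  rw [closure_pow_eq_agZ]
  refine mem_center_of_gen (nsys_iff.1 hN) powerClosure_le fun E h1 h2 =>
    gen_control_quad ⟨hW1, hW2⟩ (fun G _ _ P h => ?_) hS hF le_rfl h1 h2
  obtain ⟨g, h3, h4, h5⟩ := hq G P h
  refine ⟨g, h3, h4, le_bot_iff.1 (le_trans (Subgroup.commutator_mono (Subgroup.commutator_mono ?_ le_rfl)
    le_rfl) h5.le)⟩
  exact fun z hz => ⟨⟨z, hz.1⟩, Subgroup.mem_center_iff.2 fun y => Subtype.ext (hz.2 y y.2), rfl⟩
end Cfsg.Agent.S5253
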