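import Cfsg.Statements.S5254
import Mathlib
import Cfsg.Agent.H18.AbIdx

set_option autoImplicit false
open Cfsg

namespace Cfsg.Agent.S5254


/-- Let p be an odd prime, S a finite nonabelian p-group with a unique abelian subgroup A of index p, and F a saturated fusion system over S. Then every F-essential subgroup P is A, or Z(S)⟨x⟩ for some x ∈ S outside A, or (when the second centre Z₂(S) lies in A) Z₂(S)⟨x⟩ for some x ∈ S outside A; and P has index p in its normalizer in S. -/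
theorem result {Ω : Type*} [Group Ω] {S : Subgroup Ω} [Finite S] (p : ℕ) [Fact p.Prime] (hS : IsPGroup p S) (F : Cfsg.FusionSystem S) (hF : F.IsSaturated p) (hp : p ≠ 2) (hna : ¬ IsMulCommutative ↥S) (A : Subgroup Ω) (hA : A ≤ S ∧ IsMulCommutative ↥A ∧ (A.subgroupOf S).index = p) (huniq : ∀ B : Subgroup Ω, B ≤ S → IsMulCommutative ↥B → (B.subgroupOf S).index = p → B = A) (P : Subgroup Ω) (hP : F.IsEssential p P) : (P = A ∨ (∃ x ∈ S, x ∉ A ∧ P = (S ⊓ Subgroup.centralizer (S : Set Ω)) ⊔ Subgroup.zpowers x) ∨ (((upperCentralSeries ↥S 2).map S.subtype) ≤ A ∧ ∃ x ∈ S, x ∉ A ∧ P = ((upperCentralSeries ↥S 2).map S.subtype) ⊔ Subgroup.zpowers x)) ∧ (P.subgroupOf (S ⊓ Subgroup.normalizer (P : Set Ω))).index = p := by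
  open Cfsg.Agent.H18 Cfsg.Agent.H3 Cfsg.Agent.FT Subgroup in
  open scoped commutatorElement in
  · obtain ⟨G, _, _, S', F', j, k, h, hB⟩ := exists_iso_big F
    have hI := h.toPIso
    have hA' := ai_img hI hS hna hA
    have PS : P ≤ S := hP.1.1
    obtain ⟨L, M, -, hc⟩ := exists_cfg hA'.pS (h.saturated hF) hB (iso_essential h hS hF hP)
    have e := hI.img_img PS
    have eA := hI.img_img hA.1
    have nm : ∀ x ∈ S', x ∉ H17.img j A → k x ∉ A := fun x hx h1 h2 => h1 ((hI.mem_img hA.1).2 ⟨hx, h2⟩)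
    refine ⟨?_, ?_⟩
    · rcases hA'.cfg_cases hc with h1 | ⟨x, hx, h1, h2⟩ | ⟨h0, x, hx, h1, h2⟩
      · exact Or.inl ((hI.img_inj PS hA.1).1 h1)
      · refine Or.inr (Or.inl ⟨k x, hI.mk' x hx, nm x hx h1, ?_⟩)
        rw [← e, h2, hI.symm.img_sup inf_le_left (zpowers_le.2 hx), pi_center hI.symm, pi_zpowers hI.symm hx]
      · refine Or.inr (Or.inr ⟨?_, k x, hI.mk' x hx, nm x hx h1, ?_⟩)
        · exact (pi_ucs hI.symm 2).ge.trans (eA ▸ H17.img_mono k h0)
        · rw [← e, h2, hI.symm.img_sup (ucn_le 2 S') (zpowers_le.2 hx), pi_zpowers hI.symm hx]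
          exact congrArg (· ⊔ _) (pi_ucs hI.symm 2)
    · have := hA'.cfg_T hc
      rwa [← pi_nrm hI PS, pi_relIndex hI PS inf_le_left] at this

end Cfsg.Agent.S5254
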