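import Cfsg.Statements.S5257
import Mathlib
import Cfsg.Agent.H18.AbIdx

set_option autoImplicit false
open Cfsg

namespace Cfsg.Agent.S5257


/-- Let p be an odd prime, S a finite nonabelian p-group with a unique abelian subgroup A of index p, and F a saturated fusion system over S having an F-essential subgroup other than A. Then the second centre Z₂(S) lies in A; Z(S) ∩ [S, S] has order p; Z(S)[S, S] has index p in A; Z(S) has index p in Z₂(S); and S/Z(S) has maximal nilpotency class (if S/Z(S) has order pᵐ with m ≥ 3 then the term of index m − 2 of the lower central series of S, counting S as index 0, is not contained in Z(S)). -/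
theorem result {Ω : Type*} [Group Ω] {S : Subgroup Ω} [Finite S] (p : ℕ) [Fact p.Prime] (hS : IsPGroup p S) (F : Cfsg.FusionSystem S) (hF : F.IsSaturated p) (hp : p ≠ 2) (hna : ¬ IsMulCommutative ↥S) (A : Subgroup Ω) (hA : A ≤ S ∧ IsMulCommutative ↥A ∧ (A.subgroupOf S).index = p) (huniq : ∀ B : Subgroup Ω, B ≤ S → IsMulCommutative ↥B → (B.subgroupOf S).index = p → B = A) (P : Subgroup Ω) (hP : F.IsEssential p P) (hPA : P ≠ A) : ((upperCentralSeries ↥S 2).map S.subtype) ≤ A ∧ Nat.card ↥((S ⊓ Subgroup.centralizer (S : Set Ω)) ⊓ ((commutator ↥S).map S.subtype)) = p ∧ (((S ⊓ Subgroup.centralizer (S : Set Ω)) ⊔ ((commutator ↥S).map S.subtype)).subgroupOf A).index = p ∧ (((S ⊓ Subgroup.centralizer (S : Set Ω))).subgroupOf ((upperCentralSeries ↥S 2).map S.subtype)).index = p ∧ ∀ m : ℕ, ((S ⊓ Subgroup.centralizer (S : Set Ω)).subgroupOf S).index = p ^ m → 3 ≤ m → ¬ Subgroup.lowerCentralSeries S (m - 2) ≤ (S ⊓ Subgroup.centralizer (S : Set Ω)) := by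
  open Cfsg.Agent.H18 Cfsg.Agent.H3 Cfsg.Agent.FT Subgroup in
  open scoped commutatorElement in
  · obtain ⟨G, _, _, S', F', j, k, h, hB⟩ := exists_iso_big F
    have hI := h.toPIso
    have hA' := ai_img hI hS hna hA
    have PS : P ≤ S := hP.1.1
    obtain ⟨L, M, -, hc⟩ := exists_cfg hA'.pS (h.saturated hF) hB (iso_essential h hS hF hP)
    obtain ⟨l, i⟩ := hA'.cfg_z2 (uniq_img hI huniq) hc (mt (hI.img_inj PS hA.1).1 hPA)
    have i' : (Z(S')).relIndex (H17.img j A ⊓ ucn 2 S') = p := by rwa [inf_eq_right.2 l]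
    have d : ⁅S, S⁆ ≤ S := commutator_le_self S
    have e2 : H17.img j (H17.ucs S 2) = ucn 2 S' := pi_ucs hI 2
    rw [map_subtype_commutator]
    refine ⟨(hI.img_le_img H17.ucs_le hA.1).1 (e2 ▸ l), ?_, ?_, ?_, fun m hm h3 l => ?_⟩
    · rw [← hI.card_img (inf_le_left.trans inf_le_left), hI.img_inf inf_le_left d, pi_center hI, pi_der hI,
        ← hA'.idx_z2, i']
    · have := hA'.idx_zs
      rwa [← hA'.idx_z2, i', ← pi_center hI, ← pi_der hI, ← hI.img_sup inf_le_left d,
        pi_relIndex hI (sup_le inf_le_left d) hA.1] at this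
    · rwa [← pi_center hI, ← e2, pi_relIndex hI inf_le_left H17.ucs_le] at i
    · have hm' : (Z(S')).relIndex S' = p ^ m := by
        rw [← pi_center hI, pi_relIndex_top hI inf_le_left]; exact hm
      refine (hA'.maxCl_quo i' hm' (by omega)).ne ?_
      rw [← lcs_quo (center_nml S').nrm, ← pi_lcs hI]
      exact quo_eq_bot_of_le (pi_center hI ▸ H17.img_mono j l)

end Cfsg.Agent.S5257
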