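import Cfsg.Statements.S5272
import Mathlib
import Cfsg.Agent.H18.Sparse

set_option autoImplicit false
open Cfsg

namespace Cfsg.Agent.S5272

open Cfsg.Agent.H17 Cfsg.Agent.H18

/-- An axiomatic Glauberman–Thompson nilpotency criterion for fusion systems. Let p be an odd prime, F a saturated fusion system over a finite p-group S, and 𝒜 a nonempty family of abelian subgroups of S. For Q ≤ S write I(Q) for the intersection of the members of 𝒜 contained in Q. Assume (invariance) that for every Q ≤ S containing a member of 𝒜, every F-automorphism of Q maps I(Q) into itself, and (replacement) that for every subgroup B of S of nilpotency class at most 2, if some member of 𝒜 contains [B,B] but not B, then B normalizes some member of 𝒜 that contains [B,B] but not B. Then F is the inner fusion system of S if and only if the normalizer fusion system of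 I(S) in F is the inner fusion system of N_S(I(S)). -/
theorem result {Ω : Type*} [Group Ω] {S : Subgroup Ω} [Finite S] (p : ℕ) [Fact p.Prime] (hS : IsPGroup p ↥S) (F : Cfsg.FusionSystem S) (hF : F.IsSaturated p) (hp : p ≠ 2) (𝒜 : Set (Subgroup Ω)) (h𝒜 : ∀ A ∈ 𝒜, A ≤ S ∧ IsMulCommutative ↥A) (hne : 𝒜.Nonempty) (hinv : ∀ Q : Subgroup Ω, Q ≤ S → (∃ A ∈ 𝒜, A ≤ Q) → ∀ α ∈ F.autGroup Q, ∀ x : ↥Q, (x : Ω) ∈ (⨅ A ∈ {A : Subgroup Ω | A ∈ 𝒜 ∧ A ≤ Q}, A) → (((α : MulAut ↥Q) x : ↥Q) : Ω) ∈ (⨅ A ∈ {A : Subgroup Ω | A ∈ 𝒜 ∧ A ≤ Q}, A)) (hrep : ∀ B : Subgroup Ω, B ≤ S → ⁅⁅B, B⁆, B⁆ = ⊥ → (∃ A ∈ 𝒜, ⁅B, B⁆ ≤ A ∧ ¬ B ≤ A) → ∃ A ∈ 𝒜, ⁅B, B⁆ ≤ A ∧ ¬ B ≤ A ∧ B ≤ Subgroup.normalizer (A : Set Ω)) : (∀ P : Subgroup Ω, F.Hom P = (Cfsg.innerFusionSystem S).Hom P) ↔ ∀ N : Cfsg.FusionSystem (Cfsg.FusionSystem.normalizerIn S (⨅ A ∈ 𝒜, A)), F.IsNormalizerSystem (⨅ A ∈ 𝒜, A)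 N → ∀ P : Subgroup Ω, N.Hom P = (Cfsg.innerFusionSystem (Cfsg.FusionSystem.normalizerIn S (⨅ A ∈ 𝒜, A))).Hom P := by
  obtain ⟨A₀, hA₀⟩ := hne
  have hle : ∀ A ∈ 𝒜, (⨅ A ∈ 𝒜, A) ≤ A := fun A hA => iInf₂_le A hA
  have hIS := (hle A₀ hA₀).trans (h𝒜 A₀ hA₀).1
  rw [nInn_iff hIS, ← isInner_iff]
  refine ⟨fun h => h.nInn _, fun hN => isInner_of_model hS hF (Or.inl hp) hIS hN
    fun D hD G _ _ P j k e h1 h2 h3 => ?_⟩
  have hinv' : ∀ Q ≤ S, ∀ A ∈ 𝒜, A ≤ Q → ∀ g, Mor F Q g → img g Q = Q →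
      img g (⨅ A ∈ {A : Subgroup Ω | A ∈ 𝒜 ∧ A ≤ Q}, A) = ⨅ A ∈ {A : Subgroup Ω | A ∈ 𝒜 ∧ A ≤ Q}, A := by
    intro Q hQ A hA hAQ g hg hgQ
    have h4 : (⨅ A ∈ {A : Subgroup Ω | A ∈ 𝒜 ∧ A ≤ Q}, A) ≤ Q := (iInf₂_le A ⟨hA, hAQ⟩).trans hAQ
    obtain ⟨α, hα, h5⟩ := hg.exists_aut hgQ
    refine hg.img_eq_of_le h4 fun x hx => ?_
    exact h5 ⟨x, h4 hx⟩ ▸ hinv Q hQ ⟨A, hA, hAQ⟩ α hα ⟨x, h4 hx⟩ hx
  have hcomm : ∀ A ∈ 𝒜, img j A ≤ Subgroup.centralizer (img j A : Set G) := fun A hA y hy => by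
    obtain ⟨x, hx, rfl⟩ := e.exists_of_mem_img (h𝒜 A hA).1 hy
    exact (e.apply_mem_centralizer (h𝒜 A hA).1 ((h𝒜 A hA).1 hx)).2
      (H22.isMulComm_iff.1 (h𝒜 A hA).2 hx)
  refine normal_of_family P hp h1 h3 (𝒜 := img j '' 𝒜) ?_ (e.img_le hIS) ?_ ?_ ?_ ?_ ?_ ?_
  · rintro _ ⟨A, hA, rfl⟩
    exact ⟨e.img_le (h𝒜 A hA).1, H22.isMulComm_iff.2 (hcomm A hA)⟩
  · exact ((img_mono j (hle A₀ hA₀)).trans (hcomm A₀ hA₀)).trans (H22.C_anti (img_mono j (hle A₀ hA₀)))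
  · intro y hy
    rw [← e.jk y hy, e.apply_mem_normalizer hIS (e.mk' y hy), mem_normalizer_iff_img]
    have := hinv' S le_rfl A₀ hA₀ (h𝒜 A₀ hA₀).1 _ (mor_cj F le_rfl (e.mk' y hy))
      (mem_normalizer_iff_img.1 (Subgroup.le_normalizer (e.mk' y hy)))
    rwa [show {A : Subgroup Ω | A ∈ 𝒜 ∧ A ≤ S} = 𝒜 from
      Set.ext fun A => and_iff_left_of_imp fun h => (h𝒜 A h).1] at this
  · rintro _ ⟨A, hA, rfl⟩
    exact img_mono j (hle A hA)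
  · intro B hB h4
    rw [← e.symm.img_img hB]
    refine img_mono j (le_iInf₂ fun A hA => ?_)
    rw [← e.img_img (h𝒜 A hA).1]
    exact img_mono k (h4 _ ⟨A, hA, rfl⟩)
  · rintro _ ⟨A, hA, rfl⟩ h4
    rw [← h2, e.img_le_img (h𝒜 A hA).1 (core_le D)] at h4
    have h5 : (⨅ A ∈ {A : Subgroup Ω | A ∈ 𝒜 ∧ A ≤ D.core}, A) ≤ A := iInf₂_le A ⟨hA, h4⟩
    exact ⟨_, normal_of_group_isNormal (sylIn_top P) h1 (e.normal (normal_of_invariant (normal_core D)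
      (h5.trans h4) fun g hg => hinv' _ (core_le D) A hA h4 g (H18.Mor.of_sub hD hg))),
      img_mono j (le_iInf₂ fun A hA => hle A hA.1), img_mono j h5⟩
  · rintro B hB h4 ⟨_, ⟨A, hA, rfl⟩, h5, h6⟩
    have hB' := e.symm.img_le hB
    have hBB : ⁅img k B, img k B⁆ ≤ S := (Subgroup.commutator_le_self _).trans hB'
    rw [← e.symm.img_img hB] at h4 h5 h6 ⊢
    rw [← e.img_commutator hB' hB'] at h4 h5
    rw [← e.img_commutator hBB hB', e.img_eq_bot ((Subgroup.commutator_mono hBB hB').trans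
      (Subgroup.commutator_le_self _))] at h4
    rw [e.img_le_img hBB (h𝒜 A hA).1] at h5
    obtain ⟨A', hA', -, h7, h8⟩ := hrep _ hB' h4 ⟨A, hA, h5, fun h => h6 (img_mono j h)⟩
    refine ⟨_, ⟨A', hA', rfl⟩, by rwa [e.img_le_img hB' (h𝒜 A' hA').1], img_le_iff.2 fun x hx => ?_⟩
    exact (e.apply_mem_normalizer (h𝒜 A' hA').1 (hB' hx)).2 (h8 hx)

end Cfsg.Agent.S5272
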