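import Cfsg.Statements.S5278
import Mathlib
import Cfsg.Agent.H4.Tor3

set_option autoImplicit false
open Cfsg

namespace Cfsg.Agent.S5278

open Cfsg.Agent.H17 Cfsg.Agent.H18 Cfsg.Agent.H4T

/-- Let p be an odd prime, F a saturated fusion system over a finite p-group S, and T a subgroup of Z(S) such that the normalizer fusion system of J(S) in F is contained in the normalizer fusion system of T, J(S) being the subgroup generated by the abelian subgroups of S of largest order. Then either T is weakly closed in F, or Aut_F(T) has a nontrivial cyclic subgroup X of order prime to p that permutes transitively the non-identity elements of the commutator [T, X] (the subgroup of T generated by the elements ψ(t)·t⁻¹ with ψ in X and t in T). -/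
theorem result {Ω : Type*} [Group Ω] {S : Subgroup Ω} [Finite S] (p : ℕ) [Fact p.Prime] (hS : IsPGroup p ↥S) (F : Cfsg.FusionSystem S) (hF : F.IsSaturated p) (hp : p ≠ 2) (T : Subgroup Ω) (hT : T ≤ S ⊓ Subgroup.centralizer (S : Set Ω)) (hJT : ∀ NJ : Cfsg.FusionSystem (Cfsg.FusionSystem.normalizerIn S (Cfsg.thompsonSubgroupAOf S)), F.IsNormalizerSystem (Cfsg.thompsonSubgroupAOf S) NJ → ∀ NT : Cfsg.FusionSystem (Cfsg.FusionSystem.normalizerIn S T), F.IsNormalizerSystem T NT → NJ.IsSubsystemOf NT) : F.WeaklyClosed T ∨ ∃ X : Subgroup (MulAut ↥T), X ≤ F.autGroup T ∧ X ≠ ⊥ ∧ IsCyclic ↥X ∧ (Nat.card ↥X).Coprime p ∧ ∀ a b : ↥T, a ∈ Subgroup.closure {y : ↥T | ∃ ψ ∈ X, ∃ t : ↥T, y = ψ t * t⁻¹} → b ∈ Subgroup.closure {y : ↥T | ∃ ψ ∈ X, ∃ t : ↥T, y = ψ t * t⁻¹} → a ≠ 1 → b ≠ 1 → ∃ ψ ∈ X, ψ a = b := by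
  have TS : T ≤ S := hT.trans inf_le_left
  have : Finite T := H17.finite_of_le TS
  obtain ⟨NJ, hNJ⟩ := exists_nsys F (thompsonAOf_le S)
  obtain ⟨NT, hNT⟩ := exists_nsys F TS
  have h1 := hJT NJ (nsys_iff.2 hNJ) NT (nsys_iff.2 hNT)
  rcases normal_or_good hp hS hF (T := T) hT (fun P f hf hP =>
    nmor_apply_mem ((hNT P f).1 (H18.Mor.of_sub h1 ((hNJ P f).2 hf))) hP) with h | ⟨α, h2, h3⟩
  · exact Or.inl (normal_wc h)
  · exact Or.inr ⟨Subgroup.zpowers α, Subgroup.zpowers_le.2 h2,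
      h3.final fun a b => Subtype.ext ((hT b.2).2 a (TS a.2))⟩

end Cfsg.Agent.S5278
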