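import Cfsg.Statements.S5287
import Mathlib
import Cfsg.Agent.H18.GL2Two

set_option autoImplicit false
open Cfsg

namespace Cfsg.Agent.S5287

open Cfsg.Agent.H18

/-- Let S be a finite metacyclic p-group (an extension of a cyclic group by a cyclic group). Every saturated fusion system over S is supersoluble (S has a chain of F-strongly closed subgroups from 1 to S with cyclic steps) if and only if S is not homocyclic of rank two (isomorphic to Z/p^n × Z/p^n with n ≥ 1) and, when p = 2, S is not dihedral of order at least 4, not quasi-dihedral (semidihedral) and not generalized quaternion of order at least 8. -/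
theorem result {Ω : Type*} [Group Ω] {S : Subgroup Ω} [Finite S] (p : ℕ) [Fact p.Prime] (hS : IsPGroup p ↥S) (hm : Cfsg.IsMetacyclic ↥S) : (∀ F : Cfsg.FusionSystem S, F.IsSaturated p → (∃ (m : ℕ) (c : Fin (m + 1) → Subgroup Ω), c 0 = ⊥ ∧ c (Fin.last m) = S ∧ (∀ i : Fin (m + 1), F.StronglyClosed (c i)) ∧ ∀ i : Fin m, c i.castSucc ≤ c i.succ ∧ ∃ x ∈ S, c i.succ = c i.castSucc ⊔ Subgroup.zpowers x)) ↔ ¬ ((∃ n : ℕ, 0 < n ∧ Nonempty (↥S ≃* Multiplicative (ZMod (p ^ n)) × Multiplicative (ZMod (p ^ n)))) ∨ (p = 2 ∧ ((∃ n : ℕ, 2 ≤ n ∧ Nonempty (↥S ≃* DihedralGroup n)) ∨ Cfsg.IsQuasiDihedral ↥S ∨ (∃ n : ℕ, 2 ≤ n ∧ Nonempty (↥S ≃* QuaternionGroup n))))) := by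
  simp only [← cCh_iff]
  exact metacyc_super_iff p hS hm

end Cfsg.Agent.S5287
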