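import Cfsg.Statements.S5291
import Mathlib
import Cfsg.Agent.H17.Inv

set_option autoImplicit false
open Cfsg

namespace Cfsg.Agent.S5291

open Cfsg.Agent.H17
open Cfsg.FusionSystem hiding inv_mem
open scoped commutatorElement


/-- Let F be a saturated fusion system over a finite p-group S and E a weakly normal subsystem of F over a subgroup T. Suppose a subgroup R of T is normal in E (E = N_E(R)), and let R* be the subgroup of T generated by the images of R under all maps of F with source R. Then R* is normal in F (F = N_F(R*)). -/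
theorem result {Ω : Type*} [Group Ω] {S : Subgroup Ω} [Finite S] (p : ℕ) [Fact p.Prime] (hS : IsPGroup p S)
    (F : Cfsg.FusionSystem S) (hF : F.IsSaturated p)
    {T : Subgroup Ω} (E : Cfsg.FusionSystem T) (hE : E.IsWeaklyNormalIn F p)
    (R : Subgroup Ω) (hR : E.IsNormal R) :
    F.IsNormal (Subgroup.closure {x : Ω | ∃ φ ∈ F.Hom R, ∃ r : R, x = φ r}) := by
  have hT := hE.2.2.2.1.1
  haveI := finite_of_le hT
  have e : Subgroup.closure {x : Ω | ∃ φ ∈ F.Hom R, ∃ r : R, x = φ r} =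
      sSup {Q | E.IsNormal Q ∧ Q ≤ Subgroup.closure {x : Ω | ∃ φ ∈ F.Hom R, ∃ r : R, x = φ r}} := by
    refine le_antisymm ((Subgroup.closure_le _).2 ?_) (sSup_le fun Q h => h.2)
    rintro _ ⟨φ, hφ, r, rfl⟩
    obtain ⟨σ, hσ, f₀, hf₀, e⟩ := inv_frat hE.2.2 R _ hR.1 (mor_extF hφ)
    have h1 := wc_img_eq (normal_wc hR) hf₀ le_rfl
    have h2 : img σ R = img (extF φ) R := by
      conv_lhs => rw [← h1, hf₀.homOn.img_img]
      exact img_congr fun x hx => (e x hx).symm
    refine (le_sSup (a := img σ R) (And.intro ((inv_aInv hE.2.2).normal hR hσ) ?_) : img σ R ≤ _) ?_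
    · rw [h2]
      exact img_le_iff.2 fun x hx => Subgroup.subset_closure ⟨φ, hφ, ⟨x, hx⟩, extF_of_mem φ hx⟩
    · rw [h2, ← extF_coe]
      exact mem_img_of_mem _ r.2
  have h1 := (sSup_prop (S := T) (M := fun Q => E.IsNormal Q ∧
      Q ≤ Subgroup.closure {x : Ω | ∃ φ ∈ F.Hom R, ∃ r : R, x = φ r}) (fun Q h => h.1.1)
    ⟨normal_bot E, bot_le⟩ fun Q R h1 h2 => ⟨normal_sup h1.1 h2.1, sup_le h1.2 h2.2⟩).1
  rw [← e] at h1
  refine normal_of_normal_inv hS hF hE.2.2 h1 fun σ hσ => ?_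
  have hm := AutF.mor hT hσ
  refine hm.img_eq_of_le h1.1 (img_le_iff.1 ?_)
  rw [hm.homOn.img_closure h1.1, Subgroup.closure_le]
  rintro _ ⟨_, ⟨φ, hφ, r, rfl⟩, rfl⟩
  have h2 := (mor_extF hφ).comp hm fun x hx => sc_mem hE.2.2.2.1 (mor_extF hφ) hx (hR.1 hx)
  exact Subgroup.subset_closure ⟨_, h2.toHom_mem, r, by simp [HomOn.toHom, extF_coe]⟩

end Cfsg.Agent.S5291
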