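import Cfsg.Statements.S5292
import Mathlib
import Cfsg.Agent.H18.Solv

set_option autoImplicit false
universe u
open Cfsg

namespace Cfsg.Agent.S5292

open Cfsg.FusionSystem Cfsg.Agent.H17 Cfsg.Agent.H18

/-- Let F be a saturated fusion system over a finite p-group S. Then F is the fusion system of some finite p-solvable group on a Sylow p-subgroup if and only if F is constrained (some subgroup normal in F is centric in F) and the group of automorphisms that F induces on its largest normal subgroup O_p(F) is p-solvable. -/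
theorem result {Ω : Type u} [Group Ω] {S : Subgroup Ω} [Finite S] (p : ℕ) [Fact p.Prime] (hS : IsPGroup p S)
    (F : Cfsg.FusionSystem S) (hF : F.IsSaturated p) :
    (∃ (G : Type u) (_ : Group G) (_ : Finite G) (ι : S →* G), Cfsg.IsPSolvable p G ∧ F.IsRealizedBy ι ∧
        ∃ T : Sylow p G, (T : Subgroup G) = ι.range) ↔
      (F.IsConstrained p ∧ Cfsg.IsPSolvable p ↥(F.autGroup F.core)) := by
  constructor
  · rintro ⟨G, _, _, ι, h1, h2, U, hU⟩
    obtain ⟨k, e⟩ := realized_iso h2
    rw [← hU] at e
    exact ⟨(e.sCh_group h1).constrained hS hF, e.autSolv_group h1 _ (core_le F)⟩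
  · rintro ⟨h1, h2⟩
    obtain ⟨G, _, ι, hG⟩ := exists_model hS h1
    exact ⟨G, _, hG.1, ι, model_pSolvable hS hG (normal_core F) h2
      fun σ _ _ h => mem_Fix.2 fun x hx => h x hx hx, hG.2.1, hG.2.2.1⟩

end Cfsg.Agent.S5292
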