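import Cfsg.Statements.S5301
import Mathlib
import Cfsg.Agent.H18.Solv

set_option autoImplicit false
universe u
open Cfsg

namespace Cfsg.Agent.S5301

open Cfsg.FusionSystem Cfsg.Agent.H17 Cfsg.Agent.H18

/-- Let F be a saturated fusion system over a finite p-group S. If for every subgroup P of S that is fully normalized, centric and radical in F the automorphism group that F induces on P has a normal Sylow p-subgroup, then S is normal in F. -/
theorem result {Ω : Type u} [Group Ω] {S : Subgroup Ω} [Finite S] (p : ℕ) [Fact p.Prime] (hS : IsPGroup p S)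
    (F : Cfsg.FusionSystem S) (hF : F.IsSaturated p)
    (hcl : ∀ P : Subgroup Ω, F.IsFullyNormalized P → F.IsCentric P → F.IsRadical p P →
      ∃ R : Sylow p ↥(F.autGroup P), (R : Subgroup ↥(F.autGroup P)).Normal) :
    F.IsNormal S := by
  refine normal_of_sc_cr hS hF (sc_top F) fun P h1 h2 h3 => ?_
  obtain ⟨R, hR⟩ := hcl P h1 h2 h3
  obtain ⟨-, R', hR'⟩ := sat_fa_of_fn hS hF h1
  haveI := finite_mulAut h1.1
  haveI := Sylow.unique_of_normal R hR
  rw [Subsingleton.elim R R'] at hR
  refine (H22.pgrp_eq_of_inf_N_le hS h1.1 fun x hx => mem_of_cj_mem_OpF hS h2 h3 hx.1 ?_).ge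
  refine lift_mono (K := autInducedBy S P) ?_ (cj_mem_AutS hx.1 hx.2)
  refine le_trans ?_ (Subgroup.map_mono (le_pCore hR R'.isPGroup'))
  rw [hR', Subgroup.subgroupOf_map_subtype, inf_eq_left.2 (autInducedBy_le_autGroup F h1.1 le_rfl)]

end Cfsg.Agent.S5301
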