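import Cfsg.Statements.S5310
import Mathlib
import Cfsg.Agent.H17.Layer

set_option autoImplicit false
open Cfsg

namespace Cfsg.Agent.S5310

open Cfsg.Agent.H17
open Cfsg.FusionSystem hiding inv_mem
open scoped commutatorElement


/-- A saturated fusion system F over a finite p-group S is constrained (its largest normal subgroup O_p(F) is centric) if and only if the inner fusion system of O_p(F) is itself a generalized Fitting subsystem of F (that is, F*(F) = O_p(F)). -/
theorem result {Ω : Type*} [Group Ω] {S : Subgroup Ω} [Finite S] (p : ℕ) [Fact p.Prime] (hS : IsPGroup p S) (F : Cfsg.FusionSystem S) (hF : F.IsSaturated p) :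
    F.IsConstrained p ↔ (Cfsg.innerFusionSystem F.core).IsGeneralizedFittingOf F p := by
  haveI := finite_of_le (core_le F)
  refine ⟨fun h => ?_, fun h => (constrained_iff_no_comp hS hF).2 fun ⟨U, C, hC⟩ => ?_⟩
  · obtain ⟨D, hD⟩ := exists_gf' hS (layer_bot hS h) (sup_bot_eq F.core).symm
    have h1 := cProd_of hD
    rw [← eq_of_sub_sub' (subsystem_iff.2 fun P f hf => h1.mor₁ hf hf.le) h1.sub₁]
    exact ⟨_, _, layer_bot hS h, hD⟩
  · obtain ⟨T, E, h1, h2, -⟩ := gf_data hS h
    haveI := finite_of_le (subn_le hC.1)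
    exact (comp_qs hS hC).not_sub_inner (hS.to_le (subn_le hC.1)) (hS.to_le (core_le F))
      (sub_trans (h1.2.1 U C hC) h2.symm.sub₁)

end Cfsg.Agent.S5310
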