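import Cfsg.Statements.S5317
import Mathlib
import Cfsg.Agent.H17.SL3

set_option autoImplicit false
open Cfsg

namespace Cfsg.Agent.S5317

open Cfsg.Agent.H17
open Cfsg.FusionSystem hiding inv_mem
open scoped commutatorElement


/-- Let F be a finite field of odd order q with q² ≡ 1 mod 16 (so that a Sylow 2-subgroup of PSL(2,q), dihedral of order the 2-part of (q²−1)/2, has order at least 8). Then the 2-fusion system of PSL(2,F) on a Sylow 2-subgroup is simple: saturated, over a nontrivial 2-group, with no normal subsystem other than the trivial one and itself. -/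
theorem result {F : Type*} [Field F] [Fintype F] (hodd : Fintype.card F % 2 = 1) (h16 : 16 ∣ Fintype.card F ^ 2 - 1)
    (S : Sylow 2 (Matrix.ProjectiveSpecialLinearGroup (Fin 2) F)) :
    (Cfsg.groupFusionSystem (S : Subgroup (Matrix.ProjectiveSpecialLinearGroup (Fin 2) F))).IsSimple 2 := by
  have h2 : (2 : F) ≠ 0 := H11.two_ne_zero_of_odd_card (Nat.odd_iff.2 hodd)
  have h1 := H10.card_PSL_two (F := F)
  have h3 : 1 < Fintype.card F := Fintype.one_lt_card
  rw [Nat.gcd_eq_left (by omega), mul_assoc, mul_comm (_ - 1), ← Nat.sq_sub_sq _ 1, one_pow] at h1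
  refine simple_of_pgl h2 (H10.commutator_PSL_eq_top_of_SL (H10.commutator_SL_fin_eq_top le_rfl fun _ => ?_))
    _ Matrix.ProjectiveSpecialLinearGroup.toPGL_injective
    (Nat.dvd_of_mul_dvd_mul_left two_pos (h1 ▸ h16.mul_left _)) (H18.sylIn_top S)
  rw [Nat.card_eq_fintype_card]
  by_contra h
  have : Fintype.card F = 3 := by omega
  simp [this] at h16

end Cfsg.Agent.S5317
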