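import Cfsg.Statements.S5318
import Mathlib
import Cfsg.Agent.H17.SL3
import Cfsg.Agent.H10.Sp

set_option autoImplicit false
open Cfsg

namespace Cfsg.Agent.S5318

open Cfsg.Agent.H17
open Cfsg.FusionSystem hiding inv_mem
open scoped commutatorElement


/-- For a finite field F of odd order, the 2-fusion system of PSL(3,F) on a Sylow 2-subgroup (semidihedral or wreathed according as |F| ≡ 3 or 1 mod 4) is simple. -/
theorem result {F : Type*} [Field F] [Fintype F] (hodd : Fintype.card F % 2 = 1) (S : Sylow 2 (Matrix.ProjectiveSpecialLinearGroup (Fin 3) F)) :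
    (Cfsg.groupFusionSystem (S : Subgroup (Matrix.ProjectiveSpecialLinearGroup (Fin 3) F))).IsSimple 2 := by
  have h2 : (2 : F) ≠ 0 := H11.two_ne_zero_of_odd_card (Nat.odd_iff.2 hodd)
  have h3 : 1 < Fintype.card F := Fintype.one_lt_card
  obtain ⟨P⟩ : Nonempty (Sylow 2 (⊤ : Subgroup (Matrix.SpecialLinearGroup (Fin 3) F))) := inferInstance
  obtain ⟨Q⟩ : Nonempty (Sylow 2 (Matrix.SpecialLinearGroup (Fin 3) F)) := inferInstance
  have k := simple_sl3 h2 (H := ⊤) trivial trivial trivial (H10.commutator_eq_top_of_mulEquiv Subgroup.topEquiv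
    (H10.commutator_SL_eq_top (by simp))) ⊤ (fun _ _ _ _ _ _ => trivial) (by
      have h1 := H10.card_SL_fin (F := F) 3 (by norm_num)
      rw [Subgroup.card_top, Subgroup.card_top, H10.card_units_eq]
      refine Nat.dvd_of_mul_dvd_mul_left (k := Fintype.card F - 1) (by omega) (h1 ▸ ?_)
      obtain ⟨q, hq⟩ : ∃ q, Fintype.card F = q + 1 := ⟨_, (Nat.succ_pred_eq_of_pos (by omega)).symm⟩
      obtain ⟨m, hm⟩ := eight_dvd_sq_sub_one hodd
      rw [hq] at hm ⊢
      have hm' : q * (q + 2) = 8 * m := by rw [← hm]; exact (Nat.sub_eq_of_eq_add (by ring)).symm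
      have e1 : (q + 1) ^ 3 - (q + 1) ^ 0 = q * (q ^ 2 + 3 * q + 3) := Nat.sub_eq_of_eq_add (by ring)
      have e2 : (q + 1) ^ 3 - (q + 1) ^ 1 = (q + 1) * (q * (q + 2)) := Nat.sub_eq_of_eq_add (by ring)
      have e3 : (q + 1) ^ 3 - (q + 1) ^ 2 = (q + 1) ^ 2 * q := Nat.sub_eq_of_eq_add (by ring)
      simp only [Fin.prod_univ_three, Fin.val_zero, Fin.val_one, Fin.val_two, e1, e2, e3, hm', Nat.add_sub_cancel]
      exact ⟨(q ^ 2 + 3 * q + 3) * (q + 1) ^ 3 * m, by ring⟩) (H18.sylIn_top P)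
  refine simple_quot _ (fun x hx h => h.eq_one_of_pow (n := Nat.card (Subgroup.center _)) ?_
    (congrArg Subtype.val (pow_card_eq_one' (x := (⟨x, hx⟩ : Subgroup.center _))))) (H18.sylIn_top Q)
    (simple_equiv Subgroup.topEquiv (H18.sylIn_top P) (H18.sylIn_top Q) k) (H18.sylIn_top S)
  rw [H10.card_center_SL_fin 3 (by norm_num)]
  exact Nat.Coprime.coprime_dvd_left (Nat.gcd_dvd_left _ _) (by norm_num)

end Cfsg.Agent.S5318
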