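import Cfsg.Statements.S5319
import Mathlib
import Cfsg.Agent.H17.SL3
import Cfsg.Agent.H10.Sp

set_option autoImplicit false
open Cfsg

namespace Cfsg.Agent.S5319

open Cfsg.Agent.H17
open Cfsg.FusionSystem hiding inv_mem
open scoped commutatorElement


/-- Let q be an odd prime power and F a field with q² elements. Then the 2-fusion system of PSU(3,q) (realised as the special unitary group of the standard Hermitian form over F modulo its centre) on a Sylow 2-subgroup is simple. -/
theorem result {F : Type*} [Field F] [Fintype F] (q : ℕ) (hq : Fintype.card F = q ^ 2) (hodd : q % 2 = 1) (S : Sylow 2 (Cfsg.PSU 3 F q)) :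
    (Cfsg.groupFusionSystem (S : Subgroup (Cfsg.PSU 3 F q))).IsSimple 2 := by
  have h2 : (2 : F) ≠ 0 := H11.two_ne_zero_of_odd_card (by rw [hq]; exact (Nat.odd_iff.2 hodd).pow)
  have hc := H11.qConj_conjQ hq
  have hH := hc.isHerm (Fin 3)
  have hB := H11.hermB_sep (σ := H11.conjQ hq) (Fin 3)
  have ho := Nat.odd_iff.2 hodd
  obtain ⟨Q⟩ : Nonempty (Sylow 2 (Cfsg.SU 3 F q)) := inferInstance
  have hm : ∀ (g : Cfsg.SU 3 F q) u v, hermForm 3 F q (g.1.1.mulVec u) (g.1.1.mulVec v) = hermForm 3 F q u v :=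
    fun g => g.2
  have k := simple_sl3 h2 (H := Cfsg.SU 3 F q)
    (fun u v => by
      show hermForm 3 F q ((e3 F).1.mulVec u) ((e3 F).1.mulVec v) = _
      simp [hermForm, e3_val, Fin.sum_univ_three, Matrix.vecHead, Matrix.vecTail, ho.neg_pow])
    (fun u v => by
      show hermForm 3 F q ((t3 F).1.mulVec u) ((t3 F).1.mulVec v) = _
      simp [hermForm, t3_val, Fin.sum_univ_three, Matrix.vecHead, Matrix.vecTail, ho.neg_pow]; ring)
    (fun u v => by
      show hermForm 3 F q ((s3 F).1.mulVec u) ((s3 F).1.mulVec v) = _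
      simp [hermForm, s3_val, Fin.sum_univ_three, Matrix.vecHead, Matrix.vecTail, ho.neg_pow]; ring)
    (H10.commutator_eq_top_of_mulEquiv (H11.suEquiv hc 3) (hH.sisom_perfect hB (hc.simple_cond le_rfl (by omega))))
    (H11.normOne (H11.conjQ hq)) (fun u hu a h1 h3 h4 => by
      have := hm ⟨u, hu⟩ (Pi.single 0 1) (Pi.single 0 1)
      simpa [hermForm, Fin.sum_univ_three, h1, h3, h4, H11.mem_normOne, H11.conjQ_apply, mul_comm] using this) (by
      have h1 := hH.card_sisom hc hB (n := 3) (by simp) (by norm_num)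
      rw [hc.card_normOne, Nat.card_congr (H11.suEquiv hc 3).toEquiv]
      refine Nat.dvd_of_mul_dvd_mul_left (k := q + 1) (by omega) (h1 ▸ ?_)
      obtain ⟨m, hm⟩ := eight_dvd_sq_sub_one hodd
      obtain ⟨r, hr⟩ := Odd.nat_add_dvd_pow_add_pow q 1 (n := 3) (by decide)
      rw [one_pow] at hr
      simp [H11.uOrd, Finset.prod_range_succ, hm, hr]
      exact ⟨q ^ 3 * r * m, by ring⟩) (H18.sylIn_top Q)
  refine simple_quot _ (fun x hx h => h.eq_one_of_pow (n := Nat.card (Subgroup.center _)) ?_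
    (congrArg Subtype.val (pow_card_eq_one' (x := (⟨x, hx⟩ : Subgroup.center _))))) (H18.sylIn_top Q) k (H18.sylIn_top S)
  rw [H11.card_center_equiv (H11.suEquiv hc 3), hH.card_center_sisom hc hB (by simp)]
  exact Nat.Coprime.coprime_dvd_left (Nat.gcd_dvd_left _ _) (by simp; decide)

end Cfsg.Agent.S5319
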