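import Cfsg.Statements.S5320
import Mathlib
import Cfsg.Agent.H17.Sp4b

set_option autoImplicit false
open Cfsg

namespace Cfsg.Agent.S5320

open Cfsg.Agent.H17
open Cfsg.FusionSystem hiding inv_mem
open scoped commutatorElement


/-- For a finite field F of odd order, the 2-fusion system of the projective symplectic group PSp(4,F) on a Sylow 2-subgroup is simple. -/
theorem result {F : Type*} [Field F] [Fintype F] (hodd : Fintype.card F % 2 = 1) (S : Sylow 2 (Cfsg.PSp 2 F)) :
    (Cfsg.groupFusionSystem (S : Subgroup (Cfsg.PSp 2 F))).IsSimple 2 := by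
  have h2 : (2 : F) ≠ 0 := Ring.two_ne_zero fun h => by
    have := FiniteField.even_card_of_char_two h
    omega
  obtain ⟨i, j, k⟩ := exists_an_sl2 (F := F)
  exact (w4_sp4 h2).simple ((QuotientGroup.ker_mk' _).trans ((w4_sp4 h2).center_eq k)) (QuotientGroup.mk'_surjective _) k
    (H18.sylIn_top S)

end Cfsg.Agent.S5320
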