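import Cfsg.Statements.S5328
import Mathlib


set_option autoImplicit false
universe u
open Cfsg

namespace Cfsg.Agent.S5328

open Subgroup

/-- Burnside: two actions with the same marks are isomorphic -/
theorem marks_iso {K X : Type*} [Group K] [Finite K] [Finite X] (a b : K →* Equiv.Perm X)
    (h : ∀ E : Subgroup K, {x | ∀ e ∈ E, a e x = x}.ncard = {x | ∀ e ∈ E, b e x = x}.ncard) :
    ∃ g : Equiv.Perm X, ∀ k x, g (a k x) = b k (g x) := by
  let P : Set (X × X) → Prop := fun R => (∀ k, ∀ z ∈ R, (a k z.1, b k z.2) ∈ R) ∧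
    ∀ z ∈ R, ∀ w ∈ R, z.1 = w.1 ↔ z.2 = w.2
  obtain ⟨R, hR⟩ := Set.Finite.exists_maximal (s := {R | P R}) (Set.toFinite _) ⟨∅, by simp [P]⟩
  obtain ⟨inv, bij⟩ := hR.prop
  have cnt : ∀ E : Subgroup K, ({x | ∀ e ∈ E, a e x = x} \ Prod.fst '' R).ncard =
      ({x | ∀ e ∈ E, b e x = x} \ Prod.snd '' R).ncard := fun E => by
    have e1 : {x | ∀ e ∈ E, a e x = x} ∩ Prod.fst '' R =
        Prod.fst '' {z ∈ R | ∀ e ∈ E, a e z.1 = z.1} := by
      ext x; constructor
      · rintro ⟨h1, z, hz, rfl⟩; exact ⟨z, ⟨hz, h1⟩, rfl⟩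
      · rintro ⟨z, ⟨hz, h1⟩, rfl⟩; exact ⟨h1, z, hz, rfl⟩
    have e2 : {x | ∀ e ∈ E, b e x = x} ∩ Prod.snd '' R =
        Prod.snd '' {z ∈ R | ∀ e ∈ E, a e z.1 = z.1} := by
      ext x; constructor
      · rintro ⟨h1, z, hz, rfl⟩
        exact ⟨z, ⟨hz, fun e he => (bij _ (inv e z hz) z hz).2 (h1 e he)⟩, rfl⟩
      · rintro ⟨z, ⟨hz, h1⟩, rfl⟩
        exact ⟨fun e he => (bij _ (inv e z hz) z hz).1 (h1 e he), z, hz, rfl⟩
    have c1 := Set.ncard_inter_add_ncard_sdiff_eq_ncard {x | ∀ e ∈ E, a e x = x} (Prod.fst '' R)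
    have c2 := Set.ncard_inter_add_ncard_sdiff_eq_ncard {x | ∀ e ∈ E, b e x = x} (Prod.snd '' R)
    rw [e1, Set.InjOn.ncard_image fun z hz w hw e => Prod.ext e ((bij z hz.1 w hw.1).1 e)] at c1
    rw [e2, Set.InjOn.ncard_image fun z hz w hw e => Prod.ext ((bij z hz.1 w hw.1).2 e) e] at c2
    have := h E
    omega
  have dom : ∀ x, x ∈ Prod.fst '' R := by
    by_contra hn
    push Not at hn
    let st : (K →* Equiv.Perm X) → X → Subgroup K := fun c x => (MulAction.stabilizer _ x).comap c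
    have mst : ∀ c x e, e ∈ st c x ↔ c e x = x := fun _ _ _ => Iff.rfl
    obtain ⟨x, hx, hmax⟩ := Set.Finite.exists_maximalFor (fun x => st a x) {x | x ∉ Prod.fst '' R}
      (Set.toFinite _) hn
    obtain ⟨y, hy, hyR⟩ := Set.nonempty_of_ncard_ne_zero (s := {y | ∀ e ∈ st a x, b e y = y} \ Prod.snd '' R)
      (by rw [← cnt]; exact (Set.ncard_ne_zero_of_mem (a := x) ⟨fun e he => he, hx⟩))
    obtain ⟨x', hx', hxR⟩ := Set.nonempty_of_ncard_ne_zero (s := {x | ∀ e ∈ st b y, a e x = x} \ Prod.fst '' R)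
      (by rw [cnt]; exact (Set.ncard_ne_zero_of_mem (a := y) ⟨fun e he => he, hyR⟩))
    have same : ∀ e, a e x = x ↔ b e y = y := fun e =>
      ⟨hy e, fun he => hmax hxR (fun e he => hx' e (hy e he)) (hx' e he)⟩
    have nx : ∀ k, ∀ z ∈ R, a k x ≠ z.1 := fun k z hz e =>
      hx ⟨_, inv k⁻¹ z hz, by simp [← e]⟩
    have ny : ∀ k, ∀ z ∈ R, b k y ≠ z.2 := fun k z hz e =>
      hyR ⟨_, inv k⁻¹ z hz, by simp [← e]⟩
    have : P (R ∪ Set.range fun k => (a k x, b k y)) := by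
      constructor
      · rintro k z (hz | ⟨l, rfl⟩)
        · exact Or.inl (inv k z hz)
        · exact Or.inr ⟨k * l, by simp⟩
      · rintro z (hz | ⟨k, rfl⟩) w (hw | ⟨l, rfl⟩)
        · exact bij z hz w hw
        · exact iff_of_false (nx l z hz).symm (ny l z hz).symm
        · exact iff_of_false (nx k w hw) (ny k w hw)
        · simpa [Equiv.symm_apply_eq] using same (l⁻¹ * k)
    exact hx ⟨(x, y), hR.le_of_ge this Set.subset_union_left (Or.inr ⟨1, by simp⟩), rfl⟩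
  choose f hf hf1 using dom
  have hinj : Function.Injective fun x => (f x).2 := fun x y e => by
    rw [← hf1 x, ← hf1 y]; exact (bij _ (hf x) _ (hf y)).2 e
  refine ⟨Equiv.ofBijective _ hinj.bijective_of_finite, fun k x => ?_⟩
  exact (bij _ (hf _) _ (inv k _ (hf x))).1 (by simp [hf1])

section
variable {H : Type u} [Group H] [Finite H]

/-- marks of coset spaces -/
noncomputable def mk (D E : Subgroup H) : ℕ := {q : H ⧸ D | ∀ e ∈ E, e • q = q}.ncard

theorem mk_self (D : Subgroup H) : mk D D ≠ 0 :=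
  Set.ncard_ne_zero_of_mem (a := ((1 : H) : H ⧸ D)) fun e he => by
    change ((e * 1 : H) : H ⧸ D) = (1 : H)
    rw [QuotientGroup.eq]; simpa using he

theorem le_of_mk {D E : Subgroup H} (h : mk D E ≠ 0) : ∃ g, E ≤ D.map (MulAut.conj g).toMonoidHom := by
  obtain ⟨q, hq⟩ := Set.nonempty_of_ncard_ne_zero h
  obtain ⟨g, rfl⟩ := QuotientGroup.mk_surjective q
  refine ⟨g, fun e he => ⟨g⁻¹ * e * g, ?_, by simp [mul_assoc]⟩⟩
  have : ((e⁻¹ * g : H) : H ⧸ D) = g := hq _ (inv_mem he)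
  rw [QuotientGroup.eq] at this
  simpa using this

theorem mk_conj (D E : Subgroup H) (g : H) : mk D (E.map (MulAut.conj g).toMonoidHom) = mk D E := by
  unfold mk
  rw [← Set.ncard_image_of_injective {q : H ⧸ D | ∀ e ∈ E, e • q = q} (MulAction.injective g)]
  congr 1
  ext q
  constructor
  · intro h
    refine ⟨g⁻¹ • q, fun e he => ?_, by simp⟩
    have := h _ ⟨e, he, rfl⟩
    rw [eq_inv_smul_iff, ← mul_smul, ← mul_smul]; exact this
  · rintro ⟨q, h, rfl⟩ _ ⟨e, he, rfl⟩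
    simp [mul_smul, h e he]

theorem exists_coeffs (𝒟 : Subgroup H → Prop)
    (hc : ∀ D g, 𝒟 D → 𝒟 (D.map (MulAut.conj g).toMonoidHom)) :
    ∃ c : Subgroup H → ℕ, (∀ D, c D ≠ 0 → 𝒟 D) ∧ ∃ μ : ℕ → ℕ, (∀ k, μ k ≠ 0) ∧
      ∀ E, 𝒟 E → ∑ᶠ D, c D * mk D E = μ (Nat.card E) := by
  classical
  have := Fintype.ofFinite (Subgroup H)
  simp only [finsum_eq_sum_of_fintype]
  let r : Setoid (Subgroup H) := ⟨fun D E => ∃ g, D = E.map (MulAut.conj g).toMonoidHom,
    ⟨fun D => ⟨1, by ext; simp⟩, by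
      rintro _ E ⟨g, rfl⟩
      exact ⟨g⁻¹, by rw [map_map]; ext; simp [mul_assoc]⟩, by
      rintro _ _ E ⟨g, rfl⟩ ⟨k, rfl⟩
      exact ⟨g * k, by rw [map_map]; congr 1; ext; simp⟩⟩⟩
  let rp : Subgroup H → Subgroup H := fun E => (Quotient.mk r E).out
  have hrp : ∀ E, ∃ g, rp E = E.map (MulAut.conj g).toMonoidHom := fun E => Quotient.mk_out (s := r) E
  have cardc : ∀ (E : Subgroup H) g, Nat.card (E.map (MulAut.conj g).toMonoidHom) = Nat.card E :=
    fun E g => card_map_of_injective (MulAut.conj g).injective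
  suffices ∀ j, ∃ c : Subgroup H → ℕ, (∀ D, c D ≠ 0 → 𝒟 D) ∧ ∃ μ : ℕ → ℕ, (∀ k, μ k ≠ 0) ∧
      ∀ E, 𝒟 E → Nat.card H < Nat.card E + j → ∑ D, c D * mk D E = μ (Nat.card E) by
    obtain ⟨c, h1, μ, h2, h3⟩ := this (Nat.card H + 1)
    exact ⟨c, h1, μ, h2, fun E hE => h3 E hE (by omega)⟩
  intro j
  induction j with
  | zero =>
    exact ⟨0, by simp, 1, by simp, fun E _ h => absurd (card_le_card_group E) (by omega)⟩
  | succ j ih =>
    obtain ⟨c, h1, μ, h2, h3⟩ := ih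
    let W := ∏ D : Subgroup H, mk D D
    have W0 : W ≠ 0 := Finset.prod_ne_zero_iff.2 fun D _ => mk_self D
    let m : Subgroup H → ℕ := fun E => ∑ D, c D * mk D E
    let M := ∑ E, m E + 1
    refine ⟨fun D => W * c D + if 𝒟 D ∧ Nat.card D + j = Nat.card H ∧ rp D = D then
      (M - m D) * (W / mk D D) else 0, fun D hD => ?_,
      fun k => W * if k + j = Nat.card H then M else μ k, fun k => ?_, fun E hE hk => ?_⟩
    · by_contra hn
      have : c D = 0 := by by_contra h; exact hn (h1 D h)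
      simp [this, hn] at hD
    · refine mul_ne_zero W0 ?_
      split_ifs
      · exact Nat.succ_ne_zero _
      · exact h2 k
    simp only [add_mul, Finset.sum_add_distrib, mul_assoc, ← Finset.mul_sum]
    by_cases e : Nat.card E + j = Nat.card H
    · change W * m E + _ = _
      rw [if_pos e, Finset.sum_eq_single (rp E)]
      · obtain ⟨g, hg⟩ := hrp E
        have e1 : rp (rp E) = rp E := by simp [rp]
        have e2 : m (rp E) = m E := by simp only [m, hg, mk_conj]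
        have e3 : mk (rp E) E = mk (rp E) (rp E) := by
          conv_rhs => rw [show mk (rp E) (rp E) = mk (rp E) (E.map (MulAut.conj g).toMonoidHom) by
            rw [← hg], mk_conj]
        rw [if_pos ⟨hg ▸ hc E g hE, by rw [hg, cardc, e], e1⟩, e2, e3, mul_assoc,
          Nat.div_mul_cancel (Finset.dvd_prod_of_mem _ (Finset.mem_univ _)), mul_comm _ W, ← mul_add]
        have : m E ≤ M := (Finset.single_le_sum (f := m) (fun _ _ => Nat.zero_le _)
          (Finset.mem_univ E)).trans (Nat.le_succ _)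
        rw [Nat.add_sub_cancel' this]
      · intro D _ hD
        split_ifs with h
        · refine mul_eq_zero_of_right _ ?_
          by_contra h0
          obtain ⟨g, hg⟩ := le_of_mk h0
          have := eq_of_le_of_card_ge hg (by rw [cardc]; omega)
          refine hD ?_
          rw [← h.2.2]
          exact (congrArg Quotient.out (Quotient.sound (s := r) ⟨g, this⟩)).symm
        · simp
      · simp
    · rw [if_neg e, h3 E hE (by omega), Finset.sum_eq_zero, add_zero]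
      intro D _
      split_ifs with h
      · refine mul_eq_zero_of_right _ ?_
        by_contra h0
        obtain ⟨g, hg⟩ := le_of_mk h0
        have := card_le_of_le hg
        rw [cardc] at this
        omega
      · simp

theorem exists_set (𝒟 : Subgroup H → Prop)
    (hc : ∀ D g, 𝒟 D → 𝒟 (D.map (MulAut.conj g).toMonoidHom)) (hle : ∀ D E, E ≤ D → 𝒟 D → 𝒟 E) :
    ∃ (X : Type u) (_ : Finite X) (a : H →* Equiv.Perm X) (μ : ℕ → ℕ), (∀ k, μ k ≠ 0) ∧
      (∀ E, 𝒟 E → {x | ∀ e ∈ E, a e x = x}.ncard = μ (Nat.card E)) ∧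
      ∀ E, ¬ 𝒟 E → {x | ∀ e ∈ E, a e x = x}.ncard = 0 := by
  classical
  obtain ⟨c, h1, μ, h2, h3⟩ := exists_coeffs 𝒟 hc
  have := Fintype.ofFinite (Subgroup H)
  simp only [finsum_eq_sum_of_fintype] at h3
  let X := Σ i : (Σ D : Subgroup H, Fin (c D)), H ⧸ i.1
  have key : ∀ E : Subgroup H, {x | ∀ e ∈ E, MulAction.toPermHom H X e x = x}.ncard =
      ∑ D, c D * mk D E := fun E => by
    have e : {x | ∀ e ∈ E, MulAction.toPermHom H X e x = x} ≃
        Σ i : (Σ D : Subgroup H, Fin (c D)), {q : H ⧸ i.1 | ∀ e ∈ E, e • q = q} :=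
      { toFun := fun x => ⟨x.1.1, x.1.2, fun e he => eq_of_heq (Sigma.ext_iff.1 (x.2 e he)).2⟩
        invFun := fun y => ⟨⟨y.1, y.2.1⟩, fun e he => congrArg (Sigma.mk y.1) (y.2.2 e he)⟩
        left_inv := fun _ => rfl
        right_inv := fun _ => rfl }
    rw [← Nat.card_coe_set_eq, Nat.card_congr e, Nat.card_sigma, Fintype.sum_sigma]
    refine Finset.sum_congr rfl fun D _ => ?_
    exact (Finset.sum_const (mk D E)).trans (by simp)
  refine ⟨X, inferInstance, MulAction.toPermHom H X, μ, h2, fun E hE => (key E).trans (h3 E hE),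
    fun E hE => (key E).trans (Finset.sum_eq_zero fun D _ => ?_)⟩
  by_contra h
  obtain ⟨g, hg⟩ := le_of_mk (right_ne_zero_of_mul h)
  exact hE (hle _ _ hg (hc _ _ (h1 D (left_ne_zero_of_mul h))))

end

section
variable {Ω : Type u} [Group Ω] {S : Subgroup Ω} (F : Cfsg.FusionSystem S)

/-- subgroups of graphs of maps of the system -/
def Gr (D : Subgroup (S × S)) : Prop :=
  ∃ Q, ∃ ψ ∈ F.Hom Q, ∀ z ∈ D, ∃ h : (z.2 : Ω) ∈ Q, (z.1 : Ω) = ψ ⟨z.2, h⟩

theorem restr {P Q : Subgroup Ω} {ψ : Q →* Ω} (h : ψ ∈ F.Hom Q) (hPQ : P ≤ Q) :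
    ψ.comp (inclusion hPQ) ∈ F.Hom P := by
  have := F.comp_mem (F.conj_mem (hPQ.trans (F.le_of_mem h).1) S.one_mem) h
    (fun x => by simpa [conjHom] using hPQ x.2)
  convert this using 2
  ext x; simp [conjHom]

theorem Gr.push {R : Subgroup Ω} {χ : R →* Ω} (hχ : χ ∈ F.Hom R) {D D' : Subgroup (S × S)}
    (h : ∀ z' ∈ D', ∃ z ∈ D, ∃ h : (z.1 : Ω) ∈ R, (z'.1 : Ω) = χ ⟨z.1, h⟩ ∧ z'.2 = z.2)
    (hD : Gr F D) : Gr F D' := by
  obtain ⟨Q, ψ, hψ, hz⟩ := hD
  have hle : (R.comap ψ).map Q.subtype ≤ Q := map_subtype_le _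
  refine ⟨_, _, F.comp_mem (restr F hψ hle) hχ ?_, fun z' hz' => ?_⟩
  · rintro ⟨_, v, hv, rfl⟩; exact hv
  · obtain ⟨z, h1, h2, h3, h4⟩ := h z' hz'
    obtain ⟨h5, h6⟩ := hz z h1
    refine ⟨⟨⟨z.2, h5⟩, by rw [SetLike.mem_coe, mem_comap, ← h6]; exact h2, by simp [h4]⟩, ?_⟩
    rw [h3]
    simp only [MonoidHom.comp_apply]
    congr 1
    apply Subtype.ext
    simp only [MonoidHom.codRestrict_apply, MonoidHom.comp_apply, h6]
    congr 1
    exact Subtype.ext (congrArg Subtype.val h4.symm :)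

theorem Gr.conj (D : Subgroup (S × S)) (g : S × S) (hD : Gr F D) :
    Gr F (D.map (MulAut.conj g).toMonoidHom) := by
  refine Gr.push F (F.conj_mem le_rfl g.1.2) (D := D.map (MulAut.conj (1, g.2)).toMonoidHom) ?_ ?_
  · rintro _ ⟨z, hz, rfl⟩
    exact ⟨_, ⟨z, hz, rfl⟩, SetLike.coe_mem _, by simp [conjHom], by simp⟩
  obtain ⟨Q, ψ, hψ, hz⟩ := hD
  have hle : Q.map (MulAut.conj (g.2 : Ω)).toMonoidHom ≤ S := by
    rintro _ ⟨v, hv, rfl⟩
    exact mul_mem (mul_mem g.2.2 ((F.le_of_mem hψ).1 hv)) (inv_mem g.2.2)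
  refine ⟨_, _, F.comp_mem (F.conj_mem hle (inv_mem g.2.2)) hψ ?_, ?_⟩
  · rintro ⟨_, v, hv, rfl⟩
    change (g.2 : Ω)⁻¹ * (g.2 * v * (g.2 : Ω)⁻¹) * (g.2 : Ω)⁻¹⁻¹ ∈ Q
    simpa [mul_assoc] using hv
  · rintro _ ⟨z, h1, rfl⟩
    obtain ⟨h5, h6⟩ := hz z h1
    refine ⟨⟨z.2, h5, by simp⟩, ?_⟩
    simp only [MonoidHom.comp_apply]
    rw [show (((MulAut.conj (1, g.2)).toMonoidHom z).1 : Ω) = z.1 by simp, h6]
    congr 1
    apply Subtype.ext
    change (z.2 : Ω) = (g.2 : Ω)⁻¹ * (g.2 * z.2 * (g.2 : Ω)⁻¹) * (g.2 : Ω)⁻¹⁻¹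
    simp [mul_assoc]

end

/-- Every fusion system over a finite p-group S, saturated or not, is realized inside some finite group: there is a finite group G and an injective homomorphism ι of S into G such that the maps of the system are exactly the homomorphisms between subgroups of S that become conjugations by elements of G (the image of S need not be a Sylow p-subgroup of G). -/
theorem result {Ω : Type u} [Group Ω] {S : Subgroup Ω} [Finite S] (p : ℕ) [Fact p.Prime] (hS : IsPGroup p S) (F : Cfsg.FusionSystem S) : ∃ (G : Type u) (_ : Group G) (_ : Finite G) (ι : ↥S →* G), F.IsRealizedBy ι := by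
  obtain ⟨X, _, a, μ, h0, h1, h2⟩ := exists_set (Gr F) (Gr.conj F)
    fun D E h ⟨Q, ψ, hψ, hz⟩ => ⟨Q, ψ, hψ, fun z hE => hz z (h hE)⟩
  have h3 : ∀ (E : Subgroup (S × S)) x, (∀ e ∈ E, a e x = x) → Gr F E := fun E x hx => by
    by_contra hn
    exact Set.ncard_ne_zero_of_mem (s := {x | ∀ e ∈ E, a e x = x}) (a := x) hx (Set.toFinite _) (h2 E hn)
  obtain ⟨x₀, hx₀⟩ : ∃ x, ∀ s : S, a (s, s) x = x := by
    have := h1 ((MonoidHom.id S).prod (MonoidHom.id S)).range ⟨S, _, F.conj_mem le_rfl S.one_mem, by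
      rintro _ ⟨s, rfl⟩; exact ⟨s.2, by simp [conjHom]⟩⟩
    obtain ⟨x, hx⟩ := Set.nonempty_of_ncard_ne_zero (this ▸ h0 _)
    exact ⟨x, fun s => hx _ ⟨s, rfl⟩⟩
  let G := centralizer (Set.range fun s : S => a (1, s))
  let ι : S →* G := (a.comp (MonoidHom.inl S S)).codRestrict _ fun s => by
    rintro _ ⟨t, rfl⟩
    simp [← map_mul]
  refine ⟨G, inferInstance, inferInstance, ι, ?_, fun P hP φ hφ => ⟨fun h => ?_, fun ⟨g, hg⟩ => ?_⟩⟩
  · refine (injective_iff_map_eq_one _).2 fun s hs => ?_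
    have hs' : a (s, 1) = 1 := congrArg Subtype.val hs
    obtain ⟨Q, ψ, hψ, hz⟩ := h3 a.ker x₀ fun e he => by rw [MonoidHom.mem_ker.1 he]; rfl
    obtain ⟨h5, h6⟩ := hz (s, 1) hs'
    exact Subtype.ext (h6.trans (map_one ψ))
  · haveI : Finite P := Finite.of_injective _ (inclusion_injective hP)
    let α := (φ.codRestrict S hφ).prodMap (MonoidHom.id S)
    let β := (inclusion hP).prodMap (MonoidHom.id S)
    have iα : Function.Injective α := fun z w e => Prod.ext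
      (F.injective_of_mem h (congrArg (fun z : S × S => (z.1 : Ω)) e)) (congrArg Prod.snd e :)
    have iβ : Function.Injective β := fun z w e => Prod.ext
      (Subtype.ext (congrArg (fun z : S × S => (z.1 : Ω)) e)) (congrArg Prod.snd e :)
    obtain ⟨g, hg⟩ := marks_iso (a.comp β) (a.comp α) fun E => by
      have e : ∀ γ : P × S →* S × S, {x | ∀ e ∈ E, a.comp γ e x = x} = {x | ∀ e ∈ E.map γ, a e x = x} :=
        fun γ => Set.ext fun x => ⟨by rintro h _ ⟨e, he, rfl⟩; exact h e he, fun h e he => h _ ⟨e, he, rfl⟩⟩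
      rw [e, e]
      have iff : Gr F (E.map β) ↔ Gr F (E.map α) := by
        constructor
        · refine Gr.push F h ?_
          rintro _ ⟨z, hz, rfl⟩
          exact ⟨_, ⟨z, hz, rfl⟩, z.1.2, rfl, rfl⟩
        · obtain ⟨ψ, hψ, hi⟩ := F.inv_mem h
          refine Gr.push F hψ ?_
          rintro _ ⟨z, hz, rfl⟩
          exact ⟨_, ⟨z, hz, rfl⟩, ⟨z.1, rfl⟩, (hi z.1).symm, rfl⟩
      by_cases hE : Gr F (E.map β)
      · rw [h1 _ hE, h1 _ (iff.1 hE), card_map_of_injective iα, card_map_of_injective iβ]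
      · rw [h2 _ hE, h2 _ (mt iff.2 hE)]
    refine ⟨⟨g, ?_⟩, fun x => Subtype.ext ?_⟩
    · rintro _ ⟨t, rfl⟩
      ext y
      have := hg (1, t) y
      simp only [MonoidHom.comp_apply, α, β, MonoidHom.prodMap_def, MonoidHom.prod_apply,
        MonoidHom.coe_fst, MonoidHom.coe_snd, map_one, MonoidHom.id_apply] at this
      exact this.symm
    · rw [coe_mul, coe_mul, coe_inv, eq_mul_inv_iff_mul_eq]
      ext y
      exact (hg (x, 1) y).symm
  · obtain ⟨Q, ψ, hψ, hz⟩ := h3 ((φ.codRestrict S hφ).prod (inclusion hP)).range (g.1 x₀) (by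
      rintro _ ⟨u, rfl⟩
      have e1 : a (⟨φ u, hφ u⟩, 1) * g = g * a (⟨u, hP u.2⟩, 1) := by
        have := congrArg Subtype.val (hg u)
        rw [coe_mul, coe_mul, coe_inv, eq_mul_inv_iff_mul_eq] at this
        exact this
      have e2 : a (1, ⟨u, hP u.2⟩) * g = g * a (1, ⟨u, hP u.2⟩) := g.2 _ ⟨_, rfl⟩
      have e3 : a (⟨φ u, hφ u⟩, ⟨u, hP u.2⟩) * g = g * a (⟨u, hP u.2⟩, ⟨u, hP u.2⟩) := by
        calc _ = a (⟨φ u, hφ u⟩, 1) * (a (1, ⟨u, hP u.2⟩) * g) := by rw [← mul_assoc, ← map_mul]; simp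
          _ = _ := by rw [e2, ← mul_assoc, e1, mul_assoc, ← map_mul]; simp
      have := congrArg (· x₀) e3
      simp only [Equiv.Perm.mul_apply, hx₀] at this
      exact this)
    have hPQ : P ≤ Q := fun u hu => (hz _ ⟨⟨u, hu⟩, rfl⟩).1
    convert restr F hψ hPQ
    ext u
    exact (hz _ ⟨u, rfl⟩).2

end Cfsg.Agent.S5328
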