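import Cfsg.Statements.S5331
import Mathlib
import Cfsg.Agent.H18.Super

set_option autoImplicit false
open Cfsg

namespace Cfsg.Agent.S5331

open Cfsg.Agent.H18

/-- Let S be a finite abelian 2-group that is a direct product of cyclic groups of pairwise distinct orders 2^{a_1} < 2^{a_2} < ⋯ < 2^{a_n} (all a_i ≥ 1). Then every saturated fusion system over S is the inner one: its maps are exactly the conjugations by elements of S. -/
theorem result {Ω : Type*} [Group Ω] {S : Subgroup Ω} [Finite S] (n : ℕ) (a : Fin n → ℕ) (ha : StrictMono a) (ha1 : ∀ i, 1 ≤ a i) (e : ↥S ≃* Multiplicative ((i : Fin n) → ZMod (2 ^ a i))) (F : Cfsg.FusionSystem S) (hF : F.IsSaturated 2) (P : Subgroup Ω) : F.Hom P = (Cfsg.innerFusionSystem S).Hom P := by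
  haveI : Fact (Nat.Prime 2) := ⟨Nat.prime_two⟩
  have h1 : SAut 2 S := (sAut_pi ha.injective).of_equiv e
  have hab : IsMulCommutative S := H3.ab_of_equiv e inferInstance
  have hS : IsPGroup 2 S := by
    refine IsPGroup.of_equiv (fun x => ⟨Finset.univ.sup a, ?_⟩) e.symm
    exact congrArg Multiplicative.ofAdd
      (funext fun i => zmod_pow_smul (Finset.le_sup (Finset.mem_univ i)) (x.toAdd i))
  exact isInner_iff.1 ((cCh_of_sAut hS hF (normal_top_of_ab hS hF hab) h1).inner hS hF) P

end Cfsg.Agent.S5331
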