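import Cfsg.Statements.S5332
import Mathlib
import Cfsg.Agent.H18.Sparse

set_option autoImplicit false
open Cfsg

namespace Cfsg.Agent.S5332

open Cfsg.Agent.H17 Cfsg.Agent.H18

/-- Let p be odd and F a saturated fusion system over a finite p-group S that is not the inner system of S. Then F contains a saturated constrained subsystem over S that is itself not the inner system. -/
theorem result {Ω : Type*} [Group Ω] {S : Subgroup Ω} [Finite S] (p : ℕ) [Fact p.Prime] (hS : IsPGroup p S) (F : Cfsg.FusionSystem S) (hF : F.IsSaturated p) (hp : p ≠ 2) (hne : ∃ P : Subgroup Ω, F.Hom P ≠ (Cfsg.innerFusionSystem S).Hom P) : ∃ E : Cfsg.FusionSystem S, E ≤ F ∧ E.IsConstrained p ∧ ∃ P : Subgroup Ω, E.Hom P ≠ (Cfsg.innerFusionSystem S).Hom P := by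
  obtain ⟨D, h1, h2, h3, h4⟩ := exists_sparse hF fun h => hne.elim fun P hP => hP (isInner_iff.1 h P)
  exact ⟨D, fs_le_iff.2 (subsystem_iff.1 h2), h4.constrained hS h1 (Or.inl hp),
    not_forall.1 fun h => h3 (isInner_iff.2 h)⟩

end Cfsg.Agent.S5332
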