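import Cfsg.Statements.S5346
import Mathlib
import Cfsg.Agent.H19.Tr5

set_option autoImplicit false
open Cfsg

namespace Cfsg.Agent.S5346

open Cfsg.Agent.H19


/-- Let D be a conjugation-invariant generating set of 3-transpositions of a finite group G and d a member of D. Then D has width 1 (no two different members of D commute) if and only if G is the product of the subgroup generated by d with the largest normal 3-subgroup of G. -/
theorem result {G : Type*} [Group G] [Finite G] {D : Set G} (hD : Cfsg.IsThreeTranspositionGroup D) {d : G} (hd : d ∈ D) : Cfsg.commutingWidth D = 1 ↔ Subgroup.zpowers d ⊔ Cfsg.pCore 3 G = ⊤ := by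
  have h := tg_iff.1 hD
  rw [width_eq_one ⟨d, hd⟩]
  refine ⟨fun w => h.sup_eq_top _ hd fun a ha => h.mul_mem_O3 w hd ha, fun e a ha b hb c => ?_⟩
  have key : ∀ a ∈ D, d * a ∈ Cfsg.pCore 3 G := fun a ha =>
    (mem_or_of_sup (h.sq d hd) e a).resolve_left fun m => by
      obtain ⟨k, hk⟩ := pow_pCore m
      exact h.ne a ha (eq_one_of_coprime ((pow_two a).trans (h.sq a ha)) hk
        (Nat.Coprime.pow_right _ (by norm_num)))
  refine h.eq_of_O3 ha hb ?_ c
  have := mul_mem (inv_mem (key a ha)) (key b hb)
  rwa [mul_inv_rev, mul_assoc, inv_mul_cancel_left, h.inv ha] at this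

end Cfsg.Agent.S5346
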