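import Cfsg.Statements.S5348
import Mathlib
import Cfsg.Agent.H19.Tr2

set_option autoImplicit false
open Cfsg

namespace Cfsg.Agent.S5348

open Cfsg.Agent.H19


/-- Let D be a conjugation-invariant generating set of 3-transpositions of a finite group G and d a member of D. Let V be the set of members of D commuting with exactly the same members of D as d, and W the set of members w of D such that the members of D other than w commuting with w are precisely the members of D other than d commuting with d. Then V = {d} or W = {d}. -/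
theorem result {G : Type*} [Group G] [Finite G] {D : Set G} (hD : Cfsg.IsThreeTranspositionGroup D) {d : G} (hd : d ∈ D) : {v : G | v ∈ D ∧ ∀ e ∈ D, Commute v e ↔ Commute d e} = {d} ∨ {w : G | w ∈ D ∧ {y : G | y ∈ D ∧ y ≠ d ∧ Commute d y} = {y : G | y ∈ D ∧ y ≠ w ∧ Commute w y}} = {d} := by
  by_contra k
  rw [not_or, Set.eq_singleton_iff_unique_mem, Set.eq_singleton_iff_unique_mem] at k
  obtain ⟨v, hv, vd⟩ : ∃ v, (v ∈ D ∧ Vr D d v) ∧ v ≠ d := by
    by_contra n
    push Not at n
    exact k.1 ⟨⟨hd, fun _ _ => Iff.rfl⟩, n⟩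
  obtain ⟨w, hw, wd⟩ : ∃ w, (w ∈ D ∧ Dd D d = Dd D w) ∧ w ≠ d := by
    by_contra n
    push Not at n
    exact k.2 ⟨⟨hd, rfl⟩, n⟩
  exact (V_or_W hv.1 hw.1 hd hv.2 hw.2).elim vd wd

end Cfsg.Agent.S5348
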