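import Cfsg.Statements.S5351
import Mathlib
import Cfsg.Agent.H19.Tr4

set_option autoImplicit false
open Cfsg

namespace Cfsg.Agent.S5351

open Cfsg.Agent.H19


/-- Let D be a conjugacy class of 3-transpositions generating the finite group G, with at least two members. Then for every prime p > 3 the largest normal p-subgroup of G is central, and exactly one of the following holds: the largest normal 2-subgroup of G is not central; the largest normal 3-subgroup of G is not central; the layer of G (the product of its components) is non-trivial. -/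
theorem result {G : Type*} [Group G] [Finite G] {D : Set G} (hD : Cfsg.IsThreeTranspositionClass D) (hD2 : ∃ a ∈ D, ∃ b ∈ D, a ≠ b) : (∀ p : ℕ, p.Prime → 3 < p → Cfsg.pCore p G ≤ Subgroup.center G) ∧ ((¬ Cfsg.pCore 2 G ≤ Subgroup.center G ∧ Cfsg.pCore 3 G ≤ Subgroup.center G ∧ Cfsg.layer G = ⊥) ∨ (Cfsg.pCore 2 G ≤ Subgroup.center G ∧ ¬ Cfsg.pCore 3 G ≤ Subgroup.center G ∧ Cfsg.layer G = ⊥) ∨ (Cfsg.pCore 2 G ≤ Subgroup.center G ∧ Cfsg.pCore 3 G ≤ Subgroup.center G ∧ Cfsg.layer G ≠ ⊥)) := by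
  obtain ⟨h, t, -⟩ := tclass_iff.1 hD
  refine ⟨fun p hp h3 => h.pCore_le_center hp h3, ?_⟩
  have lay : ∀ p : ℕ, p.Prime → ¬ Cfsg.pCore p G ≤ Subgroup.center G → Cfsg.layer G = ⊥ :=
    fun p hp n => H2.layer_eq_bot_iff.2 fun K hK => n (by
      haveI := Fact.mk hp
      exact h.le_center_of_comp t hK (Subgroup.commutator_eq_bot_iff_le_centralizer.2
        ((H2.le_layer hK).trans (H2.layer_le_centralizer_pCore p))))
  by_cases h2 : Cfsg.pCore 2 G ≤ Subgroup.center G <;>
    by_cases h3 : Cfsg.pCore 3 G ≤ Subgroup.center G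
  · exact Or.inr (Or.inr ⟨h2, h3, h.layer_ne_bot t hD2 h2 h3⟩)
  · exact Or.inr (Or.inl ⟨h2, h3, lay 3 Nat.prime_three h3⟩)
  · exact Or.inl ⟨h2, h3, lay 2 Nat.prime_two h2⟩
  · exfalso
    obtain ⟨d, hd, -⟩ := hD2
    obtain ⟨x, hx, nx⟩ := h.exists_moved t h2 hd
    obtain ⟨y, hy, ny⟩ := h.exists_moved t h3 hd
    exact (V_or_W (h.conj x d hd) (h.conj y d hd) hd
      (h.Vr_of_O2 hd (h.conj x d hd) (mul_J_mem' (h.sq d hd) hx))
      (h.Wr_of_O3 hd (h.conj y d hd) (mul_J_mem' (h.sq d hd) hy))).elim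
      (fun e => nx (J_eq_self.1 e)) fun e => ny (J_eq_self.1 e)

end Cfsg.Agent.S5351
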