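import Cfsg.Statements.S5358
import Mathlib
import Cfsg.Agent.H19.Mod2

set_option autoImplicit false
open scoped MatrixGroups
open Cfsg

namespace Cfsg.Agent.S5358

open Cfsg.Agent.H19


/-- Let Q be a non-degenerate quadratic form on the n-dimensional coordinate space over the field with three elements and u, v vectors of the same non-zero norm Q(u) = Q(v) spanning different lines (v ≠ u and v ≠ −u). Then the reflection matrices of u and v commute if and only if u and v are orthogonal for the polar form of Q. -/
theorem result (n : ℕ) (Q : QuadraticForm (ZMod 3) (Fin n → ZMod 3)) (hQ : (QuadraticMap.polarBilin Q).Nondegenerate) (u v : Fin n → ZMod 3) (hu : Q u ≠ 0) (huv : Q u = Q v) (h1 : v ≠ u) (h2 : v ≠ -u) : Commute (Cfsg.reflectionMatrix (⇑Q) u) (Cfsg.reflectionMatrix (⇑Q) v) ↔ QuadraticMap.polar (⇑Q) u v = 0 := by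
  have h := H11.isForm_quad Q
  have e : Commute (Cfsg.reflectionMatrix (⇑Q) u) (Cfsg.reflectionMatrix (⇑Q) v) ↔
      Commute (H11.IsQuad.reflO h u) (H11.IsQuad.reflO h v) := by
    rw [Commute, SemiconjBy, H11.matrix_eq_iff_mulVec, Commute, SemiconjBy, Subtype.ext_iff,
      LinearEquiv.ext_iff]
    simp only [← Matrix.mulVec_mulVec, H11.reflectionMatrix_mulVec h]
    rfl
  rw [e, refl_commute_iff h hu (huv ▸ hu)]
  simp [h1, h2]

end Cfsg.Agent.S5358
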