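import Cfsg.Statements.S5360
import Mathlib
import Cfsg.Agent.H19.Mod2

set_option autoImplicit false
open scoped MatrixGroups
open Cfsg

namespace Cfsg.Agent.S5360

open Cfsg.Agent.H19


/-- Let Q be a non-degenerate quadratic form on the n-dimensional coordinate space over the field with three elements, n ≥ 5, c a non-zero scalar, and R the subgroup of the isometry group generated by the reflections of norm c. Then the commutator subgroup of R is quasisimple of index at most 2, the generalized Fitting subgroup of R is the product of the centre and the commutator subgroup, and R acts primitively by conjugation on its reflections of norm c. -/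
theorem result (n : ℕ) (hn : 5 ≤ n) (Q : QuadraticForm (ZMod 3) (Fin n → ZMod 3)) (hQ : (QuadraticMap.polarBilin Q).Nondegenerate) (c : ZMod 3) (hc : c ≠ 0) : Cfsg.IsQuasisimple (commutator ↥(Cfsg.reflectionSubgroup (⇑Q) c)) ∧ (commutator ↥(Cfsg.reflectionSubgroup (⇑Q) c)).index ≤ 2 ∧ Cfsg.generalizedFittingSubgroup ↥(Cfsg.reflectionSubgroup (⇑Q) c) = Subgroup.center ↥(Cfsg.reflectionSubgroup (⇑Q) c) ⊔ commutator ↥(Cfsg.reflectionSubgroup (⇑Q) c) ∧ Cfsg.IsPrimitiveUnderConj {g : ↥(Cfsg.reflectionSubgroup (⇑Q) c) | (g : ↥(Cfsg.isometryGroup (ZMod 3) (⇑Q))) ∈ Cfsg.reflectionsOfNorm (⇑Q) c} := by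
  obtain ⟨tg, t, -⟩ := tclass_iff.1 (class_refl Q c hn hQ hc)
  have e := rEquiv Q c
  refine tg.pkg t (fun s => ns_R3 (h := H11.isForm_quad Q) hQ.1 (by simpa using hn) hc
    (Group.isSolvable_of_isSolvable_injective (f := e.symm.toMonoidHom) e.symm.injective)) fun N hN => ?_
  rcases cases_R3 (h := H11.isForm_quad Q) hQ.1 (by simpa using hn) hc (N.map e.toMonoidHom)
    (hN.map _ e.surjective) with k | k
  · exact .inl fun g hg => (H11.mem_center_equiv e g).2 (k ⟨g, hg, rfl⟩)
  · refine .inr fun g hg => ?_
    obtain ⟨x, hx, r⟩ := k ((H11.mem_commutator_equiv e g).1 hg)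
    exact e.injective r ▸ hx

end Cfsg.Agent.S5360
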