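import Cfsg.Statements.S5365
import Mathlib
import Cfsg.Agent.H19.Sm2

set_option autoImplicit false
open Cfsg

namespace Cfsg.Agent.S5365

open Cfsg.Agent.H19


/-- Let D be a non-empty conjugation-invariant set of involutions of a finite group G satisfying the 3-transposition order conditions, and suppose that for every d in D the members of D other than d commuting with d generate a subgroup isomorphic to the symmetric group of degree 3, and the largest normal 3-subgroup of the centralizer of d has order 3. Then the subgroup generated by D is isomorphic to the symmetric group of degree 5 or to the direct product of two symmetric groups of degree 3. -/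
theorem result {G : Type*} [Group G] [Finite G] {D : Set G} (hD : Cfsg.IsThreeTranspositionSet D) (hconj : ∀ g : G, ∀ d ∈ D, g * d * g⁻¹ ∈ D) (hne : D.Nonempty) (hloc : ∀ d ∈ D, Nonempty (↥(Subgroup.closure {y : G | y ∈ D ∧ y ≠ d ∧ Commute d y}) ≃* Equiv.Perm (Fin 3)) ∧ Nat.card (Cfsg.pCore 3 ↥(Subgroup.centralizer ({d} : Set G))) = 3) : Nonempty (↥(Subgroup.closure D) ≃* Equiv.Perm (Fin 5)) ∨ Nonempty (↥(Subgroup.closure D) ≃* Equiv.Perm (Fin 3) × Equiv.Perm (Fin 3)) := by
  have t := t3_iff.1 hD
  have c : Cl D := fun a _ => hconj a
  have h := pl_of_s3 t c fun d hd => (hloc d hd).1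
  by_cases w : ∀ d ∈ D, ∀ e ∈ D, Dd D d = Dd D e → e = d
  · exact .inl (h.s5 t c hne w)
  · push Not at w
    obtain ⟨d, hd, e, he, w, n⟩ := w
    exact .inr (h.s33 t hconj (fun d hd => (hloc d hd).2) hd he n.symm w)

end Cfsg.Agent.S5365
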