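import Cfsg.Statements.S5366
import Mathlib
import Cfsg.Agent.H19.Kei

set_option autoImplicit false
open Cfsg

namespace Cfsg.Agent.S5366

open Cfsg.Agent.H19


/-- Let L be a nondegenerate Fischer space on the point type X (every point on a line). Then for every point x the map t(x) — sending a point collinear with x to the third point of their common line and fixing every other point — is a permutation of X of order 2 and an automorphism of the line system; and the set of all t(x) satisfies the 3-transposition order conditions in the permutation group of X (any two have product of order at most 3). -/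
theorem result {X : Type*} (L : Set (Set X)) (hL : Cfsg.IsFischerSpace L) (hnd : Cfsg.LineSystem.IsNondegenerate L) : (∀ x : X, ∃ σ : Equiv.Perm X, ⇑σ = Cfsg.LineSystem.lineMap L x ∧ orderOf σ = 2 ∧ Cfsg.LineSystem.IsIso L L σ) ∧ Cfsg.IsThreeTranspositionSet {σ : Equiv.Perm X | ∃ x : X, ⇑σ = Cfsg.LineSystem.lineMap L x} := by
  have h := pk_lineMap hL.1
  have e := kl_lineMap hL.1 hL.2.1
  have ds := fischer_dist hL
  set op := LineSystem.lineMap L with hop
  let s : X → Equiv.Perm X := fun x => ⟨op x, op x, h.inv x, h.inv x⟩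
  have sq : ∀ x, s x * s x = 1 := fun x => Equiv.ext (h.inv x)
  have ne : ∀ x, s x ≠ 1 := fun x k => by
    obtain ⟨l, hl, hx⟩ := hnd x
    obtain ⟨y, hy, n⟩ := Set.exists_ne_of_one_lt_ncard (s := l) (by rw [hL.2.1 l hl]; decide) x
    exact (h.line (e ▸ hl) hx hy n.symm).1 (congrArg (fun σ : Equiv.Perm X => σ y) k)
  have cj : ∀ x y, J (s x) (s y) = s (op x y) := fun x y => Equiv.ext fun z => by
    show op x (op y (op x z)) = op (op x y) z
    rw [ds, h.inv]
  have im : ∀ x, ∀ l ∈ L, s x '' l ∈ L := by
    intro x l hl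
    rw [← e] at hl ⊢
    obtain ⟨u, v, n, rfl⟩ := hl
    refine ⟨op x u, op x v, fun k => n ((s x).injective ((ds x u v).trans k)), ?_⟩
    rw [← ds]
    simp only [Set.image_insert_eq, Set.image_singleton]
    rfl
  refine ⟨fun x => ⟨s x, rfl, orderOf_eq_prime (by rw [pow_two, sq]) (ne x), fun l =>
    ⟨im x l, fun k => ?_⟩⟩, t3_iff.2 ⟨?_, ?_, ?_⟩⟩
  · have := im x _ k
    rwa [← Set.image_comp, show s x ∘ s x = id from funext (h.inv x), Set.image_id] at this
  · rintro σ ⟨x, k⟩
    rw [show σ = s x from DFunLike.coe_injective k, sq]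
  · rintro σ ⟨x, k⟩
    rw [show σ = s x from DFunLike.coe_injective k]; exact ne x
  · rintro σ ⟨x, k⟩ τ ⟨y, k'⟩ n
    rw [show σ = s x from DFunLike.coe_injective k, show τ = s y from DFunLike.coe_injective k'] at *
    rw [cj, cj, h.sym x y fun r => n (J_eq_self.1 (by rw [cj, r]))]

end Cfsg.Agent.S5366
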