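import Cfsg.Statements.S5401
import Mathlib
import Cfsg.Agent.H19.Refl3

set_option autoImplicit false
open Cfsg

namespace Cfsg.Agent.S5401

open Cfsg.Agent.H19


/-- Existence of the Fischer 3-transposition groups: there exist finite groups generated by a conjugacy class of 3-transpositions on which they act primitively that are of type M(22), of type M(23), and of type M(24) respectively. -/
theorem result : (∃ (X : Type) (_ : Group X) (_ : Finite X) (E : Set X), Cfsg.IsThreeTranspositionClass E ∧ Cfsg.IsPrimitiveUnderConj E ∧ Cfsg.IsOfTypeM22 X E) ∧ (∃ (X : Type) (_ : Group X) (_ : Finite X) (E : Set X), Cfsg.IsThreeTranspositionClass E ∧ Cfsg.IsPrimitiveUnderConj E ∧ Cfsg.IsOfTypeM23 X E) ∧ (∃ (X : Type) (_ : Group X) (_ : Finite X) (E : Set X), Cfsg.IsThreeTranspositionClass E ∧ Cfsg.IsPrimitiveUnderConj E ∧ Cfsg.IsOfTypeM24 X E) := by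
  obtain ⟨c, l, i, -⟩ := M22.lab
  obtain ⟨c', l', i', -⟩ := M23.lab
  obtain ⟨c'', h, -⟩ := M24.c24
  exact ⟨⟨_, _, inferInstance, _, M22.three_class, M22.pg.prim,
      type22 M22.center_bot (lev22 M22.pg.toT3 ⟨c, l, i⟩)⟩,
    ⟨_, _, inferInstance, _, tclass_iff.2 ⟨M23.pg.toTG, M23.pg.trans, _, IsConj.refl _⟩, M23.pg.prim,
      type23 M23.pg H15.Fi23.center_bot (lev23 M23.pg.toT3 ⟨c', l', i'⟩)⟩,
    ⟨_, _, inferInstance, _, H15.Fi24.three_class, M24.pg.prim, h.type24⟩⟩

end Cfsg.Agent.S5401
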