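import Cfsg.Statements.S5459
import Mathlib
import Cfsg.Agent.H19.Tr3

set_option autoImplicit false
open Cfsg

namespace Cfsg.Agent.S5459

open Cfsg.Agent.H19


/-- Let G be a finite group with a quasisimple normal subgroup L and an involution d such that G is generated by L and d, the centre of L has odd order, and d inverts every element of the centre of L. If the commuting graph on the conjugacy class of the image of d in G modulo the centre of L is connected, then the commuting graph on the conjugacy class of d is connected. -/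
theorem result {G : Type*} [Group G] [Finite G] (L : Subgroup G) [L.Normal] (hL : Cfsg.IsQuasisimple ↥L) (d : G) (hd : orderOf d = 2) (hgen : L ⊔ Subgroup.zpowers d = ⊤) (hodd : Odd (Nat.card ↥(Subgroup.center ↥L))) (hinv : ∀ c ∈ (Subgroup.center ↥L).map L.subtype, d * c * d⁻¹ = c⁻¹) [hn : ((Subgroup.center ↥L).map L.subtype).Normal] (hconn : (Cfsg.commutingGraph (conjugatesOf (QuotientGroup.mk d : G ⧸ (Subgroup.center ↥L).map L.subtype))).Connected) : (Cfsg.commutingGraph (conjugatesOf d)).Connected := by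
  set Z := (Subgroup.center ↥L).map L.subtype with hZ
  have d2 : d * d = 1 := by have := pow_orderOf_eq_one d; rwa [hd, pow_two] at this
  have cj : ∀ g, ∀ a ∈ conjugatesOf d, J g a ∈ conjugatesOf d := fun g a ha =>
    IsConj.trans ha (isConj_iff.2 ⟨g, rfl⟩)
  have dd : d ∈ conjugatesOf d := IsConj.refl d
  have zc : ∀ z ∈ Z, ∀ l ∈ L, Commute l z := by
    rintro _ ⟨z, hz, rfl⟩ l hl
    exact congrArg Subtype.val (Subgroup.mem_center_iff.1 hz ⟨l, hl⟩)
  have zl : Z ≤ L := Subgroup.map_subtype_le _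
  have gen : Subgroup.zpowers d ⊔ L = ⊤ := by rw [sup_comm]; exact hgen
  have byL : ∀ a ∈ conjugatesOf d, ∃ l ∈ L, J l d = a := by
    intro a ha
    obtain ⟨g, rfl⟩ := isConj_iff.1 ha
    rcases mem_or_of_sup d2 gen g⁻¹ with h | h
    · exact ⟨g, by simpa using inv_mem h, rfl⟩
    · refine ⟨(d * g⁻¹)⁻¹, inv_mem h, ?_⟩
      simp only [J, mul_inv_rev, inv_inv]
      group
  have sq : ∀ a ∈ conjugatesOf d, a * a = 1 := fun a ha => by
    obtain ⟨g, -, rfl⟩ := byL a ha
    rw [← J_map_mul, d2]; simp [J]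
  have inv : ∀ a ∈ conjugatesOf d, ∀ z ∈ Z, J a z = z⁻¹ := by
    intro a ha z hz
    obtain ⟨l, hl, rfl⟩ := byL a ha
    have e1 : J l z = z := J_of_commute (zc z hz l hl)
    have e2 : J d z = z⁻¹ := hinv z hz
    conv_lhs => rw [← e1, J_J, e2, J_map_inv, e1]
  -- square roots in Z
  have rt : ∀ z ∈ Z, ∃ w ∈ Z, w * w = z := by
    intro z hz
    obtain ⟨k, hk⟩ := hodd
    have h1 : z ^ (2 * k + 1) = 1 := by
      obtain ⟨y, hy, rfl⟩ := hz
      have : (⟨y, hy⟩ : Subgroup.center L) ^ Nat.card (Subgroup.center L) = 1 := pow_card_eq_one'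
      rw [← hk]
      exact congrArg (fun u : Subgroup.center L => ((u : L) : G)) this
    refine ⟨z ^ (k + 1), pow_mem hz _, ?_⟩
    rw [← pow_add, show k + 1 + (k + 1) = (2 * k + 1) + 1 by ring, pow_succ, h1, one_mul]
  have fib : ∀ a ∈ conjugatesOf d, ∀ z ∈ Z, ∃ w ∈ Z, J w a = a * z := by
    intro a ha z hz
    obtain ⟨w, hw, rfl⟩ := rt z hz
    refine ⟨w⁻¹, inv_mem hw, ?_⟩
    have := inv a ha w hw
    rw [J_def, inv_inv, ← this, J_def, inv_of_sq (sq a ha)]
    simp only [mul_assoc]
    rw [← mul_assoc a a, sq a ha, one_mul]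
  rw [conn_iff ⟨d, dd⟩]
  have hc := (conn_iff (D := conjugatesOf (d : G ⧸ Z)) ⟨_, IsConj.refl _⟩).1 hconn
  -- the component of `d`
  let R : G → G → Prop := fun x y => y ∈ conjugatesOf d ∧ Commute x y
  have Rc : ∀ g x y, Relation.ReflTransGen R x y → Relation.ReflTransGen R (J g x) (J g y) := by
    intro g x y h
    induction h with
    | refl => exact .refl
    | tail _ h2 ih => exact ih.tail ⟨cj g _ h2.1, h2.2.map (MulAut.conj g)⟩
  have Rm : ∀ x y, Relation.ReflTransGen R x y → x ∈ conjugatesOf d → y ∈ conjugatesOf d := by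
    intro x y h hx
    induction h with
    | refl => exact hx
    | tail _ h2 _ => exact h2.1
  have Rs : ∀ x y, Relation.ReflTransGen R x y → x ∈ conjugatesOf d →
      Relation.ReflTransGen R y x := by
    intro x y h hx
    induction h with
    | refl => exact .refl
    | tail h1 h2 ih => exact .head ⟨Rm _ _ h1 hx, h2.2.symm⟩ ih
  let H : Subgroup G :=
    { carrier := {g | Relation.ReflTransGen R d (J g d)}
      one_mem' := by simp only [Set.mem_ofPred_eq, J, one_mul, inv_one, mul_one]; exact .refl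
      mul_mem' := fun {a b} ha hb => by
        have := Rc a _ _ hb
        rw [← J_mul] at this
        exact Relation.ReflTransGen.trans ha this
      inv_mem' := fun {a} ha => by
        have := Rc a⁻¹ _ _ ha
        rw [← J_mul, inv_mul_cancel] at this
        have e : J 1 d = d := by simp [J]
        rw [e] at this
        exact Rs _ _ this (cj _ _ dd) }
  have sur := hc ((QuotientGroup.mk : G → G ⧸ Z) '' {y | Relation.ReflTransGen R d y})
    (by
      rintro _ ⟨y, hy, rfl⟩
      exact (QuotientGroup.mk' Z).map_isConj (Rm _ _ hy dd))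
    ⟨_, d, .refl, rfl⟩ (by
      rintro _ ⟨x, hx, rfl⟩ y hy c
      obtain ⟨g, rfl⟩ := isConj_iff.1 hy
      obtain ⟨g, rfl⟩ := QuotientGroup.mk_surjective g
      have hb := cj g d dd
      set b := J g d with hbd
      have ha := Rm _ _ hx dd
      have e : (g : G ⧸ Z) * (d : G ⧸ Z) * (g : G ⧸ Z)⁻¹ = (b : G ⧸ Z) := rfl
      rw [e] at c ⊢
      have m : (x * b) ^ 2 ∈ Z := by
        rw [← QuotientGroup.eq_one_iff, QuotientGroup.mk_pow, QuotientGroup.mk_mul]
        refine (commute_iff_sq ?_ ?_).1 c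
        · rw [← QuotientGroup.mk_mul, sq x ha]; rfl
        · rw [← QuotientGroup.mk_mul, sq b hb]; rfl
      obtain ⟨w, hw, hw2⟩ := rt _ (inv_mem m)
      obtain ⟨u, hu, hu2⟩ := fib b hb w hw
      have cw : Commute (x * b) w := by
        rw [← J_eq_self, J_mul, inv b hb w hw, J_map_inv, inv x ha w hw, inv_inv]
      have hb' := cj u b hb
      refine ⟨J u b, hx.tail ⟨hb', (commute_iff_sq (sq x ha) (sq _ hb')).2 ?_⟩, ?_⟩
      · rw [hu2, ← mul_assoc, cw.mul_pow, pow_two w, hw2, mul_inv_cancel]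
      · rw [hu2, QuotientGroup.mk_mul, (QuotientGroup.eq_one_iff w).2 hw, mul_one])
  have dec : ∀ l ∈ L, ∃ h ∈ H, ∃ z ∈ Z, l = z * h := by
    intro l _
    obtain ⟨y, hy, e⟩ := sur ((QuotientGroup.mk' Z).map_isConj (cj l d dd))
    have m : y⁻¹ * J l d ∈ Z := QuotientGroup.eq.1 e
    obtain ⟨w, hw, hw2⟩ := fib y (Rm _ _ hy dd) _ m
    rw [mul_inv_cancel_left] at hw2
    refine ⟨w⁻¹ * l, ?_, w, hw, by simp⟩
    show Relation.ReflTransGen R d (J (w⁻¹ * l) d)
    rw [J_mul, ← hw2, ← J_mul, inv_mul_cancel]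
    simpa [J] using hy
  have le : L ≤ H := by
    have p : ⁅L, L⁆ = L := by
      have := congrArg (Subgroup.map L.subtype) hL.1.commutator_eq_top
      rwa [commutator_def, Subgroup.map_commutator, ← MonoidHom.range_eq_map,
        Subgroup.range_subtype] at this
    rw [← p, Subgroup.commutator_le]
    intro a ha b hb
    obtain ⟨h, hh, z, hz, rfl⟩ := dec a ha
    obtain ⟨h', hh', z', hz', rfl⟩ := dec b hb
    have l1 : h ∈ L := by simpa using mul_mem (inv_mem (zl hz)) ha
    have l2 : h' ∈ L := by simpa using mul_mem (inv_mem (zl hz')) hb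
    have e : z * h * (z' * h') * (z * h)⁻¹ * (z' * h')⁻¹ = h * h' * h⁻¹ * h'⁻¹ := by
      have c1 := zc z hz _ (mul_mem (mul_mem l1 hb) (inv_mem l1))
      have c2 := zc z' hz' _ (mul_mem l2 (inv_mem l1))
      have c3 := zc z' hz' _ l1
      have c4 := zc z' hz' _ l2
      calc z * h * (z' * h') * (z * h)⁻¹ * (z' * h')⁻¹
          = z * (h * (z' * h') * h⁻¹) * z⁻¹ * (z' * h')⁻¹ := by group
        _ = (h * (z' * h') * h⁻¹) * (z' * h')⁻¹ := by rw [← c1.eq]; group
        _ = h * (z' * (h' * h⁻¹)) * (h' * z')⁻¹ := by rw [c4.eq]; group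
        _ = h * (h' * h⁻¹ * z') * (h' * z')⁻¹ := by rw [c2.eq]
        _ = _ := by group
    rw [commutatorElement_def, e]
    exact mul_mem (mul_mem (mul_mem hh hh') (inv_mem hh)) (inv_mem hh')
  have all : ∀ y ∈ conjugatesOf d, Relation.ReflTransGen R d y := by
    intro y hy
    obtain ⟨l, hl, rfl⟩ := byL y hy
    exact le hl
  rintro B hB ⟨b, hb⟩ cl y hy
  have := (Rs _ _ (all b (hB hb)) dd).trans (all y hy)
  clear hy
  induction this with
  | refl => exact hb
  | tail _ h2 ih => exact cl _ ih _ h2.1 h2.2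

end Cfsg.Agent.S5459
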