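import Cfsg.Statements.S5462
import Mathlib
import Cfsg.Agent.H19.Fis4

set_option autoImplicit false
open Cfsg

namespace Cfsg.Agent.S5462

open Cfsg.Agent.H19


/-- Let G be a finite group with trivial centre generated by a conjugation-invariant set D of 3-transpositions on which it acts primitively, such that for some d in D the subgroup generated by the members of D other than d commuting with d has central largest normal 2- and 3-subgroups, and suppose G with D is of type M(22). Then every automorphism of G of order 2 fixes some member of D. -/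
theorem result {G : Type*} [Group G] [Finite G] {D : Set G} (hD : Cfsg.IsThreeTranspositionGroup D) (hprim : Cfsg.IsPrimitiveUnderConj D) (d₀ : G) (hd₀ : d₀ ∈ D) (h3 : Cfsg.pCore 3 ↥(Subgroup.closure {y : G | y ∈ D ∧ y ≠ d₀ ∧ Commute d₀ y}) ≤ Subgroup.center ↥(Subgroup.closure {y : G | y ∈ D ∧ y ≠ d₀ ∧ Commute d₀ y})) (h2 : Cfsg.pCore 2 ↥(Subgroup.closure {y : G | y ∈ D ∧ y ≠ d₀ ∧ Commute d₀ y}) ≤ Subgroup.center ↥(Subgroup.closure {y : G | y ∈ D ∧ y ≠ d₀ ∧ Commute d₀ y})) (h22 : Cfsg.IsOfTypeM22 G D) (φ : MulAut G) (hφ : orderOf φ = 2) : ∃ d ∈ D, φ d = d := by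
  have h := fg22 hD hprim h22
  obtain ⟨c, l, rfl⟩ := h.lev.lb22
  have i : Function.Injective (MulAut.conj : G →* MulAut G) := (injective_iff_map_eq_one _).2
    fun g e => h.z.le (Subgroup.mem_center_iff.2 fun x => by
      exact (mul_inv_eq_iff_eq_mul.1 (DFunLike.congr_fun e x)).symm)
  have a : ∀ g : G, J φ (MulAut.conj g) = MulAut.conj (φ g) := fun g => by ext; simp [J]
  have e : (Im R22 fun x => MulAut.conj (c x)) = MulAut.conj '' Im R22 c := (Set.image_image ..).symm
  obtain ⟨x, hx, k⟩ := fix22 (l.map MulAut.conj fun _ _ _ _ e => i e) (e ▸ h.lev.t3.image _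
    fun d hd k => h.pg.ne d hd (i (k.trans (map_one _).symm))) φ (by
      rw [e]
      rintro _ ⟨d, hd, rfl⟩
      exact ⟨_, h.aut_mem (by omega) h.lev.inv1 φ hd, (a d).symm⟩)
    (by rw [← pow_two, ← hφ, pow_orderOf_eq_one]; exact one_mem _)
  obtain ⟨d, hd, rfl⟩ := e ▸ hx
  exact ⟨d, hd, i ((a d).symm.trans (J_of_commute k))⟩

end Cfsg.Agent.S5462
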