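import Cfsg.Statements.S5463
import Mathlib
import Cfsg.Agent.H19.Fis4

set_option autoImplicit false
open Cfsg

namespace Cfsg.Agent.S5463

open Cfsg.Agent.H19


/-- Let G be a finite group with trivial centre generated by a conjugation-invariant set D of 3-transpositions on which it acts primitively, such that for some d in D the subgroup generated by the members of D other than d commuting with d has central largest normal 2- and 3-subgroups, and suppose G with D is of type M(22). A product j of two distinct commuting members of D determines the pair: any two 2-element sets of commuting members of D with product j coincide. A product j of three distinct pairwise commuting members of D arises from exactly two such 3-element sets. -/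
theorem result {G : Type*} [Group G] [Finite G] {D : Set G} (hD : Cfsg.IsThreeTranspositionGroup D) (hprim : Cfsg.IsPrimitiveUnderConj D) (d₀ : G) (hd₀ : d₀ ∈ D) (h3 : Cfsg.pCore 3 ↥(Subgroup.closure {y : G | y ∈ D ∧ y ≠ d₀ ∧ Commute d₀ y}) ≤ Subgroup.center ↥(Subgroup.closure {y : G | y ∈ D ∧ y ≠ d₀ ∧ Commute d₀ y})) (h2 : Cfsg.pCore 2 ↥(Subgroup.closure {y : G | y ∈ D ∧ y ≠ d₀ ∧ Commute d₀ y}) ≤ Subgroup.center ↥(Subgroup.closure {y : G | y ∈ D ∧ y ≠ d₀ ∧ Commute d₀ y})) (h22 : Cfsg.IsOfTypeM22 G D) : (∀ (j : G) (l l' : List G), (l.Nodup ∧ l.length = 2 ∧ (∀ a ∈ l, a ∈ D) ∧ (∀ a ∈ l, ∀ b ∈ l, Commute a b) ∧ l.prod = j) → (l'.Nodup ∧ l'.length = 2 ∧ (∀ a ∈ l', a ∈ D) ∧ (∀ a ∈ l', ∀ b ∈ l', Commute a b) ∧ l'.prod = j) → (∀ x : G, x ∈ l ↔ x ∈ l')) ∧ ∀ (j : G) (l₀ : List G), (l₀.Nodup ∧ l₀.length = 3 ∧ (∀ a ∈ l₀, a ∈ D) ∧ (∀ a ∈ l₀, ∀ b ∈ l₀, Commute a b) ∧ l₀.prod = j) → ∃ l₁ l₂ : List G, (l₁.Nodup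 ∧ l₁.length = 3 ∧ (∀ a ∈ l₁, a ∈ D) ∧ (∀ a ∈ l₁, ∀ b ∈ l₁, Commute a b) ∧ l₁.prod = j) ∧ (l₂.Nodup ∧ l₂.length = 3 ∧ (∀ a ∈ l₂, a ∈ D) ∧ (∀ a ∈ l₂, ∀ b ∈ l₂, Commute a b) ∧ l₂.prod = j) ∧ ¬ (∀ x : G, x ∈ l₁ ↔ x ∈ l₂) ∧ ∀ l : List G, (l.Nodup ∧ l.length = 3 ∧ (∀ a ∈ l, a ∈ D) ∧ (∀ a ∈ l, ∀ b ∈ l, Commute a b) ∧ l.prod = j) → ((∀ x : G, x ∈ l ↔ x ∈ l₁) ∨ (∀ x : G, x ∈ l ↔ x ∈ l₂)) := by
  have h := fg22 hD hprim h22
  have t := h.lev.t3
  refine ⟨?_, ?_⟩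
  · rintro _ l l' ⟨a1, a2, a3, a4, rfl⟩ ⟨b1, b2, b3, b4, e⟩ x
    exact ⟨h.uniq ⟨b1, b3, b4⟩ ⟨a1, a3, a4⟩ b2.le (by omega) e x,
      h.uniq ⟨a1, a3, a4⟩ ⟨b1, b3, b4⟩ a2.le (by omega) e.symm x⟩
  rintro _ l ⟨a1, a2, a3, a4, rfl⟩
  have a : CL D l := ⟨a1, a3, a4⟩
  obtain ⟨s, ls, k, z, r⟩ := h.lev.rel a a2
  have b := k.sublist (List.sublist_append_right _ _)
  have e : s.prod = l.prod := by
    rw [← mul_eq_one_iff_inv_eq.1 (h.one z), inv_of_sq (a.sq t)]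
  have key : ∀ l m : List G, CL D l → l.length = 3 → CL D m → m.length = 3 → m.prod = l.prod →
      ∀ x ∈ m, x ∈ l → ∀ y, y ∈ m ↔ y ∈ l := fun l m a a2 b b2 e x h1 h2 y => by
    classical
    obtain ⟨a', ea⟩ := a.perm (List.perm_cons_erase h2)
    obtain ⟨b', eb⟩ := b.perm (List.perm_cons_erase h1)
    rw [ea, eb, List.prod_cons, List.prod_cons, mul_right_inj] at e
    have a' := a'.sublist (List.sublist_cons_self _ _)
    have b' := b'.sublist (List.sublist_cons_self _ _)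
    have la : (l.erase x).length = 2 := by rw [List.length_erase_of_mem h2, a2]
    have lb : (m.erase x).length = 2 := by rw [List.length_erase_of_mem h1, b2]
    rw [(List.perm_cons_erase h1).mem_iff, (List.perm_cons_erase h2).mem_iff, List.mem_cons,
      List.mem_cons]
    exact or_congr_right ⟨h.uniq a' b' la.le (by omega) e.symm y, h.uniq b' a' lb.le (by omega) e y⟩
  refine ⟨l, s, ⟨a1, a2, a3, a4, rfl⟩, ⟨b.nd, ls, b.mem, b.cm, e⟩, fun q => ?_, ?_⟩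
  · obtain ⟨p, _, _, rfl⟩ := List.length_eq_three.1 ls
    exact List.disjoint_of_nodup_append k.nd ((q p).2 (by simp)) (by simp)
  rintro m ⟨c1, c2, c3, c4, c5⟩
  have c : CL D m := ⟨c1, c3, c4⟩
  obtain ⟨p, hp⟩ := List.exists_mem_of_length_pos (l := m) (by omega)
  rcases List.mem_append.1 (r p (c3 p hp) fun e he q => mem_of_prod t c c2.le
    (by rw [c5, a.sq t]; exact one_mem _) hp he q) with q | q
  · exact Or.inl (key _ _ a a2 c c2 c5 p hp q)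
  · exact Or.inr (key _ _ b ls c c2 (c5.trans e.symm) p hp q)

end Cfsg.Agent.S5463
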