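import Cfsg.Statements.S5466
import Mathlib
import Cfsg.Agent.H19.Fis5

set_option autoImplicit false
open Cfsg

namespace Cfsg.Agent.S5466

open Cfsg.Agent.H19


/-- Let G be a finite group with trivial centre generated by a conjugation-invariant set D of 3-transpositions on which it acts primitively, such that for some d in D the subgroup generated by the members of D other than d commuting with d has central largest normal 2- and 3-subgroups, and suppose G with D is of type M(24), and let L be the commutator subgroup of G. Let d₁, d₂, d₃ be distinct pairwise commuting members of D, j their product, E the subgroup generated by d₁ d₂ and d₁ d₃ (a four-group lying in L), CL the centralizer of j in L and K its generalized Fitting subgroup. Then K is quasisimple with centre E, K is the centralizer of E in L, K modulo E is isomorphic to the projective special unitary group of dimension 6 over the field with four elements, CL/K is isomorphic to the symmetric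 group of degree 3, and CL modulo E is isomorphic to the full automorphism group of that unitary group. -/
theorem result {G : Type*} [Group G] [Finite G] {D : Set G} (hD : Cfsg.IsThreeTranspositionGroup D) (hprim : Cfsg.IsPrimitiveUnderConj D) (d₀ : G) (hd₀ : d₀ ∈ D) (h3 : Cfsg.pCore 3 ↥(Subgroup.closure {y : G | y ∈ D ∧ y ≠ d₀ ∧ Commute d₀ y}) ≤ Subgroup.center ↥(Subgroup.closure {y : G | y ∈ D ∧ y ≠ d₀ ∧ Commute d₀ y})) (h2 : Cfsg.pCore 2 ↥(Subgroup.closure {y : G | y ∈ D ∧ y ≠ d₀ ∧ Commute d₀ y}) ≤ Subgroup.center ↥(Subgroup.closure {y : G | y ∈ D ∧ y ≠ d₀ ∧ Commute d₀ y})) (h24 : Cfsg.IsOfTypeM24 G D) (L : Subgroup G) (hL : L = commutator G) (d₁ d₂ d₃ : G) (h₁ : d₁ ∈ D) (h₂ : d₂ ∈ D) (h₃ : d₃ ∈ D) (h12 : d₁ ≠ d₂) (h13 : d₁ ≠ d₃) (h23 : d₂ ≠ d₃) (c12 : Commute d₁ d₂) (c13 : Commute d₁ d₃) (c23 : Commute d₂ d₃) (E CL K : Subgroup G) (hE : E = Subgroup.closure ({d₁ * d₂, d₁ * d₃} : Set G)) (hCL : CL = L ⊓ Subgroup.centralizer ({d₁ * d₂ * d₃} : Set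 G)) (hK : K = (Cfsg.generalizedFittingSubgroup ↥CL).map CL.subtype) : Cfsg.IsQuasisimple ↥K ∧ (Subgroup.center ↥K).map K.subtype = E ∧ K = L ⊓ Subgroup.centralizer (E : Set G) ∧ (∃ (_ : (E.subgroupOf K).Normal) (F : Type) (_ : Field F) (_ : Fintype F), Fintype.card F = 4 ∧ Nonempty (↥K ⧸ E.subgroupOf K ≃* Cfsg.PSU 6 F 2)) ∧ ∃ _ : (K.subgroupOf CL).Normal, Nonempty (↥CL ⧸ K.subgroupOf CL ≃* Equiv.Perm (Fin 3)) ∧ E ≤ CL ∧ ∃ (_ : (E.subgroupOf CL).Normal) (F : Type) (_ : Field F) (_ : Fintype F), Fintype.card F = 4 ∧ Nonempty (↥CL ⧸ E.subgroupOf CL ≃* MulAut (Cfsg.PSU 6 F 2)) := by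
  have h := f24 hD hprim h24
  have k := cl_three h₁ h₂ h₃ h12 h13 h23 c12 c13 c23
  obtain ⟨F, _, _, hF⟩ := exists_F4
  obtain ⟨q⟩ := qtU (Lev.foldl (n := 0) (t := [d₁, d₂, d₃]) h.lev k).lb hF
  have := psu_simple hF
  have hV : E = Subgroup.closure {a | ∃ b ∈ [d₂, d₃], a = d₁ * b} := by rw [hE]; congr 1; ext; simp
  obtain ⟨a1, a2, a3, a4, a5, -, ⟨n, ⟨p⟩⟩, a6⟩ := h.loc_aut (n := 0) rfl k (h.mem3 k) (C := CL) rfl
    (by simp [hCL, hL, mul_assoc]) hV q (card_aut_psu hF)
  obtain ⟨-, z, ⟨q'⟩, -⟩ := h.loc_list (n := 0) rfl k (h.mem3 k) rfl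
  obtain ⟨f⟩ := perm_three k.nd
  obtain rfl := hK.trans a3.symm
  have nn : (E.subgroupOf (commutator G ⊓ Subgroup.centralizer {a | a ∈ [d₁, d₂, d₃]})).Normal :=
    a4 ▸ inferInstance
  obtain ⟨n6, a6⟩ := a6
  refine ⟨a1, hV ▸ z, ?_, ⟨nn, F, _, _, hF,
    ⟨(QuotientGroup.quotientMulEquivOfEq a4).trans (q'.trans q)⟩⟩, n, ⟨p.trans f⟩, a5.trans a2,
    n6, F, _, _, hF, a6⟩
  rw [hL, hE, Subgroup.centralizer_closure]
  ext g
  simp only [Subgroup.mem_inf, zc_iff, Set.mem_ofPred_eq, List.mem_cons, List.not_mem_nil, or_false,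
    forall_eq_or_imp, forall_eq, Set.mem_insert_iff, Set.mem_singleton_iff, and_congr_right_iff]
  refine fun _ => ⟨fun a => ⟨a.1.mul_right a.2.1, a.1.mul_right a.2.2⟩, fun a => ?_⟩
  have b1 := h.J_mem_of (cl_two h₁ h₂ h12 c12) (by simp) (by simp) (g := g) (by simpa using a.1) d₁ (by simp)
  have b2 := h.J_mem_of (cl_two h₁ h₃ h13 c13) (by simp) (by simp) (g := g) (by simpa using a.2) d₁ (by simp)
  simp only [List.mem_cons, List.not_mem_nil, or_false] at b1 b2
  have c : Commute g d₁ := J_eq_self.1 (b1.elim id fun x => b2.resolve_right fun y => h23 (x.symm.trans y))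
  exact ⟨c, by simpa using c.inv_right.mul_right a.1, by simpa using c.inv_right.mul_right a.2⟩

end Cfsg.Agent.S5466
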