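import Cfsg.Statements.S5468
import Mathlib
import Cfsg.Agent.H19.Fis4

set_option autoImplicit false
open Cfsg

namespace Cfsg.Agent.S5468

open Cfsg.Agent.H19


/-- Let G be a finite group with trivial centre generated by a conjugation-invariant set D of 3-transpositions on which it acts primitively, such that for some d in D the subgroup generated by the members of D other than d commuting with d has central largest normal 2- and 3-subgroups, and suppose G with D is of type M(23). Let d₁, d₂ be distinct commuting members of D, j = d₁ d₂, K the joint centralizer of d₁ and d₂ and C the centralizer of j. Then K has index 2 in C, the centre of K is the subgroup generated by d₁ and d₂, K is quasisimple with K modulo its centre isomorphic to the projective special unitary group of dimension 6 over the field with four elements, and C modulo the subgroup generated by d₁ and d₂ has trivial centre (so it is that unitary group extended by an outer involution).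 -/
theorem result {G : Type*} [Group G] [Finite G] {D : Set G} (hD : Cfsg.IsThreeTranspositionGroup D) (hprim : Cfsg.IsPrimitiveUnderConj D) (d₀ : G) (hd₀ : d₀ ∈ D) (h3 : Cfsg.pCore 3 ↥(Subgroup.closure {y : G | y ∈ D ∧ y ≠ d₀ ∧ Commute d₀ y}) ≤ Subgroup.center ↥(Subgroup.closure {y : G | y ∈ D ∧ y ≠ d₀ ∧ Commute d₀ y})) (h2 : Cfsg.pCore 2 ↥(Subgroup.closure {y : G | y ∈ D ∧ y ≠ d₀ ∧ Commute d₀ y}) ≤ Subgroup.center ↥(Subgroup.closure {y : G | y ∈ D ∧ y ≠ d₀ ∧ Commute d₀ y})) (h23 : Cfsg.IsOfTypeM23 G D) (d₁ d₂ : G) (h₁ : d₁ ∈ D) (h₂ : d₂ ∈ D) (hne : d₁ ≠ d₂) (hc : Commute d₁ d₂) (K C V : Subgroup G) (hK : K = Subgroup.centralizer ({d₁, d₂} : Set G)) (hC : C = Subgroup.centralizer ({d₁ * d₂} : Set G)) (hV : V = Subgroup.closure ({d₁, d₂} : Set G)) [hn : (V.subgroupOf C).Normal] : K ≤ C ∧ (K.subgroupOf C).index = 2 ∧ (Subgroup.center ↥K).map K.subtype = V ∧ Cfsg.IsQuasisimple ↥K ∧ (∃ (F : Type) (_ : Field F) (_ : Fintype F), Fintype.card F = 4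 ∧ Nonempty (↥K ⧸ Subgroup.center ↥K ≃* Cfsg.PSU 6 F 2)) ∧ Subgroup.center (↥C ⧸ V.subgroupOf C) = ⊥ := by
  have h := fg23 hD hprim h23
  have l : Lb R23 D := h.pg.lab23 h23
  have k := cl_two h₁ h₂ hne hc
  have es : {a | a ∈ [d₁, d₂]} = ({d₁, d₂} : Set G) := by ext; simp
  have e1 := FG.cent_list (n := 0) (t := [d₁, d₂]) h k (h.mem23 l k)
  have e2 := FG.center_list (n := 0) (t := [d₁, d₂]) h k (h.mem23 l k)
  have h0 : Lev 0 (Dd (Dd D d₁) d₂) := Lev.foldl (t := [d₁, d₂]) h.lev k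
  rw [es] at e1 e2
  obtain ⟨i1, i2⟩ := h.pair_index k (L := ⊤) (by simp)
  have mK : ∀ g, g ∈ K ↔ Commute g d₁ ∧ Commute g d₂ := fun g => hK ▸ mem_cent2
  have mC : ∀ g, g ∈ C ↔ Commute g (d₁ * d₂) := fun g => hC ▸ mem_cent1
  obtain rfl : K = Subgroup.closure (Dd (Dd D d₁) d₂) := hK.trans e1.symm
  have le : Subgroup.closure (Dd (Dd D d₁) d₂) ≤ C := fun g hg =>
    (mC g).2 (((mK g).1 hg).1.mul_right ((mK g).1 hg).2)
  obtain ⟨F, _, _, hF⟩ := exists_F4
  refine ⟨le, ?_, hV ▸ e2, ⟨(h.perf23 l k).1, simpleU h0.lb⟩, ⟨F, _, _, hF, qtU h0.lb hF⟩, ?_⟩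
  · rw [top_inf_eq, ← hC] at i1
    rw [← i1, Subgroup.relIndex]
    congr 1
    ext g
    rw [Subgroup.mem_subgroupOf, Subgroup.mem_subgroupOf, mK, mem_cent1]
    exact ⟨fun k => k.1, fun k => ⟨k, i2 _ ((mC _).1 g.2) k⟩⟩
  refine eq_bot_iff.2 fun g hg => ?_
  obtain ⟨g, rfl⟩ := QuotientGroup.mk_surjective g
  have t := h.lev.t3
  have z : (g : G) ∈ Subgroup.centralizer (Dd (Dd D d₁) d₂) := zc_iff.2 fun x hx => by
    have := Subgroup.mem_center_iff.1 hg (⟨x, le (Subgroup.subset_closure hx)⟩ : C)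
    rw [← QuotientGroup.mk_mul, ← QuotientGroup.mk_mul, QuotientGroup.eq, Subgroup.mem_subgroupOf,
      hV, ← e2] at this
    obtain ⟨v, hv, e⟩ := this
    have hv := zc_iff.1 (mem_center_closure.1 hv)
    have q : J (g : G)⁻¹ x * x = v := by
      rw [show (v : G) = _ from e]; simp [J, t.inv hx.1.1, mul_assoc]
    have m : J (g : G)⁻¹ x ∈ Dd (Dd D d₁) d₂ := by
      have := h.J_mem_of k (by simp) (by simp) (g := g) (by simpa using (mC _).1 g.2)
      have a : ∀ d ∈ [d₁, d₂], x ≠ d ∧ Commute d x := (foldl_Dd.1 hx).2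
      refine (foldl_Dd (t := [d₁, d₂])).2 ⟨h.pg.conj _ _ hx.1.1, fun d hd => ⟨fun q => (a _ (this d hd)).1 ?_, ?_⟩⟩
      · rw [← q, J_J_inv]
      · simpa [commute_J_left] using (a _ (this d hd)).2
    by_contra n
    refine h0.prod_ne (l := [J (g : G)⁻¹ x, x]) (cl_two m hx (fun q => n ?_) ?_) (by simp) (by simp)
      (by simpa [q] using zc_iff.2 hv)
    · simpa using (J_eq_self.1 q).inv_left
    · simpa [← q, mul_assoc, t.sq x hx.1.1] using (hv x hx).mul_left (Commute.refl x)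
  have gK := (mK g).2 ⟨zc_mul_comm (h.mem23 l k _ (by simp)) z, zc_mul_comm (h.mem23 l k _ (by simp)) z⟩
  rw [Subgroup.mem_bot, QuotientGroup.eq_one_iff, Subgroup.mem_subgroupOf, hV, ← e2]
  exact ⟨⟨g, gK⟩, mem_center_closure.2 z, rfl⟩

end Cfsg.Agent.S5468
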