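import Cfsg.Statements.S5469
import Mathlib
import Cfsg.Agent.L1.AutO
import Cfsg.Agent.S5463

set_option autoImplicit false
open Cfsg

namespace Cfsg.Agent.S5469
open Cfsg.Agent.H15 Cfsg.Agent.H14

/-- Let G be a finite group with trivial centre generated by a conjugation-invariant set D of 3-transpositions on which it acts primitively, such that for some d in D the subgroup generated by the members of D other than d commuting with d has central largest normal 2- and 3-subgroups, and suppose G with D is of type M(22). Let d₁, d₂ be distinct commuting members of D, j = d₁ d₂, K the joint centralizer of d₁ and d₂, C the centralizer of j and V the subgroup generated by d₁ and d₂. Then K has index 2 in C, V is the centre of K, and C has a normal subgroup E containing V with E/V elementary abelian of order 2^8 and C/E isomorphic to the full automorphism group of the projective special unitary group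 of dimension 4 over the field with four elements. -/
theorem result {G : Type*} [Group G] [Finite G] {D : Set G} (hD : Cfsg.IsThreeTranspositionGroup D) (hprim : Cfsg.IsPrimitiveUnderConj D) (d₀ : G) (hd₀ : d₀ ∈ D) (h3 : Cfsg.pCore 3 ↥(Subgroup.closure {y : G | y ∈ D ∧ y ≠ d₀ ∧ Commute d₀ y}) ≤ Subgroup.center ↥(Subgroup.closure {y : G | y ∈ D ∧ y ≠ d₀ ∧ Commute d₀ y})) (h2 : Cfsg.pCore 2 ↥(Subgroup.closure {y : G | y ∈ D ∧ y ≠ d₀ ∧ Commute d₀ y}) ≤ Subgroup.center ↥(Subgroup.closure {y : G | y ∈ D ∧ y ≠ d₀ ∧ Commute d₀ y})) (h22 : Cfsg.IsOfTypeM22 G D) (d₁ d₂ : G) (h₁ : d₁ ∈ D) (h₂ : d₂ ∈ D) (hne : d₁ ≠ d₂) (hc : Commute d₁ d₂) (K C V : Subgroup G) (hK : K = Subgroup.centralizer ({d₁, d₂} : Set G)) (hC : C = Subgroup.centralizer ({d₁ * d₂} : Set G)) (hV : V = Subgroup.closure ({d₁, d₂} : Set G)) : K ≤ C ∧ (K.subgroupOf C).index = 2 ∧ (Subgroup.center ↥K).map K.subtype = V ∧ ∃ E : Subgroup G, V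 ≤ E ∧ E ≤ C ∧ (∀ c ∈ C, ∀ x ∈ E, c * x * c⁻¹ ∈ E) ∧ Nat.card E = 2 ^ 10 ∧ (∀ x ∈ E, ∀ y ∈ E, x * y * x⁻¹ * y⁻¹ ∈ V ∧ x ^ 2 ∈ V) ∧ ∃ (_ : (E.subgroupOf C).Normal) (F : Type) (_ : Field F) (_ : Fintype F), Fintype.card F = 4 ∧ Nonempty (↥C ⧸ E.subgroupOf C ≃* MulAut (Cfsg.PSU 4 F 2)) := by
  have uq := fun c (hc' : c ∈ C) => (S5463.result hD hprim d₀ hd₀ h3 h2 h22).1 (d₁ * d₂) [c * d₁ * c⁻¹, c * d₂ * c⁻¹] [d₁, d₂]
  obtain ⟨M, hM, rfl⟩ := X22.exists_mod hD hprim h22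
  obtain ⟨M', hM', hDD, rfl, e, -⟩ := hM.pair (by decide +kernel) h₁ h₂
  obtain rfl := e hne hc
  have hC' : C = M'.cen [N22I.y] [] := by rw [hC, ← N22I.hy M' hM', ← cz, ← M'.cen_one]
  have memK : ∀ g, g ∈ K ↔ g * M'.T 0 * g⁻¹ = M'.T 0 ∧ g * M'.T 1 * g⁻¹ = M'.T 1 := fun g => by
    simp only [hK, Subgroup.mem_centralizer_iff, Set.mem_insert_iff, Set.mem_singleton_iff, forall_eq_or_imp, forall_eq,
      mul_inv_eq_iff_eq_mul]
    exact ⟨fun h => ⟨h.1.symm, h.2.symm⟩, fun h => ⟨h.1.symm, h.2.symm⟩⟩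
  have memC : ∀ g, g ∈ C ↔ g * (M'.T 0 * M'.T 1) * g⁻¹ = M'.T 0 * M'.T 1 := fun g => by
    rw [hC, Subgroup.mem_centralizer_singleton_iff, mul_inv_eq_iff_eq_mul]
  have cm : ∀ g : G, g * (M'.T 0 * M'.T 1) * g⁻¹ = (g * M'.T 0 * g⁻¹) * (g * M'.T 1 * g⁻¹) := fun g => by group
  have hKC : K ≤ C := fun g hg => by rw [memC, cm, ((memK g).1 hg).1, ((memK g).1 hg).2]
  have two : ∀ c ∈ C, (c * M'.T 0 * c⁻¹ = M'.T 0 ∧ c * M'.T 1 * c⁻¹ = M'.T 1) ∨
      (c * M'.T 0 * c⁻¹ = M'.T 1 ∧ c * M'.T 1 * c⁻¹ = M'.T 0) := fun c hc' => by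
    have hn : c * M'.T 0 * c⁻¹ ≠ c * M'.T 1 * c⁻¹ := fun h => hne (by simpa using h)
    have cc : Commute (c * M'.T 0 * c⁻¹) (c * M'.T 1 * c⁻¹) := by
      have := (PMod.commute_conj (g := c⁻¹)).2 hc
      simpa using this
    have h := uq c hc' ⟨by simpa using hne, rfl, by
        simp only [List.mem_cons, List.not_mem_nil, or_false, forall_eq_or_imp, forall_eq]
        exact ⟨M.conj_mem c h₁, M.conj_mem c h₂⟩, by
        simp only [List.mem_cons, List.not_mem_nil, or_false, forall_eq_or_imp, forall_eq]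
        exact ⟨⟨Commute.refl _, cc⟩, cc.symm, Commute.refl _⟩, by
        rw [List.prod_cons, List.prod_singleton, ← cm, (memC c).1 hc']⟩
      ⟨by simpa using hne, rfl, by
        simp only [List.mem_cons, List.not_mem_nil, or_false, forall_eq_or_imp, forall_eq]
        exact ⟨h₁, h₂⟩, by
        simp only [List.mem_cons, List.not_mem_nil, or_false, forall_eq_or_imp, forall_eq]
        exact ⟨⟨Commute.refl _, hc⟩, hc.symm, Commute.refl _⟩, by rw [List.prod_cons, List.prod_singleton]⟩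
    have a := (h (c * M'.T 0 * c⁻¹)).1 (by simp)
    have b := (h (c * M'.T 1 * c⁻¹)).1 (by simp)
    simp only [List.mem_cons, List.not_mem_nil, or_false] at a b
    rcases a with a | a <;> rcases b with b | b
    · exact absurd (a.trans b.symm) hn
    · exact Or.inl ⟨a, b⟩
    · exact Or.inr ⟨a, b⟩
    · exact absurd (a.trans b.symm) hn
  have s0 : M'.w N22I.w18 * M'.T 0 * (M'.w N22I.w18)⁻¹ = M'.T 1 := M'.conjT (by decide +kernel)
  have s1 : M'.w N22I.w18 * M'.T 1 * (M'.w N22I.w18)⁻¹ = M'.T 0 := M'.conjT (by decide +kernel)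
  have sC : M'.w N22I.w18 ∈ C := by rw [memC, cm, s0, s1, hc.eq]
  have hV' : V = gp M'.e N22I.pU1 := by
    have e1 := M'.T_gp (ps := [0, 1]) [([], 0), ([], 2)] (by decide +kernel)
    rw [hV, show ({M'.T 0, M'.T 1} : Set G) = M'.T '' {p | p ∈ [0, 1]} by
      ext x; simp [eq_comm], e1]
    exact le_antisymm (M'.gp_le_gp [[0], [0, 1]] (by decide +kernel)) (M'.gp_le_gp [[0], [0, 1]] (by decide +kernel))
  have hEK : gp M'.e N22I.pU0 ≤ K := fun g hg => by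
    have := (M'.mem_cen.1 (M'.gp_le_cen (xs := []) (ps := [0, 1]) (by decide +kernel) hg)).2
    rw [memK, mul_inv_eq_iff_eq_mul, mul_inv_eq_iff_eq_mul]
    exact ⟨this 0 (by simp), this 1 (by simp)⟩
  have hZ : gp M'.e N22I.pU0 ⊓ Subgroup.centralizer (gp M'.e N22I.pU0 : Set G) = gp M'.e N22I.pU1 :=
    M'.center_le (by norm_num) (N22I.psec0 M' hM') (by decide +kernel) [([0, 2, 13, 0, 7, 13, 2, 5, 13, 7, 0, 13], [1, 2, 3, 4], 2), ([11, 0, 2, 11, 5, 7, 9, 2, 0, 9, 7, 5, 0], [0, 3, 7], 2), ([9, 3, 11, 0, 9, 4, 10, 0, 11, 4, 3, 9, 0], [1, 2, 3, 5], 2), ([8, 9, 2, 5, 11, 2, 5, 9, 7, 8, 0], [0, 1, 2, 6], 2), ([4, 6, 7, 11, 5, 9, 2, 9, 5, 11], [0, 2], 2), (N22I.pc0, [0], 2), (N22I.pc3, [3], 2), (N22I.pc1, [1], 2)] (by decide +kernel)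
  have hq := L1Au.qhO M' hM'
  rw [← hC'] at hq
  obtain ⟨n, ⟨f⟩⟩ := hq.iso'
  obtain ⟨g⟩ := L1Au.o6_iso
  have hE : gp M'.e N22I.pU0 = Subgroup.closure {c | c ∈ N22I.pL0.map M'.w} ⊔ gp M'.e N22I.pU1 := M'.gp_app _ _
  refine ⟨hKC, ?_, ?_, gp M'.e N22I.pU0, hV' ▸ M'.gp_le_app _ _, hq.1, fun c hc' x hx => ?_, N22I.pcard0 M' hM',
    fun x hx y hy => ⟨?_, ?_⟩, n, L1Au.F4, inferInstance, inferInstance, L1Au.F4.card, ⟨f.trans g⟩⟩
  · rw [Subgroup.index_eq_two_iff]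
    refine ⟨⟨_, sC⟩, fun b => ?_⟩
    have cm2 : ∀ t : G, (b : G) * M'.w N22I.w18 * t * ((b : G) * M'.w N22I.w18)⁻¹ =
      b * (M'.w N22I.w18 * t * (M'.w N22I.w18)⁻¹) * (b : G)⁻¹ := fun t => by group
    simp only [Subgroup.mem_subgroupOf, memK, Subgroup.coe_mul, cm2, s0, s1]
    rcases two b b.2 with h | h
    · exact Or.inr ⟨h, fun h' => hne (h'.1.symm.trans h.2)⟩
    · exact Or.inl ⟨⟨h.2, h.1⟩, fun h' => hne (h'.1.symm.trans h.1)⟩
  · apply le_antisymm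
    · rintro _ ⟨z, hz, rfl⟩
      have h1 : (z : G) ∈ Subgroup.centralizer (gp M'.e N22I.pU0 : Set G) := fun x hx =>
        congrArg Subtype.val (Subgroup.mem_center_iff.1 hz ⟨x, hEK hx⟩)
      have h2 : (z : G) ∈ gp M'.e N22I.pU0 :=
        (N22I.main M' hM').2.2.2.mem (hC' ▸ hKC z.2) ((N22I.ld M' hM').cen _ h1)
      rw [hV', ← hZ]
      exact ⟨h2, h1⟩
    · rw [hV, Subgroup.closure_le]
      have k0 : M'.T 0 ∈ K := (memK _).2 ⟨by group, by rw [hc.eq]; group⟩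
      have k1 : M'.T 1 ∈ K := (memK _).2 ⟨by rw [← hc.eq]; group, by group⟩
      rintro x (rfl | rfl)
      · exact ⟨⟨_, k0⟩, Subgroup.mem_center_iff.2 fun g => Subtype.ext (mul_inv_eq_iff_eq_mul.1 ((memK g).1 g.2).1), rfl⟩
      · exact ⟨⟨_, k1⟩, Subgroup.mem_center_iff.2 fun g => Subtype.ext (mul_inv_eq_iff_eq_mul.1 ((memK g).1 g.2).2), rfl⟩
  · exact n.conj_mem ⟨x, hq.1 hx⟩ hx ⟨c, hc'⟩
  · have := (N22I.psec0 M' hM').comm_mem (by norm_num) (hE ▸ inv_mem hx) (hE ▸ inv_mem hy)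
    rw [hV']
    simpa [mul_assoc] using this
  · rw [hV']; exact (N22I.psec0 M' hM').pow_mem (by norm_num) (hE ▸ hx)

end Cfsg.Agent.S5469
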