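import Cfsg.Statements.S5470
import Mathlib
import Cfsg.Agent.H19.Fis4

set_option autoImplicit false
open Cfsg

namespace Cfsg.Agent.S5470

open Cfsg.Agent.H19


/-- Let G be a finite group with trivial centre generated by a conjugation-invariant set D of 3-transpositions on which it acts primitively, such that for some d in D the subgroup generated by the members of D other than d commuting with d has central largest normal 2- and 3-subgroups, and suppose G with D is of type M(22). Then the centralizer of a product of three distinct pairwise commuting members of D has order 2^16 · 3^3. -/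
theorem result {G : Type*} [Group G] [Finite G] {D : Set G} (hD : Cfsg.IsThreeTranspositionGroup D) (hprim : Cfsg.IsPrimitiveUnderConj D) (d₀ : G) (hd₀ : d₀ ∈ D) (h3 : Cfsg.pCore 3 ↥(Subgroup.closure {y : G | y ∈ D ∧ y ≠ d₀ ∧ Commute d₀ y}) ≤ Subgroup.center ↥(Subgroup.closure {y : G | y ∈ D ∧ y ≠ d₀ ∧ Commute d₀ y})) (h2 : Cfsg.pCore 2 ↥(Subgroup.closure {y : G | y ∈ D ∧ y ≠ d₀ ∧ Commute d₀ y}) ≤ Subgroup.center ↥(Subgroup.closure {y : G | y ∈ D ∧ y ≠ d₀ ∧ Commute d₀ y})) (h22 : Cfsg.IsOfTypeM22 G D) (d₁ d₂ d₃ : G) (h₁ : d₁ ∈ D) (h₂ : d₂ ∈ D) (h₃ : d₃ ∈ D) (h12 : d₁ ≠ d₂) (h13 : d₁ ≠ d₃) (h23 : d₂ ≠ d₃) (c12 : Commute d₁ d₂) (c13 : Commute d₁ d₃) (c23 : Commute d₂ d₃) : Nat.card ↥(Subgroup.centralizer ({d₁ * d₂ * d₃} : Set G)) = 2 ^ 16 * 3 ^ 3 := by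
  have h := fg22 hD hprim h22
  obtain ⟨e, -⟩ := iso22 hD hprim h22
  have t := h.lev.t3
  have k := cl_three h₁ h₂ h₃ h12 h13 h23 c12 c13 c23
  obtain ⟨-, k1⟩ := cl_cons.1 k
  obtain ⟨m2, k2⟩ := cl_cons.1 k1
  have m3 := k2.mem d₃ (by simp)
  set A := Subgroup.centralizer ({d₁} : Set G)
  set B := Subgroup.centralizer ({d₂} : Set G)
  set C := Subgroup.centralizer ({d₃} : Set G)
  set X := Subgroup.centralizer ({d₁ * d₂ * d₃} : Set G)
  have i1 : A.index = 3510 := (h.index_cent h₁).trans h.lev.lb22.ncard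
  have i2 : B.relIndex A = 693 := (relIndex_cent (S := Dd D d₁)
    (fun g hg x hx => J_of_commute (mem_cent1.1 hg) ▸ J_mem_Dd (h.pg.conj g) hx) m2 fun y hy => by
      obtain ⟨g, a, b⟩ := h.pg.pairD h₁ h₁ m2 hy
      exact ⟨g, mem_cent1.2 (J_eq_self.1 a), b⟩).trans (h.lev.loc h₁).lb.ncard
  have i3 : C.relIndex (B ⊓ A) = 180 := (relIndex_cent (S := Dd (Dd D d₁) d₂)
    (fun g hg x hx => J_of_commute (mem_cent1.1 hg.1) ▸ J_mem_Dd
      (fun x hx => J_of_commute (mem_cent1.1 hg.2) ▸ J_mem_Dd (h.pg.conj g) hx) hx) m3 fun y hy => by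
      obtain ⟨g, q⟩ := h.trc k (cl_cons.2 ⟨h₁, cl_cons.2 ⟨m2, cl_cons.2 ⟨hy, CL.nil _⟩⟩⟩) rfl (by simp)
      simp only [List.map_cons, List.map_nil, List.cons.injEq, and_true, J_eq_self] at q
      exact ⟨g, ⟨mem_cent1.2 q.2.1, mem_cent1.2 q.1⟩, q.2.2⟩).trans (ncard_DdU (h.lev.loc h₁).lb m2)
  obtain ⟨s, ls, a, z, r⟩ := h.lev.rel k rfl
  have b := a.sublist (List.sublist_append_right _ _)
  have es : s.prod = [d₁, d₂, d₃].prod := by
    rw [← mul_eq_one_iff_inv_eq.1 (h.one z), inv_of_sq (k.sq t)]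
  have mX : ∀ g, g ∈ X ↔ Commute g [d₁, d₂, d₃].prod := fun g => by simp [X, mem_cent1, mul_assoc]
  have key : ∀ m, CL D m → m.length = 3 → m.prod = [d₁, d₂, d₃].prod → (∀ x ∈ m, x ∈ [d₁, d₂, d₃] ++ s) ∧
      ∀ y ∈ m, ∃ g ∈ X, J g d₁ = y := fun m c c2 c5 =>
    ⟨fun p hp => r p (c.mem p hp) fun e he q => mem_of_prod t c c2.le
      (by rw [c5, k.sq t]; exact one_mem _) hp he q, fun y hy => by
      classical
      obtain ⟨c', e'⟩ := c.perm (List.perm_cons_erase hy)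
      obtain ⟨g, q⟩ := h.trc k c' (by simp [List.length_erase_of_mem hy, c2]) (by simp)
      exact ⟨g, (mX g).2 (J_eq_self.1 (by rw [J_prod, q, ← e', c5])), (List.cons.inj q).1⟩⟩
  have i4 : A.relIndex X = 6 := (relIndex_cent (S := {x | x ∈ [d₁, d₂, d₃] ++ s}) (fun g hg x hx => by
      rcases List.mem_append.1 hx with hx | hx
      · exact (key _ (k.conj (h.pg.conj g)) rfl (by rw [← J_prod, J_of_commute ((mX g).1 hg)])).1 _
          (List.mem_map_of_mem hx)
      · exact (key _ (b.conj (h.pg.conj g)) (by simpa) (by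
          rw [← J_prod, es, J_of_commute ((mX g).1 hg)])).1 _ (List.mem_map_of_mem hx))
    (by simp) fun y hy => (List.mem_append.1 hy).elim ((key _ k rfl rfl).2 y) ((key _ b ls es).2 y)).trans
    (by classical
      rw [← List.coe_toFinset, Set.ncard_coe_finset, List.toFinset_card_of_nodup a.nd]; simp [ls])
  have k' : CL D [d₂, d₃] := k1.mono fun _ k => k.1
  have cx : ∀ g, g ∈ A ⊓ X → Commute g (d₂ * d₃) := fun g hg => by
    simpa using (mem_cent1.1 hg.1).inv_right.mul_right ((mX g).1 hg.2)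
  have i5 : B.relIndex (A ⊓ X) = 2 := (relIndex_cent (S := {d₂, d₃}) (fun g hg => by
      simpa using h.J_mem_of k' (by simp) (by simp) (g := g) (by simpa using cx g hg)) (by simp)
    fun y hy => by
      rcases hy with rfl | hy
      · exact ⟨1, one_mem _, J_one _⟩
      obtain ⟨c', e'⟩ := k.perm ((List.Perm.swap d₃ d₂ []).cons d₁)
      obtain ⟨g, q⟩ := h.trc k c' rfl (by simp)
      refine ⟨g, ⟨mem_cent1.2 (J_eq_self.1 (List.cons.inj q).1),
        (mX g).2 (J_eq_self.1 (by rw [J_prod, q, e']))⟩, ?_⟩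
      rw [show y = d₃ from hy]; exact (List.cons.inj (List.cons.inj q).2).1).trans (Set.ncard_pair h23)
  have e1 : C ⊓ (B ⊓ A) = B ⊓ (A ⊓ X) := by
    ext g
    refine ⟨fun ⟨a, b, c⟩ => ⟨b, c, mem_cent1.2 (((mem_cent1.1 c).mul_right (mem_cent1.1 b)).mul_right
      (mem_cent1.1 a))⟩, fun ⟨a, b⟩ => ⟨mem_cent1.2 ?_, a, b.1⟩⟩
    simpa using (mem_cent1.1 a).inv_right.mul_right (cx g b)
  have j1 := Subgroup.relIndex_inf_mul_relIndex C (B ⊓ A) ⊤
  have j2 := Subgroup.relIndex_inf_mul_relIndex B A ⊤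
  have j3 := Subgroup.relIndex_inf_mul_relIndex B (A ⊓ X) ⊤
  have j4 := Subgroup.relIndex_inf_mul_relIndex A X ⊤
  simp only [inf_top_eq, Subgroup.relIndex_top_right] at j1 j2 j3 j4
  have j5 := X.index_mul_card
  rw [← Nat.card_congr e.toEquiv, H15.Fi22.card] at j5
  rw [e1, ← j3, ← j4, ← j2, i1, i2, i3, i4, i5] at j1
  rw [show X.index = 36486450 by omega] at j5
  omega

end Cfsg.Agent.S5470
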