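import Cfsg.Statements.S5473
import Mathlib
import Cfsg.Agent.L1.AutO
import Cfsg.Agent.L1.AuQ2

set_option autoImplicit false
open Cfsg

namespace Cfsg.Agent.S5473
open Cfsg.Agent.H15 Cfsg.Agent.H14

/-- Let G be a finite group with trivial centre generated by a conjugation-invariant set D of 3-transpositions on which it acts primitively, such that for some d in D the subgroup generated by the members of D other than d commuting with d has central largest normal 2- and 3-subgroups, and suppose G with D is of type M(22), and let A be the automorphism group of G. Let d₁, d₂ be distinct commuting members of D and j the inner automorphism of their product. Then the generalized Fitting subgroup Q of the centralizer of j in A is a large extraspecial 2-subgroup of A of order 2^11 (extraspecial; centralizer equal to its centre; normal in the centralizer of its centre; normalizing no non-trivial odd-order subgroup), and the centralizer of j modulo Q is isomorphic to the full automorphism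 group of the projective special unitary group of dimension 4 over the field with four elements. -/
theorem result {G : Type*} [Group G] [Finite G] {D : Set G} (hD : Cfsg.IsThreeTranspositionGroup D) (hprim : Cfsg.IsPrimitiveUnderConj D) (d₀ : G) (hd₀ : d₀ ∈ D) (h3 : Cfsg.pCore 3 ↥(Subgroup.closure {y : G | y ∈ D ∧ y ≠ d₀ ∧ Commute d₀ y}) ≤ Subgroup.center ↥(Subgroup.closure {y : G | y ∈ D ∧ y ≠ d₀ ∧ Commute d₀ y})) (h2 : Cfsg.pCore 2 ↥(Subgroup.closure {y : G | y ∈ D ∧ y ≠ d₀ ∧ Commute d₀ y}) ≤ Subgroup.center ↥(Subgroup.closure {y : G | y ∈ D ∧ y ≠ d₀ ∧ Commute d₀ y})) (h22 : Cfsg.IsOfTypeM22 G D) (d₁ d₂ : G) (h₁ : d₁ ∈ D) (h₂ : d₂ ∈ D) (hne : d₁ ≠ d₂) (hc : Commute d₁ d₂) (j : MulAut G) (hj : j = MulAut.conj (d₁ * d₂)) (Q : Subgroup (MulAut G)) (hQ : Q = (Cfsg.generalizedFittingSubgroup ↥(Subgroup.centralizer ({j} : Set (MulAut G)))).map (Subgroup.centralizer ({j} : Set (MulAut G))).subtype) : Cfsg.IsLargeExtraspecial Q ∧ Nat.card Q = 2 ^ 11 ∧ Q ≤ Subgroup.centralizer ({j}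 : Set (MulAut G)) ∧ ∃ (_ : (Q.subgroupOf (Subgroup.centralizer ({j} : Set (MulAut G)))).Normal) (F : Type) (_ : Field F) (_ : Fintype F), Fintype.card F = 4 ∧ Nonempty (↥(Subgroup.centralizer ({j} : Set (MulAut G))) ⧸ Q.subgroupOf (Subgroup.centralizer ({j} : Set (MulAut G))) ≃* MulAut (Cfsg.PSU 4 F 2)) := by
  obtain ⟨M, hM, rfl⟩ := X22.exists_mod hD hprim h22
  obtain ⟨M', hM', hDD, rfl, e, -⟩ := hM.pair (by decide +kernel) h₁ h₂
  obtain rfl := e hne hc
  rw [← N22I.hy M' hM'] at hj
  subst hj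
  obtain ⟨q, h⟩ := L1AQ.dat M' hM'
  have hq := L1Au.qhO M' hM'
  rw [(M'.cen_one _).trans (cz _)] at hq
  obtain ⟨g⟩ := L1Au.o6_iso
  have h2 : pCore 2 L1Au.O6 = ⊥ := by
    obtain ⟨n, ⟨f⟩⟩ := (L1Au.qhO M' hM').iso'
    obtain ⟨g⟩ := (N22I.main M' hM').2.2.2.qh.iso (K := (gp M'.e N22I.pU0).subgroupOf (M'.cen [N22I.y] [])) rfl
    exact pCore_bot_of_equiv (f.symm.trans g) N22I.pc
  have a : M'.w [12, 4, 9, 8, 13, 1] * M'.w N22I.y * (M'.w [12, 4, 9, 8, 13, 1])⁻¹ = M'.w N22I.pc0 :=
    M'.conjW (by decide +kernel)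
  obtain ⟨a1, a2, a3, n, ⟨f⟩⟩ := h.main hq h2 (N22I.pcard0 M' hM') (by rw [a]; exact mem_gp (by decide))
    (by rw [a]; exact M'.neW (x := 695) (by decide +kernel)) hQ
  exact ⟨a1, a2, a3, n, L1Au.F4, inferInstance, inferInstance, L1Au.F4.card, ⟨f.trans g⟩⟩

end Cfsg.Agent.S5473
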