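import Cfsg.Statements.S5517
import Mathlib
import Cfsg.Agent.H19.Refl3

set_option autoImplicit false
open Cfsg

namespace Cfsg.Agent.S5517

open Cfsg.Agent.H19


/-- Let G be a finite group with trivial centre generated by a conjugation-invariant set D of 3-transpositions on which it acts primitively, such that for some d in D the subgroup generated by the members of D other than d commuting with d has central largest normal 2- and 3-subgroups, and suppose G with D is of type M(22). Then G has a subgroup L generated by the members of D it contains and isomorphic to Ω(7, 3) (the commutator subgroup of the isometry group of a non-degenerate 7-dimensional quadratic form over the field with three elements, modulo its centre), and every Sylow 3-subgroup of L is a Sylow 3-subgroup of G. -/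
theorem result {G : Type*} [Group G] [Finite G] {D : Set G} (hD : Cfsg.IsThreeTranspositionGroup D) (hprim : Cfsg.IsPrimitiveUnderConj D) (d₀ : G) (hd₀ : d₀ ∈ D) (h3 : Cfsg.pCore 3 ↥(Subgroup.closure {y : G | y ∈ D ∧ y ≠ d₀ ∧ Commute d₀ y}) ≤ Subgroup.center ↥(Subgroup.closure {y : G | y ∈ D ∧ y ≠ d₀ ∧ Commute d₀ y})) (h2 : Cfsg.pCore 2 ↥(Subgroup.closure {y : G | y ∈ D ∧ y ≠ d₀ ∧ Commute d₀ y}) ≤ Subgroup.center ↥(Subgroup.closure {y : G | y ∈ D ∧ y ≠ d₀ ∧ Commute d₀ y})) (h22 : Cfsg.IsOfTypeM22 G D) : ∃ L : Subgroup G, Cfsg.IsDSubgroup D L ∧ Nonempty (↥L ≃* Cfsg.POmega (ZMod 3) (Cfsg.quadFormOdd 3 (ZMod 3))) ∧ ∀ P : Sylow 3 ↥L, ∃ P' : Sylow 3 G, (P : Subgroup ↥L).map L.subtype = (P' : Subgroup G) := by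
  have two : (2 : ZMod 3) ≠ 0 := by decide
  have h := fg22 hD hprim h22
  obtain ⟨c, l, i⟩ := h.lev.lb22
  obtain ⟨⟨e⟩, k⟩ := o7_22 l (fun g hg => h.one (i ▸ hg)) (i ▸ h.pg.conj)
  refine ⟨_, le_antisymm ((Subgroup.closure_le _).2 fun _ a => a.2) (Subgroup.closure_mono ?_), ⟨e⟩,
    fun P => ?_⟩
  · rintro _ ⟨p, hp, rfl⟩
    exact ⟨i ▸ mem_Im ((by decide : ∀ p ∈ [695, 1, 3, 11, 29, 45, 14, 33], p < 3510) p hp),
      Subgroup.subset_closure ⟨p, hp, rfl⟩⟩
  have : Fact (Nat.Prime 3) := ⟨by norm_num⟩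
  refine ⟨(P.isPGroup'.map _).toSylow ?_, rfl⟩
  rw [Subgroup.index_map_subtype]
  refine fun d => ((Nat.Prime.dvd_mul (by norm_num)).1 d).elim P.not_dvd_index fun d => ?_
  have c1 := H11.IsQuad.card_isom_odd 3 (H11.isQuad_odd 3 (ZMod 3)) (H11.bOdd_sep 3 two)
    (H11.wittIdx_odd 3 two) (by simp)
  have c2 := (commutator _).index_mul_card.symm.trans (congrArg (· * _)
    ((H11.isQuad_odd 3 (ZMod 3)).index_commutator_of_odd (H11.bOdd_sep 3 two) two (by simp)))
  have c3 := Subgroup.index_mul_card (Subgroup.center (commutator (H11.Isom (H11.bOdd 3 (ZMod 3)) (quadFormOdd 3 (ZMod 3)))))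
  have c4 := Nat.card_congr (e.trans (H11.pomegaEquiv (H11.isQuad_odd 3 (ZMod 3)))).toEquiv
  simp only [Nat.card_zmod, Finset.prod_range_succ, Finset.prod_range_zero] at c1
  have c5 : Nat.card (Subgroup.closure (Pts c [695, 1, 3, 11, 29, 45, 14, 33])) = 4585351680 :=
    le_antisymm (c4.le.trans ((Nat.le_of_dvd (by omega) ⟨_, c3.symm⟩).trans (by omega))) k
  have c6 := Subgroup.index_mul_card (Subgroup.closure (Pts c [695, 1, 3, 11, 29, 45, 14, 33]))
  rw [c5, h.card22] at c6
  omega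

end Cfsg.Agent.S5517
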