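import Cfsg.Statements.S5521
import Cfsg.Agent.L1.Fix

set_option autoImplicit false
open Cfsg

namespace Cfsg.Agent.S5521

open Cfsg.Agent.H14 MulAction
open scoped Pointwise

/-- The Mathieu group M₂₄ in its natural action on the 24 coordinate positions of the binary Golay code has minimal base size exactly 7: every set of at most 6 positions is fixed pointwise by some non-identity element of M₂₄, while some set of 7 positions is fixed pointwise only by the identity. -/
theorem result :
    (∀ B : Finset Cfsg.GolayPt, B.card ≤ 6 → ∃ g ∈ Cfsg.M24, g ≠ 1 ∧ ∀ b ∈ B, g b = b) ∧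
    (∃ B : Finset Cfsg.GolayPt, B.card = 7 ∧ ∀ g ∈ Cfsg.M24, (∀ b ∈ B, g b = b) → g = 1) := by
  refine ⟨fun B hB => ?_, gC.set 0x80003f, by decide, fun g hg h => ?_⟩
  · obtain ⟨E, hE, -, h6⟩ := Finset.exists_subsuperset_card_eq (Finset.subset_univ B) hB
      (by decide : 6 ≤ (Finset.univ : Finset GolayPt).card)
    have key : ∀ (S : CSub A24) (k : M24), (∀ g, g ∈ S.K ↔ ∀ p ∈ k • E, g • p = p) → 1 < S.ord →
        ∃ g ∈ M24, g ≠ 1 ∧ ∀ b ∈ B, g b = b := fun S k h h1 => by
      obtain ⟨g, hg, hne⟩ := (Subgroup.bot_or_exists_ne_one S.K).resolve_left fun e => by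
        rw [← S.card_eq, e, Subgroup.card_bot] at h1
        omega
      refine ⟨_, (k⁻¹ * g * k).2, fun e => hne ?_, fun b hb => (fix_conj_iff (k := k)
        (g := k⁻¹ * g * k)).mp (by simpa [mul_assoc] using (h g).mp hg) b (hE hb)⟩
      have : k⁻¹ * g * k = 1 := Subtype.ext e
      simpa [mul_assoc, inv_mul_eq_one] using this
    obtain ⟨k, e | e⟩ := six_cases h6
    · exact key S18 k (fun g => e ▸ mem_S18') (by decide)
    · exact key S6n k (fun g => e ▸ mem_S6n) (by decide)
  · have : g ∈ gC.fixS M24 0x80003f := gC.mem_fixS.mpr ⟨hg, h⟩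
    rwa [fixS_base, Subgroup.mem_bot] at this

end Cfsg.Agent.S5521
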