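import Cfsg.Statements.S5529
import Mathlib
import Cfsg.Agent.L1.Inv

set_option autoImplicit false
open Cfsg

namespace Cfsg.Agent.S5529

open scoped commutatorElement

open H14 MulAction Module

/-- at least `k` cycles -/
def Cyc (g : M24) (k : ℕ) : Prop := ∃ c : GolayPt → Fin k, Function.Surjective c ∧ ∀ x, c (g • x) = c x

theorem Cyc.conj {g : M24} {k : ℕ} (h : M24) (H : Cyc (h * g * h⁻¹) k) : Cyc g k := by
  obtain ⟨c, h1, h2⟩ := H
  exact ⟨fun x => c (h • x), h1.comp (MulAction.surjective h), fun x => by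
    simpa [mul_smul] using h2 (h • x)⟩

theorem Cyc.zpowers {e g : M24} {k : ℕ} (H : Cyc e k) (h : g ∈ Subgroup.zpowers e) : Cyc g k := by
  obtain ⟨n, rfl⟩ := (mem_powers_iff_mem_zpowers.2 h :)
  obtain ⟨c, h1, h2⟩ := H
  refine ⟨c, h1, fun x => ?_⟩
  clear h
  induction n with
  | zero => simp
  | succ n ih => simp only [pow_succ', mul_smul, h2] at ih ⊢; exact ih

theorem cyc_el {T : ℕ} (k t : ℕ) [NeZero k] (h : A24.okb T = true ∧
    (∀ j : Fin k, ∃ x : GolayPt, Fin.ofNat k (get 5 t (gC.idx x)) = j) ∧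
    ∀ i < 24, get 5 t (gC.idx (gC.pt (get 5 T i))) = get 5 t i) : Cyc (A24.el T) k :=
  ⟨fun x => Fin.ofNat k (get 5 t (gC.idx x)), h.2.1, fun x => congrArg (Fin.ofNat k) (by
    conv_lhs => rw [← gC.pt_idx x, A24_smul_pt (A24_ok h.1) (gC.idx_lt x), h.2.2 _ (gC.idx_lt x)])⟩

theorem cyc_syl {T p k m : ℕ} (hp : p.Prime) (ok : A24.ok T) (o : orderOf (A24.el T) = p)
    (H : Cyc (A24.el T) k) (hm : m * p = 244823040 ∧ ¬ p ∣ m) {g : M24} (h : orderOf g = p) : Cyc g k := by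
  obtain ⟨c, -, e⟩ := exists_conj_mem_of_pow (K := ⊤) (P := Subgroup.zpowers (A24.el T)) (g := g) (j := 1)
    hp le_top trivial (by rw [pow_one, ← h, pow_orderOf_eq_one]) (n := m)
    (by rw [Nat.card_zpowers, o, hm.1, Subgroup.card_top, card_M24]) hm.2
  exact (H.zpowers e).conj c

theorem cyc {g : M24} (hg : g ∈ S23.K) : Cyc g 1 ∧ (orderOf g = 2 → Cyc g 16) ∧ (orderOf g = 3 → Cyc g 12) ∧
    (orderOf g = 5 → Cyc g 8) ∧ (orderOf g = 7 → Cyc g 6) := by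
  refine ⟨⟨fun _ => 0, fun j => ⟨none, Subsingleton.elim _ _⟩, fun _ => rfl⟩, fun h => ?_, fun h => ?_,
    fun h => ?_, fun h => ?_⟩
  · obtain ⟨k, e⟩ := inv_conj_A h hg
    exact .conj k (e ▸ cyc_el 16 0x7b0c93adc4535885a928398a418820 (by decide +kernel))
  · obtain ⟨k, e⟩ := three_conj_A h (Finset.card_ne_zero.2 ⟨none, mem_fixP.2 hg⟩)
    exact .conj k (e ▸ cyc_el 12 0x3a5674a92241063390062808218820 (by decide +kernel))
  · have ok : A24.ok 0xbb434988ab4b2b005a4878c8689d4e := A24_ok (by decide +kernel)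
    exact cyc_syl (m := 48964608) (by norm_num) ok (A24.orderOf_prime ok (by norm_num) (by decide +kernel))
      (cyc_el 8 0x3842628860100200044410c6318820 (by decide +kernel)) (by decide) h
  · have ok : A24.ok 0xbcda874609b0a4b2a88f09c7535180 := A24_ok (by decide +kernel)
    exact cyc_syl (m := 34974720) (by norm_num) ok (A24.orderOf_prime ok (by norm_num) (by decide +kernel))
      (cyc_el 6 0x2886210c6310861090620842308820 (by decide +kernel)) (by decide) h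

/-- the permutation module -/
noncomputable def D (g : M24) : (GolayPt → ℚ) →ₗ[ℚ] (GolayPt → ℚ) :=
  LinearMap.funLeft ℚ ℚ (g • ·) - LinearMap.id

theorem D_apply (g : M24) (f : GolayPt → ℚ) (p : GolayPt) : D g f p = f (g • p) - f p := rfl

theorem rank_le {g : M24} {k : ℕ} (h : Cyc g k) : finrank ℚ (LinearMap.range (D g)) + k ≤ 24 := by
  obtain ⟨c, h1, h2⟩ := h
  have a := (D g).finrank_range_add_finrank_ker
  have b := Submodule.finrank_mono (show LinearMap.range (LinearMap.funLeft ℚ ℚ c) ≤ LinearMap.ker (D g) by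
    rintro _ ⟨f, rfl⟩
    exact funext fun p => sub_eq_zero.2 (congrArg f (h2 p)))
  rw [LinearMap.finrank_range_of_inj (LinearMap.funLeft_injective_of_surjective _ _ _ h1),
    finrank_fin_fun] at b
  rw [finrank_fintype_fun_eq_card, card_golayPt] at a
  omega

theorem scott {x y : M24} {a b c : ℕ} (hx : Cyc x a) (hy : Cyc y b) (hz : Cyc (x * y) c)
    (h : S23.K ≤ Subgroup.closure {x, y}) : a + b + c ≤ 28 := by
  classical
  have tr : ∀ {β : Type} (f : GolayPt → β), (∀ p, f (x • p) = f p) → (∀ p, f (y • p) = f p) →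
      ∀ p, p ≠ none → f p = f (some 0) := fun f h1 h2 p hp => by
    obtain ⟨g, g1, rfl⟩ := m24_two (p := none) (q := some 0) (p' := none) (by decide) hp.symm
    refine Subgroup.closure_induction (p := fun g _ => ∀ p, f (g • p) = f p) ?_ (by simp)
      (fun a b _ _ ha hb p => by rw [mul_smul, ha, hb]) (fun a _ ha p => by
        rw [← ha, smul_inv_smul]) (h g1) _
    rintro _ (rfl | rfl)
    exacts [h1, h2]
  have l1 := rank_le hy
  have l2 := rank_le hz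
  have l3 := Submodule.finrank_sup_add_finrank_inf_eq (LinearMap.range (D y)) (LinearMap.range (D (x * y)))
  obtain ⟨c, c1, c2⟩ := hx
  let φ := (D y).comp (LinearMap.funLeft ℚ ℚ c)
  have l4 := φ.finrank_range_add_finrank_ker
  have l5 := Submodule.finrank_mono (show LinearMap.range φ ≤
      LinearMap.range (D y) ⊓ LinearMap.range (D (x * y)) by
    rintro _ ⟨f, rfl⟩
    exact ⟨⟨_, rfl⟩, LinearMap.funLeft ℚ ℚ c f, funext fun p => by
      simp only [φ, LinearMap.comp_apply, D_apply, LinearMap.funLeft_apply, mul_smul, c2]⟩)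
  have l6 : finrank ℚ (LinearMap.ker φ) ≤ 2 := by
    refine (LinearMap.finrank_le_finrank_of_injective (f := (LinearMap.funLeft ℚ ℚ
      ![c none, c (some 0)]).domRestrict (LinearMap.ker φ)) ((injective_iff_map_eq_zero _).2
        fun f hf => Subtype.ext (funext fun j => ?_))).trans_eq (finrank_fin_fun ℚ)
    obtain ⟨p, rfl⟩ := c1 j
    by_cases hp : p = none
    · rw [hp]; exact congrFun hf 0
    · exact (tr (fun p => f.1 (c p)) (fun p => congrArg _ (c2 p))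
        (fun p => sub_eq_zero.1 (congrFun f.2 p)) p hp).trans (congrFun hf 1)
  set W := LinearMap.range (D y) ⊔ LinearMap.range (D (x * y))
  have k : ∀ g : M24, LinearMap.range (D g) ≤ W → ∀ p, W.mkQ (Pi.single (g • p) 1) = W.mkQ (Pi.single p 1) :=
    fun g hg p => ((Submodule.Quotient.eq _).2 (hg ⟨Pi.single (g • p) 1, funext fun q => by
      simp [D_apply, Pi.single_apply]⟩)).symm
  have k2 := k y le_sup_left
  have k3 := tr (fun p => W.mkQ (Pi.single p 1)) (fun p => by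
    obtain ⟨p, rfl⟩ := MulAction.surjective y p
    exact (mul_smul x y p ▸ k _ le_sup_right p).trans (k2 p).symm) k2
  have l7 : finrank ℚ ((GolayPt → ℚ) ⧸ W) ≤ 2 := by
    refine (finrank_le_of_span_eq_top (v := ![W.mkQ (Pi.single none 1), W.mkQ (Pi.single (some 0) 1)])
      (eq_top_iff.2 fun v _ => ?_)).trans_eq (Fintype.card_fin 2)
    obtain ⟨v, rfl⟩ := W.mkQ_surjective v
    rw [pi_eq_sum_univ' v, map_sum]
    refine Submodule.sum_mem _ fun p _ => ?_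
    rw [map_smul]
    refine Submodule.smul_mem _ _ (Submodule.subset_span ?_)
    by_cases hp : p = none
    · exact ⟨0, hp ▸ rfl⟩
    · exact ⟨1, (k3 p hp).symm⟩
  have l8 := W.finrank_quotient_add_finrank
  rw [finrank_fintype_fun_eq_card, card_golayPt] at l8
  rw [finrank_fin_fun] at l4
  omega

/-- generating pairs -/
def DL : List ((ℕ × ℕ × ℕ) × ℕ × ℕ × ℕ × ℕ) :=
  [((2, 5, 11), 0xbd8402492a439a75c22f614d31d434, 0xb9d52a0ccba95cc6da337820440921, 0x3eaeaefebae, 0x3fefafbbabbb),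
    ((2, 5, 23), 0xbd9209c84f835cc1a2aa394c45c434, 0xb8a155a22c7d02e3aa4531013b3469, 0xbfabafeebf, 0xebeaeffffeba),
    ((2, 7, 7), 0xb9ab422d900a1b19012e3d873289ea, 0xbb943992225c1f59058945814694e6, 0x1aeaeffbbaea, 0xaabfeebfefa),
    ((2, 7, 11), 0xb94549c9e98b1ae2220a39acb1d401, 0xbcd68a84ad8b944182d24b290389e6, 0x3bafeabbfaba, 0x7ebfbffbfeef),
    ((2, 7, 23), 0xbdab1816930b9ac52d2231e44021e3, 0xb86081480f74cd15946cad09651d2d, 0x1aebefbfebf, 0x2fbebeeeaf),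
    ((2, 11, 11), 0xbdaa833a117c96c690b414d2a19c20, 0xbb00a69e06a38531c4962850f92ea9, 0xaaeeefbaaba, 0x7eeaebfbfba),
    ((2, 11, 23), 0xbb5329d0e17bacc316a38ad4440a00, 0xbc5e438c2a2c8d4acd2d758500216c, 0xefeabbfbbea, 0x3babaefaefea),
    ((2, 23, 23), 0xbb2b443cd0911b608d333c40e50965, 0xbd5b0481530ae88b1d86216437444f, 0x7bfbfeeafbe, 0xbbfababbbf),
    ((3, 3, 11), 0xbb4ea9b1d07948b926883563618402, 0xba09529e2e005b25a92263c749da06, 0x2dfb6eef, 0x37deddff6db),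
    ((3, 3, 23), 0xbc5d4992169240762aad58caf088c8, 0xb9675a49a35116c8992e3bc480da00, 0x5def7bf777, 0xdb7fdbdefa),
    ((3, 5, 5), 0xbb6b498910249432d9e062cc93b831, 0xbaa4748e246bed0338229d4a85b280, 0x3bdbbadada, 0x3ebbfab77),
    ((3, 5, 7), 0xbb2a63ce0a7968174449935641a2c0, 0xb9155008762ac2c4c9a899a0f3d1d1, 0xb6ebdf6ae, 0xffb7dbeb77),
    ((3, 5, 11), 0xba2b09a46b6c58fa588a398b270041, 0xbd8a4355001b6125b121709538d1e7, 0xff77ffdb, 0x3bbabb6de),
    ((3, 5, 23), 0xb9daf1ca3034c0a289364502473175, 0xbd8b46aa7103c8caacc11ba50120e9, 0xbdbb7db6, 0x3fdb7bbbfd),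
    ((3, 7, 7), 0xbd9f55aa42a0db3645057192438600, 0xba93404243a99ee6848b3da289b045, 0x16fafaefee, 0xfdef6f6),
    ((3, 7, 11), 0xb9e0a355b27a0967052b60cb198a80, 0xba24b981e1812c5545d56992260e87, 0x5ab7eaf, 0x2ddfdbbe),
    ((3, 7, 23), 0xb860954a67459a45c446abca01d1cc, 0xbc0744856f9026e622b689c8d28946, 0x7fbfadfe, 0x1fdfeaf7d),
    ((3, 11, 11), 0xbadd4080957c0ac1a9b391922b4507, 0xbc42eb4db5198893d002540ac5c9e8, 0xafefdf77d, 0x16eddbead),
    ((3, 11, 23), 0xbd93344a2530dcf58054530906d427, 0xbd5d66404553d209b6285d06709892, 0x3dbfebbb6d, 0x16ff7db7ed),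
    ((3, 23, 23), 0xbbaad9c951b3c6b4408c39925a0402, 0xbaacd13a806191322ce3a86057c931, 0xdbbedfaea, 0x5daeeddef),
    ((5, 5, 5), 0xb8e13448ac8b524ad0c138acb7b940, 0xb9674699500b812608e97922bad903, 0x17abed7de, 0xbeeaebfdd),
    ((5, 5, 7), 0xbcd2d3ae0fa8c920aa282d8cea080c, 0xb9664018417a6d05d64a38e8d73228, 0xb7dbaf6d, 0x1bfdaff76),
    ((5, 5, 11), 0xbc24b200f444cb664535119cd50c2f, 0xbd82b512061962c99daea2648a880f, 0xabddbb7e, 0x1ddabb6ee),
    ((5, 5, 23), 0xbc02b9b1f42a9ae1a23230089b08f5, 0xbad1220622a98f42a9309d9c063c6d, 0x2dafbbdb6, 0x7d5fbdf),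
    ((5, 7, 7), 0xb85a59408f6555359ed17191418049, 0xb80d471dabb0e6f628a1a924944222, 0xd7b5fee, 0x2b5debda),
    ((5, 7, 11), 0xbac6db250699dd414a2a654b023c20, 0xbd4f45257062012216d1784cd14c6e, 0x3bf6aebfb, 0x75eefbd),
    ((5, 7, 23), 0xba8c968ac37ce80595c8ac09138592, 0xbd1cfac9682c5530c0c74b44019196, 0x2eeabd756, 0x1b5b77fd7),
    ((5, 11, 11), 0xbac929da20729a1455942c0cf48c47, 0xba4f13018fa206d228a192e6ead850, 0xaeff6f7a, 0x16f5eeb7a),
    ((5, 11, 23), 0xbd9059c4815d0ceaaa001486d624ef, 0xba0a12444da0c109bd6a499d6654f2, 0x6d5b6d5, 0xab577ddb5),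
    ((5, 23, 23), 0xbb6066268b03e4e504e5b222418ab3, 0xb8a098d82355168acc923158f73407, 0xaf6eef76, 0xdebd6ba),
    ((7, 7, 7), 0xbbd159b0f1a0550682c51993223962, 0xbd809a058e91a22835eb394889d46a, 0x15bd7df6b, 0x3adf57f7),
    ((7, 7, 11), 0xbd6126cc4a1b82559ac4782878a189, 0xba4641498e5940f554d03d1b38d901, 0xed5eeab5, 0xbddebb7a),
    ((7, 7, 23), 0xb99219948878d5172ced602c285654, 0xb822e13e75b20aa20e4ca1a093b42b, 0x2b5fb6ed, 0x2f57fbd76),
    ((7, 11, 11), 0xba493ac4ce52df64400d150f21b025, 0xbbc8db46090d272aa14b3b98510066, 0xdfdb5efa, 0x17d7aebad),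
    ((7, 11, 23), 0xbd516299ab63a871be62902040c52a, 0xb90474286f0c4d0931cb2cd35b51a0, 0x2eaddddaf, 0xdf5aedfd),
    ((7, 23, 23), 0xba09433c2253a2d98c0c926cb81cb5, 0xba02691015a2623839f35358bb14e2, 0x37dabf776, 0x15dbdd),
    ((11, 11, 11), 0xbc902252260a5d0395601b59554ecf, 0xbd1b02d94e21c7213e7102d8645429, 0x57b5abb6, 0x5d7df7dad),
    ((11, 11, 23), 0xb865073635b0c444d1ea2ad0660267, 0xbc58e93c4da90095582ba226619e05, 0x1bffeffb, 0x1daaff5b7),
    ((11, 23, 23), 0xbd4b03a44c2182fa594d049111cdcb, 0xba24a850752b02b9d80921e22339ed, 0x3aeab5db7, 0x2efbb6bdb),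
    ((23, 23, 23), 0xba4a26288ea180f81c728b573a86c8, 0xb9a0b52663b02250a0f2a544d2398f, 0x6baafd, 0x2bd6d)]

/-- the value of a word -/
noncomputable def wd (x y w n : ℕ) : ℕ := Nat.rec (motive := fun _ => ℕ) A24.one
  (fun i ih => force ih fun a => A24.mul a (nth [A24.one, x, y, A24.mul x y] (get 2 w i))) n

theorem wd_spec {x y : ℕ} (hx : A24.ok x) (hy : A24.ok y) (w n : ℕ) :
    A24.ok (wd x y w n) ∧ A24.el (wd x y w n) ∈ Subgroup.closure {A24.el x, A24.el y} := by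
  have a : A24.el x ∈ Subgroup.closure {A24.el x, A24.el y} := Subgroup.subset_closure (by simp)
  have b : A24.el y ∈ Subgroup.closure {A24.el x, A24.el y} := Subgroup.subset_closure (by simp)
  have k : ∀ T ∈ [A24.one, x, y, A24.mul x y], A24.ok T ∧ A24.el T ∈ Subgroup.closure {A24.el x, A24.el y} := by
    simp only [List.forall_mem_cons, List.not_mem_nil, false_imp_iff, implies_true, and_true]
    exact ⟨⟨A24.ok_one, A24.el_one ▸ one_mem _⟩, ⟨hx, a⟩, ⟨hy, b⟩, A24.ok_mul _ _ hx hy,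
      (A24.el_mul _ _ hx hy).symm ▸ mul_mem a b⟩
  induction n with
  | zero => exact k _ (by simp [wd])
  | succ n ih =>
    have := k _ (nth_mem (show get 2 w n < 4 from get_lt 2 w n))
    rw [show wd x y w (n + 1) = A24.mul (wd x y w n) (nth [A24.one, x, y, A24.mul x y] (get 2 w n)) from
      force_eq (wd x y w n) fun a => A24.mul a (nth [A24.one, x, y, A24.mul x y] (get 2 w n))]
    exact ⟨A24.ok_mul _ _ ih.1 this.1, (A24.el_mul _ _ ih.1 this.1).symm ▸ mul_mem ih.2 this.2⟩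

/-- prime order -/
noncomputable def ob (T p : ℕ) : Bool := band (Nat.beq (A24.pow T p) A24.one) (bnot (Nat.beq T A24.one))

set_option maxRecDepth 100000 in
theorem chk : ∀ d ∈ DL, (A24.okb d.2.1 = true ∧ A24.okb d.2.2.1 = true) ∧
    (S23s.test d.2.1 = true ∧ S23s.test d.2.2.1 = true) ∧ (ob d.2.1 d.1.1 = true ∧ ob d.2.2.1 d.1.2.1 = true ∧
      ob (A24.mul d.2.1 d.2.2.1) d.1.2.2 = true) ∧ ∀ T ∈ S23s.gens, T = wd d.2.1 d.2.2.1 d.2.2.2.1 24 ∨
        T = wd d.2.1 d.2.2.1 d.2.2.2.2 24 := by decide +kernel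

theorem closure_iff {x y : S23s.K} :
    Subgroup.closure {equivM23 x, equivM23 y} = ⊤ ↔ S23s.K ≤ Subgroup.closure {x.1, y.1} := by
  rw [← Set.image_pair equivM23, ← MulEquiv.coe_toMonoidHom, ← MonoidHom.map_closure,
    ← Subgroup.map_top_of_surjective equivM23.toMonoidHom equivM23.surjective,
    (Subgroup.map_injective equivM23.injective).eq_iff,
    show ({x.1, y.1} : Set M24) = _ from (Set.image_pair S23s.K.subtype x y).symm,
    ← MonoidHom.map_closure, eq_top_iff, ← Subgroup.map_le_map_iff_of_injective S23s.K.subtype_injective,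
    ← MonoidHom.range_eq_map, Subgroup.range_subtype]

/-- Generation of the Mathieu group M₂₃ (the stabiliser of a point in the Mathieu group M₂₄ acting on 24 points) by triples of prime orders. Let p ≤ q ≤ r be primes dividing |M₂₃| = 10200960 = 2⁷·3²·5·7·11·23, not both p and q equal to 2. Then M₂₃ contains elements x, y, z of orders p, q, r with xyz = 1 and ⟨x, y⟩ = M₂₃ if and only if (p, q, r) is none of: (2, 3, r) for any r, (2, 5, 5), (2, 5, 7), (3, 3, 3), (3, 3, 5), (3, 3, 7). -/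
theorem result (p q r : ℕ) (hp : p.Prime) (hq : q.Prime)
    (hr : r.Prime) (hpq : p ≤ q) (hqr : q ≤ r) (hp2 : ¬ (p = 2 ∧ q = 2))
    (hdvd : p ∣ 10200960 ∧ q ∣ 10200960 ∧ r ∣ 10200960) :
    (∃ x y z : Cfsg.Spor.M23, orderOf x = p ∧ orderOf y = q ∧ orderOf z = r ∧ x * y * z = 1 ∧
        Subgroup.closure {x, y} = ⊤) ↔
      ¬ ((p = 2 ∧ q = 3) ∨ (p = 2 ∧ q = 5 ∧ r = 5) ∨ (p = 2 ∧ q = 5 ∧ r = 7) ∨ (p = 3 ∧ q = 3 ∧ r ≤ 7)) := by
  have pr : ∀ p : ℕ, p.Prime → p ∣ 10200960 → p ∈ [2, 3, 5, 7, 11, 23] := fun p hp h => by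
    have : p ∈ Nat.primeFactorsList 10200960 := (Nat.mem_primeFactorsList (by norm_num)).2 ⟨hp, h⟩
    simp at this ⊢
    omega
  constructor
  · rintro ⟨x, y, z, ox, oy, oz, e, h⟩ hn
    obtain ⟨x, rfl⟩ := equivM23.surjective x
    obtain ⟨y, rfl⟩ := equivM23.surjective y
    rw [← inv_eq_of_mul_eq_one_right e, orderOf_inv, ← map_mul] at oz
    rw [MulEquiv.orderOf_eq, ← Subgroup.orderOf_coe] at ox oy oz
    have s := fun {a b c} ha hb hc => scott (a := a) (b := b) (c := c) ha hb hc (closure_iff.1 h)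
    obtain ⟨-, x2, x3, -⟩ := cyc x.2
    obtain ⟨-, -, y3, y5, -⟩ := cyc y.2
    obtain ⟨z1, -, z3, z5, z7⟩ := cyc (x * y).2
    rcases hn with ⟨rfl, rfl⟩ | ⟨rfl, rfl, rfl⟩ | ⟨rfl, rfl, rfl⟩ | ⟨rfl, rfl, l⟩
    · exact absurd (s (x2 ox) (y3 oy) z1) (by norm_num)
    · exact absurd (s (x2 ox) (y5 oy) (z5 oz)) (by norm_num)
    · exact absurd (s (x2 ox) (y5 oy) (z7 oz)) (by norm_num)
    · obtain rfl | rfl | rfl : r = 3 ∨ r = 5 ∨ r = 7 := by have := pr r hr hdvd.2.2; simp at this; omega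
      exacts [absurd (s (x3 ox) (y3 oy) (z3 oz)) (by norm_num), absurd (s (x3 ox) (y3 oy) (z5 oz)) (by norm_num),
        absurd (s (x3 ox) (y3 oy) (z7 oz)) (by norm_num)]
  · intro hn
    obtain ⟨d, hd, e⟩ : ∃ d ∈ DL, d.1 = (p, q, r) := (by decide +kernel : ∀ p ∈ [2, 3, 5, 7, 11, 23],
      ∀ q ∈ [2, 3, 5, 7, 11, 23], ∀ r ∈ [2, 3, 5, 7, 11, 23], p ≤ q → q ≤ r → ¬ (p = 2 ∧ q = 2) →
        ¬ ((p = 2 ∧ q = 3) ∨ (p = 2 ∧ q = 5 ∧ r = 5) ∨ (p = 2 ∧ q = 5 ∧ r = 7) ∨ (p = 3 ∧ q = 3 ∧ r ≤ 7)) →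
          ∃ d ∈ DL, d.1 = (p, q, r)) p (pr p hp hdvd.1) q (pr q hq hdvd.2.1) r (pr r hr hdvd.2.2) hpq hqr hp2 hn
    obtain ⟨⟨a1, a2⟩, ⟨b1, b2⟩, ⟨c1, c2, c3⟩, w⟩ := chk d hd
    have a1 := A24_ok a1
    have a2 := A24_ok a2
    rw [e] at c1 c2 c3
    let x : S23s.K := ⟨_, (S23s.test_iff _ a1).1 b1⟩
    let y : S23s.K := ⟨_, (S23s.test_iff _ a2).1 b2⟩
    refine ⟨equivM23 x, equivM23 y, (equivM23 (x * y))⁻¹, ?_, ?_, ?_, by simp, closure_iff.2 (S23s.le_iff.2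
      fun T hT => by rcases w T hT with rfl | rfl <;> exact (wd_spec a1 a2 _ _).2)⟩
    · rw [MulEquiv.orderOf_eq, ← Subgroup.orderOf_coe]; exact A24.orderOf_prime a1 hp c1
    · rw [MulEquiv.orderOf_eq, ← Subgroup.orderOf_coe]; exact A24.orderOf_prime a2 hq c2
    · rw [orderOf_inv, MulEquiv.orderOf_eq, ← Subgroup.orderOf_coe]
      exact (congrArg orderOf (A24.el_mul _ _ a1 a2)).symm.trans (A24.orderOf_prime (A24.ok_mul _ _ a1 a2) hr c3)

end Cfsg.Agent.S5529
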