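import Cfsg.Statements.S5562
import Mathlib
import Cfsg.Agent.H19.Tr1

set_option autoImplicit false
open Cfsg

namespace Cfsg.Agent.S5562

open Cfsg.Agent.H19


/-- Let G be a finite group, d an involution of G whose conjugates pairwise have products of odd order, and x any involution of G. Then the conjugacy class of d is the disjoint union, over the conjugates a of d commuting with x, of the sets of conjugates of d commuting with ax: every conjugate of d commutes with ax for exactly one conjugate a of d that commutes with x. -/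
theorem result {G : Type*} [Group G] [Finite G] (d : G) (hd : orderOf d = 2)
    (hodd : ∀ a ∈ conjugatesOf d, ∀ b ∈ conjugatesOf d, Odd (orderOf (a * b)))
    (x : G) (hx : orderOf x = 2) :
    ∀ e ∈ conjugatesOf d,
      ∃! a : G, a ∈ conjugatesOf d ∧ Commute a x ∧ Commute e (a * x) := by
  have cj : ∀ g, ∀ a ∈ conjugatesOf d, J g a ∈ conjugatesOf d := fun g a ha =>
    IsConj.trans ha (isConj_iff.2 ⟨g, rfl⟩)
  have sq : ∀ a ∈ conjugatesOf d, a * a = 1 := fun a ha => by
    obtain ⟨g, rfl⟩ := isConj_iff.1 ha
    have := pow_orderOf_eq_one d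
    rw [hd, pow_two] at this
    rw [← J_def, ← J_map_mul, this]; simp [J]
  have x2 : x * x = 1 := by have := pow_orderOf_eq_one x; rwa [hx, pow_two] at this
  intro e he
  have e2 := sq e he
  obtain ⟨k, hk⟩ := hodd e he _ (cj x e he)
  have u2 : e * J x e = (e * x) ^ 2 := by rw [J_def, inv_of_sq x2, pow_two]; simp only [mul_assoc]
  have z2 : (e * x) ^ (2 * k + 1) * (e * x) ^ (2 * k + 1) = 1 := by
    rw [← pow_add, ← two_mul, pow_mul, ← u2, ← hk, pow_orderOf_eq_one]
  have inv : ∀ m : ℕ, e * (e * x) ^ m = ((e * x) ^ m)⁻¹ * e := by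
    intro m
    have : J e (e * x) = (e * x)⁻¹ := by
      rw [J_def, mul_inv_rev, inv_of_sq e2, inv_of_sq x2, ← mul_assoc, e2, one_mul]
    have h2 : J e ((e * x) ^ m) = ((e * x) ^ m)⁻¹ := by
      rw [← inv_pow, ← this, J_def, J_def, conj_pow]
    rw [← h2, J_def]; simp
  have ze : Commute e ((e * x) ^ (2 * k + 1)) := by
    have := inv (2 * k + 1)
    rw [inv_of_sq z2] at this
    exact this
  have ea : J ((e * x) ^ k) e * x = (e * x) ^ (2 * k + 1) := by
    have := inv k
    have h3 : e * ((e * x) ^ k)⁻¹ = (e * x) ^ k * e := by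
      rw [eq_inv_mul_iff_mul_eq] at this
      rw [mul_inv_eq_iff_eq_mul, mul_assoc]
      rw [← mul_assoc] at this
      rw [← mul_assoc, this]
    rw [J_def, mul_assoc _ e, h3, pow_succ, two_mul, pow_add]
    simp only [mul_assoc]
  have zx : Commute ((e * x) ^ (2 * k + 1)) x := by
    have c1 : Commute ((e * x) ^ (2 * k + 1)) (e * x) := (Commute.refl _).pow_left _
    have := ze.symm.mul_right c1
    rwa [← mul_assoc, e2, one_mul] at this
  refine ⟨J ((e * x) ^ k) e, ⟨cj _ e he, ?_, by rw [ea]; exact ze⟩, ?_⟩
  · have : J ((e * x) ^ k) e = (e * x) ^ (2 * k + 1) * x := by rw [← ea, mul_assoc, x2, mul_one]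
    rw [this]
    exact zx.mul_left (Commute.refl x)
  · have key : ∀ a ∈ conjugatesOf d, Commute e (a * x) → (a * e) ^ 2 = x * e * x * e := by
      intro a ha c
      have : a * e * a = x * e * x := by
        have h1 : a * (e * (a * x)) * x = a * (a * x * e) * x := by rw [c.eq]
        have h2 : a * (e * (a * x)) * x = a * e * a * (x * x) := by simp only [mul_assoc]
        have h3 : a * (a * x * e) * x = a * a * x * e * x := by simp only [mul_assoc]
        rw [h2, h3, x2, sq a ha, mul_one, one_mul] at h1
        exact h1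
      rw [← this, pow_two]; simp only [mul_assoc]
    have uq : ∀ a ∈ conjugatesOf d, ∀ b ∈ conjugatesOf d, Commute e (a * x) → Commute e (b * x) →
        a = b := by
      intro a ha b hb ca cb
      obtain ⟨r, hr⟩ := (hodd a ha e he).mul (hodd b hb e he)
      have h1 : (a * e) ^ (2 * r + 1) = 1 := by rw [← hr, pow_mul, pow_orderOf_eq_one, one_pow]
      have h2 : (b * e) ^ (2 * r + 1) = 1 := by
        rw [← hr, mul_comm (orderOf _), pow_mul, pow_orderOf_eq_one, one_pow]
      rw [pow_succ, pow_mul, key a ha ca] at h1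
      rw [pow_succ, pow_mul, key b hb cb] at h2
      exact mul_right_cancel (mul_left_cancel (h1.trans h2.symm))
    rintro b ⟨hb, -, cb⟩
    exact uq b hb _ (cj _ e he) cb (by rw [ea]; exact ze)

end Cfsg.Agent.S5562
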