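import Cfsg.Statements.S5712
import Cfsg.Agent.H26.SR2
-- import your own Cfsg.Agent.* helpers here

set_option autoImplicit false
open Cfsg

namespace Cfsg.Agent.S5712

open H26.MI.SQ

/-- Let F be a finite field of characteristic two, n ≥ 2, V = F^{2n} with the non-degenerate alternating form f(u, v) = Σ (u_i v_{n+i} + u_{n+i} v_i), and G the group of invertible matrices preserving f. Let a ≠ 0 be a vector, H its stabilizer in G, and X a subgroup of O₂(H) of order |F|^{2n−2} no element of which is a transvection (no element g has g − 1 of rank one). If L is a subgroup of G containing X that acts irreducibly on V (no proper non-zero L-invariant subspace), then L = G, or, for some quadratic form Q on V whose polar form is f, L is the isometry group of Q or its subgroup of the isometries g for which g − 1 has even rank, or |F| = 2, n = 2 and L is isomorphic to the alternating group of degree 6 or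 to the symmetric group of degree 5. -/
theorem result {F : Type*} [Field F] [Fintype F] [CharP F 2] {n : ℕ} (hn : 2 ≤ n) (a : (Fin n ⊕ Fin n → F)) (ha : a ≠ 0)
    (X : Subgroup (GL (Fin n ⊕ Fin n) F)) (hXG : X ≤ Cfsg.preserving (Units.coeHom (Matrix (Fin n ⊕ Fin n) (Fin n ⊕ Fin n) F)) (fun u v : (Fin n ⊕ Fin n → F) => ∑ i : Fin n, (u (Sum.inl i) * v (Sum.inr i) + u (Sum.inr i) * v (Sum.inl i))))
    (hXO : ∀ H : Subgroup (GL (Fin n ⊕ Fin n) F),
      (∀ g : GL (Fin n ⊕ Fin n) F, g ∈ H ↔ (g ∈ Cfsg.preserving (Units.coeHom (Matrix (Fin n ⊕ Fin n) (Fin n ⊕ Fin n) F)) (fun u v : (Fin n ⊕ Fin n → F) => ∑ i : Fin n, (u (Sum.inl i) * v (Sum.inr i) + u (Sum.inr i) * v (Sum.inl i))) ∧ Matrix.mulVec (g : Matrix (Fin n ⊕ Fin n) (Fin n ⊕ Fin n) F) a = a)) →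
      X ≤ (Cfsg.pCore 2 ↥H).map H.subtype)
    (hcard : Nat.card ↥X = Fintype.card F ^ (2 * n - 2))
    (hntv : ∀ x ∈ X, ((x : Matrix (Fin n ⊕ Fin n) (Fin n ⊕ Fin n) F) - 1).rank ≠ 1)
    (L : Subgroup (GL (Fin n ⊕ Fin n) F)) (hXL : X ≤ L) (hLG : L ≤ Cfsg.preserving (Units.coeHom (Matrix (Fin n ⊕ Fin n) (Fin n ⊕ Fin n) F)) (fun u v : (Fin n ⊕ Fin n → F) => ∑ i : Fin n, (u (Sum.inl i) * v (Sum.inr i) + u (Sum.inr i) * v (Sum.inl i))))
    (hirr : ∀ W : Submodule F (Fin n ⊕ Fin n → F), (∀ g ∈ L, ∀ w ∈ W, Matrix.mulVec (g : Matrix (Fin n ⊕ Fin n) (Fin n ⊕ Fin n) F) w ∈ W) → W = ⊥ ∨ W = ⊤) :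
    L = Cfsg.preserving (Units.coeHom (Matrix (Fin n ⊕ Fin n) (Fin n ⊕ Fin n) F)) (fun u v : (Fin n ⊕ Fin n → F) => ∑ i : Fin n, (u (Sum.inl i) * v (Sum.inr i) + u (Sum.inr i) * v (Sum.inl i))) ∨
    (∃ Q : QuadraticForm F (Fin n ⊕ Fin n → F), (∀ u v, QuadraticMap.polar ⇑Q u v = (fun u v : (Fin n ⊕ Fin n → F) => ∑ i : Fin n, (u (Sum.inl i) * v (Sum.inr i) + u (Sum.inr i) * v (Sum.inl i))) u v) ∧
      (L = Cfsg.isometryGroup F ⇑Q ∨
        ∀ g : GL (Fin n ⊕ Fin n) F, g ∈ L ↔ (g ∈ Cfsg.isometryGroup F ⇑Q ∧ Even ((g : Matrix (Fin n ⊕ Fin n) (Fin n ⊕ Fin n) F) - 1).rank))) ∨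
    (Fintype.card F = 2 ∧ n = 2 ∧ (Nonempty (↥L ≃* ↥(alternatingGroup (Fin 6))) ∨ Nonempty (↥L ≃* Equiv.Perm (Fin 5)))) := by
  classical
  have h2 : (2 : F) = 0 := CharTwo.two_eq_zero
  set G := Cfsg.preserving (Units.coeHom (Matrix (Fin n ⊕ Fin n) (Fin n ⊕ Fin n) F)) (fun u v : (Fin n ⊕ Fin n → F) => ∑ i : Fin n, (u (Sum.inl i) * v (Sum.inr i) + u (Sum.inr i) * v (Sum.inl i))) with hG
  have hf : ∀ u v : Fin n ⊕ Fin n → F, ∑ i : Fin n, (u (Sum.inl i) * v (Sum.inr i) +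
      u (Sum.inr i) * v (Sum.inl i)) = H10.spBilin (Fin n) F u v := fun u v => by
    rw [H10.spBilin_apply_sum]
    exact Finset.sum_congr rfl fun i _ => by linear_combination (u (Sum.inl i) * v (Sum.inr i)) * h2
  have mG : ∀ g, g ∈ G ↔ ∃ k, toGL k = g := fun g =>
    ⟨fun h => exists_toGL fun u v => by rw [← hf, ← hf]; exact h u v, by
      rintro ⟨k, rfl⟩ u v
      exact (hf _ _).trans ((H10.sp_form k u v).trans (hf u v).symm)⟩
  have mp : ∀ Y : Subgroup (GL (Fin n ⊕ Fin n) F), Y ≤ G → (Y.comap toGL).map toGL = Y :=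
    fun Y hY => Subgroup.map_comap_eq_self fun g hg => (mG g).1 (hY hg)
  have eqv : ∀ Y : Subgroup (GL (Fin n ⊕ Fin n) F), Y ≤ G → Nonempty (Y ≃* Y.comap toGL) :=
    fun Y hY => ⟨(MulEquiv.subgroupCongr (mp Y hY).symm).trans
      ((Y.comap toGL).equivMapOfInjective _ toGL_inj).symm⟩
  have hO := hXO ((Ge a).map toGL) fun g => ⟨by
    rintro ⟨k, hk, rfl⟩
    exact ⟨(mG _).2 ⟨k, rfl⟩, hk⟩, fun ⟨h1, h3⟩ => by
      obtain ⟨k, rfl⟩ := (mG g).1 h1
      exact ⟨k, h3, rfl⟩⟩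
  haveI : Fact (Nat.Prime 2) := ⟨Nat.prime_two⟩
  have hP : IsPGroup 2 (Cfsg.pCore 2 ↥((Ge a).map toGL)) :=
    Sylow.sSup_of_normal _ (fun _ h => h.2) (fun _ h => h.1)
  have hN : (Cfsg.pCore 2 ↥((Ge a).map toGL)).Normal := Subgroup.sSup_normal _ (fun _ h => h.1)
  have hQ := le_spQv h2 ha (N := ((Cfsg.pCore 2 ↥((Ge a).map toGL)).map
      ((Ge a).map toGL).subtype).comap toGL) ((hP.map _).comap_of_injective _ toGL_inj)
    (fun k ⟨x, _, e⟩ => by
      obtain ⟨k', hk', e'⟩ := x.2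
      exact toGL_inj (e'.trans e) ▸ hk') (fun g hg k ⟨x, hx, e⟩ =>
      ⟨_, hN.conj_mem' x hx ⟨toGL g, g, hg, rfl⟩, by
        simp only [map_mul, map_inv, Subgroup.coe_subtype] at e ⊢
        rw [e]⟩)
  obtain ⟨eX⟩ := eqv X hXG
  have hb : Big (X.comap toGL) a := big_of_card ha ((Subgroup.comap_mono hO).trans hQ) (by
    rw [← Nat.card_congr eX.toEquiv, hcard, Fintype.card_fin, ← pow_succ, ← pow_succ]
    congr 1; omega) fun k hk => hntv (toGL k) hk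
  have hb' : Big (L.comap toGL) a := fun w hw => ⟨hw, (hb w hw).2.imp fun d h => hXL (x := toGL (E a w d)) h⟩
  have hi : Irr (L.comap toGL) := fun W hW => hirr W fun g hg w hw => by
    obtain ⟨k, rfl⟩ := (mG g).1 (hLG hg)
    exact hW k hg w hw
  obtain ⟨eL⟩ := eqv L hLG
  rcases main h2 hn hi ha hb' with h | ⟨Q, hq, h⟩ | ⟨h3, h4, h⟩
  · refine Or.inl (le_antisymm hLG fun g hg => ?_)
    obtain ⟨k, rfl⟩ := (mG g).1 hg
    exact (h ▸ Subgroup.mem_top k : k ∈ L.comap toGL)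
  · have iso : ∀ g ∈ Cfsg.isometryGroup F ⇑hq.toQF, ∃ k, toGL k = g := fun g hg =>
      exists_toGL fun u v => by
        have h1 : ∀ x, Q (Matrix.mulVec g.1 x) = Q x := fun x => hg x 0
        have := h1 (u + v)
        rw [Matrix.mulVec_add, hq.add', hq.add', h1, h1] at this
        exact add_left_cancel this
    refine Or.inr (Or.inl ⟨hq.toQF, fun u v => (hq.polar_eq u v).trans (hf u v).symm, ?_⟩)
    rcases h with h | h
    · refine Or.inl (Subgroup.ext fun g => ⟨fun hg => ?_, fun hg => ?_⟩)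
      · obtain ⟨k, rfl⟩ := (mG g).1 (hLG hg)
        exact fun u _ => (h k).1 hg u
      · obtain ⟨k, rfl⟩ := iso g hg
        exact (h k).2 fun x => hg x 0
    · refine Or.inr fun g => ⟨fun hg => ?_, fun hg => ?_⟩
      · obtain ⟨k, rfl⟩ := (mG g).1 (hLG hg)
        exact ⟨fun u _ => ((h k).1 hg).1 u, ((h k).1 hg).2⟩
      · obtain ⟨k, rfl⟩ := iso g hg.1
        exact (h k).2 ⟨fun x => hg.1 x 0, hg.2⟩
  · exact Or.inr (Or.inr ⟨h3, h4, h.imp (fun ⟨ψ⟩ => ⟨eL.trans ψ⟩) fun ⟨ψ⟩ => ⟨eL.trans ψ⟩⟩)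

end Cfsg.Agent.S5712
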