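import Cfsg.Statements.S5713
import Mathlib
import Cfsg.Agent.H1.Jordan

set_option autoImplicit false
open Cfsg

namespace Cfsg.Agent.S5713

open MulAction Cfsg.Agent.H1 Finset
open scoped Pointwise Classical

section
variable {G Ω : Type*} [Group G] [MulAction G Ω] [Fintype Ω]

variable (G) in
/-- points distinguishing `x` and `y` -/
noncomputable def Psi (x y : Ω) : Finset Ω := univ.filter fun c => ¬ ∃ h : G, h • c = c ∧ h • x = y

variable (G) in
/-- the suborbit of `x` with respect to `c` -/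
noncomputable def Orb (c x : Ω) : Finset Ω := univ.filter fun y => ∃ h : G, h • c = c ∧ h • x = y

theorem psi_tri (x y z : Ω) : (Psi G x z).card ≤ (Psi G x y).card + (Psi G y z).card := by
  refine (card_le_card ?_).trans (card_union_le _ _)
  intro c hc
  by_contra h
  simp only [Psi, mem_union, mem_filter, mem_univ, true_and, not_or, not_not] at h hc
  obtain ⟨⟨a, a1, a2⟩, b, b1, b2⟩ := h
  exact hc ⟨b * a, by rw [mul_smul, a1, b1], by rw [mul_smul, a2, b2]⟩

theorem psi_symm (x y : Ω) : Psi G x y = Psi G y x := by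
  ext c
  simp only [Psi, mem_filter, mem_univ, true_and, not_iff_not]
  constructor <;> rintro ⟨a, a1, a2⟩ <;>
    exact ⟨a⁻¹, inv_smul_eq_iff.2 a1.symm, inv_smul_eq_iff.2 a2.symm⟩

theorem psi_self (x : Ω) : Psi G x x = ∅ := by
  ext c
  simp only [Psi, mem_filter, mem_univ, true_and, notMem_empty, iff_false, not_not]
  exact ⟨1, by simp⟩

theorem psi_le (g h : G) (a : Ω) :
    (Psi G (h • a) (h • g • a)).card ≤ (univ.filter fun x : Ω => g • x ≠ x).card := by
  rw [← card_smul_finset h (univ.filter fun x : Ω => g • x ≠ x)]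
  apply card_le_card
  intro c hc
  rw [← inv_smul_mem_iff]
  simp only [Psi, mem_filter, mem_univ, true_and] at hc ⊢
  intro e
  exact hc ⟨h * g * h⁻¹, by rw [mul_smul, mul_smul, e, smul_inv_smul],
    by rw [mul_smul, mul_smul, inv_smul_smul]⟩

theorem escape [IsPreprimitive G Ω] {a b : Ω} (hab : a ≠ b) {O : Set Ω} (h1 : O.Nonempty)
    (h2 : O ≠ Set.univ) : ∃ g : G, g • a ∈ O ∧ g • b ∉ O := by
  obtain ⟨g, g1, g2⟩ := IsPreprimitive.exists_mem_smul_and_notMem_smul (G := G) O.toFinite h1 h2 hab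
  exact ⟨g⁻¹, Set.mem_smul_set_iff_inv_smul_mem.1 g1, fun h => g2 (Set.mem_smul_set_iff_inv_smul_mem.2 h)⟩

theorem card_le_orb_mul [IsPreprimitive G Ω] {a b : Ω} (hab : a ≠ b) {m : ℕ}
    (h : ∀ y ∈ Orb G a b, (Psi G a y).card ≤ m) : Fintype.card Ω - 1 ≤ (Orb G a b).card * m := by
  have h1 : univ.erase a ⊆ (Orb G a b).biUnion (Psi G a) := by
    intro c hc
    have hca := ne_of_mem_erase hc
    obtain ⟨g, ⟨k, k1, k2⟩, g2⟩ := escape (G := G) hab (O := {y | ∃ h : G, h • c = c ∧ h • a = y})
      ⟨a, 1, by simp⟩ (fun e => by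
        obtain ⟨k, k1, k2⟩ : c ∈ {y | ∃ h : G, h • c = c ∧ h • a = y} := e ▸ Set.mem_univ c
        exact hca (smul_left_cancel k (k1.trans k2.symm)))
    refine mem_biUnion.2 ⟨(k⁻¹ * g) • b, ?_, ?_⟩
    · simp only [Orb, mem_filter, mem_univ, true_and]
      exact ⟨k⁻¹ * g, by rw [mul_smul, ← k2, inv_smul_smul], rfl⟩
    · simp only [Psi, mem_filter, mem_univ, true_and]
      rintro ⟨l, l1, l2⟩
      exact g2 ⟨k * l, by rw [mul_smul, l1, k1], by rw [mul_smul, l2, mul_smul, smul_inv_smul]⟩
  have h2 := (card_le_card h1).trans (card_biUnion_le_card_mul _ _ _ h)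
  rwa [card_erase_of_mem (mem_univ _), card_univ] at h2

theorem bound_uniprim [IsPreprimitive G Ω] (h2 : ¬ IsMultiplyPretransitive G Ω 2) (g : G) {a : Ω}
    (ha : g • a ≠ a) :
    Fintype.card Ω ≤ (2 * (univ.filter fun x : Ω => g • x ≠ x).card + 1) ^ 2 := by
  set μ := (univ.filter fun x : Ω => g • x ≠ x).card with hμ
  let E : Ω → Ω → Prop := fun x y => ∃ h : G, (h • a = x ∧ h • g • a = y) ∨ (h • a = y ∧ h • g • a = x)
  have hE : ∀ x y, E x y → (Psi G x y).card ≤ μ := by
    rintro x y ⟨h, ⟨rfl, rfl⟩ | ⟨rfl, rfl⟩⟩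
    · exact psi_le g h a
    · rw [psi_symm]; exact psi_le g h a
  have hEs : ∀ x y, E x y → E y x := fun x y ⟨h, e⟩ => ⟨h, e.symm⟩
  have hEg : ∀ (k : G) x y, E x y → E (k • x) (k • y) := by
    rintro k x y ⟨h, ⟨rfl, rfl⟩ | ⟨rfl, rfl⟩⟩
    · exact ⟨k * h, Or.inl ⟨mul_smul _ _ _, mul_smul _ _ _⟩⟩
    · exact ⟨k * h, Or.inr ⟨mul_smul _ _ _, mul_smul _ _ _⟩⟩
  have hball : ∀ x y, (y = x ∨ E x y ∨ ∃ z, E x z ∧ E z y) → (Psi G x y).card ≤ 2 * μ := by
    rintro x y (rfl | h | ⟨z, h, h'⟩)
    · simp [psi_self]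
    · have := hE _ _ h; omega
    · have := hE _ _ h; have := hE _ _ h'; have := psi_tri (G := G) x z y; omega
  by_cases hd : {y | y = a ∨ E a y ∨ ∃ z, E a z ∧ E z y} = Set.univ
  · have hall : ∀ x y : Ω, (Psi G x y).card ≤ 2 * μ := by
      intro x y
      obtain ⟨k, rfl⟩ := exists_smul_eq G a x
      apply hball
      have : k⁻¹ • y ∈ {y | y = a ∨ E a y ∨ ∃ z, E a z ∧ E z y} := hd ▸ Set.mem_univ _
      rcases this with h | h | ⟨z, h, h'⟩
      · exact Or.inl (inv_smul_eq_iff.1 h)
      · exact Or.inr (Or.inl (by simpa using hEg k _ _ h))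
      · exact Or.inr (Or.inr ⟨k • z, hEg k _ _ h, by simpa using hEg k _ _ h'⟩)
    obtain ⟨⟨c, x⟩, hcx, hmax⟩ := exists_max_image (univ.filter fun p : Ω × Ω => p.2 ≠ p.1)
      (fun p => (Orb G p.1 p.2).card) ⟨(a, g • a), by simpa using ha⟩
    simp only [mem_filter, mem_univ, true_and] at hcx hmax
    have hself : ∀ c x : Ω, x ∈ Orb G c x := fun c x => by
      simp only [Orb, mem_filter, mem_univ, true_and]; exact ⟨1, by simp⟩
    have hmax' : ∀ c' x' : Ω, (Orb G c' x').card ≤ (Orb G c x).card := by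
      intro c' x'
      by_cases e : x' = c'
      · have h1 : Orb G c' x' ⊆ {c'} := by
          intro y hy
          simp only [Orb, mem_filter, mem_univ, true_and, e] at hy
          obtain ⟨h, h1, h2⟩ := hy
          exact mem_singleton.2 (h2.symm.trans h1)
        have := card_le_card h1
        have := card_pos.2 ⟨_, hself c x⟩
        rw [card_singleton] at *
        omega
      · exact hmax (c', x') e
    obtain ⟨d, hdc, hd'⟩ : ∃ d, d ≠ c ∧ d ∉ Orb G c x := by
      by_contra hne
      push Not at hne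
      refine h2 (Cfsg.Agent.H16.two_trans_of_one inferInstance c fun u v hu hv => ?_)
      have a1 := hne u hu
      have a2 := hne v hv
      simp only [Orb, mem_filter, mem_univ, true_and] at a1 a2
      obtain ⟨k, k1, k2⟩ := a1
      obtain ⟨l, l1, l2⟩ := a2
      exact ⟨l * k⁻¹, by rw [mul_smul, inv_smul_eq_iff.2 k1.symm, l1],
        by rw [mul_smul, inv_smul_eq_iff.2 k2.symm, l2]⟩
    have b1 := card_le_orb_mul (G := G) hdc.symm (m := 2 * μ) fun y _ => hall c y
    have b2 : (Orb G c x).card + (Orb G c d).card + 1 ≤ Fintype.card Ω := by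
      have hdis : Disjoint (Orb G c x) (Orb G c d) := by
        rw [disjoint_left]
        intro y hy hy'
        apply hd'
        simp only [Orb, mem_filter, mem_univ, true_and] at hy hy' ⊢
        obtain ⟨k, k1, k2⟩ := hy
        obtain ⟨l, l1, l2⟩ := hy'
        exact ⟨l⁻¹ * k, by rw [mul_smul, k1, inv_smul_eq_iff, l1],
          by rw [mul_smul, k2, inv_smul_eq_iff, l2]⟩
      have hs : Orb G c x ∪ Orb G c d ⊆ univ.erase c := by
        intro y hy
        simp only [Orb, mem_union, mem_filter, mem_univ, true_and] at hy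
        refine mem_erase.2 ⟨?_, mem_univ _⟩
        rintro rfl
        rcases hy with ⟨k, k1, k2⟩ | ⟨k, k1, k2⟩
        · exact hcx (smul_left_cancel k (k2.trans k1.symm))
        · exact hdc (smul_left_cancel k (k2.trans k1.symm))
      have := card_le_card hs
      rw [card_union_of_disjoint hdis, card_erase_of_mem (mem_univ _), card_univ] at this
      have : 0 < Fintype.card Ω := Fintype.card_pos_iff.2 ⟨a⟩
      omega
    have b3 : Fintype.card Ω * (Fintype.card Ω - (Orb G c x).card) ≤ Fintype.card Ω * (2 * μ) := by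
      have e1 : ∑ y : Ω, (Psi G a y).card = ∑ c' : Ω, (Orb G c' a)ᶜ.card := by
        simp only [Psi, Orb, compl_filter, card_filter]
        exact sum_comm
      have e2 : ∑ y : Ω, (Psi G a y).card ≤ Fintype.card Ω * (2 * μ) :=
        sum_le_card_nsmul _ _ _ fun y _ => hall a y
      have e3 : Fintype.card Ω * (Fintype.card Ω - (Orb G c x).card) ≤ ∑ c' : Ω, (Orb G c' a)ᶜ.card :=
        card_nsmul_le_sum _ _ _ fun c' _ => by
          rw [card_compl]; exact Nat.sub_le_sub_left (hmax' c' a) _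
      omega
    have b4 := Nat.le_of_mul_le_mul_left b3 (Fintype.card_pos_iff.2 ⟨a⟩)
    have b5 : (Orb G c d).card * (2 * μ) ≤ 2 * μ * (2 * μ) := Nat.mul_le_mul_right _ (by omega)
    have : Fintype.card Ω ≤ 2 * μ * (2 * μ) + 1 := by omega
    nlinarith
  · obtain ⟨k, k1, k2⟩ := escape (G := G) ha.symm ⟨a, Or.inl rfl⟩ hd
    have a1 := hball _ _ k1
    have a2 := hE (k • a) (k • g • a) ⟨k, Or.inl ⟨rfl, rfl⟩⟩
    have a3 := psi_tri (G := G) a (k • a) (k • g • a)
    have hO : ∀ y ∈ Orb G a (g • a), E a y := by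
      intro y hy
      simp only [Orb, mem_filter, mem_univ, true_and] at hy
      obtain ⟨h, h1, h2⟩ := hy
      exact ⟨h, Or.inl ⟨h1, h2⟩⟩
    have a4 : Orb G a (g • a) ⊆ Psi G a (k • g • a) := by
      intro c hc
      simp only [Psi, mem_filter, mem_univ, true_and]
      rintro ⟨h, h1, h2⟩
      refine k2 (Or.inr (Or.inr ⟨c, hO c hc, hEs _ _ ?_⟩))
      have := hEg h _ _ (hO c hc)
      rwa [h1, h2] at this
    have a5 := card_le_card a4
    have a6 := card_le_orb_mul (G := G) ha.symm (m := μ) fun y hy => hE _ _ (hO y hy)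
    have a7 : (Orb G a (g • a)).card * μ ≤ 3 * μ * μ := Nat.mul_le_mul_right _ (by omega)
    have : Fintype.card Ω ≤ 3 * μ * μ + 1 := by omega
    nlinarith

theorem bound_two [Finite G] (h2 : IsMultiplyPretransitive G Ω 2) (g : G) {a : Ω} (ha : g • a ≠ a)
    (h : ∀ x : G, x • a = a → ∃ b, b ≠ a ∧ g • b ≠ b ∧ (x * g * x⁻¹) • b ≠ b) :
    Fintype.card Ω ≤ (2 * (univ.filter fun x : Ω => g • x ≠ x).card + 1) ^ 2 := by
  have := Fintype.ofFinite G
  set A := (univ.filter fun x : Ω => g • x ≠ x) with hA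
  let N : Ω → Ω → Finset G := fun b c => univ.filter fun x => x • a = a ∧ x • b = c
  have hN : ∀ b c b' c', b ≠ a → c ≠ a → b' ≠ a → c' ≠ a → (N b c).card ≤ (N b' c').card := by
    intro b c b' c' hb hc hb' hc'
    obtain ⟨u, u1, u2⟩ := Cfsg.Agent.H16.two_trans h2 hc.symm hc'.symm
    obtain ⟨v, v1, v2⟩ := Cfsg.Agent.H16.two_trans h2 hb'.symm hb.symm
    refine card_le_card_of_injOn (fun x => u * x * v) ?_ ?_
    · intro x hx
      simp only [N, coe_filter, mem_univ, true_and, Set.mem_ofPred_eq] at hx ⊢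
      rw [mul_smul, mul_smul, mul_smul, mul_smul, v1, v2, hx.1, hx.2, u1, u2]
      exact ⟨rfl, rfl⟩
    · intro x _ y _ e
      simpa using e
  set c := (N (g • a) (g • a)).card with hc
  have hc0 : 0 < c := card_pos.2 ⟨1, by simp [N]⟩
  have h1 : (Fintype.card Ω - 1) * c ≤ (univ.filter fun x : G => x • a = a).card := by
    have hdis : ((univ.erase a : Finset Ω) : Set Ω).PairwiseDisjoint (N (g • a)) := by
      intro u _ v _ huv
      rw [Function.onFun, disjoint_left]
      intro x hx hx'
      simp only [N, mem_filter, mem_univ, true_and] at hx hx'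
      exact huv (hx.2.symm.trans hx'.2)
    have hs : (univ.erase a).biUnion (N (g • a)) ⊆ univ.filter fun x : G => x • a = a := by
      intro x hx
      obtain ⟨u, -, hx⟩ := mem_biUnion.1 hx
      simp only [N, mem_filter, mem_univ, true_and] at hx ⊢
      exact hx.1
    have := card_le_card hs
    rw [card_biUnion hdis] at this
    refine le_trans ?_ this
    have := card_nsmul_le_sum (univ.erase a) (fun u => (N (g • a) u).card) c
      fun u hu => hN _ _ _ _ ha ha ha (ne_of_mem_erase hu)
    rwa [card_erase_of_mem (mem_univ _), card_univ, smul_eq_mul] at this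
  have h3 : (univ.filter fun x : G => x • a = a).card ≤ (A.erase a ×ˢ A.erase a).card * c := by
    refine le_trans (card_le_card ?_) (card_biUnion_le_card_mul _ (fun p => N p.1 p.2) _ ?_)
    · intro x hx
      simp only [mem_filter, mem_univ, true_and] at hx
      obtain ⟨b, b1, b2, b3⟩ := h x hx
      refine mem_biUnion.2 ⟨(x⁻¹ • b, b), ?_, by simp [N, hx]⟩
      simp only [hA, mem_product, mem_erase, mem_filter, mem_univ, true_and]
      refine ⟨⟨fun e => b1 ?_, fun e => b3 ?_⟩, b1, b2⟩
      · rw [inv_smul_eq_iff.1 e, hx]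
      · rw [mul_smul, mul_smul, e, smul_inv_smul]
    · intro p hp
      rw [mem_product] at hp
      exact hN _ _ _ _ (ne_of_mem_erase hp.1) (ne_of_mem_erase hp.2) ha ha
  have h4 := Nat.le_of_mul_le_mul_right (h1.trans h3) hc0
  rw [card_product] at h4
  have h5 : (A.erase a).card ≤ A.card := card_erase_le
  have : Fintype.card Ω ≤ A.card * A.card + 1 := by
    have := Nat.mul_le_mul h5 h5
    omega
  nlinarith

end

/-- A classification-free minimal-degree bound. Let G be a finite group acting faithfully and primitively on a finite set Ω with n elements, and suppose that the image of G in the symmetric group on Ω does not contain the alternating group on Ω. Then every non-identity element of G moves at least (√n − 1)/2 points of Ω, that is, it fixes at most n − (√n − 1)/2 points. -/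
theorem result {G Ω : Type*} [Group G] [Finite G] [MulAction G Ω] [FaithfulSMul G Ω] [Fintype Ω] [DecidableEq Ω]
    (hprim : MulAction.IsPreprimitive G Ω)
    (hA : ¬ alternatingGroup Ω ≤ (MulAction.toPermHom G Ω).range)
    (g : G) (hg : g ≠ 1) :
    (Real.sqrt (Fintype.card Ω) - 1) / 2 ≤ (Fintype.card Ω : ℝ) - Nat.card (MulAction.fixedBy Ω g) := by
  obtain ⟨a, ha⟩ := Cfsg.Agent.H16.exists_smul_ne (α := Ω) hg
  have key : Fintype.card Ω ≤ (2 * (univ.filter fun x : Ω => g • x ≠ x).card + 1) ^ 2 := by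
    by_cases h2 : IsMultiplyPretransitive G Ω 2
    · convert bound_two h2 g ha fun x hx => ?_
      by_contra hne
      push Not at hne
      refine hA (alt_le_of_supp_inter (g := g) (h := x * g * x⁻¹) ha ?_ fun b h1 h2 => ?_)
      · rw [mul_smul, mul_smul, inv_smul_eq_iff.2 hx.symm]
        intro e
        exact ha (smul_left_cancel x (e.trans hx.symm))
      · by_contra c
        exact h2 (hne b c h1)
    · convert bound_uniprim h2 g ha
  have e : (univ.filter fun x : Ω => g • x ≠ x).card + Nat.card (fixedBy Ω g) = Fintype.card Ω := by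
    have := Cfsg.Agent.H16.nfix_eq_card_filter (α := Ω) g
    rw [Cfsg.Agent.H16.nfix] at this
    rw [this, add_comm, card_filter_add_card_filter_not, card_univ]
  have e' : (Fintype.card Ω : ℝ) - Nat.card (fixedBy Ω g) =
      (univ.filter fun x : Ω => g • x ≠ x).card := by
    rw [← e]; push_cast; ring
  rw [e']
  have : Real.sqrt (Fintype.card Ω) ≤ 2 * (univ.filter fun x : Ω => g • x ≠ x).card + 1 := by
    rw [Real.sqrt_le_left (by positivity)]
    exact_mod_cast key
  linarith

end Cfsg.Agent.S5713
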