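import Cfsg.Statements.S5729
import Mathlib
import Cfsg.Agent.H16.Derang
import Cfsg.Agent.H16.Homog

set_option autoImplicit false
open Cfsg

namespace Cfsg.Agent.S5729

/-- Let a finite group G act faithfully and transitively on a set with n ≥ 3 points. Then either G is a Frobenius permutation group (Frobenius as a permutation group: transitive, some non-identity element fixes a point, and no non-identity element fixes two points) of order n(n − 1) and exactly |G|/n of its elements are derangements (fix no point), or the number of derangements is greater than |G|/n. -/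
theorem result {G Ω : Type*} [Group G] [Finite G] [MulAction G Ω] [FaithfulSMul G Ω] [Fintype Ω] (htr : MulAction.IsPretransitive G Ω) (hn : 3 ≤ Fintype.card Ω) :
    ((MulAction.IsPretransitive G Ω ∧ (∃ g : G, g ≠ 1 ∧ ∃ ω : Ω, g • ω = ω) ∧ ∀ g : G, g ≠ 1 → Nat.card (MulAction.fixedBy Ω g) ≤ 1) ∧ Nat.card G = Fintype.card Ω * (Fintype.card Ω - 1) ∧ Fintype.card Ω * Nat.card {g : G // ∀ ω : Ω, g • ω ≠ ω} = Nat.card G) ∨
    Nat.card G < Fintype.card Ω * Nat.card {g : G // ∀ ω : Ω, g • ω ≠ ω} := by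
  classical
  have := Fintype.ofFinite G
  rw [← Nat.card_eq_fintype_card] at *
  have hnt : Nontrivial Ω := Finite.one_lt_card_iff_nontrivial.1 (by omega)
  obtain ⟨h1, h2⟩ := H16.card_der_ineq (G := G) (α := Ω)
  have h3 : ∑ g : G, (H16.nfix Ω g : ℤ) ^ 2 =
      Nat.card (MulAction.orbitRel.Quotient G (Ω × Ω)) * Nat.card G := by
    exact_mod_cast H16.sum_nfix_sq (G := G) (α := Ω)
  have h4 := H16.two_le_rank (G := G) (α := Ω)
  rw [h3] at h1 h2
  have h5 : 0 < Nat.card G := Nat.card_pos
  by_cases h : Nat.card G < Nat.card Ω * Nat.card {g : G // ∀ ω : Ω, g • ω ≠ ω}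
  · exact Or.inr h
  left
  have h' : (Nat.card Ω : ℤ) * Nat.card {g : G // ∀ ω : Ω, g • ω ≠ ω} ≤ Nat.card G := by
    exact_mod_cast not_lt.1 h
  have h6 : Nat.card (MulAction.orbitRel.Quotient G (Ω × Ω)) = 2 := by
    by_contra hne
    have : (3 : ℤ) ≤ Nat.card (MulAction.orbitRel.Quotient G (Ω × Ω)) := by omega
    nlinarith
  rw [h6] at h1 h2
  push_cast at h1 h2
  have h7 := h2 (by omega)
  have h8 := H16.two_trans_of_rank h6.le
  refine ⟨⟨htr, ?_, fun g hg => ?_⟩, ?_, by zify; omega⟩
  · obtain ⟨a, b, hab⟩ := exists_pair_ne Ω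
    obtain ⟨c, hca, hcb⟩ := H16.exists_ne_ne hn a b
    obtain ⟨g, g1, g2⟩ := H16.two_trans h8 hab hca.symm
    exact ⟨g, fun e => hcb (by rw [← g2, e, one_smul]), a, g1⟩
  · rw [Finite.card_le_one_iff_subsingleton]
    constructor
    intro x y
    by_contra hxy
    exact hg (h7 g x y (fun e => hxy (Subtype.ext e)) x.2 y.2)
  · rw [H16.card_of_sharp h8 (by omega) (H16.sharp_two_of fun a b hab g => h7 g a b hab)]
    simp [Nat.descFactorial, mul_comm]

end Cfsg.Agent.S5729
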