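import Cfsg.Statements.S5730
import Mathlib
import Cfsg.Agent.H16.Derang
import Cfsg.Agent.H16.Homog
import Cfsg.Agent.H16.PrimeDeg2
import Cfsg.Agent.S5729
-- import your own Cfsg.Agent.* helpers here

set_option autoImplicit false
open Cfsg

namespace Cfsg.Agent.S5730

open MulAction Subgroup Cfsg.Agent.H16

section
variable {G Ω : Type*} [Group G] [MulAction G Ω]

variable (G) in
abbrev K (a b : Ω) : Subgroup G := stabilizer G a ⊓ stabilizer G b

noncomputable abbrev s (H : Subgroup G) (x : Ω) : ℕ := (stabilizer G x).relIndex H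

theorem idx (H : Subgroup G) (x : Ω) : s H x * Nat.card (H ⊓ stabilizer G x : Subgroup G) = Nat.card H := by
  rw [s, ← inf_relIndex_left, relIndex, mul_comm, ← Nat.card_congr (subgroupOfEquivOfLe
    (inf_le_left : H ⊓ stabilizer G x ≤ H)).toEquiv, card_mul_index]

theorem s_orb {H : Subgroup G} {x y : Ω} (h : y ∈ orbit H x) : s H y = s H x := by
  rw [s, s, ← ncard_orbit_subgroup, ← ncard_orbit_subgroup, orbit_eq_iff.2 h]

theorem fix2 {H : Subgroup G} {x : Ω} (h : s H x = 1 ∨ s H x = 2) {g m : G} (hg : g ∈ H) (hm : m ∈ H) (e : g • x = x) :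
    g • m • x = m • x := by
  rcases h with h | h
  · rw [mem_stabilizer_iff.1 (relIndex_eq_one.1 h hm), e]
  · have : m⁻¹ * g * m ∈ stabilizer G x := (normal_of_index_eq_two h).conj_mem' ⟨g, hg⟩ e ⟨m, hm⟩
    rwa [mem_stabilizer_iff, mul_smul, mul_smul, inv_smul_eq_iff] at this

theorem K_conj (g : G) (a b : Ω) (h : G) : h ∈ K G (g • a) (g • b) ↔ g⁻¹ * h * g ∈ K G a b := by
  simp only [mem_inf, mem_stabilizer_iff, mul_smul, inv_smul_eq_iff]

theorem K_map (g : G) (a b : Ω) : K G (g • a) (g • b) = (K G a b).map (MulAut.conj g).toMonoidHom := by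
  ext h
  rw [K_conj]
  exact ⟨fun e => ⟨_, e, by simp [mul_assoc]⟩, by rintro ⟨x, hx, rfl⟩; simpa [mul_assoc] using hx⟩

theorem s_conj (g : G) (a b x : Ω) : s (K G (g • a) (g • b)) (g • x) = s (K G a b) x := by
  rw [s, s, K_map, stabilizer_smul_eq_stabilizer_map_conj, relIndex_map_map_of_injective _ _ (MulAut.conj g).injective]

variable [Finite G] (h2 : IsMultiplyPretransitive G Ω 2)
include h2

omit [Finite G] in
theorem card_K {a b c d : Ω} (hab : a ≠ b) (hcd : c ≠ d) : Nat.card (K G a b) = Nat.card (K G c d) := by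
  obtain ⟨g, rfl, rfl⟩ := two_trans h2 hab hcd
  rw [K_map, card_map_of_injective (MulAut.conj g).injective]

theorem K_eq {a b c d : Ω} (hab : a ≠ b) (hcd : c ≠ d) (h : K G a b ≤ K G c d) : K G a b = K G c d :=
  eq_of_le_of_card_ge h (card_K h2 hab hcd).ge

theorem ml1 (h3 : ∀ a b x : Ω, a ≠ b → s (K G a b) x ≤ 3) {a b c x : Ω} (hab : a ≠ b) (hc : s (K G a b) c = 2)
    (hx : s (K G a b) x = 2) (h : ¬ K G a b ⊓ stabilizer G c ≤ stabilizer G x) {m : G} (hm : m ∈ K G a b)
    (hm' : m • x = x) : K G a c ≤ stabilizer G (m • c) := by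
  have ac : a ≠ c := by rintro rfl; simp [s, relIndex_eq_one.2 (inf_le_left : K G a b ≤ _)] at hc
  have ax : a ≠ x := by rintro rfl; simp [s, relIndex_eq_one.2 (inf_le_left : K G a b ≤ _)] at hx
  have a1 := idx (K G a b) c
  have a2 := idx (K G a b ⊓ stabilizer G c) x
  have a3 : s (K G a b ⊓ stabilizer G c) x = 2 := by
    have := relIndex_le_of_le_right (inf_le_left : K G a b ⊓ stabilizer G c ≤ _) (hx.trans_ne two_ne_zero)
    have b' := mt relIndex_eq_one.1 h
    have c' : s (K G a b ⊓ stabilizer G c) x ≠ 0 := index_ne_zero_of_finite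
    simp only [s] at *
    omega
  have a4 := idx (K G a x) c
  have l : K G a b ⊓ stabilizer G c ⊓ stabilizer G x ≤ K G a x ⊓ stabilizer G c := fun g hg => ⟨⟨hg.1.1.1, hg.2⟩, hg.1.2⟩
  obtain ⟨j, hj⟩ := card_dvd_of_le l
  have a5 := h3 a x c ax
  have p : 0 < Nat.card (K G a b ⊓ stabilizer G c ⊓ stabilizer G x : Subgroup G) := Nat.card_pos
  have a6 : s (K G a x) c * j = 4 := by
    rw [hj, card_K h2 ax hab, ← a1, ← a2, hc, a3] at a4
    exact Nat.eq_of_mul_eq_mul_left p (by linarith)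
  have a7 : (s (K G a x) c = 1 ∨ s (K G a x) c = 2) ∧ j ≠ 1 := by
    generalize s (K G a x) c = t at *
    interval_cases t <;> omega
  obtain ⟨g, g1, g2⟩ := SetLike.exists_of_lt (lt_of_le_of_ne l fun e => a7.2 (by
    rw [← e] at hj; exact (Nat.eq_of_mul_eq_mul_left p (by linarith))))
  have b1 : K G a b ⊓ stabilizer G c ≤ K G a c ⊓ stabilizer G (m • c) := fun y hy =>
    ⟨⟨hy.1.1, hy.2⟩, fix2 (.inr hc) hy.1 hm hy.2⟩
  have b2 : K G a b ⊓ stabilizer G c < K G a c ⊓ stabilizer G (m • c) := lt_of_le_of_ne b1 fun e => g2 ⟨by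
    rw [e]; exact ⟨⟨g1.1.1, g1.2⟩, fix2 a7.1 g1.1 ⟨hm.1, hm'⟩ g1.2⟩, g1.1.2⟩
  have b3 := idx (K G a c) (m • c)
  obtain ⟨i, hi⟩ := card_dvd_of_le b1
  have p' : 0 < Nat.card (K G a b ⊓ stabilizer G c : Subgroup G) := Nat.card_pos
  have b4 : s (K G a c) (m • c) * i = 2 := by
    rw [hi, card_K h2 ac hab, ← a1, hc] at b3
    exact Nat.eq_of_mul_eq_mul_left p' (by linarith)
  have b5 : i ≠ 1 := fun e => b2.ne (eq_of_le_of_card_ge b1 (by rw [hi, e, mul_one]))
  refine relIndex_eq_one.1 ?_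
  have := Nat.le_of_dvd two_pos (Dvd.intro_left _ b4)
  interval_cases i <;> simp only [s] at * <;> omega

theorem ml (h3 : ∀ a b x : Ω, a ≠ b → s (K G a b) x ≤ 3) {a b c x : Ω} (hab : a ≠ b) (hc : s (K G a b) c = 2)
    (hx : s (K G a b) x = 2) : K G a b ⊓ stabilizer G c ≤ stabilizer G x := by
  by_contra h
  have ac : a ≠ c := by rintro rfl; simp [s, relIndex_eq_one.2 (inf_le_left : K G a b ≤ _)] at hc
  have bc : b ≠ c := by rintro rfl; simp [s, relIndex_eq_one.2 (inf_le_right : K G a b ≤ _)] at hc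
  obtain ⟨m, hm, mc⟩ : ∃ m ∈ K G a b ⊓ stabilizer G x, m • c ≠ c := by
    by_contra! c'
    have a1 := idx (K G a b) c
    have a2 := idx (K G a b) x
    rw [hc] at a1
    rw [hx] at a2
    exact h ((eq_of_le_of_card_ge (show K G a b ⊓ stabilizer G x ≤ K G a b ⊓ stabilizer G c from
      fun y hy => ⟨hy.1, c' y hy⟩) (by omega)).ge.trans inf_le_right)
  have e : K G b a = K G a b := inf_comm _ _
  have a1 := K_eq h2 ac mc.symm (le_inf inf_le_right (ml1 h2 h3 hab hc hx h hm.1 hm.2))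
  have a2 := K_eq h2 bc mc.symm (le_inf inf_le_right (ml1 h2 h3 hab.symm (e ▸ hc) (e ▸ hx) (e ▸ h) (e ▸ hm.1) hm.2))
  have a3 := K_eq h2 ac hab (le_inf inf_le_left ((a1.trans a2.symm).le.trans inf_le_left))
  simp [s, ← a3, relIndex_eq_one.2 (inf_le_right : K G a c ≤ _)] at hc

theorem no3 [Finite Ω] (hn : 7 ≤ Nat.card Ω) (h3 : ∀ a b x : Ω, a ≠ b → s (K G a b) x ≤ 3) {a b c x : Ω} (hab : a ≠ b)
    (hc : s (K G a b) c = 2) (hx : s (K G a b) x = 3) (hO : ∀ y, s (K G a b) y = 3 → y ∈ orbit (K G a b) x) : False := by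
  set M := K G a b ⊓ stabilizer G c
  set O := orbit (K G a b) x
  have hM : ∀ y, y ∉ O → M ≤ stabilizer G y := fun y hy => by
    have a1 := h3 a b y hab
    have a2 := mt (hO y) hy
    have a3 : s (K G a b) y ≠ 0 := index_ne_zero_of_finite
    obtain h | h : s (K G a b) y = 1 ∨ s (K G a b) y = 2 := by omega
    · exact inf_le_left.trans (relIndex_eq_one.1 h)
    · exact ml h2 h3 hab hc h
  have cO : O.ncard = 3 := (ncard_orbit_subgroup _ _).trans hx
  have hO' : orbit M x = O := by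
    refine Set.eq_of_subset_of_ncard_le (by rintro _ ⟨g, rfl⟩; exact ⟨⟨g, g.2.1⟩, rfl⟩) ?_
    have a1 := idx (K G a b) c
    have a2 := idx (K G a b) x
    have a3 := idx M x
    obtain ⟨j, hj⟩ := card_dvd_of_le (inf_le_inf_right (stabilizer G x) (inf_le_left : M ≤ K G a b))
    have p : 0 < Nat.card (M ⊓ stabilizer G x : Subgroup G) := Nat.card_pos
    rw [hc, ← a3, ← a2, hx, hj] at a1
    have a4 : 2 * s M x = 3 * j := Nat.eq_of_mul_eq_mul_left p (by linarith)
    have a5 : s M x ≠ 0 := index_ne_zero_of_finite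
    rw [cO, ncard_orbit_subgroup]
    simp only [s] at *
    omega
  have xO : x ∈ O := mem_orbit_self x
  have aO : a ∉ O := fun h => by
    have := (s_orb h).trans hx
    simp [s, relIndex_eq_one.2 (inf_le_left : K G a b ≤ _)] at this
  obtain ⟨y, yO, yx⟩ := Set.exists_ne_of_one_lt_ncard (s := O) (by omega) x
  obtain ⟨g, g1, g2⟩ := two_trans h2 yx.symm (show x ≠ a from fun e => aO (e ▸ xO))
  have c1 := Set.ncard_union_add_ncard_inter O ((g • ·) '' O)
  have c2 : 0 < (O ∩ (g • ·) '' O).ncard := (Set.ncard_pos (Set.toFinite _)).2 ⟨x, xO, x, xO, g1⟩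
  have c3 := Set.ncard_add_ncard_compl (O ∪ (g • ·) '' O)
  rw [Set.ncard_image_of_injective _ (MulAction.injective g)] at c1
  obtain ⟨u, v, hu, hv, uv⟩ := (Set.one_lt_ncard_iff (s := (O ∪ (g • ·) '' O)ᶜ)).1 (by omega)
  have d1 : M ≤ K G u v := le_inf (hM u fun h => hu (.inl h)) (hM v fun h => hv (.inl h))
  have d2 : insert a O ⊆ orbit (K G u v) x := by
    rintro z (rfl | hz)
    · obtain ⟨m, rfl⟩ := hO'.ge yO
      have : ∀ w, w ∈ (O ∪ (g • ·) '' O)ᶜ → (g * m * g⁻¹) • w = w := fun w hw => by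
        rw [mul_smul, mul_smul, mem_stabilizer_iff.1 (hM _ (fun h => hw (.inr ⟨_, h, by simp⟩)) m.2), smul_inv_smul]
      refine ⟨⟨g * m * g⁻¹, this u hu, this v hv⟩, ?_⟩
      show (g * m * g⁻¹) • x = _
      rw [mul_smul, mul_smul, inv_smul_eq_iff.2 g1.symm]; exact g2
    · obtain ⟨m, rfl⟩ := hO'.ge hz
      exact ⟨⟨m, d1 m.2⟩, rfl⟩
  have := Set.ncard_le_ncard d2
  rw [Set.ncard_insert_of_notMem aO, cO, ncard_orbit_subgroup] at this
  exact absurd (this.trans (h3 u v x uv)) (by omega)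

theorem fix_line [Finite Ω] [FaithfulSMul G Ω] {a b : Ω} (hab : a ≠ b) {g : G} (hg : g ≠ 1) :
    nfix Ω g * ({y : Ω | s (K G a b) y = 1}.ncard - 1) + 1 ≤ Nat.card Ω := by
  classical
  have := Fintype.ofFinite Ω
  obtain ⟨x, hx⟩ : ∃ x : Ω, g • x ≠ x := by
    by_contra! c
    exact hg (eq_one_of_smul_eq (α := Ω) c)
  let L : Ω → Finset Ω := fun u => (Finset.univ.filter fun y => s (K G x u) y = 1).erase x
  have hL : ∀ u y, y ∈ L u ↔ y ≠ x ∧ K G x u ≤ stabilizer G y := fun u y => by simp [L, relIndex_eq_one]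
  have xu : ∀ u ∈ Finset.univ.filter (fun u : Ω => g • u = u), x ≠ u := fun u hu e => hx (e ▸ (Finset.mem_filter.1 hu).2)
  have c1 : ∀ u ∈ Finset.univ.filter (fun u : Ω => g • u = u), (L u).card = {y : Ω | s (K G a b) y = 1}.ncard - 1 := fun u hu => by
    obtain ⟨h, rfl, rfl⟩ := two_trans h2 hab (xu u hu)
    rw [Finset.card_erase_of_mem (by simp [relIndex_eq_one]), ← Set.ncard_image_of_injective _ (MulAction.injective h),
      ← Set.ncard_coe_finset]
    congr 2
    ext y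
    obtain ⟨y, rfl⟩ := MulAction.surjective h y
    simp only [Finset.coe_filter, Finset.mem_univ, true_and, Set.mem_ofPred_eq, s_conj]
    exact ((MulAction.injective h).mem_set_image (s := {y : Ω | s (K G a b) y = 1})).symm
  have c2 := Finset.card_biUnion (s := Finset.univ.filter (fun u : Ω => g • u = u)) (t := L) fun u hu v hv uv =>
    Finset.disjoint_left.2 fun y h1 h1' => by
      rw [hL] at h1 h1'
      have a1 := K_eq h2 (xu u hu) h1.1.symm (le_inf inf_le_left h1.2)
      have a2 := K_eq h2 (xu v hv) h1.1.symm (le_inf inf_le_left h1'.2)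
      have a3 := K_eq h2 (xu u hu) uv (le_inf inf_le_right ((a1.trans a2.symm).le.trans inf_le_right))
      exact hx (a3.ge ⟨(Finset.mem_filter.1 hu).2, (Finset.mem_filter.1 hv).2⟩).1
  rw [Finset.sum_congr rfl c1, Finset.sum_const, smul_eq_mul] at c2
  rw [nfix_eq_card_filter]
  refine (congrArg (· + 1) (Eq.trans (by congr!) c2.symm)).le.trans ?_
  rw [ Nat.card_eq_fintype_card, ← Finset.card_univ, ← Finset.card_erase_add_one (Finset.mem_univ x)]
  refine Nat.succ_le_succ (Finset.card_le_card fun y hy => ?_)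
  obtain ⟨u, -, hu⟩ := Finset.mem_biUnion.1 hy
  exact Finset.mem_erase.2 ⟨((hL u y).1 hu).1, Finset.mem_univ _⟩

omit [Finite G] in
theorem dbl [Fintype G] [Finite Ω] {a b : Ω} (hab : a ≠ b) [DecidablePred (· ∈ K G a b)] (φ : G → ℤ)
    (hφ : ∀ g h, φ (g * h * g⁻¹) = φ h) : ∑ g, ((nfix Ω g : ℤ) * nfix Ω g - nfix Ω g) * φ g =
      ((Nat.card Ω : ℤ) * Nat.card Ω - Nat.card Ω) * ∑ g ∈ Finset.univ.filter (· ∈ K G a b), φ g := by
  classical
  have := Fintype.ofFinite Ω
  have od : ∀ S : Finset Ω, (S.offDiag.card : ℤ) = S.card * S.card - S.card := fun S => by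
    rw [Finset.offDiag_card, Nat.cast_sub (Nat.le_mul_self _), Nat.cast_mul]
  have a1 : ∀ g : G, ((nfix Ω g : ℤ) * nfix Ω g - nfix Ω g) * φ g =
      ∑ p ∈ (Finset.univ : Finset Ω).offDiag, if g ∈ K G p.1 p.2 then φ g else 0 := fun g => by
    rw [nfix_eq_card_filter, ← od, ← Finset.sum_filter, Finset.sum_const, nsmul_eq_mul]
    congr 3
    ext p
    simp [and_comm, and_left_comm]
  rw [Finset.sum_congr rfl fun g _ => a1 g, Finset.sum_comm, Nat.card_eq_fintype_card, ← Finset.card_univ, ← od,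
    ← nsmul_eq_mul, ← Finset.sum_const]
  refine Finset.sum_congr rfl fun p hp => ?_
  obtain ⟨h, e1, e2⟩ := two_trans h2 hab (Finset.mem_offDiag.1 hp).2.2
  rw [Finset.sum_filter, ← e1, ← e2, ← (MulAut.conj h).toEquiv.sum_comp]
  refine Finset.sum_congr rfl fun g _ => ?_
  simp only [K_conj, MulEquiv.toEquiv_eq_coe, EquivLike.coe_coe, MulAut.conj_apply, hφ]
  congr 2
  group

theorem bound [Finite Ω] [FaithfulSMul G Ω] (hn : 7 ≤ Nat.card Ω) {a b : Ω} (hab : a ≠ b) (hK : K G a b ≠ ⊥)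
    [Fintype G] [DecidablePred (· ∈ K G a b)] (hG : Nat.card G = Nat.card Ω * (Nat.card Ω - 1) * Nat.card (K G a b)) :
    (∑ g ∈ Finset.univ.filter (· ∈ K G a b), (nfix Ω g : ℤ)) * (2 * Nat.card (K G a b) - 1) ≤
      Nat.card Ω * Nat.card (K G a b) ^ 2 := by
  classical
  have := Fintype.ofFinite Ω
  set T := ∑ g ∈ Finset.univ.filter (· ∈ K G a b), (nfix Ω g : ℤ) with hT
  have k2 : 2 ≤ Nat.card (K G a b) := (one_lt_card_iff_ne_bot _).2 hK
  have ck : (Finset.univ.filter (· ∈ K G a b)).card = Nat.card (K G a b) := by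
    rw [Nat.card_eq_fintype_card, Fintype.card_subtype]
  have t1 : ∀ c m : ℤ, 0 ≤ c → (∀ g : G, g ≠ 1 → c * nfix Ω g ≤ m) →
      c * T ≤ c * Nat.card Ω + (Nat.card (K G a b) - 1) * m := fun c m hc h => by
    rw [hT, ← Finset.add_sum_erase _ _ (a := 1) (by simp), nfix_one, mul_add, Finset.mul_sum]
    refine add_le_add_right ((Finset.sum_le_card_nsmul _ _ m fun g hg => h g (Finset.ne_of_mem_erase hg)).trans_eq ?_) _
    rw [Finset.card_erase_of_mem (by simp), ck, nsmul_eq_mul, Nat.cast_sub (by omega), Nat.cast_one]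
  have t2 : T = ∑ x : Ω, (Nat.card (K G a b ⊓ stabilizer G x : Subgroup G) : ℤ) := by
    simp only [hT, nfix_eq_card_filter, Finset.card_filter, Nat.cast_sum, Finset.sum_comm (t := Finset.univ)]
    refine Finset.sum_congr rfl fun x _ => ?_
    rw [Nat.card_eq_fintype_card, Fintype.card_subtype, Finset.card_filter, Finset.sum_filter, Nat.cast_sum]
    refine Finset.sum_congr rfl fun g _ => ?_
    by_cases h1 : g ∈ K G a b <;> simp [h1]
  set k := Nat.card (K G a b)
  set n := Nat.card Ω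
  have cs : ∀ P : Ω → Prop, ∀ c : ℤ, ∑ x : Ω, (if P x then c else 0) = {x | P x}.ncard * c := fun P c => by
    rw [← Finset.sum_filter, Finset.sum_const, nsmul_eq_mul, ← Set.ncard_coe_finset]; simp
  set F := {y : Ω | s (K G a b) y = 1}.ncard with hF
  have t3 : 12 * T ≤ 6 * n * k + F * (6 * k) - {y : Ω | s (K G a b) y = 3}.ncard * (2 * k) -
      {y : Ω | 4 ≤ s (K G a b) y}.ncard * (3 * k) := by
    rw [hF, ← cs, ← cs, ← cs, t2, Finset.mul_sum, show (6 * n * k : ℤ) = ∑ x : Ω, (6 * k : ℤ) by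
      simp [n, mul_comm, mul_left_comm], ← Finset.sum_add_distrib, ← Finset.sum_sub_distrib, ← Finset.sum_sub_distrib]
    refine Finset.sum_le_sum fun x _ => ?_
    have a1 := idx (K G a b) x
    have a2 : s (K G a b) x ≠ 0 := index_ne_zero_of_finite
    generalize s (K G a b) x = t at *
    generalize Nat.card (K G a b ⊓ stabilizer G x : Subgroup G) = c at *
    have := Nat.mul_le_mul_right c (show min t 4 ≤ t from min_le_left _ _)
    rcases (by omega : t = 1 ∨ t = 2 ∨ t = 3 ∨ 4 ≤ t) with rfl | rfl | rfl | h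
    · simp; omega
    · simp; omega
    · simp; omega
    · rw [min_eq_right h] at this
      rw [if_neg (by omega), if_neg (by omega), if_pos h]; omega
  have F2 : 2 ≤ F := by
    rw [hF, ← Set.ncard_pair hab]
    exact Set.ncard_le_ncard (by rintro y (rfl | rfl) <;> simp [relIndex_eq_one])
  have fl := fun g => fix_line h2 hab (g := g)
  have k2' : (2 : ℤ) ≤ k := by exact_mod_cast k2
  have fin : ∀ E : ℤ, 2 * T ≤ (n + E) * k → E * (2 * k - 1) ≤ n → T * (2 * k - 1) ≤ n * k ^ 2 := fun E h h' => by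
    nlinarith [mul_le_mul_of_nonneg_right h (show (0 : ℤ) ≤ 2 * k - 1 by omega),
      mul_le_mul_of_nonneg_right h' (show (0 : ℤ) ≤ k by omega)]
  by_cases F4 : 4 ≤ F
  · have := t1 3 n (by norm_num) fun g hg => by
      have := (Nat.mul_le_mul_left (nfix Ω g) (show 3 ≤ F - 1 by omega)).trans (Nat.le_of_succ_le (fl g hg))
      omega
    nlinarith [mul_le_mul_of_nonneg_right this (show (0 : ℤ) ≤ 2 * k - 1 by omega),
      mul_nonneg (mul_nonneg (show (0 : ℤ) ≤ k - 1 by omega) (show (0 : ℤ) ≤ k - 2 by omega)) (Nat.cast_nonneg n)]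
  by_cases F3 : F = 3 ∧ n ≤ 2 * k - 1
  · have := t1 2 (n - 1) (by norm_num) fun g hg => by
      have := fl g hg
      rw [← hF, F3.1] at this
      omega
    nlinarith [mul_le_mul_of_nonneg_right this (show (0 : ℤ) ≤ 2 * k - 1 by omega),
      mul_nonneg (show (0 : ℤ) ≤ k - 1 by omega) (show (0 : ℤ) ≤ 2 * k - 1 - n by omega)]
  have big : (6 ≤ {y : Ω | s (K G a b) y = 3}.ncard ∨ 4 ≤ {y : Ω | 4 ≤ s (K G a b) y}.ncard) → T * (2 * k - 1) ≤ n * k ^ 2 := fun h => by
    refine fin (F - 2) ?_ ?_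
    · generalize {y : Ω | s (K G a b) y = 3}.ncard = u at *
      generalize {y : Ω | 4 ≤ s (K G a b) y}.ncard = v at *
      nlinarith [mul_le_mul_of_nonneg_right (show (12 : ℤ) ≤ 2 * u + 3 * v by omega) (show (0 : ℤ) ≤ k by omega)]
    · obtain h | h : F = 2 ∨ F = 3 := by omega
      all_goals rw [h]; omega
  by_cases h4 : ∃ y : Ω, 4 ≤ s (K G a b) y
  · obtain ⟨y, hy⟩ := h4
    exact big (.inr (hy.trans ((ncard_orbit_subgroup _ _).ge.trans (Set.ncard_le_ncard fun z hz => (s_orb hz).ge.trans' hy))))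
  have h3 : ∀ u v x : Ω, u ≠ v → s (K G u v) x ≤ 3 := fun u v x uv => by
    obtain ⟨g, rfl, rfl⟩ := two_trans h2 hab uv
    obtain ⟨x, rfl⟩ := MulAction.surjective g x
    exact (s_conj g a b x).le.trans (Nat.le_of_lt_succ (not_le.1 fun c => h4 ⟨x, c⟩))
  by_cases h6 : 6 ≤ {y : Ω | s (K G a b) y = 3}.ncard
  · exact big (.inl h6)
  have hO : ∀ x y : Ω, s (K G a b) x = 3 → s (K G a b) y = 3 → y ∈ orbit (K G a b) x := fun x y hx hy => by
    by_contra c
    refine h6 (le_trans ?_ (Set.ncard_le_ncard (s := orbit (K G a b) x ∪ orbit (K G a b) y) ?_))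
    · rw [Set.ncard_union_eq, ncard_orbit_subgroup, ncard_orbit_subgroup]
      · simp only [s] at hx hy; omega
      · exact Set.disjoint_left.2 fun z h1 h1' => c ((orbit_eq_iff.2 h1) ▸ (orbit_eq_iff.2 h1').symm ▸ mem_orbit_self y)
    · rintro z (h | h)
      exacts [(s_orb h).trans hx, (s_orb h).trans hy]
  have s0 : ∀ y : Ω, s (K G a b) y ≠ 0 := fun y => index_ne_zero_of_finite
  obtain ⟨c, hc⟩ : ∃ c : Ω, s (K G a b) c = 2 := by
    by_contra! c
    by_cases h : ∃ x : Ω, s (K G a b) x = 3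
    · obtain ⟨x, hx⟩ := h
      have a1 := Set.ncard_le_ncard (s := Set.univ) (t := {y : Ω | s (K G a b) y = 1} ∪ orbit (K G a b) x) fun y _ => by
        have := h3 a b y hab
        have := s0 y
        have := c y
        obtain h | h : s (K G a b) y = 1 ∨ s (K G a b) y = 3 := by omega
        exacts [.inl h, .inr (hO x y hx h)]
      have a2 := Set.ncard_union_le {y : Ω | s (K G a b) y = 1} (orbit (K G a b) x)
      rw [ncard_orbit_subgroup, show (stabilizer G x).relIndex (K G a b) = 3 from hx] at a2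
      rw [Set.ncard_univ] at a1
      omega
    · have a1 := Set.ncard_le_ncard (s := Set.univ) (t := {y : Ω | s (K G a b) y = 1}) fun y _ => by
        have := h3 a b y hab
        have := s0 y
        have := c y
        have := mt (Exists.intro y) h
        show s (K G a b) y = 1
        omega
      rw [Set.ncard_univ] at a1
      omega
  have n3 : ∀ x : Ω, s (K G a b) x ≠ 3 := fun x hx => no3 h2 hn h3 hab hc hx fun y => hO x y hx
  have k' : k = 2 := by
    have := idx (K G a b) c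
    rw [hc, show K G a b ⊓ stabilizer G c = ⊥ from eq_bot_iff.2 fun g hg => eq_one_of_smul_eq (α := Ω) fun y => by
      have := h3 a b y hab
      have := s0 y
      have := n3 y
      obtain h | h : s (K G a b) y = 1 ∨ s (K G a b) y = 2 := by omega
      exacts [relIndex_eq_one.1 h hg.1, ml h2 h3 hab hc h hg], card_bot] at this
    omega
  refine fin F (by nlinarith [Nat.cast_nonneg (α := ℤ) {y : Ω | s (K G a b) y = 3}.ncard,
    Nat.cast_nonneg (α := ℤ) {y : Ω | 4 ≤ s (K G a b) y}.ncard]) ?_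
  by_contra! c9
  rw [k'] at c9
  have F3' : F = 3 := by omega
  have := Fact.mk Nat.prime_two
  obtain ⟨⟨t, ht⟩, h⟩ := exists_prime_orderOf_dvd_card' (G := K G a b) 2 (by rw [← k'])
  rw [orderOf_mk] at h
  have a1 := nfix_modEq_of_orderOf (α := Ω) Nat.prime_two h
  have a2 : nfix Ω t = 3 := by
    rw [nfix_eq_ncard, ← F3', hF, ← eq_of_le_of_card_ge (zpowers_le.2 ht) (by rw [Nat.card_zpowers, h, ← k'])]
    congr 1
    ext y
    simp [relIndex_eq_one]
  have n7 : n = 7 := by rw [a2, Nat.ModEq] at a1; omega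
  have : Fact (Nat.Prime 7) := ⟨by norm_num⟩
  have := isPretransitive_of_is_two_pretransitive (G := G) (α := Ω)
  obtain ⟨P⟩ : Nonempty (Sylow 7 G) := inferInstance
  have b1 := card_eq_prime_deg n7 P
  have b2 := relIndex_normalizer_dvd_prime_deg n7 P
  have b3 := card_sylow_modEq_one 7 G
  rw [hG, n7, k'] at b1
  rw [Nat.ModEq] at b3
  generalize relIndex (P : Subgroup G) _ = r at b1 b2
  have := Nat.le_of_dvd (by norm_num) b2
  interval_cases r <;> omega

end

/-- Let a finite group G act faithfully and transitively on a set with n ≥ 7 points. Then either G is a Frobenius permutation group (Frobenius as a permutation group: transitive, some non-identity element fixes a point, and no non-identity element fixes two points) of order n(n − 1)/a with a ∈ {1, 2}, in which case exactly a|G|/n of its elements are derangements, or the number of derangements is at least 2|G|/n. (Equality does occur: PSL₃(2) acting on the 7 points of the Fano plane has exactly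 2|G|/7 derangements.) -/
theorem result {G Ω : Type*} [Group G] [Finite G] [MulAction G Ω] [FaithfulSMul G Ω] [Fintype Ω] (htr : MulAction.IsPretransitive G Ω) (hn : 7 ≤ Fintype.card Ω) :
    (∃ a : ℕ, (a = 1 ∨ a = 2) ∧ (MulAction.IsPretransitive G Ω ∧ (∃ g : G, g ≠ 1 ∧ ∃ ω : Ω, g • ω = ω) ∧ ∀ g : G, g ≠ 1 → Nat.card (MulAction.fixedBy Ω g) ≤ 1) ∧ a * Nat.card G = Fintype.card Ω * (Fintype.card Ω - 1) ∧ Fintype.card Ω * Nat.card {g : G // ∀ ω : Ω, g • ω ≠ ω} = a * Nat.card G) ∨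
    2 * Nat.card G ≤ Fintype.card Ω * Nat.card {g : G // ∀ ω : Ω, g • ω ≠ ω} := by
  classical
  have := Fintype.ofFinite G
  rw [← Nat.card_eq_fintype_card] at *
  by_cases h : 2 * Nat.card G ≤ Nat.card Ω * Nat.card {g : G // ∀ ω : Ω, g • ω ≠ ω}
  · exact .inr h
  obtain ⟨h1, h2, h3⟩ | h0 := S5729.result htr (by rw [← Nat.card_eq_fintype_card]; omega)
  · rw [← Nat.card_eq_fintype_card] at h2 h3
    exact .inl ⟨1, .inl rfl, h1, by omega, by omega⟩
  exfalso
  rw [← Nat.card_eq_fintype_card] at h0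
  have hnt : Nontrivial Ω := Finite.one_lt_card_iff_nontrivial.1 (by omega)
  obtain ⟨h1, h1'⟩ := card_der_ineq (G := G) (α := Ω)
  have h3 : ∑ g : G, (nfix Ω g : ℤ) ^ 2 = Nat.card (orbitRel.Quotient G (Ω × Ω)) * Nat.card G := by
    exact_mod_cast sum_nfix_sq (G := G) (α := Ω)
  have h5 : 0 < Nat.card G := Nat.card_pos
  have h' : (Nat.card Ω : ℤ) * Nat.card {g : G // ∀ ω : Ω, g • ω ≠ ω} < 2 * Nat.card G := by exact_mod_cast not_le.1 h
  have h6 : Nat.card (orbitRel.Quotient G (Ω × Ω)) ≤ 2 := by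
    by_contra hne
    have : (3 : ℤ) ≤ Nat.card (orbitRel.Quotient G (Ω × Ω)) := by omega
    nlinarith
  have h2 := two_trans_of_rank h6
  rw [le_antisymm h6 two_le_rank] at h3
  obtain ⟨a, b, hab⟩ := exists_pair_ne Ω
  have m1 : ∑ g : G, (nfix Ω g : ℤ) = Nat.card G := by exact_mod_cast sum_nfix_of_trans
  have d1 := dbl h2 hab (fun _ => 1) fun _ _ => rfl
  have d2 := dbl h2 hab (fun g => nfix Ω g) fun g h => by rw [nfix_conj]
  have ck : (Finset.univ.filter (· ∈ K G a b)).card = Nat.card (K G a b) := by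
    rw [Nat.card_eq_fintype_card, Fintype.card_subtype]
  simp only [mul_one, Finset.sum_sub_distrib, ← sq, h3, m1, Finset.sum_const, ck, nsmul_eq_mul] at d1
  have hG : Nat.card G = Nat.card Ω * (Nat.card Ω - 1) * Nat.card (K G a b) := by
    zify [show 1 ≤ Nat.card Ω by omega]
    push_cast at d1
    linarith
  have sp : ∀ w : ℤ → ℤ, ∑ g : G, ((nfix Ω g : ℤ) - 1) * w (nfix Ω g) = -(Nat.card {g : G // ∀ ω : Ω, g • ω ≠ ω} * w 0) +
      ∑ g ∈ Finset.univ.filter (fun g : G => ¬ nfix Ω g = 0), ((nfix Ω g : ℤ) - 1) * w (nfix Ω g) := fun w => by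
    rw [← Finset.sum_filter_add_sum_filter_not _ (fun g => nfix Ω g = 0), Finset.sum_congr rfl (g := fun _ => - w 0)
      (fun g hg => by rw [(Finset.mem_filter.1 hg).2]; simp), Finset.sum_const,
      Nat.card_eq_fintype_card (α := Subtype _), Fintype.card_subtype]
    simp only [nfix_eq_zero, nsmul_eq_mul, mul_neg]
  have o1 : (1 : G) ∈ Finset.univ.filter (fun g : G => ¬ nfix Ω g = 0) := by simp
  have hK : K G a b ≠ ⊥ := fun e => by
    have := sp fun _ => 1
    rw [Finset.sum_eq_single_of_mem (s := Finset.filter _ _) 1 o1 fun g hg g1 => ?_, nfix_one] at this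
    · simp only [mul_one, Finset.sum_sub_distrib, m1, Finset.sum_const, Finset.card_univ, nsmul_eq_mul,
        ← Nat.card_eq_fintype_card] at this
      rw [hG, e, card_bot, show Nat.card {g : G // ∀ ω : Ω, g • ω ≠ ω} = Nat.card Ω - 1 by omega] at h0
      omega
    · have a1 := (Finset.mem_filter.1 hg).2
      have a2 : ¬ 1 < nfix Ω g := fun c => by
        obtain ⟨u, v, hu, hv, uv⟩ := (Set.one_lt_ncard_iff (s := fixedBy Ω g)).1 (nfix_eq_ncard (α := Ω) g ▸ c)
        exact g1 (mem_bot.1 ((card_eq_one.1 ((card_K h2 uv hab).trans (by rw [e, card_bot]))).le ⟨hu, hv⟩))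
      rw [show nfix Ω g = 1 by omega]; simp
  have hb := bound h2 hn hab hK hG
  have k2 : (2 : ℤ) ≤ Nat.card (K G a b) := by exact_mod_cast (one_lt_card_iff_ne_bot _).2 hK
  have hG' : (Nat.card G : ℤ) = Nat.card Ω * (Nat.card Ω - 1) * Nat.card (K G a b) := by
    rw [hG]; push_cast [show 1 ≤ Nat.card Ω by omega]; rfl
  have n7 : (7 : ℤ) ≤ Nat.card Ω := by exact_mod_cast hn
  set k : ℤ := (Nat.card (K G a b) : ℤ)
  set n : ℤ := (Nat.card Ω : ℤ) with hn'
  have e1 := sp fun f => ((2 * k - 1) * f - n * (k - 1)) ^ 2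
  have e2 := Finset.single_le_sum (f := fun g : G => ((nfix Ω g : ℤ) - 1) * ((2 * k - 1) * nfix Ω g - n * (k - 1)) ^ 2)
    (fun g hg => mul_nonneg (by have := (Finset.mem_filter.1 hg).2; omega) (sq_nonneg _)) o1
  rw [nfix_one, ← hn'] at e2
  rw [Finset.sum_congr rfl (g := fun g : G => (2 * k - 1) ^ 2 * (((nfix Ω g : ℤ) * nfix Ω g - nfix Ω g) * nfix Ω g) -
    2 * (2 * k - 1) * (n * (k - 1)) * (nfix Ω g : ℤ) ^ 2 + (2 * (2 * k - 1) * (n * (k - 1)) + (n * (k - 1)) ^ 2) * nfix Ω g -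
      (n * (k - 1)) ^ 2) fun g _ => by ring] at e1
  simp only [Finset.sum_sub_distrib, Finset.sum_add_distrib, ← Finset.mul_sum, d2, h3, m1, Finset.sum_const,
    Finset.card_univ, nsmul_eq_mul, ← Nat.card_eq_fintype_card] at e1
  generalize ∑ g ∈ Finset.univ.filter (fun g : G => ¬ nfix Ω g = 0), (_ : ℤ) = S at e1 e2
  generalize ∑ g ∈ Finset.univ.filter (· ∈ K G a b), (nfix Ω g : ℤ) = T at e1 hb
  generalize (Nat.card {g : G // ∀ ω : Ω, g • ω ≠ ω} : ℤ) = D at e1 h'
  rw [hG'] at e1 h'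
  have a1 : D < 2 * (n - 1) * k := lt_of_mul_lt_mul_left (a := n) (by linarith) (by omega)
  have a2 := mul_lt_mul_of_pos_right a1 (show 0 < (n * (k - 1)) ^ 2 from pow_pos (mul_pos (by omega) (by omega)) 2)
  have a3 := mul_le_mul_of_nonneg_right hb (show 0 ≤ (2 * k - 1) * (n * (n - 1)) from
    mul_nonneg (by omega) (mul_nonneg (by omega) (by omega)))
  push_cast at e1
  nlinarith

end Cfsg.Agent.S5730
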