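import Cfsg.Statements.S5737
import Mathlib
import Cfsg.Agent.H29.Sz1
import Cfsg.Agent.H6.Grp

set_option autoImplicit false
open Cfsg

namespace Cfsg.Agent.S5737

open MulAction Subgroup Cfsg.Agent.H13 Cfsg.Agent.H29

/-- binary actions. -/
def Bin (G Ω : Type*) [Group G] [MulAction G Ω] : Prop := ∀ (n : ℕ) (I J : Fin n → Ω), 2 ≤ n →
  (∀ i j : Fin n, i ≠ j → ∃ g : G, g • I i = J i ∧ g • I j = J j) → ∃ g : G, ∀ i, g • I i = J i

section

variable {G Ω : Type*} [Group G] [MulAction G Ω]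

theorem Bin.tri (B : Bin G Ω) {x0 x1 x2 x3 : Ω} {a b : G} (h0 : a • x0 = x0) (h1 : a • x1 = x1) (h2 : b • x2 = x2)
    (h3 : a • b • x3 = x3) : ∃ g : G, g • x0 = x0 ∧ g • x1 = x1 ∧ g • x2 = x2 ∧ g • x3 = b • x3 := by
  have h4 : ∀ {x y : Ω}, a • x = y → a⁻¹ • y = x := fun h => inv_smul_eq_iff.2 h.symm
  obtain ⟨g, hg⟩ := B 4 ![x0, x1, x2, x3] ![x0, x1, x2, b • x3] (by norm_num) fun i j hij => by
    fin_cases i <;> fin_cases j <;> first
      | exact absurd rfl hij | exact ⟨1, one_smul _ _, one_smul _ _⟩ | exact ⟨b, h2, rfl⟩ | exact ⟨b, rfl, h2⟩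
      | exact ⟨a⁻¹, h4 ‹_›, h4 ‹_›⟩
  exact ⟨g, hg 0, hg 1, hg 2, hg 3⟩

theorem Bin.fin (B : Bin G Ω) {ι : Type*} [Finite ι] [Nonempty ι] (I J : ι → Ω)
    (h : ∀ i j, ∃ g : G, g • I i = J i ∧ g • I j = J j) : ∃ g : G, ∀ i, g • I i = J i := by
  let e := (Finite.equivFin (ι × Fin 2)).symm
  obtain ⟨g, hg⟩ := B _ (fun i => I (e i).1) (fun i => J (e i).1) (by
    have := Nat.card_pos (α := ι); simp; omega) fun i j _ => h _ _
  exact ⟨g, fun i => by simpa using hg (e.symm (i, 0))⟩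

theorem Bin.fix [Finite G] [Finite Ω] (B : Bin G Ω) (hc : ∀ {s t : G}, orderOf s = 2 → orderOf t = 2 → IsConj s t)
    {s t : G} (ht : orderOf t = 2) (hs : orderOf s = 2) (hst : orderOf (s * t) = 2) (h : s * t = t * s) {x : Ω}
    (hx : s • x = x) : t • x = x := by
  classical
  have h1 : ∀ {a b : G}, orderOf a = 2 → orderOf b = 2 → fixedBy Ω a ⊆ fixedBy Ω b → fixedBy Ω a = fixedBy Ω b :=
    fun ha hb e => Set.eq_of_subset_of_ncard_le e (by
      obtain ⟨k, rfl⟩ := isConj_iff.1 (hc ha hb)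
      rw [← smul_fixedBy, Set.ncard_smul_set])
  have h2 : ∀ y : Ω, t • t • y = y := fun y => by rw [← mul_smul, ← sq, ← ht, pow_orderOf_eq_one, one_smul]
  haveI : Nonempty {y : Ω // s • y = y ∨ t • y = y ∨ (s * t) • y = y} := ⟨⟨x, .inl hx⟩⟩
  obtain ⟨g, hg⟩ := B.fin (fun y : {y : Ω // s • y = y ∨ t • y = y ∨ (s * t) • y = y} => y.1)
    (fun y => if s • y.1 = y.1 then t • y.1 else y.1) fun y z => by
      have h3 : ∀ y : Ω, s • y = y → (s * t) • y = t • y := fun y e => by rw [h, mul_smul, e]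
      split_ifs with e e' e'
      · exact ⟨t, rfl, rfl⟩
      · exact (z.2.resolve_left e').elim (fun e => ⟨t, rfl, e⟩) fun e' => ⟨s * t, h3 _ e, e'⟩
      · exact (y.2.resolve_left e).elim (fun e => ⟨t, e, rfl⟩) fun e => ⟨s * t, e, h3 _ e'⟩
      · exact ⟨1, one_smul _ _, one_smul _ _⟩
  by_contra h3
  have h4 : g • x = t • x := (hg ⟨x, .inl hx⟩).trans (if_pos hx)
  have h5 : s • t • x = t • x := by rw [← mul_smul, h, mul_smul, hx]
  have h6 : g ^ 2 ∈ stabilizer G x := by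
    rw [mem_stabilizer_iff, sq, mul_smul, h4]
    exact ((hg ⟨_, .inl h5⟩).trans (if_pos h5)).trans (h2 x)
  have h7 : 2 ∣ orderOf g := by_contra fun e => h3 (h4.symm.trans (zpowers_le.2 h6 (mem_zpowers_pow_iff.2
    ((Nat.prime_two.coprime_iff_not_dvd).2 e))))
  have h8 := orderOf_pow_orderOf_div (orderOf_pos g).ne' h7
  have h9 : fixedBy Ω t = fixedBy Ω (s * t) := (h1 ht h8 fun y hy => pow_mem (show g ∈ stabilizer G y from
    (hg ⟨y, .inr (.inl hy)⟩).trans (by split_ifs; exacts [hy, rfl])) _).trans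
      (h1 hst h8 fun y hy => pow_mem (show g ∈ stabilizer G y from (hg ⟨y, .inr (.inr hy)⟩).trans (by
        split_ifs with e
        · rw [mem_fixedBy, h, mul_smul, e] at hy; exact hy
        · rfl)) _).symm
  exact h3 ((h1 ht hs fun y hy => by
    have := h9.subset hy
    rwa [mem_fixedBy, mul_smul, hy] at this).superset hx)

variable {H : Subgroup G}

theorem fix_iff {g k : G} : g • (k : G ⧸ H) = k ↔ k⁻¹ * g * k ∈ H := by
  rw [eq_comm, mul_assoc]; exact QuotientGroup.eq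

theorem fix_pt {p : Ω} (h : H ≤ stabilizer G p) {g k : G} (e : g • (k : G ⧸ H) = k) : g • k • p = k • p := by
  have := h (fix_iff.1 e)
  rwa [mem_stabilizer_iff, mul_smul, mul_smul, inv_smul_eq_iff] at this

variable {F : Type*} [Field F] (S : SzData G F)

theorem bin_Z : Bin G (G ⧸ S.Z) := fun n I J hn h => by
  have hZ := S.Z_le_U.trans S.U_le_stabilizer
  have h1 : ∀ {g k : G}, g • (k : G ⧸ S.Z) = k ↔ g * g = 1 ∧ g • k • S.inf = k • S.inf := fun {g k} =>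
    ⟨fun e => ⟨(S.conj k).sq_eq_one_of_mem_Z (S.mem_conj_Z.2 (fix_iff.1 e)), fix_pt hZ e⟩, fun e =>
      fix_iff.2 (S.mem_conj_Z.1 ((S.conj k).mem_Z_of_sq_eq_one (by
        rw [S.conj_U]; exact S.mem_UAt_of_fix (n := 1) (by rw [pow_one, sq, e.1]) e.2) e.1))⟩
  choose I hI using fun i => QuotientGroup.mk_surjective (I i)
  obtain rfl := funext hI
  have h' : ∀ i j, ∃ g : G, g • (I i : G ⧸ S.Z) = J i ∧ g • (I j : G ⧸ S.Z) = J j := fun i j => by
    rcases eq_or_ne i j with rfl | e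
    · obtain ⟨k, hk⟩ := exists_smul_eq G (I i : G ⧸ S.Z) (J i)
      exact ⟨k, hk, hk⟩
    · exact h i j e
  have h2 : ∀ {g g' : G} {x y : G ⧸ S.Z}, g • x = y → g' • x = y → (g⁻¹ * g') • x = x := fun e e' => by
    rw [mul_smul, e', ← e, inv_smul_smul]
  have h3 : ∀ {g g' : G} {x y : G ⧸ S.Z}, (g⁻¹ * g') • x = x → g' • x = y → g • x = y := fun e e' => by
    rw [mul_smul, e', inv_smul_eq_iff] at e; exact e.symm
  by_cases h4 : ∃ i j, I i • S.inf ≠ I j • S.inf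
  · obtain ⟨i, j, h4⟩ := h4
    obtain ⟨g, h5, h6⟩ := h' i j
    refine ⟨g, fun l => ?_⟩
    obtain ⟨a, h7, h8⟩ := h' i l
    obtain ⟨b, h9, h10⟩ := h' j l
    obtain ⟨a1, a2⟩ := h1.1 (h2 h5 h7)
    obtain ⟨b1, b2⟩ := h1.1 (h2 h6 h9)
    obtain ⟨c1, -⟩ := h1.1 (h2 h8 h10)
    by_cases e : g⁻¹ * a = 1
    · rwa [inv_mul_eq_one.1 e]
    by_cases e' : g⁻¹ * b = 1
    · rwa [inv_mul_eq_one.1 e']
    have h11 : g⁻¹ * b * (g⁻¹ * a) = g⁻¹ * a * (g⁻¹ * b) := by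
      rw [show a⁻¹ * b = (g⁻¹ * a)⁻¹ * (g⁻¹ * b) by group, inv_eq_of_mul_eq_one_right a1] at c1
      rw [← inv_eq_of_mul_eq_one_right c1, mul_inv_rev _ (g⁻¹ * b), inv_eq_of_mul_eq_one_right a1,
        inv_eq_of_mul_eq_one_right b1]
    have h12 := S.centralizer_le_UAt (S.mem_UAt_of_fix (n := 1) (by rw [pow_one, sq, a1]) a2) e
      (mem_centralizer_singleton_iff.2 h11)
    exact absurd (S.eq_of_mem_UAt h12 e' b2).symm h4
  · push Not at h4
    obtain ⟨g, h5, -⟩ := h' ⟨0, by omega⟩ ⟨0, by omega⟩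
    refine ⟨g, fun l => ?_⟩
    obtain ⟨a, h7, h8⟩ := h' ⟨0, by omega⟩ l
    exact h3 (h1.2 (h4 _ l ▸ h1.1 (h2 h5 h7))) h8

variable (B : Bin G (G ⧸ H))
include B

theorem no_torus (hZ : S.Z ≤ H) (hB : H ≤ stabilizer G S.inf) {k : Fˣ} (hk : S.h k ∈ H) : k = 1 := by
  haveI := S.charP
  by_contra h
  have h1 : (1 : F) + k * S.θ k ≠ 0 := fun e => h (Units.ext (S.mul_θ_eq_one (by grind)))
  have h2 : S.h k • (S.w : G ⧸ H) = S.w := fix_iff.2 (by simpa [← S.w_conj_h, S.w_inv] using inv_mem hk)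
  have h3 : ∀ c x, S.h k • (S.u 0 c • x : G ⧸ H) = S.u 0 (k * S.θ k * c) • S.h k • x := fun c x => by
    rw [← mul_smul, S.h_mul_u, mul_smul, mul_zero]
  have h4 : ∀ c d x, S.u 0 c • (S.u 0 d • x : G ⧸ H) = S.u 0 (c + d) • x := fun c d x => by
    rw [← mul_smul, S.u_zero_mul]
  obtain ⟨g, h5, h6, h7, h8⟩ := B.tri (x0 := (1 : G)) (x1 := S.w) (x2 := (S.u 0 1 * S.w : G))
    (x3 := (S.u 0 (k * S.θ k / (1 + k * S.θ k)) * S.w : G)) (a := S.h k) (b := S.u 0 1 * S.h k * S.u 0 1)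
    (fix_iff.2 (by simpa using hk)) h2 (by
      rw [← smul_eq_mul _ S.w, ← Quotient.smul_coe, mul_smul, mul_smul, h4, h3, h4, h2]; congr 2; grind) (by
      rw [← smul_eq_mul _ S.w, ← Quotient.smul_coe, mul_smul, mul_smul, h4, h3, h3, h3, h4, h2, h2]
      congr 2; field_simp; grind)
  have h9 := fix_pt hB h5
  have h10 := fix_pt hB h6
  have h11 := fix_pt hB h7
  rw [mul_smul, S.w_smul_inf, S.u_smul_zero] at h11
  rw [S.eq_one_of_fix_three (one_smul G S.inf ▸ h9) (S.w_smul_inf ▸ h10) (S.pt_ne_inf _ _) (by simp [S.pt_inj]) h11,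
    one_smul] at h8
  have h12 := fix_pt hB h8.symm
  simp only [mul_smul, S.w_smul_inf, S.u_smul_pt, S.h_smul_pt, S.pt_inj] at h12
  have h13 := h12.2
  field_simp at h13
  grind

theorem eq_Z {b : F} (hb : b ≠ 0) (h : S.u 0 b ∈ H) (hH : H ≠ ⊤) : H = S.Z := by
  haveI := S.finiteG
  haveI := S.charP
  have hZ : S.Z ≤ H := by
    rintro _ ⟨c, rfl⟩
    by_cases h0 : c = 0
    · simp [h0]
    by_cases h1 : b + c = 0
    · rwa [show c = b by grind]
    simpa using fix_iff.1 (B.fix (isConj_inv S) (S.orderOf_u_zero h0) (S.orderOf_u_zero hb)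
      (by rw [S.u_zero_mul, S.orderOf_u_zero h1]) (by rw [S.u_zero_mul, S.u_zero_mul, add_comm])
      (x := (1 : G)) (fix_iff.2 (by simpa using h)))
  obtain ⟨p, hB⟩ := le_stab_of_dvd S hH (S.card_Z ▸ card_dvd_of_le hZ)
  have hu : S.u 0 1 ∈ S.UAt S.inf := S.UAt_inf.symm ▸ S.u_mem_U 0 1
  obtain rfl := S.eq_of_mem_UAt hu S.u_one_ne_one (hB (hZ (S.u_mem_Z 1)))
  have hU : H ≤ S.U := fun g hg => by
    obtain ⟨a, b, k, rfl⟩ := S.eq_u_mul_h_of_fix (hB hg)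
    by_cases hk : k = 1
    · simpa [hk] using S.u_mem_U a b
    obtain ⟨x, y, e⟩ := S.exists_fix_of_ne_one a b hk
    obtain ⟨l, hl⟩ := S.eq_h_of_fix (g := (S.u x y)⁻¹ * (S.u a b * S.h k) * S.u x y)
      (by rw [mul_smul, mul_smul, S.u_smul_inf, hB hg, inv_smul_eq_iff, S.u_smul_inf])
      (by rw [mul_smul, mul_smul, S.u_smul_zero, e, inv_smul_eq_iff, S.u_smul_zero])
    have : S.u a b * S.h k = (S.conj (S.u x y)).h l := by rw [S.conj_h, ← hl]; group
    rw [this, no_torus (k := l) (S.conj (S.u x y)) B (fun z hz => hZ (by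
      simpa [mul_assoc] using S.conj_mem_Z (S.u_smul_inf x y) (S.mem_conj_Z.1 hz)))
      (by rwa [S.conj_stabilizer, S.u_smul_inf]) (this ▸ hg), map_one]
    exact one_mem _
  refine le_antisymm (fun g hg => ?_) hZ
  obtain ⟨a, c, rfl⟩ := hU hg
  refine S.u_mem_Z_iff.2 (by_contra fun ha => ?_)
  have key : ∀ g : G, tr S g = 0 → ∃ k : G, g • (k : G ⧸ H) = k := fun g e => by
    obtain ⟨x, hx⟩ := S.exists_mem_UAt (n := 2) (pow_four_of_tr S e)
    obtain ⟨k, rfl⟩ := S.exists_smul_inf x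
    obtain ⟨a', c', e⟩ := S.mem_conj_U.1 (S.conj_U k ▸ hx)
    by_cases h0 : a' = 0
    · exact ⟨k, fix_iff.2 (e ▸ hZ (S.u_mem_Z_iff.2 h0))⟩
    refine ⟨k * S.h (Units.mk0 _ (div_ne_zero h0 ha)), fix_iff.2 ?_⟩
    have := S.h_conj_u (Units.mk0 _ (div_ne_zero h0 ha))⁻¹ a' c'
    rw [map_inv, inv_inv, ← e] at this
    rw [mul_inv_rev, mul_assoc, mul_assoc, ← mul_assoc g, ← mul_assoc k⁻¹, ← mul_assoc k⁻¹, ← mul_assoc, this]
    generalize (_ * _ * c' : F) = d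
    convert mul_mem (hZ (S.u_mem_Z (d + c))) hg using 1
    rw [S.u_mul, S.u_eq_iff]
    simp [h0, add_assoc, CharTwo.add_self_eq_zero]
  obtain ⟨x, h1, h2, h3⟩ := exists_tr S 0
  obtain ⟨k, hk⟩ := key _ h1
  obtain ⟨l, hl⟩ := key _ h2
  obtain ⟨g, -, h4, h5, h6⟩ := B.tri hk hk (x2 := (1 : G)) (b := S.u 0 1)
    (fix_iff.2 (by simpa using hZ (S.u_mem_Z 1))) ((mul_smul _ _ _).symm.trans hl)
  have h7 : g = 1 := by_contra fun e => h3 (by
    have := S.eq_of_mem_UAt (x := S.inf) (S.UAt_inf.symm ▸ hU (by simpa using fix_iff.1 h5)) e (fix_pt hB h4)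
    simpa [this] using fix_pt hB hk)
  rw [h7, one_smul] at h6
  have h8 := fix_pt hB hl
  rw [S.eq_of_mem_UAt hu S.u_one_ne_one (fix_pt hB h6.symm), mul_smul, S.u_smul_inf] at h8
  exact h3 h8

include S in
theorem eq_bot (ho : Odd (Nat.card H)) : H = ⊥ := by
  haveI := S.finiteG
  by_contra h
  obtain ⟨p, hp, h1⟩ := Nat.exists_prime_and_dvd (mt card_eq_one.1 h)
  haveI := Fact.mk hp
  obtain ⟨y, hy⟩ := exists_prime_orderOf_dvd_card' p h1
  have h2 : Odd p := ho.of_dvd_nat h1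
  have hy1 : (y : G) ^ p = 1 := by rw [← hy, ← orderOf_coe, pow_orderOf_eq_one]
  have hy2 : (y : G) ≠ 1 := fun e => hp.ne_one (by rw [← hy, ← orderOf_coe, e, orderOf_one])
  have key : ∀ g : G, tr S g = tr S y → g ≠ 1 ∧ g ^ p = 1 ∧ ∃ k : G, g • (k : G ⧸ H) = k := fun g e => by
    have h3 : ∀ x, g ∉ S.UAt x := fun x hx => hy2 (pow_eq_one_iff_of_coprime (h2.coprime_two_left.pow_left 4) |>.1
      ⟨by rw [show 2 ^ 4 = 4 * 4 from rfl, pow_mul]; exact pow_of_tr S e.symm (S.pow_four_of_mem_UAt hx), hy1⟩)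
    have h4 : g ≠ 1 := fun e => h3 S.inf (e ▸ one_mem _)
    have hT := (S.mem_UAt_or_isTorus h4).resolve_left fun ⟨x, hx⟩ => h3 x hx
    have h5 : g ^ p = 1 := by_contra fun e' => (S.exists_mem_UAt (n := 2) (pow_of_tr S e hy1)).elim
      (hT.not_mem_UAt (pow_mem (mem_centralizer_singleton_iff.2 rfl) _) e')
    refine ⟨h4, h5, ?_⟩
    have hT' := S.isTorus_centralizer hy2 h2 hy1
    have h6 : (y : G) ∈ centralizer {(y : G)} := mem_centralizer_singleton_iff.2 rfl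
    obtain ⟨-, k, hk⟩ := hT'.isCC.mem_conjSet_of_prime hp (by
      rw [← hy, ← orderOf_coe]; exact Subgroup.orderOf_dvd_natCard _ h6) (orderOf_eq_prime h5 h4)
    haveI := hT'.isCyclic
    obtain ⟨n, hn⟩ := H6.mem_zpowers_of_pow_orderOf (x := (⟨_, hk⟩ : centralizer {(y : G)})) (y := ⟨y, h6⟩)
      (Subtype.ext (by simp [hy, h5]))
    exact ⟨k⁻¹, fix_iff.2 (by rw [inv_inv, ← show (y : G) ^ n = k * g * k⁻¹ from congrArg Subtype.val hn]; exact zpow_mem y.2 n)⟩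
  obtain ⟨x, h3, h4, -⟩ := exists_tr S (tr S y)
  have hs : S.u 0 1 * S.u 0 1 = 1 := S.sq_eq_one_of_mem_Z (S.u_mem_Z 1)
  obtain ⟨x1, x2, k, hk⟩ := key _ h3
  obtain ⟨z1, z2, l, hl⟩ := key _ h4
  have h5 : ∀ {a b k : G}, a • (k : G ⧸ H) = k → b • (k : G ⧸ H) = k → a * b = b * a := fun {a b k} e e' =>
    mul_right_cancel (b := k) (by simpa [mul_assoc] using comm_of_odd S ho (fix_iff.1 e) (fix_iff.1 e'))
  have h6 : (S.u 0 1 * x * S.u 0 1) • ((S.u 0 1 * k : G) : G ⧸ H) = (S.u 0 1 * k : G) := by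
    rw [← smul_eq_mul _ k, ← Quotient.smul_coe, mul_smul, smul_smul (S.u 0 1) (S.u 0 1), hs, one_smul, mul_smul, hk]
  have h7 : (x * (S.u 0 1 * x * S.u 0 1)) • (l : G ⧸ H) = l := by
    rw [show x * (S.u 0 1 * x * S.u 0 1) = x * S.u 0 1 * (x * S.u 0 1) by group, mul_smul, hl, hl]
  obtain ⟨g, -, h8, h9, h10⟩ := B.tri hk hk h6 ((mul_smul _ _ _).symm.trans h7)
  have h11 : x * (S.u 0 1 * x * S.u 0 1) = S.u 0 1 * x * S.u 0 1 * x := by
    by_cases e : g = 1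
    · rw [e, one_smul] at h10
      exact mul_right_cancel ((h5 h7 h10.symm).trans (mul_assoc _ _ _).symm)
    · have := (S.isTorus_centralizer x1 h2 x2).isCC
      have h12 := this.mem_of_comm (mem_centralizer_singleton_iff.2 (h5 h8 hk)) e (h5 h6 h9)
      exact (mem_centralizer_singleton_iff.1 h12).symm
  have hT := S.isTorus_centralizer z1 h2 z2
  have h12 : x * S.u 0 1 ∈ centralizer {x * S.u 0 1} := mem_centralizer_singleton_iff.2 rfl
  have h13 := hT.isCC.mem_of_comm (mul_mem h12 h12) (y := x) (fun e => z1 ((pow_eq_one_iff_of_coprime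
    h2.coprime_two_left).1 ⟨(sq _).trans e, z2⟩)) (by
      rw [show x * S.u 0 1 * (x * S.u 0 1) = x * (S.u 0 1 * x * S.u 0 1) by group, mul_assoc x _ x, ← h11])
  exact hT.not_mem_UAt ((mul_mem_cancel_left h13).1 h12) S.u_one_ne_one S.inf (S.UAt_inf.symm ▸ S.u_mem_U 0 1)

end

/-- Let G = Sz(q) be a Suzuki group, q = 2^(2a+1) with a ≥ 1 (realised inside Sp₄ over the field with q elements), and let H be a proper subgroup of G. Then the action of G on the cosets of H is binary if and only if H is trivial or H is the centre of a Sylow 2-subgroup of G. Here an action is binary (relational complexity 2) when, for every n ≥ 2 and all n-tuples I, J of points, if for every pair of positions some group element carries the corresponding pair of entries of I to those of J, then a single group element carries I to J. -/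
theorem result {F : Type*} [Field F] [Fintype F] (a : ℕ) (ha : 1 ≤ a) (hF : Fintype.card F = 2 ^ (2 * a + 1))
    (H : Subgroup (Cfsg.Lie.Sz F (2 ^ (a + 1)))) (hH : H ≠ ⊤) :
    (∀ (n : ℕ) (I J : Fin n → (Cfsg.Lie.Sz F (2 ^ (a + 1))) ⧸ H), 2 ≤ n →
        (∀ i j : Fin n, i ≠ j → ∃ g : (Cfsg.Lie.Sz F (2 ^ (a + 1))), g • I i = J i ∧ g • I j = J j) → ∃ g : (Cfsg.Lie.Sz F (2 ^ (a + 1))), ∀ i, g • I i = J i) ↔
      (H = ⊥ ∨ ∃ P : Sylow 2 (Cfsg.Lie.Sz F (2 ^ (a + 1))), H = (Subgroup.center (P : Subgroup (Cfsg.Lie.Sz F (2 ^ (a + 1))))).map (P : Subgroup (Cfsg.Lie.Sz F (2 ^ (a + 1)))).subtype) := by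
  let S := szDataB ha (Nat.card_eq_fintype_card.trans hF)
  haveI := S.finiteG
  have key : ∀ (P : Subgroup _) k, (S.conj k).U = P → (center P).map P.subtype = (S.conj k).Z := fun P k e => by
    rw [← e, SzData.center_U, subgroupOf_map_subtype, inf_eq_left.2 (SzData.Z_le_U _)]
  refine ⟨fun B => ?_, ?_⟩
  · rcases (Nat.card H).even_or_odd with h | h
    · haveI := Fact.mk Nat.prime_two
      obtain ⟨t, ht⟩ := exists_prime_orderOf_dvd_card' 2 h.two_dvd
      rw [← orderOf_coe] at ht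
      obtain ⟨k, b, e⟩ := S.exists_conj_mem_Z (t := t) ((sq _).symm.trans (orderOf_dvd_iff_pow_eq_one.1 ht.dvd))
      obtain ⟨P, hP⟩ := (S.conj k).exists_sylow_eq_U
      exact .inr ⟨P, (eq_Z _ B (by rintro rfl; simp [e] at ht) (e ▸ t.2) hH).trans (key P k hP.symm).symm⟩
    · exact .inl (eq_bot S B h)
  · rintro (rfl | ⟨P, rfl⟩)
    · intro n I J hn h
      obtain ⟨g, hg⟩ := exists_smul_eq (Lie.Sz F (2 ^ (a + 1))) (I ⟨0, by omega⟩) (J ⟨0, by omega⟩)
      refine ⟨g, fun i => ?_⟩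
      rcases eq_or_ne ⟨0, by omega⟩ i with rfl | e
      · exact hg
      obtain ⟨k, h1, h2⟩ := h _ _ e
      obtain ⟨x, hx⟩ := QuotientGroup.mk_surjective (I ⟨0, by omega⟩)
      have := (fix_iff (g := g⁻¹ * k) (k := x) (H := ⊥)).1 (by rw [hx, mul_smul, h1, ← hg, inv_smul_smul])
      rwa [inv_mul_eq_one.1 (by_contra fun e => conj_ne_one' x e this : g⁻¹ * k = 1)]
    · obtain ⟨k, hk⟩ := S.exists_conj_U_eq_sylow P
      rw [key P k hk]
      exact bin_Z _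

end Cfsg.Agent.S5737
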