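import Cfsg.Statements.S5738
import Mathlib
import Cfsg.Agent.H10.Singer

set_option autoImplicit false
open Cfsg

namespace Cfsg.Agent.S5738

/-- Let F ⊆ K be finite fields with |F| = q and [K : F] = n ≥ 2, so |K| = q^n. Regard K as an n-dimensional F-vector space; the multiplications by non-zero elements of K form a cyclic subgroup of GL_F(K) of order q^n − 1 acting regularly on the non-zero vectors (a Singer group). Its normaliser in GL_F(K) has order n·(q^n − 1). -/
theorem result {F K : Type*} [Field F] [Fintype F] [Field K] [Fintype K] [Algebra F K] (n : ℕ) (hn : 2 ≤ n) (hdim : Module.finrank F K = n) :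
    Nat.card (Subgroup.normalizer (((Units.map ((Algebra.lmul F K : K →ₐ[F] Module.End F K) : K →* Module.End F K)).range : Subgroup (Module.End F K)ˣ) : Set (Module.End F K)ˣ)) = n * (Fintype.card K - 1) := by
  classical
  have : Finite (Module.End F K) := Finite.of_injective _ DFunLike.coe_injective
  let u : (K ≃ₐ[F] K) → (Module.End F K)ˣ := fun σ =>
    ⟨σ.toLinearMap, σ.symm.toLinearMap, by ext; simp, by ext; simp⟩
  have hu : ∀ σ, u σ ∈ Subgroup.normalizer ((H10.sgH F K).range : Set (Module.End F K)ˣ) := fun σ => by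
    refine Subgroup.mem_normalizer_fintype ?_
    rintro _ ⟨a, rfl⟩
    refine ⟨Units.map (σ : K →* K) a, Units.ext (LinearMap.ext fun x => ?_)⟩
    change σ a * x = σ (a * σ.symm x)
    simp
  let Ψ : (K ≃ₐ[F] K) × Kˣ → Subgroup.normalizer ((H10.sgH F K).range : Set (Module.End F K)ˣ) :=
    fun p => ⟨H10.sgH F K p.2 * u p.1, mul_mem (Subgroup.le_normalizer ⟨_, rfl⟩) (hu _)⟩
  have hΨ : ∀ p x, (Ψ p).1.1 x = p.2 * p.1 x := fun p x => rfl
  have hb : Function.Bijective Ψ := by
    constructor
    · intro p p' h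
      have h1 : ∀ x, p.2 * p.1 x = p'.2 * p'.1 x := fun x => by rw [← hΨ, ← hΨ, h]
      have h2 : p.2 = p'.2 := Units.ext (by simpa using h1 1)
      refine Prod.ext (AlgEquiv.ext fun x => ?_) h2
      have := h1 x
      rw [h2] at this
      exact mul_left_cancel₀ p'.2.ne_zero this
    · rintro ⟨g, hg⟩
      have h0 := H10.unit_apply_ne_zero g (one_ne_zero (α := K))
      have h1 : ∀ a x, g.1 (a * x) * g.1 1 = g.1 a * g.1 x := fun a x => by
        by_cases ha : a = 0
        · simp [ha]
        obtain ⟨b, hb⟩ := (Subgroup.mem_normalizer_iff.mp hg _).mp ⟨Units.mk0 a ha, rfl⟩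
        have h2 : ∀ y, b * g.1 y = g.1 (a * y) := fun y =>
          congrArg (fun f : (Module.End F K)ˣ => f.1 y) (eq_mul_inv_iff_mul_eq.mp hb)
        have h3 := h2 1
        rw [mul_one] at h3
        rw [← h2, ← h3]; ring
      let φ : K →ₐ[F] K := AlgHom.ofLinearMap ((g.1 1)⁻¹ • g.1) (by simp [h0]) fun a x => by
        simp only [LinearMap.smul_apply, smul_eq_mul]
        field_simp
        rw [mul_comm]; exact h1 a x
      refine ⟨(AlgEquiv.ofBijective φ φ.bijective, Units.mk0 _ h0),
        Subtype.ext (Units.ext (LinearMap.ext fun x => ?_))⟩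
      rw [hΨ]
      change g.1 1 * ((g.1 1)⁻¹ * g.1 x) = _
      field_simp
  rw [← Nat.card_eq_of_bijective Ψ hb, Nat.card_prod, IsGalois.card_aut_eq_finrank, hdim,
    Nat.card_eq_fintype_card, Fintype.card_units]

end Cfsg.Agent.S5738
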