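import Cfsg.Statements.S5739
import Mathlib
import Cfsg.Agent.H10.Singer

set_option autoImplicit false
open Cfsg

namespace Cfsg.Agent.S5739

/-- Let F ⊆ K be finite fields with |F| = q and [K : F] = n ≥ 2, and let M ≤ GL_F(K) be the Singer group of multiplications by non-zero elements of K. If g ∈ GL_F(K) does not normalise M, then the order of M ∩ gMg⁻¹ divides q^r − 1 for some proper divisor r of n. In particular, when n is prime, that order divides q − 1. -/
theorem result {F K : Type*} [Field F] [Fintype F] [Field K] [Fintype K] [Algebra F K] (n : ℕ) (hn : 2 ≤ n) (hdim : Module.finrank F K = n)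
    (g : (Module.End F K)ˣ) (hg : ((Units.map ((Algebra.lmul F K : K →ₐ[F] Module.End F K) : K →* Module.End F K)).range).map (MulAut.conj g).toMonoidHom ≠ (Units.map ((Algebra.lmul F K : K →ₐ[F] Module.End F K) : K →* Module.End F K)).range) :
    ∃ r : ℕ, 1 ≤ r ∧ r ∣ n ∧ r < n ∧ Nat.card ↥(((Units.map ((Algebra.lmul F K : K →ₐ[F] Module.End F K) : K →* Module.End F K)).range).map (MulAut.conj g).toMonoidHom ⊓ (Units.map ((Algebra.lmul F K : K →ₐ[F] Module.End F K) : K →* Module.End F K)).range) ∣ Fintype.card F ^ r - 1 := by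
  classical
  set D := (H10.sgH F K).range.map (MulAut.conj g).toMonoidHom ⊓ (H10.sgH F K).range
  let L := IntermediateField.adjoin F {a : K | ∃ u : Kˣ, u = a ∧ H10.sgH F K u ∈ D}
  have hL : L ≠ ⊤ := fun h => hg (by
    refine Subgroup.eq_of_le_of_card_ge (fun x hx => ?_)
      (Subgroup.card_map_of_injective (MulAut.conj g).injective).ge
    refine H10.mem_singer_of_adjoin (s := {a : K | ∃ u : Kˣ, u = a ∧ H10.sgH F K u ∈ D}) ?_ ?_
    · rw [← IntermediateField.adjoin_toSubalgebra_of_isAlgebraic
        (fun x _ => Algebra.IsAlgebraic.isAlgebraic x)]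
      exact congrArg IntermediateField.toSubalgebra h
    · rintro _ ⟨u, rfl, hu⟩
      refine H10.comm_of_commute ?_
      obtain ⟨_, ⟨a, rfl⟩, ha⟩ := hu.1
      obtain ⟨_, ⟨b, rfl⟩, rfl⟩ := hx
      rw [← ha, ← map_mul, ← map_mul, ← map_mul, ← map_mul, mul_comm a])
  have h1 := Module.finrank_mul_finrank F L K
  rw [hdim] at h1
  refine ⟨Module.finrank F L, Module.finrank_pos, ⟨_, h1.symm⟩, ?_, ?_⟩
  · have h2 : Module.finrank L K ≠ 1 := fun h => hL (IntermediateField.finrank_eq_one_iff_eq_top.mp h)
    have h3 : 0 < Module.finrank L K := Module.finrank_pos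
    have h4 : 0 < Module.finrank F L := Module.finrank_pos
    nlinarith [show 2 ≤ Module.finrank L K by omega]
  · have h2 : D ≤ ((H10.sgH F K).comp (Units.map (L.val : L →* K))).range := fun x hx => by
      obtain ⟨u, rfl⟩ := hx.2
      exact ⟨Units.mk0 ⟨u, IntermediateField.subset_adjoin _ _ ⟨u, rfl, hx⟩⟩
        (fun h => u.ne_zero (congrArg Subtype.val h)), congrArg (H10.sgH F K) (Units.ext rfl)⟩
    refine (Subgroup.card_dvd_of_le h2).trans ((Subgroup.card_range_dvd _).trans ?_)
    rw [Nat.card_units, Module.natCard_eq_pow_finrank (K := F), Nat.card_eq_fintype_card]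

end Cfsg.Agent.S5739
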