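import Cfsg.Statements.S5747
import Mathlib

set_option autoImplicit false
open Cfsg

namespace Cfsg.Agent.S5747

/-- A base. -/
def Bs (G : Type*) {Ω : Type*} [Group G] [MulAction G Ω] {t : ℕ} (f : Fin t → Ω) : Prop :=
  ∀ g : G, (∀ i : Fin t, g • f i = f i) → g = 1

/-- An irredundant sequence. -/
def Ir (G : Type*) {Ω : Type*} [Group G] [MulAction G Ω] {t : ℕ} (f : Fin t → Ω) : Prop :=
  ∀ i : Fin t, ∃ g : G, (∀ j : Fin t, j < i → g • f j = f j) ∧ g • f i ≠ f i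

variable {G Ω : Type*} [Group G] [MulAction G Ω]

theorem rm {t : ℕ} {f : Fin (t + 1) → Ω} (h : Bs G f) (h' : ¬ Ir G f) :
    ∃ f' : Fin t → Ω, Bs G f' := by
  simp only [Ir, not_forall, not_exists, not_and, not_not] at h'
  obtain ⟨i, hi⟩ := h'
  refine ⟨f ∘ i.succAbove, fun g hg => h g fun j => ?_⟩
  have : ∀ j, j ≠ i → g • f j = f j := fun j hj => by
    obtain ⟨j, rfl⟩ := Fin.exists_succAbove_eq hj
    exact hg j
  by_cases hj : j = i
  · rw [hj]; exact hi g fun j hj => this j hj.ne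
  · exact this j hj

theorem ex (t : ℕ) : ∀ f : Fin t → Ω, Bs G f → ∃ t' ≤ t, ∃ f' : Fin t' → Ω, Bs G f' ∧ Ir G f' := by
  induction t with
  | zero => exact fun f h => ⟨0, le_rfl, f, h, fun i => i.elim0⟩
  | succ t ih =>
    intro f h
    by_cases h' : Ir G f
    · exact ⟨_, le_rfl, f, h, h'⟩
    · obtain ⟨f', hf'⟩ := rm h h'
      obtain ⟨t', ht', h2⟩ := ih f' hf'
      exact ⟨t', by omega, h2⟩

theorem ir_snoc {t : ℕ} {f : Fin t → Ω} {x : Ω} : Ir G (Fin.snoc f x : Fin (t + 1) → Ω) ↔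
    Ir G f ∧ ∃ g : G, (∀ j, g • f j = f j) ∧ g • x ≠ x := by
  simp only [Ir, Fin.forall_fin_succ', Fin.snoc_castSucc, Fin.snoc_last, Fin.castSucc_lt_castSucc_iff,
    Fin.castSucc_lt_last, lt_self_iff_false, (Fin.le_last _).not_gt, false_imp_iff, and_true,
    true_imp_iff]

theorem bs_snoc {t : ℕ} {f : Fin t → Ω} {x : Ω} : Bs G (Fin.snoc f x : Fin (t + 1) → Ω) ↔
    ∀ g : G, (∀ j, g • f j = f j) → g • x = x → g = 1 := by
  simp only [Bs, Fin.forall_fin_succ', Fin.snoc_castSucc, Fin.snoc_last, and_imp]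

theorem le_of (H : ∀ (t : ℕ) (f : Fin t → Ω) (σ : Equiv.Perm (Fin t)), Bs G f ∧ Ir G f →
    Bs G (f ∘ σ) ∧ Ir G (f ∘ σ)) {t t' : ℕ} {f' : Fin t' → Ω} (h' : Bs G f') (k : ℕ) :
    ∀ f : Fin t → Ω, Bs G f → Ir G f → Nat.card {i // f i ∉ Set.range f'} = k → t ≤ t' := by
  classical
  induction k using Nat.strong_induction_on with
  | _ k ih =>
  intro f h1 h2 hk
  by_cases hc : ∀ i, f i ∈ Set.range f'
  · choose φ hφ using hc
    have : Function.Injective φ := fun i j hij => by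
      have h3 : f i = f j := by rw [← hφ, ← hφ, hij]
      by_contra hne
      rcases lt_or_gt_of_ne hne with h | h
      · obtain ⟨g, hg, hg'⟩ := h2 j; exact hg' (h3 ▸ hg i h)
      · obtain ⟨g, hg, hg'⟩ := h2 i; exact hg' (h3 ▸ hg j h)
    simpa using Fintype.card_le_of_injective φ this
  push Not at hc
  obtain ⟨i, hi⟩ := hc
  obtain ⟨r, rfl⟩ : ∃ r, t = r + 1 := ⟨t - 1, by have := i.2; omega⟩
  obtain ⟨h3, h4⟩ := H _ f (Equiv.swap i (Fin.last r)) ⟨h1, h2⟩
  have hk' : Nat.card {j // (f ∘ Equiv.swap i (Fin.last r)) j ∉ Set.range f'} = k :=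
    (Nat.card_congr ((Equiv.swap i (Fin.last r)).subtypeEquiv fun _ => Iff.rfl)).trans hk
  have hl : (f ∘ Equiv.swap i (Fin.last r)) (Fin.last r) ∉ Set.range f' := by simpa using hi
  generalize f ∘ Equiv.swap i (Fin.last r) = F at h3 h4 hk' hl
  obtain ⟨f0, a, rfl⟩ : ∃ (f0 : Fin r → Ω) (a : Ω), F = Fin.snoc f0 a :=
    ⟨_, _, (Fin.snoc_init_self F).symm⟩
  obtain ⟨h5, g, hg, hga⟩ := ir_snoc.mp h4
  obtain ⟨j, hj⟩ : ∃ j, g • f' j ≠ f' j := by
    by_contra hc
    push Not at hc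
    exact hga (by rw [h' g hc, one_smul])
  have h6 : Ir G (Fin.snoc f0 (f' j) : Fin (r + 1) → Ω) := ir_snoc.mpr ⟨h5, g, hg, hj⟩
  refine ih _ ?_ (Fin.snoc f0 (f' j)) (bs_snoc.mpr fun x hx hx' => ?_) h6 rfl
  · rw [← hk']
    refine Set.ncard_lt_ncard (s := {i | (Fin.snoc f0 (f' j) : Fin (r + 1) → Ω) i ∉ Set.range f'})
      (t := {i | (Fin.snoc f0 a : Fin (r + 1) → Ω) i ∉ Set.range f'}) ⟨fun i hi => ?_, fun h => ?_⟩
    · induction i using Fin.lastCases with
      | last => exact hl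
      | cast i => simpa using hi
    · exact h hl ⟨j, by simp⟩
  · by_contra hx1
    have h7 : x • a ≠ a := fun h => hx1 (bs_snoc.mp h3 x hx h)
    obtain ⟨-, h8⟩ := H _ (Fin.snoc (Fin.snoc f0 (f' j) : Fin (r + 1) → Ω) a)
      (Equiv.swap (Fin.last r).castSucc (Fin.last (r + 1)))
      ⟨bs_snoc.mpr fun y hy hy' => bs_snoc.mp h3 y (fun l => by simpa using hy l.castSucc) hy',
        ir_snoc.mpr ⟨h6, x, fun l => by
          induction l using Fin.lastCases with
          | last => simpa using hx'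
          | cast l => simpa using hx l, h7⟩⟩
    obtain ⟨y, hy, hy'⟩ := h8 (Fin.last _)
    refine hy' ?_
    refine (congrArg (· • _) (bs_snoc.mp h3 y (fun l => ?_) ?_)).trans (one_smul _ _)
    · have := hy l.castSucc.castSucc (Fin.castSucc_lt_last _)
      rw [Function.comp_apply, Equiv.swap_apply_of_ne_of_ne
        (Fin.castSucc_lt_castSucc_iff.mpr (Fin.castSucc_lt_last _)).ne
        (Fin.castSucc_lt_last _).ne] at this
      simpa using this
    · simpa using hy (Fin.last r).castSucc (Fin.castSucc_lt_last _)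


/-- Let a finite group G act on a finite set Ω. An irredundant base is a sequence of points ω₁, …, ω_t whose pointwise stabiliser is trivial and in which each ω_i is moved by some element fixing ω₁, …, ω_{i−1}. Then all irredundant bases have the same length if and only if every reordering of an irredundant base is again an irredundant base. -/
theorem result {G Ω : Type*} [Group G] [Finite G] [MulAction G Ω] [Fintype Ω] :
    (∀ (t t' : ℕ) (f : Fin t → Ω) (f' : Fin t' → Ω), ((∀ g : G, (∀ i : Fin t, g • f i = f i) → g = 1) ∧ ∀ i : Fin t, ∃ g : G, (∀ j : Fin t, j < i → g • f j = f j) ∧ g • f i ≠ f i) → ((∀ g : G, (∀ i : Fin t', g • f' i = f' i) → g = 1) ∧ ∀ i : Fin t', ∃ g : G, (∀ j : Fin t', j < i → g • f' j = f' j) ∧ g • f' i ≠ f' i) → t = t') ↔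
    (∀ (t : ℕ) (f : Fin t → Ω) (σ : Equiv.Perm (Fin t)), ((∀ g : G, (∀ i : Fin t, g • f i = f i) → g = 1) ∧ ∀ i : Fin t, ∃ g : G, (∀ j : Fin t, j < i → g • f j = f j) ∧ g • f i ≠ f i) → ((∀ g : G, (∀ i : Fin t, g • (f ∘ σ) i = (f ∘ σ) i) → g = 1) ∧ ∀ i : Fin t, ∃ g : G, (∀ j : Fin t, j < i → g • (f ∘ σ) j = (f ∘ σ) j) ∧ g • (f ∘ σ) i ≠ (f ∘ σ) i)) := by
  constructor
  · intro H t f σ hf
    have h1 : Bs G (f ∘ σ) := fun g hg => hf.1 g fun i => by simpa using hg (σ.symm i)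
    refine ⟨h1, ?_⟩
    by_contra hc
    rcases t with _ | t
    · exact hc fun i => i.elim0
    obtain ⟨f', hf'⟩ := rm h1 hc
    obtain ⟨t', ht', f'', h2⟩ := ex t f' hf'
    have := H _ _ f f'' hf h2
    omega
  · intro H t t' f f' hf hf'
    exact le_antisymm (le_of H hf'.1 _ f hf.1 hf.2 rfl) (le_of H hf.1 _ f' hf'.1 hf'.2 rfl)

end Cfsg.Agent.S5747
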