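import Cfsg.Statements.S5748
import Cfsg.Agent.H23.AC2
import Cfsg.Agent.H23.Cop

set_option autoImplicit false
open Cfsg

namespace Cfsg.Agent.S5748

theorem aux {F : Type*} [Field F] {A B C : Matrix (Fin 2) (Fin 2) F} (hB : ∀ r, B ≠ !![r, 0; 0, r])
    (h1 : A * B = B * A) (h2 : B * C = C * B) : A * C = C * A := by
  have k : ∀ {X Y : Matrix (Fin 2) (Fin 2) F}, X * Y = Y * X ↔ X 0 1 * Y 1 0 = X 1 0 * Y 0 1 ∧
      (X 0 0 - X 1 1) * Y 0 1 = X 0 1 * (Y 0 0 - Y 1 1) ∧ (X 0 0 - X 1 1) * Y 1 0 = X 1 0 * (Y 0 0 - Y 1 1) := by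
    intro X Y
    simp only [← Matrix.ext_iff, Fin.forall_fin_two, Matrix.mul_apply, Fin.sum_univ_two]
    refine ⟨fun ⟨⟨a, b⟩, c, d⟩ => ⟨?_, ?_, ?_⟩, fun ⟨a, b, c⟩ => ⟨⟨?_, ?_⟩, ?_, ?_⟩⟩
    · linear_combination a
    · linear_combination b
    · linear_combination -c
    · linear_combination a
    · linear_combination b
    · linear_combination -c
    · linear_combination -a
  obtain ⟨a, b, c⟩ := k.1 h1
  obtain ⟨d, e, f⟩ := k.1 h2
  refine k.2 ?_
  by_cases p : B 0 1 = 0
  · by_cases q : B 1 0 = 0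
    · have r : B 0 0 - B 1 1 ≠ 0 := fun r => hB (B 0 0) (by
        rw [Matrix.eta_fin_two B, p, q, ← sub_eq_zero.1 r]; simp)
      exact ⟨mul_left_cancel₀ r (by grind), mul_left_cancel₀ r (by grind), mul_left_cancel₀ r (by grind)⟩
    · exact ⟨mul_left_cancel₀ q (by grind), mul_left_cancel₀ q (by grind), mul_left_cancel₀ q (by grind)⟩
  · exact ⟨mul_left_cancel₀ p (by grind), mul_left_cancel₀ p (by grind), mul_left_cancel₀ p (by grind)⟩


/-- A finite non-abelian simple group in which commuting is a transitive relation on the non-identity elements (equivalently, every non-identity element has abelian centraliser) is isomorphic to PSL₂ over a field with 2^f elements for some f ≥ 2; conversely these groups have that property. -/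
theorem result {G : Type*} [Group G] [Finite G] [IsSimpleGroup G] (hG : ¬ IsMulCommutative G) :
    (∀ a b c : G, a ≠ 1 → b ≠ 1 → c ≠ 1 → Commute a b → Commute b c → Commute a c) ↔
    ∃ (F : Type) (_ : Field F) (_ : Fintype F) (f : ℕ), 2 ≤ f ∧ Fintype.card F = 2 ^ f ∧ Nonempty (G ≃* Matrix.ProjectiveSpecialLinearGroup (Fin 2) F) := by
  refine ⟨fun h => ?_, fun ⟨F, _, _, f, hf, hF, ⟨e⟩⟩ a b c _ hb _ h1 h2 => ?_⟩
  · have hs : ¬ FT.Sol (⊤ : Subgroup G) := fun e =>
      hG ⟨⟨IsSimpleGroup.comm_iff_isSolvable.2 (FT.sol_top.1 e)⟩⟩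
    obtain ⟨T, hT⟩ := FT.exists_syl 2 (⊤ : Subgroup G)
    have hc : ¬ FT.Cyc T := fun e => hs (H23.sol_of_npc_two (FT.cyclic_Sylow_npc hT e (Nat.coprime_one_right _)))
    have a : H23.AT T := ⟨⟨hT, hc, fun e => ?_, fun t ht => FT.ab_iff_forall.2 fun x hx y hy => ?_⟩,
      fun s t hs ht hst => eq_bot_iff.2 fun x hx => by_contra fun x1 => hst (h s x t (H20.ne_one_of_orderOf_two hs) x1
        (H20.ne_one_of_orderOf_two ht) (FT.mem_cen1.1 hx.1).symm (FT.mem_cen1.1 hx.2))⟩
    · obtain ⟨F, _, _, -, hF, e⟩ := a.ea.sl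
      obtain ⟨f, hf⟩ := hT.pi.card
      have h4 := a.ea.four_le
      exact ⟨F, _, ‹_›, f, (Nat.pow_le_pow_iff_right one_lt_two).1 (hf ▸ h4), hF.trans hf, e⟩
    · rcases (Subgroup.normalizer_eq_top_iff.1 e).eq_bot_or_eq_top with e | e
      · exact hc (e ▸ FT.cyc_bot)
      · exact hs (e ▸ hT.pi.sol)
    · by_cases x1 : x = 1
      · simp [x1]
      by_cases y1 : y = 1
      · simp [y1]
      exact h x t y x1 (H20.ne_one_of_orderOf_two ht) y1 (FT.mem_cen1.1 hx) (FT.mem_cen1.1 hy).symm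
  · have : CharP F 2 := ringChar.of_eq (FiniteField.even_card_iff_char_two.2 (by
      rw [hF]; exact Nat.even_iff.1 ((Nat.even_pow' (by omega)).2 even_two)))
    obtain ⟨e'⟩ := H23.psl_equiv_sl F
    refine (e.trans e').injective ?_
    rw [map_mul, map_mul]
    refine Subtype.ext (aux (B := (e.trans e' b).1) (fun r hr => hb ((e.trans e').map_eq_one_iff.1 ?_))
      (congrArg Subtype.val (h1.map (e.trans e')).eq) (congrArg Subtype.val (h2.map (e.trans e')).eq))
    have := (e.trans e' b).2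
    rw [hr, Matrix.det_fin_two_of, mul_zero, sub_zero, mul_self_eq_one_iff, CharTwo.neg_eq, or_self] at this
    exact Subtype.ext (by rw [hr, this]; exact Matrix.one_fin_two.symm)

end Cfsg.Agent.S5748
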