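import Cfsg.Statements.S5753
import Mathlib
import Cfsg.Agent.H27.Bin4

set_option autoImplicit false
open Cfsg

namespace Cfsg.Agent.S5753

open MulAction H27.Bin
open scoped IsMulCommutative

/-- The binary primitive permutation groups of affine type (the known proof uses the classification of the finite simple groups). Let a finite group G act faithfully and primitively on a finite set Ω, with a non-trivial abelian normal subgroup, and suppose the action is binary: for every n ≥ 2 and all n-tuples I, J of points, if for every pair of positions some element of G carries the corresponding pair of entries of I to those of J, then a single element carries I to J. Then either Ω has a prime number of points and every point stabilizer has order at most 2, or Ω can be identified with a field E that is a quadratic extension of a subfield F in such a way that the permutations induced by G are exactly the maps x ↦ a·φ(x) + b with a ∈ E of norm 1 over F, φ an automorphism of E over F and b ∈ E (the affine group of the anisotropic plane orthogonal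 group). -/
theorem result {G Ω : Type*} [Group G] [Finite G] [MulAction G Ω] [FaithfulSMul G Ω] [Fintype Ω]
    (hprim : MulAction.IsPreprimitive G Ω)
    (haff : ∃ N : Subgroup G, N.Normal ∧ N ≠ ⊥ ∧ IsMulCommutative ↥N)
    (hbin : ∀ (n : ℕ) (I J : Fin n → Ω), 2 ≤ n →
      (∀ i j : Fin n, i ≠ j → ∃ g : G, g • I i = J i ∧ g • I j = J j) → ∃ g : G, ∀ i, g • I i = J i) :
    ((Fintype.card Ω).Prime ∧ ∀ ω : Ω, Nat.card ↥(MulAction.stabilizer G ω) ≤ 2) ∨
    (∃ (F E : Type) (_ : Field F) (_ : Fintype F) (_ : Field E) (_ : Fintype E) (_ : Algebra F E) (e : Ω ≃ E),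
        Module.finrank F E = 2 ∧
        ∀ σ : Equiv.Perm Ω, σ ∈ (MulAction.toPermHom G Ω).range ↔
          ∃ (a b : E) (φ : E ≃ₐ[F] E), Algebra.norm F a = 1 ∧ ∀ ω : Ω, e (σ ω) = a * φ (e ω) + b) := by
  obtain ⟨N, hN, hN0, hNc⟩ := haff
  obtain ⟨n0, hn0, hn1⟩ := (Subgroup.bot_or_exists_ne_one N).resolve_left hN0
  obtain ⟨ω, hω⟩ : ∃ ω : Ω, n0 • ω ≠ ω := by
    by_contra h
    push Not at h
    exact hn1 (eq_of_smul_eq_smul (α := Ω) fun x => by rw [h, one_smul])
  have : Nontrivial Ω := ⟨_, _, hω⟩
  have htr : IsPretransitive N Ω := IsQuasiPreprimitive.isPretransitive_of_normal fun h => by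
    have : ω ∈ fixedPoints N Ω := h ▸ Set.mem_univ ω
    exact hω (this ⟨n0, hn0⟩)
  have hreg : ∀ n : N, (n : G) • ω = ω → n = 1 := fun n hn =>
    Subtype.ext (eq_of_smul_eq_smul (α := Ω) fun x => by
      obtain ⟨m, rfl⟩ := htr.exists_smul_eq ω x
      have : (n : G) * m = m * n := congrArg Subtype.val (mul_comm n m)
      rw [Subgroup.smul_def, ← mul_smul, this, mul_smul, hn]; simp)
  let θ : Additive N ≃ Ω := Equiv.ofBijective (fun v => (v.toMul : G) • ω) ⟨fun a c e => by
    have := hreg (c.toMul⁻¹ * a.toMul) (by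
      simp only at e
      simp [mul_smul, e])
    exact (inv_mul_eq_one.mp this).symm, fun x => by
      obtain ⟨m, rfl⟩ := htr.exists_smul_eq ω x
      exact ⟨Additive.ofMul m, rfl⟩⟩
  have hθ : ∀ v, θ v = (v.toMul : G) • ω := fun _ => rfl
  have hθ0 : θ 0 = ω := one_smul _ _
  let _ : DistribMulAction (stabilizer G ω) (Additive N) :=
    { smul := fun h v => Additive.ofMul (MulAut.conjNormal (h : G) v.toMul)
      one_smul := fun v => by
        change Additive.ofMul (MulAut.conjNormal ((1 : stabilizer G ω) : G) v.toMul) = v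
        simp
      mul_smul := fun g h v => by
        change Additive.ofMul (MulAut.conjNormal ((g * h : stabilizer G ω) : G) v.toMul) =
          Additive.ofMul (MulAut.conjNormal (g : G) (MulAut.conjNormal (h : G) v.toMul))
        simp
      smul_zero := fun h => by
        change Additive.ofMul (MulAut.conjNormal (h : G) 1) = 0
        simp
      smul_add := fun h v w => by
        change Additive.ofMul (MulAut.conjNormal (h : G) (v.toMul * w.toMul)) = _
        rw [map_mul]; rfl }
  have k1 : ∀ (h : stabilizer G ω) (v : Additive N), (h : G) • θ v = θ (h • v) := fun h v => by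
    change _ = ((h : G) * (v.toMul : G) * (h : G)⁻¹) • ω
    have : (h : G)⁻¹ • ω = ω := (h⁻¹).2
    rw [mul_smul, this, mul_smul, hθ]
  have k2 : ∀ u v : Additive N, (u.toMul : G) • θ v = θ (u + v) := fun u v => by
    rw [hθ, hθ, ← mul_smul]; rfl
  have k3 : ∀ g : G, ∃ h : stabilizer G ω, ∀ v, g • θ v = θ (θ.symm (g • ω) + h • v) := fun g => by
    refine ⟨⟨((θ.symm (g • ω)).toMul : G)⁻¹ * g, ?_⟩, fun v => ?_⟩
    · rw [mem_stabilizer_iff, mul_smul, inv_smul_eq_iff, ← hθ, Equiv.apply_symm_apply]
    · rw [← k2, ← k1, ← mul_smul, mul_inv_cancel_left]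
  have b : Bn (stabilizer G ω) (Additive N) := by
    refine ⟨fun h hh => Subtype.ext (eq_of_smul_eq_smul (α := Ω) fun x => ?_), fun U hU => ?_,
      fun R h0 hR => ?_⟩
    · obtain ⟨v, rfl⟩ := θ.surjective x
      rw [k1, hh]; simp
    · let K : Subgroup G :=
        { carrier := {g | θ.symm (g • ω) ∈ U}
          one_mem' := by
            change θ.symm ((1 : G) • ω) ∈ U
            rw [one_smul, ← hθ0, Equiv.symm_apply_apply]; exact zero_mem _
          mul_mem' := fun {a c} ha hc => by
            obtain ⟨h, hh⟩ := k3 a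
            change θ.symm ((a * c) • ω) ∈ U
            rw [mul_smul, ← θ.apply_symm_apply (c • ω), hh, Equiv.symm_apply_apply]
            exact add_mem ha (hU h _ hc)
          inv_mem' := fun {a} ha => by
            obtain ⟨h, hh⟩ := k3 a
            have := hh (θ.symm (a⁻¹ • ω))
            rw [Equiv.apply_symm_apply, smul_inv_smul] at this
            have h2 := θ.injective (hθ0.trans this)
            have h3 := hU h⁻¹ _ (neg_mem ha)
            rwa [neg_eq_of_add_eq_zero_right h2.symm, inv_smul_smul] at h3 }
      have hK : stabilizer G ω ≤ K := fun g hg => by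
        change θ.symm (g • ω) ∈ U
        rw [mem_stabilizer_iff.mp hg, ← hθ0, Equiv.symm_apply_apply]; exact zero_mem _
      have hm : ∀ u : Additive N, (u.toMul : G) ∈ K ↔ u ∈ U := fun u => by
        change θ.symm ((u.toMul : G) • ω) ∈ U ↔ _
        rw [← hθ, Equiv.symm_apply_apply]
      rcases (IsPreprimitive.isCoatom_stabilizer_of_isPreprimitive G ω).le_iff.mp hK with e | e
      · exact Or.inr (eq_top_iff.mpr fun u _ => (hm u).mp (e ▸ Subgroup.mem_top _))
      · refine Or.inl (eq_bot_iff.mpr fun u hu => ?_)
        have := (hm u).mpr hu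
        rw [e] at this
        exact hreg _ this
    · let f : R ⊕ Bool → Additive N × Additive N := Sum.elim Subtype.val fun _ => (0, 0)
      have hf : ∀ i, f i ∈ R := by
        rintro (i | i)
        exacts [i.2, h0]
      obtain ⟨n, ⟨e⟩⟩ := Finite.exists_equiv_fin (R ⊕ Bool)
      have hn : 2 ≤ n := by
        have := Nat.card_congr e
        simp at this
        omega
      obtain ⟨g, hg⟩ := hbin n (fun i => θ (f (e.symm i)).1) (fun i => θ (f (e.symm i)).2) hn
        fun i j _ => by
        obtain ⟨h, hh⟩ := hR _ (hf (e.symm i)) _ (hf (e.symm j))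
        refine ⟨(((f (e.symm j)).2 - h • (f (e.symm j)).1).toMul : G) * h, ?_, ?_⟩
        · rw [mul_smul, k1, k2]
          congr 1
          rw [smul_sub] at hh
          linear_combination (norm := abel) hh
        · rw [mul_smul, k1, k2, sub_add_cancel]
      have hg' : ∀ a ∈ R, g • θ a.1 = θ a.2 := fun a ha => by
        simpa [f] using hg (e (Sum.inl ⟨a, ha⟩))
      refine ⟨⟨g, by simpa [hθ0] using hg' _ h0⟩, fun a ha => θ.injective ?_⟩
      rw [← k1]
      exact hg' a ha
  have : Nontrivial (Additive N) := θ.nontrivial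
  rcases b.main with ⟨h1, h2⟩ | ⟨F, E, _, _, _, _, _, ψ, h1, h2, h3⟩
  · refine Or.inl ⟨by rwa [← Nat.card_eq_fintype_card, ← Nat.card_congr θ], fun x => ?_⟩
    have e1 := (stabilizer G x).card_mul_index
    have e2 := (stabilizer G ω).card_mul_index
    rw [index_stabilizer_of_transitive] at e1 e2
    rwa [Nat.eq_of_mul_eq_mul_right Nat.card_pos (e1.trans e2.symm)]
  · refine Or.inr ⟨F, E, inferInstance, inferInstance, inferInstance, inferInstance,
      inferInstance, θ.symm.trans ψ.symm.toEquiv, h1, fun σ => ⟨?_, ?_⟩⟩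
    · rintro ⟨g, rfl⟩
      obtain ⟨h, hh⟩ := k3 g
      obtain ⟨a, φ, ha, e⟩ := h2 h
      refine ⟨a, ψ.symm (θ.symm (g • ω)), φ, ha, fun x => ?_⟩
      obtain ⟨v, rfl⟩ := θ.surjective x
      obtain ⟨v, rfl⟩ := ψ.surjective v
      simp [hh, e, add_comm]
    · rintro ⟨a, c, φ, ha, e⟩
      obtain ⟨h, hh⟩ := h3 a φ ha
      refine ⟨((ψ c).toMul : G) * h, Equiv.ext fun x => ?_⟩
      apply (θ.symm.trans ψ.symm.toEquiv).injective
      rw [e]
      obtain ⟨v, rfl⟩ := θ.surjective x
      obtain ⟨v, rfl⟩ := ψ.surjective v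
      simp [mul_smul, k1, k2, hh, add_comm]

end Cfsg.Agent.S5753
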