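import Cfsg.Statements.S5754
import Mathlib
import Cfsg.Agent.H11.Witt

set_option autoImplicit false
open Cfsg

namespace Cfsg.Agent.S5754

/-- Let V be a finite-dimensional vector space over a finite field F carrying an anisotropic quadratic form Q (Q(v) = 0 only for v = 0). Then the group of all maps v ↦ φ(v) + c, with φ an isometry of Q and c ∈ V, acts on V as a binary permutation group: given n ≥ 2 and two n-tuples u, u' of vectors such that every pair of corresponding entries of u is carried to that of u' by such a map, one such map carries u to u'. -/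
theorem result {F V : Type*} [Field F] [Finite F] [AddCommGroup V] [Module F V] [Module.Finite F V]
    (Q : QuadraticForm F V) (hQ : Q.Anisotropic) (n : ℕ) (hn : 2 ≤ n) (u u' : Fin n → V)
    (h2 : ∀ i j : Fin n, i ≠ j → ∃ (φ : Q.IsometryEquiv Q) (c : V), φ (u i) + c = u' i ∧ φ (u j) + c = u' j) :
    ∃ (φ : Q.IsometryEquiv Q) (c : V), ∀ i, φ (u i) + c = u' i := by
  classical
  let o : Fin n := ⟨0, by omega⟩
  have hd : ∀ i j, Q (u' i - u' j) = Q (u i - u j) := fun i j => by
    by_cases hij : i = j
    · simp [hij]
    obtain ⟨φ, c, h1, h2⟩ := h2 i j hij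
    rw [← h1, ← h2, add_sub_add_right_eq_sub, ← map_sub, φ.map_app]
  have h := H11.isForm_quad Q
  have hp : ∀ i j, Q.polarBilin (u' i - u' o) (u' j - u' o) =
      Q.polarBilin (u i - u o) (u j - u o) := fun i j => by
    have h1 := h.sub (u' i - u' o) (u' j - u' o)
    have h2 := h.sub (u i - u o) (u j - u o)
    rw [sub_sub_sub_cancel_right] at h1 h2
    rw [hd, hd, hd, h2] at h1
    simpa using h1.symm
  by_cases hB : Q.polarBilin.SeparatingLeft
  · let L := Fintype.linearCombination F fun i => u i - u o
    let L' := Fintype.linearCombination F fun i => u' i - u' o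
    have h3 : Q.polarBilin.compl₁₂ L' L' = Q.polarBilin.compl₁₂ L L := by
      refine LinearMap.BilinForm.ext_basis (Pi.basisFun F _) fun i j => ?_
      simpa [L, L'] using hp i j
    have h4 : ∀ x y, Q.polarBilin (L' x) (L' y) = Q.polarBilin (L x) (L y) := fun x y =>
      LinearMap.congr_fun₂ h3 x y
    have h5 : ∀ x, Q (L' x) = Q (L x) := fun x => by
      induction x using Pi.single_induction with
      | zero => simp
      | add x y hx hy => rw [L.map_add, L'.map_add, h.add, h.add, hx, hy, h4]
      | single i a => simp [L, L', QuadraticMap.map_smul, hd]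
    have hk : LinearMap.ker L ≤ LinearMap.ker L' := fun x hx =>
      hQ _ (by rw [h5, LinearMap.mem_ker.mp hx, map_zero])
    have hk' : LinearMap.ker L' ≤ LinearMap.ker L := fun x hx =>
      hQ _ (by rw [← h5, LinearMap.mem_ker.mp hx, map_zero])
    obtain ⟨g, hg, hg'⟩ := h.witt_maps hB ((LinearMap.ker L).liftQ L le_rfl)
      ((LinearMap.ker L).liftQ L' hk)
      (LinearMap.ker_eq_bot.mp (Submodule.ker_liftQ_eq_bot _ _ _ le_rfl))
      (LinearMap.ker_eq_bot.mp (Submodule.ker_liftQ_eq_bot _ _ _ hk'))
      (fun x y => by
        obtain ⟨x, rfl⟩ := Submodule.Quotient.mk_surjective _ x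
        obtain ⟨y, rfl⟩ := Submodule.Quotient.mk_surjective _ y
        exact h4 x y)
      (fun x => by
        obtain ⟨x, rfl⟩ := Submodule.Quotient.mk_surjective _ x
        exact h5 x)
    refine ⟨⟨g, hg.2⟩, u' o - g (u o), fun i => ?_⟩
    have := hg' (Submodule.Quotient.mk (Pi.single i 1))
    simp only [Submodule.liftQ_apply, L, L', Fintype.linearCombination_apply_single, one_smul,
      map_sub] at this
    change g (u i) + _ = _
    linear_combination (norm := abel) this
  · obtain ⟨w, hw, hw0⟩ : ∃ w, (∀ y, Q.polarBilin w y = 0) ∧ w ≠ 0 := by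
      by_contra hc
      push Not at hc
      exact hB hc
    have hQw : Q w ≠ 0 := fun h => hw0 (hQ w h)
    have h2' : (2 : F) = 0 := by
      have := h.diag w
      rw [hw] at this
      exact (mul_eq_zero.mp this.symm).resolve_right hQw
    have hsq : Function.Surjective fun c : F => c * c := Finite.surjective_of_injective fun a b hab => by
      have : (a - b) * (a - b) = 0 := by
        linear_combination hab + (b * b - a * b) * h2'
      exact sub_eq_zero.mp (mul_self_eq_zero.mp this)
    have h3 : ∀ v, ∃ c : F, v = c • w := fun v => by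
      obtain ⟨c, hc⟩ := hsq (-Q v / Q w)
      refine ⟨c, (sub_eq_zero.mp (hQ _ ?_)).symm⟩
      rw [h.sub, LinearMap.map_smul, LinearMap.smul_apply, hw, QuadraticMap.map_smul]
      simp only at hc
      rw [hc]; simp [hQw]
    refine ⟨QuadraticMap.IsometryEquiv.refl Q, u' o - u o, fun i => ?_⟩
    have : u i - u o - (u' i - u' o) = 0 := hQ _ (by
      obtain ⟨c, hc⟩ := h3 (u i - u o)
      rw [h.sub, hd, hc, LinearMap.map_smul, LinearMap.smul_apply, hw, ← two_mul, h2']; simp)
    change u i + _ = _
    linear_combination (norm := abel) this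

end Cfsg.Agent.S5754
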