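import Cfsg.Statements.S5763
import Mathlib

set_option autoImplicit false
open Cfsg

namespace Cfsg.Agent.S5763

open Equiv

/-- The standard fixed-point-free involution. -/
def z0 : Fin 8 → Fin 8 := ![1, 0, 3, 2, 5, 4, 7, 6]

/-- Membership in the largest normal `2`-subgroup of the centraliser of `z`. -/
abbrev QP (z g : Fin 8 → Fin 8) : Prop :=
  (∀ i, g (z i) = z (g i)) ∧ (∀ i, g (g i) = i ∨ g (g i) = z i) ∧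
    ((∀ i, g i = i ∨ g i = z i) ∨ ∀ i, g i ≠ i ∧ g i ≠ z i)

/-- Preserving the standard binary tree. -/
abbrev TP (g : Fin 8 → Fin 8) : Prop :=
  (∀ i, g (z0 i) = z0 (g i)) ∧ ∀ i j, (g i).1 / 4 = (g j).1 / 4 ↔ i.1 / 4 = j.1 / 4

/-- The automorphism group of the standard binary tree. -/
def H0 : Subgroup (Perm (Fin 8)) where
  carrier := {g | TP g}
  one_mem' := ⟨fun _ => rfl, fun _ _ => Iff.rfl⟩
  mul_mem' {a b} ha hb := ⟨fun i => by rw [Perm.mul_apply, hb.1, ha.1]; rfl,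
    fun i j => (ha.2 _ _).trans (hb.2 _ _)⟩
  inv_mem' {a} ha := ⟨fun i => a.injective (by rw [ha.1]; simp), fun i j => by
    rw [← ha.2]; simp⟩

theorem eq_of_comm {g : Fin 8 → Fin 8} (h : ∀ i, g (z0 i) = z0 (g i)) :
    g = ![g 0, z0 (g 0), g 2, z0 (g 2), g 4, z0 (g 4), g 6, z0 (g 6)] := by
  funext i
  fin_cases i
  exacts [rfl, h 0, rfl, h 2, rfl, h 4, rfl, h 6]

theorem key1 : ∀ a b c d : Fin 8, QP z0 ![a, z0 a, b, z0 b, c, z0 c, d, z0 d] →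
    TP ![a, z0 a, b, z0 b, c, z0 c, d, z0 d] := by decide +kernel

theorem key2 : ∀ a b c d : Fin 8, a.1 / 2 ≠ b.1 / 2 → c.1 / 2 ≠ d.1 / 2 →
    TP ![a, z0 a, b, z0 b, c, z0 c, d, z0 d] →
    ∀ i, (![a, z0 a, b, z0 b, c, z0 c, d, z0 d])^[8] i = i := by decide +kernel

/-- The alternatives for a second involution. -/
abbrev Alt (z : Fin 8 → Fin 8) : Prop :=
  (∃ i, QP z (swap i (z0 i)) ∧ TP (swap i (z0 i))) ∨ QP z z0 ∨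
    (QP z (fun i => z0 (z (z0 (z i)))) ∧ TP (fun i => z0 (z (z0 (z i)))) ∧ z0 (z (z0 (z 0))) ≠ 0)

set_option synthInstance.maxSize 100000 in
set_option synthInstance.maxHeartbeats 400000 in
theorem key3 : ∀ a0 : Fin 8, a0 ≠ 0 → ∀ a1 : Fin 8, a1 ≠ 1 → ((a0 ≠ a1 ∧ (a0 = 1 ↔ a1 = 0))) →
    ∀ a2 : Fin 8, a2 ≠ 2 → ((a0 ≠ a2 ∧ (a0 = 2 ↔ a2 = 0)) ∧ (a1 ≠ a2 ∧ (a1 = 2 ↔ a2 = 1))) →
    ∀ a3 : Fin 8, a3 ≠ 3 → ((a0 ≠ a3 ∧ (a0 = 3 ↔ a3 = 0)) ∧ (a1 ≠ a3 ∧ (a1 = 3 ↔ a3 = 1)) ∧ (a2 ≠ a3 ∧ (a2 = 3 ↔ a3 = 2))) →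
    ∀ a4 : Fin 8, a4 ≠ 4 → ((a0 ≠ a4 ∧ (a0 = 4 ↔ a4 = 0)) ∧ (a1 ≠ a4 ∧ (a1 = 4 ↔ a4 = 1)) ∧ (a2 ≠ a4 ∧ (a2 = 4 ↔ a4 = 2)) ∧ (a3 ≠ a4 ∧ (a3 = 4 ↔ a4 = 3))) →
    ∀ a5 : Fin 8, a5 ≠ 5 → ((a0 ≠ a5 ∧ (a0 = 5 ↔ a5 = 0)) ∧ (a1 ≠ a5 ∧ (a1 = 5 ↔ a5 = 1)) ∧ (a2 ≠ a5 ∧ (a2 = 5 ↔ a5 = 2)) ∧ (a3 ≠ a5 ∧ (a3 = 5 ↔ a5 = 3)) ∧ (a4 ≠ a5 ∧ (a4 = 5 ↔ a5 = 4))) →
    ∀ a6 : Fin 8, a6 ≠ 6 → ((a0 ≠ a6 ∧ (a0 = 6 ↔ a6 = 0)) ∧ (a1 ≠ a6 ∧ (a1 = 6 ↔ a6 = 1)) ∧ (a2 ≠ a6 ∧ (a2 = 6 ↔ a6 = 2)) ∧ (a3 ≠ a6 ∧ (a3 = 6 ↔ a6 = 3)) ∧ (a4 ≠ a6 ∧ (a4 = 6 ↔ a6 = 4)) ∧ (a5 ≠ a6 ∧ (a5 = 6 ↔ a6 = 5))) →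
    ∀ a7 : Fin 8, a7 ≠ 7 → ((a0 ≠ a7 ∧ (a0 = 7 ↔ a7 = 0)) ∧ (a1 ≠ a7 ∧ (a1 = 7 ↔ a7 = 1)) ∧ (a2 ≠ a7 ∧ (a2 = 7 ↔ a7 = 2)) ∧ (a3 ≠ a7 ∧ (a3 = 7 ↔ a7 = 3)) ∧ (a4 ≠ a7 ∧ (a4 = 7 ↔ a7 = 4)) ∧ (a5 ≠ a7 ∧ (a5 = 7 ↔ a7 = 5)) ∧ (a6 ≠ a7 ∧ (a6 = 7 ↔ a7 = 6))) →
    Alt ![a0, a1, a2, a3, a4, a5, a6, a7] := by decide +kernel

theorem key4 : ∀ a b : Fin 8, a.1 / 2 = b.1 / 2 → a = b ∨ a = z0 b := by decide

theorem isP : IsPGroup 2 H0 := fun g => ⟨3, Subtype.ext (Equiv.ext fun i => by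
  have h := g.2
  have h1 : (g.1 0).1 / 2 ≠ (g.1 2).1 / 2 := fun e => by
    rcases key4 _ _ e with e | e
    · exact absurd (g.1.injective e) (by decide)
    · exact absurd (g.1.injective (e.trans (h.1 2).symm)) (by decide)
  have h2 : (g.1 4).1 / 2 ≠ (g.1 6).1 / 2 := fun e => by
    rcases key4 _ _ e with e | e
    · exact absurd (g.1.injective e) (by decide)
    · exact absurd (g.1.injective (e.trans (h.1 6).symm)) (by decide)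
  have h3 := key2 _ _ _ _ h1 h2 (eq_of_comm h.1 ▸ h) i
  rw [← eq_of_comm h.1] at h3
  exact h3)⟩

/-- The standard involution as a permutation. -/
def z1 : Perm (Fin 8) := ⟨z0, z0, by decide, by decide⟩

theorem mem_of_QP (x g : Perm (Fin 8)) (h : QP (x * z1 * x⁻¹ : Perm (Fin 8)) g) :
    x⁻¹ * g * x ∈ H0 := by
  have e : ∀ i, (x * z1 * x⁻¹ : Perm (Fin 8)) (x i) = x (z0 i) := fun i => by simp [z1]
  have e2 : ∀ i, z0 (x⁻¹ i) = x⁻¹ ((x * z1 * x⁻¹ : Perm (Fin 8)) i) := fun i => by simp [z1]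
  have h1 : QP z0 (x⁻¹ * g * x : Perm (Fin 8)) := by
    refine ⟨fun i => ?_, fun i => ?_, h.2.2.imp (fun k i => ?_) fun k i => ?_⟩
    · simp only [Perm.mul_apply]
      rw [← e, h.1, e2]
    · simpa [Equiv.symm_apply_eq, z1] using h.2.1 (x i)
    · simpa [Equiv.symm_apply_eq, z1] using k (x i)
    · simpa [Equiv.symm_apply_eq, z1] using k (x i)
  have h2 := key1 _ _ _ _ (eq_of_comm h1.1 ▸ h1)
  rw [← eq_of_comm h1.1] at h2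
  exact h2

theorem exists_mem (x : Perm (Fin 8)) : ∃ g ∈ H0, g ≠ 1 ∧ x⁻¹ * g * x ∈ H0 := by
  obtain ⟨z, hz⟩ : ∃ z, z = x * z1 * x⁻¹ := ⟨_, rfl⟩
  have k1 : ∀ i, z0 (z0 i) = i := by decide
  have k2 : ∀ i, z0 i ≠ i := by decide
  have h1 : ∀ i, z (z i) = i := fun i => by simp [hz, z1, k1]
  have h2 : ∀ i, z i ≠ i := fun i e => k2 (x⁻¹ i) (by
    rw [Perm.eq_inv_iff_eq]; simpa [hz, z1] using e)
  have h3 : ∀ j k, j ≠ k → z j ≠ z k ∧ (z j = k ↔ z k = j) := fun j k h =>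
    ⟨z.injective.ne h, fun e => by rw [← e, h1], fun e => by rw [← e, h1]⟩
  have h4 := key3 _ (h2 0) _ (h2 1) (h3 0 1 (by decide)) _ (h2 2) ⟨h3 0 2 (by decide), h3 1 2 (by decide)⟩ _ (h2 3) ⟨h3 0 3 (by decide), h3 1 3 (by decide), h3 2 3 (by decide)⟩
    _ (h2 4) ⟨h3 0 4 (by decide), h3 1 4 (by decide), h3 2 4 (by decide), h3 3 4 (by decide)⟩ _ (h2 5) ⟨h3 0 5 (by decide), h3 1 5 (by decide), h3 2 5 (by decide), h3 3 5 (by decide), h3 4 5 (by decide)⟩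
    _ (h2 6) ⟨h3 0 6 (by decide), h3 1 6 (by decide), h3 2 6 (by decide), h3 3 6 (by decide), h3 4 6 (by decide), h3 5 6 (by decide)⟩
    _ (h2 7) ⟨h3 0 7 (by decide), h3 1 7 (by decide), h3 2 7 (by decide), h3 3 7 (by decide), h3 4 7 (by decide), h3 5 7 (by decide), h3 6 7 (by decide)⟩
  have h5 : (![z 0, z 1, z 2, z 3, z 4, z 5, z 6, z 7] : Fin 8 → Fin 8) = z := by
    funext i; fin_cases i <;> rfl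
  rw [h5] at h4
  rcases h4 with ⟨i, h, h'⟩ | h | ⟨h, h', h''⟩
  · exact ⟨swap i (z0 i), h', by simpa using (k2 i).symm, mem_of_QP x _ (hz ▸ h)⟩
  · exact ⟨z1, (by decide : TP z0), by decide, mem_of_QP x _ (hz ▸ h)⟩
  · exact ⟨z1 * z * z1 * z, h', fun e => h'' (congrArg (fun g : Perm (Fin 8) => g 0) e),
      mem_of_QP x _ (hz ▸ h)⟩

/-- In the symmetric group on 8 letters any two Sylow 2-subgroups have non-trivial intersection: for a Sylow 2-subgroup H and every element x, H ∩ xHx⁻¹ ≠ 1. -/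
theorem result (H : Sylow 2 (Equiv.Perm (Fin 8))) (x : Equiv.Perm (Fin 8)) :
    (H : Subgroup (Equiv.Perm (Fin 8))) ⊓ (H : Subgroup (Equiv.Perm (Fin 8))).map (MulAut.conj x).toMonoidHom ≠ ⊥ := by
  obtain ⟨P, hP⟩ := isP.exists_le_sylow
  obtain ⟨y, rfl⟩ := MulAction.exists_smul_eq (Equiv.Perm (Fin 8)) P H
  obtain ⟨g, h1, h2, h3⟩ := exists_mem (y⁻¹ * x * y)
  have k : ∀ a ∈ H0, y * a * y⁻¹ ∈ ((y • P : Sylow 2 _) : Subgroup (Perm (Fin 8))) := fun a ha =>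
    ⟨a, hP ha, rfl⟩
  intro h
  have : y * g * y⁻¹ ∈ (⊥ : Subgroup (Perm (Fin 8))) := by
    rw [← h]
    exact ⟨k g h1, _, k _ h3, by simp [mul_assoc]⟩
  rw [Subgroup.mem_bot, mul_inv_eq_one, mul_eq_left] at this
  exact h2 this

end Cfsg.Agent.S5763
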