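import Cfsg.Statements.S5890
import Mathlib
import Cfsg.Agent.H10.PSL2Max3

set_option autoImplicit false
open Cfsg

namespace Cfsg.Agent.S5890

/-- Let F be a finite field with q ≥ 4 elements, let L ≤ PGL₂(F) be the image of SL₂(F) (a copy of PSL₂(F), of index gcd(2, q − 1)), and let M be a maximal subgroup of PGL₂(F) that does not contain L. Suppose q ∉ {7, 9, 11} and that q is not a prime congruent to ±11 or ±19 modulo 40. Then M ∩ L is a maximal subgroup of L. (For the excluded q there are maximal subgroups of PGL₂(q) — dihedral groups of order 12 and 16 at q = 7, of order 20 and 16 at q = 9, of order 20 at q = 11, and S₄ at the excluded primes — whose intersection with L is not maximal in L.) -/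
theorem result {F : Type*} [Field F]
    [Fintype F] (h4 : 4 ≤ Fintype.card F) (h7 : Fintype.card F ≠ 7) (h9 : Fintype.card F ≠ 9) (h11 : Fintype.card F ≠ 11)
    (h40 : (Fintype.card F).Prime → Fintype.card F % 40 ∉ ({11, 19, 21, 29} : Finset ℕ))
    (M : Subgroup (Matrix.ProjGenLinGroup (Fin 2) F)) (hM : IsCoatom M)
    (hML : ¬ (Matrix.ProjGenLinGroup.mk.comp Matrix.SpecialLinearGroup.toGL).range ≤ M) :
    IsCoatom ((M ⊓ (Matrix.ProjGenLinGroup.mk.comp Matrix.SpecialLinearGroup.toGL).range).subgroupOf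
      (Matrix.ProjGenLinGroup.mk.comp Matrix.SpecialLinearGroup.toGL).range) := by
  rw [← Nat.card_eq_fintype_card] at h4 h7 h9 h11 h40
  rw [H10.isCoatom_subgroupOf_iff inf_le_right, inf_comm]
  change H10.pslSub F ⊓ M ⋖ H10.pslSub F
  rcases Nat.even_or_odd (Nat.card F) with he | hodd
  · have : (2 : F) = 0 := by
      by_contra h
      exact Nat.not_even_iff_odd.2 (H10.odd_card_of_two_ne_zero h) he
    rw [H10.pslSub_eq_top this, top_inf_eq]
    exact covBy_top_iff.2 hM
  have ho := Nat.odd_iff.1 hodd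
  rcases H10.pgl_coatom_cases hodd h4 hM hML with ⟨x, rfl⟩ | ⟨z, z', e, he, rfl, h5⟩ |
    ⟨k1, k2, ⟨e⟩⟩ | ⟨L, g, r, k1, k2, k3, k4, k5⟩
  · exact H10.stabilizer_covBy le_rfl x
  · have := he.e_eq
    refine H10.pairStab_covBy he ?_ (by omega) h9 fun _ => by omega
    rw [H10.gcd_two_eq_two hodd]
    omega
  · have h2 := H10.two_ne_zero_of_odd hodd
    obtain ⟨A, hA, ⟨eA⟩, -⟩ := H10.exists_A4_of_S4 e
    have h40' := h40 k1
    simp only [Finset.mem_insert, Finset.mem_singleton, not_or] at h40'
    have h := H10.A4_covBy k1 (by omega) k2 (by omega) eA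
    rwa [← H10.CovBy.eq_of_le_of_ne h (le_inf h.le hA) inf_le_left fun k => hML (inf_eq_left.1 k)]
  · have h := H10.CovBy.map_conj (H10.subfield_covBy k2 k4 k1) g⁻¹
    rwa [H10.map_conj_inf, H10.map_conj_normal, ← k5, H10.map_conj_map_conj, inv_mul_cancel,
      H10.map_conj_one] at h

end Cfsg.Agent.S5890
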