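import Cfsg.Statements.S5893
import Mathlib
import Cfsg.Agent.H10.PSL2Max3

set_option autoImplicit false
open Cfsg

namespace Cfsg.Agent.S5893

/-- Let F be a finite field of even order q ≥ 4 and let M be a maximal subgroup of PSL₂(F) (= SL₂(F) = PGL₂(F)). Then one of the following holds: |M| = q(q − 1) (the stabiliser of a point of the projective line, elementary abelian of order q extended by a cyclic group of order q − 1); M is dihedral of order 2(q − 1); M is dihedral of order 2(q + 1); or q = q₀^r for a prime r with q₀ ≠ 2 and M ≅ PSL₂(F₀) with |F₀| = q₀. -/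
theorem result {F : Type*} [Field F] [Fintype F]
    (heven : Even (Fintype.card F)) (h4 : 4 ≤ Fintype.card F) (M : Subgroup (Matrix.ProjectiveSpecialLinearGroup (Fin 2) F)) (hM : IsCoatom M) :
    Nat.card M = Fintype.card F * (Fintype.card F - 1) ∨
    Nonempty (M ≃* DihedralGroup (Fintype.card F - 1)) ∨
    Nonempty (M ≃* DihedralGroup (Fintype.card F + 1)) ∨
    (∃ (F₀ : Type) (_ : Field F₀) (_ : Fintype F₀) (r : ℕ), r.Prime ∧ Fintype.card F₀ ≠ 2 ∧
        Fintype.card F = Fintype.card F₀ ^ r ∧ Nonempty (M ≃* Matrix.ProjectiveSpecialLinearGroup (Fin 2) F₀)) := by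
  rw [← Nat.card_eq_fintype_card] at heven h4 ⊢
  have hc := (H10.isCoatom_psl_iff M).1 hM
  have eM := H10.mapPslEquiv M
  have hd := H10.gcd_two_eq_one heven
  have h2 : (2 : F) = 0 := by
    by_contra h
    exact Nat.not_even_iff_odd.2 (H10.odd_card_of_two_ne_zero h) heven
  obtain ⟨p, hp, _⟩ := H10.exists_charP F
  have := Fact.mk hp
  rcases H10.covBy_cases p le_rfl (by omega) hc hc.1.not_ge with ⟨x, hx⟩ | ⟨z, z', e, he, hz⟩ |
    ⟨k1, k2, k3⟩ | ⟨L, g, r, k1, k2, k3, k4⟩
  · left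
    rw [← H10.card_map_pslPi, hx, ← H10.card_psl_inf_stabilizer x, hd, one_mul]
  · obtain ⟨e'⟩ := he.dihedral le_rfl
    have h1 := he.card_psl_inf_torus
    rw [hd, one_mul] at h1
    rw [h1] at e'
    have e'' := (eM.trans (MulEquiv.subgroupCongr hz)).trans e'
    rcases he.e_eq with rfl | rfl
    · exact Or.inr (Or.inl ⟨e''⟩)
    · exact Or.inr (Or.inr (Or.inl ⟨e''⟩))
  · exact absurd h2 (H10.two_ne_zero_of_charP k2)
  · rw [H10.pglOf_eq_pslOf h2, inf_eq_right.2 (H10.pslOf_le L)] at k4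
    obtain ⟨K, _, _, hK, ⟨e⟩⟩ := H10.exists_psl_equiv_small k4
    exact Or.inr (Or.inr (Or.inr ⟨K, _, _, r, k2, by omega, by rw [hK, k3], ⟨eM.trans e⟩⟩))

end Cfsg.Agent.S5893
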