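import Cfsg.Statements.S5894
import Mathlib
import Cfsg.Agent.H10.SecMax

set_option autoImplicit false
open Cfsg

namespace Cfsg.Agent.S5894

open Subgroup MulAction Equiv
open scoped Pointwise

theorem main {α : Type} [Fintype α] [DecidableEq α] (a b c : α) (s : Set α) (σ : Perm α)
    (ha : a ∉ s) (hb : b ∉ s) (hab : a ≠ b) (hc : c ∈ s) {d : α} (hd : d ∈ s) (hcd : c ≠ d)
    (hσ : ∀ x, σ x ∈ s ↔ x ∉ s) (hodd : Even (Nat.card α)) :
    ∃ M H K : Subgroup (Perm α), IsCoatom M ∧ M.index = Nat.card α ∧ H ≤ M ∧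
      IsCoatom (H.subgroupOf M) ∧ IsCoatom K ∧ H ≤ K ∧ ¬ IsCoatom (H.subgroupOf K) := by
  classical
  have : Nontrivial α := ⟨a, b, hab⟩
  let L : Subgroup (Perm α) :=
    { carrier := {g | ∀ x, g x ∈ s ↔ x ∈ s}
      one_mem' := fun _ => Iff.rfl
      mul_mem' := fun hg hh x => (hg _).trans (hh x)
      inv_mem' := fun {g} hg x => by rw [← hg]; simp }
  let L' : Subgroup (Perm α) :=
    { carrier := {g | ∀ x y, (g x ∈ s ↔ g y ∈ s) ↔ (x ∈ s ↔ y ∈ s)}
      one_mem' := fun _ _ => Iff.rfl
      mul_mem' := fun hg hh x y => (hg _ _).trans (hh x y)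
      inv_mem' := fun {g} hg x y => by rw [← hg]; simp }
  let M := stabilizer (Perm α) a
  have hac : a ≠ c := fun e => ha (e ▸ hc)
  have had : a ≠ d := fun e => ha (e ▸ hd)
  obtain ⟨K, k1, k2, k3⟩ := H10.exists_coatom_not_coatom (H := M ⊓ L) (L := L) (L' := L')
    inf_le_right (fun g hg x y => by rw [hg x, hg y]) (a := swap a b) (b := σ) (c := swap a c)
    (fun x => by rw [swap_apply_def]; split_ifs <;> simp_all)
    (fun h => hab (by simpa using (mem_stabilizer_iff.mp h.1).symm))
    (fun x y => by rw [hσ, hσ]; tauto) (fun h => by simpa [hσ, ha] using h a)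
    (fun h => by
      have := h c d
      rw [swap_apply_right, swap_apply_of_ne_of_ne had.symm hcd.symm] at this
      simp [ha, hc, hd] at this)
  refine ⟨M, M ⊓ L, K, IsPreprimitive.isCoatom_stabilizer_of_isPreprimitive _ _,
    index_stabilizer_of_transitive _ _, inf_le_left, ?_, k1, k2, k3⟩
  have hm : ∀ (g : M) x, g.1 x ≠ a ↔ x ≠ a := fun g x => by
    have : g.1 a = a := g.2
    conv_lhs => rw [← this]
    exact g.1.injective.ne_iff
  let φ : M →* Perm {x // x ≠ a} :=
    { toFun := fun g => g.1.subtypePerm (hm g)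
      map_one' := rfl
      map_mul' := fun _ _ => rfl }
  have hφ : Function.Surjective φ := fun g =>
    ⟨⟨Perm.ofSubtype g, Perm.ofSubtype_apply_of_not_mem g (by simp)⟩,
      Perm.subtypePerm_ofSubtype g⟩
  have h1 := isCoatom_comap_of_surjective hφ (Perm.isCoatom_stabilizer
    (s := {x : {x // x ≠ a} | x.1 ∈ s}) ⟨⟨c, hac.symm⟩, hc⟩ ⟨⟨b, hab.symm⟩, hb⟩ (by
      have : Nat.card {x // x ≠ a} + 1 = Nat.card α := by
        simp only [Nat.card_eq_fintype_card, Fintype.card_subtype_compl, Fintype.card_unique]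
        have := Fintype.card_pos (α := α)
        omega
      obtain ⟨k, hk⟩ := hodd
      omega))
  convert h1 using 1
  ext g
  rw [inf_subgroupOf_left, mem_subgroupOf, mem_comap, mem_stabilizer_set]
  refine ⟨fun h x => h x.1, fun h x => ?_⟩
  by_cases hx : x = a
  · rw [hx, show g.1 a = a from g.2]
  · exact h ⟨x, hx⟩

/-- For every m ≥ 2 the symmetric group on 2m letters has a maximal subgroup M of index 2m together with a maximal subgroup H of M that is not second maximal: some maximal subgroup K of the symmetric group contains H without H being maximal in K. (One may take M the stabiliser of a letter, H ≅ S_m × S_{m−1} inside it, and K ≅ S_m ≀ S₂ the stabiliser of a partition into two m-sets, with H < S_m × S_m < K.) So the prime-index hypothesis in the second-maximality criterion cannot be relaxed to any even index ≥ 4. -/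
theorem result (m : ℕ) (hm : 2 ≤ m) :
    ∃ M H K : Subgroup (Equiv.Perm (Fin (2 * m))), IsCoatom M ∧ M.index = 2 * m ∧ H ≤ M ∧ IsCoatom (H.subgroupOf M) ∧
      IsCoatom K ∧ H ≤ K ∧ ¬ IsCoatom (H.subgroupOf K) := by
  have := main (α := Fin (2 * m)) ⟨0, by omega⟩ ⟨1, by omega⟩ ⟨m, by omega⟩ {x | m ≤ x.1} Fin.revPerm
    (by simp; omega) (by simp; omega) (by simp) (by simp) (d := ⟨m + 1, by omega⟩) (by simp)
    (by simp) (fun x => by simp [Fin.val_rev]; omega) (by simp)
  simpa using this

end Cfsg.Agent.S5894
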