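import Cfsg.Statements.S5895
import Mathlib
import Cfsg.Agent.H10.SecMax

set_option autoImplicit false
open Cfsg

namespace Cfsg.Agent.S5895

open Subgroup MulAction
open scoped LinearAlgebra.Projectivization

variable {k V : Type} [Field k] [AddCommGroup V] [Module k V]

/-- The affine group acts on the space. -/
local instance affAct : MulAction (V ≃ᵃ[k] V) V where
  smul g x := g x
  one_smul _ := rfl
  mul_smul _ _ _ := rfl

theorem smul_def (g : V ≃ᵃ[k] V) (x : V) : g • x = g x := rfl

theorem apply_eq (g : V ≃ᵃ[k] V) (x : V) : g x = g.linear x + g 0 := by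
  simpa using g.map_vadd 0 x

theorem exists_map [Nontrivial (ℙ k V)] {u v : V} (hu : u ≠ 0) (hv : v ≠ 0) :
    ∃ g : V ≃ₗ[k] V, g u = v := by
  have := isPretransitive_of_is_two_pretransitive (G := V ≃ₗ[k] V) (α := ℙ k V)
  obtain ⟨g, hg⟩ := exists_smul_eq (V ≃ₗ[k] V) (Projectivization.mk k u hu)
    (Projectivization.mk k v hv)
  rw [Projectivization.smul_mk, Projectivization.mk_eq_mk_iff] at hg
  obtain ⟨a, ha⟩ := hg
  refine ⟨g.trans (LinearEquiv.smulOfUnit a⁻¹), ?_⟩
  change a⁻¹ • (g • u) = v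
  rw [← ha, inv_smul_smul]

theorem two_trans [Nontrivial (ℙ k V)] : IsMultiplyPretransitive (V ≃ᵃ[k] V) V 2 := by
  rw [is_two_pretransitive_iff]
  intro a b c d hab hcd
  obtain ⟨g, hg⟩ := exists_map (k := k) (sub_ne_zero.mpr hab.symm) (sub_ne_zero.mpr hcd.symm)
  exact ⟨AffineEquiv.ofLinearEquiv g a c, by simp [smul_def], by simp [smul_def, hg]⟩

/-- For every prime p and every d ≥ 2 there is a finite group G with a maximal subgroup M of index p^d and a maximal subgroup H of M that is not second maximal in G: some maximal subgroup K of G contains H without H being maximal in K. (One may take G the affine group V ⋊ GL(V) of V = 𝔽_p^d, M = GL(V), H the stabiliser in M of a line W of V, and K = V ⋊ H, with H < W ⋊ H < K.) So the prime-index hypothesis in the second-maximality criterion cannot be relaxed to prime-power index. -/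
theorem result (p d : ℕ) (hp : p.Prime)
    (hd : 2 ≤ d) :
    ∃ (G : Type) (_ : Group G) (_ : Finite G) (M H K : Subgroup G), IsCoatom M ∧ M.index = p ^ d ∧ H ≤ M ∧
      IsCoatom (H.subgroupOf M) ∧ IsCoatom K ∧ H ≤ K ∧ ¬ IsCoatom (H.subgroupOf K) := by
  have := Fact.mk hp
  obtain ⟨n, rfl⟩ : ∃ n, d = n + 2 := ⟨d - 2, by omega⟩
  let e0 : Fin (n + 2) → ZMod p := Pi.single 0 1
  let e1 : Fin (n + 2) → ZMod p := Pi.single 1 1
  have h0 : e0 ≠ 0 := by simp [e0]
  have h1 : e1 ≠ 0 := by simp [e1]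
  have h01 : ∀ a : ZMod p, a • e0 ≠ e1 := fun a e => by simpa [e0, e1] using congrFun e 1
  let V := Fin (n + 2) → ZMod p
  have hne : Projectivization.mk (ZMod p) e1 h1 ≠ Projectivization.mk (ZMod p) e0 h0 := by
    rw [Ne, Projectivization.mk_eq_mk_iff']
    exact fun ⟨a, ha⟩ => h01 a ha
  have : Nontrivial (ℙ (ZMod p) V) := ⟨_, _, hne⟩
  have : Finite (V ≃ᵃ[ZMod p] V) := Finite.of_injective _ DFunLike.coe_injective
  have h2 := two_trans (k := ZMod p) (V := V)
  have := isPretransitive_of_is_two_pretransitive (G := V ≃ᵃ[ZMod p] V) (α := V)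
  let P := stabilizer (V ≃ₗ[ZMod p] V) (Projectivization.mk (ZMod p) e0 h0)
  have hP : IsCoatom P := (isPreprimitive_of_is_two_pretransitive
    inferInstance).isCoatom_stabilizer_of_isPreprimitive _ _
  let M := stabilizer (V ≃ᵃ[ZMod p] V) (0 : V)
  let K := P.comap (AffineEquiv.linearHom : (V ≃ᵃ[ZMod p] V) →* _)
  have mP : ∀ g ∈ P, ∀ x ∈ Submodule.span (ZMod p) {e0}, g x ∈ Submodule.span (ZMod p) {e0} :=
    fun g hg x hx => by
      rw [mem_stabilizer_iff, Projectivization.smul_mk, Projectivization.mk_eq_mk_iff'] at hg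
      obtain ⟨a, ha⟩ := hg
      obtain ⟨b, rfl⟩ := Submodule.mem_span_singleton.mp hx
      rw [map_smul]
      exact Submodule.smul_mem _ _ (Submodule.mem_span_singleton.mpr ⟨a, ha⟩)
  let L : Subgroup (V ≃ᵃ[ZMod p] V) :=
    { carrier := {g | g ∈ K ∧ g 0 ∈ Submodule.span (ZMod p) {e0}}
      one_mem' := ⟨one_mem K, Submodule.zero_mem _⟩
      mul_mem' := fun {a b} ha hb => ⟨mul_mem ha.1 hb.1, by
        change a (b 0) ∈ _
        rw [apply_eq]
        exact add_mem (mP _ ha.1 _ hb.2) ha.2⟩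
      inv_mem' := fun {a} ha => ⟨inv_mem ha.1, by
        have h3 := apply_eq a⁻¹ (a 0)
        change a.symm (a 0) = _ at h3
        rw [AffineEquiv.symm_apply_apply, eq_comm, add_eq_zero_iff_neg_eq] at h3
        rw [← h3]
        exact neg_mem (mP _ (inv_mem ha.1) _ ha.2)⟩ }
  obtain ⟨g, hg⟩ := exists_map (k := ZMod p) h0 h1
  obtain ⟨K', k1, k2, k3⟩ := H10.exists_coatom_not_coatom (H := M ⊓ K) (L := L) (L' := K)
    (fun g hg => ⟨hg.2, by rw [show g 0 = 0 from hg.1]; exact Submodule.zero_mem _⟩)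
    (fun g hg => hg.1) (a := AffineEquiv.constVAdd (ZMod p) V e0)
    (b := AffineEquiv.constVAdd (ZMod p) V e1) (c := g.toAffineEquiv)
    ⟨one_mem P, by simpa using Submodule.mem_span_singleton_self e0⟩
    (fun h => h0 (by simpa [smul_def] using mem_stabilizer_iff.mp h.1)) (one_mem P)
    (fun h => by
      obtain ⟨a, ha⟩ := Submodule.mem_span_singleton.mp h.2
      exact h01 a (by simpa using ha))
    (fun h => hne (by
      have h : g • _ = _ := h
      rw [← h, Projectivization.smul_mk]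
      simp [hg]))
  refine ⟨V ≃ᵃ[ZMod p] V, inferInstance, inferInstance, M, M ⊓ K, K',
    (isPreprimitive_of_is_two_pretransitive h2).isCoatom_stabilizer_of_isPreprimitive _ _, ?_,
    inf_le_left, ?_, k1, k2, k3⟩
  · rw [index_stabilizer_of_transitive]
    simp [V]
  · rw [inf_subgroupOf_left]
    exact isCoatom_comap_of_surjective (φ := AffineEquiv.linearHom.comp M.subtype)
      (fun g => ⟨⟨g.toAffineEquiv, by simp [M, smul_def]⟩, rfl⟩) hP

end Cfsg.Agent.S5895
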