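import Cfsg.Statements.S5896
import Mathlib
import Cfsg.Agent.H10.SecMax
import Cfsg.Agent.H6.Frobenius

set_option autoImplicit false
open Cfsg

namespace Cfsg.Agent.S5896

open Subgroup RegularWreathProduct

/-- Finite perfect groups have solvable maximal subgroups of unbounded derived length: for every d there is a finite perfect group G (equal to its commutator subgroup) with a solvable maximal subgroup H whose derived length exceeds d, i.e. the d-th term of the derived series of H is non-trivial. (Take the derived subgroup of a wreath product S ≀ A₅ with S solvable of large derived length, and H the preimage of a maximal subgroup of A₅.) -/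
theorem result (d : ℕ) :
    ∃ (G : Type) (_ : Group G) (_ : Finite G) (H : Subgroup G), commutator G = ⊤ ∧ IsCoatom H ∧ Group.IsSolvable H ∧
      derivedSeries H d ≠ ⊥ := by
  obtain ⟨S, _, _, hS, hd⟩ := H10.exists_solvable_derived d
  let A := alternatingGroup (Fin 5)
  let G : Subgroup (RegularWreathProduct S A) := normalClosure (Set.range inl)
  have hA : commutator A = ⊤ := commutator_alternatingGroup_eq_top (by simp)
  let π : G →* A := rightHom.comp G.subtype
  have hπ : Function.Surjective π := fun a => ⟨⟨inl a, subset_normalClosure ⟨a, rfl⟩⟩, rfl⟩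
  have hp : MulAction.IsPreprimitive A (Fin 5) :=
    alternatingGroup.isPreprimitive_of_three_le_card _ (by simp)
  let T := MulAction.stabilizer A (0 : Fin 5)
  have hT : IsCoatom T := hp.isCoatom_stabilizer_of_isPreprimitive A 0
  have hc : Nat.card T = 12 := by
    have h1 := T.card_mul_index
    have h2 : Nat.card A = 60 := by
      have := two_mul_nat_card_alternatingGroup (α := Fin 5)
      rw [Nat.card_perm, Nat.card_fin, show Nat.factorial 5 = 120 from rfl] at this
      change 2 * Nat.card A = _ at this
      omega
    rw [MulAction.index_stabilizer_of_transitive, h2, Nat.card_fin] at h1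
    omega
  have hs : Group.IsSolvable T := H6.isSolvable_of_two_primes Nat.prime_two Nat.prime_three
    fun r hr hd => by
      rw [hc, show 12 = 2 ^ 2 * 3 by norm_num] at hd
      exact ((Nat.Prime.dvd_mul hr).mp hd).imp
        (fun h => (Nat.prime_dvd_prime_iff_eq hr Nat.prime_two).mp (hr.dvd_of_dvd_pow h))
        fun h => (Nat.prime_dvd_prime_iff_eq hr Nat.prime_three).mp h
  refine ⟨G, inferInstance, inferInstance, T.comap π, ?_, isCoatom_comap_of_surjective hπ hT, ?_, ?_⟩
  · have h1 : G ≤ ⁅G, G⁆ := normalClosure_le_normal (by
      rintro _ ⟨a, rfl⟩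
      have h2 : (commutator A).map inl ≤ ⁅G, G⁆ := by
        have : (⊤ : Subgroup A).map inl ≤ G := by
          rintro _ ⟨b, -, rfl⟩; exact subset_normalClosure ⟨b, rfl⟩
        rw [commutator_def, map_commutator]; exact commutator_mono this this
      exact h2 ⟨a, hA ▸ mem_top _, rfl⟩)
    rw [eq_top_iff, ← map_le_map_iff_of_injective G.subtype_injective, map_subtype_commutator,
      ← MonoidHom.range_eq_map, range_subtype]
    exact h1
  · have := H10.wr_solvable_ker (D := S) (Q := A)
    let φ : T.comap π →* T := (π.comp (Subgroup.subtype _)).codRestrict _ fun x => x.2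
    let ψ : φ.ker →* (rightHom : RegularWreathProduct S A →* A).ker :=
      ((G.subtype.comp (Subgroup.subtype _)).comp (Subgroup.subtype _)).codRestrict _
        fun x => congrArg Subtype.val x.2
    have : Group.IsSolvable φ.ker := Group.isSolvable_of_isSolvable_injective (f := ψ)
      fun a b e => by
        have := congrArg Subtype.val e
        exact Subtype.ext (Subtype.ext (Subtype.ext this))
    exact Group.isSolvable_of_ker_le_range φ.ker.subtype φ (by simp)
  · have : Nontrivial T := Finite.one_lt_card_iff_nontrivial.mp (by omega)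
    obtain ⟨q, hq⟩ := exists_ne (1 : T)
    have k : ∀ w : RegularWreathProduct S A, w * inl q.1 * w⁻¹ * (inl q.1)⁻¹ ∈ G := fun w =>
      mul_mem (normalClosure_normal.conj_mem _ (subset_normalClosure (Set.mem_range_self _)) w)
        (inv_mem (subset_normalClosure ⟨_, rfl⟩))
    classical
    have hq' : q.1 ≠ 1 := fun e => hq (Subtype.ext e)
    refine H10.derivedSeries_ne_bot_of_section (B := π.ker) ((H10.wrEv S A).comp
      ((G.subtype.comp (Subgroup.subtype _)).codRestrict _ fun x => x.2))
      (fun s => ⟨⟨⟨_, k ⟨Pi.mulSingle 1 s, 1⟩⟩, ?_⟩, ?_, ?_⟩) hd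
    · simp [MonoidHom.mem_ker, π]
    · simp [π]
    · change RegularWreathProduct.left ((⟨Pi.mulSingle 1 s, 1⟩ : RegularWreathProduct S A) *
        inl q.1 * (⟨Pi.mulSingle 1 s, 1⟩ : RegularWreathProduct S A)⁻¹ * (inl q.1)⁻¹) 1 = s
      simp [hq']

end Cfsg.Agent.S5896
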