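import Cfsg.Statements.S5902
import Mathlib
import Cfsg.Agent.S5901

set_option autoImplicit false
open Cfsg

namespace Cfsg.Agent.S5902

theorem conj_compl {G : Type*} [Group G] {H : Subgroup G} (g : G)
    (h : ∃ C : Subgroup G, H.map (MulAut.conj g).toMonoidHom ⊔ C = ⊤ ∧
      H.map (MulAut.conj g).toMonoidHom ⊓ C = ⊥) : ∃ C : Subgroup G, H ⊔ C = ⊤ ∧ H ⊓ C = ⊥ := by
  obtain ⟨C, h1, h2⟩ := h
  refine ⟨(MulAut.conj g).mapSubgroup.symm C, (MulAut.conj g).mapSubgroup.injective ?_,
    (MulAut.conj g).mapSubgroup.injective ?_⟩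
  · rw [map_sup, map_top, OrderIso.apply_symm_apply]; exact h1
  · rw [map_inf, map_bot, OrderIso.apply_symm_apply]; exact h2


/-- Let G be a finite group, X a subgroup whose own subgroup lattice is complemented, and suppose X lies in exactly one maximal subgroup M of G. Then every subgroup H of G not contained in the normal core of M has a complement in the subgroup lattice of G (some C with H ⊔ C = G and H ⊓ C = 1); in particular the subgroup lattice of G modulo the normal core of M is complemented. -/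
theorem result {G : Type*} [Group G] [Finite G] (X M : Subgroup G)
    (hK : ComplementedLattice (Subgroup X))
    (hM : IsCoatom M) (hXM : X ≤ M) (huniq : ∀ M' : Subgroup G, IsCoatom M' → X ≤ M' → M' = M) :
    (∀ H : Subgroup G, ¬ H ≤ M.normalCore → ∃ C : Subgroup G, H ⊔ C = ⊤ ∧ H ⊓ C = ⊥) ∧
    ComplementedLattice (Subgroup (G ⧸ M.normalCore)) := by
  have key : ∀ H : Subgroup G, ¬ H ≤ M.normalCore → ∃ C : Subgroup G, H ⊔ C = ⊤ ∧ H ⊓ C = ⊥ := by
    intro H hH
    obtain ⟨h, hh, hc⟩ := SetLike.not_le_iff_exists.mp hH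
    obtain ⟨g, hg⟩ : ∃ g, g * h * g⁻¹ ∉ M := by
      by_contra hc'
      push Not at hc'
      exact hc hc'
    refine conj_compl g (S5901.result ⊥ X M bot_le (fun h => hM.1 (top_le_iff.mp (h ▸ hXM)))
      (fun Y _ hY => ?_) hM hXM huniq _ (fun h' => hg (h' ⟨h, hh, rfl⟩)) (inf_bot_eq _))
    obtain ⟨C, hC⟩ := exists_isCompl (Y.subgroupOf X)
    refine ⟨C.map X.subtype, bot_le, Subgroup.map_subtype_le _, ?_, ?_⟩
    · rw [← Subgroup.map_subgroupOf_eq_of_le hY, ← Subgroup.map_sup, hC.sup_eq_top,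
        ← MonoidHom.range_eq_map, Subgroup.range_subtype]
    · rw [← Subgroup.map_subgroupOf_eq_of_le hY, ← Subgroup.map_inf _ _ _ X.subtype_injective,
        hC.inf_eq_bot, Subgroup.map_bot]
  refine ⟨key, ⟨fun H => ?_⟩⟩
  by_cases h0 : H = ⊥
  · exact ⟨⊤, h0 ▸ isCompl_bot_top⟩
  obtain ⟨C, h1, h2⟩ := key (H.comap (QuotientGroup.mk' M.normalCore)) (fun hc => h0 (by
    rw [eq_bot_iff]
    intro x hx
    obtain ⟨x, rfl⟩ := QuotientGroup.mk_surjective x
    exact (QuotientGroup.eq_one_iff x).mpr (hc hx)))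
  refine ⟨C.map (QuotientGroup.mk' M.normalCore), disjoint_iff.mpr ?_, codisjoint_iff.mpr ?_⟩
  · rw [eq_bot_iff]
    rintro _ ⟨hx, c, hc, rfl⟩
    have : c ∈ H.comap (QuotientGroup.mk' M.normalCore) ⊓ C := ⟨hx, hc⟩
    rw [h2, Subgroup.mem_bot] at this
    simp [this]
  · rw [← Subgroup.map_comap_eq_self_of_surjective (QuotientGroup.mk'_surjective M.normalCore) H,
      ← Subgroup.map_sup, h1, Subgroup.map_top_of_surjective _ (QuotientGroup.mk'_surjective _)]

end Cfsg.Agent.S5902
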