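import Cfsg.Statements.S5903
import Mathlib
import Cfsg.Agent.S5902

set_option autoImplicit false
open Cfsg

namespace Cfsg.Agent.S5903

/-- Let G be a finite simple group, X a subgroup lying in exactly one maximal subgroup M of G, and N a subgroup of prime order with N ≤ X that is central in M. If the subgroup lattice of X/N is complemented, then the subgroup lattice of G is complemented. -/
theorem result {G : Type*} [Group G] [Finite G] [IsSimpleGroup G] (X M N : Subgroup G)
    (hM : IsCoatom M) (hXM : X ≤ M) (huniq : ∀ M' : Subgroup G, IsCoatom M' → X ≤ M' → M' = M)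
    (hNX : N ≤ X) (hN : (Nat.card N).Prime) (hcen : ∀ n ∈ N, ∀ m ∈ M, m * n = n * m)
    [(N.subgroupOf X).Normal] (hK : ComplementedLattice (Subgroup (X ⧸ N.subgroupOf X))) :
    ComplementedLattice (Subgroup G) := by
  have hint : ∀ Y : Subgroup G, N ≤ Y → Y ≤ X →
      ∃ C : Subgroup G, N ≤ C ∧ C ≤ X ∧ Y ⊔ C = X ∧ Y ⊓ C = N := fun Y hNY hY => by
    let π := QuotientGroup.mk' (N.subgroupOf X)
    have hk : π.ker ≤ Y.subgroupOf X := by
      rw [QuotientGroup.ker_mk']; exact fun x hx => hNY hx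
    obtain ⟨C, hC⟩ := exists_isCompl ((Y.subgroupOf X).map π)
    have h1 := congrArg (Subgroup.comap π) hC.inf_eq_bot
    have h2 := congrArg (Subgroup.comap π) hC.sup_eq_top
    rw [Subgroup.comap_inf, Subgroup.comap_map_eq_self hk, MonoidHom.comap_bot,
      QuotientGroup.ker_mk'] at h1
    rw [← Subgroup.comap_sup_eq _ _ _ (QuotientGroup.mk'_surjective _),
      Subgroup.comap_map_eq_self hk, Subgroup.comap_top] at h2
    refine ⟨(C.comap π).map X.subtype, fun n hn => ⟨⟨n, hNX hn⟩, ?_, rfl⟩,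
      Subgroup.map_subtype_le _, ?_, ?_⟩
    · have : π ⟨n, hNX hn⟩ = 1 := (QuotientGroup.eq_one_iff _).mpr hn
      change π _ ∈ C
      rw [this]; exact C.one_mem
    · rw [← Subgroup.map_subgroupOf_eq_of_le hY, ← Subgroup.map_sup, h2,
        ← MonoidHom.range_eq_map, Subgroup.range_subtype]
    · rw [← Subgroup.map_subgroupOf_eq_of_le hY, ← Subgroup.map_inf _ _ _ X.subtype_injective,
        h1, Subgroup.map_subgroupOf_eq_of_le hNX]
  have hN0 : N ≠ ⊥ := fun h => by rw [h] at hN; simp [Nat.not_prime_one] at hN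
  refine ⟨fun H => ?_⟩
  by_cases hn : H.Normal
  · rcases hn.eq_bot_or_eq_top with rfl | rfl
    exacts [⟨⊤, isCompl_bot_top⟩, ⟨⊥, isCompl_top_bot⟩]
  obtain ⟨g, hg1, hg2⟩ : ∃ g : G, ¬ H.map (MulAut.conj g).toMonoidHom ≤ M ∧
      ¬ N ≤ H.map (MulAut.conj g).toMonoidHom := by
    by_contra hc
    push Not at hc
    apply hn
    rw [← Subgroup.normalizer_eq_top_iff, eq_top_iff,
      ← (Subgroup.normalClosure_normal (s := (N : Set G))).eq_bot_or_eq_top.resolve_left
        fun h => hN0 (le_bot_iff.mp (h ▸ Subgroup.le_normalClosure)),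
      Subgroup.normalClosure, Subgroup.closure_le]
    intro x hx
    obtain ⟨n, hn, hx⟩ := Group.mem_conjugatesOfSet_iff.mp hx
    obtain ⟨c, rfl⟩ := isConj_iff.mp hx
    by_cases h : H.map (MulAut.conj c⁻¹).toMonoidHom ≤ M
    · refine Subgroup.centralizer_le_normalizer _ fun y hy => ?_
      have := hcen n hn _ (h ⟨y, hy, rfl⟩)
      simp only [MulEquiv.toMonoidHom_eq_coe, MonoidHom.coe_coe, MulAut.conj_apply, inv_inv] at this
      calc y * (c * n * c⁻¹) = c * (c⁻¹ * y * c * n) * c⁻¹ := by group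
        _ = _ := by rw [this]; group
    · obtain ⟨y, hy, rfl⟩ := hc _ h hn
      refine Subgroup.le_normalizer ?_
      simpa [mul_assoc] using hy
  have := Fact.mk hN
  obtain ⟨C, h1, h2⟩ := S5902.conj_compl g (S5901.result N X M hNX
    (fun h => hM.1 (top_le_iff.mp (h ▸ hXM))) hint hM hXM huniq _ hg1 (by
      rcases ((H.map (MulAut.conj g).toMonoidHom).subgroupOf N).eq_bot_or_eq_top_of_prime_card
        with h | h
      · exact disjoint_iff.mp (Subgroup.subgroupOf_eq_bot.mp h)
      · exact absurd (Subgroup.subgroupOf_eq_top.mp h) hg2))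
  exact ⟨C, disjoint_iff.mpr h2, codisjoint_iff.mpr h1⟩

end Cfsg.Agent.S5903
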