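import Cfsg.Statements.S5904
import Mathlib

set_option autoImplicit false
open scoped Pointwise
open Cfsg

namespace Cfsg.Agent.S5904

/-- Let Ω be a finite set with more than two elements and O ⊆ Ω a subset with exactly as many elements as its complement. Then the setwise stabilizer of O in the symmetric group on Ω is not a maximal subgroup (it is properly contained in the stabilizer of the partition {O, Ω ∖ O}, which is proper). -/
theorem result {Ω : Type*} [Fintype Ω] [DecidableEq Ω] (hΩ : 2 < Fintype.card Ω)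
    (O : Set Ω) (hO : Nat.card O = Nat.card ↥Oᶜ) :
    ¬ IsCoatom (MulAction.stabilizer (Equiv.Perm Ω) O) := by
  classical
  intro hc
  open Pointwise in
  let K : Subgroup (Equiv.Perm Ω) :=
    { carrier := {g | g • O = O ∨ g • O = Oᶜ}
      one_mem' := Or.inl (one_smul _ _)
      mul_mem' := by
        rintro g h (hg | hg) (hh | hh)
        · left; rw [mul_smul, hh, hg]
        · right; rw [mul_smul, hh, Set.smul_set_compl, hg]
        · right; rw [mul_smul, hh, hg]
        · left; rw [mul_smul, hh, Set.smul_set_compl, hg, compl_compl]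
      inv_mem' := by
        rintro g (hg | hg)
        · left; rw [inv_smul_eq_iff, hg]
        · right; rw [inv_smul_eq_iff, Set.smul_set_compl, hg, compl_compl] }
  have hcard : O.ncard + Oᶜ.ncard = Fintype.card Ω := by
    rw [Set.ncard_add_ncard_compl, Nat.card_eq_fintype_card]
  have hO' : O.ncard = Oᶜ.ncard := hO
  obtain ⟨a, a', ha, ha', haa⟩ := (Set.one_lt_ncard_iff (s := O)).1 (by omega)
  obtain ⟨b, hb⟩ := Set.nonempty_of_ncard_ne_zero (s := Oᶜ) (by omega)
  obtain ⟨e⟩ : Nonempty (O ≃ ↥Oᶜ) := Finite.card_eq.1 hO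
  let σ : Equiv.Perm Ω := e.extendSubtype
  have hσ : ∀ x ∈ O, σ x ∉ O := fun x hx => e.extendSubtype_mem x hx
  have hσ' : ∀ x ∉ O, σ x ∈ O := fun x hx => by
    have := e.extendSubtype_not_mem x hx
    simpa using this
  have hlt : MulAction.stabilizer (Equiv.Perm Ω) O < K := by
    refine lt_of_le_of_ne (fun g hg => Or.inl hg) fun h => ?_
    have : σ ∈ K := Or.inr (by
      ext y
      obtain ⟨x, rfl⟩ := σ.surjective y
      change σ • x ∈ _ ↔ _
      rw [Set.smul_mem_smul_set_iff]
      exact ⟨hσ x, fun h => by by_contra hx; exact h (hσ' x hx)⟩)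
    rw [← h, MulAction.mem_stabilizer_iff] at this
    apply hσ a ha
    rw [← this]
    exact ⟨a, ha, rfl⟩
  have htop := hc.2 K hlt
  have : Equiv.swap a b ∈ K := htop ▸ Subgroup.mem_top _
  rcases this with h | h
  · apply hb
    rw [← h]
    exact ⟨a, ha, Equiv.swap_apply_left a b⟩
  · have : a' ∈ Oᶜ := by
      rw [← h]
      exact ⟨a', ha', Equiv.swap_apply_of_ne_of_ne haa.symm fun e => hb (e ▸ ha')⟩
    exact this ha'

end Cfsg.Agent.S5904
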