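import Cfsg.Statements.S5908
import Mathlib
import Cfsg.Agent.H10.PSU32

set_option autoImplicit false
open Cfsg

namespace Cfsg.Agent.S5908

/-- The subgroup lattice of PSU₃(2) (the solvable group of order 72, realised over the field with 4 elements) is not complemented: some subgroup H has no subgroup X with H ⊔ X = ⊤ and H ⊓ X = ⊥. -/
theorem result {F : Type*} [Field F] [Fintype F] (hF : Fintype.card F = 4) :
    ¬ ComplementedLattice (Subgroup (Cfsg.PSU 3 F 2)) := by
  intro hc
  obtain ⟨N, hN, -, -, ⟨e⟩⟩ := H10.psu32_shape hF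
  let π : Cfsg.PSU 3 F 2 →* QuaternionGroup 2 := e.toMonoidHom.comp (QuotientGroup.mk' N)
  have hπ : Function.Surjective π := e.surjective.comp (QuotientGroup.mk'_surjective N)
  obtain ⟨X, hX⟩ := exists_isCompl ((Subgroup.zpowers (QuaternionGroup.a 2)).comap π)
  have k1 : ∀ q : QuaternionGroup 2, q = 1 ∨ q = .a 2 ∨ q * q = .a 2 := by decide
  have h1 : QuaternionGroup.a 2 ∈ X.map π := by
    by_contra h
    have h2 : X ≤ (Subgroup.zpowers (QuaternionGroup.a 2)).comap π := fun x hx => by
      rcases k1 (π x) with k | k | k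
      · rw [Subgroup.mem_comap, k]; exact one_mem _
      · exact absurd ⟨x, hx, k⟩ h
      · exact absurd ⟨x * x, mul_mem hx hx, by rw [map_mul, k]⟩ h
    have h3 := hX.sup_eq_top
    rw [sup_eq_left.mpr h2] at h3
    obtain ⟨g, hg⟩ := hπ (.a 1)
    have h4 : g ∈ (Subgroup.zpowers (QuaternionGroup.a 2)).comap π := by rw [h3]; trivial
    rw [Subgroup.mem_comap, hg] at h4
    have h6 := orderOf_dvd_of_mem_zpowers h4
    rw [QuaternionGroup.orderOf_a_one] at h6
    exact absurd (h6.trans (orderOf_dvd_of_pow_eq_one (n := 2) (by decide))) (by decide)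
  obtain ⟨x, hx, hx'⟩ := h1
  have h5 : x ∈ (⊥ : Subgroup (Cfsg.PSU 3 F 2)) := by
    rw [← hX.inf_eq_bot]
    exact Subgroup.mem_inf.mpr ⟨by rw [Subgroup.mem_comap, hx']; exact Subgroup.mem_zpowers _, hx⟩
  rw [Subgroup.mem_bot.mp h5, map_one] at hx'
  revert hx'
  decide

end Cfsg.Agent.S5908
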