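import Cfsg.Statements.S5909
import Mathlib
import Cfsg.Agent.H10.Sym1

set_option autoImplicit false
open Cfsg

namespace Cfsg.Agent.S5909

/-- Let Ω be a finite set whose size is not 8, and f : Ω → Fin b a labelling with b ≥ 2 whose fibres all have the same size a ≥ 2 (a partition into b blocks of size a). Then the even permutations preserving the partition — the intersection of the imprimitive wreath product S_a ≀ S_b with the alternating group — form a maximal subgroup of the alternating group on Ω. -/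
theorem result {Ω : Type*} [Fintype Ω] [DecidableEq Ω] (h8 : Fintype.card Ω ≠ 8) (a b : ℕ) (ha : 2 ≤ a) (hb : 2 ≤ b)
    (f : Ω → Fin b) (hf : ∀ i : Fin b, Nat.card {x : Ω // f x = i} = a) :
    IsCoatom ((Subgroup.closure {g : Equiv.Perm Ω | ∀ x y : Ω, f x = f y ↔ f (g x) = f (g y)} ⊓ alternatingGroup Ω).subgroupOf (alternatingGroup Ω)) := by
  rw [H10.closure_eq_PS]
  have h : H10.UP f a := ⟨ha, hf, Fin.nontrivial_iff_two_le.mpr hb⟩
  obtain ⟨e, he⟩ := h.exists_equiv
  have hc : Fintype.card Ω = b * a := by simpa using Fintype.card_congr e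
  refine ⟨fun hc => h.not_alt_le ((Subgroup.subgroupOf_eq_top.mp hc).trans inf_le_left),
    fun M hM => ?_⟩
  have h1 : H10.PS f ⊓ alternatingGroup Ω ≤ M.map (alternatingGroup Ω).subtype := fun g hg =>
    ⟨⟨g, hg.2⟩, hM.le hg, rfl⟩
  have h2 : ¬ M.map (alternatingGroup Ω).subtype ≤ H10.PS f := fun hc =>
    hM.not_ge fun g hg => ⟨hc ⟨g, hg, rfl⟩, g.2⟩
  by_cases h22 : a = 2 ∧ b = 2
  · obtain ⟨rfl, rfl⟩ := h22
    set N := (H10.PS f ⊓ alternatingGroup Ω).subgroupOf (alternatingGroup Ω)
    have : Nontrivial Ω := Fintype.one_lt_card_iff_nontrivial.mp (by omega)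
    have : MulAction.IsPretransitive N Ω := ⟨fun x y => by
      obtain ⟨g, hg, h3, -⟩ := h.exists_move x y
      obtain ⟨u, v, huv, h4, h5⟩ := h.exists_swap_one x
      obtain ⟨n, hn, h6⟩ := H10.UP.exists_even hg huv h4
      exact ⟨⟨⟨n, hn.2⟩, hn⟩, (h6 x (Equiv.swap_apply_of_ne_of_ne (by rintro rfl; exact h5 rfl)
        (by rintro rfl; exact h5 h4))).trans h3⟩⟩
    have h3 : 4 ∣ Nat.card N := by
      have := (MulAction.stabilizer N (Classical.arbitrary Ω)).index_dvd_card
      rwa [MulAction.index_stabilizer_of_transitive, Nat.card_eq_fintype_card, hc] at this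
    have h4 : Nat.card (alternatingGroup Ω) = 12 := by
      rw [nat_card_alternatingGroup, Nat.card_eq_fintype_card, hc]; rfl
    have h5 := Subgroup.card_dvd_of_le hM.le
    have h6 := M.card_subgroup_dvd_card
    have h7 : Nat.card N < Nat.card M := Set.ncard_lt_ncard hM
    have h8 : 0 < Nat.card N := Nat.card_pos
    have h9 := h3.trans h5
    rw [h4] at h6
    have := Nat.le_of_dvd (by norm_num) h6
    refine Subgroup.eq_top_of_card_eq _ ?_
    rw [h4]
    interval_cases Nat.card M <;> omega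
  have h3 : 3 ≤ b → ∀ i j : Fin b, ∃ k, k ≠ i ∧ k ≠ j := fun hb3 i j => by
    obtain ⟨k, hk⟩ := Finset.exists_mem_notMem_of_card_lt_card (s := {i, j}) (t := Finset.univ)
      (Finset.card_le_two.trans_lt (by simpa))
    exact ⟨k, by simpa using hk⟩
  have hp := h.isPreprimitive (M := M.map (alternatingGroup Ω).subtype) (fun g hg p q => by
    obtain ⟨x, y, hxy, h4, h5, h6⟩ := h.exists_swap_two
      ((show 3 ≤ a ∨ 3 ≤ b by omega).imp id h3) p q
    obtain ⟨n, hn, h7⟩ := H10.UP.exists_even hg hxy h4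
    exact ⟨n, h1 hn, hn.1, h7 p h5, h7 q h6⟩) h2
  obtain ⟨c, hc1, hc2⟩ : ∃ c ∈ M.map (alternatingGroup Ω).subtype, c.IsThreeCycle := by
    by_cases ha2 : a = 2
    · refine h.exists_threeCycle ha2 (h3 (by omega)) (fun i j k l hn => ?_) h1 h2
      have h4 := hn.length_le_card
      have h5 : b ≠ 4 := by rintro rfl; subst ha2; exact h8 hc
      obtain ⟨m, -, hm⟩ := Finset.exists_mem_notMem_of_card_lt_card (s := [i, j, k, l].toFinset)
        (t := Finset.univ) ((List.toFinset_card_le _).trans_lt (by simp at h4 ⊢; omega))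
      exact ⟨m, by simpa using hm⟩
    · obtain ⟨x, y, hxy, h4, h5, h6, h7⟩ := h.exists_pair_ne (by omega) (e.symm (⟨0, by omega⟩,
        ⟨0, by omega⟩))
      have h8 := Equiv.Perm.isThreeCycle_swap_mul_swap_same h4.symm h5.symm hxy
      exact ⟨_, h1 ⟨mul_mem (H10.swap_mem_PS h6.symm) (H10.swap_mem_PS h7.symm),
        h8.mem_alternatingGroup⟩, h8⟩
  have := Equiv.Perm.alternatingGroup_le_of_isPreprimitive_of_isThreeCycle_mem hp hc2 hc1
  refine eq_top_iff.mpr fun g _ => ?_
  obtain ⟨g', hg', h4⟩ := this g.2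
  rwa [← Subtype.ext h4]

end Cfsg.Agent.S5909
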