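import Cfsg.Statements.S5910
import Mathlib
import Cfsg.Agent.H10.Sym1

set_option autoImplicit false
open Cfsg

namespace Cfsg.Agent.S5910

open Equiv

/-- The affine space. -/
abbrev V := (ZMod 2 × ZMod 2) × ZMod 2

/-- The affine group. -/
def M0 : Subgroup (Perm V) where
  carrier := {g | ∀ a b c, g (a + b + c) = g a + g b + g c}
  mul_mem' {g h} hg hh a b c := by rw [Perm.mul_apply, hh, hg]; rfl
  one_mem' _ _ _ := rfl
  inv_mem' {g} hg a b c := g.injective (by rw [hg]; simp)

theorem d1 : ∀ σ : ZMod 2 × ZMod 2 → ZMod 2 × ZMod 2, Function.Injective σ →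
    ∀ a b c, σ (a + b + c) = σ a + σ b + σ c := by decide +kernel

theorem d2 : ∀ τ : Perm (ZMod 2), (∀ j, τ j = j + τ 0) ∧
    Perm.sign τ = if τ 0 = 0 then 1 else -1 := by decide

theorem d3 : ∀ ε : ZMod 2 × ZMod 2 → ZMod 2, ∏ i, (if ε i = 0 then 1 else -1 : ℤˣ) = 1 →
    ∀ a b c, ε (a + b + c) = ε a + ε b + ε c := by decide +kernel

theorem le_M0 : H10.PS (Prod.fst : V → ZMod 2 × ZMod 2) ⊓ alternatingGroup V ≤ M0 := by
  rintro g ⟨h1, h2⟩
  have h3 : ∀ i j, (g (i, j)).1 = (g (i, 0)).1 := fun i j => (h1 (i, j) (i, 0)).mp rfl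
  have h4 : Function.Injective fun i => (g (i, 0)).1 := fun i j h => (h1 (i, 0) (j, 0)).mpr h
  have h5 : ∀ i, Function.Injective fun j => (g (i, j)).2 := fun i j k h => by
    simpa using g.injective (Prod.ext ((h3 i j).trans (h3 i k).symm) h)
  let σ := ofBijective _ h4.bijective_of_finite
  let τ := fun i => ofBijective _ (h5 i).bijective_of_finite
  have hg : g = prodCongrLeft (fun _ => σ) * prodCongrRight τ := by
    ext ⟨i, j⟩ : 1
    exact Prod.ext (h3 i j) rfl
  have h6 : ∏ i, Perm.sign (τ i) = 1 := by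
    have := Perm.mem_alternatingGroup.mp h2
    rw [hg, map_mul, Perm.sign_prodCongrLeft, Perm.sign_prodCongrRight] at this
    simpa [Int.units_sq] using this
  simp only [(d2 _).2] at h6
  rintro ⟨a, a'⟩ ⟨b, b'⟩ ⟨c, c'⟩
  rw [hg]
  refine Prod.ext (d1 _ h4 a b c) ?_
  change τ (a + b + c) (a' + b' + c') = τ a a' + τ b b' + τ c c'
  rw [(d2 _).1, d3 _ h6, (d2 (τ a)).1 a', (d2 (τ b)).1 b', (d2 (τ c)).1 c']
  ring

/-- An even affine map not preserving the partition. -/
def g1 : Perm V := swap ((0, 0), 1) ((0, 1), 0) * swap ((1, 0), 1) ((1, 1), 0)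

/-- An even permutation that is not affine. -/
def g2 : Perm V := swap ((0, 0), 1) ((0, 1), 0) * swap ((0, 0), 1) ((1, 1), 0)


/-- Let Ω be a set with 8 elements and f : Ω → Fin 4 a labelling whose four fibres all have size 2 (a partition of the 8 points into 4 pairs). Then the group of even permutations preserving this partition, (S₂ ≀ S₄) ∩ A₈, is not a maximal subgroup of the alternating group A₈ (it lies in a subgroup isomorphic to the affine group AGL₃(2)). -/
theorem result {Ω : Type*} [Fintype Ω] [DecidableEq Ω] (h8 : Fintype.card Ω = 8)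
    (f : Ω → Fin 4) (hf : ∀ i : Fin 4, Nat.card {x : Ω // f x = i} = 2) :
    ¬ IsCoatom ((Subgroup.closure {g : Equiv.Perm Ω | ∀ x y : Ω, f x = f y ↔ f (g x) = f (g y)} ⊓ alternatingGroup Ω).subgroupOf (alternatingGroup Ω)) := by
  obtain ⟨ε⟩ : Nonempty (Fin 4 ≃ ZMod 2 × ZMod 2) := Fintype.card_eq.mp (by simp)
  have h : H10.UP (ε ∘ f) 2 := ⟨le_rfl, fun i => by
    exact (Nat.card_congr (Equiv.subtypeEquivRight fun x => by simp [Equiv.eq_symm_apply])).trans
      (hf (ε.symm i)),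
    inferInstance⟩
  obtain ⟨e, he⟩ : ∃ e : Ω ≃ V, ∀ x, (e x).1 = ε (f x) := h.exists_equiv
  rw [H10.closure_eq_PS]
  have k1 : ∀ g : Perm Ω, g ∈ H10.PS f ↔ e.permCongr g ∈ H10.PS (Prod.fst : V → _) := fun g => by
    rw [H10.mem_PS, H10.mem_PS, e.forall_congr_left]
    refine forall_congr' fun x => ?_
    rw [e.forall_congr_left]
    refine forall_congr' fun y => ?_
    simp [← ε.apply_eq_iff_eq, ← he]
  have k2 : ∀ g : Perm Ω, g ∈ alternatingGroup Ω ↔ e.permCongr g ∈ alternatingGroup V := fun g => by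
    simp [Perm.mem_alternatingGroup]
  intro hc
  have := hc.2 ((M0.comap e.permCongrHom.toMonoidHom).subgroupOf _) ⟨fun g hg =>
    le_M0 ⟨(k1 _).mp hg.1, (k2 _).mp hg.2⟩, fun h1 => by
      have h2 := (k1 _).mp (h1 (show (⟨e.permCongr.symm g1, (k2 _).mpr (by
        rw [Equiv.apply_symm_apply]
        exact Perm.mul_mem_alternatingGroup_of_isSwap ⟨_, _, by decide, rfl⟩
          ⟨_, _, by decide, rfl⟩)⟩ : alternatingGroup Ω) ∈ _ by
          change e.permCongr (e.permCongr.symm g1) ∈ M0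
          rw [Equiv.apply_symm_apply]
          change ∀ a b c, g1 (a + b + c) = g1 a + g1 b + g1 c
          decide +kernel)).1
      change e.permCongr (e.permCongr.symm g1) ∈ _ at h2
      rw [Equiv.apply_symm_apply] at h2
      exact absurd ((h2 ((0, 0), 0) ((0, 0), 1)).mp rfl) (by decide)⟩
  have h3 : e.permCongr (e.permCongr.symm g2) ∈ M0 := Subgroup.subgroupOf_eq_top.mp this
    ((k2 _).mpr (by
      rw [Equiv.apply_symm_apply]
      exact Perm.mul_mem_alternatingGroup_of_isSwap ⟨_, _, by decide, rfl⟩ ⟨_, _, by decide, rfl⟩))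
  rw [Equiv.apply_symm_apply] at h3
  exact absurd (h3 ((0, 0), 0) ((1, 0), 0) ((0, 0), 1)) (by decide)

end Cfsg.Agent.S5910
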