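import Cfsg.Statements.S5911
import Mathlib
import Cfsg.Agent.H10.Sym2

set_option autoImplicit false
open Cfsg

namespace Cfsg.Agent.S5911

/-- Let Ω be a finite set whose size n is not 6. Then every subgroup of the symmetric group on Ω of index n is the stabilizer of a point. -/
theorem result {Ω : Type*} [Fintype Ω] [DecidableEq Ω] (h6 : Fintype.card Ω ≠ 6)
    (H : Subgroup (Equiv.Perm Ω)) (hH : H.index = Fintype.card Ω) :
    ∃ x : Ω, H = MulAction.stabilizer (Equiv.Perm Ω) x := by
  by_cases h5 : 5 ≤ Fintype.card Ω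
  · obtain ⟨x⟩ := Fintype.card_pos_iff.mp (show 0 < Fintype.card Ω by omega)
    obtain ⟨ψ, rfl⟩ := H10.exists_aut_of_index h5 hH x
    exact H10.exists_fixed_sym rfl (by omega) ψ.injective (Or.inl h6) x
  have h0 := H.index_ne_zero_of_finite
  have : Nonempty Ω := Fintype.card_pos_iff.mp (by omega)
  obtain ⟨m, hm⟩ : ∃ m, Fintype.card Ω = m + 1 := ⟨_, (Nat.sub_add_cancel (by omega)).symm⟩
  have h1 : Nat.card H = m.factorial := by
    have := H.card_mul_index
    rw [hH, Nat.card_perm, Nat.card_eq_fintype_card (α := Ω), hm, Nat.factorial_succ,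
      mul_comm] at this
    exact Nat.eq_of_mul_eq_mul_left (by omega) this
  suffices ∃ a : Ω, ∀ k : H, k • a = a by
    obtain ⟨a, ha⟩ := this
    exact ⟨a, Subgroup.eq_of_le_of_card_ge (fun g hg => ha ⟨g, hg⟩)
      (by rw [h1, H10.card_stabilizer_perm a hm])⟩
  by_cases h2 : m ≤ 2
  · by_cases h3 : m = 2
    · have hp : IsPGroup 2 H := IsPGroup.of_card (n := 1) (by rw [h1, h3]; rfl)
      obtain ⟨a, ha⟩ := hp.nonempty_fixed_point_of_prime_not_dvd_card Ω (by
        rw [Nat.card_eq_fintype_card, hm, h3]; norm_num)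
      exact ⟨a, ha⟩
    · have : Subsingleton H := (Nat.card_eq_one_iff_unique.mp (by
        rw [h1]; interval_cases m <;> first | rfl | omega)).1
      exact ⟨Classical.arbitrary Ω, fun k => by rw [Subsingleton.elim k 1, one_smul]⟩
  obtain rfl : m = 3 := by omega
  obtain ⟨c, hc⟩ := exists_prime_orderOf_dvd_card' (G := H) 3 (by rw [h1]; decide)
  obtain ⟨k, hk, hk'⟩ := H10.cycleType_of_orderOf_three (y := c.1) (by rwa [Subgroup.orderOf_coe])
  obtain rfl : k = 0 := by omega
  have h3 := Equiv.Perm.IsThreeCycle.card_support hk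
  obtain ⟨a, ha⟩ := Finset.card_eq_one.mp (show (c.1.support)ᶜ.card = 1 by
    rw [Finset.card_compl, h3, hm])
  have h4 : ∀ x, c.1 x = x ↔ x = a := fun x => by
    simpa using Finset.ext_iff.mp ha x
  have h7 : (Subgroup.zpowers c).Normal := Subgroup.normal_of_index_eq_two (by
    have := (Subgroup.zpowers c).card_mul_index
    rw [Nat.card_zpowers, hc, h1] at this
    simp [Nat.factorial] at this
    omega)
  refine ⟨a, fun k => (h4 _).mp ?_⟩
  obtain ⟨j, hj⟩ := h7.conj_mem' c (Subgroup.mem_zpowers c) k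
  have h8 : (k⁻¹ * c * k) • a = a := by
    rw [← hj]
    exact MulAction.mem_stabilizer_iff.mp
      (Subgroup.zpow_mem _ (MulAction.mem_stabilizer_iff.mpr ((h4 a).mpr rfl)) j)
  rwa [mul_smul, mul_smul, inv_smul_eq_iff] at h8

end Cfsg.Agent.S5911
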