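import Cfsg.Statements.S5912
import Mathlib
import Cfsg.Agent.H10.Sym3

set_option autoImplicit false
open Cfsg

namespace Cfsg.Agent.S5912

/-- The symmetric group on a 6-element set Ω has exactly two conjugacy classes of subgroups of index 6: there are two non-conjugate subgroups of index 6 (a point stabilizer and a transitive subgroup isomorphic to S₅), and every subgroup of index 6 is conjugate to one of them. -/
theorem result {Ω : Type*} [Fintype Ω] [DecidableEq Ω] (h6 : Fintype.card Ω = 6) :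
    ∃ H₁ H₂ : Subgroup (Equiv.Perm Ω), H₁.index = 6 ∧ H₂.index = 6 ∧
      (¬ ∃ g : Equiv.Perm Ω, Subgroup.map (MulAut.conj g).toMonoidHom H₁ = H₂) ∧
      ∀ H : Subgroup (Equiv.Perm Ω), H.index = 6 →
        ∃ g : Equiv.Perm Ω, Subgroup.map (MulAut.conj g).toMonoidHom H₁ = H ∨ Subgroup.map (MulAut.conj g).toMonoidHom H₂ = H := by
  obtain ⟨ψ, h1, h2⟩ := H10.exists_outer_six h6
  obtain ⟨x⟩ := Fintype.card_pos_iff.mp (show 0 < Fintype.card Ω by omega)
  refine ⟨MulAction.stabilizer _ x, (MulAction.stabilizer _ x).map ψ.toMonoidHom,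
    (H10.index_stabilizer_perm x).trans h6, ?_, fun ⟨g, hg⟩ => ?_, fun H hH => ?_⟩
  · exact (Subgroup.index_map_equiv _ ψ).trans ((H10.index_stabilizer_perm x).trans h6)
  · exact h1 _ _ (hg.symm.trans (H10.map_conj_stabilizer g x))
  · obtain ⟨a, rfl | rfl⟩ := h2 H hH
    · exact ⟨Equiv.swap x a, Or.inl (by rw [H10.map_conj_stabilizer, Equiv.swap_apply_left])⟩
    · refine ⟨ψ (Equiv.swap x a), Or.inr ?_⟩
      rw [← Equiv.swap_apply_left x a, ← H10.map_conj_stabilizer, Equiv.swap_apply_left,
        Subgroup.map_map, Subgroup.map_map]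
      congr 1
      ext1 g; simp [← map_inv]

end Cfsg.Agent.S5912
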