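import Cfsg.Statements.S5939
import Mathlib
import Cfsg.Agent.H10.PSL2Max2

set_option autoImplicit false
open Cfsg

namespace Cfsg.Agent.S5939

/-- Let p be a prime and F a finite field of characteristic p such that either F has p elements and p ≡ ±1 (mod 10), or F has p² elements and p ≡ ±3 (mod 10). Then PSL_2(F) has a maximal subgroup isomorphic to the alternating group A_5. -/
theorem result {F : Type*} [Field F] [Fintype F] (p : ℕ) [Fact p.Prime] [CharP F p] (h : (Fintype.card F = p ∧ (p % 10 = 1 ∨ p % 10 = 9)) ∨ (Fintype.card F = p ^ 2 ∧ (p % 10 = 3 ∨ p % 10 = 7))) : ∃ H : Subgroup (Matrix.ProjectiveSpecialLinearGroup (Fin 2) F), IsCoatom H ∧ Nonempty (H ≃* alternatingGroup (Fin 5)) := by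
  rw [← Nat.card_eq_fintype_card] at h
  obtain ⟨H, ⟨e⟩⟩ := H10.exists_A5 (F := F) ((H10.five_dvd_iff Nat.card_pos).2 (by
    rcases h with h | ⟨h, h'⟩
    · omega
    · rw [h, Nat.pow_mod]
      rcases (by omega : p % 5 = 3 ∨ p % 5 = 2) with k | k <;> simp [k]))
  exact H10.exists_isCoatom_psl (H10.A5_covBy p h e) e

end Cfsg.Agent.S5939
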