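import Cfsg.Statements.S5947
import Mathlib
import Cfsg.Agent.H10.Singer
import Cfsg.Agent.L0.GLn4
import Cfsg.Agent.L0.Zsig

set_option autoImplicit false
open Cfsg

namespace Cfsg.Agent.S5947

open Polynomial

theorem prime_of {p k a : ℕ} (hp : p.Prime) (hk : 0 < k) (h : p ^ k + 1 = 2 ^ a) : k = 1 := by
  have h2 : 2 ≤ p ^ k := hp.two_le.trans (Nat.le_self_pow hk.ne' p)
  obtain ⟨a, rfl⟩ : ∃ b, a = b + 2 := by
    rcases a with _ | _ | a
    · omega
    · omega
    · exact ⟨a, rfl⟩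
  rcases Nat.even_or_odd' k with ⟨j, rfl | rfl⟩
  · exfalso
    have h3 : (p ^ j * p ^ j + 1) % 4 = 0 := by rw [← pow_add, ← two_mul, h, pow_add]; omega
    generalize p ^ j = x at h3
    have : x % 4 < 4 := Nat.mod_lt _ (by norm_num)
    rw [Nat.add_mod, Nat.mul_mod] at h3
    interval_cases x % 4 <;> simp at h3
  · obtain ⟨c, rfl⟩ : Odd p := by
      by_contra hc
      have := (Nat.even_pow' hk.ne').mpr (Nat.not_odd_iff_even.mp hc)
      have h4 : Even (2 ^ (a + 2)) := (Nat.even_pow' (by omega)).mpr even_two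
      rw [← h] at h4
      exact Nat.even_add_one.mp h4 this
    have h3 : (2 * c + 1) ^ 2 ≡ 1 [MOD 2 * (2 * c + 1 + 1)] :=
      ((Nat.modEq_iff_dvd' (Nat.one_le_pow _ _ (by omega))).mpr ⟨c, by
        apply Nat.sub_eq_of_eq_add; ring⟩).symm
    have h4 := ((h3.pow j).mul_right (2 * c + 1)).add_right 1
    rw [← pow_mul, ← pow_succ, one_pow, one_mul, h] at h4
    have h5 : 2 * c + 1 + 1 ∣ 2 ^ (a + 2) :=
      (h4.of_mul_left 2).dvd_iff dvd_rfl |>.mpr dvd_rfl
    obtain ⟨b, hb, h6⟩ := (Nat.dvd_prime_pow Nat.prime_two).mp h5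
    rcases hb.eq_or_lt with rfl | hb
    · have h7 : (2 * c + 1) ^ (2 * j + 1) = (2 * c + 1) ^ 1 := by rw [pow_one]; omega
      exact Nat.pow_right_injective hp.two_le h7
    · have h7 : 2 * (2 * c + 1 + 1) ∣ 2 ^ (a + 2) := by
        rw [h6, ← pow_succ']; exact pow_dvd_pow _ hb
      have := Nat.le_of_dvd (by omega) ((h4.dvd_iff dvd_rfl).mp h7)
      omega

theorem eq_singleton {F : Type*} [Field F] {s : Multiset F[X]} (hs : ∀ u ∈ s, L0.Prim u) {u : F[X]}
    (hu : u ∈ s) (h : (s.map natDegree).sum = u.natDegree) : s = {u} := by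
  obtain ⟨t, rfl⟩ := Multiset.exists_cons_of_mem hu
  obtain rfl : t = 0 := by
    by_contra ht
    obtain ⟨v, hv⟩ := Multiset.exists_mem_of_ne_zero ht
    have h1 := (hs v (Multiset.mem_cons_of_mem hv)).natDegree_pos
    have h2 := Multiset.single_le_sum (s := t.map natDegree) (fun _ _ => Nat.zero_le _) _
      (Multiset.mem_map_of_mem _ hv)
    simp at h
    omega
  rfl


/-- Let F ⊆ K be finite fields with |F| = q and [K : F] = n ≥ 2, regard K as an n-dimensional F-vector space, and let M ≤ GL_F(K) be the Singer group of multiplications by non-zero elements of K (cyclic of order q^n − 1). Assume (n, q) ≠ (6, 2), and that it is not the case that n = 2 with q a prime such that q + 1 is a power of 2. Then every abelian subgroup of GL_F(K) of order q^n − 1 is conjugate to M. -/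
theorem result {F K : Type*} [Field F] [Fintype F] [Field K] [Fintype K] [Algebra F K] (n : ℕ) (hn : 2 ≤ n) (hdim : Module.finrank F K = n)
    (hex1 : ¬ (n = 6 ∧ Fintype.card F = 2))
    (hex2 : ¬ (n = 2 ∧ (Fintype.card F).Prime ∧ ∃ a : ℕ, Fintype.card F + 1 = 2 ^ a))
    (U : Subgroup (Module.End F K)ˣ) (hU : IsMulCommutative U) (hcard : Nat.card U = Fintype.card K - 1) :
    ∃ g : (Module.End F K)ˣ, U.map (MulAut.conj g).toMonoidHom = (Units.map ((Algebra.lmul F K : K →ₐ[F] Module.End F K) : K →* Module.End F K)).range := by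
  classical
  have : Finite (Module.End F K) := Finite.of_injective _ DFunLike.coe_injective
  obtain ⟨r, hr, hord⟩ := L0.zsigmondy (a := Fintype.card F) (n := n) Fintype.one_lt_card hn
    (fun h => hex1 ⟨h.2, h.1⟩) (fun ⟨h1, a, ha⟩ => hex2 ⟨h1, by
      obtain ⟨p, _, ⟨k, hk0⟩, hp, hk⟩ := FiniteField.card' F
      rw [hk] at ha ⊢
      obtain rfl := prime_of hp hk0 ha
      simpa using hp, a, ha⟩)
  have hK : Fintype.card K = Fintype.card F ^ n := by
    rw [← hdim]; exact Module.card_eq_pow_finrank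
  have hrd : r ∣ Fintype.card F ^ n - 1 :=
    (L0.dvd_pow_sub_one_iff Fintype.card_pos r n).mpr (by rw [hord])
  have := Fact.mk hr
  obtain ⟨x, hx⟩ := exists_prime_orderOf_dvd_card' (G := U) r (by rwa [hcard, hK])
  have hx1 : (x.1.1 : Module.End F K) ^ r = 1 := by
    rw [← Units.val_pow_eq_pow_val, ← Subgroup.coe_pow, ← hx, pow_orderOf_eq_one]; rfl
  have h1 := (L0.aeval_eq_zero_iff_tyE x.1.1 (X ^ r - 1)).mp (by simp [hx1])
  obtain ⟨u, hu, hu1⟩ : ∃ u ∈ L0.tyE x.1.1, u ≠ X - 1 := by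
    by_contra hc
    push Not at hc
    have h2 := (L0.aeval_eq_zero_iff_tyE x.1.1 (X - 1)).mpr fun u hu => by rw [hc u hu]
    have h3 : x = 1 := Subtype.ext (Units.ext (by simpa [sub_eq_zero] using h2))
    rw [h3, orderOf_one] at hx
    exact hr.one_lt.ne hx
  have hr0 : (r : F) ≠ 0 := L0.natCast_ne_zero_of_dvd (d := n) (by omega)
    (by rwa [Nat.card_eq_fintype_card])
  have hi : Irreducible u := (L0.prim_of_mem_tyE hu).irreducible_of_squarefree
    (separable_X_pow_sub_C 1 hr0 one_ne_zero).squarefree (h1 u hu)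
  have hm := (L0.prim_of_mem_tyE hu).monic
  have hd : u.natDegree = n := by
    rw [L0.natDegree_eq_orderOf_of_prime hi hm hr (h1 u hu) hu1, Nat.card_eq_fintype_card, hord]
  have h2 := eq_singleton (fun _ => L0.prim_of_mem_tyE) hu
    (by rw [← L0.finrank_eq_sum_tyE, hd, hdim])
  obtain ⟨a, ha⟩ : ∃ a : K, aeval a u = 0 := by
    have := Fact.mk hi
    have := L0.finite_adjoinRoot' hi.ne_zero
    obtain ⟨f⟩ := FiniteField.nonempty_algHom_of_finrank_dvd (F := F) (K := AdjoinRoot u) (L := K)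
      (by rw [L0.finrank_adjoinRoot hi.ne_zero, hd, hdim])
    exact ⟨f (AdjoinRoot.root u), by rw [aeval_algHom_apply, AdjoinRoot.aeval_eq,
      AdjoinRoot.mk_self, map_zero]⟩
  have h3 : ∀ v ∈ L0.tyE (Algebra.lmul F K a), v = u := fun v hv => by
    have h4 := (L0.aeval_eq_zero_iff_tyE (Algebra.lmul F K a) u).mp
      (by rw [aeval_algHom_apply, ha, map_zero]) v hv
    have h5 := (L0.prim_of_mem_tyE hv).irreducible_of_squarefree hi.squarefree h4
    exact eq_of_monic_of_associated (L0.prim_of_mem_tyE hv).monic hm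
      (h5.associated_of_dvd hi h4)
  have h4 : L0.tyE (Algebra.lmul F K a) = {u} := by
    have h5 := L0.finrank_eq_sum_tyE (Algebra.lmul F K a)
    obtain ⟨v, hv⟩ := Multiset.exists_mem_of_ne_zero (s := L0.tyE (Algebra.lmul F K a))
      (fun h => by rw [h] at h5; simp at h5; omega)
    exact eq_singleton (fun _ => L0.prim_of_mem_tyE) (h3 v hv ▸ hv) (by rw [← h5, hd, hdim])
  obtain ⟨e, he⟩ := (L0.tyE_eq_iff _ _).mp (h2.trans h4.symm)
  let g : (Module.End F K)ˣ := ⟨e.toLinearMap, e.symm.toLinearMap, by ext; simp, by ext; simp⟩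
  refine ⟨g, Subgroup.eq_of_le_of_card_ge ?_ (by
    rw [H10.card_singer, Subgroup.card_map_of_injective (MulAut.conj g).injective, hcard])⟩
  rintro _ ⟨y, hy, rfl⟩
  refine H10.mem_singer_of_adjoin (s := {a}) ?_ ?_
  · rw [← IntermediateField.adjoin_toSubalgebra_of_isAlgebraic
      (fun x _ => Algebra.IsAlgebraic.isAlgebraic x)]
    refine congrArg IntermediateField.toSubalgebra
      ((Field.primitive_element_iff_minpoly_natDegree_eq F a).mpr ?_)
    rw [← minpoly.eq_of_irreducible_of_monic hi ha hm, hd, hdim]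
  · rintro _ rfl v
    obtain ⟨v, rfl⟩ := e.surjective v
    have h5 : y.1 (x.1.1 v) = x.1.1 (y.1 v) :=
      congrArg (fun f : U => f.1.1 v) (hU.1.1 ⟨y, hy⟩ x)
    change e (y.1 (e.symm (Algebra.lmul F K _ (e v)))) = Algebra.lmul F K _ (e (y.1 (e.symm (e v))))
    rw [← he, ← he, e.symm_apply_apply, e.symm_apply_apply, h5]

end Cfsg.Agent.S5947
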